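import Cfsg.Statements.S4931
import Cfsg.Agent.Char.Kernel
import Cfsg.Agent.Char.Ito
import Cfsg.Agent.Char.Integrality
import Cfsg.Agent.Transfer.Tate
import Cfsg.Agent.Grp.PNilp
import Cfsg.Agent.Grp.SylowIn
import Cfsg.Agent.Grp.MinNormal
import Cfsg.Agent.Grp.PGroupFrattini

set_option autoImplicit false
open Cfsg

namespace Cfsg.Agent.S4931

theorem aux1 {G : Type*} [Group G] [Finite G] (Q : Subgroup G) [Q.Normal] {χ : G → ℂ}
    (hχ : IsIrrCharacter G χ) (h : ⁅Q, Q⁆ ≤ CL.Char.charKer χ) : charDegree χ ∣ Q.index := by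
  obtain ⟨ψ, hψ, rfl⟩ := hχ.exists_quotient _ h
  have := Subgroup.Normal.map ‹Q.Normal› _ (QuotientGroup.mk'_surjective ⁅Q, Q⁆)
  refine (CL.Char.isIrr_degree_dvd_index_of_abelian_normal hψ hχ.cast_charDegree.symm
    (Q.map (QuotientGroup.mk' ⁅Q, Q⁆)) ?_).trans
    (Q.index_map_dvd (QuotientGroup.mk'_surjective _))
  rintro _ ⟨a, ha, rfl⟩ _ ⟨b, hb, rfl⟩
  rw [← commutatorElement_eq_one_iff_mul_comm, ← map_commutatorElement]
  exact (QuotientGroup.eq_one_iff _).2 (Subgroup.commutator_mem_commutator ha hb)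

theorem aux2 {M Q : Type*} [Group M] [Finite M] [Group Q] {p : ℕ} [Fact p.Prime] (P : Sylow p M)
    (hP : Subgroup.normalizer ((P : Subgroup M) : Set M) ≤ P) (f : M →* Q)
    (hf : ⁅(P : Subgroup M), (P : Subgroup M)⁆ ≤ f.ker) : (P : Subgroup M) ⊓ pResidual p M ≤ f.ker := by
  have hs := f.rangeRestrict_surjective
  have : Finite f.range := Finite.of_surjective _ hs
  have h1 : HasNormalPComplement p f.range := by
    refine CL.Grp.hasNormalPComplement_of_normalizer_le_centralizer (P.mapSurjective hs) fun y hy => ?_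
    obtain ⟨g, rfl⟩ := hs y
    have h2 : g ∈ Subgroup.normalizer ((((P.mapSurjective hs : Sylow p f.range) :
        Subgroup f.range).comap f.rangeRestrict : Subgroup M) : Set M) :=
      Subgroup.le_normalizer_comap _ hy
    obtain ⟨n, hn, h3⟩ := (CL.Grp.isSylowIn_of_le P (Subgroup.le_comap_map _ _)).frattini le_rfl h2
    have h4 : f.rangeRestrict g ∈ (P.mapSurjective hs : Subgroup f.range) := by
      have := Subgroup.mul_mem _ (Subgroup.inv_mem _ hn) (Subgroup.mem_map_of_mem f.rangeRestrict (hP h3))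
      rwa [inv_mul_cancel_left] at this
    obtain ⟨a, ha, h5⟩ := h4
    rintro _ ⟨b, hb, rfl⟩
    rw [← h5, ← commutatorElement_eq_one_iff_mul_comm, ← map_commutatorElement]
    exact Subtype.ext (hf (Subgroup.commutator_mem_commutator hb ha))
  intro x hx
  have h2 := (CL.Grp.hasNormalPComplement_iff_inf_eq_bot (P.mapSurjective hs)).1 h1
  have h3 : f.rangeRestrict x ∈ (P.mapSurjective hs : Subgroup f.range) ⊓ pResidual p f.range :=
    ⟨Subgroup.mem_map_of_mem _ hx.1, CL.Grp.map_pResidual_le _ (Subgroup.mem_map_of_mem _ hx.2)⟩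
  rw [h2, Subgroup.mem_bot] at h3
  exact congrArg Subtype.val h3


/-- Let G be a finite group, p a prime and P a Sylow p-subgroup of G with normalizer N. Then every irreducible complex character of N of degree not divisible by p is the restriction of an irreducible character of G if and only if there is a normal subgroup K of G with KN = G and K ∩ N = 1. -/
theorem result {G : Type*} [Group G] [Finite G] (p : ℕ) [Fact p.Prime] (P : Sylow p G) :
    (∀ θ : Cfsg.IrrCharacter ↥(Subgroup.normalizer ((P : Subgroup G) : Set G)), ¬ p ∣ Cfsg.charDegree (θ : ↥(Subgroup.normalizer ((P : Subgroup G) : Set G)) → ℂ) →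
        ∃ χ : Cfsg.IrrCharacter G, ∀ x : ↥(Subgroup.normalizer ((P : Subgroup G) : Set G)), (χ : G → ℂ) x = (θ : ↥(Subgroup.normalizer ((P : Subgroup G) : Set G)) → ℂ) x) ↔
      ∃ K : Subgroup G, K.Normal ∧ K ⊔ Subgroup.normalizer ((P : Subgroup G) : Set G) = ⊤ ∧ K ⊓ Subgroup.normalizer ((P : Subgroup G) : Set G) = ⊥ := by
  set N := Subgroup.normalizer ((P : Subgroup G) : Set G) with hN
  have hPN : (P : Subgroup G) ≤ N := Subgroup.le_normalizer
  refine ⟨fun h => ?_, ?_⟩
  · set M := Subgroup.normalClosure ((P : Subgroup G) : Set G) with hM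
    have hPM : (P : Subgroup G) ≤ M := Subgroup.le_normalClosure
    set Q := (P : Subgroup G).subgroupOf N with hQ
    have hQn : Q.Normal := Subgroup.normal_in_normalizer
    have hQi : ¬ p ∣ Q.index := (P.subtype hPN).not_dvd_index
    have key : ∀ (R : Subgroup N) [R.Normal], ⁅Q, Q⁆ ≤ R → ∀ x : N, x ∉ R →
        ∃ χ : G → ℂ, IsIrrCharacter G χ ∧ (∀ y ∈ R, (y : G) ∈ CL.Char.charKer χ) ∧
          (x : G) ∉ CL.Char.charKer χ := fun R _ hR x hx => by
      obtain ⟨θ, hθ, h1, h2⟩ := CL.Char.exists_irr_le_charKer_not_mem R hx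
      obtain ⟨χ, hχ⟩ := h ⟨θ, hθ⟩ fun h3 => hQi (h3.trans (aux1 Q hθ (hR.trans h1)))
      have h4 : ∀ y : N, (y : G) ∈ CL.Char.charKer χ.1 ↔ y ∈ CL.Char.charKer θ := fun y => by
        rw [χ.2.mem_charKer, hθ.mem_charKer, hχ y, ← OneMemClass.coe_one N, hχ 1]
      exact ⟨χ, χ.2, fun y hy => (h4 y).2 (h1 hy), fun h5 => h2 ((h4 x).1 h5)⟩
    have hA : M ⊓ N ≤ P := fun x hx => by
      by_contra h1
      obtain ⟨χ, hχ, h2, h3⟩ := key Q (Subgroup.commutator_le_left Q Q) ⟨x, hx.2⟩ h1
      have := hχ.charKer_normal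
      exact h3 (Subgroup.normalClosure_le_normal (fun y hy => h2 ⟨y, hPN hy⟩ hy) hx.1)
    have hB : HasNormalPComplement p M := by
      refine CL.Transfer.hasNormalPComplement_of_inf_pResidual_le_frattini (P.subtype hPM)
        fun x hx => ?_
      by_cases h1 : (⟨x, hPN hx.1⟩ : N) ∈ ⁅Q, Q⁆
      · have h2 : (x : G) ∈ ⁅(P : Subgroup G), (P : Subgroup G)⁆ := by
          have := Subgroup.mem_map_of_mem N.subtype h1
          rwa [Subgroup.map_commutator, hQ, Subgroup.map_subgroupOf_eq_of_le hPN] at this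
        rw [← Subgroup.map_subgroupOf_eq_of_le hPM, ← Subgroup.map_commutator] at h2
        obtain ⟨y, hy, h3⟩ := h2
        obtain rfl : y = x := Subtype.ext h3
        rw [← Subgroup.map_subtype_commutator] at hy
        exact Subgroup.map_mono (CL.Grp.commutator_le_frattini (P.subtype hPM).isPGroup') hy
      · obtain ⟨χ, hχ, h2, h3⟩ := key _ le_rfl _ h1
        have := hχ.charKer_normal
        refine absurd ((QuotientGroup.eq_one_iff _).1 (aux2 (P.subtype hPM) (fun y hy => hA ⟨y.2, ?_⟩)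
          ((QuotientGroup.mk' (CL.Char.charKer χ)).comp M.subtype) ?_ hx)) h3
        · have h4 := Subgroup.le_normalizer_map M.subtype (Subgroup.mem_map_of_mem _ hy)
          rwa [Sylow.coe_subtype, Subgroup.map_subgroupOf_eq_of_le hPM] at h4
        · rw [Subgroup.commutator_le]
          intro a ha b hb
          have h5 := h2 _ (Subgroup.commutator_mem_commutator
            (show (⟨a, hPN ha⟩ : N) ∈ Q from ha) (show (⟨b, hPN hb⟩ : N) ∈ Q from hb))
          rw [MonoidHom.mem_ker, MonoidHom.comp_apply, QuotientGroup.mk'_apply,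
            QuotientGroup.eq_one_iff]
          simpa [commutatorElement_def] using h5
    refine ⟨(pResidual p M).map M.subtype, inferInstance, ?_, ?_⟩
    · have h1 := congrArg (Subgroup.map M.subtype) (CL.Grp.pResidual_sup_sylow (P.subtype hPM))
      rw [Subgroup.map_sup, Sylow.coe_subtype, Subgroup.map_subgroupOf_eq_of_le hPM,
        ← MonoidHom.range_eq_map, Subgroup.range_subtype] at h1
      rw [eq_top_iff, ← Sylow.normalizer_sup_eq_top' P hPM]
      exact sup_le le_sup_right (h1.ge.trans (sup_le le_sup_left (hPN.trans le_sup_right)))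
    · rw [eq_bot_iff]
      rintro _ ⟨⟨x, hx, rfl⟩, h1⟩
      have h2 : x ∈ (P.subtype hPM : Subgroup M) ⊓ pResidual p M := ⟨hA ⟨x.2, h1⟩, hx⟩
      rw [(CL.Grp.hasNormalPComplement_iff_inf_eq_bot _).1 hB, Subgroup.mem_bot] at h2
      rw [h2, map_one]
      exact Subgroup.one_mem _
  · rintro ⟨K, hK, h1, h2⟩ θ -
    have h3 := CL.Grp.isComplement'_of_normal h2 h1
    let e : G ⧸ K ≃* N := h3.symm.QuotientMulEquiv
    have h4 : ∀ x : N, e (x : G) = x := fun x => e.symm.injective (by
      rw [MulEquiv.symm_apply_apply]; rfl)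
    refine ⟨⟨fun g => (θ : N → ℂ) ((e.toMonoidHom.comp (QuotientGroup.mk' K)) g),
      (CL.Char.isIrrCharacter_comp_iff θ.2.isCharacter _
        (e.surjective.comp (QuotientGroup.mk'_surjective K))).2 θ.2⟩, fun x => ?_⟩
    exact congrArg θ.1 (h4 x)

end Cfsg.Agent.S4931
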