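import Cfsg.Statements.S2522
import Cfsg.Agent.Cls.ProdLev
-- import your own Cfsg.Agent.* helpers here

set_option autoImplicit false
open Cfsg

namespace Cfsg.Agent.S2522

/-- Let K be a field with at least four elements (finite or infinite), n ≥ 3, and J ∈ GL(n, K) the regular unipotent matrix (ones on the diagonal and the superdiagonal, zeros elsewhere). Then every non-scalar g ∈ GL(n, K) with det g = 1 is a product of two GL(n, K)-conjugates of J. -/
theorem result {K : Type*} [Field K] (hK : 4 ≤ Cardinal.mk K) (n : ℕ) (hn : 3 ≤ n) (J g : GL (Fin n) K)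
    (hJ : ∀ i j : Fin n, (J : Matrix (Fin n) (Fin n) K) i j = if i = j then 1 else if j.val = i.val + 1 then 1 else 0)
    (hg : ¬ ∃ c : K, (g : Matrix (Fin n) (Fin n) K) = c • (1 : Matrix (Fin n) (Fin n) K))
    (hdet : (g : Matrix (Fin n) (Fin n) K).det = 1) :
    ∃ x y : GL (Fin n) K, g = (x * J * x⁻¹) * (y * J * y⁻¹) := by
  have h4 : ∀ a b c : K, ∃ x, x ≠ a ∧ x ≠ b ∧ x ≠ c := fun a b c ↦ by
    obtain ⟨x, hx⟩ := Cardinal.exists_notMem_of_length_lt [a, b, c]
      (lt_of_lt_of_le (by norm_num) hK)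
    exact ⟨x, by simpa [not_or] using hx⟩
  have e : (J : Matrix (Fin n) (Fin n) K) = 1 + (CL.SLn.sh K n).transpose := by
    ext i j
    rw [hJ]
    simp only [Matrix.add_apply, Matrix.one_apply, Matrix.transpose_apply, CL.SLn.sh,
      Matrix.of_apply]
    by_cases h : i = j
    · subst h; simp
    · simp [h]
  obtain ⟨x, y, h⟩ := CL.SLn.lev_unipotent h4 hn hdet fun c hc ↦ hg ⟨c, hc⟩
  exact ⟨x, y, Units.ext (by simpa [e] using h)⟩

end Cfsg.Agent.S2522
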