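import Cfsg.Statements.S3977
import Cfsg.Agent.Fgs.PCount2

set_option autoImplicit false
open Cfsg

namespace Cfsg.Agent.S3977

/-- Let `p` be a prime and `G` a group of order `p ^ m` which has exactly one subgroup of order `p ^ s`, where `1 ≤ s < m`, and where `s ≥ 2` if `p = 2`. Then `G` is cyclic. (For `p = 2` and `s = 1` the generalized quaternion groups also occur; that case is the classical criterion for a unique involution.) -/
theorem result {G : Type*} [Group G] [Finite G] (p m s : ℕ) (hp : p.Prime) (hG : Nat.card G = p ^ m) (hs : 1 ≤ s) (hsm : s < m) (h2 : p ≠ 2 ∨ 2 ≤ s) (huniq : ∀ H K : Subgroup G, Nat.card H = p ^ s → Nat.card K = p ^ s → H = K) : IsCyclic G := by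
  have := Fact.mk hp
  have hP : IsPGroup p G := IsPGroup.of_card hG
  by_contra hnc
  by_cases hE : ∃ E : Subgroup G, E.Normal ∧ IsElementaryAbelian p E ∧ Nat.card E = p ^ 2
  · obtain ⟨E, hEn, hE, hc⟩ := hE
    have h := CL.Fgs.numSub_add_mul_cyclic_modEq (G := G) (p := p) (k := s) (hG ▸ pow_dvd_pow p hsm)
    change _ + p * (CL.Fgs.cycSub G (p ^ (s + 1))).ncard ≡ _ [MOD _] at h
    have h1 := Nat.modEq_zero_iff_dvd.2 (CL.Fgs.dvd_ncard_cycSub hP hE hc hs fun h => h2.resolve_left (not_not.2 h))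
    have h3 := (Nat.ModEq.refl (CL.Fgs.numSub G (p ^ s))).add (h1.mul_left' p)
    rw [← pow_two] at h3
    have h4 : CL.Fgs.numSub G (p ^ s) ≡ 1 + p [MOD p ^ 2] := by simpa using h3.symm.trans h
    have h5 : CL.Fgs.numSub G (p ^ s) = 1 := by
      obtain ⟨K, hK⟩ := Sylow.exists_subgroup_card_pow_prime (G := G) p (n := s) (hG ▸ pow_dvd_pow p hsm.le)
      rw [CL.Fgs.numSub_eq_ncard, Set.ncard_eq_one]
      exact ⟨K, Set.eq_singleton_iff_unique_mem.2 ⟨hK, fun H hH => huniq H K hH hK⟩⟩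
    rw [h5] at h4
    have h6 := Nat.le_of_dvd hp.pos ((Nat.modEq_iff_dvd' (Nat.le_add_right 1 p)).1 h4 |>.trans (by simp))
    have := hp.two_le
    nlinarith
  push Not at hE
  rcases CL.Grp.isCyclic_or_dqsGen_of_forall_normal hP hE with h | ⟨rfl, n, a, b, h⟩
  · exact hnc h
  have hs2 : 2 ≤ s := h2.resolve_left (not_not.2 rfl)
  have hm : m = n + 1 := Nat.pow_right_injective (le_refl 2) (hG.symm.trans h.card)
  obtain ⟨t, rfl⟩ : ∃ t, s = t + 1 := ⟨s - 1, by omega⟩
  have hn := h.normal_zpowers_zpow ((2 ^ (n - t) : ℕ) : ℤ)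
  rw [zpow_natCast] at hn
  have hle : ∀ j, Subgroup.zpowers (a ^ 2 ^ j) ≤ Subgroup.zpowers a := fun j =>
    Subgroup.zpowers_le.2 (Subgroup.pow_mem _ (Subgroup.mem_zpowers a) _)
  have h1 := CL.Grp.card_sup_zpowers_eq_prime_mul (p := 2) (Subgroup.zpowers (a ^ 2 ^ (n - t))) (x := b)
    (fun hb => h.notMem (hle _ hb)) (by
      rcases h.sq_eq with h3 | h3
      · rw [h3]; exact one_mem _
      · rw [h3, show n - 1 = (n - t) + (t - 1) by omega, pow_add, pow_mul]
        exact Subgroup.pow_mem _ (Subgroup.mem_zpowers _) _)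
  rw [Nat.card_zpowers, h.orderOf_pow_two_pow (by omega), show n - (n - t) = t by omega, ← pow_succ'] at h1
  have h3 : Nat.card (Subgroup.zpowers (a ^ 2 ^ (n - (t + 1)))) = 2 ^ (t + 1) := by
    rw [Nat.card_zpowers, h.orderOf_pow_two_pow (by omega)]
    congr 1; omega
  have h4 := huniq _ _ h1 h3
  exact h.notMem (hle _ (h4 ▸ Subgroup.mem_sup_right (Subgroup.mem_zpowers b)))

end Cfsg.Agent.S3977
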