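import Cfsg.Statements.S1313
import Cfsg.Agent.Loc.FStar

set_option autoImplicit false
open Cfsg

namespace Cfsg.Agent.S1313

theorem card_mul_card_aut_le (F : Type*) [Group F] [Finite F] :
    Nat.card F * Nat.card (MulAut F) ≤ Nat.factorial (Nat.card F) := by
  classical
  have : Finite (MulAut F) := Finite.of_injective (fun e : MulAut F => e.toEquiv) MulEquiv.toEquiv_injective
  rw [← Nat.card_prod, ← Nat.card_perm]
  refine Nat.card_le_card_of_injective
    (fun x : F × MulAut F => x.2.toEquiv.trans (Equiv.mulLeft x.1)) ?_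
  rintro ⟨a, α⟩ ⟨b, β⟩ h
  have h1 : ∀ y, a * α y = b * β y := fun y => congrArg (fun e : Equiv.Perm F => e y) h
  have hab : a = b := by simpa using h1 1
  subst hab
  have : α = β := by
    ext y
    exact mul_left_cancel (h1 y)
  rw [this]


/-- For a finite group H, |H| ≤ |F*(H)|!. -/
theorem result {H : Type*} [Group H] [Finite H] : Nat.card H ≤ Nat.factorial (Nat.card ↥(Cfsg.generalizedFittingSubgroup H)) := by
  set F := Cfsg.generalizedFittingSubgroup H
  have : Finite (MulAut F) := Finite.of_injective (fun e : MulAut F => e.toEquiv) MulEquiv.toEquiv_injective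
  let f : H →* MulAut F := MulAut.conjNormal
  have hk : f.ker ≤ F := by
    intro x hx
    apply CL.Loc.centralizer_fstar_le
    rw [Subgroup.mem_centralizer_iff]
    intro y hy
    have := congrArg (fun e : MulAut F => (e ⟨y, hy⟩ : H)) (MonoidHom.mem_ker.mp hx)
    simp only [f, MulAut.conjNormal_apply, MulAut.one_apply] at this
    rw [mul_inv_eq_iff_eq_mul] at this
    exact this.symm
  refine le_trans ?_ (card_mul_card_aut_le F)
  rw [← Subgroup.card_mul_index f.ker, Subgroup.index_ker]
  exact Nat.mul_le_mul (Subgroup.card_le_of_le hk) (Subgroup.card_le_card_group _)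

end Cfsg.Agent.S1313
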