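import Cfsg.Statements.S0621
import Cfsg.Agent.Loc.FFMain

set_option autoImplicit false
open Cfsg

namespace Cfsg.Agent.S0621

/-- Let K be p-separable with O_p'(K) = 1, normalized by an elementary abelian q-group X for a prime q not dividing the order of K. If the Thompson factorization fails in K, then p is 2 or 3 and the fixed points of X contain a plane W of order p² and a subgroup inducing SL(2, p) on it. -/
theorem result {G : Type*} [Group G] [Finite G] {p : ℕ} [Fact p.Prime] {q : ℕ} [Fact q.Prime] (K X : Subgroup G) (hXK : X ≤ Subgroup.normalizer (K : Set G)) (hX : Cfsg.IsElementaryAbelian q X) (hq : ¬ q ∣ Nat.card K) (hsep : Cfsg.IsPSolvable p ↥K) (hO : Cfsg.pPrimeCore p ↥K = ⊥) (hnf : ¬ Cfsg.IsThompsonFactorizable p ↥K) : (p = 2 ∨ p = 3) ∧ ∃ W D : Subgroup G, W ≤ K ⊓ Subgroup.centralizer (X : Set G) ∧ D ≤ K ⊓ Subgroup.centralizer (X : Set G) ∧ Cfsg.IsElementaryAbelian p W ∧ Nat.card W = p ^ 2 ∧ D ≤ Subgroup.normalizer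 (W : Set G) ∧ ∃ hn : ((Subgroup.centralizer (W : Set G)).subgroupOf D).Normal, Nonempty ((↥D ⧸ (Subgroup.centralizer (W : Set G)).subgroupOf D) ≃* Matrix.SpecialLinearGroup (Fin 2) (ZMod p)) := by
  obtain ⟨Γ, _, _, π, ι, Y, h, hF, hYV, hYH, hY, hq', hfix, hv⟩ :=
    CL.Loc.exists_op_setup (p := p) K X hXK (CL.Loc.ea_isPGroup hX) hq hsep hO
  have := CL.Loc.sylV_normal (p := p) (G := K)
  have hV := CL.Loc.ea_sylV (CL.Loc.centralizer_pCore_le_of_isPSolvable hsep hO)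
  have hg := h.thompson_gen hV hF
  obtain ⟨A, hA⟩ := CL.Loc.FFHyp.exists_isTv hg fun e => hnf ((CL.Loc.isThompsonFactorizable_iff hO).2
    (h.ker_eq ▸ (Subgroup.map_eq_bot_iff _).1 e))
  obtain ⟨W, hW, hn⟩ := hF.op_exists_natural hYV hYH hY hq' hA hg
  have hn' := CL.Loc.natSL2_map K.subtype_injective (h.natural_comap (hW.trans inf_le_left) (hfix ▸ hn))
  refine ⟨hF.two_or_three hA, _, _, ?_, ?_, CL.Loc.ea_map (CL.Loc.ea_mono hV (Subgroup.map_subtype_le _)) _,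
    by rw [CL.Loc.card_of_natSL2 hn', Nat.card_zmod], hn'.1,
    CL.Loc.nonempty_quotient_equiv_of_naturalSL2Module hn'⟩
  · rintro _ ⟨_, ⟨v, hv', rfl⟩, rfl⟩
    exact ⟨(v : K).2, hv v (hW hv').2⟩
  · rintro _ ⟨d, hd, rfl⟩
    exact ⟨d.2, hd.2⟩

end Cfsg.Agent.S0621
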