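import Cfsg.Statements.S0098
import Cfsg.Agent.Grp.ExtraBasic

set_option autoImplicit false
open Cfsg

namespace Cfsg.Agent.S0098

/-- For odd p, extraspecial p-groups of exponent p are determined up to isomorphism by their order. -/
theorem result {E₁ : Type*} {E₂ : Type*} [Group E₁] [Group E₂] [Finite E₁] [Finite E₂] {p : ℕ} [Fact p.Prime] (hp : p ≠ 2) (h₁ : Cfsg.IsExtraspecial p E₁) (h₂ : Cfsg.IsExtraspecial p E₂) (he₁ : Monoid.exponent E₁ = p) (he₂ : Monoid.exponent E₂ = p) (hc : Nat.card E₁ = Nat.card E₂) : Nonempty (E₁ ≃* E₂) := by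
  obtain ⟨n, H₁, -, -, hN₁, hn⟩ := CL.Grp.extra_exists_heis h₁
  obtain ⟨H₂, -, -, hN₂⟩ := CL.Grp.extra_exists_heis_of_card h₂ (hc ▸ hn)
  obtain ⟨f, hf⟩ := CL.Grp.exists_isometry_of_isAlt H₁.B_isAlt hN₁ H₂.B_isAlt hN₂ rfl
  have q₁ : ∀ v, H₁.q v = 0 := fun v => by
    obtain ⟨a, rfl⟩ := H₁.π_surj v
    exact H₁.q_eq_zero_iff.mpr (he₁ ▸ Monoid.pow_exponent_eq_one a)
  have q₂ : ∀ v, H₂.q v = 0 := fun v => by
    obtain ⟨a, rfl⟩ := H₂.π_surj v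
    exact H₂.q_eq_zero_iff.mpr (he₂ ▸ Monoid.pow_exponent_eq_one a)
  obtain ⟨φ, -⟩ := H₁.exists_mulEquiv H₂ f hf (fun v => by rw [q₁, q₂])
  exact ⟨φ⟩

end Cfsg.Agent.S0098
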