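import Cfsg.Statements.S0689
import Cfsg.Agent.Perm.FCReg2

set_option autoImplicit false
open Cfsg

namespace Cfsg.Agent.S0689

/-- The insoluble sharply doubly transitive groups: a non-solvable linear group over the prime field that is regular on the non-zero vectors of `V` occurs only for `|V| = 11², 29², 59²`, and is `SL(2,5) × C_m` with `m = 1, 7, 29` respectively. -/
theorem result {p : ℕ} [Fact p.Prime] {V : Type*} [AddCommGroup V] [Module (ZMod p) V] [Finite V] (H : Subgroup (V ≃ₗ[ZMod p] V)) (hreg : ∀ v w : V, v ≠ 0 → w ≠ 0 → ∃! h : H, (h : V ≃ₗ[ZMod p] V) v = w) (hsolv : ¬ Group.IsSolvable H) : (Nat.card V = 121 ∧ Nonempty (H ≃* Matrix.SpecialLinearGroup (Fin 2) (ZMod 5))) ∨ (Nat.card V = 841 ∧ Nonempty (H ≃* Matrix.SpecialLinearGroup (Fin 2) (ZMod 5) × Multiplicative (ZMod 7))) ∨ (Nat.card V = 3481 ∧ Nonempty (H ≃* Matrix.SpecialLinearGroup (Fin 2) (ZMod 5) × Multiplicative (ZMod 29))) := by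
  have hreg' : CL.Perm.IsReg H := hreg
  have hfin := CL.Perm.finite_linearEquiv (p := p) (V := V)
  obtain ⟨m, hm, M, hM, ⟨e⟩⟩ := hreg'.card_of_not_isSolvable hsolv
  have key : ∀ q : ℕ, q.Prime → Nat.card M = q →
      Nonempty (H ≃* Matrix.SpecialLinearGroup (Fin 2) (ZMod 5) × Multiplicative (ZMod q)) := by
    intro q hq hMq
    have := Fact.mk hq
    exact ⟨e.trans ((MulEquiv.refl _).prodCongr (mulEquivOfPrimeCardEq hMq (by simp)))⟩
  rcases hm with ⟨h1, rfl⟩ | ⟨h1, rfl⟩ | ⟨h1, rfl⟩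
  · have : Unique M := @uniqueOfSubsingleton _ (Nat.card_eq_one_iff_unique.mp hM).1 1
    exact Or.inl ⟨h1, ⟨e.trans MulEquiv.prodUnique⟩⟩
  · exact Or.inr (Or.inl ⟨h1, key 7 (by norm_num) hM⟩)
  · exact Or.inr (Or.inr ⟨h1, key 29 (by norm_num) hM⟩)

end Cfsg.Agent.S0689
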