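import Cfsg.Statements.S3335
import Cfsg.Agent.Known.AltCarm

set_option autoImplicit false
open Cfsg

namespace Cfsg.Agent.S3335
theorem aux (m : ℕ) (R : Set (FreeGroup (Fin m)))
    (hR : R = {g : FreeGroup (Fin m) | ∃ i : Fin m, i.val = 0 ∧ g = FreeGroup.of i ^ 3} ∪
       {g | ∃ i : Fin m, 1 ≤ i.val ∧ g = FreeGroup.of i ^ 2} ∪
       {g | ∃ i j : Fin m, j.val = i.val + 1 ∧ g = (FreeGroup.of i * FreeGroup.of j) ^ 3} ∪
       {g | ∃ i j : Fin m, i.val + 1 < j.val ∧ g = (FreeGroup.of i * FreeGroup.of j) ^ 2}) :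
    Nonempty (PresentedGroup R ≃* alternatingGroup (Fin (m + 2))) := by
  obtain ⟨cs, hcs⟩ := CL.Cox.exists_coxeterSystem_perm (m + 1)
  have hs : ∀ i, Equiv.Perm.sign (cs.simple i) = -1 := fun i => by
    rw [hcs, Equiv.Perm.sign_swap Fin.castSucc_lt_succ.ne]
  have hM : ∀ (i j : Fin (m + 1)), (CoxeterMatrix.A (m + 1)) i j =
      if i = j then 1 else if (j : ℕ) + 1 = i ∨ (i : ℕ) + 1 = j then 3 else 2 := fun i j => rfl
  let f : Fin m → alternatingGroup (Fin (m + 2)) := fun i => ⟨cs.simple 0 * cs.simple i.succ, by simp [hs]⟩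
  have hcomm : ∀ i : Fin m, 1 ≤ i.val → cs.simple 0 * cs.simple i.succ = cs.simple i.succ * cs.simple 0 := by
    intro i hi
    have := cs.simple_mul_simple_pow 0 i.succ
    rw [hM, if_neg (Fin.succ_ne_zero i).symm, if_neg (by simp; omega)] at this
    rw [← mul_inv_eq_one, ← this]
    simp [pow_two, mul_assoc]
  have hprod : ∀ i j : Fin m, 1 ≤ j.val → ((f i * f j : alternatingGroup _) : Equiv.Perm (Fin (m + 2))) =
      cs.simple 0 * (cs.simple i.succ * cs.simple j.succ) * (cs.simple 0)⁻¹ := by
    intro i j hj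
    simp only [f, Subgroup.coe_mul, hcomm j hj, cs.inv_simple, mul_assoc]
  have hf : ∀ r ∈ R, FreeGroup.lift f r = 1 := by
    rw [hR]
    rintro r (((⟨i, hi, rfl⟩ | ⟨i, hi, rfl⟩) | ⟨i, j, hij, rfl⟩) | ⟨i, j, hij, rfl⟩) <;> apply Subtype.ext
    · have := cs.simple_mul_simple_pow 0 i.succ
      rw [hM, if_neg (Fin.succ_ne_zero i).symm, if_pos (by simp; omega)] at this
      simpa [f] using this
    · have := cs.simple_mul_simple_pow 0 i.succ
      rw [hM, if_neg (Fin.succ_ne_zero i).symm, if_neg (by simp; omega)] at this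
      simpa [f] using this
    · have := cs.simple_mul_simple_pow i.succ j.succ
      rw [hM, if_neg (by simp [Fin.ext_iff]; omega), if_pos (by simp; omega)] at this
      rw [map_pow, map_mul, FreeGroup.lift_apply_of, FreeGroup.lift_apply_of, Subgroup.coe_pow, hprod i j (by omega),
        conj_pow, this]
      simp
    · have := cs.simple_mul_simple_pow i.succ j.succ
      rw [hM, if_neg (by simp [Fin.ext_iff]; omega), if_neg (by simp; omega)] at this
      rw [map_pow, map_mul, FreeGroup.lift_apply_of, FreeGroup.lift_apply_of, Subgroup.coe_pow, hprod i j (by omega),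
        conj_pow, this]
      simp
  let x : Fin m → PresentedGroup R := PresentedGroup.of
  have rel : ∀ r ∈ R, PresentedGroup.mk R r = 1 := fun r hr => PresentedGroup.one_of_mem hr
  have r1 : ∀ i : Fin m, i.val = 0 → x i ^ 3 = 1 := fun i hi =>
    (map_pow _ _ _).symm.trans (rel _ (hR ▸ Or.inl (Or.inl (Or.inl ⟨i, hi, rfl⟩))))
  have r2 : ∀ i : Fin m, 1 ≤ i.val → x i ^ 2 = 1 := fun i hi =>
    (map_pow _ _ _).symm.trans (rel _ (hR ▸ Or.inl (Or.inl (Or.inr ⟨i, hi, rfl⟩))))
  have r2' : ∀ i : Fin m, 1 ≤ i.val → (x i)⁻¹ = x i := fun i hi => by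
    rw [inv_eq_iff_mul_eq_one, ← pow_two, r2 i hi]
  have r3 : ∀ i j : Fin m, i.val < j.val → (x i * x j) ^ (CoxeterMatrix.A (m + 1)) i.succ j.succ = 1 := by
    intro i j hij
    rw [hM, if_neg (by simp [Fin.ext_iff]; omega)]
    split_ifs with h
    · exact (map_pow (PresentedGroup.mk R) (FreeGroup.of i * FreeGroup.of j) _).symm.trans
        (rel _ (hR ▸ Or.inl (Or.inr ⟨i, j, by simp at h; omega, rfl⟩)))
    · exact (map_pow (PresentedGroup.mk R) (FreeGroup.of i * FreeGroup.of j) _).symm.trans
        (rel _ (hR ▸ Or.inr ⟨i, j, by simp at h; omega, rfl⟩))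
  let u : Fin (m + 1) → PresentedGroup R := Fin.cases 1 x
  have h0 : ∀ j : Fin m, x j ^ (CoxeterMatrix.A (m + 1)) 0 j.succ = 1 := fun j => by
    rw [hM, if_neg (Fin.succ_ne_zero j).symm]
    split_ifs with h
    · exact r1 j (by simpa using h)
    · exact r2 j (by simp at h; omega)
  have hlt : ∀ i j : Fin (m + 1), i < j → ((u i)⁻¹ * u j) ^ (CoxeterMatrix.A (m + 1)) i j = 1 := by
    intro i j hij
    induction j using Fin.cases with
    | zero => simp at hij
    | succ j =>
      induction i using Fin.cases with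
      | zero => simpa [u] using h0 j
      | succ i =>
        have h1 : i.val < j.val := by simpa using hij
        simp only [u, Fin.cases_succ]
        rw [show (x i)⁻¹ * x j = (x i)⁻¹ * (x i * x j)⁻¹ * (x i)⁻¹⁻¹ by rw [mul_inv_rev, r2' j (by omega)]; group,
          conj_pow, inv_pow, r3 i j h1]
        simp
  obtain ⟨η, hη, e⟩ := CL.Known.exists_homOn_alt_of_coxeter (m + 1) u fun i j => by
    rcases lt_trichotomy i j with h | rfl | h
    · exact hlt i j h
    · simp
    · rw [show (u i)⁻¹ * u j = ((u j)⁻¹ * u i)⁻¹ by group, inv_pow, (CoxeterMatrix.A (m + 1)).symmetric, hlt j i h,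
        inv_one]
  refine ⟨MulEquiv.ofBijective (PresentedGroup.toGroup hf) ⟨?_, ?_⟩⟩
  · have : hη.toHom.comp (PresentedGroup.toGroup hf) = MonoidHom.id _ := by
      ext i
      rw [MonoidHom.comp_apply, PresentedGroup.toGroup.of]
      change η (cs.simple 0 * cs.simple i.succ) = x i
      rw [hcs, hcs, e]
      simp [u]
    exact Function.LeftInverse.injective (g := hη.toHom) fun g => DFunLike.congr_fun this g
  · let H := (PresentedGroup.toGroup hf).range.map (alternatingGroup (Fin (m + 2))).subtype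
    have h1 : ∀ i, cs.simple 0 * cs.simple i ∈ H := fun i => by
      induction i using Fin.cases with
      | zero => simp [H.one_mem]
      | succ i => exact ⟨f i, ⟨x i, PresentedGroup.toGroup.of hf⟩, rfl⟩
    have h2 : ∀ g, g ∈ H ∨ cs.simple 0 * g ∈ H := fun g => by
      induction g using cs.simple_induction_left with
      | one => exact Or.inl H.one_mem
      | mul_simple_left w i ih =>
        rcases ih with h | h
        · exact Or.inr (mul_assoc _ _ w ▸ mul_mem (h1 i) h)
        · left
          have := mul_mem (inv_mem (h1 i)) h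
          simpa [mul_assoc] using this
    intro g
    rcases h2 g with ⟨k, hk, e⟩ | ⟨k, -, e⟩
    · obtain rfl : k = g := Subtype.ext e
      exact hk
    · have := congrArg Equiv.Perm.sign e
      simp [hs, Equiv.Perm.mem_alternatingGroup.1 k.2, Equiv.Perm.mem_alternatingGroup.1 g.2] at this


/-- A presentation of the alternating group of degree n ≥ 3 on generators x_1, …, x_{n−2} (indexed here by 0, …, n−3): the first generator cubes to 1, every other generator squares to 1, the product of two consecutive generators has order dividing 3, and the product of two generators at distance at least 2 has order dividing 2. The group so presented is isomorphic to the alternating group of degree n. -/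
theorem result (n : ℕ) (hn : 3 ≤ n) :
    Nonempty (PresentedGroup
      ({g : FreeGroup (Fin (n - 2)) | ∃ i : Fin (n - 2), i.val = 0 ∧ g = FreeGroup.of i ^ 3} ∪
       {g | ∃ i : Fin (n - 2), 1 ≤ i.val ∧ g = FreeGroup.of i ^ 2} ∪
       {g | ∃ i j : Fin (n - 2), j.val = i.val + 1 ∧ g = (FreeGroup.of i * FreeGroup.of j) ^ 3} ∪
       {g | ∃ i j : Fin (n - 2), i.val + 1 < j.val ∧ g = (FreeGroup.of i * FreeGroup.of j) ^ 2})
      ≃* alternatingGroup (Fin n)) := by
  obtain ⟨m, rfl⟩ : ∃ m, n = m + 2 := ⟨n - 2, by omega⟩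
  exact aux m _ rfl

end Cfsg.Agent.S3335
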