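import Cfsg.Statements.S0996
import Cfsg.Agent.Inv.BRMain

set_option autoImplicit false
open Cfsg
open CL.Inv CL.Inv.PO

namespace Cfsg.Agent.S0996

/-- Let G be a finite perfect group containing an element z of prime order p whose centralizer is the cyclic group it generates, and suppose the number 1 + n * p of Sylow p-subgroups satisfies n < (p + 3) / 2. Then p > 3 and G is isomorphic to the projective special linear group of dimension 2 over the field with p elements, or p - 1 is a power of 2 and G is isomorphic to that group over the field with p - 1 elements. -/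
theorem result {G : Type*} [Group G] [Finite G] (hperf : commutator G = ⊤) (p : ℕ) [Fact p.Prime] (z : G) (hz : orderOf z = p) (hC : Subgroup.centralizer ({z} : Set G) = Subgroup.zpowers z) (hn : 2 * Nat.card (Sylow p G) < (p + 1) * (p + 2)) : (∃ (F : Type) (_ : Field F) (_ : Fintype F), Fintype.card F = p ∧ 3 < p ∧ Nonempty (G ≃* Matrix.ProjectiveSpecialLinearGroup (Fin 2) F)) ∨ (∃ (m : ℕ) (F : Type) (_ : Field F) (_ : Fintype F), Fintype.card F = 2 ^ m ∧ p = 2 ^ m + 1 ∧ 3 < p ∧ Nonempty (G ≃* Matrix.ProjectiveSpecialLinearGroup (Fin 2) F)) := by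
  have hp : Fact p.Prime := inferInstance
  have hP : IsPGroup p (Subgroup.zpowers z) := IsPGroup.of_card (n := 1) (by simp [hz])
  have hsq : ¬ p ^ 2 ∣ Nat.card G := fun h => by
    obtain ⟨Q, hQ⟩ := hP.exists_le_sylow
    have h1 := Q.pow_dvd_card_of_pow_dvd_card h
    have h2 : Nontrivial Q := Finite.one_lt_card_iff_nontrivial.1
      (lt_of_lt_of_le (Nat.one_lt_pow two_ne_zero hp.out.one_lt) (Nat.le_of_dvd Nat.card_pos h1))
    obtain ⟨⟨u, hu⟩, hu1⟩ := @exists_ne _ Q.2.center_nontrivial 1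
    have hzQ : z ∈ (Q : Subgroup G) := hQ (Subgroup.mem_zpowers z)
    have huz : (u : G) ∈ Subgroup.zpowers z := hC ▸ Subgroup.mem_centralizer_singleton_iff.2
      (congrArg Subtype.val (Subgroup.mem_center_iff.1 hu ⟨z, hzQ⟩)).symm
    have hu1' : (u : G) ≠ 1 := fun e => hu1 (Subtype.ext (Subtype.ext e))
    have h3 : Subgroup.zpowers (u : G) = Subgroup.zpowers z := by
      refine Subgroup.eq_of_le_of_card_ge (Subgroup.zpowers_le.2 huz) ?_
      have h4 := orderOf_dvd_natCard (⟨u, huz⟩ : Subgroup.zpowers z)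
      rw [← Subgroup.orderOf_coe, Nat.card_zpowers, hz] at h4
      rw [Nat.card_zpowers, Nat.card_zpowers, hz,
        (hp.out.eq_one_or_self_of_dvd _ h4).resolve_left (by simpa using hu1')]
    have h4 : (Q : Subgroup G) ≤ Subgroup.zpowers z := fun g hg => by
      rw [← hC, Subgroup.mem_centralizer_singleton_iff]
      exact (commute_of_mem_zpowers' (h3 ▸ Subgroup.mem_zpowers z)
        (congrArg Subtype.val (Subgroup.mem_center_iff.1 hu ⟨g, hg⟩)).symm).symm
    have h6 := Subgroup.card_dvd_of_le h4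
    rw [Nat.card_zpowers, hz] at h6
    have h5 := Nat.le_of_dvd hp.out.pos (h1.trans h6)
    nlinarith [hp.out.one_lt]
  obtain ⟨K⟩ := nonempty_ctx_of_orderOf hz hsq
  obtain ⟨n, hn'⟩ := K.exists_index_N
  obtain ⟨h1, h2⟩ := brauer_reynolds K hperf hn' fun h => by
    have := le_of_brRep h
    rw [K.card_sylow, hn'] at hn
    omega
  have hH : pPrimeCore p G = ⊥ :=
    eq_bot_iff.2 fun g hg => K.eq_one_of_mem_core (hC ▸ h1 hg) hg
  have e₀ : G ≃* G ⧸ pPrimeCore p G :=
    (QuotientGroup.quotientBot.symm.trans (QuotientGroup.quotientMulEquivOfEq hH.symm))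
  rcases h2 with ⟨F, _, _, hF, h4, ⟨e⟩⟩ | ⟨m, F, _, _, hF, h4, h5, ⟨e⟩⟩
  · exact .inl ⟨F, _, _, hF, h4, ⟨e₀.trans e⟩⟩
  · exact .inr ⟨m, F, _, _, hF, h4, h5, ⟨e₀.trans e⟩⟩

end Cfsg.Agent.S0996
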