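import Cfsg.Statements.S0698
import Cfsg.Agent.Perm.PrimRegNormal

set_option autoImplicit false
open Cfsg

namespace Cfsg.Agent.S0698

/-- Jordan's Theorem on normal subgroups of multiply transitive groups: if `G` is `k`-transitive (`k > 1`) of degree greater than `k`, a non-trivial normal subgroup is `(k-1)`-transitive, except possibly for `k = 3` when it may be an elementary abelian 2-group. -/
theorem result {α : Type*} [Fintype α] [DecidableEq α] (G : Subgroup (Equiv.Perm α)) {k : ℕ} (hk : 1 < k) (hdeg : k < Fintype.card α) (hG : MulAction.IsMultiplyPretransitive G α k) (N : Subgroup G) [N.Normal] (hN : N ≠ ⊥) : MulAction.IsMultiplyPretransitive N α (k - 1) ∨ (k = 3 ∧ IsMulCommutative N ∧ ∀ n ∈ N, n ^ 2 = 1) := by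
  rw [← Nat.card_eq_fintype_card] at hdeg
  obtain ⟨j, rfl⟩ : ∃ j, k = j + 1 := ⟨k - 1, by omega⟩
  have hle : ∀ m, m ≤ Nat.card α → (m : ℕ∞) ≤ ENat.card α := fun m hm => by
    rw [ENat.card_eq_coe_natCard]; exact_mod_cast hm
  have hprim : MulAction.IsMultiplyPreprimitive G α j :=
    MulAction.isMultiplyPreprimitive_of_isMultiplyPretransitive_succ G α (hle _ hdeg.le)
  by_cases hnr : ∃ a : α, MulAction.stabilizer N a ≠ ⊥
  · exact Or.inl (CL.Perm.isMultiplyPretransitive_of_normal_of_not_regular hprim (by omega) N hnr)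
  push Not at hnr
  have h1 : MulAction.IsPreprimitive G α := (MulAction.is_one_preprimitive_iff G α).1
    (MulAction.isMultiplyPreprimitive_of_le G α hprim (by omega) (hle _ (by omega)))
  have htr : MulAction.IsPretransitive N α := CL.Perm.isPretransitive_of_normal_of_ne_bot hN
  obtain rfl | hj : j = 1 ∨ 2 ≤ j := by omega
  · exact Or.inl (MulAction.is_one_pretransitive_iff.2 htr)
  right
  have hsq := (CL.Perm.sq_eq_one_of_two_preprimitive (by omega)
    (MulAction.isMultiplyPreprimitive_of_le G α hprim hj (hle _ (by omega))) N hnr).resolve_left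
    (by omega)
  refine ⟨?_, ?_, hsq⟩
  · by_contra hne
    have := CL.Perm.card_eq_four_of_three_preprimitive (by omega)
      (MulAction.isMultiplyPreprimitive_of_le G α hprim (m := 3) (by omega) (hle _ (by omega)))
      N hnr hsq
    omega
  · refine ⟨⟨fun a b => Subtype.ext ?_⟩⟩
    have hinv : ∀ n ∈ N, n⁻¹ = n := fun n hn => by
      rw [inv_eq_iff_mul_eq_one, ← sq, hsq n hn]
    change (a : G) * b = b * a
    rw [← hinv _ (N.mul_mem a.2 b.2), mul_inv_rev, hinv _ a.2, hinv _ b.2]

end Cfsg.Agent.S0698
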