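import Cfsg.Statements.S0699
import Cfsg.Agent.Perm.PrimGenerous
import Cfsg.Agent.S0698

set_option autoImplicit false
open Cfsg

namespace Cfsg.Agent.S0699

/-- Wagner's Theorem: a non-trivial normal subgroup of a triply transitive permutation group of odd degree at least 5 is triply transitive. -/
theorem result {α : Type*} [Fintype α] [DecidableEq α] (G : Subgroup (Equiv.Perm α)) (hodd : Odd (Fintype.card α)) (h5 : 5 ≤ Fintype.card α) (hG : MulAction.IsMultiplyPretransitive G α 3) (N : Subgroup G) [N.Normal] (hN : N ≠ ⊥) : MulAction.IsMultiplyPretransitive N α 3 := by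
  have hn : Nat.card α = Fintype.card α := Nat.card_eq_fintype_card
  have : Fact (Nat.Prime 2) := ⟨Nat.prime_two⟩
  have hG2 : MulAction.IsMultiplyPretransitive G α 2 :=
    MulAction.isMultiplyPretransitive_of_le (n := 3) (by norm_num) (by omega)
  have hprim := MulAction.isPreprimitive_of_is_two_pretransitive hG2
  have hN2 : MulAction.IsMultiplyPretransitive N α 2 := by
    rcases Cfsg.Agent.S0698.result G (k := 3) (by norm_num) (by omega) hG N hN with h | ⟨-, -, h⟩
    · exact h
    · exfalso
      have htr : MulAction.IsPretransitive N α := CL.Perm.isPretransitive_of_normal_of_ne_bot hN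
      have hp : IsPGroup 2 N := fun n => ⟨1, Subtype.ext (by simpa using h n n.2)⟩
      obtain ⟨a, ha⟩ := hp.nonempty_fixed_point_of_prime_not_dvd_card α
        (by rw [hn]; exact hodd.not_two_dvd_nat)
      obtain ⟨b, hb⟩ := Fintype.exists_ne_of_one_lt_card (α := α) (by omega) a
      obtain ⟨n, rfl⟩ := MulAction.exists_smul_eq N a b
      exact hb (ha n)
  -- some element of `N` swaps two points and fixes a third
  obtain ⟨a, b, hab⟩ := (Fintype.one_lt_card_iff (α := α)).1 (by omega)
  have hex : ∃ t : N, ∃ c, c ≠ a ∧ c ≠ b ∧ t • a = b ∧ t • b = a ∧ t • c = c := by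
    obtain ⟨t, hta, htb⟩ := MulAction.is_two_pretransitive_iff.1 hN2 hab hab.symm
    obtain ⟨e, m, hm, hem⟩ := Nat.exists_eq_two_pow_mul_odd (orderOf_pos t).ne'
    have hpow : ∀ j : ℕ, t ^ (2 * j) • a = a ∧ t ^ (2 * j) • b = b := by
      intro j
      induction j with
      | zero => simp
      | succ j ih =>
        rw [mul_add, pow_add, mul_one, sq, mul_smul, mul_smul, mul_smul, mul_smul, hta, htb, hta]
        exact ih
    obtain ⟨j, rfl⟩ := hm
    set u := t ^ (2 * j + 1) with hu
    have hua : u • a = b := by rw [hu, pow_succ, mul_smul, hta, (hpow j).2]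
    have hub : u • b = a := by rw [hu, pow_succ, mul_smul, htb, (hpow j).1]
    have hp : IsPGroup 2 (Subgroup.zpowers u) := by
      apply IsPGroup.of_card (n := e)
      rw [Nat.card_zpowers, hu, orderOf_pow, hem, Nat.gcd_mul_left_left,
        Nat.mul_div_cancel _ (by omega)]
    have hmod := hp.card_modEq_card_fixedPoints α
    have hne : (MulAction.fixedPoints (Subgroup.zpowers u) α).Nonempty :=
      hp.nonempty_fixed_point_of_prime_not_dvd_card α (by rw [hn]; exact hodd.not_two_dvd_nat)
    obtain ⟨c, hc⟩ := hne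
    have huc : u • c = c := hc ⟨u, Subgroup.mem_zpowers u⟩
    refine ⟨u, c, ?_, ?_, hua, hub, huc⟩
    · rintro rfl; exact hab (huc.symm.trans hua)
    · rintro rfl; exact hab (hub.symm.trans huc)
  obtain ⟨t, c, hca, hcb, hta, htb, htc⟩ := hex
  have hgen : CL.Perm.IsGenerous N α 2 := by
    apply CL.Perm.isGenerous_of_swap
    intro s hs u hu v hv huv
    obtain ⟨w, hw, hwuv⟩ := Finset.exists_mem_notMem_of_card_lt_card (s := {u, v}) (t := s)
      (by rw [Finset.card_pair huv]; omega)
    simp only [Finset.mem_insert, Finset.mem_singleton, not_or] at hwuv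
    obtain ⟨g₁, hg₁a, hg₁b⟩ := MulAction.is_two_pretransitive_iff.1 hG2 hab huv
    obtain ⟨g₂, hg₂, hg₂c⟩ := CL.Perm.exists_fixing_smul_eq hG {u, v} (Finset.card_pair huv)
      (a := g₁ • c) (b := w) (by
        rw [← hg₁a, ← hg₁b]; simp [hca, hcb]) (by simp [hwuv])
    have hga : (g₂ * g₁) • a = u := by rw [mul_smul, hg₁a, hg₂ u (by simp)]
    have hgb : (g₂ * g₁) • b = v := by rw [mul_smul, hg₁b, hg₂ v (by simp)]
    have hgc : (g₂ * g₁) • c = w := by rw [mul_smul, hg₂c]
    set g := g₂ * g₁
    have hs' : s = {u, v, w} := by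
      symm
      apply Finset.eq_of_subset_of_card_le
      · intro x hx
        simp only [Finset.mem_insert, Finset.mem_singleton] at hx
        rcases hx with rfl | rfl | rfl <;> assumption
      · rw [hs, Finset.card_eq_three.2 ⟨u, v, w, huv, Ne.symm hwuv.1, Ne.symm hwuv.2, rfl⟩]
    refine ⟨⟨g * t * g⁻¹, Subgroup.Normal.conj_mem inferInstance _ t.2 g⟩, fun x hx => ?_⟩
    change (g * t * g⁻¹) • x = _
    have hta' : (t : G) • a = b := hta
    have htb' : (t : G) • b = a := htb
    have htc' : (t : G) • c = c := htc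
    rw [hs'] at hx
    simp only [Finset.mem_insert, Finset.mem_singleton] at hx
    rcases hx with rfl | rfl | rfl
    · rw [Equiv.swap_apply_left, ← hga, mul_smul, inv_smul_smul, mul_smul, hta', hgb]
    · rw [Equiv.swap_apply_right, ← hgb, mul_smul, inv_smul_smul, mul_smul, htb', hga]
    · rw [Equiv.swap_apply_of_ne_of_ne hwuv.1 hwuv.2, ← hgc, mul_smul, inv_smul_smul, mul_smul, htc']
  refine CL.Perm.isMultiplyPretransitive_succ_of_fixing hN2 {a, b} (Finset.card_pair hab) ?_
  intro x y hx hy
  set Γ : Finset α := {a, b} with hΓ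
  have hΓc : Γ.card = 2 := Finset.card_pair hab
  -- the orbits of the two-point stabiliser in `N` have odd length
  have hoddorb : ∀ z, z ∉ Γ →
      ¬ 2 ∣ Nat.card (MulAction.orbit (fixingSubgroup N (Γ : Set α)) z) := by
    intro z hz
    have htr : MulAction.IsPretransitive (fixingSubgroup G (Γ : Set α))
        (SubMulAction.ofFixingSubgroup G (Γ : Set α)) := ⟨fun p q => by
      obtain ⟨g, hg, hpq⟩ := CL.Perm.exists_fixing_smul_eq hG Γ hΓc p.2 q.2
      exact ⟨⟨g, (mem_fixingSubgroup_iff G).2 hg⟩, Subtype.ext hpq⟩⟩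
    have hB := MulAction.IsBlock.orbit_of_normal
      (N := N.subgroupOf (fixingSubgroup G (Γ : Set α)))
      (⟨z, hz⟩ : SubMulAction.ofFixingSubgroup G (Γ : Set α))
    have hdvd := hB.ncard_dvd_card ⟨_, MulAction.mem_orbit_self _⟩
    have hc : Nat.card (SubMulAction.ofFixingSubgroup G (Γ : Set α)) + 2 = Nat.card α := by
      rw [← hΓc, ← Set.ncard_coe_finset, ← Set.ncard_add_ncard_compl (Γ : Set α), add_comm]
      rfl
    have himg : MulAction.orbit (fixingSubgroup N (Γ : Set α)) z = Subtype.val ''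
        MulAction.orbit (N.subgroupOf (fixingSubgroup G (Γ : Set α)))
          (⟨z, hz⟩ : SubMulAction.ofFixingSubgroup G (Γ : Set α)) := by
      ext w
      constructor
      · rintro ⟨g, rfl⟩
        exact ⟨_, ⟨⟨⟨g.1.1, g.2⟩, g.1.2⟩, rfl⟩, rfl⟩
      · rintro ⟨_, ⟨g, rfl⟩, rfl⟩
        exact ⟨⟨⟨g.1.1, g.2⟩, g.1.2⟩, rfl⟩
    rw [Nat.card_coe_set_eq, himg, Set.ncard_image_of_injective _ Subtype.val_injective]
    intro h2
    have h3 := h2.trans hdvd
    obtain ⟨r, hr⟩ := hodd
    omega
  by_contra hcon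
  obtain ⟨i, hi⟩ := hgen.exists_dvd_card_orbit (by omega) Nat.prime_two le_rfl Γ hΓc ![x, y]
    (by intro i; fin_cases i <;> simpa) (by
      intro i j hij hmem
      apply hcon
      fin_cases i <;> fin_cases j
      · exact absurd rfl hij
      · obtain ⟨g, hg⟩ := hmem
        exact ⟨g, (mem_fixingSubgroup_iff N).1 g.2, hg⟩
      · obtain ⟨g, hg⟩ := hmem
        refine ⟨g⁻¹, (mem_fixingSubgroup_iff N).1 (g⁻¹).2, ?_⟩
        rw [inv_smul_eq_iff]
        exact hg.symm
      · exact absurd rfl hij)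
  refine hoddorb _ ?_ hi
  fin_cases i <;> simpa

end Cfsg.Agent.S0699
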