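import Cfsg.Statements.S3362
import Cfsg.Agent.Perm.Witt

set_option autoImplicit false
open Cfsg

namespace Cfsg.Agent.S3362

def tp (T : ℕ) (i : Fin 12) : Fin 12 := Fin.ofNat 12 (T / 16 ^ i.1 % 16)

def ps : Equiv.Perm (Fin 12) := ⟨tp 0x9ba687354210, tp 0xa9b768435210, by decide +kernel, by decide +kernel⟩
def pt : Equiv.Perm (Fin 12) := ⟨tp 0x543ba9876210, tp 0x876543ba9210, by decide +kernel, by decide +kernel⟩
def pu : Equiv.Perm (Fin 12) := ⟨tp 0xa74b85963210, tp 0x8b57a4693210, by decide +kernel, by decide +kernel⟩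
def pv : Equiv.Perm (Fin 12) := ⟨tp 0x49865ab73210, tp 0x56a9487b3210, by decide +kernel, by decide +kernel⟩
def pw : Equiv.Perm (Fin 12) := ⟨tp 0x95746b8a3210, tp 0x64b597a83210, by decide +kernel, by decide +kernel⟩
def px : Equiv.Perm (Fin 12) := ⟨tp 0x98ba67540213, tp 0x98ba67540213, by decide +kernel, by decide +kernel⟩
def py : Equiv.Perm (Fin 12) := ⟨tp 0x876ba9543201, tp 0x876ba9543201, by decide +kernel, by decide +kernel⟩
def pz : Equiv.Perm (Fin 12) := ⟨tp 0x687a9b543120, tp 0x687a9b543120, by decide +kernel, by decide +kernel⟩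

def Qf : Fin 8 → Equiv.Perm (Fin 12) := ![1, pu, pv, pw, pu * pu, pw * pu, pu * pv, pv * pw]

def Nf (a b : Fin 3) : Equiv.Perm (Fin 12) := ![1, ps, ps * ps] a * ![1, pt, pt * pt] b

def QQ : Subgroup (Equiv.Perm (Fin 12)) := Subgroup.closure {pu, pv, pw}
def NN : Subgroup (Equiv.Perm (Fin 12)) := Subgroup.closure {ps, pt}
def GG : Subgroup (Equiv.Perm (Fin 12)) := Subgroup.closure {ps, pt, pu, pv, pw}

theorem u_mem : pu ∈ QQ := Subgroup.subset_closure (by simp)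
theorem v_mem : pv ∈ QQ := Subgroup.subset_closure (by simp)
theorem w_mem : pw ∈ QQ := Subgroup.subset_closure (by simp)
theorem s_mem : ps ∈ NN := Subgroup.subset_closure (by simp)
theorem t_mem : pt ∈ NN := Subgroup.subset_closure (by simp)

theorem Qf_mem (k : Fin 8) : Qf k ∈ QQ := by
  have hu := u_mem
  have hv := v_mem
  have hw := w_mem
  fin_cases k
  exacts [one_mem _, hu, hv, hw, mul_mem hu hu, mul_mem hw hu, mul_mem hu hv, mul_mem hv hw]

theorem Nf_mem (a b : Fin 3) : Nf a b ∈ NN := by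
  have hs := s_mem
  have ht := t_mem
  refine mul_mem ?_ ?_
  · fin_cases a
    exacts [one_mem _, hs, mul_mem hs hs]
  · fin_cases b
    exacts [one_mem _, ht, mul_mem ht ht]

theorem Q_step : ∀ x ∈ [pu, pv, pw, pu⁻¹, pv⁻¹, pw⁻¹], ∀ k, ∃ l, ∀ i, x (Qf k i) = Qf l i := by
  simp only [List.forall_mem_cons, List.not_mem_nil, IsEmpty.forall_iff, implies_true, and_true]
  decide +kernel

theorem N_step : ∀ x ∈ [ps, pt, ps⁻¹, pt⁻¹], ∀ a b, ∃ c d, ∀ i, x (Nf a b i) = Nf c d i := by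
  simp only [List.forall_mem_cons, List.not_mem_nil, IsEmpty.forall_iff, implies_true, and_true]
  decide +kernel

theorem exists_Qf {g : Equiv.Perm (Fin 12)} (hg : g ∈ QQ) : ∃ k, g = Qf k := by
  induction hg using Subgroup.closure_induction_left with
  | one => exact ⟨0, rfl⟩
  | mul_left x hx y hy ih =>
    obtain ⟨k, rfl⟩ := ih
    obtain ⟨l, hl⟩ := Q_step x (by rcases hx with rfl | rfl | rfl <;> simp) k
    exact ⟨l, Equiv.ext hl⟩
  | inv_mul_cancel x hx y hy ih =>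
    obtain ⟨k, rfl⟩ := ih
    obtain ⟨l, hl⟩ := Q_step x⁻¹ (by rcases hx with rfl | rfl | rfl <;> simp) k
    exact ⟨l, Equiv.ext hl⟩

theorem exists_Nf {g : Equiv.Perm (Fin 12)} (hg : g ∈ NN) : ∃ a b, g = Nf a b := by
  induction hg using Subgroup.closure_induction_left with
  | one => exact ⟨0, 0, (mul_one _).symm⟩
  | mul_left x hx y hy ih =>
    obtain ⟨a, b, rfl⟩ := ih
    obtain ⟨c, d, hl⟩ := N_step x (by rcases hx with rfl | rfl <;> simp) a b
    exact ⟨c, d, Equiv.ext hl⟩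
  | inv_mul_cancel x hx y hy ih =>
    obtain ⟨a, b, rfl⟩ := ih
    obtain ⟨c, d, hl⟩ := N_step x⁻¹ (by rcases hx with rfl | rfl <;> simp) a b
    exact ⟨c, d, Equiv.ext hl⟩

theorem G_step : ∀ x ∈ [pu, pv, pw, pu⁻¹, pv⁻¹, pw⁻¹], ∀ a b, ∃ c d, ∀ i, x (Nf a b i) = Nf c d (x i) := by
  simp only [List.forall_mem_cons, List.not_mem_nil, IsEmpty.forall_iff, implies_true, and_true]
  decide +kernel

theorem exists_NQ {g : Equiv.Perm (Fin 12)} (hg : g ∈ GG) : ∃ a b, ∃ q ∈ QQ, g = Nf a b * q := by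
  have hN : ∀ x ∈ [ps, pt, ps⁻¹, pt⁻¹], ∀ y, (∃ a b, ∃ q ∈ QQ, y = Nf a b * q) →
      ∃ a b, ∃ q ∈ QQ, x * y = Nf a b * q := by
    rintro x hx _ ⟨a, b, q, hq, rfl⟩
    obtain ⟨c, d, hl⟩ := N_step x hx a b
    exact ⟨c, d, q, hq, Equiv.ext fun i => hl (q i)⟩
  have hQ : ∀ x ∈ [pu, pv, pw, pu⁻¹, pv⁻¹, pw⁻¹], x ∈ QQ → ∀ y, (∃ a b, ∃ q ∈ QQ, y = Nf a b * q) →
      ∃ a b, ∃ q ∈ QQ, x * y = Nf a b * q := by
    rintro x hx hx' _ ⟨a, b, q, hq, rfl⟩
    obtain ⟨c, d, hl⟩ := G_step x hx a b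
    exact ⟨c, d, x * q, mul_mem hx' hq, Equiv.ext fun i => hl (q i)⟩
  induction hg using Subgroup.closure_induction_left with
  | one => exact ⟨0, 0, 1, one_mem _, by rw [mul_one]; exact (mul_one _).symm⟩
  | mul_left x hx y hy ih =>
    rcases hx with rfl | rfl | rfl | rfl | rfl
    · exact hN _ (by simp) y ih
    · exact hN _ (by simp) y ih
    · exact hQ _ (by simp) u_mem y ih
    · exact hQ _ (by simp) v_mem y ih
    · exact hQ _ (by simp) w_mem y ih
  | inv_mul_cancel x hx y hy ih =>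
    rcases hx with rfl | rfl | rfl | rfl | rfl
    · exact hN _ (by simp) y ih
    · exact hN _ (by simp) y ih
    · exact hQ _ (by simp) (inv_mem u_mem) y ih
    · exact hQ _ (by simp) (inv_mem v_mem) y ih
    · exact hQ _ (by simp) (inv_mem w_mem) y ih

theorem QQ_le : QQ ≤ GG := Subgroup.closure_mono (by intro x hx; simp only [Set.mem_insert_iff] at hx ⊢; tauto)
theorem NN_le : NN ≤ GG := Subgroup.closure_mono (by
  intro x hx; simp only [Set.mem_insert_iff, Set.mem_singleton_iff] at hx ⊢; tauto)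

theorem Q_fix : ∀ k, Qf k 0 = 0 ∧ Qf k 1 = 1 ∧ Qf k 2 = 2 ∧ Qf k 3 = 3 ∧ (Qf k 4 = 4 → ∀ i, Qf k i = i) := by
  decide +kernel

theorem N_fix : ∀ a b, Nf a b 0 = 0 ∧ Nf a b 1 = 1 ∧ Nf a b 2 = 2 ∧ (Nf a b 3 = 3 → ∀ i, Nf a b i = i) := by
  decide +kernel

theorem stab_eq : GG ⊓ MulAction.stabilizer (Equiv.Perm (Fin 12)) (3 : Fin 12) = QQ := by
  refine le_antisymm ?_ (le_inf QQ_le fun g hg => ?_)
  · rintro g ⟨hg, h3⟩
    obtain ⟨a, b, q, hq, rfl⟩ := exists_NQ hg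
    obtain ⟨k, rfl⟩ := exists_Qf hq
    have h4 : Nf a b (Qf k 3) = 3 := h3
    rw [(Q_fix k).2.2.2.1] at h4
    have h5 : Nf a b = 1 := Equiv.ext ((N_fix a b).2.2.2 h4)
    rw [h5, one_mul]
    exact hq
  · obtain ⟨k, rfl⟩ := exists_Qf hg
    exact (Q_fix k).2.2.2.1

theorem two_trans : ∀ c d : Fin 12, 3 ≤ c → 3 ≤ d → c ≠ d → ∃ a b k, Nf a b (Qf k 3) = c ∧ Nf a b (Qf k 4) = d := by
  decide +kernel

def qq (i : ℕ) : Fin 12 := [4, 4, 3, 0, 1, 2].getD i 0
def ss (i : ℕ) : Equiv.Perm (Fin 12) := [1, ps * (pw * pw), px, py, pz].getD i 1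

theorem norm_step : ∀ x ∈ [px, py, pz], ∀ k, ∃ l, ∀ i, x (Qf k (x⁻¹ i)) = Qf l i := by
  simp only [List.forall_mem_cons, List.not_mem_nil, IsEmpty.forall_iff, implies_true, and_true]
  decide +kernel

theorem witt : CL.Perm.WittData 5 qq GG ss := by
  have hQ : GG ⊓ MulAction.stabilizer (Equiv.Perm (Fin 12)) (qq 2) = QQ := stab_eq
  refine ⟨by norm_num, ?_, ?_, ?_, ?_, by decide +kernel, ?_, ?_, ?_, ?_, ?_⟩
  · intro i j h1 h2 h3 h4
    interval_cases i <;> interval_cases j <;> decide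
  · intro g hg i h1 h2
    obtain ⟨a, b, q, hq, rfl⟩ := exists_NQ hg
    obtain ⟨k, rfl⟩ := exists_Qf hq
    obtain ⟨e0, e1, e2, -⟩ := Q_fix k
    obtain ⟨f0, f1, f2, -⟩ := N_fix a b
    interval_cases i
    · show Nf a b (Qf k 0) = 0
      rw [e0, f0]
    · show Nf a b (Qf k 1) = 1
      rw [e1, f1]
    · show Nf a b (Qf k 2) = 2
      rw [e2, f2]
  · intro a b c d h hab hcd
    have h3 := h 3 (by norm_num) (by norm_num)
    have h4 := h 4 (by norm_num) (by norm_num)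
    have h5 := h 5 (by norm_num) (by norm_num)
    have key : ∀ x : Fin 12, x ≠ qq 3 → x ≠ qq 4 → x ≠ qq 5 → 3 ≤ x := by decide
    obtain ⟨a1, b1, k1, e1, e2⟩ := two_trans a b (key a h3.1 h4.1 h5.1) (key b h3.2.1 h4.2.1 h5.2.1) hab
    obtain ⟨a2, b2, k2, f1, f2⟩ := two_trans c d (key c h3.2.2.1 h4.2.2.1 h5.2.2.1)
      (key d h3.2.2.2 h4.2.2.2 h5.2.2.2) hcd
    refine ⟨(Nf a2 b2 * Qf k2) * (Nf a1 b1 * Qf k1)⁻¹, mul_mem (mul_mem (NN_le (Nf_mem _ _)) (QQ_le (Qf_mem _)))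
      (inv_mem (mul_mem (NN_le (Nf_mem _ _)) (QQ_le (Qf_mem _)))), ?_, ?_⟩
    · rw [← e1, ← f1]; simp
    · rw [← e2, ← f2]; simp
  · exact mul_mem (NN_le s_mem) (QQ_le (mul_mem w_mem w_mem))
  · intro i h1 h2
    have h3 : i ≤ 4 := by omega
    interval_cases i <;> refine ⟨by decide +kernel, by decide +kernel, fun j j1 j2 j3 j4 => ?_⟩ <;>
      interval_cases j <;> first | decide +kernel | omega
  · intro i h1 h2
    have h3 : i ≤ 4 := by omega
    have : ss i ^ 2 = 1 := by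
      rw [pow_two]
      interval_cases i <;> exact Equiv.ext (by decide +kernel)
    rw [this]; exact one_mem _
  · intro i h1 h2
    have h3 : i ≤ 3 := by omega
    have : (ss i * ss (i + 1)) ^ 3 = 1 := by
      rw [pow_three]
      interval_cases i <;> exact Equiv.ext (by decide +kernel)
    rw [this]; exact one_mem _
  · intro i j h1 h2 h3
    have h4 : j ≤ 4 := by omega
    have h5 : i ≤ 2 := by omega
    have : (ss j * ss i) ^ 2 = 1 := by
      rw [pow_two]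
      interval_cases i <;> interval_cases j <;> exact Equiv.ext (by decide +kernel)
    rw [this]; exact one_mem _
  · intro i h1 h2 g hg
    rw [hQ] at hg ⊢
    obtain ⟨k, rfl⟩ := exists_Qf hg
    have h3 : i ≤ 4 := by omega
    obtain ⟨l, hl⟩ := norm_step (ss i) (by interval_cases i <;> simp [ss]) k
    have : ss i * Qf k * (ss i)⁻¹ = Qf l := Equiv.ext hl
    rw [this]; exact Qf_mem l

theorem chain5 : CL.Perm.wittChain qq GG ss 5 = Subgroup.closure {ps, pt, pu, pv, pw, px, py, pz} := by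
  rw [witt.chain_eq_closure 5 (by norm_num), Subgroup.closure_union, Subgroup.closure_eq, GG,
    ← Subgroup.closure_union]
  congr 1
  ext g
  simp only [Set.mem_union, Set.mem_insert_iff, Set.mem_singleton_iff, Set.mem_ofPred_eq]
  constructor
  · rintro (h | ⟨j, h1, h2, rfl⟩)
    · tauto
    · have h3 : j ≤ 4 := by omega
      interval_cases j <;> simp [ss]
  · rintro (h | h | h | h | h | h | h | h)
    · tauto
    · tauto
    · tauto
    · tauto
    · tauto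
    · exact Or.inr ⟨2, by norm_num, by norm_num, h⟩
    · exact Or.inr ⟨3, by norm_num, by norm_num, h⟩
    · exact Or.inr ⟨4, by norm_num, by norm_num, h⟩

theorem chain4 : CL.Perm.wittChain qq GG ss 4 = Subgroup.closure {ps, pt, pu, pv, pw, px, py} := by
  rw [witt.chain_eq_closure 4 (by norm_num), Subgroup.closure_union, Subgroup.closure_eq, GG,
    ← Subgroup.closure_union]
  congr 1
  ext g
  simp only [Set.mem_union, Set.mem_insert_iff, Set.mem_singleton_iff, Set.mem_ofPred_eq]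
  constructor
  · rintro (h | ⟨j, h1, h2, rfl⟩)
    · tauto
    · have h3 : j ≤ 3 := by omega
      interval_cases j <;> simp [ss]
  · rintro (h | h | h | h | h | h | h)
    · tauto
    · tauto
    · tauto
    · tauto
    · tauto
    · exact Or.inr ⟨2, by norm_num, by norm_num, h⟩
    · exact Or.inr ⟨3, by norm_num, by norm_num, h⟩

def y0 : Fin 5 ↪ Fin 12 := ⟨![4, 3, 0, 1, 2], by decide⟩

theorem fix_y0 (g : Equiv.Perm (Fin 12)) (hg : g ∈ CL.Perm.wittChain qq GG ss 5) (hf : ∀ m, g (y0 m) = y0 m) :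
    g = 1 := by
  have h1 := witt.mem_of_fixes 1 le_rfl 5 (by norm_num) le_rfl hg fun k a b => by
    interval_cases k
    exacts [hf 1, hf 2, hf 3, hf 4]
  rw [CL.Perm.WittData.chain_one] at h1
  have h2 : g ∈ QQ := stab_eq ▸ h1
  obtain ⟨k, rfl⟩ := exists_Qf h2
  exact Equiv.ext ((Q_fix k).2.2.2.2 (hf 0))

theorem fix_y (y : Fin 5 ↪ Fin 12) (g : Equiv.Perm (Fin 12)) (hg : g ∈ CL.Perm.wittChain qq GG ss 5)
    (hf : ∀ m, g (y m) = y m) : g = 1 := by
  obtain ⟨⟨a, ha⟩, h⟩ := witt.isMultiplyPretransitive.exists_smul_eq y0 y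
  have h1 : ∀ m, a (y0 m) = y m := fun m => congrArg (fun e : Fin 5 ↪ Fin 12 => e m) h
  have h2 := fix_y0 (a⁻¹ * g * a) (mul_mem (mul_mem (inv_mem ha) hg) ha) fun m => by
    rw [Equiv.Perm.mul_apply, Equiv.Perm.mul_apply, h1, hf, Equiv.Perm.inv_eq_iff_eq, h1]
  have h3 : g = a * (a⁻¹ * g * a) * a⁻¹ := by group
  rw [h3, h2]; simp

theorem stab_y (y : Fin 5 ↪ Fin 12) : MulAction.stabilizer (CL.Perm.wittChain qq GG ss 5) y = ⊥ := by
  rw [eq_bot_iff]
  rintro ⟨g, hg⟩ h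
  exact Subtype.ext (fix_y y g hg fun m => congrArg (fun e : Fin 5 ↪ Fin 12 => e m) h)

/-- An explicit construction of the Mathieu groups of degrees 11 and 12. On the points 0, …, 11 let s = (3 4 5)(6 7 8)(9 10 11), t = (3 6 9)(4 7 10)(5 8 11), u = (4 6 5 9)(7 8 11 10), v = (4 7 5 11)(6 10 9 8), w = (4 10 5 8)(6 11 9 7), x₁ = (0 3)(6 7)(8 10)(9 11), x₂ = (0 1)(6 9)(7 10)(8 11), x₃ = (1 2)(6 11)(7 9)(8 10) (each written as a product of transpositions). Then the group M₁₂ generated by all eight permutations is sharply 5-transitive on the 12 points and has order 95040, and the group M₁₁ generated by the first seven has order 7920 and is the stabilizer of the point 2 in M₁₂. -/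
theorem result
    (s t u v w x₁ x₂ x₃ : Equiv.Perm (Fin 12))
    (hs : s = Equiv.swap (3 : Fin 12) 5 * Equiv.swap (3 : Fin 12) 4 * Equiv.swap (6 : Fin 12) 8 * Equiv.swap (6 : Fin 12) 7 * Equiv.swap (9 : Fin 12) 11 * Equiv.swap (9 : Fin 12) 10) (ht : t = Equiv.swap (3 : Fin 12) 9 * Equiv.swap (3 : Fin 12) 6 * Equiv.swap (4 : Fin 12) 10 * Equiv.swap (4 : Fin 12) 7 * Equiv.swap (5 : Fin 12) 11 * Equiv.swap (5 : Fin 12) 8)
    (hu : u = Equiv.swap (4 : Fin 12) 9 * Equiv.swap (4 : Fin 12) 5 * Equiv.swap (4 : Fin 12) 6 * Equiv.swap (7 : Fin 12) 10 * Equiv.swap (7 : Fin 12) 11 * Equiv.swap (7 : Fin 12) 8) (hv : v = Equiv.swap (4 : Fin 12) 11 * Equiv.swap (4 : Fin 12) 5 * Equiv.swap (4 : Fin 12) 7 * Equiv.swap (6 : Fin 12) 8 * Equiv.swap (6 : Fin 12) 9 * Equiv.swap (6 : Fin 12) 10) (hw : w = Equiv.swap (4 : Fin 12) 8 * Equiv.swap (4 : Fin 12) 5 * Equiv.swap (4 : Fin 12) 10 * Equiv.swap (6 : Fin 12) 7 * Equiv.swap (6 : Fin 12)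 9 * Equiv.swap (6 : Fin 12) 11)
    (hx₁ : x₁ = Equiv.swap (0 : Fin 12) 3 * Equiv.swap (6 : Fin 12) 7 * Equiv.swap (8 : Fin 12) 10 * Equiv.swap (9 : Fin 12) 11) (hx₂ : x₂ = Equiv.swap (0 : Fin 12) 1 * Equiv.swap (6 : Fin 12) 9 * Equiv.swap (7 : Fin 12) 10 * Equiv.swap (8 : Fin 12) 11)
    (hx₃ : x₃ = Equiv.swap (1 : Fin 12) 2 * Equiv.swap (6 : Fin 12) 11 * Equiv.swap (7 : Fin 12) 9 * Equiv.swap (8 : Fin 12) 10)
    (M₁₂ M₁₁ : Subgroup (Equiv.Perm (Fin 12))) (hM₁₂ : M₁₂ = Subgroup.closure {s, t, u, v, w, x₁, x₂, x₃})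
    (hM₁₁ : M₁₁ = Subgroup.closure {s, t, u, v, w, x₁, x₂}) :
    MulAction.IsMultiplyPretransitive M₁₂ (Fin 12) 5 ∧ (∀ y : Fin 5 ↪ Fin 12, MulAction.stabilizer M₁₂ y = ⊥) ∧
    Nat.card M₁₂ = 95040 ∧ Nat.card M₁₁ = 7920 ∧
    M₁₁ = M₁₂ ⊓ MulAction.stabilizer (Equiv.Perm (Fin 12)) (2 : Fin 12) := by
  obtain rfl : s = ps := hs.trans (Equiv.ext (by decide +kernel))
  obtain rfl : t = pt := ht.trans (Equiv.ext (by decide +kernel))
  obtain rfl : u = pu := hu.trans (Equiv.ext (by decide +kernel))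
  obtain rfl : v = pv := hv.trans (Equiv.ext (by decide +kernel))
  obtain rfl : w = pw := hw.trans (Equiv.ext (by decide +kernel))
  obtain rfl : x₁ = px := hx₁.trans (Equiv.ext (by decide +kernel))
  obtain rfl : x₂ = py := hx₂.trans (Equiv.ext (by decide +kernel))
  obtain rfl : x₃ = pz := hx₃.trans (Equiv.ext (by decide +kernel))
  rw [← chain5] at hM₁₂
  rw [← chain4] at hM₁₁
  subst hM₁₂ hM₁₁
  have h5 := witt.isMultiplyPretransitive
  have hst := witt.stabilizer_eq 4 (by norm_num) le_rfl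
  have hc : Nat.card (CL.Perm.wittChain qq GG ss 5) = 95040 := by
    have h1 := @MulAction.index_stabilizer_of_transitive (CL.Perm.wittChain qq GG ss 5) _ _ _ y0
      ⟨fun x y => h5.exists_smul_eq x y⟩
    rw [stab_y, Subgroup.index_bot] at h1
    rw [h1, Nat.card_eq_fintype_card, Fintype.card_embedding_eq]
    simp [Nat.descFactorial]
  refine ⟨h5, stab_y, hc, ?_, hst.symm⟩
  · have : MulAction.IsPretransitive (CL.Perm.wittChain qq GG ss 5) (Fin 12) := by
      rw [← MulAction.is_one_pretransitive_iff]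
      exact MulAction.isMultiplyPretransitive_of_le (n := 5) (by norm_num) (by simp)
    have h1 := MulAction.index_stabilizer_of_transitive (CL.Perm.wittChain qq GG ss 5) (2 : Fin 12)
    have h2 := (MulAction.stabilizer (CL.Perm.wittChain qq GG ss 5) (2 : Fin 12)).card_mul_index
    have h3 : MulAction.stabilizer (CL.Perm.wittChain qq GG ss 5) (2 : Fin 12) =
        (CL.Perm.wittChain qq GG ss 4).subgroupOf (CL.Perm.wittChain qq GG ss 5) := by
      rw [← hst]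
      ext g
      simp only [Subgroup.mem_subgroupOf, Subgroup.mem_inf, g.2, true_and]
      rfl
    rw [h1, hc, h3, Nat.card_congr (Subgroup.subgroupOfEquivOfLe
      (CL.Perm.WittData.mono (by norm_num : 4 ≤ 5))).toEquiv] at h2
    simp only [Nat.card_eq_fintype_card, Fintype.card_fin] at h2 ⊢
    omega

end Cfsg.Agent.S3362
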