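import Cfsg.Statements.S0162
import Cfsg.Agent.Char.FrobSchurOdd
import Cfsg.Agent.Char.Integrality
import Cfsg.Agent.Char.Orth2

set_option autoImplicit false
open Cfsg

namespace Cfsg.Agent.S0162

/-- If a finite group has odd order, its order is congruent to its number of conjugacy classes modulo 16. -/
theorem result {G : Type*} [Group G] [Finite G] (hodd : Odd (Nat.card G)) : Nat.card G ≡ Nat.card (ConjClasses G) [MOD 16] := by
  classical
  have := Fintype.ofFinite G
  choose d hd0 hd using fun χ : IrrCharacter G => χ.2.exists_nat_one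
  have hdodd : ∀ χ, Odd (d χ) := fun χ =>
    Odd.of_dvd_nat hodd (CL.Char.isIrr_degree_dvd_card χ.2 (hd χ))
  have hsum : ∑ χ, d χ ^ 2 = Nat.card G := by
    have := CL.Char.sum_irr_one_sq (G := G)
    simp only [hd] at this
    exact_mod_cast this
  have h8 : ∀ χ, ∃ k : ℕ, d χ ^ 2 = 8 * k + 1 := fun χ => by
    obtain ⟨m, hm⟩ := hdodd χ
    obtain ⟨r, hr⟩ := Nat.even_mul_succ_self m
    exact ⟨r, by rw [hm]; nlinarith⟩
  choose k hk using h8
  let σ : IrrCharacter G → IrrCharacter G := fun χ => ⟨fun g => (starRingEnd ℂ) ((χ : G → ℂ) g), χ.2.conj⟩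
  have hσd : ∀ χ, d (σ χ) = d χ := fun χ => by
    have h1 : ((d (σ χ) : ℕ) : ℂ) = d χ := by
      rw [← hd]
      show (starRingEnd ℂ) ((χ : G → ℂ) 1) = _
      rw [hd, map_natCast]
    exact_mod_cast h1
  have hσk : ∀ χ, k (σ χ) = k χ := fun χ => by
    have h1 := hk (σ χ)
    rw [hσd, hk] at h1
    omega
  have heven : ∑ χ, (k χ : ZMod 2) = 0 := by
    refine Finset.sum_involution (fun χ _ => σ χ) ?_ ?_ (fun _ _ => Finset.mem_univ _) ?_
    · intro χ _
      rw [hσk, ← two_mul]
      exact mul_eq_zero_of_left rfl _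
    · intro χ _ hne heq
      apply hne
      have h1 : (χ : G → ℂ) = fun _ => 1 := by
        by_contra hcon
        exact CL.Char.conj_ne_self_of_odd hodd χ.2 hcon (congrArg Subtype.val heq)
      have h2 : d χ = 1 := by
        have := hd χ
        rw [h1] at this
        have h' : ((d χ : ℕ) : ℂ) = 1 := this.symm
        exact_mod_cast h'
      have h3 := hk χ
      rw [h2] at h3
      have : k χ = 0 := by omega
      simp [this]
    · intro χ _
      apply Subtype.ext
      funext g
      exact Complex.conj_conj _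
  rw [← Nat.cast_sum, ZMod.natCast_eq_zero_iff] at heven
  obtain ⟨m, hm⟩ := heven
  rw [← CL.Char.card_irr_eq_card_conjClasses, ← hsum, Nat.card_eq_fintype_card]
  simp only [hk, Finset.sum_add_distrib, ← Finset.mul_sum, hm, Finset.sum_const, Finset.card_univ,
    smul_eq_mul, mul_one]
  unfold Nat.ModEq
  omega

end Cfsg.Agent.S0162
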