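import Cfsg.Statements.S0447
import Cfsg.Agent.Known.AltCover2

set_option autoImplicit false
open Cfsg

namespace Cfsg.Agent.S0447

/-- Involutions in double covers of alternating groups: for n ≤ 7, a finite non-split double cover of the alternating group of degree n has exactly one element of order 2 (the central one); for degree 8 there is a non-split double cover with two distinct involutions. -/
theorem result : (∀ (n : ℕ) (H : Type) (_ : Group H) (_ : Finite H), n ≤ 7 → Cfsg.IsNonsplitDoubleCover H (alternatingGroup (Fin n)) → ∀ x y : H, orderOf x = 2 → orderOf y = 2 → x = y) ∧ ∃ (H : Type) (_ : Group H) (_ : Finite H), Cfsg.IsNonsplitDoubleCover H (alternatingGroup (Fin 8)) ∧ ∃ x y : H, x ≠ y ∧ orderOf x = 2 ∧ orderOf y = 2 := by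
  classical
  constructor
  · rintro n H _ _ hn ⟨hZ, ⟨e⟩, hns⟩
    let σ : H →* alternatingGroup (Fin n) := e.toMonoidHom.comp (QuotientGroup.mk' _)
    have hk : σ.ker = Subgroup.center H := by rw [CL.Schur.ker_comp_equiv, QuotientGroup.ker_mk']
    have hs : Function.Surjective σ := e.surjective.comp (QuotientGroup.mk'_surjective _)
    have h := CL.Known.altExt_of_hom hs hk.le
    set τ := (alternatingGroup (Fin n)).subtype.comp σ with hτ
    have hkτ : τ.ker = Subgroup.center H := by rw [hτ, CL.Known.ker_subtype_comp, hk]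
    have key : ∀ x : H, orderOf x = 2 → x ∈ Subgroup.center H := by
      intro x hx
      by_contra hxZ
      have hx2 : x ^ 2 = 1 := hx ▸ pow_orderOf_eq_one x
      have : Fact (Nat.Prime 2) := ⟨Nat.prime_two⟩
      have h2 : orderOf (τ x) = 2 := orderOf_eq_prime (by rw [← map_pow, hx2, map_one])
        fun h1 => hxZ (hkτ ▸ h1)
      have hct : (τ x).cycleType = {2, 2} := by
        obtain ⟨m, hm⟩ := Equiv.Perm.cycleType_prime_order (σ := τ x) (h2 ▸ Nat.prime_two)
        have h3 := Equiv.Perm.sum_cycleType_le (τ x)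
        have h4 := Equiv.Perm.sign_of_cycleType (τ x)
        rw [Equiv.Perm.mem_alternatingGroup.1 (h.mem_alt x)] at h4
        rw [hm, h2] at h3 h4 ⊢
        simp only [Multiset.sum_replicate, smul_eq_mul, Fintype.card_fin, Multiset.card_replicate] at h3 h4
        have : m ≤ 2 := by omega
        interval_cases m
        · exact absurd h4 (by decide)
        · rfl
        · exact absurd h4 (by decide)
      have h4 : 4 ≤ n := by
        have h3 := Equiv.Perm.sum_cycleType_le (τ x)
        rw [hct] at h3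
        simpa using h3
      obtain ⟨a, b, i, j, hab, hi, hi', hj, hj', hij⟩ := CL.Known.AltExt.exists_four (Ω := Fin n) (by simpa using h4)
      have hct' : (Equiv.swap a i * Equiv.swap b j).cycleType = {2, 2} := by
        rw [Equiv.Perm.Disjoint.cycleType_mul (Equiv.Perm.disjoint_swap_swap (by simp [*, hi'.symm])),
          (Equiv.Perm.isCycle_swap hi).cycleType, (Equiv.Perm.isCycle_swap hj').cycleType,
          Equiv.Perm.card_support_swap hi, Equiv.Perm.card_support_swap hj']
        rfl
      obtain ⟨g, hg⟩ := isConj_iff.1 (Equiv.Perm.isConj_iff_cycleType_eq.2 (hct'.trans hct.symm))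
      have hne : ∀ {u v : Fin n}, u ≠ v → g u ≠ g v := fun h => g.injective.ne h
      obtain ⟨X, w, hw, hX, hXX⟩ := h.exists_family_of_not_dvd (by rw [hkτ, hZ]; decide) (hne hab)
      have e1 : τ (X (g i) * X (g j)) = τ x := by
        rw [map_mul, (hX _ (hne hi) (hne hi')).2, (hX _ (hne hj) (hne hj')).2, ← hg,
          ← CL.Known.c3_mul_c3 hab hi hi' hj hj' hij, ← CL.Known.c3_conj, ← CL.Known.c3_conj]
        group
      obtain ⟨ζ, hζ, hc, rfl⟩ := h.exists_eq_mul e1
      have hζ2 : ζ ^ 2 = 1 := by
        rw [hkτ] at hζ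
        have := pow_card_eq_one' (x := (⟨ζ, hζ⟩ : Subgroup.center H))
        rw [hZ] at this
        exact congrArg Subtype.val this
      rw [(hc _).mul_pow, hζ2, mul_one, hXX _ _ (hne hi) (hne hi') (hne hj) (hne hj') (hne hij)] at hx2
      subst hx2
      obtain ⟨η, hη⟩ := CL.Known.exists_alt_section τ (hne hab) X (fun i hi hi' => (hX i hi hi').2)
        (fun i hi hi' => (hX i hi hi').1) hXX
      refine hns η.range (Subgroup.isComplement'_of_disjoint_and_mul_eq_univ ?_ ?_)
      · rw [Subgroup.disjoint_def]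
        rintro _ hy ⟨u, rfl⟩
        have : (u : Equiv.Perm (Fin n)) = 1 := by rw [← hη u]; exact (hkτ ▸ hy : η u ∈ τ.ker)
        rw [show u = 1 from Subtype.ext this, map_one]
      · rw [Set.eq_univ_iff_forall]
        intro y
        refine ⟨y * (η (σ y))⁻¹, ?_, η (σ y), ⟨_, rfl⟩, by simp⟩
        rw [SetLike.mem_coe, ← hkτ, MonoidHom.mem_ker, map_mul, map_inv, hη]
        exact mul_inv_cancel _
    intro x y hx hy
    obtain ⟨u, -, hu⟩ := (Nat.card_eq_two_iff' (1 : Subgroup.center H)).1 hZ
    have h1 : (⟨x, key x hx⟩ : Subgroup.center H) = u := hu _ fun h => by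
      rw [show x = 1 from congrArg Subtype.val h, orderOf_one] at hx; exact absurd hx (by decide)
    have h2 : (⟨y, key y hy⟩ : Subgroup.center H) = u := hu _ fun h => by
      rw [show y = 1 from congrArg Subtype.val h, orderOf_one] at hy; exact absurd hy (by decide)
    exact congrArg Subtype.val (h1.trans h2.symm)
  · obtain ⟨Γ, _, σ, z, hσ, hk, hz⟩ := CL.Known.exists_alt_double_cover (Fin 8) (by simp)
    have := CL.Schur.finite_of_stem hσ
    have hzk : z ∈ σ.ker := hk ▸ Subgroup.mem_zpowers z
    have hcen : Subgroup.center Γ = σ.ker := by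
      refine le_antisymm (fun x hx => ?_) hσ.2.1
      rw [MonoidHom.mem_ker, ← Subgroup.mem_bot, ← alternatingGroup.center_eq_bot (by simp),
        Subgroup.mem_center_iff]
      intro g
      obtain ⟨g, rfl⟩ := hσ.1 g
      rw [← map_mul, ← map_mul, Subgroup.mem_center_iff.1 hx]
    have hcard : Nat.card σ.ker = 2 := by rw [hk, Nat.card_zpowers, hz]
    have hz1 : z ≠ 1 := by rintro rfl; rw [orderOf_one] at hz; exact absurd hz (by decide)
    have h := CL.Known.altExt_of_hom hσ.1 hσ.2.1
    set τ := (alternatingGroup (Fin 8)).subtype.comp σ with hτ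
    have hkτ : τ.ker = σ.ker := CL.Known.ker_subtype_comp σ
    have h3 : ¬ 3 ∣ Nat.card τ.ker := by rw [hkτ, hcard]; decide
    refine ⟨Γ, inferInstance, inferInstance, ⟨by rw [hcen, hcard], ⟨(QuotientGroup.quotientMulEquivOfEq hcen).trans
      (QuotientGroup.quotientKerEquivOfSurjective σ hσ.1)⟩, fun L hL => ?_⟩, ?_⟩
    · have : L = ⊤ := by
        refine CL.Schur.eq_top_of_stem hσ L ?_
        rw [← MonoidHom.range_eq_top.2 hσ.1, MonoidHom.range_eq_map, ← hL.sup_eq_top, Subgroup.map_sup, hcen,
          (Subgroup.map_eq_bot_iff _).2 le_rfl, bot_sup_eq]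
      have h1 := hL.disjoint
      rw [this, disjoint_top, hcen, hk, Subgroup.zpowers_eq_bot] at h1
      exact hz1 h1
    obtain ⟨X, w, hw, hX, hXX⟩ := h.exists_family_of_not_dvd h3 (show (0 : Fin 8) ≠ 1 by decide)
    obtain ⟨G, hG⟩ := h.exists_lift (g := Equiv.swap 0 4 * Equiv.swap 1 5 * Equiv.swap 2 6 * Equiv.swap 3 7)
      (by rw [Equiv.Perm.mem_alternatingGroup]; decide)
    have hX2 := hX 2 (by decide) (by decide)
    have hX3 := hX 3 (by decide) (by decide)
    have hA := hXX 2 3 (by decide) (by decide) (by decide) (by decide) (by decide)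
    set B := G * (X 2 * X 3) * G⁻¹ with hB
    have hτB : τ B = Equiv.swap 4 6 * Equiv.swap 5 7 := by
      rw [hB, map_mul, map_mul, map_mul, map_inv, hG, hX2.2, hX3.2]; decide
    have hcomm : ∀ Y : Γ, Y ^ 3 = 1 → Commute (τ B) (τ Y) → Commute B Y := by
      intro Y hY hc
      have := h.eq_of_cube h3 (Y := B * Y * B⁻¹) (by rw [conj_pow, hY, mul_one, mul_inv_cancel]) hY
        (by rw [map_mul, map_mul, map_inv, hc.eq, mul_inv_cancel_right])
      exact mul_inv_eq_iff_eq_mul.1 this
    have hc : Commute B (X 2 * X 3) :=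
      (hcomm _ hX2.1 (by rw [hτB, hX2.2, commute_iff_eq]; decide)).mul_right (hcomm _ hX3.1 (by rw [hτB, hX3.2, commute_iff_eq]; decide))
    have hw2 : w ^ 2 = 1 := by
      rw [hkτ] at hw
      have := pow_card_eq_one' (x := (⟨w, hw⟩ : σ.ker))
      rw [hcard] at this
      exact congrArg Subtype.val this
    have hne : τ (B * (X 2 * X 3)) ≠ 1 := by
      rw [map_mul, hτB, map_mul, hX2.2, hX3.2]; decide
    have : Fact (Nat.Prime 2) := ⟨Nat.prime_two⟩
    refine ⟨B * (X 2 * X 3), z, fun e => hne (e ▸ (hkτ ▸ hzk : z ∈ τ.ker)), orderOf_eq_prime ?_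
      (fun e => hne (by rw [e, map_one])), hz⟩
    rw [hc.mul_pow, hB, conj_pow, hA, Subgroup.mem_center_iff.1 (h.central hw) G, mul_inv_cancel_right, ← sq, hw2]

end Cfsg.Agent.S0447
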