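import Cfsg.Statements.S0454
import Cfsg.Agent.Spor.LyCent
import Cfsg.Agent.Spor.MxSimple
import Cfsg.Agent.Spor.PGPres3

set_option autoImplicit false
open Cfsg

namespace Cfsg.Agent.S0454

/-- Existence of the Lyons group: there is a transitive permutation group of degree 8835156, simple of order 51765179004000000, whose point stabiliser is simple of the order of a group of type G2, and which has an involution whose centraliser is a non-split double cover of the alternating group of degree 11. -/
theorem result : ∃ H : Subgroup (Equiv.Perm (Fin 8835156)), Cfsg.IsLy H ∧ MulAction.IsPretransitive H (Fin 8835156) ∧ Cfsg.IsG2 (MulAction.stabilizer H (0 : Fin 8835156)) ∧ ∃ t : H, orderOf t = 2 ∧ Cfsg.IsNonsplitDoubleCover (Subgroup.centralizer ({t} : Set H)) (alternatingGroup (Fin 11)) := by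
  have := CL.LyM.simple
  obtain ⟨P, e, h1, h2⟩ := CL.Mx.exists_perm_rep CL.LyN0.N0 CL.LyM.final.1 fun h => by
    have := CL.LyM.final.1
    rw [h, Subgroup.index_top] at this
    omega
  have := CL.LyN0.simple
  have f := CL.LyN0.equiv.some.trans (e.subgroupMap CL.LyN0.N0)
  refine ⟨P, ⟨e.symm.isSimpleGroup, (Nat.card_congr e.symm.toEquiv).trans CL.LyM.card⟩, h1, ?_,
    e (CL.PG.letG CL.LyRep.lA 12), ?_, ?_⟩
  · rw [h2]
    exact ⟨f.symm.isSimpleGroup, 5, Nat.prime_five.isPrimePow, by norm_num,
      (Nat.card_congr f.symm.toEquiv).trans CL.LyN0.card⟩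
  · rw [MulEquiv.orderOf_eq]
    exact orderOf_eq_prime (CL.LyRep.t_sq CL.LyC.relA) CL.LyRep.t_ne
  · obtain ⟨_, τ, a, b, -⟩ := CL.LyRep.cover_A11 CL.LyC.relA CL.LyRep.t_ne
    have h := CL.LySub.nonsplit_of_stem a (CL.LySub.perfect_of_card (by rw [CL.LySub.card_A11]; norm_num)).2
      (CL.LyRep.card_of_cover a b CL.LyRep.t_ne (CL.LyRep.t_sq CL.LyC.relA)).1
    rw [CL.LyC.cent_t] at h
    refine CL.PP.nonsplit_congr ((e.subgroupMap _).trans (MulEquiv.subgroupCongr ?_)) h
    ext g
    obtain ⟨g, rfl⟩ := e.surjective g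
    rw [Subgroup.mem_centralizer_singleton_iff, ← map_mul, ← map_mul, e.apply_eq_iff_eq,
      ← Subgroup.mem_centralizer_singleton_iff]
    exact Subgroup.mem_map_iff_mem e.injective

end Cfsg.Agent.S0454
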