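import Cfsg.Statements.S0514
import Cfsg.Agent.Inv.DihFusion
import Cfsg.Agent.Grp.PNilpFrob

set_option autoImplicit false
open Cfsg

namespace Cfsg.Agent.S0514

open CL.Grp CL.Inv Subgroup


/-- In a finite group whose Sylow 2-subgroups are dihedral of order at least 4, the centralizer of any involution has a
normal subgroup of odd order whose index in the centralizer is a power of 2. -/
theorem result {X : Type*} [Group X] [Finite X]
    (S : Sylow 2 X) (n : ℕ) (hn : 2 ≤ n) (hS : Nonempty ((S : Subgroup X) ≃* DihedralGroup n)) (t : X)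
    (ht : orderOf t = 2) :
    ∃ N : Subgroup (Subgroup.centralizer ({t} : Set X)), N.Normal ∧ Odd (Nat.card N) ∧ ∃ k : ℕ, N.index = 2 ^ k := by
  classical
  haveI : Fact (Nat.Prime 2) := ⟨Nat.prime_two⟩
  obtain ⟨e⟩ := hS
  have htt : t * t = 1 := by rw [← pow_two, ← ht, pow_orderOf_eq_one]
  have ht1 : t ≠ 1 := by rintro rfl; simp at ht
  have key : Cfsg.HasNormalPComplement 2 (centralizer ({t} : Set X)) := by
    by_contra hnpc
    obtain ⟨P⟩ : Nonempty (Sylow 2 (centralizer ({t} : Set X))) := inferInstance
    obtain ⟨Q, hQP, q, k, g, hq, hq2, hg, hgN, hgC⟩ := exists_primePow_not_mem_centralizer P hnpc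
    have hgt : (g : X) * t * (g : X)⁻¹ = t := by
      have := (mem_centralizer_singleton_iff.1 g.2)
      rw [this, mul_inv_cancel_right]
    set Q' : Subgroup X := Q.map (centralizer ({t} : Set X)).subtype with hQ'
    have hQ'2 : IsPGroup 2 Q' := (P.2.to_le hQP).map _
    have hZ : IsPGroup 2 (zpowers t) := IsPGroup.of_card (n := 1) (by rw [Nat.card_zpowers, ht]; rfl)
    have hnorm : zpowers t ≤ normalizer (Q' : Set X) := by
      refine le_trans ?_ (centralizer_le_normalizer _)
      rw [zpowers_le, mem_centralizer_iff]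
      rintro _ ⟨x, -, rfl⟩
      exact mem_centralizer_singleton_iff.1 x.2
    have hR : IsPGroup 2 (Q' ⊔ zpowers t : Subgroup X) :=
      IsPGroup.to_sup_of_normal_left' hQ'2 hZ hnorm
    set R : Subgroup X := Q' ⊔ zpowers t with hRdef
    have htR : t ∈ R := mem_sup_right (mem_zpowers t)
    have hgo : Nat.Coprime (orderOf (g : X)) 2 := by
      rw [Subgroup.orderOf_coe, hg]
      exact Nat.Coprime.pow_left _ ((Nat.coprime_primes hq Nat.prime_two).2 hq2)
    have hgR : (g : X) ∈ normalizer (R : Set X) := by
      have h1 : (g : X) ∈ normalizer (Q' : Set X) :=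
        le_normalizer_map _ (mem_map_of_mem _ hgN)
      have h2 : (g : X) ∈ normalizer ((zpowers t : Subgroup X) : Set X) := by
        refine centralizer_le_normalizer _ ?_
        rw [mem_centralizer_iff]
        rintro _ ⟨m, rfl⟩
        have : Commute t (g : X) := (mem_centralizer_singleton_iff.1 g.2).symm
        exact (this.zpow_left m).eq
      exact normalizer_inf_normalizer_le_normalizer_sup _ _ ⟨h1, h2⟩
    have hgR' : (g : X) ∉ centralizer (R : Set X) := by
      intro h
      apply hgC
      rw [mem_centralizer_iff]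
      intro x hx
      exact Subtype.ext (mem_centralizer_iff.1 h x (mem_sup_left (mem_map_of_mem _ hx)))
    obtain ⟨S', hS'⟩ := hR.exists_le_sylow
    have hK : IsKleinFour R := by
      rcases dihedral_sylow_cases S' hn ((Sylow.equiv S' S).trans e) with h | ⟨m, ⟨D⟩⟩
      · have : R = S' := by
          refine le_antisymm hS' fun c hc => ?_
          obtain ⟨x, hx, hxg⟩ : ∃ x ∈ R, x * g ≠ g * x := by
            by_contra hc
            push Not at hc
            exact hgR' (mem_centralizer_iff.2 hc)
          have hx1 : x ≠ 1 := by rintro rfl; simp at hxg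
          have hxt : x ≠ t := by
            rintro rfl
            exact hxg (mem_centralizer_singleton_iff.1 g.2).symm
          by_cases h1 : c = 1
          · rw [h1]; exact one_mem _
          by_cases h2 : c = x
          · rw [h2]; exact hx
          by_cases h3 : c = t
          · rw [h3]; exact htR
          rw [IsKleinFour.eq_mul_of_mem h (hS' hx) (hS' htR) hc hx1 ht1 hxt h1 h2 h3]
          exact mul_mem hx htR
        rw [this]; exact h
      · obtain ⟨i, hi⟩ := D.dih_aut_cases hS'
          (HasCoprimeAut.not_isPGroup_mulAut ⟨g, hgR, hgo, hgR'⟩)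
        rw [hi]; exact D.dih_isKleinFour i
    exact ht1 (kleinFour_fixedPointFree hK hgR hgo hgR' htR hgt)
  obtain ⟨N, hN, h1, h2⟩ := hasNormalPComplement_iff_exists_normal.1 key
  exact ⟨N, hN, Nat.coprime_two_right.1 h1, h2⟩

end Cfsg.Agent.S0514
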