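import Cfsg.Statements.S0518
import Cfsg.Agent.Even.KS12.I

set_option autoImplicit false
open Cfsg Subgroup CL.Even CL.Loc CL.KS12

namespace Cfsg.Agent.S0518

/-- Let G be a finite group of characteristic 2 type with trivial 2-core in which every 2-local subgroup is solvable
and, for every Sylow 2-subgroup S, the centralizer of the set of central involutions of S lies in the normalizer of S.
Then either G has a strongly embedded subgroup, or the subgroup generated by the elements of odd order has two distinct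
maximal 2-local subgroups, each isomorphic to the symmetric group of degree 4, whose intersection has order 8. -/
theorem result {G : Type*} [Group G] [Finite G]
    (hL : Cfsg.IsCharacteristicTwoType G) (hO : Cfsg.pCore 2 G = ⊥)
    (hN : ∀ N : Subgroup G, Cfsg.IsTwoLocal N → Group.IsSolvable N)
    (hZ : ∀ S : Sylow 2 G,
      Subgroup.centralizer {z : G | z ∈ (S : Subgroup G) ∧ z ^ 2 = 1 ∧ ∀ s ∈ (S : Subgroup G), s * z = z * s} ≤
        Subgroup.normalizer ((S : Subgroup G) : Set G))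
    (H : Subgroup G) (hH : H = Subgroup.closure {g : G | Odd (orderOf g)}) :
    (∃ K : Subgroup G, Cfsg.IsStronglyEmbedded K) ∨
      ∃ M₁ M₂ : Subgroup H, M₁ ≠ M₂ ∧ Cfsg.IsMaximalTwoLocal M₁ ∧ Cfsg.IsMaximalTwoLocal M₂ ∧
        Nonempty (M₁ ≃* Equiv.Perm (Fin 4)) ∧ Nonempty (M₂ ≃* Equiv.Perm (Fin 4)) ∧ Nat.card ↥(M₁ ⊓ M₂) = 8 := by
  have hZ' : ∀ S : Sylow 2 G, 𝒞(omegaCenterOf (S : Subgroup G)) ≤ 𝒩((S : Subgroup G)) := fun S x hx =>
    hZ S fun y hy => hx y (mem_ozc.2 ⟨hy.1, hy.2.2, hy.2.1⟩)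
  have z : ZN G := ⟨hL, hN, hZ'⟩
  obtain rfl : H = pResidualOf 2 ⊤ := by rw [hH, ← res_two]; simp
  obtain ⟨S⟩ : Nonempty (Sylow 2 G) := inferInstance
  have hS := CL.Grp.isSylowIn_top S
  have hM := loc_norm (j_isP S.isPGroup') (thompsonSubgroupOf_ne_bot_of_isPGroup S.isPGroup' (z.syl_ne hS))
  rcases (straddlingTwoSubgroups 𝒩(𝐉[2] (S : Subgroup G))).eq_empty_or_nonempty with h0 | h0
  · exact Or.inl ⟨_, (Cfsg.Agent.S2947.result hL hN hZ' hO S _ hM le_rfl).2 h0⟩
  obtain ⟨T, hT⟩ := exists_mx h0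
  obtain ⟨K₁, L₁, K₂, L₂, p⟩ := HM.exists_pair ⟨z, hS, hM, le_rfl, hT⟩ hO
  refine Or.inr ⟨_, _, fun e => p.not_le fun k hk => ?_, p.max_res, p.symm.max_res, p.iso_res, p.symm.iso_res, ?_⟩
  · exact e.ge (x := ⟨k, res_mono le_top (p.symm.k3.res.ge hk)⟩) (p.u₂.le hk)
  · rw [← comap_subtype, ← comap_subtype, ← comap_inf, comap_subtype, ← p.l_eq, ← p.symm.l_eq, p.p_inf,
      ← inf_subgroupOf_right, Nat.card_congr (subgroupOfEquivOfLe inf_le_right).toEquiv, p.t_inf_res, p.card_r]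

end Cfsg.Agent.S0518
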