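import Cfsg.Statements.S0547
import Cfsg.Agent.Grp.Primitive

set_option autoImplicit false
open Cfsg

namespace Cfsg.Agent.S0547

/-- Let a finite solvable group G act faithfully and primitively on a set, and let M be a minimal normal subgroup of G. Then M is transitive with trivial point stabilizers, and the number of points equals the order of M, which is a prime power p ^ d with d ≥ 1. -/
theorem result {G : Type*} [Group G] [Finite G] [Group.IsSolvable G] {Ω : Type*} [Nonempty Ω] [MulAction G Ω] [FaithfulSMul G Ω] (hprim : MulAction.IsPreprimitive G Ω) (M : Subgroup G) [M.Normal] (hM : M ≠ ⊥) (hmin : ∀ K : Subgroup G, K.Normal → K ≤ M → K = ⊥ ∨ K = M) : MulAction.IsPretransitive M Ω ∧ (∀ ω : Ω, MulAction.stabilizer M ω = ⊥) ∧ ∃ p d : ℕ, p.Prime ∧ 0 < d ∧ Nat.card Ω = p ^ d ∧ Nat.card M = p ^ d := by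
  have hm : CL.Grp.IsMinNormal M := ⟨‹_›, hM, hmin⟩
  have := hm.isMulCommutative_of_isSolvable inferInstance
  have ht := CL.Grp.isPretransitive_of_normal_of_ne_bot (Ω := Ω) M hM
  have hs := CL.Grp.stabilizer_eq_bot_of_isMulCommutative (Ω := Ω) M
  obtain ⟨ω⟩ : Nonempty Ω := inferInstance
  obtain ⟨p, d, hp, hd, e⟩ := hm.exists_card_eq_pow inferInstance
  exact ⟨ht, hs, p, d, hp, hd, (CL.Grp.card_eq_of_regular M ω (hs ω)).trans e, e⟩

end Cfsg.Agent.S0547
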