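import Cfsg.Statements.S0658
import Cfsg.Agent.Grp.ZJ2

set_option autoImplicit false
open Cfsg

namespace Cfsg.Agent.S0658

/-- In a group of characteristic p type all of whose p-locals are p-stable (p odd), the normalizer of Z(J(P)) contains the normalizer of every nontrivial subgroup of the Sylow p-subgroup P. -/
theorem result {G : Type*} [Group G] [Finite G] {p : ℕ} [Fact p.Prime] (hp : p ≠ 2) (hloc : ∀ Q : Subgroup G, IsPGroup p Q → Q ≠ ⊥ → Cfsg.pPrimeCore p ↥(Subgroup.normalizer (Q : Set G)) = ⊥ ∧ Cfsg.IsPConstrained p ↥(Subgroup.normalizer (Q : Set G)) ∧ Cfsg.IsPStable p ↥(Subgroup.normalizer (Q : Set G))) (P : Sylow p G) (Q : Subgroup G) (hQP : Q ≤ (P : Subgroup G)) (hQ1 : Q ≠ ⊥) : Subgroup.normalizer (Q : Set G) ≤ Subgroup.normalizer (Cfsg.centerThompsonAOf ((P : Subgroup G)) : Set G) := by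
  rw [CL.Grp.centerThompsonAOf_eq, ← CL.Grp.inducedFunctor_zjFun]
  have hW := CL.Grp.isConjugacyFunctor_inducedFunctor (G := G)
    (CL.Grp.isCharPFunctor_zjFun (p := p) (Or.inr rfl))
  refine CL.Grp.normalizer_le_normalizer_of_local hW (fun R S hR hR1 hS => ?_) P (P.2.to_le hQP) hQ1
    (hQP.trans (CL.Loc.le_normalizer_cfun hW P.2))
  obtain ⟨h1, h2, h3⟩ := hloc R hR hR1
  rw [CL.Grp.inducedFunctor_zjFun]
  exact CL.Grp.le_normalizer_centerThompsonOf_of_normal hS.1 (CL.Grp.zj_normal hp (Or.inr rfl)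
    ((CL.Loc.isPConstrained_iff_of_pPrimeCore_eq_bot h1).1 h2)
    (fun B _ hB => CL.Grp.isPStableOn_of_isPStable h3 h1 B hB) hS.toSylow
    (CL.Grp.isStronglyClosed_self _))

end Cfsg.Agent.S0658
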