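import Cfsg.Statements.S0667
import Cfsg.Agent.Grp.ZJ2
import Cfsg.Agent.S0632

set_option autoImplicit false
open Cfsg

namespace Cfsg.Agent.S0667

/-- Glauberman's Theorem in the p-constrained, p-stable vocabulary: for odd p such a group is the product of its largest normal subgroup of order prime to p with the normalizer of Z(J(P)), and Z(J(P)) is normal when that p'-subgroup is trivial. -/
theorem result {G : Type*} [Group G] [Finite G] {p : ℕ} [Fact p.Prime] (hp : p ≠ 2) (hc : Cfsg.IsPConstrained p G) (hs : Cfsg.IsPStable p G) (P : Sylow p G) : Cfsg.pPrimeCore p G ⊔ Subgroup.normalizer (Cfsg.centerThompsonAOf ((P : Subgroup G)) : Set G) = ⊤ ∧ (Cfsg.pPrimeCore p G = ⊥ → (Cfsg.centerThompsonAOf ((P : Subgroup G))).Normal) := by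
  rw [CL.Grp.centerThompsonAOf_eq]
  have h1 := (Cfsg.Agent.S0632.result hs.2.1).1 hs
  refine ⟨CL.Grp.sup_normalizer_eq_top_of_map_normal (CL.Grp.pPrimeCore_coprime p G)
    (P.2.to_le (CL.Loc.centerThompsonOf_le _)) (CL.Grp.zj_map_normal_of_stable hp (Or.inr rfl) hc
      (fun B _ hB => CL.Grp.isPStableOn_of_isPStable h1 (CL.Grp.pPrimeCore_quotient_pPrimeCore p G) B hB)
      P), fun h => ?_⟩
  exact CL.Grp.zj_normal hp (Or.inr rfl) ((CL.Loc.isPConstrained_iff_of_pPrimeCore_eq_bot h).1 hc)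
    (fun B _ hB => CL.Grp.isPStableOn_of_isPStable hs h B hB) P (CL.Grp.isStronglyClosed_self _)

end Cfsg.Agent.S0667
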