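import Cfsg.Statements.S0979
import Cfsg.Agent.Loc.SCPrime

set_option autoImplicit false
open Cfsg

namespace Cfsg.Agent.S0979

/-- No finite simple group has order 5472 = 2^5 * 3^2 * 19. -/
theorem result {G : Type*} [Group G] [Finite G] [IsSimpleGroup G] : Nat.card G ≠ 5472 := by
  intro h
  have := Fintype.ofFinite G
  have hG := CL.Inv.not_isMulCommutative_of_not_prime (G := G) (by rw [h]; norm_num)
  obtain ⟨e, n, h1, h2, h3, h4, ⟨D⟩⟩ := CL.Loc.exists_scData_three (G := G) (p := 2) (q := 3) (r := 19)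
    (a := 5) (b := 2) (by norm_num) (by norm_num) (by norm_num) (by norm_num) (by norm_num)
    (by rw [h]; norm_num) hG
  have h5 := Nat.le_of_dvd (by norm_num) h1
  unfold Nat.ModEq at h3
  obtain rfl : e = 3 := by interval_cases e <;> omega
  have h6 : ∀ χ ∈ D.X, D.s χ * Cfsg.charDegree (χ : G → ℂ) = -18 := by
    intro χ hχ
    obtain ⟨c1, c2, c3⟩ := CL.Loc.deg_facts hG (D.ne_one_X hχ)
    have c4 := D.deg_X χ hχ
    rw [h] at c2 c3
    generalize Cfsg.charDegree (χ : G → ℂ) = c at *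
    have c5 : c < 74 := by nlinarith
    unfold Int.ModEq at c4
    rcases D.hs χ hχ with h7 | h7 <;> rw [h7] at c4 ⊢ <;> interval_cases c <;> omega
  have h7 := D.rel
  obtain ⟨η, hη⟩ := D.exists_Y (by norm_num)
  have h8 := (CL.Loc.deg_facts hG (D.ne_one_Y hη)).2.1
  rw [Finset.sum_congr rfl h6, Finset.sum_const, show D.X.card = 2 by have := D.card_X; omega] at h7
  rw [D.deg_Y η hη, h] at h8
  obtain h9 : D.d = 35 := by rcases D.hε with h9 | h9 <;> rw [h9] at h7 <;> simp at h7 <;> omega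
  rw [h9] at h8
  omega

end Cfsg.Agent.S0979
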