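import Cfsg.Statements.S0983
import Cfsg.Agent.Blk.Sieve3
import Cfsg.Agent.Blk.Sieve4
import Cfsg.Agent.S0976
import Cfsg.Agent.S0977
import Cfsg.Agent.S0978
import Cfsg.Agent.S0980

set_option autoImplicit false
open Cfsg

namespace Cfsg.Agent.S0983

/-- A non-abelian finite simple group of order greater than 3640 and at most 6232 has order 4080, 5616, 6048 or 6072. -/
theorem result {G : Type*} [Group G] [Finite G] [IsSimpleGroup G] (hG : ¬ IsMulCommutative G) (h1 : 3640 < Nat.card G) (h2 : Nat.card G ≤ 6232) : Nat.card G = 4080 ∨ Nat.card G = 5616 ∨ Nat.card G = 6048 ∨ Nat.card G = 6072 := by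
  have h := CL.Blk.Sieve.card_mem_of_simple hG (by omega)
  have a1 := S0976.result (G := G)
  have a2 := S0977.result (G := G)
  have a3 := S0978.result (G := G)
  have a4 := S0980.result (G := G)
  have a5 := CL.Blk.Sieve.card_ne_5400 hG
  simp only [List.mem_cons, List.not_mem_nil, or_false] at h
  omega

end Cfsg.Agent.S0983
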