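import Cfsg.Statements.S1021
import Cfsg.Agent.Inv.PSL2pC

set_option autoImplicit false
open Cfsg

namespace Cfsg.Agent.S1021

/-- A simple group of order 3420 is isomorphic to the projective special linear group of dimension 2 over the field with 19 elements. -/
theorem result {G : Type*} [Group G] [Finite G] [IsSimpleGroup G] (h : Nat.card G = 3420) {F : Type*} [Field F] [Fintype F] (hF : Fintype.card F = 19) : Nonempty (G ≃* Matrix.ProjectiveSpecialLinearGroup (Fin 2) F) := by
  haveI : Fact (Nat.Prime 19) := ⟨by norm_num⟩
  exact CL.Inv.psl2p_of_simple (p := 19) (by norm_num) (by rw [h]; norm_num) hF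

end Cfsg.Agent.S1021
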