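import Cfsg.Statements.S1026
import Cfsg.Agent.Chev.RealSt
import Cfsg.Agent.Chev.RealAll

set_option autoImplicit false
open Cfsg

namespace Cfsg.Agent.S1026

/-- Every element of `U` has a unique expression `∏_{r ∈ Φ⁺} x_r(t_r)`, the product over the positive roots in increasing index order (the coefficient family `t`, supported on the positive roots, exists and is unique); and conversely every such ordered product is the matrix of an element of `U`. -/
theorem result {F : Type*} [Field F] (D : Cfsg.Lie.ChevalleyDatum) (hD : D ∈ [Cfsg.Lie.chevG2, Cfsg.Lie.chevB2, Cfsg.Lie.chevD4, Cfsg.Lie.chevF4, Cfsg.Lie.chevE6, Cfsg.Lie.chevE7, Cfsg.Lie.chevE8]) :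
    (∀ g : GL D.Idx F, g ∈ D.posUnipotent F →
      ∃! t : ℕ → F, (∀ r, ¬ D.IsPosRoot r → t r = 0) ∧
        (g : Matrix D.Idx D.Idx F) = D.wordMat F (D.posRoots.map fun r => (r, t r))) ∧
    (∀ t : ℕ → F, ∃ g : GL D.Idx F, g ∈ D.posUnipotent F ∧
      (g : Matrix D.Idx D.Idx F) = D.wordMat F (D.posRoots.map fun r => (r, t r))) := by
  obtain ⟨E⟩ := CL.Chev.exists_real hD
  obtain ⟨l, h1, h2, h3⟩ := E.exists_posList
  simp only [← h3, E.eq_word_iff, E.word_map, E.posUnipotent_eq]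
  refine ⟨fun g hg => ?_, fun t => ⟨_, (E.S F).prodL_mem_XS (fun r hr => (h2 r).1 hr) _, rfl⟩⟩
  obtain ⟨t, rfl⟩ := (E.S F).exists_prodL (fun _ h => h) E.R.closed_pos h1 h2 hg
  classical
  have e : (E.S F).prodL l t = (E.S F).prodL l fun r => if h : D.IsPosRoot r then t ⟨r, h.1⟩ else 0 :=
    (E.S F).prodL_congr fun r hr => by rw [dif_pos ((E.isPosRoot_iff r).2 ((h2 r).1 hr))]
  refine ⟨fun r => if h : D.IsPosRoot r then t ⟨r, h.1⟩ else 0, ⟨fun r hr => dif_neg hr, e⟩, fun t' ht' => ?_⟩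
  funext r
  split_ifs with h
  · exact ((E.faithful F).uFaithful.prodL_inj h1 (fun r hr => (h2 r).1 hr) ht'.2 ⟨r, h.1⟩
      ((h2 _).2 ((E.isPosRoot_iff ⟨r, h.1⟩).1 h))).symm
  · exact ht'.1 r h

end Cfsg.Agent.S1026
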