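import Cfsg.Statements.S1030
import Cfsg.Agent.Chev.RealAll
import Cfsg.Agent.Chev.SL2Pres

set_option autoImplicit false
open Cfsg

namespace Cfsg.Agent.S1030

/-- There is a homomorphism `SL₂(F) → GL` with image `⟨X_r, X_{-r}⟩` sending `[[1,t],[0,1]]` to `x_r(t)` and `[[1,0],[t,1]]` to `x_{-r}(t)`. -/
theorem result {F : Type*} [Field F] (D : Cfsg.Lie.ChevalleyDatum) (hD : D ∈ [Cfsg.Lie.chevG2, Cfsg.Lie.chevB2, Cfsg.Lie.chevD4, Cfsg.Lie.chevF4, Cfsg.Lie.chevE6, Cfsg.Lie.chevE7, Cfsg.Lie.chevE8]) (r : ℕ) (hr : r < D.nroots) :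
    ∃ φ : Matrix.SpecialLinearGroup (Fin 2) F →* GL D.Idx F,
      φ.range = D.rootSubgroup F r ⊔ D.rootSubgroup F (D.neg r) ∧
      ∀ (g : Matrix.SpecialLinearGroup (Fin 2) F) (t : F),
        ((g : Matrix (Fin 2) (Fin 2) F) = !![1, t; 0, 1] → ((φ g : GL D.Idx F) : Matrix D.Idx D.Idx F) = D.x F r t) ∧
        ((g : Matrix (Fin 2) (Fin 2) F) = !![1, 0; t, 1] → ((φ g : GL D.Idx F) : Matrix D.Idx D.Idx F) = D.x F (D.neg r) t) := by
  obtain ⟨E⟩ := CL.Chev.exists_real hD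
  set a : Fin D.nroots := ⟨r, hr⟩
  have hR : CL.Chev.SL2.Rel ((E.S F).x a) ((E.S F).x (E.R.neg a)) :=
    ⟨(E.S F).x_add a, (E.S F).x_add _, fun t ht u => by
      have := (E.S F).conj_n a a ht u
      rw [E.R.refl_self, (E.S F).η_self, E.R.pair_self] at this
      refine this.trans ?_
      congr 1
      simp [zpow_neg, zpow_ofNat]⟩
  obtain ⟨φ, h1, h2⟩ := hR.exists_hom fun t u ht hu => (E.hMul F a t u ht hu).symm
  have e1 : D.rootSubgroup F r = (E.S F).X a := E.rootSubgroup_eq F a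
  have e2 : D.rootSubgroup F (D.neg r) = (E.S F).X (E.R.neg a) := by rw [← E.rootSubgroup_eq F, E.neg_eq]
  refine ⟨φ, le_antisymm ?_ ?_, fun g t => ⟨fun hg => ?_, fun hg => ?_⟩⟩
  · rw [CL.Chev.SL2.range_le_iff, e1, e2]
    exact ⟨fun t => h1 t ▸ Subgroup.mem_sup_left ((E.S F).x_mem_X _ _),
      fun t => h2 t ▸ Subgroup.mem_sup_right ((E.S F).x_mem_X _ _)⟩
  · rw [e1, e2]
    refine sup_le (fun g hg => ?_) (fun g hg => ?_)
    · obtain ⟨t, rfl⟩ := (E.S F).mem_X.1 hg; exact ⟨_, h1 t⟩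
    · obtain ⟨t, rfl⟩ := (E.S F).mem_X.1 hg; exact ⟨_, h2 t⟩
  · rw [show g = CL.Chev.SL2.up t from Subtype.ext hg, h1, E.x_val]
  · rw [show g = CL.Chev.SL2.lo t from Subtype.ext hg, h2, E.x_val, E.neg_eq]

end Cfsg.Agent.S1030
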