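import Cfsg.Statements.S1227
import Cfsg.Agent.Inv.ElemCent

set_option autoImplicit false
open Cfsg
open CL.Inv.SE

namespace Cfsg.Agent.S1227

/-- Let G be a finite group with a Sylow 2-subgroup T that is neither cyclic nor normal, such that the centralizer of every involution is an elementary abelian 2-group; put H = N_G(T), let u be an involution outside H and D = H ∩ uHu⁻¹. Then u inverts every element of D, |H| = |T|·(|T| − 1), and D is a complement to T in H. -/
theorem result {G : Type*} [Group G] [Finite G] (T : Sylow 2 G) (hnc : ¬ IsCyclic (T : Subgroup G)) (hnn : ¬ (T : Subgroup G).Normal) (hC : ∀ t : G, orderOf t = 2 → IsMulCommutative (Subgroup.centralizer ({t} : Set G)) ∧ ∀ c ∈ Subgroup.centralizer ({t} : Set G), c ^ 2 = 1) (u : G) (hu : orderOf u = 2) (huH : u ∉ Subgroup.normalizer ((T : Subgroup G) : Set G)) : (∀ d ∈ Subgroup.normalizer ((T : Subgroup G) : Set G) ⊓ (Subgroup.normalizer ((T : Subgroup G) : Set G)).map (MulAut.conj u).toMonoidHom,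 u * d * u⁻¹ = d⁻¹) ∧ Nat.card (Subgroup.normalizer ((T : Subgroup G) : Set G)) = Nat.card T * (Nat.card T - 1) ∧ Subgroup.IsComplement' ((Subgroup.normalizer ((T : Subgroup G) : Set G) ⊓ (Subgroup.normalizer ((T : Subgroup G) : Set G)).map (MulAut.conj u).toMonoidHom).subgroupOf (Subgroup.normalizer ((T : Subgroup G) : Set G))) ((T : Subgroup G).subgroupOf (Subgroup.normalizer ((T : Subgroup G) : Set G))) := by
  have h := ElemCentHyp.elemCent hC T hnc hnn
  have hT := ElemCentHyp.syl_one hC T hnc hnn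
  set H := Subgroup.normalizer ((T : Subgroup G) : Set G) with hH
  set D := H ⊓ H.map (MulAut.conj u).toMonoidHom with hD
  have hxy := one_ne_mk huH
  have hux := smul_one_eq_mk H u
  have hTH : (T : Subgroup G) ≤ H := Subgroup.le_normalizer
  have hcompl : Subgroup.IsComplement' (D.subgroupOf H) ((T : Subgroup G).subgroupOf H) := by
    refine Subgroup.isComplement'_of_disjoint_and_mul_eq_univ ?_ ?_
    · rw [Subgroup.disjoint_def]
      intro x hx1 hx2
      rw [Subgroup.mem_subgroupOf] at hx1 hx2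
      rw [mem_inf_conj_iff] at hx1
      rw [← hT] at hx2
      exact Subtype.ext (h.uf.eq_one_of_sq hxy hx1.1 hx1.2 hx2.1)
    · rw [Set.eq_univ_iff_forall]
      intro g
      obtain ⟨d, t, h1, h2, h3, h4, h5⟩ := h.exists_factor hxy ((smul_one_eq_iff H g).2 g.2)
      have htT : t ∈ (T : Subgroup G) := by rw [← hT]; exact ⟨h3, h4⟩
      exact ⟨⟨d, (smul_one_eq_iff H d).1 h1⟩, (mem_inf_conj_iff H u d).2 ⟨h1, h2⟩, ⟨t, hTH htT⟩, htT,
        Subtype.ext h5.symm⟩
  refine ⟨fun d hd => ?_, ?_, hcompl⟩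
  · rw [mem_inf_conj_iff] at hd
    exact h.inverts hxy hu hux hd.1 hd.2
  · rw [← hcompl.card_mul_card, Nat.card_congr (Subgroup.subgroupOfEquivOfLe hTH).toEquiv,
      Nat.card_congr (Subgroup.subgroupOfEquivOfLe (inf_le_left : D ≤ H)).toEquiv, mul_comm]
    congr 1
    obtain ⟨s, -, hs, -, hsx, -, -⟩ := h.two ((1 : G) : G ⧸ H)
    have hsT : s ∈ h.syl ((1 : G) : G ⧸ H) := ⟨mul_self_of_inv hs, hsx⟩
    have e : Nat.card D = Nat.card {t : (T : Subgroup G) // t ≠ 1} := by
      refine Nat.card_eq_of_bijective (fun d => ⟨⟨d.1 * s * d.1⁻¹, ?_⟩, ?_⟩) ⟨?_, ?_⟩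
      · have := h.conj_mem_syl hsT ((mem_inf_conj_iff H u d).1 d.2).1
        rwa [hT] at this
      · intro e
        exact ne_one_of_inv (inv_conj hs d.1) (congrArg Subtype.val e)
      · intro a b hab
        have hab : a.1 * s * a.1⁻¹ = b.1 * s * b.1⁻¹ := congrArg (fun x => (x.1.1 : G)) hab
        have hm := (mem_inf_conj_iff H u _).1 (D.mul_mem (D.inv_mem b.2) a.2)
        refine Subtype.ext (inv_mul_eq_one.1 (h.eq_one_of_commute hxy hm.1 hm.2 hs ?_)).symm
        show b.1⁻¹ * a.1 * s = s * (b.1⁻¹ * a.1)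
        calc b.1⁻¹ * a.1 * s = b.1⁻¹ * (a.1 * s * a.1⁻¹) * a.1 := by group
          _ = _ := by rw [hab]; group
      · rintro ⟨⟨t, htT⟩, ht1⟩
        have ht' : t ∈ h.syl ((1 : G) : G ⧸ H) := by rw [hT]; exact htT
        obtain ⟨d, h1, h2, -, h4, -⟩ := h.uf.exists_conj_of_swap hs
          (inv_of_mul_self ht'.1 fun e => ht1 (Subtype.ext e)) hu hsx ht'.2 hxy hux
        exact ⟨⟨d, (mem_inf_conj_iff H u d).2 ⟨h1, h2⟩⟩, Subtype.ext (Subtype.ext h4)⟩
    rw [e]
    classical
    have := Fintype.ofFinite (T : Subgroup G)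
    simp [Nat.card_eq_fintype_card]

end Cfsg.Agent.S1227
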