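import Cfsg.Statements.S1349
import Cfsg.Agent.Loc.DihLemma

set_option autoImplicit false
open Cfsg

namespace Cfsg.Agent.S1349

open CL.Loc Subgroup

/-- Let G be finite, L ≤ G solvable of odd order, and A an elementary abelian 2-subgroup of order 2^d (d ≥ 1) normalizing L with C_A(L) = 1. Then there are subgroups A_1, …, A_d of A of order 2 generating A and subgroups L_1, …, L_d of L such that each A_i ⊔ L_i is dihedral of order 2 n_i with n_i odd and at least 3, and A_i ⊔ L_i commutes elementwise with A_j ⊔ L_j for i ≠ j. -/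
theorem result {G : Type*} [Group G] [Finite G] (L A : Subgroup G) (hLs : Group.IsSolvable ↥L) (hLodd : Odd (Nat.card ↥L)) (hA : Cfsg.IsElementaryAbelian 2 A) (d : ℕ) (hd : 1 ≤ d) (hAd : Nat.card ↥A = 2 ^ d) (hAL : A ≤ Subgroup.normalizer (L : Set G)) (hfaith : A ⊓ Subgroup.centralizer (L : Set G) = ⊥) : ∃ (Ai : Fin d → Subgroup G) (Li : Fin d → Subgroup G) (n : Fin d → ℕ), (∀ i, Ai i ≤ A ∧ Nat.card ↥(Ai i) = 2 ∧ Li i ≤ L ∧ Odd (n i) ∧ 3 ≤ n i ∧ Nonempty (↥(Ai i ⊔ Li i) ≃* DihedralGroup (n i))) ∧ (⨆ i, Ai i) = A ∧ ∀ i j, i ≠ j → ∀ x ∈ Ai i ⊔ Li i, ∀ y ∈ Ai j ⊔ Li j, x * y = y * x := by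
  have h2 : ¬ 2 ∣ Nat.card L := hLodd.not_two_dvd_nat
  obtain ⟨V, hV, hAV, hc, hf⟩ := exists_invariant_abelian_faithful hA hLs hAL h2
  obtain ⟨b, x, h3, h4, -⟩ := exists_dual_eig hA hAV (fun h => h2 (h.trans (card_dvd_of_le hV)))
    (eq_bot_iff.2 (hfaith ▸ le_inf inf_le_left hf)) d A le_rfl hAd
  refine ⟨fun i => zpowers (b i), fun i => zpowers (x i), fun i => orderOf (x i), fun i => ?_, h4,
    fun i j hij y hy z hz => ?_⟩
  · obtain ⟨h5, h6, h7, h8, -⟩ := h3 i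
    have h9 : Odd (orderOf (x i)) := hLodd.of_dvd_nat (L.orderOf_dvd_natCard (hV h6))
    exact ⟨zpowers_le.2 h5, by rw [Nat.card_zpowers, ea_orderOf hA h5 fun e => h8 (e ▸ one_mem _)],
      zpowers_le.2 (hV h6), h9, nonempty_dihedral_sup (by rw [← sq, hA.2 _ h5]) h9 (h7 h5) h8⟩
  have h5 : zpowers (b j) ⊔ zpowers (x j) ≤
      centralizer ((zpowers (b i) ⊔ zpowers (x i) : Subgroup G) : Set G) := by
    refine sup_le (le_centralizer_iff.1 (sup_le ?_ ?_)) (le_centralizer_iff.1 (sup_le ?_ ?_))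
    · exact ea_le_centralizer_of_le hA (zpowers_le.2 (h3 i).1) (zpowers_le.2 (h3 j).1)
    · rw [le_centralizer_iff, cent_zpowers, zpowers_le]
      exact (h3 i).2.2.2.2 j hij.symm
    · rw [cent_zpowers, zpowers_le]
      exact (h3 j).2.2.2.2 i hij
    · exact (zpowers_le.2 (hc (h3 i).2.1)).trans (centralizer_le (zpowers_le.2 (h3 j).2.1))
  exact h5 hz y hy

end Cfsg.Agent.S1349
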