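import Cfsg.Statements.S1824
import Cfsg.Agent.QT.Qrc4

set_option autoImplicit false
open Cfsg Subgroup CL.Even CL.Grp CL.Loc
open scoped commutatorElement

namespace Cfsg.Agent.S1824

/-- The qrc-lemma in the form used for simple QTKE-groups. Let G be a non-abelian finite simple QTKE-group, T a Sylow 2-subgroup of G and M a maximal 2-local subgroup of G containing T. Let T ≤ M₀ ≤ M, let H be a minimal member of the set of subgroups of G with nontrivial 2-core that contain T and are not contained in M, and let V be a 2-reduced elementary abelian normal 2-subgroup of M₀ with O₂(M₀) = C_T(V). Suppose H ∩ M normalizes O²(M₀) or normalizes V. Then one of the following holds: (1) some nontrivial subgroup of O₂(M₀) is normalized by both M₀ and H; (2) V ≰ O₂(H) and q̂(M₀/C_{M₀}(V), V) ≤ 2; (3) q(M₀/C_{M₀}(V), V) ≤ 2. Here q (resp. q̂) ≤ 2 means that some subgroup of M₀ inducing a nontrivial elementary abelian 2-group A on V acts quadratically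 (resp. cubically) on V with |V : C_V(A)| ≤ |A|². -/
theorem result {G : Type*} [Group G] [Finite G] [IsSimpleGroup G]
    (hG : ¬ IsMulCommutative G) (hQ : Cfsg.IsQTKE G) (T : Sylow 2 G) (M M₀ H V : Subgroup G)
    (hM : M ∈ Cfsg.maxTwoLocalsContaining (T : Subgroup G))
    (hTM₀ : (T : Subgroup G) ≤ M₀) (hM₀M : M₀ ≤ M) (hH : H ∈ Cfsg.calHMin (T : Subgroup G) M)
    (hV : V ∈ Cfsg.calR2 M₀)
    (hR : (Cfsg.pCore 2 ↥M₀).map M₀.subtype = (T : Subgroup G) ⊓ Subgroup.centralizer (V : Set G))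
    (hI : H ⊓ M ≤ Subgroup.normalizer (Cfsg.oddGenerated M₀ : Set G) ∨
      H ⊓ M ≤ Subgroup.normalizer (V : Set G)) :
    (∃ R₀ : Subgroup G, R₀ ≠ ⊥ ∧ R₀ ≤ (Cfsg.pCore 2 ↥M₀).map M₀.subtype ∧
        M₀ ⊔ H ≤ Subgroup.normalizer (R₀ : Set G)) ∨
      (¬ V ≤ (Cfsg.pCore 2 ↥H).map H.subtype ∧ Cfsg.CubicParamLE M₀ V 2) ∨
      Cfsg.QuadParamLE M₀ V 2 := by
  have hE := CL.QT.evenCh_of hQ.2.2 T
  have hT := isSylowIn_top T
  have hO : pCoreOf 2 H ≠ ⊥ := fun e => hH.1.1.1 (core_eq_bot_iff.1 e)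
  have hTH : (T : Subgroup G) ≤ H := hH.1.1.2
  have hU : UMax (T : Subgroup G) (H ⊓ M) H := ⟨le_inf hTH hM.2, inf_lt_left.2 hH.1.2, fun X h1 h2 => le_inf h2.le (by
    by_contra e
    refine h2.ne (hH.2 X ⟨⟨fun e' => hO (eq_bot_iff.2 ?_), h1⟩, e⟩ h2.le)
    exact (core_le_core_of_le ((core_le_syl (hT.of_le hTH le_top)).trans h1) h2.le).trans (core_eq_bot_iff.2 e').le)⟩
  obtain ⟨D, h1, h2, h3⟩ := hM.1.1
  rw [core_def] at hR
  refine CL.QT.qrc hT hE (h3 ▸ hE D h2 h1 (h3 ▸ hM.2)) hTM₀ hM₀M (hE.charP hT hTH hO) hU hV.2.2.1 hV.1 hV.2.1 hR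
    fun g hg hle => ?_
  rcases hI with hI | hI
  · rw [CL.QT.odd_eq] at hI
    have n1 := self_le_norm_res (p := 2) M₀
    have n2 := le_norm_core (p := 2) n1
    have h4 : pCoreOf 2 (pResidualOf 2 M₀) ≤ pCoreOf 2 M₀ := core_le_core_of_normal (res_le M₀) n1
    have h5 : pCoreOf 2 (pResidualOf 2 M₀) ≤ (T : Subgroup G) ⊓ cmod (pResidualOf 2 M₀) (pCoreOf 2 (pResidualOf 2 M₀)) :=
      le_inf (h4.trans (hR.le.trans inf_le_left))
        (le_cmod le_normalizer (commutator_le_of_le_norm' (self_le_norm_core _)))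
    have h6 : ⁅pResidualOf 2 M₀, pCoreOf 2 M₀⁆ ≤ pCoreOf 2 (pResidualOf 2 M₀) :=
      (le_inf (commutator_le_of_le_norm' ((res_le M₀).trans (self_le_norm_core M₀)))
        (commutator_le_of_le_norm ((core_le M₀).trans n1))).trans
        (core_inf_le ((res_le M₀).trans (self_le_norm_core M₀)))
    have h7 := cj_mono g h6
    rw [cj_commutator, cj_eq (hI hg), cj_eq (le_norm_core hI hg)] at h7
    refine (le_inf hle (le_cmod ((hle.trans hTM₀).trans n2) h7)).trans (CL.Even.le_core (inf_le_left.trans hTM₀)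
      T.isPGroup'.to_inf_left (le_of_syl_of_res (hT.of_le hTM₀ le_top)
        (le_norm_inf le_normalizer (le_norm_cmod (hTM₀.trans n1) (hTM₀.trans n2))) (le_norm_of_commutator_le ?_)))
    rw [commutator_comm]
    exact (commutator_le_of_le_cmod inf_le_right).trans h5
  · rw [hR] at hle ⊢
    refine le_inf hle ((cj_mono g inf_le_right).trans ?_)
    rw [cj_cent, cj_eq (hI hg)]

end Cfsg.Agent.S1824
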