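import Cfsg.Statements.S1892
import Cfsg.Agent.Loc.Chief
import Cfsg.Agent.Loc.PConstr
import Cfsg.Agent.Grp.CoprimeAct

set_option autoImplicit false
open Cfsg

namespace Cfsg.Agent.S1892
open scoped commutatorElement

/-- Let S be a finite p-solvable group with no nontrivial normal subgroup of order prime to p, A a p-subgroup of S, and Q a nontrivial A-invariant subgroup of order prime to p with [A, Q] = Q. Then the commutator [O_p(S), A, Q] is nontrivial. -/
theorem result {S : Type*} [Group S] [Finite S] {p : ℕ} [Fact p.Prime]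
    (hS : Cfsg.IsPSolvable p S) (hred : Cfsg.pPrimeCore p S = ⊥)
    (A Q : Subgroup S) (hA : IsPGroup p A) (hQ : ¬ p ∣ Nat.card Q) (hQ1 : Q ≠ ⊥)
    (hinv : ∀ a ∈ A, ∀ x ∈ Q, a * x * a⁻¹ ∈ Q) (hAQ : ⁅A, Q⁆ = Q) :
    ⁅⁅Cfsg.pCore p S, A⁆, Q⁆ ≠ ⊥ := by
  intro h
  set P := Cfsg.pCore p S with hP
  have hp : p.Prime := Fact.out
  have hQc : (Nat.card Q).Coprime p := ((Nat.Prime.coprime_iff_not_dvd hp).2 hQ).symm
  have hAQn : A ≤ Subgroup.normalizer (Q : Set S) :=
    fun a ha => Subgroup.mem_normalizer_fintype (fun x hx => hinv a ha x hx)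
  have hMQ : Q ≤ Subgroup.centralizer ((⁅P, A⁆ : Subgroup S) : Set S) := by
    rw [Subgroup.le_centralizer_iff, ← Subgroup.commutator_eq_bot_iff_le_centralizer]; exact h
  have hQM : Q ≤ Subgroup.normalizer ((⁅P, A⁆ : Subgroup S) : Set S) :=
    CL.Loc.le_normalizer_of_le_centralizer hMQ
  have hAM : A ≤ Subgroup.normalizer ((⁅P, A⁆ : Subgroup S) : Set S) :=
    CL.Loc.le_normalizer_commutator Subgroup.le_normalizer_of_normal Subgroup.le_normalizer
  have hAK : A ≤ CL.Loc.commStab P ⁅P, A⁆ :=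
    CL.Loc.le_commStab.2 ⟨hAM, by rw [Subgroup.commutator_comm]⟩
  have hQK : Q ≤ Subgroup.normalizer (CL.Loc.commStab P ⁅P, A⁆ : Set S) :=
    CL.Loc.le_normalizer_commStab Subgroup.le_normalizer_of_normal hQM
  have h1 : Q ≤ CL.Loc.commStab P ⁅P, A⁆ := by
    rw [← hAQ, Subgroup.commutator_le]
    intro a ha q hq
    have h2 := (Subgroup.mem_normalizer_iff.1 (hQK hq) a⁻¹).1 (inv_mem (hAK ha))
    have : ⁅a, q⁆ = a * (q * a⁻¹ * q⁻¹) := by group
    rw [this]; exact mul_mem (hAK ha) h2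
  have h2 : ⁅P, Q⁆ ≤ ⁅P, A⁆ := by
    rw [Subgroup.commutator_comm]; exact (CL.Loc.le_commStab.1 h1).2
  have h3 : Q ≤ Subgroup.centralizer (P : Set S) :=
    CL.Grp.le_centralizer_of_commutator_le_of_le_centralizer Subgroup.le_normalizer_of_normal
      (CL.Grp.coprime_card_of_isPGroup (CL.Grp.pCore_isPGroup p S) hQc).symm h2 hMQ
  have h4 : Q ≤ P := h3.trans (CL.Loc.centralizer_pCore_le_of_isPSolvable hS hred)
  apply hQ1
  rw [← inf_eq_right.2 h4]
  exact CL.Loc.inf_eq_bot_of_isPGroup_of_coprime (CL.Grp.pCore_isPGroup p S) hQc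

end Cfsg.Agent.S1892
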