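import Cfsg.Statements.S1893
import Cfsg.Agent.Loc.FitQuad

set_option autoImplicit false
open Cfsg

namespace Cfsg.Agent.S1893

open scoped commutatorElement

/-- Let S be a finite solvable group, π a set of primes containing neither 2 nor 3, H a Hall π-subgroup of S, and A a self-centralizing normal subgroup of the Fitting subgroup F(H). Then C_S(A) = A × D for a normal subgroup D of C_S(A) whose order has no prime divisor in π. -/
theorem result {S : Type*} [Group S] [Finite S] [Group.IsSolvable S]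
    (π : Set ℕ) (h2 : 2 ∉ π) (h3 : 3 ∉ π) (H : Subgroup S) (hH : Cfsg.IsPiHall π H)
    (A : Subgroup S) (hA : Cfsg.IsSCN ((Cfsg.fittingSubgroup H).map H.subtype) A) :
    ∃ D : Subgroup S, D ≤ Subgroup.centralizer (A : Set S) ∧
      (∀ c ∈ Subgroup.centralizer (A : Set S), ∀ d ∈ D, c * d * c⁻¹ ∈ D) ∧
      A ⊓ D = ⊥ ∧ A ⊔ D = Subgroup.centralizer (A : Set S) ∧
      ∀ q : ℕ, q.Prime → q ∣ Nat.card D → q ∉ π := by
  set O := Cfsg.piCore πᶜ S with hO
  set f := QuotientGroup.mk' O with hf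
  have hfs : Function.Surjective f := QuotientGroup.mk'_surjective O
  have hOπ := CL.Grp.piCore_isPiSubgroup πᶜ S
  have hHO : H ⊓ O = ⊥ := disjoint_iff.1 (Subgroup.disjoint_of_coprime_natCard
    (CL.Grp.coprime_card_of_isPiSubgroup (π := π) hH.1 hOπ disjoint_compl_right))
  have hbot : ∀ (p : ℕ) [Fact p.Prime], p ∉ π → Cfsg.pCore p (S ⧸ O) = ⊥ := fun p _ hp =>
    eq_bot_iff.2 ((CL.Grp.pCore_le_piCore (π := πᶜ) hp).trans (CL.Grp.piCore_quotient_piCore πᶜ S).le)
  have hFH : Cfsg.fittingSubgroup (S ⧸ O) ≤ H.map f := by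
    refine CL.Grp.fittingSubgroup_le_of_forall_pCore_le fun p hp => ?_
    by_cases hpπ : p ∈ π
    · obtain ⟨T, hT⟩ := CL.Grp.exists_isSylowIn p (H.map f)
      have hT' : CL.Grp.IsSylowIn p T ⊤ := by
        refine ⟨le_top, hT.isPGroup, ?_⟩
        rw [← Subgroup.relIndex_mul_relIndex T (H.map f) ⊤ hT.le le_top, Subgroup.relIndex_top_right]
        intro hd
        rcases (Nat.Prime.dvd_mul hp.out).1 hd with hd | hd
        · exact hT.not_dvd hd
        · exact hH.2 p hp.out hpπ (hd.trans (H.index_map_dvd hfs))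
      exact (hT'.le_of_normalized (CL.Grp.pCore_isPGroup p _) le_top
        Subgroup.le_normalizer_of_normal).trans hT.le
    · rw [hbot p hpπ]; exact bot_le
  set F₀ := (Cfsg.fittingSubgroup H).map H.subtype with hF₀
  have hF₀H : F₀ ≤ H := Subgroup.map_subtype_le _
  have hinj : Function.Injective (f.comp H.subtype) := by
    rw [← MonoidHom.ker_eq_bot_iff, eq_bot_iff]
    intro x hx
    have : (x : S) ∈ H ⊓ O := ⟨x.2, (QuotientGroup.eq_one_iff _).1 hx⟩
    rw [hHO] at this
    exact Subtype.ext this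
  have hFF : Cfsg.fittingSubgroup (S ⧸ O) ≤ F₀.map f := by
    have h1 := CL.Grp.map_fittingOf_of_injective hinj ⊤
    rw [CL.Grp.fittingOf_top, ← Subgroup.map_map, ← Subgroup.map_map,
      CL.Grp.top_map_subtype] at h1
    rw [hF₀, h1]
    exact (le_inf le_rfl hFH).trans (CL.Grp.fittingSubgroup_inf_le_fittingOf _)
  have hAC : A ≤ Subgroup.centralizer (A : Set S) := by
    conv_lhs => rw [← hA.2.2]
    exact inf_le_right
  have key : Subgroup.centralizer ((A.map f : Subgroup (S ⧸ O)) : Set (S ⧸ O)) ≤ A.map f := by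
    have := Fact.mk Nat.prime_three
    refine CL.Loc.centralizer_le_of_fitting_scn (hbot 2 h2) (hbot 3 h3)
      (hFF.trans ((Subgroup.map_mono hA.2.1).trans (Subgroup.le_normalizer_map f))) ?_
    rintro y ⟨hy, hyc⟩
    obtain ⟨x, hx, rfl⟩ := hFF hy
    refine Subgroup.mem_map_of_mem f ?_
    rw [← hA.2.2]
    refine ⟨hx, fun a ha => ?_⟩
    have h1 : ⁅a, x⁆ ∈ H ⊓ O := by
      refine Subgroup.mem_inf.2 ⟨?_, ?_⟩
      · have := hF₀H (hA.1 ha)
        have := hF₀H hx
        rw [commutatorElement_def]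
        exact mul_mem (mul_mem (mul_mem ‹a ∈ H› ‹x ∈ H›) (inv_mem ‹a ∈ H›)) (inv_mem ‹x ∈ H›)
      · rw [← QuotientGroup.eq_one_iff]
        show f ⁅a, x⁆ = 1
        rw [map_commutatorElement, commutatorElement_eq_one_iff_mul_comm]
        exact hyc _ (Subgroup.mem_map_of_mem f ha)
    rwa [hHO, Subgroup.mem_bot, commutatorElement_eq_one_iff_mul_comm] at h1
  refine ⟨Subgroup.centralizer (A : Set S) ⊓ O, inf_le_left, ?_, ?_, ?_, ?_⟩
  · intro c hc d hd
    exact Subgroup.mem_inf.2 ⟨mul_mem (mul_mem hc hd.1) (inv_mem hc), Subgroup.Normal.conj_mem inferInstance d hd.2 c⟩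
  · rw [eq_bot_iff, ← hHO]
    exact inf_le_inf (hA.1.trans hF₀H) inf_le_right
  · refine le_antisymm (sup_le hAC inf_le_left) fun c hc => ?_
    obtain ⟨a, ha, e⟩ := key (x := f c) (by
      rintro _ ⟨a, ha, rfl⟩
      rw [← map_mul, ← map_mul, hc a ha])
    have h1 : a⁻¹ * c ∈ O := QuotientGroup.eq.1 e
    rw [← mul_inv_cancel_left a c]
    exact Subgroup.mul_mem_sup ha <| Subgroup.mem_inf.2 ⟨mul_mem (inv_mem (hAC ha)) hc, h1⟩
  · exact fun q hq hd => hOπ q hq (hd.trans (Subgroup.card_dvd_of_le inf_le_right))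

end Cfsg.Agent.S1893
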