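import Cfsg.Statements.S1894
import Cfsg.Agent.Grp.PGroupBasic

set_option autoImplicit false
open Cfsg

namespace Cfsg.Agent.S1894

/-- Let P be a finite p-group, A a normal subgroup of P and B an abelian subgroup of A that is normal in P. Then some subgroup C of A containing B is normal in P and is self-centralizing and normal in A (C ∈ SCN(A)). -/
theorem result {P : Type*} [Group P] [Finite P] {p : ℕ} [Fact p.Prime] (hP : IsPGroup p P)
    (A : Subgroup P) [A.Normal] (B : Subgroup P) [B.Normal] (hBA : B ≤ A) (hB : IsMulCommutative B) :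
    ∃ C : Subgroup P, C.Normal ∧ B ≤ C ∧ Cfsg.IsSCN A C := by
  have : Group.IsNilpotent P := hP.isNilpotent
  obtain ⟨C, ⟨hCn, hCc, hBC, hCA⟩, hmax⟩ := Set.Finite.exists_maximal
    (s := {C : Subgroup P | C.Normal ∧ IsMulCommutative C ∧ B ≤ C ∧ C ≤ A}) (Set.toFinite _)
    ⟨B, inferInstance, hB, le_rfl, hBA⟩
  refine ⟨C, hCn, hBC, hCA, Subgroup.le_normalizer_of_normal, le_antisymm ?_
    (le_inf hCA (Subgroup.le_centralizer C))⟩
  by_contra hne
  obtain ⟨x, hx, hxC, hxc⟩ := CL.Grp.exists_mem_notMem_commutator_mem hne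
  have := CL.Grp.normal_sup_zpowers hxc
  have hcomm : IsMulCommutative ↥(C ⊔ Subgroup.zpowers x) :=
    CL.Grp.isMulCommutative_sup hCc inferInstance
      (Subgroup.le_centralizer_iff.1 ((Subgroup.zpowers_le).2 hx.2))
  have := hmax (y := C ⊔ Subgroup.zpowers x)
    ⟨inferInstance, hcomm, hBC.trans le_sup_left, sup_le hCA ((Subgroup.zpowers_le).2 hx.1)⟩
    le_sup_left
  exact hxC (this (Subgroup.mem_sup_right (Subgroup.mem_zpowers x)))

end Cfsg.Agent.S1894
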