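import Cfsg.Statements.S1898
import Cfsg.Agent.Grp.PGroupCritical

set_option autoImplicit false
open Cfsg

namespace Cfsg.Agent.S1898

/-- Let X be a finite 2-group whose derived subgroup is elementary abelian and central. Then the subgroup generated by the elements of order dividing 4 has exponent dividing 4, and every automorphism of X fixing each element of order dividing 4 has 2-power order. -/
theorem result {X : Type*} [Group X] [Finite X] (hX : IsPGroup 2 X)
    (hel : Cfsg.IsElementaryAbelian 2 (commutator X)) (hcen : commutator X ≤ Subgroup.center X) :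
    (∀ x ∈ Subgroup.closure {g : X | g ^ 4 = 1}, x ^ 4 = 1) ∧
      ∀ φ : MulAut X, (∀ g : X, g ^ 4 = 1 → φ g = g) → ∃ k : ℕ, φ ^ (2 ^ k) = 1 := by
  refine ⟨fun x hx => CL.Grp.pow_eq_one_of_mem_closure (fun a b ha hb => ?_) hx, fun φ hφ => ?_⟩
  · have h := CL.Grp.comm_mem_commutator b a
    rw [CL.Grp.mul_pow_of_central (hcen h), ha, hb, show Nat.choose 4 2 = 2 * 3 from rfl, pow_mul,
      hel.2 _ h]
    simp
  · obtain ⟨k, hk⟩ := CL.Grp.exists_orderOf_eq_pow_of_forall_coprime Nat.prime_two (a := φ)
      fun k hk => CL.Grp.mulAut_eq_one_of_fix_omega hX hk fun x hx => by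
        have h4 : x ^ 4 = 1 := by
          rcases hx with h | h
          · rw [show (4 : ℕ) = 2 * 2 from rfl, pow_mul, h, one_pow]
          · exact h.2
        have := CL.Grp.mulAut_pow_apply_of_fix (map_one φ) ((hφ x h4).trans (mul_one x).symm) k
        rwa [one_pow, mul_one] at this
    exact ⟨k, hk ▸ pow_orderOf_eq_one φ⟩

end Cfsg.Agent.S1898
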