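import Cfsg.Statements.S1899
import Cfsg.Agent.Grp.Cores

set_option autoImplicit false
open Cfsg

namespace Cfsg.Agent.S1899

theorem fixed_of_sq {A : Type*} [Group A] {n : ℕ} (hn : Odd n) (d : MulAut A) (hd : d ^ n = 1)
    {c : A} (h : d (d c) = c) : d c = c := by
  obtain ⟨k, rfl⟩ := hn
  have h1 : ∀ j : ℕ, (d ^ (2 * j)) c = c := by
    intro j
    induction j with
    | zero => simp
    | succ j ih => rw [mul_add, mul_one, pow_add, MulAut.mul_apply, sq, MulAut.mul_apply, h, ih]
  have h2 : (d ^ (2 * k + 1)) c = d c := by rw [pow_succ', MulAut.mul_apply, h1]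
  rw [← h2, hd, MulAut.one_apply]


/-- Let a dihedral group of order 2n, n odd and n > 1, act on a finite abelian 2-group A through automorphisms d and t with d^n = 1, t² = 1 and t d t⁻¹ = d⁻¹, and suppose that d fixes only the identity. Then A is the internal direct product of C_A(t) and its image under d. -/
theorem result {A : Type*} [CommGroup A] [Finite A] (hA : IsPGroup 2 A)
    {n : ℕ} (hn : Odd n) (hn1 : 1 < n) (d t : MulAut A) (hd : d ^ n = 1) (ht : t ^ 2 = 1) (hdt : t * d * t⁻¹ = d⁻¹)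
    (hfix : ∀ a : A, d a = a → a = 1) :
    (MulEquiv.toMonoidHom t).eqLocus (MonoidHom.id A) ⊓ ((MulEquiv.toMonoidHom t).eqLocus (MonoidHom.id A)).map d.toMonoidHom = ⊥ ∧
      (MulEquiv.toMonoidHom t).eqLocus (MonoidHom.id A) ⊔ ((MulEquiv.toMonoidHom t).eqLocus (MonoidHom.id A)).map d.toMonoidHom = ⊤ := by
  set C := (MulEquiv.toMonoidHom t).eqLocus (MonoidHom.id A) with hC
  set I := (MulEquiv.toMonoidHom t).eqLocus (invMonoidHom : A →* A) with hI
  have hCm : ∀ a, a ∈ C ↔ t a = a := fun a => Iff.rfl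
  have hIm : ∀ a, a ∈ I ↔ t a = a⁻¹ := fun a => Iff.rfl
  have htd : ∀ a, d (t (d a)) = t a := by
    intro a
    have h1 : t * d = d⁻¹ * t := by rw [← hdt]; group
    have h2 : t (d a) = d⁻¹ (t a) := by rw [← MulAut.mul_apply, h1, MulAut.mul_apply]
    rw [h2, MulAut.apply_inv_self]
  have htt : ∀ a, t (t a) = a := fun a => by rw [← MulAut.mul_apply, ← sq, ht, MulAut.one_apply]
  have h1 : C ⊓ C.map d.toMonoidHom = ⊥ := by
    rw [eq_bot_iff]
    rintro _ ⟨ha, c, hc, rfl⟩
    have ha' : t (d c) = d c := ha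
    have hc' : t c = c := hc
    have := htd c
    rw [ha', hc'] at this
    rw [hfix c (fixed_of_sq hn d hd this), map_one]; exact one_mem _
  have h2 : I ⊓ I.map d.toMonoidHom = ⊥ := by
    rw [eq_bot_iff]
    rintro _ ⟨ha, c, hc, rfl⟩
    have ha' : t (d c) = (d c)⁻¹ := ha
    have hc' : t c = c⁻¹ := hc
    have := htd c
    rw [ha', hc', map_inv, inv_inj] at this
    rw [hfix c (fixed_of_sq hn d hd this), map_one]; exact one_mem _
  have hsq : ∀ X : Subgroup A, X ⊓ X.map d.toMonoidHom = ⊥ →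
      Nat.card (X ⊔ X.map d.toMonoidHom : Subgroup A) = Nat.card X * Nat.card X := by
    intro X hX
    rw [CL.Grp.card_sup_of_inf_eq_bot Subgroup.le_normalizer_of_normal hX,
      Subgroup.card_map_of_injective d.injective]
  let φ : A →* A := (MulEquiv.toMonoidHom t) / MonoidHom.id A
  have hφ : ∀ a, φ a = t a / a := fun a => rfl
  have hker : φ.ker = C := by
    ext a; rw [MonoidHom.mem_ker, hφ, div_eq_one, hCm]
  have hran : φ.range ≤ I := by
    rintro _ ⟨a, rfl⟩
    rw [hIm, hφ, map_div, htt, inv_div]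
  have h3 : Nat.card A ≤ Nat.card C * Nat.card I := by
    rw [← φ.ker.card_mul_index, hker, ← hker, Subgroup.index_ker, hker]
    exact Nat.mul_le_mul_left _ (Subgroup.card_le_of_le hran)
  have h4 : Nat.card I * Nat.card I ≤ Nat.card A := by
    rw [← hsq I h2]; exact Subgroup.card_le_card_group _
  have h5 : Nat.card A ≤ Nat.card C * Nat.card C := by
    have hpos : 0 < Nat.card A := Nat.card_pos
    by_contra hlt
    push Not at hlt
    have : Nat.card A * Nat.card A ≤ (Nat.card C * Nat.card C) * (Nat.card I * Nat.card I) := by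
      calc _ ≤ (Nat.card C * Nat.card I) * (Nat.card C * Nat.card I) := Nat.mul_le_mul h3 h3
        _ = _ := by ring
    have h6 : (Nat.card C * Nat.card C) * (Nat.card I * Nat.card I) < Nat.card A * Nat.card A :=
      Nat.mul_lt_mul_of_lt_of_le hlt h4 hpos
    omega
  refine ⟨h1, Subgroup.eq_top_of_le_card _ ?_⟩
  rw [hsq C h1]; exact h5

end Cfsg.Agent.S1899
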