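import Cfsg.Statements.S1900
import Cfsg.Agent.Loc.FFPlane
import Cfsg.Agent.Loc.Chief
import Cfsg.Agent.Grp.Coprime2
import Cfsg.Agent.Grp.Fitting

set_option autoImplicit false
open Cfsg

namespace Cfsg.Agent.S1900

open Subgroup CL.Grp in
theorem step {S : Type*} [Group S] [Finite S] {P Q X₁ X₂ C₁ C₂ D : Subgroup S}
    (hPs : Group.IsSolvable P) (hQP : Q ≤ normalizer (P : Set S))
    (hQ : Q ≤ centralizer (Q : Set S)) (h₁ : X₁ ≤ Q) (h₂ : X₂ ≤ Q)
    (hcop : (Nat.card Q).Coprime (Nat.card P))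
    (hC₁ : C₁ = P ⊓ centralizer (X₁ : Set S)) (hC₂ : C₂ = P ⊓ centralizer (X₂ : Set S))
    (hD : D = ⁅C₁, C₂⁆) (hPD : P ≤ normalizer (D : Set S))
    (hgen : D ≤ (D ⊓ centralizer (X₁ : Set S)) ⊔ (D ⊓ centralizer (X₂ : Set S)))
    (hbot : C₂ ⊓ centralizer (X₁ : Set S) = ⊥) : ⁅X₂, D⁆ ≤ ⁅D, P⁆ := by
  have hQX : ∀ X ≤ Q, Q ≤ normalizer (centralizer (X : Set S) : Set S) := fun X hX =>
    le_normalizer_centralizer' ((hQ.trans (centralizer_le hX)).trans (centralizer_le_normalizer _))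
  have hQC₁ : Q ≤ normalizer (C₁ : Set S) := hC₁ ▸ le_normalizer_inf' hQP (hQX _ h₁)
  have hQC₂ : Q ≤ normalizer (C₂ : Set S) := hC₂ ▸ le_normalizer_inf' hQP (hQX _ h₂)
  have hQD : Q ≤ normalizer (D : Set S) := hD ▸ le_normalizer_commutator' hQC₁ hQC₂
  have hC₁P : C₁ ≤ P := hC₁ ▸ inf_le_left
  have hC₂P : C₂ ≤ P := hC₂ ▸ inf_le_left
  have hDP : D ≤ P := hD ▸ (commutator_mono hC₁P hC₂P).trans (commutator_le_self P)
  set M := ⁅D, P⁆ with hM
  have hMD : M ≤ D := le_normalizer_iff_commutator_le_left.1 hPD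
  have hQM : Q ≤ normalizer (M : Set S) := le_normalizer_commutator' hQD hQP
  have hPM : P ≤ normalizer (M : Set S) := normalizer_commutator_ge_right _ _
  have hQE : Q ≤ normalizer ((D ⊓ centralizer (X₂ : Set S) : Subgroup S) : Set S) :=
    le_normalizer_inf' hQD (hQX _ h₂)
  set M₁ := M ⊔ (D ⊓ centralizer (X₂ : Set S)) with hM₁
  have hM₁D : M₁ ≤ D := sup_le hMD inf_le_left
  have hQM₁ : Q ≤ normalizer (M₁ : Set S) := le_normalizer_sup' hQM hQE
  have hPM₁ : P ≤ normalizer (M₁ : Set S) :=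
    CL.Loc.le_normalizer_of_commutator_le hM₁D le_sup_left
  have h3 : ⁅D, X₁⁆ ≤ M₁ := by
    refine (commutator_mono hgen le_rfl).trans (CL.Loc.commutator_sup_le_of_le_normalizer
      ((inf_le_left.trans hDP).trans hPM₁) ((inf_le_left.trans hDP).trans hPM₁) ?_ ?_)
    · rw [commutator_eq_bot_iff_le_centralizer.2 inf_le_right]; exact bot_le
    · exact (le_normalizer_iff_commutator_le_left.1 (h₁.trans hQE)).trans le_sup_right
  have h4 : ⁅⁅C₂, X₁⁆, C₁⁆ ≤ M₁ := by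
    refine CL.Loc.three_subgroups_of_le_normalizer (hC₂P.trans hPM₁) (h₁.trans hQM₁)
      (hC₁P.trans hPM₁) ?_ (hD ▸ h3)
    have : ⁅X₁, C₁⁆ = ⊥ := by
      rw [commutator_comm, commutator_eq_bot_iff_le_centralizer, hC₁]; exact inf_le_right
    rw [this, commutator_bot_left]; exact bot_le
  have h5 := commutator_sup_centralizer_eq (h₁.trans hQC₂)
    ((hcop.coprime_dvd_left (card_dvd_of_le h₁)).coprime_dvd_right (card_dvd_of_le hC₂P))
    (Or.inr (isSolvable_of_le_of_isSolvable hPs hC₂P))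
  rw [hbot, sup_bot_eq] at h5
  rw [h5, commutator_comm, ← hD] at h4
  rw [commutator_comm]
  refine (commutator_mono h4 le_rfl).trans (CL.Loc.commutator_sup_le_of_le_normalizer
      le_normalizer ((inf_le_left.trans hDP).trans hPM) ?_ ?_)
  · exact le_normalizer_iff_commutator_le_left.1 (h₂.trans hQM)
  · rw [commutator_eq_bot_iff_le_centralizer.2 inf_le_right]; exact bot_le


/-- Let S = PQ be a finite group with P a normal Sylow p-subgroup and Q elementary abelian of order q², q a prime different from p. If exactly two subgroups X₁, X₂ of order q in Q have a nontrivial centralizer in P, then P is the internal direct product of C_P(X₁) and C_P(X₂): they commute elementwise, meet trivially and generate P. -/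
theorem result {S : Type*} [Group S] [Finite S] {p q : ℕ} [Fact p.Prime] [Fact q.Prime] (hpq : p ≠ q)
    (P : Sylow p S) [(P : Subgroup S).Normal] (Q : Subgroup S) (hQ : Cfsg.IsElementaryAbelian q Q) (hQc : Nat.card Q = q ^ 2)
    (hS : (P : Subgroup S) ⊔ Q = ⊤)
    (X₁ X₂ : Subgroup S) (h₁ : X₁ ≤ Q) (h₂ : X₂ ≤ Q) (h₁₂ : X₁ ≠ X₂) (hc₁ : Nat.card X₁ = q) (hc₂ : Nat.card X₂ = q)
    (hf₁ : (P : Subgroup S) ⊓ Subgroup.centralizer (X₁ : Set S) ≠ ⊥)
    (hf₂ : (P : Subgroup S) ⊓ Subgroup.centralizer (X₂ : Set S) ≠ ⊥)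
    (honly : ∀ X : Subgroup S, X ≤ Q → Nat.card X = q →
      (P : Subgroup S) ⊓ Subgroup.centralizer (X : Set S) ≠ ⊥ → X = X₁ ∨ X = X₂) :
    ⁅(P : Subgroup S) ⊓ Subgroup.centralizer (X₁ : Set S), (P : Subgroup S) ⊓ Subgroup.centralizer (X₂ : Set S)⁆ = ⊥ ∧
      ((P : Subgroup S) ⊓ Subgroup.centralizer (X₁ : Set S)) ⊓ ((P : Subgroup S) ⊓ Subgroup.centralizer (X₂ : Set S)) = ⊥ ∧
      ((P : Subgroup S) ⊓ Subgroup.centralizer (X₁ : Set S)) ⊔ ((P : Subgroup S) ⊓ Subgroup.centralizer (X₂ : Set S)) = P := by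
  have hq : q.Prime := Fact.out
  have hp : p.Prime := Fact.out
  have hPp : IsPGroup p (P : Subgroup S) := P.isPGroup'
  have hPn : Group.IsNilpotent (P : Subgroup S) := hPp.isNilpotent
  have hPs : Group.IsSolvable (P : Subgroup S) := inferInstance
  have hcop : (Nat.card Q).Coprime (Nat.card (P : Subgroup S)) := by
    refine (CL.Grp.coprime_card_of_isPGroup hPp ?_).symm
    rw [hQc]; exact ((Nat.coprime_primes hq hp).2 hpq.symm).pow_left 2
  have hX : X₁ ⊓ X₂ = ⊥ := CL.Loc.inf_eq_bot_of_card_prime hc₁ hc₂ h₁₂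
  have hQX : X₁ ⊔ X₂ = Q := by
    refine Subgroup.eq_of_le_of_card_ge (sup_le h₁ h₂) ?_
    rw [CL.Grp.card_sup_of_inf_eq_bot (CL.Loc.ea_le_normalizer_of_le hQ h₁ h₂) hX, hc₁, hc₂, hQc, sq]
  have hcz : ∀ a : S, Subgroup.centralizer ((Subgroup.zpowers a : Subgroup S) : Set S) =
      Subgroup.centralizer ({a} : Set S) := fun a => by
    rw [Subgroup.zpowers_eq_closure, Subgroup.centralizer_closure]
  have hcz' : ∀ a ∈ Q, a ≠ 1 → Nat.card (Subgroup.zpowers a) = q := fun a ha h1 => by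
    rw [Nat.card_zpowers, CL.Loc.ea_orderOf hQ ha h1]
  have hPQ : (P : Subgroup S) ⊓ Subgroup.centralizer (Q : Set S) = ⊥ := by
    by_contra hne
    have hb : ∀ X : Subgroup S, Nat.card X = q → ∃ x ∈ X, x ≠ 1 := fun X hX =>
      (X.bot_or_exists_ne_one).resolve_left (by
        rintro rfl; rw [Subgroup.card_bot] at hX; exact hq.one_lt.ne hX)
    obtain ⟨x₁, hx₁, hx₁1⟩ := hb X₁ hc₁
    obtain ⟨x₂, hx₂, hx₂1⟩ := hb X₂ hc₂
    have hn₁ : x₁ ∉ X₂ := fun h => hx₁1 (Subgroup.mem_bot.1 (hX ▸ Subgroup.mem_inf.2 ⟨hx₁, h⟩))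
    have hn₂ : x₂ ∉ X₁ := fun h => hx₂1 (Subgroup.mem_bot.1 (hX ▸ Subgroup.mem_inf.2 ⟨h, hx₂⟩))
    have hm : x₁ * x₂ ∈ Q := mul_mem (h₁ hx₁) (h₂ hx₂)
    have h1 : x₁ * x₂ ≠ 1 := fun h => hn₂ (by
      rw [eq_inv_of_mul_eq_one_right h]; exact inv_mem hx₁)
    have hle : Subgroup.zpowers (x₁ * x₂) ≤ Q := (Subgroup.zpowers_le).2 hm
    rcases honly _ hle (hcz' _ hm h1) (fun h => hne (eq_bot_iff.2 (h ▸
      inf_le_inf_left _ (Subgroup.centralizer_le hle)))) with h | h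
    · have := h ▸ Subgroup.mem_zpowers (x₁ * x₂)
      exact hn₂ ((Subgroup.mul_mem_cancel_left _ hx₁).1 this)
    · have := h ▸ Subgroup.mem_zpowers (x₁ * x₂)
      exact hn₁ ((Subgroup.mul_mem_cancel_right _ hx₂).1 this)
  have hnc : ¬ IsCyclic Q := by
    intro hc
    obtain ⟨g, hg⟩ := IsCyclic.exists_ofOrder_eq_natCard (α := Q)
    have h1 : orderOf g ∣ q := orderOf_dvd_of_pow_eq_one (Subtype.ext (hQ.2 g g.2))
    rw [hg, hQc] at h1
    have := Nat.le_of_dvd hq.pos h1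
    nlinarith [hq.one_lt]
  have := hQ.1
  have hgen : ∀ D ≤ (P : Subgroup S), Q ≤ Subgroup.normalizer (D : Set S) →
      D ≤ (D ⊓ Subgroup.centralizer (X₁ : Set S)) ⊔ (D ⊓ Subgroup.centralizer (X₂ : Set S)) := by
    intro D hD hQD
    refine CL.Grp.le_of_forall_centralizer_le hnc hQD
      (hcop.coprime_dvd_right (Subgroup.card_dvd_of_le hD)) ?_
    intro a ha h1
    rw [← hcz]
    by_cases h : (P : Subgroup S) ⊓ Subgroup.centralizer ((Subgroup.zpowers a : Subgroup S) : Set S) = ⊥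
    · exact ((inf_le_inf_right _ hD).trans h.le).trans bot_le
    · rcases honly _ ((Subgroup.zpowers_le).2 ha) (hcz' a ha h1) h with h | h
      · rw [h]; exact le_sup_left
      · rw [h]; exact le_sup_right
  set C₁ := (P : Subgroup S) ⊓ Subgroup.centralizer (X₁ : Set S) with hC₁
  set C₂ := (P : Subgroup S) ⊓ Subgroup.centralizer (X₂ : Set S) with hC₂
  have hsup : C₁ ⊔ C₂ = P :=
    le_antisymm (sup_le inf_le_left inf_le_left) (hgen _ le_rfl Subgroup.le_normalizer_of_normal)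
  have hcc : Subgroup.centralizer (X₁ : Set S) ⊓ Subgroup.centralizer (X₂ : Set S) ≤
      Subgroup.centralizer (Q : Set S) := by
    rw [Subgroup.le_centralizer_iff, ← hQX]
    exact sup_le (Subgroup.le_centralizer_iff.1 inf_le_left) (Subgroup.le_centralizer_iff.1 inf_le_right)
  have hb₁ : C₂ ⊓ Subgroup.centralizer (X₁ : Set S) = ⊥ := by
    rw [eq_bot_iff, ← hPQ]
    exact le_inf (inf_le_left.trans inf_le_left)
      ((le_inf inf_le_right (inf_le_left.trans inf_le_right)).trans hcc)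
  have hb₂ : C₁ ⊓ Subgroup.centralizer (X₂ : Set S) = ⊥ := by
    rw [eq_bot_iff, ← hPQ]
    exact le_inf (inf_le_left.trans inf_le_left)
      ((le_inf (inf_le_left.trans inf_le_right) inf_le_right).trans hcc)
  refine ⟨?_, eq_bot_iff.2 ((inf_le_inf_left _ inf_le_right).trans hb₂.le), hsup⟩
  set D := ⁅C₁, C₂⁆ with hD
  have hPD : (P : Subgroup S) ≤ Subgroup.normalizer (D : Set S) := by
    rw [← hsup]
    exact sup_le (Subgroup.normalizer_commutator_ge_left _ _)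
      (Subgroup.normalizer_commutator_ge_right _ _)
  have hDP : D ≤ P := (Subgroup.commutator_mono inf_le_left inf_le_left).trans
    (Subgroup.commutator_le_self _)
  have hQc' := CL.Loc.ea_le_centralizer hQ
  have hQN : ∀ X ≤ Q, Q ≤ Subgroup.normalizer
      (((P : Subgroup S) ⊓ Subgroup.centralizer (X : Set S) : Subgroup S) : Set S) := fun X hX =>
    CL.Grp.le_normalizer_inf' Subgroup.le_normalizer_of_normal
      (CL.Grp.le_normalizer_centralizer' (CL.Loc.ea_le_normalizer_of_le hQ le_rfl hX))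
  have hQD : Q ≤ Subgroup.normalizer (D : Set S) :=
    CL.Grp.le_normalizer_commutator' (hQN _ h₁) (hQN _ h₂)
  have e₂ := step hPs Subgroup.le_normalizer_of_normal hQc' h₁ h₂ hcop hC₁ hC₂ hD hPD
    (hgen D hDP hQD) hb₁
  have e₁ := step hPs Subgroup.le_normalizer_of_normal hQc' h₂ h₁ hcop hC₂ hC₁
    (hD.trans (Subgroup.commutator_comm _ _)) hPD (sup_comm (α := Subgroup S) _ _ ▸ hgen D hDP hQD) hb₂
  have hQM : Q ≤ Subgroup.normalizer ((⁅D, (P : Subgroup S)⁆ : Subgroup S) : Set S) :=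
    CL.Grp.le_normalizer_commutator' hQD Subgroup.le_normalizer_of_normal
  have e₃ : ⁅Q, D⁆ ≤ ⁅D, (P : Subgroup S)⁆ := by
    rw [← hQX]
    exact CL.Loc.commutator_sup_le_of_le_normalizer (h₁.trans hQM) (h₂.trans hQM) e₁ e₂
  have e₄ := CL.Grp.commutator_sup_centralizer_eq hQD
    (hcop.coprime_dvd_right (Subgroup.card_dvd_of_le hDP))
    (Or.inr (CL.Grp.isSolvable_of_le_of_isSolvable hPs hDP))
  have e₅ : D ⊓ Subgroup.centralizer (Q : Set S) = ⊥ :=
    eq_bot_iff.2 ((inf_le_inf_right _ hDP).trans hPQ.le)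
  rw [e₅, sup_bot_eq, Subgroup.commutator_comm] at e₄
  rw [e₄] at e₃
  exact CL.Grp.eq_bot_of_le_commutator hPn hDP e₃

end Cfsg.Agent.S1900
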