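import Cfsg.Statements.S1901
import Cfsg.Agent.Loc.PConstr
import Cfsg.Agent.Grp.CoprimeAct
import Cfsg.Agent.Loc.Chief

set_option autoImplicit false
open Cfsg

namespace Cfsg.Agent.S1901

universe u

theorem aux {p : ℕ} [hp : Fact p.Prime] (n : ℕ) : ∀ (G : Type u) [Group G] [Finite G],
    Nat.card G = n → IsPSolvable p G → ∀ (P Q A : Subgroup G), CL.Grp.IsSylowIn p P ⊤ →
    (Nat.card Q).Coprime p → IsPGroup p A → Q ≤ Subgroup.normalizer (P : Set G) →
    A ≤ Subgroup.normalizer (Q : Set G) → ⁅Q, A⁆ = ⊥ := by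
  induction n using Nat.strong_induction_on with
  | _ n ih =>
  intro G _ _ hn hG P Q A hP hQ hA hQP hAQ
  rcases subsingleton_or_nontrivial G with hs | hs
  · exact Subsingleton.elim _ _
  have hquo : ∀ (N : Subgroup G) [N.Normal], N ≠ ⊥ → ⁅Q, A⁆ ≤ N := by
    intro N _ hN
    rw [CL.Grp.commutator_le_iff_map_eq_bot]
    have hlt : Nat.card (G ⧸ N) < n := by
      rw [← hn, ← N.index_mul_card, Subgroup.index]
      exact lt_mul_of_one_lt_right Nat.card_pos (N.one_lt_card_iff_ne_bot.2 hN)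
    refine ih _ hlt (G ⧸ N) rfl (CL.Loc.isPSolvable_quotient hG N) (P.map (QuotientGroup.mk' N))
      _ _ ?_ (hQ.coprime_dvd_left (Subgroup.card_map_dvd Q _)) (hA.map _)
      ((Subgroup.map_mono hQP).trans (Subgroup.le_normalizer_map _))
      ((Subgroup.map_mono hAQ).trans (Subgroup.le_normalizer_map _))
    have := CL.Loc.isSylowIn_map hP (QuotientGroup.mk' N)
    rwa [Subgroup.map_top_of_surjective _ (QuotientGroup.mk'_surjective N)] at this
  have hle : ⁅Q, A⁆ ≤ Q := Subgroup.le_normalizer_iff_commutator_le_left.1 hAQ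
  rcases CL.Loc.pCore_ne_bot_or_pPrimeCore_ne_bot hG with h | h
  · rw [eq_bot_iff, ← CL.Loc.inf_eq_bot_of_isPGroup_of_coprime (CL.Grp.pCore_isPGroup p G) hQ]
    exact le_inf (hquo _ h) hle
  · have h1 := hquo _ h
    have h2 : P ≤ Subgroup.centralizer ((⁅Q, A⁆ : Subgroup G) : Set G) := by
      rw [Subgroup.le_centralizer_iff, ← Subgroup.commutator_eq_bot_iff_le_centralizer, eq_bot_iff,
        ← CL.Grp.inf_pPrimeCore_eq_bot hP.isPGroup]
      refine le_inf (Subgroup.le_normalizer_iff_commutator_le_right.1 (hle.trans hQP)) ?_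
      exact (Subgroup.commutator_mono h1 le_rfl).trans (Subgroup.commutator_le_left _ _)
    set Q₁ : Subgroup G := ⁅Q, A⁆ with hQ₁
    have hA1 : A ≤ Subgroup.normalizer (Q₁ : Set G) :=
      CL.Loc.le_normalizer_commutator hAQ Subgroup.le_normalizer
    have hP1 : CL.Grp.IsSylowIn p P (Subgroup.normalizer (Q₁ : Set G)) :=
      hP.of_le (h2.trans (Subgroup.centralizer_le_normalizer _)) le_top
    obtain ⟨g, hg, hgA⟩ := hP1.exists_conj_le hA hA1
    have h3 : A ≤ Subgroup.centralizer (Q₁ : Set G) := by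
      intro a ha
      have h4 := h2 (hgA (CL.Grp.conj_mem_conj_smul g ha))
      have h5 := (Subgroup.mem_normalizer_iff.1
        (CL.Loc.le_normalizer_centralizer' le_rfl hg) a).2 h4
      exact h5
    have h6 := CL.Grp.commutator_commutator_eq' hAQ (CL.Grp.coprime_card_of_isPGroup hA hQ)
    rw [hQ₁, ← h6, Subgroup.commutator_comm, Subgroup.commutator_eq_bot_iff_le_centralizer]
    exact h3


/-- Let G be a finite p-solvable group and Q a subgroup of order prime to p such that p divides the index of C_G(Q) in N_G(Q). Then Q normalizes no Sylow p-subgroup of G. -/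
theorem result {G : Type*} [Group G] [Finite G] {p : ℕ} [Fact p.Prime]
    (hG : Cfsg.IsPSolvable p G) (Q : Subgroup G) (hQ : ¬ p ∣ Nat.card Q)
    (hA : p ∣ (Subgroup.centralizer (Q : Set G)).relIndex (Subgroup.normalizer (Q : Set G)))
    (P : Sylow p G) : ¬ Q ≤ Subgroup.normalizer ((P : Subgroup G) : Set G) := by
  intro hQP
  have hp : p.Prime := Fact.out
  have hQc : (Nat.card Q).Coprime p := ((Nat.Prime.coprime_iff_not_dvd hp).2 hQ).symm
  obtain ⟨A, hAs⟩ := CL.Grp.exists_isSylowIn p (Subgroup.normalizer (Q : Set G))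
  have h := aux _ G rfl hG P Q A (CL.Grp.isSylowIn_top P) hQc hAs.isPGroup hQP hAs.le
  rw [Subgroup.commutator_comm, Subgroup.commutator_eq_bot_iff_le_centralizer] at h
  exact hAs.not_dvd_relIndex_of_le h (Subgroup.centralizer_le_normalizer _) hA

end Cfsg.Agent.S1901
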