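import Cfsg.Statements.S1902
import Cfsg.Agent.Loc.PConstr
import Cfsg.Agent.Loc.BaerTrick

set_option autoImplicit false
open Cfsg

namespace Cfsg.Agent.S1902
open scoped commutatorElement

/-- Let p be an odd prime, G a finite p-solvable group, and B an elementary abelian subgroup of order p² such that B is the subgroup generated by the elements of order p of some Sylow p-subgroup of C_G(b₀), for some nontrivial b₀ ∈ B. Then every B-invariant subgroup of G of order prime to p lies in O_{p'}(G). -/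
theorem result {G : Type*} [Group G] [Finite G] {p : ℕ} [Fact p.Prime] (hp : p ≠ 2)
    (hG : Cfsg.IsPSolvable p G) (B : Subgroup G) (hB : Cfsg.IsElementaryAbelian p B) (hBc : Nat.card B = p ^ 2)
    (b₀ : G) (hb₀ : b₀ ∈ B) (hb₁ : b₀ ≠ 1) (P : Sylow p ↥(Subgroup.centralizer ({b₀} : Set G)))
    (hBP : B = Subgroup.closure {x : G | x ∈ ((P : Subgroup ↥(Subgroup.centralizer ({b₀} : Set G))).map
      (Subgroup.centralizer ({b₀} : Set G)).subtype : Subgroup G) ∧ orderOf x = p})
    (Q : Subgroup G) (hQ : ¬ p ∣ Nat.card Q) (hinv : ∀ b ∈ B, ∀ x ∈ Q, b * x * b⁻¹ ∈ Q) :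
    Q ≤ Cfsg.pPrimeCore p G := by
  have hp' : p.Prime := Fact.out
  have hQc : (Nat.card Q).Coprime p := ((Nat.Prime.coprime_iff_not_dvd hp').2 hQ).symm
  set O := Cfsg.pPrimeCore p G with hO
  set f := QuotientGroup.mk' O with hf
  have hfs : Function.Surjective f := QuotientGroup.mk'_surjective O
  have hk : (Nat.card f.ker).Coprime p := by
    rw [hf, QuotientGroup.ker_mk']; exact CL.Grp.pPrimeCore_coprime p G
  have hb0p : b₀ ^ p = 1 := hB.2 b₀ hb₀
  have hZ : IsPGroup p (Subgroup.zpowers b₀) :=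
    IsPGroup.of_card (n := 1) (by
      rw [Nat.card_zpowers, orderOf_eq_prime hb0p hb₁, pow_one])
  set R := Cfsg.pCore p (G ⧸ O) with hR
  have hRp : IsPGroup p R := CL.Grp.pCore_isPGroup _ _
  have hC : Subgroup.centralizer (R : Set (G ⧸ O)) ≤ R :=
    CL.Loc.centralizer_pCore_le_of_isPSolvable (CL.Loc.isPSolvable_quotient hG O)
      (CL.Grp.pPrimeCore_quotient_pPrimeCore p G)
  have hQc' : (Nat.card (Q.map f)).Coprime p :=
    hQc.coprime_dvd_left (Subgroup.card_map_dvd Q f)
  have hBQ : B ≤ Subgroup.normalizer (Q : Set G) :=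
    fun a ha => Subgroup.mem_normalizer_fintype (fun x hx => hinv a ha x hx)
  have hBQ' : B.map f ≤ Subgroup.normalizer ((Q.map f : Subgroup (G ⧸ O)) : Set (G ⧸ O)) :=
    (Subgroup.map_mono hBQ).trans (Subgroup.le_normalizer_map f)
  have hcz : Subgroup.centralizer ((Subgroup.zpowers b₀ : Subgroup G) : Set G) =
      Subgroup.centralizer ({b₀} : Set G) := by
    rw [Subgroup.zpowers_eq_closure, Subgroup.centralizer_closure]
  have hS := CL.Loc.isSylowIn_map (CL.Grp.isSylowIn_map_subtype P) f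
  have hmapC : (Subgroup.centralizer ({b₀} : Set G)).map f = Subgroup.centralizer
      (((Subgroup.zpowers b₀).map f : Subgroup (G ⧸ O)) : Set (G ⧸ O)) := by
    rw [← hcz]; exact CL.Loc.map_centralizer_eq_of_coprime_ker hfs hk hZ
  rw [hmapC] at hS
  have hle := hS.le_of_normalized (U := R ⊓ Subgroup.centralizer
      (((Subgroup.zpowers b₀).map f : Subgroup (G ⧸ O)) : Set (G ⧸ O))) (hRp.to_le inf_le_left)
      inf_le_right
      (CL.Grp.le_normalizer_inf' Subgroup.le_normalizer_of_normal Subgroup.le_normalizer)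
  have hdisj : R ⊓ Q.map f = ⊥ := CL.Loc.inf_eq_bot_of_isPGroup_of_coprime hRp hQc'
  have hRQ : R ≤ Subgroup.centralizer ((Q.map f : Subgroup (G ⧸ O)) : Set (G ⧸ O)) := by
    refine CL.Loc.le_centralizer_of_omega_fixed hp (A := (Subgroup.zpowers b₀).map f) (hZ.map f) hQc'
      ((Subgroup.map_mono ((Subgroup.zpowers_le).2 hb₀)).trans hBQ') hRp
      Subgroup.le_normalizer_of_normal Subgroup.le_normalizer_of_normal ?_
    intro v hv hvp hvc
    obtain ⟨x, hx, rfl⟩ := hle ⟨hv, hvc⟩
    have hPp := (CL.Grp.isSylowIn_map_subtype P).isPGroup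
    have hxp : x ^ p = 1 := by
      have h1 : x ^ p ∈ (P : Subgroup ↥(Subgroup.centralizer ({b₀} : Set G))).map
          (Subgroup.centralizer ({b₀} : Set G)).subtype ⊓ f.ker :=
        Subgroup.mem_inf.2 ⟨pow_mem hx p, by rw [MonoidHom.mem_ker, map_pow, hvp]⟩
      rwa [CL.Loc.inf_eq_bot_of_isPGroup_of_coprime hPp hk, Subgroup.mem_bot] at h1
    have hxB : x ∈ B := by
      by_cases hx1 : x = 1
      · rw [hx1]; exact one_mem _
      · rw [hBP]; exact Subgroup.subset_closure ⟨hx, orderOf_eq_prime hxp hx1⟩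
    have hn := hBQ' (Subgroup.mem_map_of_mem f hxB)
    rw [Subgroup.mem_centralizer_iff]
    intro q hq
    replace hq : q ∈ Q.map f := hq
    have h1 : ⁅f x, q⁆ ∈ R ⊓ Q.map f := by
      rw [Subgroup.mem_inf]
      constructor
      · have : ⁅f x, q⁆ = f x * (q * (f x)⁻¹ * q⁻¹) := by group
        rw [this]
        exact mul_mem hv (Subgroup.Normal.conj_mem inferInstance _ (inv_mem hv) q)
      · have : ⁅f x, q⁆ = (f x * q * (f x)⁻¹) * q⁻¹ := by group
        rw [this]
        exact mul_mem ((Subgroup.mem_normalizer_iff.1 hn q).1 hq) (inv_mem hq)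
    rw [hdisj, Subgroup.mem_bot, commutatorElement_eq_one_iff_mul_comm] at h1
    exact h1.symm
  have h2 : Q.map f ≤ R := (Subgroup.le_centralizer_iff.1 hRQ).trans hC
  have h3 : Q.map f = ⊥ := by rw [← hdisj]; exact (inf_eq_right.2 h2).symm
  rwa [Subgroup.map_eq_bot_iff, hf, QuotientGroup.ker_mk'] at h3

end Cfsg.Agent.S1902
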