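import Cfsg.Statements.S1905
import Cfsg.Agent.S1225
import Cfsg.Agent.Inv.StrongEmbNorm
import Cfsg.Agent.Inv.Dihedral
import Cfsg.Agent.Even.Amb2

set_option autoImplicit false
open Cfsg

namespace Cfsg.Agent.S1905

/-- Let M be a subgroup of even order of a finite group S such that M contains the centralizer in S of each of its involutions and the normal core of M in S has odd order. Then all involutions of S are conjugate. If moreover N_S(X) ≤ M for a Sylow 2-subgroup X of M and I is an involution in the centre of X, then all involutions of M are conjugate in M and M = M₀ C_M(I) for some subgroup M₀ of M of odd order. -/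
theorem result {S : Type*} [Group S] [Finite S] (M : Subgroup S) (hM : Even (Nat.card M))
    (hC : ∀ i ∈ M, orderOf i = 2 → Subgroup.centralizer ({i} : Set S) ≤ M) (hcore : Odd (Nat.card M.normalCore)) :
    (∀ x y : S, orderOf x = 2 → orderOf y = 2 → IsConj x y) ∧
      ∀ (X : Sylow 2 M) (I : M), I ∈ (Subgroup.center ↥(X : Subgroup ↥M)).map (X : Subgroup ↥M).subtype → orderOf I = 2 →
        Subgroup.normalizer (((X : Subgroup M).map M.subtype : Subgroup S) : Set S) ≤ M →
        (∀ x y : M, orderOf x = 2 → orderOf y = 2 → IsConj x y) ∧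
          ∃ M₀ : Subgroup M, Odd (Nat.card M₀) ∧
            ∀ m : M, ∃ a ∈ M₀, ∃ c ∈ Subgroup.centralizer ({I} : Set M), m = a * c := by
  obtain ⟨i, hiM, hi⟩ := (CL.Inv.SE.even_card_iff M).mp hM
  have hodd : ∀ s ∈ M, orderOf s = 2 → ∀ t, t ∉ M → orderOf t = 2 → IsConj s t := by
    intro s hsM hs t htM ht
    have hs' := CL.Inv.mul_self_of_orderOf_two hs
    have ht' := CL.Inv.mul_self_of_orderOf_two ht
    refine CL.Inv.isConj_of_odd_mul hs' ht' (Nat.not_even_iff_odd.mp fun he => htM ?_)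
    obtain ⟨h1, h2, h3⟩ := CL.Inv.half_pow_central hs' ht' (orderOf_pos _).ne' he
    exact hC _ (hC s hsM hs (Subgroup.mem_centralizer_singleton_iff.mpr h2.eq)) h1
      (Subgroup.mem_centralizer_singleton_iff.mpr h3.eq.symm)
  obtain ⟨u, huM, hu⟩ : ∃ u, u ∉ M ∧ orderOf u = 2 := by
    by_contra hcon
    push Not at hcon
    refine (CL.Inv.SE.odd_card_iff _).mp hcore i (fun g => ?_) hi
    by_contra h
    exact hcon _ h (CL.Inv.SE.inv_conj hi g)
  have hone : ∀ x y : S, orderOf x = 2 → orderOf y = 2 → IsConj x y := by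
    have h1 : ∀ x : S, orderOf x = 2 → IsConj x u := fun x hx => by
      by_cases h : x ∈ M
      · exact hodd x h hx u huM hu
      · exact (hodd i hiM hi x h hx).symm.trans (hodd i hiM hi u huM hu)
    exact fun x y hx hy => (h1 x hx).trans (h1 y hy).symm
  refine ⟨hone, fun X I hI hI2 hN => ?_⟩
  have hX := CL.Grp.isSylowIn_map_subtype X
  have hX' := CL.Inv.SE.isSylowIn_top_of_normalizer_le hX hN
  have hI2' : orderOf (I : S) = 2 := by rwa [Subgroup.orderOf_coe]
  have hXI : (X : Subgroup M).map M.subtype ≤ Subgroup.centralizer {(I : S)} := by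
    obtain ⟨j, hj, rfl⟩ := hI
    rintro _ ⟨x, hx, rfl⟩
    exact Subgroup.mem_centralizer_singleton_iff.mpr
      (congrArg (fun y : X => ((y : M) : S)) (Subgroup.mem_center_iff.mp hj ⟨x, hx⟩))
  have hA : ∀ g : S, g * I * g⁻¹ ∈ M → g ∈ M := by
    intro g hg
    have h1 : ((X : Subgroup M).map M.subtype).map (MulAut.conj g).toMonoidHom ≤ M := by
      rintro _ ⟨x, hx, rfl⟩
      refine hC _ hg (CL.Inv.SE.inv_conj hI2' g) (Subgroup.mem_centralizer_singleton_iff.mpr ?_)
      exact (Commute.conj (Subgroup.mem_centralizer_singleton_iff.mp (hXI hx)) g).eq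
    have h2 := CL.Even.syl_cj hX' g
    rw [CL.Even.cj_top] at h2
    obtain ⟨m, hm, e⟩ := CL.Even.syl_conj (h2.of_le h1 le_top) hX
    rw [← CL.Even.cj_mul, CL.Even.cj_eq_iff_mem] at e
    simpa using M.mul_mem (M.inv_mem hm) (hN e)
  have hSE : Cfsg.IsStronglyEmbedded M := by
    refine CL.Inv.SE.se_iff.mpr ⟨fun h => huM (h ▸ Subgroup.mem_top u), hM, fun t htM ht g hg => ?_⟩
    obtain ⟨h, rfl⟩ := isConj_iff.mp (hone _ _ hI2' ht)
    have h1 := hA (g * h) (by simpa [mul_assoc] using hg)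
    simpa using M.mul_mem h1 (M.inv_mem (hA h htM))
  have key : ∀ x y : M, orderOf x = 2 → orderOf y = 2 →
      ∃ d ∈ (M ⊓ M.map (MulAut.conj u).toMonoidHom).subgroupOf M, d * x * d⁻¹ = y := by
    intro x y hx hy
    obtain ⟨d, hd, e⟩ := (Cfsg.Agent.S1225.result M hSE u hu huM x y (by rwa [Subgroup.orderOf_coe]) x.2
      (by rwa [Subgroup.orderOf_coe]) y.2).1
    exact ⟨⟨d, hd.1⟩, hd, Subtype.ext e⟩
  refine ⟨fun x y hx hy => ?_, (M ⊓ M.map (MulAut.conj u).toMonoidHom).subgroupOf M, ?_, fun m => ?_⟩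
  · obtain ⟨d, -, e⟩ := key x y hx hy
    exact isConj_iff.mpr ⟨d, e⟩
  · rw [CL.Grp.card_subgroupOf_of_le inf_le_left]
    exact hSE.2.2 u huM
  · obtain ⟨d, hd, e⟩ := key I (m * I * m⁻¹) hI2 (CL.Inv.SE.inv_conj hI2 m)
    refine ⟨d, hd, d⁻¹ * m, Subgroup.mem_centralizer_singleton_iff.mpr ?_, by group⟩
    calc d⁻¹ * m * I = d⁻¹ * (m * I * m⁻¹) * m := by group
      _ = _ := by rw [← e]; group

end Cfsg.Agent.S1905
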