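import Cfsg.Statements.S1906
import Cfsg.Agent.Fgs.GL3Syl
import Cfsg.Agent.Fgs.PSmall
import Cfsg.Agent.Fus.SimpleSL3

set_option autoImplicit false
open Cfsg

namespace Cfsg.Agent.S1906

open Subgroup Matrix CL.Fgs.GL3Syl
open scoped commutatorElement

section Mat
variable {F : Type*} [Field F]

theorem inv_two (h2 : (2 : F) ≠ 0) {M : Matrix (Fin 2) (Fin 2) F} (h : M * M = 1) (hd : M.det = 1) :
    M = 1 ∨ M = -1 := by
  have h1 : M.adjugate = M := by
    rw [← one_mul M.adjugate, ← h, mul_assoc, mul_adjugate, hd, one_smul, mul_one]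
  rw [adjugate_fin_two] at h1
  have e01 := congrFun (congrFun h1 0) 1
  have e10 := congrFun (congrFun h1 1) 0
  have e00 := congrFun (congrFun h1 0) 0
  simp at e01 e10 e00
  have z01 : M 0 1 = 0 := (mul_eq_zero.1 (by linear_combination -e01)).resolve_left h2
  have z10 : M 1 0 = 0 := (mul_eq_zero.1 (by linear_combination -e10)).resolve_left h2
  rw [det_fin_two, z01, e00, zero_mul, sub_zero] at hd
  rcases mul_self_eq_one_iff.1 hd with e | e
  · left
    ext i j
    fin_cases i <;> fin_cases j <;> simp [z01, z10, e00, e]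
  · right
    ext i j
    fin_cases i <;> fin_cases j <;> simp [z01, z10, e00, e]

theorem comm_two {M N L : Matrix (Fin 2) (Fin 2) F} (hM : ¬ ∃ c : F, M = c • 1)
    (h1 : N * M = M * N) (h2 : L * M = M * L) : N * L = L * N := by
  have key : ∀ N : Matrix (Fin 2) (Fin 2) F, N * M = M * N → ∃ a b : F, N = a • 1 + b • M := by
    intro N h
    have e00 := congrFun (congrFun h 0) 0
    have e01 := congrFun (congrFun h 0) 1
    have e10 := congrFun (congrFun h 1) 0
    simp only [mul_apply, Fin.sum_univ_two] at e00 e01 e10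
    by_cases k1 : M 0 1 = 0
    · by_cases k2 : M 1 0 = 0
      · have k3 : M 0 0 - M 1 1 ≠ 0 := fun k3 => hM ⟨M 0 0, by
          ext i j
          fin_cases i <;> fin_cases j <;> simp [k1, k2, sub_eq_zero.1 k3]⟩
        have n1 : N 0 1 = 0 := (mul_eq_zero.1 (by
          rw [k1] at e01; linear_combination -e01)).resolve_left k3
        have n2 : N 1 0 = 0 := (mul_eq_zero.1 (by
          rw [k2] at e10; linear_combination e10)).resolve_left k3
        refine ⟨N 0 0 - (N 0 0 - N 1 1) / (M 0 0 - M 1 1) * M 0 0,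
          (N 0 0 - N 1 1) / (M 0 0 - M 1 1), ?_⟩
        ext i j
        fin_cases i <;> fin_cases j <;> simp [k1, k2, n1, n2]
        field_simp
        ring
      · refine ⟨N 0 0 - N 1 0 / M 1 0 * M 0 0, N 1 0 / M 1 0, ?_⟩
        ext i j
        fin_cases i <;> fin_cases j <;> simp <;> field_simp
        · linear_combination e00
        · linear_combination e10
    · refine ⟨N 0 0 - N 0 1 / M 0 1 * M 0 0, N 0 1 / M 0 1, ?_⟩
      ext i j
      fin_cases i <;> fin_cases j <;> simp <;> field_simp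
      · linear_combination -e00
      · linear_combination -e01
  obtain ⟨a, b, rfl⟩ := key N h1
  rw [add_mul, mul_add, smul_mul_assoc, smul_mul_assoc, mul_smul_comm, mul_smul_comm, h2, one_mul,
    mul_one]

end Mat

theorem exists_dat {P F : Type*} [Group P] [Finite P] [Field F] (h2 : (2 : F) ≠ 0)
    (hP : IsPGroup 2 P) (hna : ¬ ∀ x y : P, x * y = y * x) (a : P →* Fˣ) (ρ : P →* GL (Fin 2) F)
    (inj : ∀ x, a x = 1 → ρ x = 1 → x = 1) (E : Subgroup P) (hE : ∀ e ∈ E, e * e = 1)
    (hE8 : Nat.card E = 8) : ∃ (d : P →* Fˣ) (z w : P) (A : Subgroup P), Dat a d z w A := by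
  have : Fact (Nat.Prime 2) := ⟨Nat.prime_two⟩
  let d : P →* Fˣ := GeneralLinearGroup.det.comp ρ
  have hne : (-1 : Fˣ) ≠ 1 := fun e => h2 (by
    have : (-1 : F) = 1 := congrArg Units.val e
    linear_combination -this)
  have hcomm : ∀ x y : P, (ρ x).1 * (ρ y).1 = (ρ y).1 * (ρ x).1 → x * y = y * x := fun x y h => by
    rw [← commutatorElement_eq_one_iff_mul_comm]
    refine inj _ (map_comm a (commutator_mem_commutator (mem_top _) (mem_top _))) ?_
    rw [map_commutatorElement, commutatorElement_eq_one_iff_mul_comm]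
    exact Units.ext h
  have hρ : ∀ x y : P, x * y = y * x → (ρ x).1 * (ρ y).1 = (ρ y).1 * (ρ x).1 := fun x y h => by
    rw [← Units.val_mul, ← Units.val_mul, ← map_mul, ← map_mul, h]
  have hsc : ∀ x : P, (∀ y, y * x = x * y) → ∃ c : F, (ρ x).1 = c • 1 := fun x hx => by
    by_contra h
    exact hna fun y u => hcomm _ _ (comm_two h (hρ _ _ (hx y)) (hρ _ _ (hx u)))
  have hsc' : ∀ x : P, (∃ c : F, (ρ x).1 = c • 1) → ∀ y, y * x = x * y := by
    rintro x ⟨c, hc⟩ y
    exact hcomm _ _ (by rw [hc, mul_smul_comm, smul_mul_assoc, mul_one, one_mul])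
  have hinv : ∀ u : P, u * u = 1 → d u = 1 → (ρ u).1 = 1 ∨ (ρ u).1 = -1 := fun u hu hd =>
    inv_two h2 (by rw [← Units.val_mul, ← map_mul, hu, map_one, Units.val_one])
      (congrArg Units.val hd)
  obtain ⟨w, hw, ho, hwc⟩ := CL.Fgs.exists_orderOf_eq_mem_center_of_normal hP (commutator P)
    fun e => hna fun x y => by
      rw [← commutatorElement_eq_one_iff_mul_comm, ← mem_bot, ← e]
      exact commutator_mem_commutator (mem_top _) (mem_top _)
  have ww : w * w = 1 := by rw [← sq, ← ho, pow_orderOf_eq_one]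
  have w1 : w ≠ 1 := fun e => by rw [e, orderOf_one] at ho; omega
  have hρw : (ρ w).1 = -1 := (hinv w ww (map_comm d hw)).resolve_left fun e =>
    w1 (inj w (map_comm a hw) (Units.ext e))
  have uniq : ∀ u, u * u = 1 → a u = 1 → d u = 1 → u = 1 ∨ u = w := fun u hu h1 hd => by
    rcases hinv u hu hd with e | e
    · exact Or.inl (inj u h1 (Units.ext e))
    · refine Or.inr ?_
      have := inj (u * w) (by rw [map_mul, h1, map_comm a hw, mul_one])
        (Units.ext (by rw [map_mul, Units.val_mul, e, hρw]; simp))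
      rw [← mul_one u, ← ww, ← mul_assoc, this, one_mul]
  obtain ⟨z, hzE, hz1, hz⟩ : ∃ z ∈ E, z ≠ 1 ∧ ρ z = 1 := by
    by_contra! hcon
    let f : E →* Fˣ := d.comp E.subtype
    have k1 : Nat.card f.range ≤ Nat.card ({1, -1} : Set Fˣ) := by
      refine Nat.card_le_card_of_injective (fun x => ⟨x.1, ?_⟩) fun x y hxy =>
        Subtype.ext (Subtype.mk.inj hxy)
      obtain ⟨_, e, rfl⟩ := x
      exact units_sq (by rw [← map_mul, show e * e = 1 from Subtype.ext (hE e e.2), map_one])
    have k2 : Nat.card f.ker ≤ Nat.card ({1, -1} : Set (Matrix (Fin 2) (Fin 2) F)) := by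
      refine Nat.card_le_card_of_injective (fun x => ⟨(ρ x.1.1).1, hinv _ (hE _ x.1.2) x.2⟩)
        fun x y hxy => Subtype.ext (Subtype.ext ?_)
      by_contra hne'
      refine hcon (x.1.1⁻¹ * y.1.1) (mul_mem (inv_mem x.1.2) y.1.2)
        (fun e => hne' (inv_mul_eq_one.1 e)) ?_
      rw [map_mul, map_inv, Units.ext (Subtype.mk.inj hxy), inv_mul_cancel]
    rw [Nat.card_coe_set_eq] at k1 k2
    have k3 := f.ker.card_mul_index
    rw [index_ker, hE8] at k3
    have l : ∀ {α : Type _} (u v : α), ({u, v} : Set α).ncard ≤ 2 := fun u v =>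
      (Set.ncard_insert_le _ _).trans (by rw [Set.ncard_singleton])
    have := Nat.mul_le_mul (k2.trans (l _ _)) (k1.trans (l _ _))
    omega
  have zz := hE z hzE
  have hnt : Nontrivial (P ⧸ center P) := by
    rw [QuotientGroup.nontrivial_iff]
    exact fun e => hna fun x y => mem_center_iff.1 (e ▸ mem_top y) x
  obtain ⟨⟨x', hx'⟩, hx1⟩ := @exists_ne _ ((hP.to_quotient (center P)).center_nontrivial) 1
  obtain ⟨x, rfl⟩ := QuotientGroup.mk'_surjective _ x'
  have hxn : ¬ ∀ y, y * x = x * y := fun e =>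
    hx1 (Subtype.ext ((QuotientGroup.eq_one_iff x).2 (mem_center_iff.2 e)))
  have hxc : ∀ y, y * x = x * y ∨ y * x * y⁻¹ = w * x := fun y => by
    have c1 : ⁅y, x⁆ ∈ center P := by
      rw [← QuotientGroup.eq_one_iff, ← QuotientGroup.mk'_apply, map_commutatorElement,
        commutatorElement_eq_one_iff_mul_comm]
      exact mem_center_iff.1 hx' _
    have c2 : ⁅y, x⁆ ∈ commutator P := commutator_mem_commutator (mem_top _) (mem_top _)
    obtain ⟨c, hc⟩ := hsc _ (mem_center_iff.1 c1)
    have c3 : (ρ ⁅y, x⁆).1.det = 1 := congrArg Units.val (map_comm d c2)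
    rw [hc, det_smul, det_one, mul_one, Fintype.card_fin] at c3
    rcases uniq _ (inj _ (map_comm a (mul_mem c2 c2)) (Units.ext (by
      rw [map_mul, Units.val_mul, hc, smul_mul_smul_comm, ← sq, c3, one_mul, one_smul,
        Units.val_one]))) (map_comm a c2) (map_comm d c2) with e | e
    · exact Or.inl (commutatorElement_eq_one_iff_mul_comm.1 e)
    · exact Or.inr (by rw [← e, commutatorElement_def]; group)
  refine ⟨d, z, w, centralizer {x}, fun y => (hsc' z ⟨1, by rw [hz]; simp⟩ y).symm, zz,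
    (units_sq (by rw [← map_mul, zz, map_one])).resolve_left fun e => hz1 (inj z e hz),
    by change GeneralLinearGroup.det (ρ z) = 1; rw [hz, map_one], hne,
    fun y => (mem_center_iff.1 hwc y).symm, ww, w1, hw, uniq, fun s hs hd => ?_, ?_,
    fun u hu v hv => hcomm _ _ (comm_two (fun e => hxn (hsc' x e))
      (hρ _ _ (mem_centralizer_singleton_iff.1 hu)) (hρ _ _ (mem_centralizer_singleton_iff.1 hv)))⟩
  · by_contra! hc
    obtain ⟨c, hc⟩ := hsc s hc
    have c1 : (ρ s).1.det = -1 := congrArg Units.val hd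
    have c2 : (ρ s).1 * (ρ s).1 = 1 := by
      rw [← Units.val_mul, ← map_mul, hs, map_one, Units.val_one]
    rw [hc, det_smul, det_one, mul_one, Fintype.card_fin] at c1
    rw [hc, smul_mul_smul_comm, ← sq, c1] at c2
    have := congrFun (congrFun c2 0) 0
    exact h2 (by simp at this; linear_combination -this)
  · push Not at hxn
    obtain ⟨y, hy⟩ := hxn
    refine index_eq_two_iff_exists_notMem_and.2 ⟨y, fun e => hy (mem_centralizer_singleton_iff.1 e),
      fun b => ?_⟩
    rcases hxc b with e | e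
    · exact Or.inr (mem_centralizer_singleton_iff.2 e)
    · refine Or.inl (mem_centralizer_singleton_iff.2 ?_)
      rw [← mul_inv_eq_iff_eq_mul]
      calc _ = b * (y * x * y⁻¹) * b⁻¹ := by group
        _ = w * (b * x * b⁻¹) := by
          rw [(hxc y).resolve_left hy, ← mul_assoc, mem_center_iff.1 hwc b]; group
        _ = x := by rw [e, ← mul_assoc, ww, one_mul]


/-- Let G be a finite group with no subgroup of index 2 whose Sylow 2-subgroup X embeds in GL₃(F) for a finite field F of odd order. If X contains an elementary abelian subgroup of order 8, then X is abelian. -/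
theorem result {G : Type*} [Group G] [Finite G] (hG : ∀ H : Subgroup G, H.index ≠ 2) (X : Sylow 2 G)
    {F : Type*} [Field F] [Fintype F] (hF : Odd (Fintype.card F))
    (f : ↥(X : Subgroup G) →* GL (Fin 3) F) (hf : Function.Injective f)
    (E : Subgroup G) (hE : E ≤ (X : Subgroup G)) (hEa : Cfsg.IsElementaryAbelian 2 E) (hE8 : Nat.card E = 8) :
    IsMulCommutative (X : Subgroup G) := by
  classical
  have h2 : (2 : F) ≠ 0 := by
    intro h
    have := FiniteField.even_card_of_char_two (F := F) (by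
      have : CharP F 2 := (CharP.charP_iff_prime_eq_zero Nat.prime_two).2 (by exact_mod_cast h)
      exact ringChar.eq F 2)
    rw [Nat.odd_iff] at hF
    omega
  have : Fact (Nat.Prime 2) := ⟨Nat.prime_two⟩
  by_contra hna
  replace hna : ¬ ∀ x y : X, x * y = y * x := fun h => hna ⟨⟨h⟩⟩
  obtain ⟨k, hk⟩ := IsPGroup.iff_card.1 X.2
  obtain ⟨m, hm⟩ := Nat.exists_mul_mod_eq_one_of_coprime (n := 3) (k := 2 ^ (k + 1))
    (Nat.Coprime.pow_right _ (by norm_num)) (Nat.one_lt_two_pow (by omega))
  obtain ⟨-, hm⟩ := hm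
  let a : X →* Fˣ := GeneralLinearGroup.det.comp f
  have ha : ∀ x, a x ^ (3 * m) = a x := fun x => by
    have h1 : a x ^ 2 ^ (k + 1) = 1 := by
      rw [pow_succ, pow_mul, ← hk, ← map_pow, pow_card_eq_one', map_one, one_pow]
    rw [← Nat.mod_add_div (3 * m) (2 ^ (k + 1)), hm, pow_add, pow_mul, h1, one_pow, mul_one,
      pow_one]
  let π : X →* SpecialLinearGroup (Fin 3) F :=
    { toFun := fun x => ⟨(((a x)⁻¹ ^ m : Fˣ) : F) • (f x).1, by
        rw [det_smul, Fintype.card_fin, ← Units.val_pow_eq_pow_val, ← pow_mul, inv_pow, mul_comm m,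
          ha]
        exact (a x).inv_mul⟩
      map_one' := Subtype.ext (by simp)
      map_mul' := fun x y => Subtype.ext (by
        change _ = (_ • (f x).1) * (_ • (f y).1)
        simp only [map_mul, Units.val_mul, mul_inv, mul_pow, smul_mul_smul_comm]) }
  have hπ : ∀ x, a x = 1 → π x = 1 → x = 1 := fun x h1 h3 => by
    have : (((a x)⁻¹ ^ m : Fˣ) : F) • (f x).1 = 1 := congrArg Subtype.val h3
    rw [h1, inv_one, one_pow, Units.val_one, one_smul] at this
    exact hf (Units.ext (by rw [this, map_one, Units.val_one]))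
  have hT : IsPGroup 2 π.range := X.2.of_surjective _ π.rangeRestrict_surjective
  obtain ⟨z, -, ho, hz⟩ := CL.Fgs.exists_orderOf_eq_mem_center_of_normal hT ⊤ fun e => hna
    fun x y => by
      rw [← commutatorElement_eq_one_iff_mul_comm]
      have e' : π.rangeRestrict ⁅x, y⁆ = 1 := mem_bot.1 (e ▸ mem_top _)
      exact hπ _ (map_comm a (commutator_mem_commutator (mem_top _) (mem_top _)))
        (congrArg Subtype.val e')
  obtain ⟨φ, hφ⟩ := CL.Fus.exists_gl2_of_central (T := π.range) (z := z) h2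
    (by rwa [Subgroup.orderOf_coe]) fun t ht => congrArg Subtype.val (mem_center_iff.1 hz ⟨t, ht⟩)
  obtain ⟨d, z, w, A, h⟩ := exists_dat h2 X.2 hna a (φ.comp π.rangeRestrict)
    (fun x h1 h3 => hπ x h1 (congrArg Subtype.val (hφ (h3.trans (map_one φ).symm))))
    (E.subgroupOf X) (fun e he => Subtype.ext (by have := hEa.2 _ he; rwa [sq] at this))
    (by rw [Nat.card_congr (subgroupOfEquivOfLe hE).toEquiv, hE8])
  exact h.false_of_index hG

end Cfsg.Agent.S1906
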