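import Cfsg.Statements.S1924
import Cfsg.Agent.Transfer.Sign

set_option autoImplicit false
open Cfsg

namespace Cfsg.Agent.S1924

theorem dihedral_sq {n : ℕ} (hn : 2 ≤ n) (C : Subgroup (DihedralGroup n)) (hC : IsCyclic C)
    (hi : C.index = 2) {x : DihedralGroup n} (hx : x ∉ C) : x ^ 2 = 1 := by
  have : NeZero n := ⟨by omega⟩
  have hc : Nat.card C = n := by
    have := C.card_mul_index
    rw [hi, DihedralGroup.nat_card] at this
    omega
  obtain ⟨g, rfl⟩ := (Subgroup.isCyclic_iff_exists_zpowers_eq_top C).mp hC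
  rcases x with i | i
  · rcases g with k | k
    · refine absurd ?_ hx
      have h1 : ∀ j : ZMod n, DihedralGroup.r j ∈ Subgroup.zpowers (DihedralGroup.r (1 : ZMod n)) :=
        fun j => ⟨(j.val : ℤ), by simp⟩
      rw [Subgroup.eq_of_le_of_card_ge (Subgroup.zpowers_le.mpr (h1 k))
        (by rw [hc, Nat.card_zpowers, DihedralGroup.orderOf_r_one])]
      exact h1 i
    · rw [Nat.card_zpowers, DihedralGroup.orderOf_sr] at hc
      subst hc
      clear hx
      revert i
      decide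
  · simp [pow_two]

/-- A consequence of Thompson's transfer lemma. Let G be a finite group, L a subgroup with O²(L) = L, T a Sylow 2-subgroup of L and S a Sylow 2-subgroup of G containing T. Suppose D ≤ S is a dihedral subgroup of order at least 4 (the four-group counts) with D ∩ T = 1 and S = TD as a set of products (so |S| = |T|·|D|), and C ≤ D is cyclic of index 2 in D. If no involution of D outside C is G-conjugate to an involution of the subgroup generated by T and C, and the involution of C is not G-conjugate to any involution of T, then G has a normal subgroup K, containing every Sylow 2-subgroup of L as a Sylow 2-subgroup, with G = KD. -/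
theorem result {G : Type*} [Group G] [Finite G] (L T S D C : Subgroup G) (hL : Cfsg.pResidual 2 ↥L = ⊤)
    (hTL : T ≤ L) (hT2 : IsPGroup 2 T) (hTsyl : ¬ 2 ∣ T.relIndex L)
    (hS2 : IsPGroup 2 S) (hSsyl : ¬ 2 ∣ S.index) (hTS : T ≤ S)
    (hDS : D ≤ S) (hDih : ∃ n : ℕ, 2 ≤ n ∧ Nonempty (↥D ≃* DihedralGroup n)) (hDT : D ⊓ T = ⊥) (hTD : T ⊔ D = S) (hTDc : Nat.card T * Nat.card D = Nat.card S)
    (hCD : C ≤ D) (hC : IsCyclic ↥C) (hCi : C.relIndex D = 2)
    (h1 : ∀ x ∈ D, x ∉ C → orderOf x = 2 → ∀ g : G, g * x * g⁻¹ ∈ T ⊔ C → False)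
    (h2 : ∀ c ∈ C, orderOf c = 2 → ∀ g : G, g * c * g⁻¹ ∈ T → False) :
    ∃ K : Subgroup G, K.Normal ∧ K ⊔ D = ⊤ ∧
      ∀ T' : Subgroup G, T' ≤ L → IsPGroup 2 T' → ¬ 2 ∣ T'.relIndex L → T' ≤ K ∧ ¬ 2 ∣ T'.relIndex K := by
  have : Fact (Nat.Prime 2) := ⟨Nat.prime_two⟩
  obtain ⟨n, hn, ⟨e⟩⟩ := hDih
  let K := Cfsg.pResidual 2 G
  have hKn : K.Normal := CL.Transfer.pResidual_normal 2
  have hLK : L ≤ K := by
    have := CL.Transfer.map_pResidual_le 2 L.subtype
    rwa [hL, ← MonoidHom.range_eq_map, Subgroup.range_subtype] at this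
  have hTK := hTL.trans hLK
  have hinv : ∀ x ∈ D, x ∉ C → orderOf x = 2 := fun x hx hxC => by
    have h3 : IsCyclic (C.subgroupOf D) :=
      isCyclic_of_surjective _ (Subgroup.subgroupOfEquivOfLe hCD).symm.surjective
    have h4 := dihedral_sq hn ((C.subgroupOf D).map e.toMonoidHom)
      (isCyclic_of_surjective _ (MonoidHom.subgroupMap_surjective _ _))
      ((Subgroup.index_map_of_bijective e.bijective _).trans hCi) (x := e ⟨x, hx⟩)
      (by rintro ⟨y, hy, h⟩; exact hxC (e.injective h ▸ hy : (⟨x, hx⟩ : D) ∈ C.subgroupOf D))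
    rw [← map_pow, e.map_eq_one_iff] at h4
    exact orderOf_eq_prime (congrArg Subtype.val h4) fun h => hxC (h ▸ C.one_mem)
  obtain ⟨x, hxD, hxC⟩ : ∃ x ∈ D, x ∉ C := by
    by_contra! h
    rw [Subgroup.relIndex_eq_one.mpr h] at hCi
    omega
  have hTC : T ⊔ C ≤ S := sup_le hTS (hCD.trans hDS)
  have hD : Nat.card D = Nat.card C * 2 := by
    rw [← hCi, Subgroup.relIndex, ← (C.subgroupOf D).card_mul_index,
      Nat.card_congr (Subgroup.subgroupOfEquivOfLe hCD).toEquiv]
  have hidx : ∀ U : Subgroup G, T ⊔ C ≤ U → x ∉ U → U.relIndex S = 2 := fun U hU hxU => by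
    have h3 : Nat.card T * Nat.card C ≤ Nat.card (U.subgroupOf S) := by
      rw [← Nat.card_prod]
      refine Nat.card_le_card_of_injective (fun a : T × C =>
        (⟨⟨a.1 * a.2, S.mul_mem (hTS a.1.2) (hDS (hCD a.2.2))⟩, U.mul_mem
          (hU (Subgroup.mem_sup_left a.1.2)) (hU (Subgroup.mem_sup_right a.2.2))⟩ : U.subgroupOf S))
        fun a b h => Subgroup.mul_injective_of_disjoint (disjoint_iff.mpr ?_)
          (congrArg (fun u : U.subgroupOf S => ((u : S) : G)) h)
      exact le_bot_iff.mp ((inf_le_inf_left _ hCD).trans ((inf_comm T D).le.trans hDT.le))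
    have h4 := (U.subgroupOf S).card_mul_index
    have h5 : (U.subgroupOf S).index ≠ 1 := fun h => hxU (Subgroup.relIndex_eq_one.mp h (hDS hxD))
    have h6 : (U.subgroupOf S).index ≠ 0 := Subgroup.FiniteIndex.index_ne_zero
    have h7 : 0 < Nat.card T * Nat.card C := Nat.mul_pos Nat.card_pos Nat.card_pos
    rw [← hTDc, hD, ← mul_assoc] at h4
    have : (U.subgroupOf S).index ≤ 2 := by nlinarith
    rw [Subgroup.relIndex]
    omega
  have hSodd : Odd S.index := Nat.not_even_iff_odd.mp fun h => hSsyl h.two_dvd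
  have hout : ∀ y ∈ D, y ∉ C → y ∉ K := fun y hy hyC hyK => by
    obtain ⟨N, hNn, hN, hyN⟩ := CL.Transfer.thompson_transfer S (T ⊔ C) hSodd
      (hidx _ le_rfl fun h => h1 x hxD hxC (hinv x hxD hxC) 1 (by simpa using h)) y
      (hinv y hy hyC ▸ pow_orderOf_eq_one y) (h1 y hy hyC (hinv y hy hyC))
    exact hyN (CL.Transfer.pResidual_le_of_isPGroup_quotient (n := 2) N
      (IsPGroup.of_card (n := 1) hN) hyK)
  have hKS : K ⊔ S = ⊤ := CL.Transfer.pResidual_sup_eq_top S
    ((Nat.Prime.coprime_iff_not_dvd Nat.prime_two).mpr hSsyl)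
  have hH : (K ⊔ C).index = 2 := by
    have h3 := hidx (K ⊔ C) (sup_le_sup_right hTK _) fun h => by
      obtain ⟨k, hk, c, hc, rfl⟩ := Subgroup.mem_sup_of_normal_left.mp h
      exact hout k ((D.mul_mem_cancel_right (hCD hc)).mp hxD)
        (fun h => hxC (C.mul_mem h hc)) hk
    obtain ⟨a, ha⟩ := Subgroup.index_eq_two_iff.mp h3
    refine Subgroup.index_eq_two_iff.mpr ⟨a, fun b => ?_⟩
    obtain ⟨k, hk, s, hs, rfl⟩ := Subgroup.mem_sup_of_normal_left.mp (hKS.ge (Subgroup.mem_top b))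
    rw [mul_assoc, Subgroup.mul_mem_cancel_left _ (Subgroup.mem_sup_left hk),
      Subgroup.mul_mem_cancel_left _ (Subgroup.mem_sup_left hk)]
    exact ha ⟨s, hs⟩
  obtain ⟨y, rfl⟩ := (Subgroup.isCyclic_iff_exists_zpowers_eq_top C).mp hC
  obtain ⟨k, hk⟩ := IsPGroup.iff_card.mp (hS2.to_le (hCD.trans hDS))
  rw [Nat.card_zpowers] at hk hD
  have hodd : ¬ 2 ∣ T.relIndex K := by
    refine CL.Transfer.not_two_dvd_relIndex_of_cyclic hTK (CL.Transfer.pResidual_pResidual 2) hSodd k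
      (K ⊔ Subgroup.zpowers y) y le_sup_left (Subgroup.mem_sup_right (Subgroup.mem_zpowers y)) hk
      ?_ fun i g hg => ?_
    · have h3 := Subgroup.relIndex_mul_index (hTK.trans (le_sup_left : K ≤ K ⊔ Subgroup.zpowers y))
      have h4 := T.card_mul_index
      rw [← S.card_mul_index, ← hTDc, mul_assoc] at h4
      rw [hH, Nat.eq_of_mul_eq_mul_left Nat.card_pos h4, hD, hk, mul_right_comm] at h3
      exact Nat.eq_of_mul_eq_mul_right two_pos h3
    · by_contra hne
      obtain ⟨j, hj⟩ := (Nat.dvd_prime_pow Nat.prime_two).mp (hk ▸ orderOf_pow_dvd (x := y) i)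
      obtain ⟨j, rfl⟩ : ∃ j', j = j' + 1 := ⟨j - 1, by
        rcases j with _ | j
        · exact absurd (orderOf_eq_one_iff.mp hj.2) hne
        · rfl⟩
      refine h2 ((y ^ i) ^ 2 ^ j) (pow_mem (pow_mem (Subgroup.mem_zpowers y) _) _) ?_ g⁻¹ ?_
      · rw [orderOf_pow_of_dvd (by positivity) (hj.2 ▸ pow_dvd_pow 2 j.le_succ), hj.2, pow_succ,
          Nat.mul_div_cancel_left _ (by positivity)]
      · rw [← conj_pow, inv_inv]
        exact pow_mem hg _
  refine ⟨K, hKn, ?_, fun T' h3 h4 h5 => ⟨h3.trans hLK, ?_⟩⟩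
  · rw [← top_le_iff, ← hKS, ← hTD]
    exact sup_le le_sup_left (sup_le (hTK.trans le_sup_left) le_sup_right)
  · exact (CL.Grp.IsSylowIn.of_card_le ⟨hTK, hT2, hodd⟩ h4 (h3.trans hLK)
      (CL.Grp.IsSylowIn.card_eq ⟨hTL, hT2, hTsyl⟩ ⟨h3, h4, h5⟩).le).not_dvd

end Cfsg.Agent.S1924
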