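import Cfsg.Statements.S1935
import Cfsg.Agent.Loc.QOff2
import Cfsg.Agent.Loc.Offender1
import Cfsg.Agent.Loc.ElemAb

set_option autoImplicit false
open Cfsg

namespace Cfsg.Agent.S1935

open Subgroup CL.Loc CL.QOff
open scoped commutatorElement

theorem quad {Ω : Type*} [Group Ω] [Finite Ω] {p : ℕ} [Fact p.Prime] {V E : Subgroup Ω}
    (hV : IsElementaryAbelian p V) (hEV : E ≤ normalizer (V : Set Ω)) (hf : E ⊓ centralizer (V : Set Ω) = ⊥)
    (h0 : E ≠ ⊥) (hE : IsElementaryAbelian p E) (hc : Nat.card V ≤ offM V E) :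
    ∃ A ≤ E, A ≠ ⊥ ∧ Nat.card V ≤ offM V A ∧ A ≤ centralizer ((⁅V, A⁆ : Subgroup Ω) : Set Ω) := by
  obtain ⟨B, ⟨hB, hB0⟩, hm⟩ := Set.exists_max_image {B : Subgroup Ω | B ≤ E ∧ B ≠ ⊥} (offM V) (Set.toFinite _)
    ⟨E, le_rfl, h0⟩
  have hVB := hc.trans (hm E ⟨le_rfl, h0⟩)
  have hb : IsBestOffenderOn p V B := ⟨fun C hC => by
      rcases eq_or_ne C ⊥ with rfl | e
      exacts [(offM_bot V).le.trans hVB, hm C ⟨hC.trans hB, e⟩],
    (ea_commutator_eq_bot hE hB hB).le.trans bot_le, fun a ha => ea_pow hE (hB ha) ▸ one_mem _⟩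
  obtain ⟨h1, -, -, h2⟩ := timmesfeld_replacement hV (hB.trans hEV) hb le_rfl
  refine ⟨_, inf_le_left.trans hB, fun e => h2 (fun e' => hB0 (eq_bot_iff.2 (hf ▸ le_inf hB ?_))) ?_, h1 ▸ hVB,
    inf_le_right.trans (centralizer_le (commutator_mono le_rfl inf_le_left))⟩
  · rwa [commutator_comm, commutator_eq_bot_iff_le_centralizer] at e'
  · rw [e, commutator_bot_right]

/-- Let p ≥ 5 be a prime and, inside an ambient finite group, let G be a p-subgroup acting faithfully by conjugation on an elementary abelian p-subgroup V that it normalizes (only the identity of G centralizes V). Suppose V is an F-module for G: some nontrivial elementary abelian subgroup E of G satisfies #E · #C_V(E) ≥ #V. Then G contains such an offender A that moreover acts quadratically on V ([V, A, A] = 1) and is normal in its normal closure in G. -/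
theorem result {Ω : Type*} [Group Ω] [Finite Ω] (p : ℕ) [Fact p.Prime] (hp : 5 ≤ p) (V G : Subgroup Ω) (hV : Cfsg.IsElementaryAbelian p V) (hG : IsPGroup p ↥G) (hGV : G ≤ Subgroup.normalizer (V : Set Ω)) (hfaith : G ⊓ Subgroup.centralizer (V : Set Ω) = ⊥) (hF : ∃ E : Subgroup Ω, E ≤ G ∧ E ≠ ⊥ ∧ Cfsg.IsElementaryAbelian p E ∧ Nat.card ↥V ≤ Nat.card ↥E * Nat.card ↥(V ⊓ Subgroup.centralizer (E : Set Ω))) : ∃ A : Subgroup Ω, A ≤ G ∧ A ≠ ⊥ ∧ Cfsg.IsElementaryAbelian p A ∧ Nat.card ↥V ≤ Nat.card ↥A * Nat.card ↥(V ⊓ Subgroup.centralizer (A : Set Ω)) ∧ ⁅⁅V, A⁆, A⁆ = ⊥ ∧ ∀ g ∈ Subgroup.closure {x : Ω | ∃ h ∈ G, ∃ a ∈ A, x = h * a * h⁻¹}, ∀ a ∈ A, g * a * g⁻¹ ∈ A := by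
  obtain ⟨E, hEG, hE0, hE, hc⟩ := hF
  obtain ⟨B, hBE, hB0, hBc, hBq⟩ := quad hV (hEG.trans hGV) (eq_bot_iff.2 (hfaith ▸ inf_le_inf_right _ hEG)) hE0 hE hc
  have hBG := hBE.trans hEG
  let ρ : G →* Module.End (ZMod p) (EAMod hV) :=
    LinearEquiv.automorphismGroup.toLinearMapMonoidHom.comp (conjRepOf hV hGV)
  have inj : Function.Injective ρ := fun a b e => conjRepOf_injective hV hGV hfaith (LinearEquiv.toLinearMap_injective e)
  have val : ∀ (g : G) (v : EAMod hV), ((ρ g - 1) v).val = ⁅(g : Ω), v.val⁆ := fun g v =>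
    val_conjRep_sub hV ⟨g, hGV g.2⟩ v
  have zer : ∀ (g : G) (v : EAMod hV), (ρ g - 1) v = 0 ↔ (g : Ω) * v.val = v.val * g := fun g v => by
    rw [← EAMod.val_eq_one, val, commutatorElement_eq_one_iff_mul_comm]
  have hpR : ∀ x : Module.End (ZMod p) (EAMod hV), p • x = 0 := fun x => by
    rw [← Nat.cast_smul_eq_nsmul (ZMod p), ZMod.natCast_self, zero_smul]
  obtain ⟨m, hm⟩ := (Fact.out : p.Prime).odd_of_ne_two (by omega)
  have hm' : ∀ x : Module.End (ZMod p) (EAMod hV), (m + 1) • (x + x) = x := fun x => by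
    rw [← two_nsmul, ← mul_nsmul, show 2 * (m + 1) = p + 1 by omega, succ_nsmul, hpR, zero_add]
  have : Finite (Module.End (ZMod p) (EAMod hV)) := Finite.of_injective _ DFunLike.coe_injective
  have := hG.isNilpotent
  have hP := (hG.to_sup_of_normal_right' (ea_isPGroup hV) hGV).isNilpotent
  let Z : ℕ → Subgroup Ω := fun k => (Subgroup.upperCentralSeries ↥(G ⊔ V) k).map (G ⊔ V).subtype
  have Zm : Monotone Z := fun i j h => map_mono (Subgroup.upperCentralSeries_mono _ h)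
  have Zs : ∀ (g : G) k (v : EAMod hV), v.val ∈ Z (k + 1) → ((ρ g - 1) v).val ∈ Z k := by
    rintro g k v ⟨x, hx, e⟩
    rw [val, ← commutatorElement_inv, ← e]
    exact inv_mem ⟨_, Subgroup.mem_upperCentralSeries_succ_iff.1 hx ⟨g, mem_sup_left g.2⟩, rfl⟩
  let F : ℕ → AddSubgroup (Module.End (ZMod p) (EAMod hV)) := fun k =>
    { carrier := {x | ∀ i (v : EAMod hV), v.val ∈ Z (i + k) → (x v).val ∈ Z i}
      zero_mem' := fun i v _ => one_mem _
      add_mem' := fun h h' i v hv => mul_mem (h i v hv) (h' i v hv)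
      neg_mem' := fun h i v hv => inv_mem (h i v hv) }
  have hQ : ∀ a ∈ B.subgroupOf G, ∀ b ∈ B.subgroupOf G, (ρ a - 1) * (ρ b - 1) = 0 := fun a ha b hb =>
    LinearMap.ext fun v => (zer a _).2 (by
      rw [val, ← commutatorElement_inv]
      exact (hBq ha _ (inv_mem (commutator_mem_commutator (EAMod.val_mem hV v) hb))).symm)
  have cS : ∀ (A : Subgroup G) (S : AddSubgroup (Module.End (ZMod p) (EAMod hV))), (∀ g, g ∈ A ↔ ρ g - 1 ∈ S) →
      (∀ x ∈ S, ∃ g, ρ g - 1 = x) → Nat.card S = Nat.card (A.map G.subtype) ∧ Nat.card (ann (EAMod hV) S) =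
        Nat.card (V ⊓ centralizer ((A.map G.subtype : Subgroup Ω) : Set Ω) :) := fun A S h h' => by
    constructor
    · rw [card_map_of_injective G.subtype_injective]
      exact (Nat.card_eq_of_bijective (fun g : A => (⟨ρ g - 1, (h g).1 g.2⟩ : S)) ⟨fun a b e =>
        Subtype.ext (inj (sub_left_injective (congrArg Subtype.val e))), fun x => by
          obtain ⟨g, e⟩ := h' x x.2
          exact ⟨⟨g, (h g).2 (e ▸ x.2)⟩, Subtype.ext e⟩⟩).symm
    · rw [← EAMod.card_sub hV inf_le_left]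
      refine Nat.card_congr (Equiv.subtypeEquivRight fun v => ⟨fun e => ⟨EAMod.val_mem hV v, ?_⟩, fun e s hs => ?_⟩)
      · rintro _ ⟨g, hg, rfl⟩
        exact (zer g v).1 (e _ ((h g).1 hg))
      · obtain ⟨g, rfl⟩ := h' s hs
        exact (zer g v).2 (e.2 _ ⟨g, (h g).2 hs, rfl⟩)
  obtain ⟨S, hS, hSG, c1, c2, hN⟩ := main (ρ := ρ) hm' (EAMod hV) (F := F) (n := Group.nilpotencyClass ↥(G ⊔ V))
    (fun g k x hx => ⟨fun i v hv => Zs g i _ (hx (i + 1) v (by rwa [add_assoc, add_comm 1])),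
      fun i v hv => hx i _ (Zs g _ v hv)⟩)
    (fun i j h x hx k v hv => hx k v (Zm (by omega) hv))
    (eq_bot_iff.2 fun x hx => LinearMap.ext fun v => (EAMod.val_eq_one hV).1 (by
      have := hx 0 v ⟨⟨v.val, mem_sup_right (EAMod.val_mem hV v)⟩, by
        rw [zero_add, Subgroup.upperCentralSeries_nilpotencyClass]; trivial, rfl⟩
      simpa [Z] using this))
    (fun g i v hv => Zs g i v (Zm (Nat.le_succ _) hv)) (sg ρ _ hQ)
    (by rintro _ ⟨a, ha, rfl⟩ _ ⟨b, hb, rfl⟩; exact hQ a ha b hb) fun x ⟨a, _, e⟩ => ⟨a, e⟩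
  obtain ⟨d1, d2⟩ := cS (B.subgroupOf G) (sg ρ _ hQ)
    (fun g => ⟨fun h => ⟨g, h, rfl⟩, fun ⟨a, ha, e⟩ => inj (sub_left_injective e) ▸ ha⟩) fun x ⟨a, _, e⟩ => ⟨a, e⟩
  obtain ⟨d3, d4⟩ := cS (gs ρ S hS) S (fun g => Iff.rfl) hSG
  rw [map_subgroupOf_eq_of_le hBG] at d1 d2
  rw [d1, d3] at c1
  rw [d2, d4] at c2
  refine ⟨(gs ρ S hS).map G.subtype, map_subtype_le _, fun e => hB0 ?_, ea_iff.2 ⟨?_, ?_⟩,
    hBc.trans (Nat.mul_le_mul c1 c2), ?_, fun g hg a ha => ?_⟩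
  · rwa [e, card_bot, card_le_one_iff_eq_bot] at c1
  · rintro _ ⟨a, ha, rfl⟩ _ ⟨b, hb, rfl⟩
    refine congrArg Subtype.val (inj (a₁ := a * b) (a₂ := b * a) ?_)
    rw [map_mul, map_mul]
    linear_combination (norm := noncomm_ring) hS _ ha _ hb - hS _ hb _ ha
  · rintro _ ⟨a, ha, rfl⟩
    have h1 : ∀ n : ℕ, ρ a ^ n = 1 + n • (ρ a - 1) := fun n => by
      induction n with
      | zero => simp
      | succ n ih =>
        rw [pow_succ, ih, succ_nsmul]
        linear_combination (norm := noncomm_ring) hS _ (S.nsmul_mem ha n) _ ha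
    refine congrArg Subtype.val (inj (a₁ := a ^ p) (a₂ := 1) ?_)
    rw [map_pow, h1, hpR, add_zero, map_one]
  · refine commutator_eq_bot_iff_le_centralizer.2 (commutator_le.2 ?_)
    rintro v hv _ ⟨a, ha, rfl⟩ _ ⟨b, hb, rfl⟩
    have h1 := (zer b _).1 (LinearMap.congr_fun (hS _ hb _ ha) (EAMod.mk hV v hv))
    rw [val, ← commutatorElement_inv] at h1
    exact (Commute.inv_right_iff.1 h1).eq
  · refine (mem_normalizer_iff.1 ((closure_le _).2 ?_ hg) a).1 ha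
    rintro _ ⟨h, hh, _, ⟨a, ha, rfl⟩, rfl⟩
    exact le_normalizer_map _ ⟨_, hN ⟨h, hh⟩ a ha, rfl⟩

end Cfsg.Agent.S1935
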