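import Cfsg.Statements.S1939
import Cfsg.Agent.Even.Amb2

set_option autoImplicit false
open Cfsg

namespace Cfsg.Agent.S1939

/-- Let S be a Sylow p-subgroup of the finite group G and a an element of S that is the only G-conjugate of a lying in S. Then every power of a has the same property: for every n, the only G-conjugate of a^n lying in S is a^n. -/
theorem result {G : Type*} [Group G] [Finite G] {p : ℕ} [Fact p.Prime] (S : Sylow p G) (a : G)
    (haS : a ∈ (S : Subgroup G)) (hwc : ∀ g : G, g * a * g⁻¹ ∈ (S : Subgroup G) → g * a * g⁻¹ = a) (n : ℕ) :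
    ∀ g : G, g * a ^ n * g⁻¹ ∈ (S : Subgroup G) → g * a ^ n * g⁻¹ = a ^ n := by
  intro g hg
  have hc : ∀ s ∈ (S : Subgroup G), s * a = a * s := fun s hs => by
    have := hwc s (S.1.mul_mem (S.1.mul_mem hs haS) (S.1.inv_mem hs))
    rwa [mul_inv_eq_iff_eq_mul] at this
  have hz : IsPGroup p (Subgroup.zpowers a) := S.isPGroup'.to_le (Subgroup.zpowers_le.mpr haS)
  obtain ⟨T, hT, haT⟩ := CL.Grp.exists_isSylowIn_ge (H := Subgroup.centralizer {g * a ^ n * g⁻¹}) hz
    (Subgroup.zpowers_le.mpr (Subgroup.mem_centralizer_singleton_iff.mpr (hc _ hg).symm))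
  obtain ⟨c, hcC, hcT⟩ := CL.Even.syl_conj_le hT (CL.Even.isPGroup_cj hz g) (by
    rw [MonoidHom.map_zpowers, Subgroup.zpowers_le, Subgroup.mem_centralizer_singleton_iff]
    change g * a * g⁻¹ * _ = _ * (g * a * g⁻¹)
    rw [← conj_pow]
    exact (Commute.self_pow _ n).eq)
  obtain ⟨h, hh⟩ := CL.Grp.exists_conj_le_sylow S hT.isPGroup
  have h1 := hwc h (hh (CL.Grp.conj_mem_conj_smul h (haT (Subgroup.mem_zpowers a))))
  have h2 := hwc (h * c * g) (by
    have := hh (CL.Grp.conj_mem_conj_smul h (hcT (CL.Even.conj_mem_cj c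
      (CL.Even.conj_mem_cj g (Subgroup.mem_zpowers a)))))
    simpa [mul_assoc] using this)
  have h3 : c * (g * a * g⁻¹) * c⁻¹ = a := by
    calc _ = h⁻¹ * (h * c * g * a * (h * c * g)⁻¹) * h := by group
      _ = h⁻¹ * (h * a * h⁻¹) * h := by rw [h2, h1]
      _ = a := by group
  have h4 := congrArg (· ^ n) h3
  simp only [conj_pow] at h4
  rwa [Subgroup.mem_centralizer_singleton_iff.mp hcC, mul_inv_cancel_right] at h4

end Cfsg.Agent.S1939
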