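import Cfsg.Statements.S1940
import Cfsg.Agent.Base

set_option autoImplicit false
open Cfsg

namespace Cfsg.Agent.S1940
open scoped Pointwise commutatorElement

/-- Let the finite group L act by automorphisms on the finite abelian group M, and let N be an L-invariant subgroup of M such that M/N is a p-group on which L acts trivially (every l • m lies in the coset mN). If every element of M is a product of an element of N and an element fixed by a Sylow p-subgroup T of L, then every element of M is a product of an element of N and an element fixed by all of L. -/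
theorem result {L : Type*} [Group L] [Finite L] {M : Type*} [CommGroup M] [Finite M] [MulDistribMulAction L M]
    {p : ℕ} [Fact p.Prime] (N : Subgroup M) (hN : ∀ (l : L) (m : M), m ∈ N → l • m ∈ N)
    (hquot : IsPGroup p (M ⧸ N)) (htriv : ∀ (l : L) (m : M), (l • m) * m⁻¹ ∈ N) (T : Sylow p L)
    (hT : ∀ m : M, ∃ n ∈ N, ∃ c : M, (∀ t ∈ (T : Subgroup L), t • c = c) ∧ m = n * c) :
    ∀ m : M, ∃ n ∈ N, ∃ c : M, (∀ l : L, l • c = c) ∧ m = n * c := by
  classical
  intro m
  have : Fintype (L ⧸ (T : Subgroup L)) := Fintype.ofFinite _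
  set k := (T : Subgroup L).index with hk
  have hco : (Nat.card (M ⧸ N)).Coprime k := by
    obtain ⟨j, hj⟩ := hquot.exists_card_eq
    rw [hj]
    exact Nat.Coprime.pow_left _ ((Nat.Prime.coprime_iff_not_dvd Fact.out).mpr T.not_dvd_index)
  obtain ⟨mb, hmb⟩ := (powCoprime hco).surjective (m : M ⧸ N)
  obtain ⟨m', rfl⟩ := QuotientGroup.mk_surjective mb
  obtain ⟨n, hn, c, hc, rfl⟩ := hT m'
  let F : L ⧸ (T : Subgroup L) → M := Quotient.lift (fun l : L => l • c) (by
    intro a b hab
    have h1 := hc _ (QuotientGroup.leftRel_apply.mp hab)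
    rw [mul_smul, inv_smul_eq_iff] at h1
    exact h1.symm)
  have hF : ∀ (l : L) (q : L ⧸ (T : Subgroup L)), l • F q = F (l • q) := by
    intro l q
    obtain ⟨a, rfl⟩ := QuotientGroup.mk_surjective q
    exact (mul_smul l a c).symm
  have hF2 : ∀ q : L ⧸ (T : Subgroup L), (F q : M ⧸ N) = (c : M ⧸ N) := by
    intro q
    obtain ⟨a, rfl⟩ := QuotientGroup.mk_surjective q
    rw [eq_comm, QuotientGroup.eq, mul_comm]
    exact htriv a c
  refine ⟨m * (∏ q, F q)⁻¹, ?_, ∏ q, F q, fun l => ?_, by group⟩
  · rw [mul_comm, ← QuotientGroup.eq, ← hmb, powCoprime_apply, ← QuotientGroup.mk'_apply, map_prod]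
    simp only [QuotientGroup.mk'_apply, hF2, Finset.prod_const, Finset.card_univ]
    rw [QuotientGroup.mk_mul, (QuotientGroup.eq_one_iff n).mpr hn, one_mul, hk,
      Subgroup.index_eq_card, Nat.card_eq_fintype_card]
  · rw [Finset.smul_prod']
    simp only [hF]
    exact Equiv.prod_comp (MulAction.toPerm l) F

end Cfsg.Agent.S1940
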