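import Cfsg.Statements.S1941
import Cfsg.Agent.Loc.FStar

set_option autoImplicit false
open Cfsg

namespace Cfsg.Agent.S1941
open scoped Pointwise commutatorElement

open Cfsg Subgroup CL.Grp CL.Loc

/-- Let G be a finite group with no nontrivial normal subgroup of order prime to p, T a Sylow p-subgroup of G and E(G) the layer of G (the subgroup generated by its components). An automorphism of G of p-power order that fixes T and E(G) elementwise is inner. -/
theorem result {G : Type*} [Group G] [Finite G] {p : ℕ} [Fact p.Prime] (hcore : Cfsg.pPrimeCore p G = ⊥)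
    (T : Sylow p G) (α : MulAut G) (hα : ∃ j : ℕ, orderOf α = p ^ j) (hfixT : ∀ x ∈ (T : Subgroup G), α x = x)
    (hfixE : ∀ x ∈ Cfsg.layer G, α x = x) : ∃ g : G, ∀ x : G, α x = g * x * g⁻¹ := by
  classical
  set Z : Subgroup G := centralizer (generalizedFittingSubgroup G : Set G) with hZ
  have hF : generalizedFittingSubgroup G = layer G ⊔ pCore p G := fstar_eq_layer_sup_pCore hcore
  have hfix : ∀ x ∈ generalizedFittingSubgroup G, α x = x := by
    intro x hx
    rw [hF] at hx
    have : layer G ⊔ pCore p G ≤ MonoidHom.eqLocus α.toMonoidHom (MonoidHom.id G) :=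
      sup_le (fun y hy => hfixE y hy) fun y hy => hfixT y (pCore_le_sylow T hy)
    exact this hx
  have hZP : Z ≤ pCore p G := by
    refine le_pCore_of_centralizes hcore ?_ ?_ <;> rw [commutator_eq_bot_iff_le_centralizer]
    · exact centralizer_le (pCore_le_fstar p)
    · exact centralizer_le layer_le_fstar
  have hZp : IsPGroup p Z := (pCore_isPGroup p G).to_le hZP
  have hZn : Z.Normal := inferInstance
  have hcomm : IsMulCommutative Z := ⟨⟨fun a b => Subtype.ext
    (mem_centralizer_iff.mp b.2 a (centralizer_fstar_le a.2))⟩⟩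
  letI : CommGroup Z := { (inferInstance : Group Z) with mul_comm := hcomm.is_comm.comm }
  have hmem : ∀ g : G, α g * g⁻¹ ∈ Z := by
    intro g
    refine mem_centralizer_iff.mpr fun x hx => ?_
    have h1 : g⁻¹ * x * g ∈ generalizedFittingSubgroup G := by
      simpa using (fstar_normal (G := G)).conj_mem x hx g⁻¹
    have h2 := hfix _ h1
    rw [map_mul, map_mul, map_inv, hfix x hx] at h2
    calc x * (α g * g⁻¹) = α g * ((α g)⁻¹ * x * α g) * g⁻¹ := by group
      _ = α g * g⁻¹ * x := by rw [h2]; group
  let c : G → Z := fun g => ⟨α g * g⁻¹, hmem g⟩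
  have hc : ∀ g h : G, c (g * h) = c g * MulAut.conjNormal g (c h) := by
    intro g h
    have h1 : c g * MulAut.conjNormal g (c h) = MulAut.conjNormal g (c h) * c g := mul_comm _ _
    apply Subtype.ext
    have h2 : α g * (α h * h⁻¹) * (α g)⁻¹ = α h * h⁻¹ → True := fun _ => trivial
    simp only [c, coe_mul, MulAut.conjNormal_apply, map_mul]
    group
  have : Fintype (G ⧸ (T : Subgroup G)) := Fintype.ofFinite _
  let F : G ⧸ (T : Subgroup G) → Z := Quotient.lift c (by
    intro a b hab
    have h1 := hfixT _ (QuotientGroup.leftRel_apply.mp hab)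
    apply Subtype.ext
    simp only [c]
    rw [map_mul, map_inv, inv_mul_eq_iff_eq_mul] at h1
    rw [h1]; group)
  have hFs : ∀ (g : G) (q : G ⧸ (T : Subgroup G)), F (g • q) = c g * MulAut.conjNormal g (F q) := by
    intro g q
    obtain ⟨a, rfl⟩ := QuotientGroup.mk_surjective q
    exact hc g a
  set n := (T : Subgroup G).index with hn
  have hb : ∀ g : G, ∏ q, F q = c g ^ n * MulAut.conjNormal g (∏ q, F q) := by
    intro g
    rw [map_prod, ← Equiv.prod_comp (MulAction.toPerm g) F]
    simp only [MulAction.toPerm_apply, hFs, Finset.prod_mul_distrib, Finset.prod_const, Finset.card_univ]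
    rw [hn, index_eq_card, Nat.card_eq_fintype_card]
  have hco : (Nat.card Z).Coprime n := by
    obtain ⟨j, hj⟩ := hZp.exists_card_eq
    rw [hj]
    exact Nat.Coprime.pow_left _ ((Nat.Prime.coprime_iff_not_dvd Fact.out).mpr T.not_dvd_index)
  obtain ⟨z, hz⟩ := (powCoprime hco).surjective (∏ q, F q)
  rw [powCoprime_apply] at hz
  refine ⟨z, fun g => ?_⟩
  have h1 : z = c g * MulAut.conjNormal g z := by
    apply (powCoprime hco).injective
    rw [powCoprime_apply, powCoprime_apply, mul_pow, ← map_pow, hz]
    exact hb g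
  have h2 := congrArg Subtype.val h1
  have h3 : (z : G) * (α g * g⁻¹) = α g * g⁻¹ * z := congrArg Subtype.val (mul_comm z (c g))
  simp only [c, coe_mul, MulAut.conjNormal_apply] at h2
  calc α g = (α g * g⁻¹ * (g * z * g⁻¹)) * g * (z : G)⁻¹ := by group
    _ = z * g * (z : G)⁻¹ := by rw [← h2]

end Cfsg.Agent.S1941
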