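import Cfsg.Statements.S1946
import Cfsg.Agent.Loc.FusMisc

set_option autoImplicit false
open Cfsg

namespace Cfsg.Agent.S1946

/-- Let P be a Sylow p-subgroup of the finite group G. Then G has a normal p-complement if and only if P controls the fusion of its elements of order dividing p (dividing 4 when p = 2): whenever such an element a of P has a G-conjugate g a g⁻¹ in P, that conjugate is already x a x⁻¹ for some x in P. -/
theorem result {G : Type*} [Group G] [Finite G] {p : ℕ} [Fact p.Prime] (P : Sylow p G) :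
    Cfsg.HasNormalPComplement p G ↔
      ∀ a ∈ (P : Subgroup G), (a ^ p = 1 ∨ (p = 2 ∧ a ^ 4 = 1)) → ∀ g : G, g * a * g⁻¹ ∈ (P : Subgroup G) →
        ∃ x ∈ (P : Subgroup G), g * a * g⁻¹ = x * a * x⁻¹ := by
  constructor
  · intro h a ha _ g hg
    obtain ⟨u, hu, h1⟩ := CL.Grp.HasNormalPComplement.controls_fusion h P g⁻¹
    refine ⟨u⁻¹, inv_mem hu, ?_⟩
    simpa using h1 a ha (by rwa [inv_inv])
  · intro h
    refine CL.Loc.hasNormalPComplement_of_exponent P fun K hK hexp g hg hco => ?_
    obtain ⟨n, hn⟩ := CL.Loc.exists_le_map_upperCentralSeries P.isPGroup'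
    refine CL.Loc.mem_cent_of_stab_chain (P.isPGroup'.to_le hK) hg hco
      (fun i => (Subgroup.upperCentralSeries (P : Subgroup G) i).map (P : Subgroup G).subtype)
      (by simp) (hK.trans hn)
      fun i a ha ha' => ?_
    obtain ⟨x, hx, e⟩ := h a⁻¹ (hK (inv_mem ha)) (hexp _ (inv_mem ha)) g
      (hK (CL.Even.conj_mem hg (inv_mem ha)))
    have h1 := CL.Loc.commutatorElement_mem_map_upperCentralSeries ha' hx
    rw [commutatorElement_def] at h1 ⊢
    rwa [mul_assoc, mul_assoc, ← mul_assoc g, e, ← mul_assoc, ← mul_assoc]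

end Cfsg.Agent.S1946
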