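import Cfsg.Statements.S1948
import Cfsg.Agent.Loc.PConstr
import Cfsg.Agent.Even.Amb2

set_option autoImplicit false
open Cfsg

namespace Cfsg.Agent.S1948

/-- Let S be a Sylow p-subgroup of the finite group G. Then G = N_G(S)·O_{p'}(G) if and only if G is p-constrained and N_G(S) controls fusion in S, in the sense that whenever a subgroup Q of S has a conjugate g Q g⁻¹ inside S, the element g is a product n c with n normalizing S and c centralizing Q. -/
theorem result {G : Type*} [Group G] [Finite G] {p : ℕ} [Fact p.Prime] (S : Sylow p G) :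
    Subgroup.normalizer ((S : Subgroup G) : Set G) ⊔ Cfsg.pPrimeCore p G = ⊤ ↔
      (Cfsg.IsPConstrained p G ∧
        ∀ Q : Subgroup G, Q ≤ (S : Subgroup G) → ∀ g : G, Q.map (MulAut.conj g).toMonoidHom ≤ (S : Subgroup G) →
          ∃ n ∈ Subgroup.normalizer ((S : Subgroup G) : Set G), ∃ c ∈ Subgroup.centralizer (Q : Set G), g = n * c) := by
  have hD := CL.Grp.pPrimeCore_coprime p G
  constructor
  · intro h
    refine ⟨CL.Loc.isPConstrained_of_isPSolvable ?_, fun Q hQ g hg => ?_⟩
    · have h1 : ((S : Subgroup G) ⊔ Cfsg.pPrimeCore p G).Normal := by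
        rw [← Subgroup.normalizer_eq_top_iff, eq_top_iff, ← h]
        exact sup_le (CL.Even.le_norm_sup le_rfl Subgroup.le_normalizer_of_normal)
          (le_sup_right.trans Subgroup.le_normalizer)
      refine CL.Loc.isPSolvable_of_normal ((S : Subgroup G) ⊔ Cfsg.pPrimeCore p G)
        (CL.Loc.isPSolvable_sup (CL.Loc.isPSolvable_of_isPGroup S.isPGroup')
          (CL.Loc.isPSolvable_of_coprime hD) Subgroup.le_normalizer_of_normal)
        (CL.Loc.isPSolvable_of_not_dvd fun h2 => S.not_dvd_index (h2.trans ?_))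
      exact Subgroup.index_dvd_of_le le_sup_left
    · obtain ⟨n, hn, d, hd, rfl⟩ := (CL.Even.mem_sup_nr Subgroup.le_normalizer_of_normal).mp
        (h.ge (Subgroup.mem_top g))
      refine ⟨n, hn, d, fun q hq => ?_, rfl⟩
      have h1 : d * q * d⁻¹ ∈ (S : Subgroup G) := by
        have := CL.Even.conj_mem' hn (hg (CL.Even.conj_mem_cj (n * d) hq))
        convert this using 1
        group
      have h2 : d * q * d⁻¹ * q⁻¹ ∈ (S : Subgroup G) ⊓ Cfsg.pPrimeCore p G := by
        refine ⟨S.1.mul_mem h1 (S.1.inv_mem (hQ hq)), ?_⟩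
        rw [mul_assoc, mul_assoc, ← mul_assoc q]
        exact Subgroup.mul_mem _ hd (Subgroup.Normal.conj_mem inferInstance _ (inv_mem hd) q)
      rw [CL.Grp.inf_pPrimeCore_eq_bot S.isPGroup', Subgroup.mem_bot, mul_inv_eq_one,
        mul_inv_eq_iff_eq_mul] at h2
      exact h2.symm
  · rintro ⟨h1, h2⟩
    have hS := CL.Grp.isSylowIn_inf_normal S (Cfsg.pPrimePCore p G)
    have h3 := CL.Loc.pPrimeCore_sup_eq_of_isSylowIn hS
    have h4 : Cfsg.pPrimePCore p G ≤
        Subgroup.normalizer ((S : Subgroup G) : Set G) ⊔ Cfsg.pPrimeCore p G :=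
      h3.ge.trans (sup_le_sup_right (inf_le_left.trans Subgroup.le_normalizer) _)
    rw [eq_top_iff, ← CL.Even.frattini_sup hS le_top Subgroup.le_normalizer_of_normal]
    refine sup_le (fun g hg => ?_) h4
    obtain ⟨n, hn, c, hc, rfl⟩ := h2 _ inf_le_left g ((CL.Even.cj_eq hg.2).le.trans inf_le_left)
    exact Subgroup.mul_mem _ (Subgroup.mem_sup_left hn)
      (h4 ((CL.Loc.isPConstrained_iff_of_isSylowIn hS).mp h1 hc))

end Cfsg.Agent.S1948
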