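import Cfsg.Statements.S1949
import Cfsg.Agent.Grp.PGroupCritical
import Cfsg.Agent.Grp.PNilp

set_option autoImplicit false
open Cfsg

namespace Cfsg.Agent.S1949

/-- Let P be a finite p-group and G a group of automorphisms of P containing the inner automorphisms. Then there is a G-invariant subgroup D of P, contained in the subgroup generated by the elements x⁻¹α(x) with x in P and α in O^p(G), of exponent dividing p when p is odd and dividing 4 when p = 2, with [D, P] ≤ Z(D), such that every automorphism in G of order prime to p that fixes D elementwise is the identity; moreover every maximal abelian subgroup A of D is normal in P and every automorphism in G fixing A elementwise has p-power order. -/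
theorem result {P : Type*} [Group P] [Finite P] {p : ℕ} [Fact p.Prime] (hP : IsPGroup p P)
    (G : Subgroup (MulAut P)) (hG : Cfsg.Inn P ≤ G) :
    ∃ D : Subgroup P,
      (∀ α ∈ G, D.map α.toMonoidHom = D) ∧
      D ≤ Subgroup.closure {y : P | ∃ α ∈ Cfsg.pResidual p ↥G, ∃ x : P, y = x⁻¹ * (α : MulAut P) x} ∧
      (∀ d ∈ D, d ^ p = 1 ∨ (p = 2 ∧ d ^ 4 = 1)) ∧
      ⁅D, (⊤ : Subgroup P)⁆ ≤ D ⊓ Subgroup.centralizer (D : Set P) ∧
      (∀ α ∈ G, (orderOf α).Coprime p → (∀ d ∈ D, α d = d) → α = 1) ∧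
      ∀ A : Subgroup P, A ≤ D → IsMulCommutative ↥A →
        (∀ B : Subgroup P, A ≤ B → B ≤ D → IsMulCommutative ↥B → B = A) →
        A.Normal ∧ ∀ α ∈ G, (∀ a ∈ A, α a = a) → ∃ k : ℕ, orderOf α = p ^ k := by
  set Q := Subgroup.closure {y : P | ∃ α ∈ Cfsg.pResidual p ↥G, ∃ x : P, y = x⁻¹ * (α : MulAut P) x}
    with hQ
  have hQi : ∀ β ∈ G, ∀ x ∈ Q, β x ∈ Q := by
    intro β hβ
    have : Q.map β.toMonoidHom ≤ Q := by
      rw [hQ, MonoidHom.map_closure, Subgroup.closure_le]
      rintro _ ⟨_, ⟨α, hα, x, rfl⟩, rfl⟩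
      refine Subgroup.subset_closure ⟨⟨β, hβ⟩ * α * ⟨β, hβ⟩⁻¹,
        (CL.Grp.pResidual_normal p G).conj_mem α hα _, β x, ?_⟩
      simp
    exact fun x hx => this ⟨x, hx, rfl⟩
  obtain ⟨D, h1, h2, h3, h4, -, h5⟩ := CL.Grp.exists_critical_omega_invariant hP G
    (fun g => hG ⟨g, rfl⟩) Q hQi
  have h6 : ∀ α ∈ G, (orderOf α).Coprime p → (∀ d ∈ D, α d = d) → α = 1 := fun α hα hc hf =>
    CL.Grp.mulAut_eq_one_of_fix_of_fix_cosets (hP.to_subgroup Q) hc (h5 α hα hc hf) fun g =>
      Subgroup.subset_closure ⟨⟨α, hα⟩, CL.Grp.mem_pResidual_of_coprime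
        (by rwa [← Subgroup.orderOf_coe]), g, rfl⟩
  refine ⟨D, fun α hα => le_antisymm ?_ fun x hx => ⟨α⁻¹ x, h2 _ (inv_mem hα) x hx, by simp⟩,
    h1, h3, h4, h6, fun A hAD hA hmax => ?_⟩
  · rintro _ ⟨x, hx, rfl⟩
    exact h2 α hα x hx
  · have hC : D ⊓ Subgroup.centralizer (A : Set P) ≤ A := fun x hx => by
      have := hmax (A ⊔ Subgroup.zpowers x) le_sup_left (sup_le hAD (Subgroup.zpowers_le.2 hx.1))
        (CL.Grp.isMulCommutative_sup hA inferInstance
          (Subgroup.le_centralizer_iff.1 (Subgroup.zpowers_le.2 hx.2)))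
      exact this ▸ (le_sup_right : Subgroup.zpowers x ≤ _) (Subgroup.mem_zpowers x)
    have hAn : A.Normal := Subgroup.commutator_top_right_le_iff.1
      (((Subgroup.commutator_mono hAD le_rfl).trans h4).trans ((inf_le_inf_left D
        (Subgroup.centralizer_le (SetLike.coe_subset_coe.2 hAD))).trans hC))
    refine ⟨hAn, fun α hα hf => CL.Grp.exists_orderOf_eq_pow_of_forall_coprime Fact.out
      fun k hk => h6 _ (pow_mem hα k) hk (CL.Grp.mulAut_fix_of_fix_selfCentralizing
        (hP.to_subgroup A) Subgroup.le_normalizer_of_normal hC hk (h2 _ (pow_mem hα k))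
        fun x hx => ?_)⟩
    have := CL.Grp.mulAut_pow_apply_of_fix (map_one α) ((hf x hx).trans (mul_one x).symm) k
    rwa [one_pow, mul_one] at this

end Cfsg.Agent.S1949
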