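import Cfsg.Statements.S1952
import Cfsg.Agent.Loc.ElemAb
import Cfsg.Agent.Transfer.Yoshida

set_option autoImplicit false
open Cfsg

namespace Cfsg.Agent.S1952

/-- Let P be a finite p-group with a normal elementary abelian subgroup A of index p, and let x ∈ A and y ∈ P with y outside A. If the product of the p conjugates y^(-i) x y^i (i = 0, …, p−1) is not the identity, then the wreath product Z_p ≀ Z_p, realised as a Sylow p-subgroup of the symmetric group of degree p², is a homomorphic image of P. -/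
theorem result {P : Type*} [Group P] [Finite P] {p : ℕ} [Fact p.Prime] (hP : IsPGroup p P) (A : Subgroup P) [A.Normal]
    (hA : Cfsg.IsElementaryAbelian p A) (hidx : A.index = p) (x y : P) (hx : x ∈ A) (hy : y ∉ A)
    (hprod : ((List.range p).map (fun i => (y ^ i)⁻¹ * x * y ^ i)).prod ≠ 1) :
    ∃ (Q : Sylow p (Equiv.Perm (Fin (p ^ 2)))) (f : P →* ↥(Q : Subgroup (Equiv.Perm (Fin (p ^ 2))))), Function.Surjective f := by
  have hm : ∀ i : ℕ, (y ^ i)⁻¹ * x * y ^ i ∈ A := fun i => by
    simpa using Subgroup.Normal.conj_mem inferInstance x hx (y ^ i)⁻¹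
  have key : ∀ (μ : A →* Multiplicative (ZMod p)) (n : ℕ),
      ((List.range n).map (fun i => (y ^ i)⁻¹ * x * y ^ i)).prod ∈ A ∧
      CL.Transfer.extOne μ ((List.range n).map (fun i => (y ^ i)⁻¹ * x * y ^ i)).prod =
        ∏ i ∈ Finset.range n, CL.Transfer.extOne μ ((y ^ i)⁻¹ * x * y ^ i) := by
    intro μ n
    induction n with
    | zero => simp [CL.Transfer.extOne_one]
    | succ n ih =>
      rw [List.range_succ, List.map_append, List.prod_append, Finset.prod_range_succ, ← ih.2]
      simp only [List.map_cons, List.map_nil, List.prod_cons, List.prod_nil, mul_one]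
      exact ⟨mul_mem ih.1 (hm n), CL.Transfer.extOne_mul μ ih.1 (hm n)⟩
  have hv := (key 1 p).1
  have hne : CL.Loc.EAMod.mk hA _ hv ≠ 0 := fun h => hprod ((CL.Loc.EAMod.val_eq_one hA).2 h)
  obtain ⟨l, hl⟩ : ∃ l : Module.Dual (ZMod p) (CL.Loc.EAMod hA), l (CL.Loc.EAMod.mk hA _ hv) ≠ 0 := by
    by_contra h
    push Not at h
    exact hne ((Module.forall_dual_apply_eq_zero_iff (ZMod p) _).1 h)
  let μ : A →* Multiplicative (ZMod p) := MonoidHom.mk'
    (fun a => Multiplicative.ofAdd (l (CL.Loc.EAMod.mk hA a a.2))) fun a b => by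
      rw [← ofAdd_add, ← map_add]; rfl
  refine CL.Transfer.exists_surjective_wreath hP hidx μ (z := y) hx ?_
  rw [← (key μ p).2, CL.Transfer.extOne_of_mem μ hv]
  exact hl

end Cfsg.Agent.S1952
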