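import Cfsg.Statements.S1953
import Cfsg.Agent.Loc.CentRad
import Cfsg.Agent.S0274
import Cfsg.Agent.S1987

set_option autoImplicit false
open Cfsg

namespace Cfsg.Agent.S1953

open Subgroup CL.Grp CL.Loc

/-- Let p be an odd prime and P a Sylow p-subgroup of the finite group G, and suppose that for no p-subgroup Q of G does N_G(Q)/C_G(Q) have a section isomorphic to SL₂(p). Call a subgroup Q of P centric-radical when Z(Q) is a Sylow p-subgroup of C_G(Q) and the only normal subgroup X of N_G(Q) containing Q·C_G(Q) such that the index of Q·C_G(Q) in X is a power of p is Q·C_G(Q) itself (that is, N_G(Q)/Q·C_G(Q) has no nontrivial normal p-subgroup). Then there is a centric-radical subgroup Q of P contained in every centric-radical subgroup of P; it is normal in P, and N_G(Q) controls strong fusion in P: whenever a subgroup A of P has g A g⁻¹ ≤ P, the element g is a product h c with h in N_G(Q) and c centralizing A. -/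
theorem result {G : Type*} [Group G] [Finite G] {p : ℕ} [Fact p.Prime] (hp : p ≠ 2) (P : Sylow p G)
    (hfree : ∀ Q : Subgroup G, IsPGroup p ↥Q → ¬ ∃ (H K : Subgroup G) (_ : (K.subgroupOf H).Normal),
      Subgroup.centralizer (Q : Set G) ≤ K ∧ K ≤ H ∧ H ≤ Subgroup.normalizer (Q : Set G) ∧
      Nonempty ((↥H ⧸ K.subgroupOf H) ≃* Matrix.SpecialLinearGroup (Fin 2) (ZMod p)))
    (cr : Subgroup G → Prop)
    (hcr : ∀ Q : Subgroup G, cr Q ↔ (Q ≤ (P : Subgroup G) ∧
      (∃ R : Sylow p ↥(Subgroup.centralizer (Q : Set G)),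
        (R : Subgroup ↥(Subgroup.centralizer (Q : Set G))).map (Subgroup.centralizer (Q : Set G)).subtype = Q ⊓ Subgroup.centralizer (Q : Set G)) ∧
      ∀ X : Subgroup G, X ≤ Subgroup.normalizer (Q : Set G) →
        (∀ n ∈ Subgroup.normalizer (Q : Set G), X.map (MulAut.conj n).toMonoidHom = X) →
        Q ⊔ Subgroup.centralizer (Q : Set G) ≤ X → (∃ k : ℕ, (Q ⊔ Subgroup.centralizer (Q : Set G)).relIndex X = p ^ k) →
        X = Q ⊔ Subgroup.centralizer (Q : Set G))) :
    ∃ Q : Subgroup G, cr Q ∧ (∀ R : Subgroup G, cr R → Q ≤ R) ∧ (∀ x ∈ (P : Subgroup G), Q.map (MulAut.conj x).toMonoidHom = Q) ∧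
      ∀ A : Subgroup G, A ≤ (P : Subgroup G) → ∀ g : G, A.map (MulAut.conj g).toMonoidHom ≤ (P : Subgroup G) →
        ∃ h ∈ Subgroup.normalizer (Q : Set G), ∃ c ∈ Subgroup.centralizer (A : Set G), g = h * c := by
  have hqd : ¬ Involves (qd p) G := fun h => by
    obtain ⟨Q, hQ, h⟩ := exists_automizer_involves_SL2_of_involves_qd h
    exact hfree Q hQ (exists_section_of_involves_quotient (centralizer_le_normalizer _) h)
  have hK := Cfsg.Agent.S1987.result hp (fun K R _ => isNormalizerPStable_of_not_involves_qd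
    (fun F _ _ _ H hH => Cfsg.Agent.S0274.result p hp H hH) hp fun h' =>
      hqd (involves_trans h' (involves_section K R))) P
  have hKn := le_normalizer_inducedFunctor (isCharPFunctor_kInfLower p) P.2
  obtain ⟨Q, ⟨hQP, hn, hC, hctl⟩, hmax⟩ := Set.exists_max_image
    {Q : Subgroup G | Q ≤ P ∧ (P : Subgroup G) ≤ normalizer (Q : Set G) ∧
      (P : Subgroup G) ⊓ centralizer (Q : Set G) ≤ Q ∧ CtlIn (normalizer (Q : Set G)) P}
    (fun Q => Nat.card Q) (Set.toFinite _) ⟨_, inducedFunctor_le _ _, hKn,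
      inf_centralizer_induced_kInfLower_le P.2.isNilpotent, ctlIn_of_controlsStrongFusion hK P hKn⟩
  have hS := isSylowIn_center_of_inf_le P hQP hn hC
  refine ⟨Q, (hcr Q).2 ⟨hQP, ⟨hS.toSylow, hS.map_toSylow⟩, fun X hX hXn hQX ⟨k, hk⟩ => ?_⟩,
    fun R hR => ?_, fun x hx => (conj_smul_eq_self_iff x Q).2 (hn hx), hctl⟩
  · have hXn' : normalizer (Q : Set G) ≤ normalizer (X : Set G) := fun n hn =>
      (conj_smul_eq_self_iff n X).1 (hXn n hn)
    have h1 := (isSylowIn_of_le P hn).inf_of_normalized hX hXn'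
    have h2 : Q ≤ (P : Subgroup G) ⊓ X := le_inf hQP (le_sup_left.trans hQX)
    have h3 : X ≤ (Q ⊔ centralizer (Q : Set G)) ⊔ (P : Subgroup G) ⊓ X := fun x hx => by
      obtain ⟨a, ha, b, hb, rfl⟩ := h1.exists_mul_eq_of_relIndex_pow hk hx
      exact mul_mem_sup ha hb
    have h4 := eq_of_le_of_card_ge h2 (hmax _ ⟨inf_le_left,
      CL.Grp.le_normalizer_inf' le_normalizer (hn.trans hXn'),
      (inf_le_inf_left _ (centralizer_le h2)).trans (hC.trans h2),
      hctl.of_radical P hQP hn hC hX hXn' (h3.trans (sup_le (sup_le_sup_right hQP _)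
        (inf_le_left.trans le_sup_left)))⟩)
    exact le_antisymm (h3.trans (sup_le le_rfl (h4.ge.trans le_sup_left))) hQX
  · obtain ⟨hRP, ⟨T, hT⟩, hrad⟩ := (hcr R).1 hR
    exact hctl.le_of_radical P hQP hn hRP (hT ▸ isSylowIn_map_subtype T) fun X hX hXn =>
      hrad X hX fun n hn => (conj_smul_eq_self_iff n X).2 (hXn hn)

end Cfsg.Agent.S1953
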