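import Cfsg.Statements.S2001
import Cfsg.Agent.Loc.CFunTransfer

set_option autoImplicit false
open Cfsg

namespace Cfsg.Agent.S2001

open scoped Pointwise
open CL.Grp CL.Loc

theorem mem_sup_iff_of_le_normalizer {G : Type*} [Group G] {A B : Subgroup G}
    (h : A ≤ Subgroup.normalizer (B : Set G)) (x : G) :
    x ∈ A ⊔ B ↔ ∃ a ∈ A, ∃ b ∈ B, x = a * b := by
  have := Subgroup.coe_mul_of_left_le_normalizer_right A B h
  rw [← SetLike.mem_coe, this, Set.mem_mul]
  simp only [SetLike.mem_coe, eq_comm]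

/-- Let p be a prime dividing the order of the finite group G, P a Sylow p-subgroup, W a conjugacy functor for p on G with Z(H) ≤ W(H) for every nontrivial p-subgroup H, and V a central functor: a conjugacy functor with V(H) ≤ Z(H), and V(H) ≤ V(K) whenever Z(H) ≤ Z(K), for nontrivial p-subgroups H, K. Say that W with V controls transfer in a subgroup L when some Sylow p-subgroup Q of L satisfies Q ∩ L' = (Q ∩ (N_L(W(Q)))')·(Q ∩ (C_L(V(Q)))') as a product of two subgroups. If W with V controls transfer in N_G(H) for every subgroup H with Z(P) ≤ H ≤ P, then W with V controls transfer in G. -/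
theorem result {G : Type*} [Group G] [Finite G] {p : ℕ} [Fact p.Prime] (hdiv : p ∣ Nat.card G) (P : Sylow p G) (W V : Subgroup G → Subgroup G) (hW : Cfsg.IsConjugacyFunctor p W) (hV : Cfsg.IsConjugacyFunctor p V) (hWZ : ∀ H : Subgroup G, IsPGroup p ↥H → H ⊓ Subgroup.centralizer ((H : Subgroup G) : Set G) ≤ W H) (hVZ : ∀ H : Subgroup G, IsPGroup p ↥H → V H ≤ H ⊓ Subgroup.centralizer ((H : Subgroup G) : Set G)) (hVmono : ∀ H K : Subgroup G, IsPGroup p ↥H → IsPGroup p ↥K → H ≠ ⊥ → K ≠ ⊥ → H ⊓ Subgroup.centralizer ((H : Subgroup G) : Set G) ≤ K ⊓ Subgroup.centralizer ((K : Subgroup G) : Set G) → V H ≤ V K) (hloc : ∀ H : Subgroup G, (P : Subgroup G) ⊓ Subgroup.centralizer (((P : Subgroup G) : Subgroup G) : Set G) ≤ H → H ≤ (P : Subgroup G) → ∃ Q : Subgroup G, Q ≤ Subgroup.normalizer ((H : Subgroup G) : Set G) ∧ IsPGroup p ↥Q ∧ ¬ p ∣ (Q).relIndex (Subgroup.normalizer ((H : Subgroup G) : Set G)) ∧ ∀ x : G, x ∈ Q ⊓ ⁅Subgroup.normalizer ((H : Subgroup G) :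 Set G), Subgroup.normalizer ((H : Subgroup G) : Set G)⁆ ↔ ∃ a ∈ Q ⊓ ⁅Subgroup.normalizer ((H : Subgroup G) : Set G) ⊓ Subgroup.normalizer ((W Q : Subgroup G) : Set G), Subgroup.normalizer ((H : Subgroup G) : Set G) ⊓ Subgroup.normalizer ((W Q : Subgroup G) : Set G)⁆, ∃ b ∈ Q ⊓ ⁅Subgroup.normalizer ((H : Subgroup G) : Set G) ⊓ Subgroup.centralizer ((V Q : Subgroup G) : Set G), Subgroup.normalizer ((H : Subgroup G) : Set G) ⊓ Subgroup.centralizer ((V Q : Subgroup G) : Set G)⁆, x = a * b) : ∃ Q : Subgroup G, IsPGroup p ↥Q ∧ ¬ p ∣ Q.index ∧ ∀ x : G, x ∈ Q ⊓ commutator G ↔ ∃ a ∈ Q ⊓ ⁅Subgroup.normalizer ((W Q : Subgroup G) : Set G), Subgroup.normalizer ((W Q : Subgroup G) : Set G)⁆, ∃ b ∈ Q ⊓ ⁅Subgroup.centralizer ((V Q : Subgroup G) : Set G), Subgroup.centralizer ((V Q : Subgroup G) : Set G)⁆, x = a * b := by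
  have hS := isSylowIn_top P
  set S : Subgroup G := (P : Subgroup G) with hSdef
  have hSp : IsPGroup p S := P.2
  have hS0 : S ≠ ⊥ := by
    intro e
    apply hS.2.2
    rw [e, Subgroup.relIndex_bot_left, Subgroup.card_top]
    exact hdiv
  have hZ0 : S ⊓ Subgroup.centralizer (S : Set G) ≠ ⊥ := fun e =>
    cfun_ne_bot hV hSp hS0 (le_bot_iff.1 (e ▸ hVZ S hSp))
  set D₁ := S ⊓ ⁅Subgroup.normalizer ((W S : Subgroup G) : Set G),
    Subgroup.normalizer ((W S : Subgroup G) : Set G)⁆ with hD₁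
  set D₂ := S ⊓ ⁅Subgroup.centralizer ((V S : Subgroup G) : Set G),
    Subgroup.centralizer ((V S : Subgroup G) : Set G)⁆ with hD₂
  have hSC : S ≤ Subgroup.centralizer ((V S : Subgroup G) : Set G) :=
    Subgroup.le_centralizer_iff.1 ((hVZ S hSp).trans inf_le_right)
  have key : ∀ U, IsWellPlaced p W S U → S ⊓ Subgroup.centralizer (S : Set G) ≤ U →
      S ⊓ Subgroup.normalizer (U : Set G) ⊓
        ⁅Subgroup.normalizer (U : Set G), Subgroup.normalizer (U : Set G)⁆ ≤ D₁ ⊔ D₂ := by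
    refine wellPlaced_induction hW hSp _ fun U hU IH hZU => ?_
    have hE := isExtremalIn_of_isWellPlaced hSp hU
    obtain ⟨Q, hQ1, hQ2, hQ3, hQ⟩ := hloc U hZU hU.1
    obtain ⟨k, hk, e⟩ := IsSylowIn.exists_conj_eq (p := p) ⟨hQ1, hQ2, hQ3⟩ hE.2
    set T := S ⊓ Subgroup.normalizer (U : Set G) with hT
    have hTp : IsPGroup p T := hSp.to_inf_left
    have hZT : S ⊓ Subgroup.centralizer (S : Set G) ≤ T ⊓ Subgroup.centralizer (T : Set G) :=
      le_inf (hZU.trans (le_inf hU.1 Subgroup.le_normalizer))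
        (inf_le_right.trans (Subgroup.centralizer_le fun x hx => hx.1))
    have hT0 : T ≠ ⊥ := fun e => hZ0 (le_bot_iff.1 (e ▸ hZT.trans inf_le_left))
    have h1 : Q ⊓ ⁅Subgroup.normalizer (U : Set G), Subgroup.normalizer (U : Set G)⁆ ≤ _ ⊔ _ :=
      fun x hx => by
        obtain ⟨a, ha, b, hb, rfl⟩ := (hQ x).1 hx
        exact Subgroup.mul_mem_sup ha hb
    have h2 := conj_smul_mono' k h1
    simp only [conj_smul_inf, conj_smul_sup, conj_smul_commutator, conj_smul_eq_of_mem hk,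
      ← normalizer_conj_smul, ← centralizer_conj_smul, ← cfun_conj hW hQ2, ← cfun_conj hV hQ2, e] at h2
    refine h2.trans (sup_le ?_ (le_sup_of_le_right (inf_le_inf inf_le_left ?_)))
    · rcases (inf_le_left : T ≤ S).eq_or_lt with e' | e'
      · rw [show T = S from e']
        exact le_sup_of_le_left (inf_le_inf_left _
          (Subgroup.commutator_mono inf_le_right inf_le_right))
      · exact le_trans (inf_le_inf (lt_inf_normalizer_cfun hW hSp e').le
          (Subgroup.commutator_mono inf_le_right inf_le_right)) (IH e' (hZT.trans (hWZ T hTp)))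
    · have : Subgroup.centralizer ((V T : Subgroup G) : Set G) ≤
          Subgroup.centralizer ((V S : Subgroup G) : Set G) :=
        Subgroup.centralizer_le (hVmono S T hSp hTp hS0 hT0 hZT)
      exact Subgroup.commutator_mono (inf_le_right.trans this) (inf_le_right.trans this)
  have main : S ⊓ ⁅(⊤ : Subgroup G), ⊤⁆ ≤ D₁ ⊔ D₂ := by
    refine IsSylowIn.inf_commutator_le hS fun x hx g _ hg => FocRel.zpowers ?_
    refine (fusRel_focRel (D₁ ⊔ D₂)).alperin_centric hS (IsWellPlaced p W S)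
      (fun _ h => isExtremalIn_of_isWellPlaced hSp h)
      (fun T hT => exists_wellPlaced_conj hW hS T hT) ?_ ?_ _
      ((Subgroup.zpowers_le).2 hx) g (conj_smul_zpowers_le hg)
    · intro A _ c hc a ha
      rw [← hc a ha]
      simp
    · intro U hU hc x hx a ha
      have h1 : x * a * x⁻¹ ∈ U := (Subgroup.mem_normalizer_iff.1 hx a).1 ha
      have h2 := U.mul_mem (U.inv_mem ha) h1
      exact key U hU ((inf_le_inf_left _ (Subgroup.centralizer_le hU.1)).trans hc)
        ⟨⟨hU.1 h2, Subgroup.le_normalizer h2⟩,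
          inv_mul_conj_mem_commutator (Subgroup.le_normalizer ha) hx⟩
  refine ⟨S, hSp, P.not_dvd_index, fun x => ?_⟩
  have hn : D₁ ≤ Subgroup.normalizer (D₂ : Set G) := by
    intro g hg
    rw [← conj_smul_eq_self_iff, hD₂, conj_smul_inf, conj_smul_commutator,
      conj_smul_eq_of_mem hg.1, conj_smul_eq_of_mem (hSC hg.1)]
  rw [← mem_sup_iff_of_le_normalizer hn]
  refine ⟨fun hx => main hx, fun hx => ?_⟩
  exact (sup_le (inf_le_inf_left _ (Subgroup.commutator_mono le_top le_top))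
    (inf_le_inf_left _ (Subgroup.commutator_mono le_top le_top)) :
      D₁ ⊔ D₂ ≤ S ⊓ ⁅(⊤ : Subgroup G), ⊤⁆) hx

end Cfsg.Agent.S2001
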