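import Cfsg.Statements.S2002
import Cfsg.Agent.Loc.CFunTransfer

set_option autoImplicit false
open Cfsg

namespace Cfsg.Agent.S2002

open scoped Pointwise
open CL.Grp CL.Loc

theorem fusBy_of_list {G : Type*} [Group G] {𝓝 : Set G} (hinv : ∀ x ∈ 𝓝, x⁻¹ ∈ 𝓝) {T : Subgroup G}
    {X : Set G} {c : G} (hc : c ∈ Subgroup.centralizer X) {n : ℕ} {b : Fin n → G}
    (hb : ∀ i, b i ∈ 𝓝)
    (h : ∀ k : ℕ, k ≤ n → (fun x => (((List.ofFn b).take k).prod)⁻¹ * x *
      ((List.ofFn b).take k).prod) '' ((fun x => c⁻¹ * x * c) '' X) ⊆ T) :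
    FusBy 𝓝 T X (c * (List.ofFn b).prod)⁻¹ := by
  have hc' : ∀ x ∈ X, c⁻¹ * x * c = x := fun x hx => by rw [mul_assoc, hc x hx]; simp
  have h' : ∀ k ≤ n, ∀ x ∈ X, (((List.ofFn b).take k).prod)⁻¹ * x * ((List.ofFn b).take k).prod ∈ T :=
    fun k hk x hx => h k hk ⟨_, ⟨x, hx, hc' x hx⟩, rfl⟩
  refine ⟨fun x hx => by simpa using h' 0 n.zero_le x hx, ((List.ofFn b).prod)⁻¹, ?_, fun x hx => ?_⟩
  · refine reflTransGen_iff_exists_seq.2 ⟨n, fun k => (((List.ofFn b).take k).prod)⁻¹, by simp,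
      by beta_reduce; rw [List.take_of_length_le (by simp)], fun i hi => ⟨?_, fun x hx => ?_⟩⟩
    · beta_reduce
      rw [List.prod_take_succ _ _ (by simpa using hi)]
      simpa using hinv _ (hb ⟨i, hi⟩)
    · rw [inv_inv]
      exact h' _ hi x hx
  · conv_lhs => rw [← hc' x hx]
    group

theorem list_of_fusBy {G : Type*} [Group G] {𝓝 : Set G} (hinv : ∀ x ∈ 𝓝, x⁻¹ ∈ 𝓝) {T : Subgroup G}
    {X : Set G} {a : G} (H : FusBy 𝓝 T X a⁻¹) :
    ∃ c ∈ Subgroup.centralizer X, ∃ (n : ℕ) (b : Fin n → G), (∀ i, b i ∈ 𝓝) ∧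
      a = c * (List.ofFn b).prod ∧ ∀ k : ℕ, k ≤ n → (fun x => (((List.ofFn b).take k).prod)⁻¹ * x *
      ((List.ofFn b).take k).prod) '' ((fun x => c⁻¹ * x * c) '' X) ⊆ T := by
  obtain ⟨hX, d, hd, e⟩ := H
  obtain ⟨n, c, h0, rfl, hs⟩ := reflTransGen_iff_exists_seq.1 hd
  have hc : ∀ x ∈ X, x * (a * c n) = a * c n * x := fun x hx => by
    calc x * (a * c n) = a * (a⁻¹ * x * a⁻¹⁻¹) * c n := by group
      _ = _ := by rw [← e x hx]; group
  refine ⟨a * c n, hc, n, fun i => c i * (c (i + 1))⁻¹, fun i => by simpa using hinv _ (hs i i.2).1,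
    by rw [prod_ofFn_telescope n c h0]; simp, fun k hk => ?_⟩
  rw [prod_take_ofFn_telescope n c h0 k hk, inv_inv]
  rintro _ ⟨_, ⟨x, hx, rfl⟩, rfl⟩
  have : (a * c n)⁻¹ * x * (a * c n) = x := by rw [mul_assoc, hc x hx]; group
  simp only [this]
  cases k with
  | zero => simpa [h0] using hX hx
  | succ k => exact (hs k hk).2 x hx

/-- The steps attached to a pair of functors. -/
def pairSteps {G : Type*} [Group G] (W V : Subgroup G → Subgroup G) (H Q : Subgroup G) : Set G :=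
  {x | x ∈ H ⊓ Subgroup.normalizer ((W Q : Subgroup G) : Set G) ∨
    x ∈ H ⊓ Subgroup.centralizer ((V Q : Subgroup G) : Set G)}

theorem pairSteps_inv {G : Type*} [Group G] (W V : Subgroup G → Subgroup G) (H Q : Subgroup G) :
    ∀ x ∈ pairSteps W V H Q, x⁻¹ ∈ pairSteps W V H Q :=
  fun _ hx => hx.imp inv_mem inv_mem

/-- Let p be a prime dividing the order of the finite group G, P a Sylow p-subgroup, W a conjugacy functor for p on G with Z(H) ≤ W(H) for every nontrivial p-subgroup H, and V a central functor (a conjugacy functor with V(H) ≤ Z(H), and V(H) ≤ V(K) whenever Z(H) ≤ Z(K)). Say that W with V controls strong fusion in a subgroup L when some Sylow p-subgroup Q of L has the property: whenever X ⊆ Q and a ∈ L with a⁻¹Xa ⊆ Q, then a = c b with c ∈ C_L(X) and b = b₁ ⋯ bₙ a product of elements each in N_L(W(Q)) or in C_L(V(Q)) such that every partial conjugate (b₁ ⋯ bₖ)⁻¹ X (b₁ ⋯ bₖ) lies in Q. If W with V controls strong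 fusion in N_G(H) for every subgroup H with Z(P) ≤ H ≤ P, then W with V controls strong fusion in G. -/
theorem result {G : Type*} [Group G] [Finite G] {p : ℕ} [Fact p.Prime] (hdiv : p ∣ Nat.card G) (P : Sylow p G) (W V : Subgroup G → Subgroup G) (hW : Cfsg.IsConjugacyFunctor p W) (hV : Cfsg.IsConjugacyFunctor p V) (hWZ : ∀ H : Subgroup G, IsPGroup p ↥H → H ⊓ Subgroup.centralizer ((H : Subgroup G) : Set G) ≤ W H) (hVZ : ∀ H : Subgroup G, IsPGroup p ↥H → V H ≤ H ⊓ Subgroup.centralizer ((H : Subgroup G) : Set G)) (hVmono : ∀ H K : Subgroup G, IsPGroup p ↥H → IsPGroup p ↥K → H ≠ ⊥ → K ≠ ⊥ → H ⊓ Subgroup.centralizer ((H : Subgroup G) : Set G) ≤ K ⊓ Subgroup.centralizer ((K : Subgroup G) : Set G) → V H ≤ V K) (hloc : ∀ H : Subgroup G, (P : Subgroup G) ⊓ Subgroup.centralizer (((P : Subgroup G) : Subgroup G) : Set G) ≤ H → H ≤ (P : Subgroup G) → ∃ Q : Subgroup G, Q ≤ Subgroup.normalizer ((H : Subgroup G) : Set G) ∧ IsPGroup p ↥Q ∧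 ¬ p ∣ (Q).relIndex (Subgroup.normalizer ((H : Subgroup G) : Set G)) ∧ ∀ (X : Set G) (a : G), X ⊆ Q → a ∈ Subgroup.normalizer ((H : Subgroup G) : Set G) → (fun x => a⁻¹ * x * a) '' X ⊆ Q → ∃ c ∈ Subgroup.normalizer ((H : Subgroup G) : Set G) ⊓ Subgroup.centralizer X, ∃ (n : ℕ) (b : Fin n → G), (∀ i, b i ∈ Subgroup.normalizer ((H : Subgroup G) : Set G) ⊓ Subgroup.normalizer ((W Q : Subgroup G) : Set G) ∨ b i ∈ Subgroup.normalizer ((H : Subgroup G) : Set G) ⊓ Subgroup.centralizer ((V Q : Subgroup G) : Set G)) ∧ a = c * (List.ofFn b).prod ∧ ∀ k : ℕ, k ≤ n → (fun x => (((List.ofFn b).take k).prod)⁻¹ * x * ((List.ofFn b).take k).prod) '' ((fun x => c⁻¹ * x * c) '' X) ⊆ Q) : ∃ Q : Subgroup G, IsPGroup p ↥Q ∧ ¬ p ∣ Q.index ∧ ∀ (X : Set G) (a : G), X ⊆ Q → (fun x => a⁻¹ * x * a) '' X ⊆ Q → ∃ c ∈ Subgroup.centralizer X, ∃ (n : ℕ) (b : Fin n → G), (∀ i, b i ∈ ⊤ ⊓ Subgroup.normalizer ((W Q : Subgroup G) : Set G) ∨ b i ∈ ⊤ ⊓ Subgroup.centralizer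 ((V Q : Subgroup G) : Set G)) ∧ a = c * (List.ofFn b).prod ∧ ∀ k : ℕ, k ≤ n → (fun x => (((List.ofFn b).take k).prod)⁻¹ * x * ((List.ofFn b).take k).prod) '' ((fun x => c⁻¹ * x * c) '' X) ⊆ Q := by
  have hS := isSylowIn_top P
  set S : Subgroup G := (P : Subgroup G) with hSdef
  have hSp : IsPGroup p S := P.2
  have hS0 : S ≠ ⊥ := by
    intro e
    apply hS.2.2
    rw [e, Subgroup.relIndex_bot_left, Subgroup.card_top]
    exact hdiv
  have hZ0 : S ⊓ Subgroup.centralizer (S : Set G) ≠ ⊥ := fun e =>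
    cfun_ne_bot hV hSp hS0 (le_bot_iff.1 (e ▸ hVZ S hSp))
  have key : ∀ U, IsWellPlaced p W S U → S ⊓ Subgroup.centralizer (S : Set G) ≤ U →
      GenFus (pairSteps W V ⊤ S) (Subgroup.normalizer (U : Set G)) S ∨
      ∀ (A : Set G) (h : G), h ∈ Subgroup.normalizer (U : Set G) →
        A ⊆ (S ⊓ Subgroup.normalizer (U : Set G) : Subgroup G) →
        (∀ a ∈ A, h * a * h⁻¹ ∈ S ⊓ Subgroup.normalizer (U : Set G)) →
        FusBy (pairSteps W V ⊤ S) S A h := by
    refine wellPlaced_induction hW hSp _ fun U hU IH hZU => Or.inr ?_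
    have hE := isExtremalIn_of_isWellPlaced hSp hU
    obtain ⟨Q, hQ1, hQ2, hQ3, hQ⟩ := hloc U hZU hU.1
    obtain ⟨k, hk, e⟩ := IsSylowIn.exists_conj_eq (p := p) ⟨hQ1, hQ2, hQ3⟩ hE.2
    set T := S ⊓ Subgroup.normalizer (U : Set G) with hT
    have hTp : IsPGroup p T := hSp.to_inf_left
    have hZT : S ⊓ Subgroup.centralizer (S : Set G) ≤ T ⊓ Subgroup.centralizer (T : Set G) :=
      le_inf (hZU.trans (le_inf hU.1 Subgroup.le_normalizer))
        (inf_le_right.trans (Subgroup.centralizer_le fun x hx => hx.1))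
    have hT0 : T ≠ ⊥ := fun e => hZ0 (le_bot_iff.1 (e ▸ hZT.trans inf_le_left))
    have h1 : GenFus (pairSteps W V (Subgroup.normalizer (U : Set G)) Q)
        (Subgroup.normalizer (U : Set G)) Q := by
      intro A h hh hA hAh
      obtain ⟨c, hc, n, b, hb, e, hs⟩ := hQ A h⁻¹ hA (inv_mem hh)
        (by rintro _ ⟨a, ha, rfl⟩; simpa using hAh a ha)
      have := fusBy_of_list (pairSteps_inv W V _ Q) hc.2 hb hs
      rwa [← e, inv_inv] at this
    have h2 := h1.map_of_injective (f := (MulAut.conj k).toMonoidHom) (MulAut.conj k).injective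
    rw [← conj_smul_eq_map, ← conj_smul_eq_map, conj_smul_eq_of_mem hk, e] at h2
    intro A h hh hA hAh
    refine (h2 A h hh hA hAh).trans_of_steps inf_le_left ?_
    rintro B _ hB ⟨x, hx, rfl⟩ hBx
    rcases hx with hx | hx
    · have h3 := conj_mem_conj_smul k hx.2
      rw [← normalizer_conj_smul, ← cfun_conj hW hQ2, e] at h3
      rcases (inf_le_left : T ≤ S).eq_or_lt with e' | e'
      · rw [show T = S from e'] at h3
        exact FusBy.step (fun b hb => (hB hb).1) (Or.inl ⟨trivial, h3⟩) fun b hb => (hBx b hb).1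
      · have h4 := (lt_inf_normalizer_cfun hW hSp e').le
        rcases IH e' (hZT.trans (hWZ T hTp)) with h5 | h5
        · exact h5 B _ h3 (fun b hb => (hB hb).1) fun b hb => (hBx b hb).1
        · exact h5 B _ h3 (fun b hb => h4 (hB hb)) fun b hb => h4 (hBx b hb)
    · have h3 := conj_mem_conj_smul k hx.2
      rw [← centralizer_conj_smul, ← cfun_conj hV hQ2, e] at h3
      exact FusBy.step (fun b hb => (hB hb).1) (Or.inr ⟨trivial,
        Subgroup.centralizer_le (hVmono S T hSp hTp hS0 hT0 hZT) h3⟩) fun b hb => (hBx b hb).1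
  have main : GenFus (pairSteps W V ⊤ S) ⊤ S := by
    refine genFus_of_subgroups fun A hA g _ hg => ?_
    refine (fusRel_fusBy (pairSteps_inv W V ⊤ S) S).alperin_centric hS (IsWellPlaced p W S)
      (fun _ h => isExtremalIn_of_isWellPlaced hSp h)
      (fun T hT => exists_wellPlaced_conj hW hS T hT) ?_ ?_ A hA g hg
    · intro A hA c hc
      exact FusBy.of_centralizes hA fun a ha => by rw [← hc a ha]; simp
    · intro U hU hc x hx
      have h1 : ∀ a ∈ (U : Set G), x * a * x⁻¹ ∈ U := fun a ha =>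
        (Subgroup.mem_normalizer_iff.1 hx a).1 ha
      have h2 : U ≤ S ⊓ Subgroup.normalizer (U : Set G) := le_inf hU.1 Subgroup.le_normalizer
      rcases key U hU ((inf_le_inf_left _ (Subgroup.centralizer_le hU.1)).trans hc) with h5 | h5
      · exact h5 U x hx hU.1 fun a ha => hU.1 (h1 a ha)
      · exact h5 U x hx h2 fun a ha => h2 (h1 a ha)
  refine ⟨S, hSp, P.not_dvd_index, fun X a hX hXa => ?_⟩
  exact list_of_fusBy (pairSteps_inv W V ⊤ S) (main X a⁻¹ trivial hX fun x hx => by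
    simpa using hXa ⟨x, hx, rfl⟩)

end Cfsg.Agent.S2002
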