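import Cfsg.Statements.S2043
import Cfsg.Agent.Known.GCo1B

set_option autoImplicit false
open Cfsg

namespace Cfsg.Agent.S2043

/-- The Schur multiplier of the Conway group Co₁ (the automorphism group of the rank-24 lattice modulo its centre) is cyclic of order 2; here the Schur multiplier is described through stem extensions, as in the definitions: surjective homomorphisms onto the group from a finite group, whose kernel is central in that finite group and contained in that finite group's commutator subgroup. -/
theorem result : Cfsg.HasCyclicSchurMultiplier Cfsg.Spor.Co1 2 := by
  letI := CL.Spor.Leech.actCo1
  obtain ⟨x, h⟩ := CL.Pc.GCo1.full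
  have := h.fin
  exact (CL.Pc.GCo1.bounds h).cyclic h.card 21 CL.Pc.cover_Co1 (by decide)

end Cfsg.Agent.S2043
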