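import Cfsg.Statements.S2098
import Cfsg.Agent.Known.GPo8p2I
import Cfsg.Agent.Known.GPo8p2B
import Cfsg.Agent.Known.GPo8p2C2

set_option autoImplicit false
open Cfsg

namespace Cfsg.Agent.S2098

/-- Exceptional Schur multiplier: over the field with 2 elements, PΩ⁺₈ (for the form Σ xᵢyᵢ) has Schur multiplier a four-group, the product of two cyclic groups of order 2 (here the Schur multiplier is described through stem extensions, as in the definitions). -/
theorem result {F : Type*} [Field F] [Fintype F] (hF : Fintype.card F = 2) : Cfsg.HasSchurMultiplier (Cfsg.POmega F (Cfsg.quadFormPlus 4 F)) (Multiplicative (ZMod 2 × ZMod 2)) := by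
  obtain ⟨x, h⟩ := CL.Pc.GPo8p2.full CL.Pc.GPo8p2.input
  have := h.fin
  obtain ⟨e⟩ := CL.Std.O8p2.iso hF
  have hq : Nat.card (Cfsg.POmega F (Cfsg.quadFormPlus 4 F)) = 174182400 :=
    CL.PG.card_po_plus hF 3 (by norm_num) (by decide +kernel)
  have : Finite (Cfsg.Omega F (Cfsg.quadFormPlus 4 F)) := Finite.of_equiv _ e.toEquiv
  have hb := (Nat.bijective_iff_surjective_and_card _).2 ⟨QuotientGroup.mk'_surjective
    (Subgroup.center (Cfsg.Omega F (Cfsg.quadFormPlus 4 F))), by rw [← Nat.card_congr e.toEquiv, h.card]; exact hq.symm⟩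
  exact CL.Schur.HasSM.congr_left ((CL.Pc.GPo8p2.bounds h).hasSM h.card 12 (CL.Pc.GPo8p2.C2.cover h)
    (CL.Pc.card_zmod2 2) (by decide)) (e.trans (MulEquiv.ofBijective _ hb))

end Cfsg.Agent.S2098
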