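import Cfsg.Statements.S2121
import Cfsg.Agent.Chev.RealAut
import Cfsg.Agent.S1035
import Cfsg.Agent.Known.GLLang

set_option autoImplicit false
open Cfsg

namespace Cfsg.Agent.S2121

/-- Outer automorphisms of the Chevalley groups of type G₂: over a field with q = p^f (p prime) ≥ 3 elements, the outer automorphism group of G₂(q) has order f when p ≠ 3 and 2f when p = 3 (field automorphisms, and in characteristic 3 also the exceptional graph automorphism). -/
theorem result {F : Type*} [Field F] [Fintype F] (p f : ℕ) [Fact p.Prime] [CharP F p] (hF : Fintype.card F = p ^ f) (hq : 3 ≤ p ^ f) : Nat.card (Cfsg.Out ↥(Cfsg.Lie.chevG2.group F)) = (if p = 3 then 2 * f else f) := by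
  have h : ¬ ∀ t : F, t ^ 2 = t := fun h => by
    classical
    have : Fintype.card F ≤ ({0, 1} : Finset F).card := Finset.card_le_card fun t _ => by
      have : t * (t - 1) = 0 := by linear_combination h t
      simpa [sub_eq_zero] using this
    have := this.trans Finset.card_le_two
    omega
  rw [CL.Chev.realG2.card_out F (d := 1)
    (Cfsg.Agent.S1035.result Nat.card_eq_fintype_card.symm (Cfsg.Lie.chevG2, 1) (by simp)),
    CL.Chev.card_range_G2 F _ h, CL.GLn.card_ringAut hF, ringChar.eq F p]
  split_ifs <;> simp

end Cfsg.Agent.S2121
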