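import Cfsg.Statements.S2162
import Cfsg.Agent.Known.GLUnip1

set_option autoImplicit false
open Cfsg

namespace Cfsg.Agent.S2162


/-- Conjugacy of involutions in the special linear group over a finite field of characteristic two, in dimension at least 3: two elements of order 2 of SL_n(F) are conjugate in SL_n(F) exactly when the matrices a − 1 and b − 1 have the same rank (the rank of a − 1 is the dimension of the commutator space [V, a]). -/
theorem result {F : Type*} [Field F] [Fintype F] [CharP F 2] {n : ℕ} (hn : 3 ≤ n) (a b : Matrix.SpecialLinearGroup (Fin n) F) (ha : orderOf a = 2) (hb : orderOf b = 2) :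
    IsConj a b ↔ ((a : Matrix (Fin n) (Fin n) F) - 1).rank = ((b : Matrix (Fin n) (Fin n) F) - 1).rank := by
  classical
  constructor
  · intro h
    have := CL.GLn.IsConj.rank_aeval (CL.GLn.isConj_of_isConj_SL h) (Polynomial.X - 1)
    simpa only [map_sub, Polynomial.aeval_X, map_one] using this
  · intro h
    have key : ∀ a : Matrix.SpecialLinearGroup (Fin n) F, orderOf a = 2 →
        ((a : Matrix (Fin n) (Fin n) F) - 1) ^ 2 = 0 := by
      intro a ha
      have := CL.GLn.matrix_sub_one_pow_char_pow 2 (a : Matrix (Fin n) (Fin n) F) 1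
      rw [pow_one] at this
      rw [this, sub_eq_zero, ← Matrix.SpecialLinearGroup.coe_pow, ← ha, pow_orderOf_eq_one]
      rfl
    apply CL.GLn.isConj_SL_of_isConj
    · intro c _
      obtain ⟨μ, hμ⟩ := (CL.GLn.isNilpotent_sub_one_iff _).1 ⟨2, key a ha⟩
      have h2 := (CL.GLn.sub_one_pow_eq_zero_iff_of_type hμ 2).1 (key a ha)
      have hne : μ.parts ≠ 0 := by
        intro h0
        have := μ.parts_sum
        rw [h0] at this
        simp at this; omega
      obtain ⟨e, he⟩ := Multiset.exists_mem_of_ne_zero hne
      obtain ⟨d, rfl⟩ : ∃ d : F, c = d ^ e := by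
        have h3 := h2 e he
        have h4 := μ.parts_pos he
        obtain rfl | rfl : e = 1 ∨ e = 2 := by omega
        · exact ⟨c, (pow_one c).symm⟩
        · obtain ⟨d, hd⟩ := FiniteField.isSquare_of_char_two (ringChar.eq F 2) c
          exact ⟨d, by rw [hd, sq]⟩
      have := CL.GLn.exists_commute_det_pow (a : Matrix (Fin n) (Fin n) F)
        (P := (Polynomial.X - 1) ^ e) (hμ ▸ Multiset.mem_map_of_mem _ he) d
      rwa [Polynomial.natDegree_pow, CL.GLn.natDegree_X_sub_one', mul_one] at this
    · refine CL.GLn.isConj_of_unipotent ⟨2, key a ha⟩ ⟨2, key b hb⟩ fun k => ?_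
      rcases k with _ | _ | k
      · simp
      · simpa using h
      · rw [pow_eq_zero_of_le (by omega) (key a ha), pow_eq_zero_of_le (by omega) (key b hb)]

end Cfsg.Agent.S2162
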