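import Cfsg.Statements.S2163
import Cfsg.Agent.Known.GLUnip1

set_option autoImplicit false
open Cfsg

namespace Cfsg.Agent.S2163


/-- Over a finite field of characteristic two and for n ≥ 3: for every ℓ with 1 ≤ ℓ and 2ℓ ≤ n, the matrix j_ℓ that is the identity plus the entries 1 in positions (n − ℓ + i, i) for i < ℓ (an identity block of size ℓ in the lower left corner) lies in SL_n(F), has order 2, and j_ℓ − 1 has rank ℓ. Together with the conjugacy criterion by rank, these matrices represent the conjugacy classes of involutions of SL_n(F). -/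
theorem result {F : Type*} [Field F] [Fintype F] [CharP F 2] {n : ℕ} (hn : 3 ≤ n) (ℓ : ℕ) (h1 : 1 ≤ ℓ) (h2 : 2 * ℓ ≤ n) :
    ∃ a : Matrix.SpecialLinearGroup (Fin n) F, (a : Matrix (Fin n) (Fin n) F) = 1 + Matrix.of (fun i j : Fin n => if j.val < ℓ ∧ i.val = j.val + (n - ℓ) then (1 : F) else 0) ∧ orderOf a = 2 ∧ ((a : Matrix (Fin n) (Fin n) F) - 1).rank = ℓ := by
  classical
  set N : Matrix (Fin n) (Fin n) F :=
    Matrix.of (fun i j : Fin n => if j.val < ℓ ∧ i.val = j.val + (n - ℓ) then (1 : F) else 0) with hN
  have hNN : N * N = 0 := by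
    ext i j
    rw [Matrix.mul_apply, Matrix.zero_apply]
    refine Finset.sum_eq_zero fun k _ => ?_
    simp only [hN, Matrix.of_apply]
    split_ifs with a b
    · omega
    all_goals simp
  have hdet : (1 + N).det = 1 :=
    CL.GLn.det_eq_one_of_isNilpotent ⟨2, by rw [add_sub_cancel_left, sq, hNN]⟩
  have hrank : N.rank = ℓ := by
    let A : Matrix (Fin n) (Fin ℓ) F := Matrix.of fun i k => if i.val = k.val + (n - ℓ) then 1 else 0
    let B : Matrix (Fin ℓ) (Fin n) F := Matrix.of fun k j => if j.val = k.val then 1 else 0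
    have hAB : N = A * B := by
      ext i j
      rw [Matrix.mul_apply]
      simp only [hN, A, B, Matrix.of_apply]
      by_cases hj : j.val < ℓ
      · rw [Finset.sum_eq_single ⟨j.val, hj⟩]
        · simp [hj]
        · intro k _ hk
          have : j.val ≠ k.val := fun h => hk (Fin.ext h.symm)
          simp [this]
        · simp
      · rw [Finset.sum_eq_zero]
        · simp [hj]
        · intro k _
          have : j.val ≠ k.val := fun h => hj (h ▸ k.2)
          simp [this]
    have hsub : N.submatrix (fun k : Fin ℓ => (⟨k.val + (n - ℓ), by omega⟩ : Fin n))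
        (fun k : Fin ℓ => (⟨k.val, by omega⟩ : Fin n)) = 1 := by
      ext i j
      simp [hN, Matrix.one_apply, Fin.ext_iff]
    apply le_antisymm
    · rw [hAB]
      exact (Matrix.rank_mul_le_left A B).trans (by simpa using Matrix.rank_le_width A)
    · have := Matrix.rank_submatrix_le N (fun k : Fin ℓ => (⟨k.val + (n - ℓ), by omega⟩ : Fin n))
        (fun k : Fin ℓ => (⟨k.val, by omega⟩ : Fin n))
      rw [hsub] at this
      simpa using this
  refine ⟨⟨1 + N, hdet⟩, rfl, ?_, ?_⟩
  · have : Fact (Nat.Prime 2) := ⟨Nat.prime_two⟩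
    apply orderOf_eq_prime
    · apply Subtype.ext
      change (1 + N) ^ 2 = 1
      have := CL.GLn.matrix_sub_one_pow_char_pow 2 (1 + N) 1
      rw [pow_one, add_sub_cancel_left, sq, hNN] at this
      exact (sub_eq_zero.1 this.symm)
    · intro h
      have h' : 1 + N = 1 := congrArg Subtype.val h
      have : N = 0 := by simpa using h'
      rw [this, Matrix.rank_zero] at hrank
      omega
  · change (1 + N - 1).rank = ℓ
    rw [add_sub_cancel_left, hrank]

end Cfsg.Agent.S2163
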