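import Cfsg.Statements.S2164
import Cfsg.Agent.Known.UniClass2
import Cfsg.Agent.S2162

set_option autoImplicit false
open Cfsg

namespace Cfsg.Agent.S2164

/-- Conjugacy of involutions in the special unitary group SU_n(q), q even, n ≥ 3, realised over the field F with q² elements as the matrices of determinant 1 preserving the form Σ u_i v_i^q: for two elements of order 2 of SU_n(q) the following are equivalent — they are conjugate in SU_n(q); they are conjugate in SL_n(F); the matrices a − 1 and b − 1 have the same rank. -/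
theorem result {F : Type*} [Field F] [Fintype F] [CharP F 2] {n q : ℕ} (hF : Fintype.card F = q ^ 2) (hn : 3 ≤ n) (a b : ↥(Cfsg.SU n F q)) (ha : orderOf a = 2) (hb : orderOf b = 2) :
    (IsConj a b ↔ IsConj (a : Matrix.SpecialLinearGroup (Fin n) F) (b : Matrix.SpecialLinearGroup (Fin n) F)) ∧
    (IsConj a b ↔ (((a : Matrix.SpecialLinearGroup (Fin n) F) : Matrix (Fin n) (Fin n) F) - 1).rank = (((b : Matrix.SpecialLinearGroup (Fin n) F) : Matrix (Fin n) (Fin n) F) - 1).rank) := by
  have h := CL.Uni.isBar_bar hF
  have hr := Cfsg.Agent.S2162.result hn (a : Matrix.SpecialLinearGroup (Fin n) F) b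
    (by rw [Subgroup.orderOf_coe, ha]) (by rw [Subgroup.orderOf_coe, hb])
  have key : IsConj a b ↔
      IsConj (a : Matrix.SpecialLinearGroup (Fin n) F) (b : Matrix.SpecialLinearGroup (Fin n) F) := by
    refine ⟨fun H => (Cfsg.SU n F q).subtype.map_isConj H, fun H => ?_⟩
    refine CL.Known.isConj_SU_of h a b (CL.GLn.isConj_of_isConj_SL H) fun _ l hl => ?_
    refine CL.Known.exists_UG_det_of_involution (CL.Uni.isHerm_stdB h _)
      (CL.Uni.SUG_le_UG (CL.Uni.suEquiv h n a).2) (fun v => ?_) (fun h1 => ?_) hl
    · have : CL.Uni.suEquiv h n a * CL.Uni.suEquiv h n a = 1 := by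
        rw [← map_mul, ← sq, ← ha, pow_orderOf_eq_one, map_one]
      exact LinearEquiv.congr_fun (congrArg Subtype.val this) v
    · have : a = 1 := (CL.Uni.suEquiv h n).injective (by rw [map_one]; exact Subtype.ext h1)
      rw [this, orderOf_one] at ha
      omega
  exact ⟨key, key.trans hr⟩

end Cfsg.Agent.S2164
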