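import Cfsg.Statements.S2165
import Cfsg.Agent.Known.UniClass2

set_option autoImplicit false
open Cfsg

namespace Cfsg.Agent.S2165

/-- In SU_n(q), q even, n ≥ 3 (matrices of determinant 1 over the field with q² elements preserving Σ u_i v_i^q): for every ℓ with 1 ≤ ℓ and 2ℓ ≤ n, the permutation matrix of the involution of {0, …, n−1} exchanging i and n − ℓ + i for each i < ℓ lies in SU_n(q), has order 2, and differs from the identity by a matrix of rank ℓ. So every rank between 1 and n/2 occurs for involutions of SU_n(q). -/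
theorem result {F : Type*} [Field F] [Fintype F] [CharP F 2] {n q : ℕ} (hF : Fintype.card F = q ^ 2) (hn : 3 ≤ n) (ℓ : ℕ) (h1 : 1 ≤ ℓ) (h2 : 2 * ℓ ≤ n) :
    ∃ a : ↥(Cfsg.SU n F q), (((a : Matrix.SpecialLinearGroup (Fin n) F) : Matrix (Fin n) (Fin n) F) = Matrix.of (fun i j : Fin n => if (j.val < ℓ ∧ i.val = j.val + (n - ℓ)) ∨ (i.val < ℓ ∧ j.val = i.val + (n - ℓ)) ∨ (i = j ∧ ℓ ≤ i.val ∧ i.val < n - ℓ) then (1 : F) else 0)) ∧ orderOf a = 2 ∧ ((((a : Matrix.SpecialLinearGroup (Fin n) F) : Matrix (Fin n) (Fin n) F)) - 1).rank = ℓ := by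
  classical
  have h := CL.Uni.isBar_bar hF
  set M : Matrix (Fin n) (Fin n) F := Matrix.of (fun i j : Fin n => if (j.val < ℓ ∧ i.val = j.val + (n - ℓ)) ∨ (i.val < ℓ ∧ j.val = i.val + (n - ℓ)) ∨ (i = j ∧ ℓ ≤ i.val ∧ i.val < n - ℓ) then (1 : F) else 0) with hM
  let c : Fin n → ℕ := fun i => if i.val < ℓ then i.val else if n - ℓ ≤ i.val then i.val - (n - ℓ) else ℓ
  let A : Matrix (Fin n) (Fin ℓ) F := Matrix.of fun i k => if c i = k.val then 1 else 0
  have hA : M - 1 = A * A.transpose := by
    ext i j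
    have e : (A * A.transpose) i j = if c i = c j ∧ c i < ℓ then 1 else 0 := by
      rw [Matrix.mul_apply]
      simp only [A, Matrix.of_apply, Matrix.transpose_apply]
      by_cases hi : c i < ℓ
      · rw [Finset.sum_eq_single ⟨c i, hi⟩]
        · simp [hi, eq_comm]
        · intro k _ hk
          have : c i ≠ k.val := fun h => hk (Fin.ext h.symm)
          simp [this]
        · simp
      · rw [Finset.sum_eq_zero]
        · simp [hi]
        · intro k _
          have : c i ≠ k.val := fun h => hi (h ▸ k.2)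
          simp [this]
    rw [e, Matrix.sub_apply, hM, Matrix.of_apply, Matrix.one_apply]
    have hi := i.2
    have hj := j.2
    simp only [c, Fin.ext_iff]
    split_ifs <;> first | omega | simp [CharTwo.neg_eq]
  have hAA : A.transpose * A = 0 := by
    ext k l
    rw [Matrix.mul_apply, Matrix.zero_apply]
    simp only [A, Matrix.of_apply, Matrix.transpose_apply]
    have hk := k.2
    rw [Finset.sum_eq_add (⟨k.val, by omega⟩ : Fin n) ⟨k.val + (n - ℓ), by omega⟩]
    · have e1 : c ⟨k.val, by omega⟩ = k.val := by simp [c]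
      have e2 : c ⟨k.val + (n - ℓ), by omega⟩ = k.val := by
        simp only [c]; split_ifs <;> omega
      rw [e1, e2, CharTwo.add_self_eq_zero]
    · simp only [ne_eq, Fin.ext_iff]; omega
    · intro i _ hi
      have : c i ≠ k.val := by
        simp only [ne_eq, Fin.ext_iff, c] at hi ⊢
        split_ifs <;> omega
      simp [this]
    · simp
    · simp
  have hNN : (M - 1) ^ 2 = 0 := by
    rw [sq, hA, Matrix.mul_assoc, ← Matrix.mul_assoc A.transpose, hAA, Matrix.zero_mul, Matrix.mul_zero]
  have hdet : M.det = 1 := CL.GLn.det_eq_one_of_isNilpotent ⟨2, hNN⟩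
  have hMM : M ^ 2 = 1 := by
    have := CL.GLn.matrix_sub_one_pow_char_pow 2 M 1
    rw [pow_one, hNN] at this
    exact sub_eq_zero.1 this.symm
  have hrank : (M - 1).rank = ℓ := by
    have hsub : (M - 1).submatrix (fun k : Fin ℓ => (⟨k.val + (n - ℓ), by omega⟩ : Fin n))
        (fun k : Fin ℓ => (⟨k.val, by omega⟩ : Fin n)) = 1 := by
      ext i j
      have hi := i.2
      have hj := j.2
      simp only [hM, Matrix.one_apply, Fin.ext_iff, Matrix.submatrix_apply, Matrix.sub_apply, Matrix.of_apply]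
      split_ifs <;> first | omega | simp
    apply le_antisymm
    · rw [hA]
      exact (Matrix.rank_mul_le_left A _).trans (by simpa using Matrix.rank_le_width A)
    · have := Matrix.rank_submatrix_le (M - 1) (fun k : Fin ℓ => (⟨k.val + (n - ℓ), by omega⟩ : Fin n))
        (fun k : Fin ℓ => (⟨k.val, by omega⟩ : Fin n))
      rw [hsub] at this
      simpa using this
  let M' : Matrix.SpecialLinearGroup (Fin n) F := ⟨M, hdet⟩
  have hmem : M' ∈ Cfsg.SU n F q := by
    refine (CL.Uni.mem_SU_iff M').2 ((CL.Known.mem_GU_iff_mul h _).2 ?_)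
    change (M.map (CL.Uni.bar hF)).transpose * M = 1
    have : (M.map (CL.Uni.bar hF)).transpose = M := by
      ext i j
      simp only [hM, Matrix.transpose_apply, Matrix.map_apply, Matrix.of_apply, Fin.ext_iff]
      split_ifs <;> first | omega | simp
    rw [this, ← sq, hMM]
  refine ⟨⟨_, hmem⟩, rfl, ?_, hrank⟩
  have : Fact (Nat.Prime 2) := ⟨Nat.prime_two⟩
  apply orderOf_eq_prime
  · exact Subtype.ext (Subtype.ext hMM)
  · intro h0
    have h' : M = 1 := congrArg (fun x : Cfsg.SU n F q => ((x : Matrix.SpecialLinearGroup (Fin n) F) : Matrix (Fin n) (Fin n) F)) h0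
    rw [h', sub_self, Matrix.rank_zero] at hrank
    omega

end Cfsg.Agent.S2165
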