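import Cfsg.Statements.S2166
import Cfsg.Agent.Known.InvTwo2
import Cfsg.Agent.S2167

set_option autoImplicit false
open Cfsg

namespace Cfsg.Agent.S2166

open CL.Known CL.Cls Module
open Cfsg.Agent.S2167

/-- Conjugacy of involutions in the symplectic group Sp_{2m}(F), F a finite field of characteristic two, m ≥ 2 (Sp taken as the matrices A with A J Aᵀ = J, acting on column vectors, with the alternating form f(u, v) = u ⬝ (J v)). For an involution t write V(t) for the set of vectors v with f(v, t v) = 0 (a subspace). Two involutions a, b are conjugate in Sp_{2m}(F) exactly when a − 1 and b − 1 have the same rank and, in case that rank is even, V(a) and V(b) have the same number of elements. -/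
theorem result {F : Type*} [Field F] [Fintype F] [CharP F 2] {m : ℕ} (hm : 2 ≤ m) (a b : ↥(Matrix.symplecticGroup (Fin m) F)) (ha : orderOf a = 2) (hb : orderOf b = 2) :
    IsConj a b ↔ ((((a : ↥(Matrix.symplecticGroup (Fin m) F)) : Matrix (Fin m ⊕ Fin m) (Fin m ⊕ Fin m) F) - 1).rank = (((b : ↥(Matrix.symplecticGroup (Fin m) F)) : Matrix (Fin m ⊕ Fin m) (Fin m ⊕ Fin m) F) - 1).rank ∧
      (Even (((a : ↥(Matrix.symplecticGroup (Fin m) F)) : Matrix (Fin m ⊕ Fin m) (Fin m ⊕ Fin m) F) - 1).rank → Nat.card {v : Fin m ⊕ Fin m → F // Cfsg.sympForm m F v (Matrix.mulVec ((a : ↥(Matrix.symplecticGroup (Fin m) F)) : Matrix (Fin m ⊕ Fin m) (Fin m ⊕ Fin m) F) v) = 0} = Nat.card {v : Fin m ⊕ Fin m → F // Cfsg.sympForm m F v (Matrix.mulVec ((b : ↥(Matrix.symplecticGroup (Fin m) F)) : Matrix (Fin m ⊕ Fin m) (Fin m ⊕ Fin m) F) v) = 0})) := by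
  rw [← isConj_equiv_iff (CL.Sp.spEquiv _ F), isConj_inv_iff (isWittForm_alt _
    (CL.Sp.stdForm_nondegenerate (Fin m) F).1 (CL.Sp.stdForm_isAlt (Fin m) F)) (CL.Sp.stdForm_isAlt (Fin m) F)
    wallCompat_unit (fun y => by simp [CL.Sp.mem_isom]) (app_app_of_sq _ (ha ▸ pow_orderOf_eq_one a))
    (app_app_of_sq _ (hb ▸ pow_orderOf_eq_one b)), sp_rng_rank, sp_rng_rank]
  simp only [alt_iff]
  refine and_congr_right fun h => ?_
  have h1 := card_alt a ha
  have h2 := card_alt b hb
  have h3 := even_of_alt a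
  have h4 := h ▸ even_of_alt b
  have hq : 1 < Fintype.card F := Fintype.one_lt_card
  have hp : 0 < Fintype.card F ^ (2 * m) := by positivity
  by_cases e1 : ∀ v, Cfsg.sympForm m F v (a.1.mulVec v) = 0 <;>
    by_cases e2 : ∀ v, Cfsg.sympForm m F v (b.1.mulVec v) = 0
  · exact iff_of_true (iff_of_true e1 e2) fun _ => (h1.1 e1).trans (h2.1 e2).symm
  · refine iff_of_false (fun H => e2 (H.1 e1)) fun H => ?_
    have := h2.2 e2
    rw [← H (h3 e1), h1.1 e1] at this
    nlinarith
  · refine iff_of_false (fun H => e1 (H.2 e2)) fun H => ?_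
    have := h1.2 e1
    rw [H (h4 e2), h2.1 e2] at this
    nlinarith
  · exact iff_of_true (iff_of_false e1 e2) fun _ =>
      Nat.eq_of_mul_eq_mul_right (by omega) ((h1.2 e1).trans (h2.2 e2).symm)

end Cfsg.Agent.S2166
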