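import Cfsg.Statements.S2172
import Cfsg.Agent.Known.InvTwo2

set_option autoImplicit false
open Cfsg

namespace Cfsg.Agent.S2172

open CL.Known CL.Cls Module

/-- Splitting of involution classes from O to Ω for the hyperbolic quadratic form Q = Σ x_i y_i in dimension 2m over a finite field F of characteristic two, m ≥ 4. Let t, s be involutions of the commutator subgroup Ω that are conjugate in the full isometry group O. If it is not the case that t − 1 has rank m and Q(v + t v) = 0 for every vector v, then t and s are conjugate by an element of Ω. If t − 1 has rank m and Q(v + t v) = 0 for all v, then t and s are conjugate by an element of Ω exactly when the intersection of the images of t − 1 and s − 1 has even dimension (so the class of t in O meets at most two classes of Ω). -/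
theorem result {F : Type*} [Field F] [Fintype F] [CharP F 2] {m : ℕ} (hm : 4 ≤ m) (t s : ↥(Cfsg.isometryGroup F (Cfsg.quadFormPlus m F))) (ht : orderOf t = 2) (hs : orderOf s = 2) (htO : t ∈ Cfsg.Omega F (Cfsg.quadFormPlus m F)) (hsO : s ∈ Cfsg.Omega F (Cfsg.quadFormPlus m F)) (hconj : IsConj t s) :
    (¬ (((((t : ↥(Cfsg.isometryGroup F (Cfsg.quadFormPlus m F))) : GL (Fin m ⊕ Fin m) F) : Matrix (Fin m ⊕ Fin m) (Fin m ⊕ Fin m) F) - 1).rank = m ∧ ∀ v : Fin m ⊕ Fin m → F, Cfsg.quadFormPlus m F (v + Matrix.mulVec (((t : ↥(Cfsg.isometryGroup F (Cfsg.quadFormPlus m F))) : GL (Fin m ⊕ Fin m) F) : Matrix (Fin m ⊕ Fin m) (Fin m ⊕ Fin m) F) v) = 0) →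
      ∃ g ∈ Cfsg.Omega F (Cfsg.quadFormPlus m F), g * t * g⁻¹ = s) ∧
    ((((((t : ↥(Cfsg.isometryGroup F (Cfsg.quadFormPlus m F))) : GL (Fin m ⊕ Fin m) F) : Matrix (Fin m ⊕ Fin m) (Fin m ⊕ Fin m) F) - 1).rank = m ∧ ∀ v : Fin m ⊕ Fin m → F, Cfsg.quadFormPlus m F (v + Matrix.mulVec (((t : ↥(Cfsg.isometryGroup F (Cfsg.quadFormPlus m F))) : GL (Fin m ⊕ Fin m) F) : Matrix (Fin m ⊕ Fin m) (Fin m ⊕ Fin m) F) v) = 0) →
      ((∃ g ∈ Cfsg.Omega F (Cfsg.quadFormPlus m F), g * t * g⁻¹ = s) ↔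
        Even (Module.finrank F ↥(LinearMap.range (Matrix.toLin' ((((t : ↥(Cfsg.isometryGroup F (Cfsg.quadFormPlus m F))) : GL (Fin m ⊕ Fin m) F) : Matrix (Fin m ⊕ Fin m) (Fin m ⊕ Fin m) F) - 1)) ⊓ LinearMap.range (Matrix.toLin' ((((s : ↥(Cfsg.isometryGroup F (Cfsg.quadFormPlus m F))) : GL (Fin m ⊕ Fin m) F) : Matrix (Fin m ⊕ Fin m) (Fin m ⊕ Fin m) F) - 1)))))) := by
  have hQ := nondeg_qfPlus (m := m) (F := F)
  have hF : (∃ a : F, a ≠ 0 ∧ a ≠ 1) ∨ finrank F (Fin m ⊕ Fin m → F) ≠ 4 := Or.inr (by simp; omega)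
  have hm' := CL.Sp.finrank_std (F := F) m
  have h1 := app_app_of_sq (isomEquiv (qfPlus m F)) (ht ▸ pow_orderOf_eq_one t)
  have h2 := exists_Omega_conj_iff (commutator_OG_eq_ker_dickson hQ CharTwo.two_eq_zero hF) t s
  have h3 := and_congr (Eq.congr_left (z := m) (isom_rng_rank (Q := qfPlus m F) t)) (isom_alt_iff' (Q := qfPlus m F) t)
  have h4 := (isConj_equiv_iff (isomEquiv (qfPlus m F))).2 hconj
  refine ⟨fun H => h2.2 (exists_dickson_conj hQ hm' h1 (mt h3.1 H) h4), fun H => h2.trans ?_⟩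
  obtain ⟨H1, H2⟩ := h3.2 H
  rw [← isom_rng_eq (Q := qfPlus m F) t, ← isom_rng_eq (Q := qfPlus m F) s]
  refine ⟨fun ⟨g, g1, g2⟩ => (dickson_conj_iff hQ hF hm' H1 H2 (mul_inv_eq_iff_eq_mul.1 g2)).1 g1, fun H3 => ?_⟩
  obtain ⟨g, g2⟩ := isConj_iff.1 h4
  exact ⟨g, (dickson_conj_iff hQ hF hm' H1 H2 (mul_inv_eq_iff_eq_mul.1 g2)).2 H3, g2⟩

end Cfsg.Agent.S2172
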