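import Cfsg.Statements.S2179
import Cfsg.Agent.Chev.InvTab

set_option autoImplicit false
open Cfsg

namespace Cfsg.Agent.S2179

open CL.Chev CL.Chev.Cert Cfsg.Lie

/-- Centralizers of the two remaining classes of involutions in the Chevalley group G of type F₄ over a finite field F of characteristic two (this problem's root numbering for type F₄, from the Chevalley data module: p₁, p₂ short, p₃, p₄ long with indices 33, 27, 25, 24 and negatives 14, 20, 22, 23; U generated by the positive root subgroups). For an element of G with matrix x_47(1)x_44(1) (highest root times highest short root): its centralizer in G is generated by U, X_{−p₂} and X_{−p₃}. For an element of G with matrix x_39(1)x_45(1) (roots (1,2,2,1) and (2,4,2,1), an orthogonal short/long pair): its centralizer in G is generated by X_{p₁}, X_{−p₁}, X_{p₄}, X_{−p₄} and the root subgroups of all positive roots other than p₂ (27), p₃ (25), p₁ + p₂ (34) and p₃ + p₄ (26). -/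
theorem result {F : Type*} [Field F] [Fintype F] [CharP F 2] (w v : GL Cfsg.Lie.chevF4.Idx F) (hw : (w : Matrix Cfsg.Lie.chevF4.Idx Cfsg.Lie.chevF4.Idx F) = Cfsg.Lie.chevF4.x F 47 1 * Cfsg.Lie.chevF4.x F 44 1) (hv : (v : Matrix Cfsg.Lie.chevF4.Idx Cfsg.Lie.chevF4.Idx F) = Cfsg.Lie.chevF4.x F 39 1 * Cfsg.Lie.chevF4.x F 45 1) :
    Cfsg.Lie.chevF4.group F ⊓ Subgroup.centralizer {w} = Cfsg.Lie.chevF4.posUnipotent F ⊔ Cfsg.Lie.chevF4.rootSubgroup F 20 ⊔ Cfsg.Lie.chevF4.rootSubgroup F 22 ∧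
    Cfsg.Lie.chevF4.group F ⊓ Subgroup.centralizer {v} = Cfsg.Lie.chevF4.rootSubgroup F 33 ⊔ Cfsg.Lie.chevF4.rootSubgroup F 14 ⊔ Cfsg.Lie.chevF4.rootSubgroup F 24 ⊔ Cfsg.Lie.chevF4.rootSubgroup F 23 ⊔
      Subgroup.closure {g : GL Cfsg.Lie.chevF4.Idx F | ∃ (r : ℕ) (c : F), Cfsg.Lie.chevF4.IsPosRoot r ∧ r ∉ [27, 25, 34, 26] ∧ (g : Matrix Cfsg.Lie.chevF4.Idx Cfsg.Lie.chevF4.Idx F) = Cfsg.Lie.chevF4.x F r c} := by
  have E := realF4
  have h2 : (2 : F) = 0 := CharP.cast_eq_zero F 2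
  obtain rfl : w = E.px F [47, 44] := Units.ext (by simp [hw, E.xN_val])
  obtain rfl : v = E.px F [39, 45] := Units.ext (by simp [hv, E.xN_val])
  have e : Subgroup.closure {g : GL chevF4.Idx F | ∃ (r : ℕ) (c : F), chevF4.IsPosRoot r ∧ r ∉ [27, 25, 34, 26] ∧
      (g : Matrix chevF4.Idx chevF4.Idx F) = chevF4.x F r c} =
      E.XL F [24, 28, 29, 30, 31, 32, 33, 35, 36, 37, 38, 39, 40, 41, 42, 43, 44, 45, 46, 47] := by
    simp only [← and_assoc]
    rw [E.closure_x_eq, Real.XL]
    congr 1; ext r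
    simp only [Set.mem_ofPred_eq]
    revert r
    decide +kernel
  simp only [e, E.rootSubgroup_eq_XL, sup_assoc, E.XL_sup]
  refine ⟨tabF4.centralizer_central E h2 (α := 47) (β := 44) (a := 1) (b := 1) (K := [(3, 1, 0), (0, 0, 1)])
    (by decide +kernel), tabF4.centralizer_XL E h2 (Z := [40, 44, 46, 47]) (α := 39) (β := 45) (a := 3) (b := 2)
      (K := [(1, 1, 1), (2, 2, 1)]) (Y := [27, 25, 34, 26]) (by decide +kernel) fun a h => ?_⟩
  have h3 := tabF4.word_eq E (evF fun p => if p = 2 then a 27 else if p = 3 then a 25 else if p = 5 then a 34 else a 26)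
    (p := 2) (by exact_mod_cast h2)
    [(27, [(1, 2)]), (25, [(1, 3)]), (34, [(1, 5)]), (26, [(1, 7)]), (39, [(1, 1)]), (45, [(1, 1)])]
    [(39, [(1, 1)]), (45, [(1, 1)]), (40, [(1, 2)]), (46, [(1, 3)]), (44, [(1, 5)]), (47, [(1, 7)]),
      (27, [(1, 2)]), (25, [(1, 3)]), (34, [(1, 5)]), (26, [(1, 7)])] (by decide +kernel)
  simp [Aux.evalP, evF_prime _ Nat.prime_two, evF_prime _ Nat.prime_three, evF_prime _ Nat.prime_five,
    evF_prime _ Nat.prime_seven, Real.word] at h h3
  have h4 := h.eq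
  simp only [mul_assoc] at h4
  rw [h4, mul_left_cancel_iff, mul_left_cancel_iff, ← mul_assoc (E.xN 44 _), ← mul_assoc (E.xN 46 _),
    ← mul_assoc (E.xN 40 _), right_eq_mul] at h3
  simpa using tabF4.eq_zero_of_word E (Z := [40, 46, 44, 47]) (by decide +kernel)
    (a := fun r => if r = 40 then a 27 else if r = 46 then a 25 else if r = 44 then a 34 else a 26)
    (by simpa [Real.word] using h3)

end Cfsg.Agent.S2179
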