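import Cfsg.Statements.S2186
import Cfsg.Agent.Chev.InvTab

set_option autoImplicit false
open Cfsg

namespace Cfsg.Agent.S2186

open CL.Chev CL.Chev.Cert Cfsg.Lie

theorem aux {F : Type*} [Field F] [Fintype F] [CharP F 2] {D : ChevalleyDatum} {A : Aux} (T : Tab D A) (E : Real D)
    (h : (Nat.blt 0 A.n && allLt A.n fun r => !(A.pos r) || A.commIn [] r (A.ng 0)) = true) (g : GL D.Idx F)
    (hg : g ∈ D.group F) :
    IsPGroup 2 ↥(D.rootSubgroup F (D.nroots - 1) ⊔ (D.rootSubgroup F (D.nroots - 1)).map (MulAut.conj g).toMonoidHom) ∨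
    ∃ h ∈ D.group F, (D.rootSubgroup F (D.nroots - 1) ⊔ (D.rootSubgroup F (D.nroots - 1)).map
      (MulAut.conj g).toMonoidHom).map (MulAut.conj h).toMonoidHom =
        D.rootSubgroup F (D.nroots - 1) ⊔ D.rootSubgroup F 0 := by
  simp only [Bool.and_eq_true, Nat.blt_eq, allLt_iff, Bool.or_eq_true, Bool.not_eq_true'] at h
  let z : Fin D.nroots := ⟨0, T.lt_nroots h.1⟩
  have e : (E.R.neg z : ℕ) = A.ng 0 := T.neg E z
  have e1 : D.nroots - 1 = E.R.neg z := by rw [e, T.ag.nroots]; rfl
  rw [E.group_eq] at hg ⊢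
  rw [e1, E.rootSubgroup_eq, show D.rootSubgroup F 0 = (E.S F).X (E.R.neg (E.R.neg z)) by
    rw [E.R.neg_neg, ← E.rootSubgroup_eq]]
  refine (E.faithful F).uFaithful.root_pair 2 (fun r hr a b => ?_) hg
  rw [← E.xN_coe, ← E.xN_coe, e]
  exact T.commute_of_commIn E (CharP.cast_eq_zero F 2) (T.lt_n r) (A.ng_lt h.1)
    ((h.2 r (T.lt_n r)).resolve_left (by simp [(T.pos_iff' E r).2 hr])) a b

/-- Let G be the Chevalley group of type G₂ (over a field with at least four elements), D₄, E₆, E₇ or E₈ over a finite field F of characteristic two, and let X be the root subgroup of the highest root (the last root index) — a long root subgroup, of order |F|. For every g in G, the subgroup generated by X and its conjugate g X g⁻¹ is either a 2-group or is conjugate by an element of G to the subgroup generated by X and the root subgroup of the lowest root (index 0, the negative of the highest root), which is a copy of SL₂(F). -/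
theorem result {F : Type*} [Field F] [Fintype F] [CharP F 2] (D : Cfsg.Lie.ChevalleyDatum) (hD : D ∈ [Cfsg.Lie.chevG2, Cfsg.Lie.chevD4, Cfsg.Lie.chevE6, Cfsg.Lie.chevE7, Cfsg.Lie.chevE8]) (hF : D = Cfsg.Lie.chevG2 → 4 ≤ Fintype.card F) (g : GL D.Idx F) (hg : g ∈ D.group F) :
    IsPGroup 2 ↥(D.rootSubgroup F (D.nroots - 1) ⊔ (D.rootSubgroup F (D.nroots - 1)).map (MulAut.conj g).toMonoidHom) ∨
    ∃ h ∈ D.group F, (D.rootSubgroup F (D.nroots - 1) ⊔ (D.rootSubgroup F (D.nroots - 1)).map (MulAut.conj g).toMonoidHom).map (MulAut.conj h).toMonoidHom = D.rootSubgroup F (D.nroots - 1) ⊔ D.rootSubgroup F 0 := by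
  simp only [List.mem_cons, List.not_mem_nil, or_false] at hD
  rcases hD with rfl | rfl | rfl | rfl | rfl
  · exact aux tabG2 realG2 (by decide +kernel) g hg
  · exact aux tabD4 realD4 (by decide +kernel) g hg
  · exact aux tabE6 realE6 (by decide +kernel) g hg
  · exact aux tabE7 realE7 (by decide +kernel) g hg
  · exact aux tabE8 realE8 (by decide +kernel) g hg

end Cfsg.Agent.S2186
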