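import Cfsg.Statements.S2189
import Cfsg.Agent.Chev.RealOver

set_option autoImplicit false
open Cfsg

namespace Cfsg.Agent.S2189

/-- Finite subgroups of an adjoint Chevalley group over an algebraically closed field that contain the group over a finite subfield. Let k be an algebraically closed field of prime characteristic p, G the Chevalley group of type G₂, B₂, D₄, F₄, E₆, E₇ or E₈ over k (the matrix group generated by the root elements x_s(t), t ∈ k), and q = p^a with a ≥ 1. Let L be the subgroup generated by the root elements x_s(t) with t^q = t (the Chevalley group over the field of q elements inside G), and let M be a finite subgroup of G containing L. Then for some r ≥ 1, M contains every root element x_s(t) with t^(q^r) = t and every element of M is a matrix all of whose entries c satisfy c^(q^r) = c (so M lies between the Chevalley group over the field with q^r elements and the group of points of G fixed by the q^r-th power map). -/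
theorem result {k : Type*} [Field k] [IsAlgClosed k] (p : ℕ) [Fact p.Prime] [CharP k p] (D : Cfsg.Lie.ChevalleyDatum) (hD : D ∈ [Cfsg.Lie.chevG2, Cfsg.Lie.chevB2, Cfsg.Lie.chevD4, Cfsg.Lie.chevF4, Cfsg.Lie.chevE6, Cfsg.Lie.chevE7, Cfsg.Lie.chevE8]) (a : ℕ) (ha : 1 ≤ a) (M : Subgroup (GL D.Idx k)) (hMfin : Finite ↥M) (hMG : M ≤ D.group k)
    (hLM : Subgroup.closure {g : GL D.Idx k | ∃ (s : ℕ) (t : k), t ^ (p ^ a) = t ∧ (g : Matrix D.Idx D.Idx k) = D.x k s t} ≤ M) :
    ∃ r : ℕ, 1 ≤ r ∧ Subgroup.closure {g : GL D.Idx k | ∃ (s : ℕ) (t : k), t ^ ((p ^ a) ^ r) = t ∧ (g : Matrix D.Idx D.Idx k) = D.x k s t} ≤ M ∧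
      ∀ g ∈ M, ∀ i j : D.Idx, ((g : Matrix D.Idx D.Idx k) i j) ^ ((p ^ a) ^ r) = (g : Matrix D.Idx D.Idx k) i j := by
  obtain ⟨E⟩ := CL.Chev.exists_real hD
  have hF : ∀ r t, t ^ p ^ a = t → (E.S k).x r t ∈ M := fun r t e => hLM (Subgroup.subset_closure ⟨r, t, e, E.x_val r t⟩)
  obtain ⟨b, hb, h1, h2⟩ := E.finite_overgroup p hD (E.group_eq k ▸ hMG) fun r => hF r 1 (one_pow _)
  have : NeZero ((p ^ a - 1 : ℕ) : k) := ⟨by
    simp [Nat.cast_sub (Nat.one_le_pow a p (Fact.out : p.Prime).pos), show a ≠ 0 by omega]⟩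
  obtain ⟨ζ, hζ⟩ := HasEnoughRootsOfUnity.exists_primitiveRoot k (p ^ a - 1)
  obtain ⟨i⟩ := E.nonempty_rank
  obtain ⟨r, rfl⟩ := (CL.Chev.dvd_of_isPrimitiveRoot p hζ ha (b := b) ((E.faithful k).uFaithful.x_injective (E.R.simple i)
    ((E.map_x (iterateFrobenius k p b) _ ζ).symm.trans (h2 _ (hF _ ζ (CL.Chev.dvd_of_isPrimitiveRoot p hζ ha (b := 0)
      (by simp)).1))))).2
  rw [pow_mul] at h1
  refine ⟨r, Nat.pos_of_mul_pos_left hb, (Subgroup.closure_le _).2 ?_, fun g hg i j =>
    pow_mul p a r ▸ Matrix.ext_iff.2 (Units.ext_iff.1 (h2 g hg)) i j⟩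
  rintro g ⟨s, t, ht, hg⟩
  rw [← E.xN_val, Units.val_inj] at hg
  rw [hg, CL.Chev.Real.xN]
  split_ifs
  exacts [h1 _ t ht, one_mem M]

end Cfsg.Agent.S2189
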