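import Cfsg.Statements.S2190
import Cfsg.Agent.Chev.RealOver

set_option autoImplicit false
open Cfsg

namespace Cfsg.Agent.S2190

/-- Subfield subgroups of prime degree are maximal. Let K be a finite field with q^r elements, r a prime, q a power of the characteristic, and G the Chevalley group of type G₂, B₂, D₄, F₄, E₆, E₇ or E₈ over K (the matrix group generated by the root elements). Let M be the subgroup of G consisting of the matrices all of whose entries lie in the subfield with q elements (entries c with c^q = c). Then M is a proper subgroup of G and is maximal: every subgroup of G containing M is M or G. -/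
theorem result {K : Type*} [Field K] [Fintype K] (p : ℕ) [Fact p.Prime] [CharP K p] (D : Cfsg.Lie.ChevalleyDatum) (hD : D ∈ [Cfsg.Lie.chevG2, Cfsg.Lie.chevB2, Cfsg.Lie.chevD4, Cfsg.Lie.chevF4, Cfsg.Lie.chevE6, Cfsg.Lie.chevE7, Cfsg.Lie.chevE8]) (a r : ℕ) (ha : 1 ≤ a) (hr : r.Prime) (hK : Fintype.card K = (p ^ a) ^ r) (M : Subgroup (GL D.Idx K))
    (hM : ∀ g : GL D.Idx K, g ∈ M ↔ g ∈ D.group K ∧ ∀ i j : D.Idx, ((g : Matrix D.Idx D.Idx K) i j) ^ (p ^ a) = (g : Matrix D.Idx D.Idx K) i j) :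
    M ≠ D.group K ∧ ∀ H : Subgroup (GL D.Idx K), M ≤ H → H ≤ D.group K → H = M ∨ H = D.group K := by
  obtain ⟨E⟩ := CL.Chev.exists_real hD
  obtain ⟨i⟩ := E.nonempty_rank
  have hp := (Fact.out : p.Prime).one_lt
  have h0 : ∀ (c : ℕ) (g : GL D.Idx K), (∀ i j : D.Idx, ((g : Matrix D.Idx D.Idx K) i j) ^ (p ^ c) = (g : Matrix D.Idx D.Idx K) i j) ↔
      Matrix.GeneralLinearGroup.map (iterateFrobenius K p c) g = g :=
    fun c g => ⟨fun e => Units.ext (Matrix.ext e), fun e => Matrix.ext_iff.2 (Units.ext_iff.1 e)⟩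
  have h1 : ∀ c r t, Matrix.GeneralLinearGroup.map (iterateFrobenius K p c) ((E.S K).x r t) = (E.S K).x r t ↔ t ^ p ^ c = t :=
    fun c r t => by rw [E.map_x, ((E.faithful K).uFaithful.x_injective r).eq_iff, iterateFrobenius_def]
  have h2 : ∀ t : K, t ^ p ^ (a * r) = t := fun t => by rw [pow_mul, ← hK, FiniteField.pow_card]
  obtain ⟨ζ, hζ⟩ : ∃ ζ : K, IsPrimitiveRoot ζ (p ^ (a * r) - 1) := by
    obtain ⟨g, hg⟩ := IsCyclic.exists_generator (α := Kˣ)
    have := IsPrimitiveRoot.coe_units_iff.2 (IsPrimitiveRoot.orderOf g)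
    rw [orderOf_eq_card_of_forall_mem_zpowers hg, Nat.card_units, Nat.card_eq_fintype_card, hK, ← pow_mul] at this
    exact ⟨_, this⟩
  simp only [E.group_eq, h0] at hM ⊢
  refine ⟨fun e => ?_, fun H hMH hH => ?_⟩
  · have := (CL.Chev.dvd_of_isPrimitiveRoot p hζ (Nat.mul_pos ha hr.pos) ((h1 a _ ζ).1
      ((hM _).1 (e.ge ((E.S K).x_mem_grp (E.R.simple i) ζ))).2)).2
    exact (Nat.le_of_dvd ha this).not_gt (lt_mul_of_one_lt_right ha hr.one_lt)
  have h3 : ∀ r t, t ^ p ^ a = t → (E.S K).x r t ∈ H := fun r t e => hMH ((hM _).2 ⟨(E.S K).x_mem_grp r t, (h1 a r t).2 e⟩)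
  obtain ⟨b, hb, h4, h5⟩ := E.finite_overgroup p hD hH fun r => h3 r 1 (one_pow _)
  obtain ⟨n, hn⟩ := Nat.pow_sub_one_dvd_pow_sub_one p (dvd_mul_right a r)
  have h6 := hζ.pow (Nat.sub_pos_of_lt (Nat.one_lt_pow (Nat.mul_pos ha hr.pos).ne' hp)) (hn.trans (mul_comm _ _))
  obtain ⟨c, rfl⟩ := (CL.Chev.dvd_of_isPrimitiveRoot p h6 ha ((h1 b (E.R.simple i) _).1 (h5 _ (h3 _ _
    (CL.Chev.dvd_of_isPrimitiveRoot p h6 ha (b := 0) (by simp)).1)))).2
  have h7 : ∀ c (t : K), t ^ p ^ c = t ↔ Function.IsPeriodicPt (frobenius K p) c t := fun c t => by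
    rw [Function.IsPeriodicPt, Function.IsFixedPt, iterate_frobenius]
  by_cases hc : r ∣ c
  · exact Or.inr (hH.antisymm ((E.S K).XS_le_iff.2 fun s _ t => h4 s t ((h7 _ t).2
      (((h7 _ t).1 (h2 t)).trans_dvd (mul_dvd_mul_left a hc)))))
  refine Or.inl (le_antisymm (fun g hg => (hM g).2 ⟨hH hg, (h0 a g).1 fun i j => (h7 _ _).2 ?_⟩) hMH)
  simpa [Nat.gcd_mul_left, (hr.coprime_iff_not_dvd.2 hc).gcd_eq_one] using
    ((h7 _ _).1 (h2 _)).gcd ((h7 _ _).1 ((h0 _ g).2 (h5 g hg) i j))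

end Cfsg.Agent.S2190
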