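import Cfsg.Statements.S2205
import Cfsg.Agent.Perm.HksPrime4

set_option autoImplicit false
open Cfsg

namespace Cfsg.Agent.S2205

/-- A finite group acting faithfully and 2-transitively on a set with p² + 1 points, p a prime, is doubly primitive — a point stabilizer acts primitively on the remaining p² points — unless p = 2 and the group is the Frobenius group of order 20. -/
theorem result {G Ω : Type*} [Group G] [Finite G] [Fintype Ω] [MulAction G Ω] [FaithfulSMul G Ω] (p : ℕ) (hp : p.Prime) (hΩ : Fintype.card Ω = p ^ 2 + 1) (h2 : MulAction.IsMultiplyPretransitive G Ω 2) (a : Ω) :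
    MulAction.IsPreprimitive ↥(MulAction.stabilizer G a) ↥(SubMulAction.ofStabilizer G a) ∨ (p = 2 ∧ Nat.card G = 20) := by
  have := Fact.mk hp
  have h : CL.Perm.SqDeg G Ω p := ⟨by rw [Nat.card_eq_fintype_card, hΩ],
    fun h h' => MulAction.is_two_pretransitive_iff.1 h2 h h',
    fun g hg => FaithfulSMul.eq_of_smul_eq_smul (α := Ω) fun x => by rw [hg, one_smul]⟩
  have h4 : 3 ≤ Nat.card Ω := by rw [h.card]; nlinarith [hp.two_le]
  obtain ⟨b, hb, -⟩ := CL.Perm.exists_third_of_three (CL.Perm.three_of_card h4) a a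
  obtain ⟨c, hc, hcb⟩ := CL.Perm.exists_third_of_three (CL.Perm.three_of_card h4) a b
  have : Nontrivial (SubMulAction.ofStabilizer G a) := ⟨⟨c, hc⟩, ⟨b, hb⟩, fun e => hcb (congrArg Subtype.val e)⟩
  have : MulAction.IsPretransitive (MulAction.stabilizer G a) (SubMulAction.ofStabilizer G a) :=
    ⟨fun x y => by
      obtain ⟨g, h1, h3⟩ := h.trans (Ne.symm x.2) (Ne.symm y.2)
      exact ⟨⟨g, h1⟩, Subtype.ext h3⟩⟩
  rw [← MulAction.isCoatom_stabilizer_iff_preprimitive _ (⟨b, hb⟩ : SubMulAction.ofStabilizer G a),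
    or_iff_not_imp_left]
  intro hn
  obtain ⟨L, h1, h3⟩ : ∃ L, MulAction.stabilizer (MulAction.stabilizer G a)
      (⟨b, hb⟩ : SubMulAction.ofStabilizer G a) < L ∧ L ≠ ⊤ := by
    by_contra hc'
    push Not at hc'
    refine hn ⟨fun e => ?_, hc'⟩
    obtain ⟨g, hg⟩ := MulAction.exists_smul_eq (MulAction.stabilizer G a)
      (⟨b, hb⟩ : SubMulAction.ofStabilizer G a) ⟨c, hc⟩
    exact hcb (congrArg Subtype.val (hg.symm.trans (e.ge (Subgroup.mem_top g))))
  refine h.card_eq_twenty_of_lt hb.symm (L := L.map (MulAction.stabilizer G a).subtype)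
    (lt_of_le_of_ne (fun g hg => ⟨⟨g, hg.1⟩, h1.le (Subtype.ext hg.2), rfl⟩) fun e => h1.not_ge fun g hg => ?_)
    (lt_of_le_of_ne (Subgroup.map_subtype_le _) fun e => h3 (eq_top_iff.2 fun g _ => ?_))
  · exact Subtype.ext (e.ge ⟨g, hg, rfl⟩).2
  · obtain ⟨k, hk, e'⟩ := e.ge g.2
    exact Subtype.ext e' ▸ hk

end Cfsg.Agent.S2205
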