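import Cfsg.Statements.S2209
import Cfsg.Agent.Chev.InvTab

set_option autoImplicit false
open Cfsg

namespace Cfsg.Agent.S2209

open CL.Chev CL.Chev.Cert Cfsg.Lie

/-- Centralizer of a long root involution in the Chevalley groups of type E₆, E₇, E₈ over a finite field F of characteristic two. Let G be the group generated by the root elements, U the subgroup generated by the positive root subgroups, r the highest root (the last root index: 71, 125, 239 respectively), and t the element of G with matrix x_r(1). Then the centralizer of t in G is the subgroup generated by U together with the root subgroups X_{−p} for the fundamental roots p orthogonal to r — all fundamental roots except p₂ for E₆, except p₁ for E₇, except p₈ for E₈ (numbering with p₁–p₃–p₄–…–p_l the long chain and p₂ joined to p₄); the indices of these negative fundamental roots are 15, 29, 32, 34, 35 (E₆), 47, 52, 56, 59, 61, 62 (E₇), 77, 98, 104, 109, 113, 116, 118 (E₈). (This is the unipotent radical of the corresponding maximal parabolic subgroup extended by the root subgroups of its Levi factor, of type A₅, D₆, E₇ respectively.) -/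
theorem result {F : Type*} [Field F] [Fintype F] [CharP F 2] (d : Cfsg.Lie.ChevalleyDatum × List ℕ)
    (hd : d ∈ [(Cfsg.Lie.chevE6, [15, 29, 32, 34, 35]), (Cfsg.Lie.chevE7, [47, 52, 56, 59, 61, 62]), (Cfsg.Lie.chevE8, [77, 98, 104, 109, 113, 116, 118])])
    (t : GL d.1.Idx F) (ht : (t : Matrix d.1.Idx d.1.Idx F) = d.1.x F (d.1.nroots - 1) 1) :
    d.1.group F ⊓ Subgroup.centralizer {t} = d.1.posUnipotent F ⊔ Subgroup.closure {g : GL d.1.Idx F | ∃ s ∈ d.2, ∃ c : F, (g : Matrix d.1.Idx d.1.Idx F) = d.1.x F s c} := by
  have h2 : (2 : F) = 0 := CharP.cast_eq_zero F 2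
  simp only [List.mem_cons, List.not_mem_nil, or_false] at hd
  rcases hd with rfl | rfl | rfl
  · have E := realE6
    obtain rfl : t = E.px F [71] := Units.ext (by rw [ht, E.px_val]; exact (mul_one _).symm)
    rw [E.closure_eq_XL]
    exact tabE6.centralizer_central E h2 (α := 71) (β := 71) (a := 1) (b := 0) (K := [(1, 1, 0)]) (by decide +kernel)
  · have E := realE7
    obtain rfl : t = E.px F [125] := Units.ext (by rw [ht, E.px_val]; exact (mul_one _).symm)
    rw [E.closure_eq_XL]
    exact tabE7.centralizer_central E h2 (α := 125) (β := 125) (a := 1) (b := 0) (K := [(0, 1, 0)]) (by decide +kernel)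
  · have E := realE8
    obtain rfl : t = E.px F [239] := Units.ext (by rw [ht, E.px_val]; exact (mul_one _).symm)
    rw [E.closure_eq_XL]
    exact tabE8.centralizer_central E h2 (α := 239) (β := 239) (a := 1) (b := 0) (K := [(7, 1, 0)]) (by decide +kernel)

end Cfsg.Agent.S2209
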