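import Cfsg.Statements.S2214
import Cfsg.Agent.Chev.StFix
import Cfsg.Agent.Chev.StSub

set_option autoImplicit false
open Cfsg

namespace Cfsg.Agent.S2214

/-- Let k be an algebraically closed field of prime characteristic p, G the adjoint Chevalley group of type G₂, B₂, D₄, F₄, E₆, E₇ or E₈ over k (the matrix group generated by the root elements x_s(t), t ∈ k, acting on the Lie algebra), q = p^a with a ≥ 1, and K a subgroup of G containing every root element x_s(t) with t^q = t and consisting of matrices all of whose entries c satisfy c^q = c. Then the centralizer of K in G is trivial, and the normalizer of K in G is exactly the set of elements of G all of whose entries c satisfy c^q = c. -/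
theorem result {k : Type*} [Field k] [IsAlgClosed k] (p : ℕ) [Fact p.Prime] [CharP k p] (D : Cfsg.Lie.ChevalleyDatum) (hD : D ∈ [Cfsg.Lie.chevG2, Cfsg.Lie.chevB2, Cfsg.Lie.chevD4, Cfsg.Lie.chevF4, Cfsg.Lie.chevE6, Cfsg.Lie.chevE7, Cfsg.Lie.chevE8]) (a : ℕ) (ha : 1 ≤ a) (K : Subgroup (GL D.Idx k)) (hKG : K ≤ D.group k)
    (hLK : Subgroup.closure {g : GL D.Idx k | ∃ (s : ℕ) (t : k), t ^ (p ^ a) = t ∧ (g : Matrix D.Idx D.Idx k) = D.x k s t} ≤ K)
    (hKfix : ∀ g ∈ K, ∀ i j : D.Idx, ((g : Matrix D.Idx D.Idx k) i j) ^ (p ^ a) = (g : Matrix D.Idx D.Idx k) i j) :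
    D.group k ⊓ Subgroup.centralizer (K : Set (GL D.Idx k)) = ⊥ ∧
    ∀ g : GL D.Idx k, g ∈ D.group k → (g ∈ Subgroup.normalizer (K : Set (GL D.Idx k)) ↔ ∀ i j : D.Idx, ((g : Matrix D.Idx D.Idx k) i j) ^ (p ^ a) = (g : Matrix D.Idx D.Idx k) i j) := by
  obtain ⟨E⟩ := CL.Chev.exists_real hD
  have := E.nonempty_rank
  let α : GL D.Idx k →* GL D.Idx k := Matrix.GeneralLinearGroup.map (iterateFrobenius k p a)
  have h : (E.S k).Frob α (iterateFrobenius k p a) := E.map_x _
  have h1 : ∀ g : GL D.Idx k, (∀ i j : D.Idx, ((g : Matrix D.Idx D.Idx k) i j) ^ (p ^ a) = (g : Matrix D.Idx D.Idx k) i j) ↔ α g = g :=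
    fun g => ⟨fun e => Units.ext (Matrix.ext e), fun e => Matrix.ext_iff.2 (Units.ext_iff.1 e)⟩
  have hF : ∀ r t, iterateFrobenius k p a t = t → (E.S k).x r t ∈ K := fun r t e =>
    hLK (Subgroup.subset_closure ⟨r, t, e, E.x_val r t⟩)
  rw [E.group_eq] at hKG ⊢
  have h2 := fun g => (E.faithful k).eq_one_of_commute_sub (E.adjoint k) (E.hMul k) E.irred (fun r => hF r 1 (map_one _)) (g := g)
  simp only [h1] at hKfix ⊢
  refine ⟨eq_bot_iff.2 fun g hg => h2 g hg.1 fun u hu => (hg.2 u hu).symm, fun g hg => ⟨fun e => ?_,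
    h.mem_normalizer (E.faithful k) hF (E.hMul k) hKG hKfix hg⟩⟩
  exact (inv_mul_eq_one.1 (h2 _ (mul_mem (inv_mem hg) (h.map_XS hg)) fun u hu =>
    CL.Chev.commute_of_map_conj (hKfix u hu) (hKfix _ (CL.Chev.conj_mem_of_normalizer e hu)))).symm

end Cfsg.Agent.S2214
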