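import Cfsg.Statements.S2227
import Cfsg.Agent.Chev.E6Two6

set_option autoImplicit false
open Cfsg

namespace Cfsg.Agent.S2227

/-- In the twisted group ²E₆(2) all elements of order 5 are conjugate, and the centralizer of an element of order 5 is isomorphic to the direct product of a cyclic group of order 5 with the alternating group of degree 8. -/
theorem result {K : Type*} [Field K] [Fintype K] (hK : Fintype.card K = 4) :
    (∀ x y : ↥(Cfsg.Lie.twistedE6 K 2), orderOf x = 5 → orderOf y = 5 → IsConj x y) ∧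
      ∀ x : ↥(Cfsg.Lie.twistedE6 K 2), orderOf x = 5 →
        Nonempty (↥(Subgroup.centralizer ({x} : Set ↥(Cfsg.Lie.twistedE6 K 2))) ≃* (Multiplicative (ZMod 5) × ↥(alternatingGroup (Fin 8)))) := by
  obtain ⟨A, hA, θ, h1, h2⟩ := CL.Chev.exists_sc hK
  obtain ⟨h3, h4⟩ := CL.Chev.card_twE6_two hK
  have := Nat.finite_of_card_ne_zero (h3.trans_ne (by norm_num))
  obtain ⟨ζ, hζ⟩ := hA.exists_unit (n := 5) rfl
  exact ⟨fun x y => hA.isConj_five hζ h1 h2 (by norm_num [h3]), fun x => hA.centralizer_five hζ h1 h2 (by norm_num [h3])⟩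

end Cfsg.Agent.S2227
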