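import Cfsg.Statements.S2228
import Cfsg.Agent.Spor.J23Main
import Cfsg.Agent.Spor.J3Loc

set_option autoImplicit false
open Cfsg

namespace Cfsg.Agent.S2228

/-- Let G be a finite simple group in which all involutions are conjugate and the centralizer of an involution has a normal extraspecial subgroup of order 32 complemented by a subgroup isomorphic to the alternating group of degree 5 (a group of J₃-type). Then a Sylow 19-subgroup of G is self-centralizing with normalizer-quotient cyclic of order 9, and a Sylow 17-subgroup is self-centralizing with normalizer-quotient cyclic of order 8. -/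
theorem result {G : Type*} [Group G] [Finite G] [IsSimpleGroup G]
    (hone : ∀ x y : G, orderOf x = 2 → orderOf y = 2 → IsConj x y)
    (t : G) (ht : orderOf t = 2) (E A : Subgroup ↥(Subgroup.centralizer ({t} : Set G))) [E.Normal]
    (hE : Cfsg.IsExtraspecial 2 ↥E) (hE32 : Nat.card ↥E = 32) (hEA : E.IsComplement' A)
    (eA : ↥A ≃* ↥(alternatingGroup (Fin 5))) :
    (∀ X : Sylow 19 G, Subgroup.centralizer ((X : Subgroup G) : Set G) = X ∧
        ∃ h : ((X : Subgroup G).subgroupOf (Subgroup.normalizer ((X : Subgroup G) : Set G))).Normal,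
          IsCyclic (↥(Subgroup.normalizer ((X : Subgroup G) : Set G)) ⧸ (X : Subgroup G).subgroupOf _) ∧
          Nat.card (↥(Subgroup.normalizer ((X : Subgroup G) : Set G)) ⧸ (X : Subgroup G).subgroupOf _) = 9) ∧
    (∀ Y : Sylow 17 G, Subgroup.centralizer ((Y : Subgroup G) : Set G) = Y ∧
        ∃ h : ((Y : Subgroup G).subgroupOf (Subgroup.normalizer ((Y : Subgroup G) : Set G))).Normal,
          IsCyclic (↥(Subgroup.normalizer ((Y : Subgroup G) : Set G)) ⧸ (Y : Subgroup G).subgroupOf _) ∧
          Nat.card (↥(Subgroup.normalizer ((Y : Subgroup G) : Set G)) ⧸ (Y : Subgroup G).subgroupOf _) = 8) := by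
  have e := hEA.symm.QuotientMulEquiv.trans eA
  obtain ⟨hJ, hG⟩ := CL.J23.j3_of_one ht E hE hE32 e hone
  obtain ⟨⟨x, hx, hc⟩, ⟨y, n, hy, hn⟩, -⟩ := CL.Mx.J3.loc hJ
  refine ⟨CL.Mx.J3.sylow_selfcent (m := 2643840) (by norm_num) hG (by norm_num) (by norm_num) hy
    (CL.Mx.J3.cent19 hG (fun s hs => ?_) (fun s hs => ?_) hy hn),
    CL.Mx.J3.sylow_selfcent (m := 2954880) (by norm_num) hG (by norm_num) (by norm_num) hx hc⟩
  · rw [CL.Spor.card_centralizer_eq_of_isConj (hone s t hs ht), ← E.card_mul_index, hE32, CL.J23.index_of_a5 e]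
  · rw [CL.Spor.card_centralizer_eq_of_orderOf (m := 2954880) (by norm_num) hG (by norm_num) hs hx, hc]

end Cfsg.Agent.S2228
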