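import Cfsg.Statements.S3835
import Cfsg.Agent.Known.AltAbSylow
import Cfsg.Agent.Loc.QuadQd
import Cfsg.Agent.Cls.SLnBasic

set_option autoImplicit false
open Cfsg

namespace Cfsg.Agent.S3835

open CL.Known CL.Loc Equiv Matrix

theorem comm_of_involves {G Q : Type*} [Group G] [Finite G] [Group Q] {p : ℕ} [Fact p.Prime]
    (hG : ∀ P : Subgroup G, IsPGroup p P → IsMulCommutative P) (h : Cfsg.Involves Q G) {P : Subgroup Q}
    (hP : IsPGroup p P) {a b : Q} (ha : a ∈ P) (hb : b ∈ P) : a * b = b * a := by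
  obtain ⟨K, R, _, ⟨e⟩⟩ := h
  let f : K →* Q := e.toMonoidHom.comp (QuotientGroup.mk' _)
  have hf : Function.Surjective f := e.surjective.comp (QuotientGroup.mk'_surjective _)
  obtain ⟨S, hS⟩ := hP.exists_le_sylow
  obtain ⟨T, rfl⟩ := Sylow.mapSurjective_surjective hf p S
  obtain ⟨x, hx, rfl⟩ := hS ha
  obtain ⟨y, hy, rfl⟩ := hS hb
  have := congrArg Subtype.val ((hG _ (T.isPGroup'.map K.subtype)).is_comm.comm ⟨x, x, hx, rfl⟩ ⟨y, y, hy, rfl⟩)
  rw [← map_mul, ← map_mul, show x * y = y * x from Subtype.ext this]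

theorem transvection_pow_p {p : ℕ} {i j : Fin 2} (hij : i ≠ j) (c : ZMod p) :
    SpecialLinearGroup.transvection hij c ^ p = 1 := by
  have : ∀ k : ℕ, SpecialLinearGroup.transvection hij c ^ k = SpecialLinearGroup.transvection hij (k * c) := by
    intro k
    induction k with
    | zero => simp
    | succ k ih => rw [pow_succ, ih, ← SpecialLinearGroup.transvection_add]; congr 1; push_cast; ring
  rw [this]; simp

theorem trans_pow_p {p : ℕ} (v : Multiplicative (Fin 2 → ZMod p)) : v ^ p = 1 := by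
  apply Multiplicative.toAdd.injective
  ext i
  simp

theorem not_involves {p : ℕ} [Fact p.Prime] (n : ℕ) (hn : n < p ^ 2) :
    ¬ Cfsg.Involves ↥(Cfsg.qd p) ↥(alternatingGroup (Fin n)) := by
  intro h
  have hG : ∀ P : Subgroup (alternatingGroup (Fin n)), IsPGroup p P → IsMulCommutative P := by
    intro P hP
    obtain ⟨S, hS⟩ := (hP.map (alternatingGroup (Fin n)).subtype).exists_le_sylow
    have hc := sylow_perm_comm_of_lt (by simpa using hn) (CL.Grp.isSylowIn_top S)
    refine ⟨⟨fun a b => ?_⟩⟩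
    have := congrArg Subtype.val (hc.is_comm.comm ⟨_, hS ⟨a, a.2, rfl⟩⟩ ⟨_, hS ⟨b, b.2, rfl⟩⟩)
    exact Subtype.ext (Subtype.ext this)
  let t : SpecialLinearGroup (Fin 2) (ZMod p) := SpecialLinearGroup.transvection (i := 0) (j := 1) (by decide) 1
  have hT : IsPGroup p (qdTrans (F := ZMod p)).range := by
    rintro ⟨_, v, rfl⟩
    exact ⟨1, Subtype.ext (by rw [pow_one, Subgroup.coe_pow, ← map_pow, trans_pow_p, map_one]; rfl)⟩
  have hA : IsPGroup p (Subgroup.zpowers (qdLin t)) := by
    rintro ⟨_, k, rfl⟩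
    refine ⟨1, Subtype.ext ?_⟩
    change (qdLin t ^ k) ^ p ^ 1 = 1
    rw [pow_one, ← _root_.zpow_natCast, ← _root_.zpow_mul, mul_comm, _root_.zpow_mul, _root_.zpow_natCast, ← map_pow,
      transvection_pow_p, map_one, _root_.one_zpow]
  have hP := hA.to_sup_of_normal_right' hT (by
    rw [Subgroup.zpowers_le]
    refine Subgroup.mem_normalizer_fintype ?_
    rintro _ ⟨v, rfl⟩
    exact ⟨_, (qdLin_conj t v.toAdd).symm⟩)
  have := comm_of_involves hG h (hP.comap_subtype (K := Cfsg.qd p))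
    (a := ⟨qdLin t, mem_qd_iff.2 ⟨_, _, rfl⟩⟩) (b := ⟨qdTrans (Multiplicative.ofAdd ![0, 1]), mem_qd_iff.2 ⟨_, _, rfl⟩⟩)
    (Subgroup.mem_sup_left (Subgroup.mem_zpowers _)) (Subgroup.mem_sup_right ⟨_, rfl⟩)
  have h2 : qdLin t * qdTrans (Multiplicative.ofAdd ![0, 1]) = qdTrans (Multiplicative.ofAdd ![0, 1]) * qdLin t :=
    congrArg Subtype.val this
  rw [← mul_inv_eq_iff_eq_mul, qdLin_conj] at h2
  have h3 := congrFun (Multiplicative.ofAdd.injective (qdTrans_injective h2)) 0
  simp [t, SpecialLinearGroup.transvection_coe, mulVec, dotProduct, Fin.sum_univ_two] at h3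


/-- Let p be an odd prime and n a natural number. The alternating group of degree n has a subgroup isomorphic to Qd(p) (the natural semidirect product of an elementary abelian group of order p² by SL₂(p)) if and only if n ≥ p²; and if n < p² then Qd(p) is not even involved in it. -/
theorem result {p : ℕ} [Fact p.Prime] (hp : p ≠ 2) (n : ℕ) : ((∃ H : Subgroup (alternatingGroup (Fin n)), Nonempty (↥H ≃* ↥(Cfsg.qd p))) ↔ p ^ 2 ≤ n) ∧ (n < p ^ 2 → ¬ Cfsg.Involves ↥(Cfsg.qd p) ↥(alternatingGroup (Fin n))) := by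
  refine ⟨⟨fun ⟨H, ⟨e⟩⟩ => ?_, fun hn => ?_⟩, not_involves n⟩
  · by_contra hn
    exact not_involves n (not_le.1 hn) (involves_of_injective (H.subtype.comp e.symm.toMonoidHom)
      (H.subtype_injective.comp e.symm.injective))
  classical
  have hodd : Odd p := (Fact.out : p.Prime).odd_of_ne_two hp
  let X := {w : Fin 3 → ZMod p // w 2 = 1}
  let φ : Cfsg.qd p →* Perm X := MonoidHom.mk' (fun g => (MulAction.toPerm g.1).subtypePerm fun w => by
    obtain ⟨v, N, e⟩ := mem_qd_iff.1 g.2
    change (g.1.1 *ᵥ w) 2 = 1 ↔ _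
    rw [e]
    simp [qdAff_coe, mulVec, dotProduct, Fin.sum_univ_three]) fun g h => by
      ext w : 2
      exact mul_smul g.1 h.1 w.1
  have hφ : ∀ g (w : X), (φ g w).1 = g.1.1 *ᵥ w.1 := fun _ _ => rfl
  have hinj : Function.Injective φ := by
    rw [injective_iff_map_eq_one]
    intro g hg
    have h1 := hφ g ⟨![0, 0, 1], rfl⟩
    have h2 := hφ g ⟨![1, 0, 1], rfl⟩
    have h3 := hφ g ⟨![0, 1, 1], rfl⟩
    rw [hg] at h1 h2 h3
    have a0 := congrFun h1 0
    have a1 := congrFun h1 1
    have a2 := congrFun h1 2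
    have b0 := congrFun h2 0
    have b1 := congrFun h2 1
    have b2 := congrFun h2 2
    have c0 := congrFun h3 0
    have c1 := congrFun h3 1
    have c2 := congrFun h3 2
    simp [mulVec, dotProduct, Fin.sum_univ_three] at a0 a1 a2 b0 b1 b2 c0 c1 c2
    ext i j
    fin_cases i <;> fin_cases j <;> simp <;> grind
  have hev : ∀ g, Perm.sign (φ g) = 1 := by
    intro g
    obtain ⟨v, N, e⟩ := mem_qd_iff.1 g.2
    let l : SpecialLinearGroup (Fin 2) (ZMod p) →* Cfsg.qd p := qdLin.codRestrict _ fun _ => mem_qd_iff.2 ⟨_, _, rfl⟩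
    let t : Multiplicative (Fin 2 → ZMod p) →* Cfsg.qd p := qdTrans.codRestrict _ fun _ => mem_qd_iff.2 ⟨_, _, rfl⟩
    have e2 : g = t (Multiplicative.ofAdd v) * l N := by
      apply Subtype.ext
      change g.1 = qdTrans _ * qdLin N
      rw [e, qdLin_apply, qdTrans_apply, qdAff_mul]; simp
    have h1 : N ∈ (Perm.sign.comp (φ.comp l)).ker := by
      rw [CL.SLn.eq_top_of_transvection_mem (Perm.sign.comp (φ.comp l)).ker fun i j hij c =>
        sign_eq_one_of_odd hodd (by rw [← map_pow, transvection_pow_p, map_one])]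
      trivial
    rw [e2, map_mul, map_mul, show Perm.sign (φ (l N)) = 1 from h1, mul_one]
    exact sign_eq_one_of_odd hodd (by rw [← map_pow, ← map_pow, trans_pow_p, map_one, map_one])
  have hX : Fintype.card X ≤ Fintype.card (Fin n) := by
    refine (Fintype.card_le_of_injective (fun w : X => ((w.1 0, w.1 1) : ZMod p × ZMod p)) ?_).trans
      (by simpa [pow_two] using hn)
    intro w w' h
    simp only [Prod.mk.injEq] at h
    ext i
    fin_cases i
    · exact h.1
    · exact h.2
    · exact w.2.trans w'.2.symm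
  obtain ⟨ι⟩ := Function.Embedding.nonempty_of_card_le hX
  let θ : Cfsg.qd p →* alternatingGroup (Fin n) := ((Perm.viaEmbeddingHom ι).comp φ).codRestrict _ fun g =>
    (sign_viaEmbedding ι _).trans (hev g)
  have hθ : Function.Injective θ := fun a b h =>
    hinj (Perm.viaEmbeddingHom_injective ι (congrArg Subtype.val h))
  exact ⟨θ.range, ⟨(MonoidHom.ofInjective hθ).symm⟩⟩

end Cfsg.Agent.S3835
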