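import Cfsg.Statements.S2231
import Cfsg.Agent.S3835
import Cfsg.Agent.Cls.SL2Sylow

set_option autoImplicit false
open Cfsg

namespace Cfsg.Agent.S2231

open CL.Loc Matrix Cfsg.Agent.S3835

/-- Let p be an odd prime and K a finite field of characteristic p. Then Qd(p) (the natural semidirect product of an elementary abelian group of order p² by SL₂(p)) is not involved in the projective special linear group PSL₂(K). -/
theorem result {p : ℕ} [Fact p.Prime] (hp : p ≠ 2) {K : Type*} [Field K] [Fintype K] [CharP K p] : ¬ Cfsg.Involves ↥(Cfsg.qd p) (Matrix.ProjectiveSpecialLinearGroup (Fin 2) K) := by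
  intro h
  have hG : ∀ P : Subgroup (Matrix.ProjectiveSpecialLinearGroup (Fin 2) K), IsPGroup p P →
      IsMulCommutative P := by
    intro P hP
    by_cases h1 : P = ⊥
    · subst h1; infer_instance
    obtain ⟨x, hx⟩ := (CL.SL2.uhyp_psl p).exists_le_Q hP h1
    have hc := (CL.SL2.uhyp_psl (F := K) p).isMulCommutative_Q x
    refine ⟨⟨fun a b => ?_⟩⟩
    have := congrArg Subtype.val (hc.is_comm.comm ⟨_, hx a.2⟩ ⟨_, hx b.2⟩)
    exact Subtype.ext this
  let t : SpecialLinearGroup (Fin 2) (ZMod p) := SpecialLinearGroup.transvection (i := 0) (j := 1) (by decide) 1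
  have hT : IsPGroup p (qdTrans (F := ZMod p)).range := by
    rintro ⟨_, v, rfl⟩
    exact ⟨1, Subtype.ext (by rw [pow_one, Subgroup.coe_pow, ← map_pow, trans_pow_p, map_one]; rfl)⟩
  have hA : IsPGroup p (Subgroup.zpowers (qdLin t)) := by
    rintro ⟨_, k, rfl⟩
    refine ⟨1, Subtype.ext ?_⟩
    change (qdLin t ^ k) ^ p ^ 1 = 1
    rw [pow_one, ← _root_.zpow_natCast, ← _root_.zpow_mul, mul_comm, _root_.zpow_mul, _root_.zpow_natCast, ← map_pow,
      transvection_pow_p, map_one, _root_.one_zpow]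
  have hP := hA.to_sup_of_normal_right' hT (by
    rw [Subgroup.zpowers_le]
    refine Subgroup.mem_normalizer_fintype ?_
    rintro _ ⟨v, rfl⟩
    exact ⟨_, (qdLin_conj t v.toAdd).symm⟩)
  have := comm_of_involves hG h (hP.comap_subtype (K := Cfsg.qd p))
    (a := ⟨qdLin t, mem_qd_iff.2 ⟨_, _, rfl⟩⟩) (b := ⟨qdTrans (Multiplicative.ofAdd ![0, 1]), mem_qd_iff.2 ⟨_, _, rfl⟩⟩)
    (Subgroup.mem_sup_left (Subgroup.mem_zpowers _)) (Subgroup.mem_sup_right ⟨_, rfl⟩)
  have h2 : qdLin t * qdTrans (Multiplicative.ofAdd ![0, 1]) = qdTrans (Multiplicative.ofAdd ![0, 1]) * qdLin t :=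
    congrArg Subtype.val this
  rw [← mul_inv_eq_iff_eq_mul, qdLin_conj] at h2
  have h3 := congrFun (Multiplicative.ofAdd.injective (qdTrans_injective h2)) 0
  simp [t, SpecialLinearGroup.transvection_coe, mulVec, dotProduct, Fin.sum_univ_two] at h3

end Cfsg.Agent.S2231
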