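import Cfsg.Statements.S2232
import Cfsg.Agent.Chev.U3Card
import Cfsg.Agent.Loc.QuadThms

set_option autoImplicit false
open Cfsg

namespace Cfsg.Agent.S2232

open CL.Chev.U3 in
theorem comm_mem_U {G : Type*} [Group G] {F : Type*} [Field F] (M : Model G F) {x y : G}
    (hx : x ∈ M.B) (hy : y ∈ M.B) : x * y * x⁻¹ * y⁻¹ ∈ M.U := by
  obtain ⟨u, c, rfl⟩ := M.mem_B'.1 hx
  obtain ⟨v, d, rfl⟩ := M.mem_B'.1 hy
  have h1 := M.TD_mul_TD u v c d
  have h2 := M.TD_mul_TD v u d c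
  have : M.T u * M.D c * (M.T v * M.D d) * (M.T u * M.D c)⁻¹ * (M.T v * M.D d)⁻¹ =
      (M.T u * M.D c * (M.T v * M.D d)) * (M.T v * M.D d * (M.T u * M.D c))⁻¹ := by group
  rw [this, h1, h2, mul_comm d c]
  have : M.T (u * c • v) * M.D (c * d) * (M.T (v * d • u) * M.D (c * d))⁻¹ =
      M.T (u * c • v) * (M.T (v * d • u))⁻¹ := by group
  rw [this]
  exact M.U.mul_mem (M.T_mem_U _) (M.U.inv_mem (M.T_mem_U _))

theorem exists_comm_neg_one {p : ℕ} [Fact p.Prime] :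
    ∃ g w : Matrix.SpecialLinearGroup (Fin 2) (ZMod p), g * w * g⁻¹ * w⁻¹ = -1 := by
  obtain ⟨a, b, hab⟩ := ZMod.sq_add_sq p (-1)
  obtain ⟨g, hg⟩ : ∃ g : Matrix.SpecialLinearGroup (Fin 2) (ZMod p), g.1 = !![a, b; b, -a] :=
    ⟨⟨!![a, b; b, -a], by rw [Matrix.det_fin_two_of]; linear_combination -hab⟩, rfl⟩
  obtain ⟨w, hw⟩ : ∃ w : Matrix.SpecialLinearGroup (Fin 2) (ZMod p), w.1 = !![0, 1; -1, 0] :=
    ⟨⟨!![0, 1; -1, 0], by rw [Matrix.det_fin_two_of]; simp⟩, rfl⟩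
  have h : g * w = -1 * w * g := by
    apply Subtype.ext
    simp only [Matrix.SpecialLinearGroup.coe_mul, Matrix.SpecialLinearGroup.coe_neg,
      Matrix.SpecialLinearGroup.coe_one, hg, hw]
    ext i j
    fin_cases i <;> fin_cases j <;> simp [Matrix.mul_apply, Fin.sum_univ_two]
  refine ⟨g, w, ?_⟩
  have hc : ∀ x : Matrix.SpecialLinearGroup (Fin 2) (ZMod p), x * g * g⁻¹ = x := fun x => by group
  rw [h, hc]
  group

/-- Let p be an odd prime, q a power of p and K a finite field with q² elements. Then Qd(p) (the natural semidirect product of an elementary abelian group of order p² by SL₂(p)) is not involved in the projective special unitary group PSU₃(q) realised over K. -/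
theorem result {p : ℕ} [Fact p.Prime] (hp : p ≠ 2) {K : Type*} [Field K] [Fintype K] [CharP K p] (n : ℕ) (hn : 1 ≤ n) (hK : Fintype.card K = (p ^ n) ^ 2) : ¬ Cfsg.Involves ↥(Cfsg.qd p) (Cfsg.PSU 3 K (p ^ n)) := by
  classical
  let M := CL.Chev.U3.modelPSU hK
  haveI : Finite (Cfsg.PSU 3 K (p ^ n)) := M.finite
  refine CL.Loc.not_involves_qd_of_local fun P hP hP1 => ?_
  rintro ⟨A, R, hR, ⟨e⟩⟩
  obtain ⟨g, hg⟩ := M.exists_le_conj_U hP
  obtain ⟨u, hu, hu1⟩ := (Subgroup.bot_or_exists_ne_one P).resolve_left hP1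
  have hB : ∀ x : Subgroup.normalizer (P : Set (Cfsg.PSU 3 K (p ^ n))), (x : Cfsg.PSU 3 K (p ^ n)) ∈ (M.conj g).B :=
    fun x => (M.conj g).mem_B_of_conj_mem (hg hu) hu1
      ((M.conj g).U_le_B (hg ((Subgroup.mem_normalizer_iff.1 x.2 u).1 hu)))
  obtain ⟨s, w, hsw⟩ := exists_comm_neg_one (p := p)
  let φ : A →* Matrix.SpecialLinearGroup (Fin 2) (ZMod p) :=
    e.toMonoidHom.comp (QuotientGroup.mk' _)
  have hφ : Function.Surjective φ := e.surjective.comp (QuotientGroup.mk'_surjective _)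
  obtain ⟨x, rfl⟩ := hφ s
  obtain ⟨y, rfl⟩ := hφ w
  have hm := comm_mem_U (M.conj g) (hB x.1) (hB y.1)
  obtain ⟨k, hk⟩ := (M.conj g).isPGroup_U p ⟨_, hm⟩
  have hk1 : (x * y * x⁻¹ * y⁻¹) ^ p ^ k = 1 := by
    apply Subtype.ext
    apply Subtype.ext
    simpa using congrArg Subtype.val hk
  have h2 := congrArg φ hk1
  rw [map_pow, map_mul, map_mul, map_mul, map_inv, map_inv, hsw, map_one,
    Odd.neg_one_pow (((Fact.out : p.Prime).odd_of_ne_two hp).pow)] at h2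
  have h3 := congrArg (fun m : Matrix.SpecialLinearGroup (Fin 2) (ZMod p) => m.1 0 0) h2
  simp at h3
  have h4 : ((2 : ℕ) : ZMod p) = 0 := by
    push_cast
    linear_combination -h3
  rw [ZMod.natCast_eq_zero_iff] at h4
  exact hp ((Nat.prime_dvd_prime_iff_eq Fact.out Nat.prime_two).1 h4)

end Cfsg.Agent.S2232
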