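import Cfsg.Statements.S2239
import Cfsg.Agent.Chev.SzSub2

set_option autoImplicit false
open Cfsg

namespace Cfsg.Agent.S2239

/-- Subfield subgroups of the Suzuki group: let q = 2^(2m+1) and s = 2^(2k+1) with m, k ≥ 1 and 2k+1 dividing 2m+1 (so q is a power of s), both groups realised as stabilisers in SL₄ of the Suzuki–Tits ovoid. Then Sz(q) has a subgroup isomorphic to Sz(s), and any two subgroups of Sz(q) isomorphic to Sz(s) are conjugate. -/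
theorem result {F : Type*} [Field F] [Fintype F] {m : ℕ} (hm : 1 ≤ m) (hF : Fintype.card F = 2 ^ (2 * m + 1)) {K : Type*} [Field K] [Fintype K] {k : ℕ} (hk : 1 ≤ k) (hK : Fintype.card K = 2 ^ (2 * k + 1)) (hdiv : 2 * k + 1 ∣ 2 * m + 1) :
    (∃ S : Subgroup ↥(Cfsg.Sz F m), Nonempty (↥S ≃* ↥(Cfsg.Sz K k))) ∧
    ∀ S₁ S₂ : Subgroup ↥(Cfsg.Sz F m), Nonempty (↥S₁ ≃* ↥(Cfsg.Sz K k)) → Nonempty (↥S₂ ≃* ↥(Cfsg.Sz K k)) →
      ∃ g : ↥(Cfsg.Sz F m), S₂ = S₁.map (MulAut.conj g).toMonoidHom := by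
  have hq : Nat.card F = 2 ^ (2 * m + 1) := by rw [Nat.card_eq_fintype_card, hF]
  have hs : Nat.card K = 2 ^ (2 * k + 1) := by rw [Nat.card_eq_fintype_card, hK]
  let N := CL.Chev.Sz.modelSz hm hF
  let N₀ := CL.Chev.Sz.modelSz hk hK
  constructor
  · obtain ⟨ι⟩ := CL.Chev.Sz.nonempty_ringHom_of_dvd hs hq hdiv
    exact ⟨_, ⟨(N.subEquiv N₀ ι).symm⟩⟩
  · rintro S₁ S₂ ⟨e₁⟩ ⟨e₂⟩
    obtain ⟨g₁, F₁, h₁, rfl⟩ := N.exists_eq_conj_sub_of_equiv N₀ e₁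
    obtain ⟨g₂, F₂, h₂, rfl⟩ := N.exists_eq_conj_sub_of_equiv N₀ e₂
    obtain rfl := CL.Asch.subfield_eq_of_card (h₁.trans h₂.symm)
    refine ⟨g₂ * g₁⁻¹, ?_⟩
    rw [← CL.Chev.Sz.Model.conj_sub_eq_map, CL.Chev.Sz.Model.conj_conj, inv_mul_cancel_right]

end Cfsg.Agent.S2239
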