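import Cfsg.Statements.S2240
import Cfsg.Agent.Chev.SzSub2

set_option autoImplicit false
open Cfsg

namespace Cfsg.Agent.S2240

/-- Elementary abelian TI-subgroups of the Suzuki group: let q = 2^(2m+1) with m ≥ 1, the group realised as the stabiliser in SL₄ of the Suzuki–Tits ovoid, and n ≥ 2. There is an elementary abelian 2-subgroup E of order 2^n that is a TI-subgroup (every conjugate of E meeting E nontrivially is E itself) if and only if n divides 2m + 1. -/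
theorem result {F : Type*} [Field F] [Fintype F] {m : ℕ} (hm : 1 ≤ m) (hF : Fintype.card F = 2 ^ (2 * m + 1)) (n : ℕ) (hn : 2 ≤ n) :
    (∃ E : Subgroup ↥(Cfsg.Sz F m), Cfsg.IsElementaryAbelian 2 E ∧ Nat.card ↥E = 2 ^ n ∧
      ∀ x : ↥(Cfsg.Sz F m), E ⊓ E.map (MulAut.conj x).toMonoidHom ≠ ⊥ → x ∈ Subgroup.normalizer (E : Set ↥(Cfsg.Sz F m))) ↔ n ∣ 2 * m + 1 := by
  have hq : Nat.card F = 2 ^ (2 * m + 1) := by rw [Nat.card_eq_fintype_card, hF]
  have M := CL.Chev.Sz.modelSz hm hF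
  constructor
  · rintro ⟨E, ⟨-, h1⟩, h2, h3⟩
    obtain ⟨k, hk⟩ := M.exists_le_conj_U (P := E) (IsPGroup.of_card h2)
    generalize M.conj k = N at hk
    have hZ : ∀ g ∈ E, ∃ b, g = N.T 0 b := fun g hg =>
      N.mem_Z.1 (N.mem_Z_of_sq (N.U_le_B (hk hg)) (by rw [← sq]; exact h1 g hg))
    have hne : E ≠ ⊥ := by
      rintro rfl
      rw [Subgroup.card_bot] at h2
      have := Nat.one_lt_two_pow (show n ≠ 0 by omega)
      omega
    obtain ⟨⟨x, hx⟩, hx1⟩ := Subgroup.ne_bot_iff_exists_ne_one.1 hne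
    obtain ⟨b, rfl⟩ := hZ x hx
    have hb : b ≠ 0 := by rintro rfl; exact hx1 (Subtype.ext N.T_zero)
    have hc : Nat.card (N.multField E) = Nat.card E := by
      refine Nat.card_congr (Equiv.ofBijective (fun e => ⟨N.T 0 (e * b), e.2 b hx⟩) ⟨fun e e' h => ?_, fun g => ?_⟩)
      · exact Subtype.ext (mul_right_cancel₀ hb (N.T_inj.1 (Subtype.mk.inj h)).2)
      · obtain ⟨b', hb'⟩ := hZ g g.2
        by_cases h0 : b' = 0
        · exact ⟨0, Subtype.ext (by simp [hb', h0])⟩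
        obtain ⟨c, hc⟩ := N.toTits.exists_unit_σ_mul_sq hb h0
        have e : N.D c * N.T 0 b * (N.D c)⁻¹ = g := by rw [N.D_conj_T, hc, mul_zero, hb']
        have hn := h3 (N.D c) (by
          rw [Subgroup.ne_bot_iff_exists_ne_one]
          refine ⟨⟨g, g.2, _, hx, e⟩, fun h => h0 ?_⟩
          have := congrArg Subtype.val h
          simp only [hb'] at this
          exact (N.T_eq_one.1 this).2)
        refine ⟨⟨N.σ c * c ^ 2, fun d hd => ?_⟩, Subtype.ext (by simp only [hc, hb'])⟩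
        have := (Subgroup.mem_normalizer_iff.1 hn _).1 hd
        rwa [N.D_conj_T, mul_zero] at this
    obtain ⟨d, hd, e⟩ := CL.Chev.Sz.exists_card_subfield hq (N.multField E)
    rw [hc, h2] at e
    rwa [Nat.pow_right_injective le_rfl e]
  · intro h
    obtain ⟨ι⟩ := CL.Chev.Sz.nonempty_ringHom_of_dvd (GaloisField.card 2 n (by omega)) hq h
    have hc : Nat.card ι.fieldRange = 2 ^ n := (CL.Chev.Sz.card_fieldRange ι).trans (GaloisField.card 2 n (by omega))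
    generalize ι.fieldRange = F₀ at hc
    have hmem : ∀ g, g ∈ M.Z ⊓ M.sub F₀ ↔ ∃ b ∈ F₀, g = M.T 0 b := fun g => by
      constructor
      · rintro ⟨h1, h2⟩
        obtain ⟨b, rfl⟩ := M.mem_Z.1 h1
        exact ⟨b, (M.T_mem_sub.1 h2).2, rfl⟩
      · rintro ⟨b, hb, rfl⟩
        exact ⟨M.T_mem_Z b, M.T_mem_sub.2 ⟨zero_mem _, hb⟩⟩
    refine ⟨M.Z ⊓ M.sub F₀, ⟨⟨⟨fun a b => ?_⟩⟩, fun a ha => ?_⟩, ?_, fun x hx => ?_⟩
    · obtain ⟨c, -, hc⟩ := (hmem a).1 a.2
      obtain ⟨d, -, hd⟩ := (hmem b).1 b.2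
      apply Subtype.ext
      rw [Subgroup.coe_mul, Subgroup.coe_mul, hc, hd, M.T_zero_mul_T, M.T_zero_mul_T, add_comm]
    · obtain ⟨c, -, rfl⟩ := (hmem a).1 ha
      rw [sq, M.T_zero_sq]
    · rw [← hc]
      refine (Nat.card_congr (Equiv.ofBijective (fun e : F₀ => (⟨M.T 0 e, (hmem _).2 ⟨e, e.2, rfl⟩⟩ :
        ↥(M.Z ⊓ M.sub F₀))) ⟨fun e e' h => ?_, fun g => ?_⟩)).symm
      · exact Subtype.ext (M.T_inj.1 (Subtype.mk.inj h)).2
      · obtain ⟨b, hb, e⟩ := (hmem g).1 g.2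
        exact ⟨⟨b, hb⟩, Subtype.ext e.symm⟩
    · obtain ⟨⟨g, hg, y, hy, e⟩, h1⟩ := Subgroup.ne_bot_iff_exists_ne_one.1 hx
      obtain ⟨b, hb, rfl⟩ := (hmem g).1 hg
      obtain ⟨b', hb', rfl⟩ := (hmem y).1 hy
      have e' : x * M.T 0 b' * x⁻¹ = M.T 0 b := e
      have hb0 : b ≠ 0 := by rintro rfl; exact h1 (Subtype.ext M.T_zero)
      have hb0' : b' ≠ 0 := by
        rintro rfl
        rw [M.T_zero, mul_one, mul_inv_cancel] at e'
        exact hb0 (M.T_eq_one.1 e'.symm).2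
      have hB : x ∈ M.B := by
        have := M.mem_B_of_conj_mem (g := x⁻¹) (M.T_mem_U 0 b') (by simp [M.T_eq_one, hb0'])
          (by rw [inv_inv, e']; exact M.T_mem_B 0 b)
        rwa [inv_inv] at this
      obtain ⟨u, v, c, rfl⟩ := M.mem_B'.1 hB
      rw [M.TD_conj_T_zero] at e'
      have hc0 : M.σ c * c ^ 2 ≠ 0 := mul_ne_zero (M.toTits.σ_ne_zero c.ne_zero) (pow_ne_zero 2 c.ne_zero)
      have hcm : M.σ c * c ^ 2 ∈ F₀ := by
        rw [eq_div_of_mul_eq hb0' (M.T_inj.1 e').2]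
        exact div_mem hb hb'
      rw [Subgroup.mem_normalizer_iff]
      intro h
      constructor
      · intro hh
        obtain ⟨d, hd, rfl⟩ := (hmem h).1 hh
        rw [M.TD_conj_T_zero]
        exact (hmem _).2 ⟨_, mul_mem hcm hd, rfl⟩
      · intro hh
        obtain ⟨d, hd, e⟩ := (hmem _).1 hh
        refine (hmem _).2 ⟨d / (M.σ c * c ^ 2), div_mem hd hcm, ?_⟩
        rw [← mul_div_cancel₀ d hc0, ← M.TD_conj_T_zero u v] at e
        simpa using e

end Cfsg.Agent.S2240
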