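import Cfsg.Statements.S2244
import Cfsg.Agent.Chev.StWeak

set_option autoImplicit false
open Cfsg

namespace Cfsg.Agent.S2244

/-- Weakly closed unipotent subgroups of Chevalley groups: let G be the Chevalley group of type G₂, B₂, D₄, F₄, E₆, E₇ or E₈ over a finite field F (the matrix group generated by the root elements), with |F| ≠ 2, and |F| ≠ 3 as well for the types G₂, B₂, D₄, F₄. Let U be the subgroup generated by the positive root subgroups. If X ≤ U is weakly closed in U with respect to G (every G-conjugate of X lying in U equals X), then X is the unipotent radical U_J of a standard parabolic subgroup for some set J of fundamental roots. -/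
theorem result {F : Type*} [Field F] [Fintype F] (D : Cfsg.Lie.ChevalleyDatum) (hD : D ∈ [Cfsg.Lie.chevG2, Cfsg.Lie.chevB2, Cfsg.Lie.chevD4, Cfsg.Lie.chevF4, Cfsg.Lie.chevE6, Cfsg.Lie.chevE7, Cfsg.Lie.chevE8])
    (h2 : Fintype.card F ≠ 2) (h3 : D ∈ [Cfsg.Lie.chevG2, Cfsg.Lie.chevB2, Cfsg.Lie.chevD4, Cfsg.Lie.chevF4] → Fintype.card F ≠ 3)
    (X : Subgroup (GL D.Idx F)) (hXU : X ≤ D.posUnipotent F)
    (hwc : ∀ g ∈ D.group F, X.map (MulAut.conj g).toMonoidHom ≤ D.posUnipotent F → X.map (MulAut.conj g).toMonoidHom = X) :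
    ∃ J : Set ℕ, (∀ j ∈ J, j < D.rank) ∧ X = D.unipotentRadical F J := by
  classical
  obtain ⟨E⟩ := CL.Chev.exists_real hD
  have h0 := Fintype.one_lt_card (α := F)
  have h1 : ∀ s : Finset F, s.card < Fintype.card F → ∃ t, t ∉ s := fun s hs =>
    by simpa using Finset.exists_mem_notMem_of_card_lt_card (t := Finset.univ) hs
  rw [E.posUnipotent_eq] at hXU hwc
  rw [E.group_eq] at hwc
  obtain ⟨J, hJ⟩ := E.eq_UJ hD (by simpa using h1 {0, 1} (Finset.card_le_two.trans_lt (by omega))) (fun h => by
    simpa [not_or] using h1 {0, 1, -1} (Finset.card_le_three.trans_lt (by have := h3 h; omega))) hXU fun g hg h => by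
      have := hwc g hg (by rintro _ ⟨x, hx, rfl⟩; exact h x hx)
      refine CL.Chev.mem_normalizer_of_conj (fun x hx => this.le ⟨x, hx, rfl⟩) fun x hx => ?_
      obtain ⟨y, hy, rfl⟩ := this.ge hx
      simpa [mul_assoc]
  exact ⟨Fin.val '' J, by rintro _ ⟨j, -, rfl⟩; exact j.2, by
    rw [E.unipotentRadical_eq, hJ]
    exact congrArg _ (Set.preimage_image_eq J Fin.val_injective).symm⟩

end Cfsg.Agent.S2244
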