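import Cfsg.Statements.S2249
import Cfsg.Agent.Known.WrRep
import Cfsg.Agent.Known.GL2Basic
import Cfsg.Agent.Cls.SL2Sylow2

set_option autoImplicit false
open Cfsg

namespace Cfsg.Agent.S2249

open CL.Wr

section
variable {F : Type*} [Field F] [Fintype F]

theorem sq_eq_one_of_pow (h4 : Fintype.card F % 4 = 3) {x : F} {k : ℕ} (h : x ^ 2 ^ k = 1) : x ^ 2 = 1 := by
  induction k with
  | zero => rw [show x = 1 by simpa using h]; simp
  | succ k ih =>
    rcases k with _ | k
    · simpa using h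
    · apply ih
      have h1 : (x ^ 2 ^ (k + 1)) ^ 2 = 1 := by rw [← pow_mul, ← pow_succ, h]
      rcases mul_self_eq_one_iff.1 ((pow_two _).symm.trans h1) with h2 | h2
      · exact h2
      · exact absurd (FiniteField.isSquare_neg_one_iff.1 ⟨x ^ 2 ^ k, by rw [← h2, ← pow_add, ← two_mul, pow_succ']⟩)
          (by simp [h4])

theorem sq_eq_one_of_commute (h2 : (2 : F) ≠ 0) (h4 : Fintype.card F % 4 = 3) {e c : GL (Fin 2) F}
    (he : e * e = 1) (h1 : e ≠ 1) (h1' : e ≠ -1) (hc : c * e = e * c) {k : ℕ} (hk : c ^ 2 ^ k = 1) : c ^ 2 = 1 := by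
  have he' : (e : Matrix (Fin 2) (Fin 2) F) * e = 1 := by rw [← Units.val_mul, he, Units.val_one]
  have hs : ¬ CL.GL2.IsScal (e : Matrix (Fin 2) (Fin 2) F) := by
    intro h
    obtain ⟨a, hs⟩ := CL.GL2.isScal_iff.1 h
    have := congrFun (congrFun he' 0) 0
    rw [hs] at this
    simp at this
    rcases mul_self_eq_one_iff.1 this with h | h
    · exact h1 (Units.ext (by rw [hs, h]; simp))
    · exact h1' (Units.ext (by rw [hs, h]; simp))
  obtain ⟨x, y, hxy⟩ := (CL.GL2.commute_iff hs c).1 (by rw [← Units.val_mul, ← Units.val_mul, hc])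
  have key : ∀ s : F, s * s = 1 → (1 + s • (e : Matrix (Fin 2) (Fin 2) F)) ≠ 0 → (x + s * y) ^ 2 = 1 := by
    intro s hs hne
    apply sq_eq_one_of_pow h4 (k := k)
    have h0 : (c : Matrix (Fin 2) (Fin 2) F) * (1 + s • (e : Matrix (Fin 2) (Fin 2) F)) =
        (x + s * y) • (1 + s • (e : Matrix (Fin 2) (Fin 2) F)) := by
      rw [hxy]
      simp only [add_mul, mul_add, smul_mul_assoc, mul_smul_comm, one_mul, mul_one, he', smul_add, add_smul, smul_smul]
      rw [show s * y * s = y by linear_combination y * hs]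
      module
    have h3 : ∀ n : ℕ, (c : Matrix (Fin 2) (Fin 2) F) ^ n * (1 + s • (e : Matrix (Fin 2) (Fin 2) F)) =
        (x + s * y) ^ n • (1 + s • (e : Matrix (Fin 2) (Fin 2) F)) := by
      intro n
      induction n with
      | zero => simp
      | succ n ih => rw [pow_succ, mul_assoc, h0, mul_smul_comm, ih, smul_smul, pow_succ']
    have := h3 (2 ^ k)
    rw [← Units.val_pow_eq_pow_val, hk, Units.val_one, one_mul] at this
    exact (smul_left_injective F hne ((one_smul F _).trans this)).symm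
  have k1 := key 1 (by simp) fun h => h1' (Units.ext (by
    rw [one_smul] at h; simpa using eq_neg_of_add_eq_zero_right h))
  have k2 := key (-1) (by simp) fun h => h1 (Units.ext (by
    rw [neg_smul, one_smul, add_neg_eq_zero] at h; simpa using h.symm))
  have h5 : x ^ 2 + y ^ 2 = 1 := mul_left_cancel₀ h2 (by linear_combination k1 + k2)
  have h6 : 2 * x * y = 0 := by linear_combination k1 - h5
  apply Units.ext
  rw [Units.val_pow_eq_pow_val, hxy, pow_two]
  calc _ = (x ^ 2 + y ^ 2) • (1 : Matrix (Fin 2) (Fin 2) F) + (2 * x * y) • (e : Matrix (Fin 2) (Fin 2) F) := by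
        simp only [add_mul, mul_add, smul_mul_assoc, mul_smul_comm, one_mul, mul_one, he']
        module
    _ = _ := by rw [h5, h6]; simp

theorem eq_or_of_commute (h2 : (2 : F) ≠ 0) {e d : GL (Fin 2) F} (he : e * e = 1)
    (hc : (d * e * d⁻¹) * e = e * (d * e * d⁻¹)) : d * e * d⁻¹ = e ∨ d * e * d⁻¹ = -e := by
  let s : Matrix.SpecialLinearGroup (Fin 2) F := ⟨(d * e * d⁻¹ * e : GL (Fin 2) F), by
    have := congrArg Matrix.GeneralLinearGroup.det he
    rw [← Matrix.GeneralLinearGroup.val_det_apply]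
    simp only [map_mul, map_inv, map_one] at this ⊢
    rw [mul_inv_cancel_comm, this, Units.val_one]⟩
  have hs : (d * e * d⁻¹ * e) * (d * e * d⁻¹ * e) = 1 := by
    calc (d * e * d⁻¹ * e) * (d * e * d⁻¹ * e) = d * e * d⁻¹ * (e * (d * e * d⁻¹)) * e := by group
      _ = d * (e * e) * d⁻¹ * (e * e) := by rw [← hc]; group
      _ = 1 := by rw [he]; group
  have hi : e⁻¹ = e := inv_eq_of_mul_eq_one_right he
  rcases CL.SL2.sl_eq_of_mul_self h2 (g := s) (Subtype.ext (congrArg Units.val hs)) with h | h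
  · left
    have : d * e * d⁻¹ * e = 1 := Units.ext (congrArg Subtype.val h)
    rw [eq_inv_of_mul_eq_one_left this, hi]
  · right
    have : d * e * d⁻¹ * e = -1 := Units.ext (congrArg Subtype.val h)
    rw [eq_mul_inv_of_mul_eq this, hi, neg_one_mul]

theorem sixteen_le (h4 : Fintype.card F % 4 = 3) (D : Sylow 2 (GL (Fin 2) F)) : 16 ≤ Nat.card D := by
  have hodd : Odd (Fintype.card F) := Nat.odd_iff.2 (by omega)
  rw [D.card_eq_multiplicity, Nat.factorization_def _ Nat.prime_two, val_card_gl hodd]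
  have h1 : 1 ≤ padicValNat 2 (Fintype.card F ^ (0 + 1) - 1) :=
    one_le_padicValNat_of_dvd (pow_sub_one_ne_zero Fintype.one_lt_card) (by rw [zero_add, pow_one]; omega)
  have h2 := padicValNat.pow_two_sub_one_ge (x := Fintype.card F) (n := 2) Fintype.one_lt_card (by omega)
    (by norm_num) even_two
  simp only [Finset.sum_range_succ, Finset.range_zero, Finset.sum_empty, zero_add] at h1 ⊢
  rw [padicValNat_self] at h2
  refine (Nat.pow_le_pow_right (by norm_num) ?_ : 2 ^ 4 ≤ _)
  simp only [one_add_one_eq_two]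
  omega

theorem eq_or_of_normalized (h4 : Fintype.card F % 4 = 3) (D : Sylow 2 (GL (Fin 2) F)) {e : GL (Fin 2) F}
    (he : e * e = 1) (h : ∀ d ∈ D, (d * e * d⁻¹) * e = e * (d * e * d⁻¹)) : e = 1 ∨ e = -1 := by
  classical
  have h2 : (2 : F) ≠ 0 := CL.Cls.two_ne_zero_of_odd_card (Nat.odd_iff.2 (by omega))
  by_contra hne
  push Not at hne
  have hee : -e ≠ e := fun h => by
    have h' : (-1 : GL (Fin 2) F) = 1 := by
      apply mul_right_cancel (b := e); rw [neg_one_mul, one_mul, h]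
    have := congrArg (fun g : GL (Fin 2) F => (g : Matrix (Fin 2) (Fin 2) F) 0 0) h'
    simp at this
    exact h2 (by linear_combination -this)
  let θ : D →* ℤˣ := MonoidHom.mk' (fun d => if d.1 * e * d.1⁻¹ = e then 1 else -1) fun a b => by
    have hab : (a * b).1 * e * (a * b).1⁻¹ = a.1 * (b.1 * e * b.1⁻¹) * a.1⁻¹ := by
      rw [Subgroup.coe_mul]; group
    rcases eq_or_of_commute h2 he (h a a.2) with ha | ha <;> rcases eq_or_of_commute h2 he (h b b.2) with hb | hb <;>
      simp only [hab, hb, mul_neg, neg_mul, ha, neg_neg, hee, if_true, if_false] <;> simp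
  have hker : Nat.card θ.ker ≤ 2 ^ 2 := by
    refine card_le_gl h2 ((D : Subgroup (GL (Fin 2) F)).subtype.comp θ.ker.subtype)
      ((Subgroup.subtype_injective _).comp (Subgroup.subtype_injective _)) fun c => ?_
    have hc : c.1.1 * e * c.1.1⁻¹ = e := by
      by_contra hc
      have : θ c.1 = 1 := c.2
      simp [θ, hc] at this
    obtain ⟨k, hk⟩ := D.isPGroup' c.1
    exact Subtype.ext (Subtype.ext (sq_eq_one_of_commute h2 h4 he hne.1 hne.2 (mul_inv_eq_iff_eq_mul.1 hc)
      (congrArg Subtype.val hk)))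
  have hi : θ.ker.index ≤ 2 := by
    rw [Subgroup.index_ker]
    exact (Subgroup.card_le_card_group _).trans (by simp)
  have := θ.ker.card_mul_index
  have h16 := sixteen_le h4 D
  nlinarith

theorem mem_range_signHom (h4 : Fintype.card F % 4 = 3) (D : Sylow 2 (GL (Fin 2) F)) {ι : Type*} [DecidableEq ι]
    (E : Subgroup (W (GL (Fin 2) F) ι)) (hE : ∀ e ∈ E, e ^ 2 = 1)
    (hn : ∀ i, ∀ d ∈ D, ∀ e ∈ E, SemidirectProduct.inl (Pi.mulSingle i d) * e *
      (SemidirectProduct.inl (Pi.mulSingle i d))⁻¹ ∈ E) {e : W (GL (Fin 2) F) ι} (he : e ∈ E) :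
    e ∈ (signHom (signOf (-1 : GL (Fin 2) F) (by simp)) ι).range := by
  have h2 : (2 : F) ≠ 0 := CL.Cls.two_ne_zero_of_odd_card (Nat.odd_iff.2 (by omega))
  obtain ⟨d, hd, hd2⟩ : ∃ d ∈ D, d ^ 2 ≠ 1 := by
    by_contra h
    push Not at h
    have := card_le_gl h2 (D : Subgroup (GL (Fin 2) F)).subtype (Subgroup.subtype_injective _)
      fun a => Subtype.ext (h a a.2)
    have h16 := sixteen_le h4 D
    omega
  have hr : ∀ e ∈ E, e.right = 1 := by
    intro e he
    rw [← inv_eq_one]
    ext i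
    by_contra hi
    replace hi : e.right⁻¹ i ≠ i := hi
    have h1 := hE _ (E.mul_mem (hn i d hd e he) (E.inv_mem he))
    rw [mul_assoc, mul_assoc, ← map_inv, ← mul_assoc e, conj_inl, ← map_mul, ← map_pow] at h1
    have := congrFun (congrArg SemidirectProduct.left h1) i
    simp only [SemidirectProduct.left_inl, Pi.pow_apply, Pi.mul_apply, Pi.mulSingle_eq_same, Pi.inv_apply,
      Pi.mulSingle_eq_of_ne hi] at this
    exact hd2 (by simpa using this)
  have hl : ∀ i, e.left i = 1 ∨ e.left i = -1 := by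
    intro i
    refine eq_or_of_normalized h4 D ?_ fun d hd => ?_
    · have := congrFun (congrArg SemidirectProduct.left (hE e he)) i
      simpa [pow_two, mul_left_apply, hr e he] using this
    · have := CL.Rank2.mul_comm_of_sq (A := E) (fun a => Subtype.ext (hE a a.2)) ⟨_, hn i d hd e he⟩ ⟨e, he⟩
      have := congrFun (congrArg (fun x : E => x.1.left) this) i
      simpa [mul_left_apply, inv_left_apply, hr e he] using this
  classical
  refine ⟨fun i => if e.left i = 1 then 1 else -1, SemidirectProduct.ext (funext fun i => ?_) (hr e he).symm⟩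
  change signOf (-1 : GL (Fin 2) F) (by simp) (if e.left i = 1 then 1 else -1) = _
  rcases hl i with h | h
  · simp [h]
  · by_cases h' : e.left i = 1
    · simp [h']
    · rw [if_neg h', h]; rfl

theorem exists_embedding (m r : ℕ) : ∃ φ : W (GL (Fin 2) F) (Fin m) × GL (Fin r) F →* GL (Fin (2 * m + r)) F,
    Function.Injective φ :=
  exists_gl_embedding (prodRep (wrRep (CL.Sp.glEquiv (Fin 2) F).toMonoidHom (Fin m))
    (CL.Sp.glEquiv (Fin r) F).toMonoidHom)
    (prodRep_injective (wrRep_injective (CL.Sp.glEquiv (Fin 2) F).injective) (CL.Sp.glEquiv (Fin r) F).injective)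
    (by simp [Module.finrank_pi_fintype]; ring)

theorem neg_one_ne_one (h2 : (2 : F) ≠ 0) {n : ℕ} (i : Fin n) : (-1 : GL (Fin n) F) ≠ 1 := fun h => by
  have := congrArg (fun g : GL (Fin n) F => (g : Matrix (Fin n) (Fin n) F) i i) h
  simp at this
  exact h2 (by linear_combination -this)

theorem three_case (h4 : Fintype.card F % 4 = 3) (m r : ℕ) (hr : r ≤ 1) (S : Sylow 2 (GL (Fin (2 * m + r)) F)) :
    (∃ E : Subgroup S, E.Normal ∧ Cfsg.IsElementaryAbelian 2 E ∧ 2 ^ (m + r) ≤ Nat.card E) ∧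
      ∀ E : Subgroup S, E.Normal → Cfsg.IsElementaryAbelian 2 E → Nat.card E ≤ 2 ^ (m + r) := by
  classical
  have hodd : Odd (Fintype.card F) := Nat.odd_iff.2 (by omega)
  have h2 : (2 : F) ≠ 0 := CL.Cls.two_ne_zero_of_odd_card hodd
  obtain ⟨φ, hφ⟩ := exists_embedding (F := F) m r
  obtain ⟨D⟩ : Nonempty (Sylow 2 (GL (Fin 2) F)) := inferInstance
  let β : (Fin m → (D : Subgroup (GL (Fin 2) F))) →* W (GL (Fin 2) F) (Fin m) × GL (Fin r) F :=
    (MonoidHom.inl _ _).comp (SemidirectProduct.inl.comp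
      (MonoidHom.compLeft (D : Subgroup (GL (Fin 2) F)).subtype (Fin m)))
  have hβ : IsPGroup 2 (Fin m → (D : Subgroup (GL (Fin 2) F))) := by
    obtain ⟨j, hj⟩ := IsPGroup.iff_card.1 D.isPGroup'
    exact IsPGroup.of_card (n := j * m) (by rw [Nat.card_fun, hj]; simp [pow_mul])
  obtain ⟨T, hT⟩ := (hβ.of_surjective _ β.rangeRestrict_surjective).exists_le_sylow
  obtain ⟨e⟩ := nonempty_sylow_equiv φ hφ (val_card_gl_two hodd m r hr) T S
  have hz := signHom_injective (ι := Fin m) (signOf_injective (c := (-1 : GL (Fin 2) F)) (by simp)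
    (neg_one_ne_one h2 0))
  constructor
  · obtain ⟨z, hz', hc⟩ : ∃ z : (Fin r → ℤˣ) →* GL (Fin r) F, Function.Injective z ∧
        ∀ u, z u ∈ Subgroup.center (GL (Fin r) F) := by
      interval_cases r
      · exact ⟨1, fun _ _ _ => Subsingleton.elim _ _, fun _ => Subgroup.one_mem _⟩
      · have hc : (-1 : GL (Fin 1) F) * -1 = 1 := by simp
        exact ⟨(signOf (-1) hc).comp (Pi.evalMonoidHom _ 0),
          (signOf_injective hc (neg_one_ne_one h2 0)).comp fun u v h => funext fun i => by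
            rw [Subsingleton.elim i 0]; exact h,
          fun u => signOf_mem_center hc (Subgroup.mem_center_iff.2 fun g => by simp) _⟩
    obtain ⟨E, hE, hE', hcard⟩ := exists_normal_of_sylow T (A := (Fin m → ℤˣ) × (Fin r → ℤˣ))
      (fun a => Prod.ext (signs_sq _) (signs_sq _)) (MonoidHom.prodMap (signHom _ _) z) (hz.prodMap hz')
      ⟨by
        rintro _ ⟨⟨ε, δ⟩, rfl⟩ ⟨x, y⟩
        refine ⟨(ε ∘ ⇑x.right⁻¹, δ), Prod.ext (conj_signHom (signOf_mem_center _
          (Subgroup.mem_center_iff.2 fun g => by simp)) x ε).symm ?_⟩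
        change z δ = y * z δ * y⁻¹
        rw [Subgroup.mem_center_iff.1 (hc δ), mul_inv_cancel_right]⟩ e
    exact ⟨E, hE, hE', by rw [hcard, Nat.card_prod, CL.Rank2.card_signs, CL.Rank2.card_signs]; simp [pow_add]⟩
  · intro E hE hE'
    let ψ : S →* W (GL (Fin 2) F) (Fin m) × GL (Fin r) F :=
      (T : Subgroup (W (GL (Fin 2) F) (Fin m) × GL (Fin r) F)).subtype.comp e.symm.toMonoidHom
    have hψ : Function.Injective ψ := (Subgroup.subtype_injective _).comp e.symm.injective
    let E₁ := E.map ((MonoidHom.fst _ _).comp ψ)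
    let E₂ := E.map ((MonoidHom.snd _ _).comp ψ)
    have h₁ : E₁ ≤ (signHom (signOf (-1 : GL (Fin 2) F) (by simp)) (Fin m)).range := by
      intro x hx
      refine mem_range_signHom h4 D E₁ ?_ ?_ hx
      · rintro _ ⟨a, ha, rfl⟩
        rw [← map_pow, hE'.2 a ha, map_one]
      · rintro i d hd _ ⟨a, ha, rfl⟩
        let t : T := ⟨β (Pi.mulSingle i ⟨d, hd⟩), hT ⟨_, rfl⟩⟩
        refine ⟨_, hE.conj_mem a ha (e t), ?_⟩
        have : ((MonoidHom.fst _ _).comp ψ) (e t) = SemidirectProduct.inl (Pi.mulSingle i d) := by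
          simp only [ψ, MonoidHom.comp_apply, MulEquiv.coe_toMonoidHom, MulEquiv.symm_apply_apply]
          change SemidirectProduct.inl _ = _
          congr 1
          funext j
          by_cases h : j = i
          · subst h; simp
          · simp [h]
        rw [map_mul, map_mul, map_inv, this]
    have h₂ : Nat.card E₂ ≤ 2 ^ r := card_le_gl h2 E₂.subtype E₂.subtype_injective (by
      rintro ⟨_, a, ha, rfl⟩
      exact Subtype.ext (by rw [Subgroup.coe_pow, ← map_pow, hE'.2 a ha, map_one]; rfl))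
    have h₃ : Nat.card E₁ ≤ 2 ^ m := (Subgroup.card_le_of_le h₁).trans (by
      rw [← Nat.card_congr (MonoidHom.ofInjective hz).toEquiv, CL.Rank2.card_signs, Fintype.card_fin])
    have h₄ : Nat.card E ≤ Nat.card (E₁ × E₂) := Nat.card_le_card_of_injective
      (fun a => (⟨_, a.1, a.2, rfl⟩, ⟨_, a.1, a.2, rfl⟩)) fun a b h =>
        Subtype.ext (hψ (Prod.ext (congrArg (fun x : E₁ × E₂ => x.1.1) h) (congrArg (fun x : E₁ × E₂ => x.2.1) h)))
    rw [Nat.card_prod] at h₄
    rw [pow_add]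
    exact h₄.trans (Nat.mul_le_mul h₃ h₂)

end


/-- The normal 2-rank of the general linear group over a finite field of odd order q: for n ≥ 1 and S a Sylow 2-subgroup of GL_n(F), the largest rank of an elementary abelian subgroup of S that is normal in S equals n when q ≡ 1 (mod 4) and ⌊(n + 1)/2⌋ when q ≡ 3 (mod 4). -/
theorem result {F : Type*} [Field F] [Fintype F] {q : ℕ} (hF : Fintype.card F = q) (hodd : Odd q) (n : ℕ) (hn : 1 ≤ n) (S : Sylow 2 (Matrix.GeneralLinearGroup (Fin n) F)) :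
    (q % 4 = 1 → ((∃ E : Subgroup ↥(S : Subgroup (Matrix.GeneralLinearGroup (Fin n) F)), E.Normal ∧ Cfsg.IsElementaryAbelian 2 E ∧ 2 ^ (n) ≤ Nat.card ↥E) ∧
      ∀ E : Subgroup ↥(S : Subgroup (Matrix.GeneralLinearGroup (Fin n) F)), E.Normal → Cfsg.IsElementaryAbelian 2 E → Nat.card ↥E ≤ 2 ^ (n))) ∧
    (q % 4 = 3 → ((∃ E : Subgroup ↥(S : Subgroup (Matrix.GeneralLinearGroup (Fin n) F)), E.Normal ∧ Cfsg.IsElementaryAbelian 2 E ∧ 2 ^ ((n + 1) / 2) ≤ Nat.card ↥E) ∧
      ∀ E : Subgroup ↥(S : Subgroup (Matrix.GeneralLinearGroup (Fin n) F)), E.Normal → Cfsg.IsElementaryAbelian 2 E → Nat.card ↥E ≤ 2 ^ ((n + 1) / 2))) := by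
  subst hF
  have h2 : (2 : F) ≠ 0 := CL.Cls.two_ne_zero_of_odd_card hodd
  refine ⟨fun h4 => ⟨?_, fun E _ hE => ?_⟩, fun h4 => ?_⟩
  · let ρ : Fˣ →* (F ≃ₗ[F] F) := DistribMulAction.toModuleAut F F
    have hρ : Function.Injective ρ := fun a b h => Units.ext (by simpa [ρ, Units.smul_def] using LinearEquiv.congr_fun h 1)
    obtain ⟨φ, hφ⟩ := exists_gl_embedding (wrRep ρ (Fin n)) (wrRep_injective hρ) (n := n) (by simp)
    obtain ⟨T⟩ : Nonempty (Sylow 2 (W Fˣ (Fin n))) := inferInstance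
    obtain ⟨e⟩ := nonempty_sylow_equiv φ hφ (val_card_gl_one h4 n) T S
    have h1 : (-1 : Fˣ) ≠ 1 := fun h => h2 (by
      have := congrArg Units.val h
      simp only [Units.val_neg, Units.val_one] at this
      linear_combination -this)
    obtain ⟨E, hE, hE', hcard⟩ := exists_normal_of_sylow T signs_sq _
      (signHom_injective (signOf_injective (by simp) h1))
      (normal_signHom (signOf_mem_center _ (Subgroup.mem_center_iff.2 fun g => by simp))) e
    exact ⟨E, hE, hE', by rw [hcard, CL.Rank2.card_signs, Fintype.card_fin]⟩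
  · exact card_le_gl h2 ((S : Subgroup (GL (Fin n) F)).subtype.comp E.subtype)
      ((Subgroup.subtype_injective _).comp E.subtype_injective) fun a => Subtype.ext (hE.2 a a.2)
  · obtain ⟨m, r, hr, rfl⟩ : ∃ m r, r ≤ 1 ∧ n = 2 * m + r := ⟨n / 2, n % 2, by omega, by omega⟩
    rw [show (2 * m + r + 1) / 2 = m + r by omega]
    exact three_case h4 m r hr S

end Cfsg.Agent.S2249
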