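import Cfsg.Statements.S2251
import Cfsg.Agent.Chev.SzSub2

set_option autoImplicit false
open Cfsg

namespace Cfsg.Agent.S2251

/-- The subgroups of the Suzuki group: with q = 2^(2m+1), m ≥ 1, r = 2^m and the group realised as the stabiliser in SL₄ of the Suzuki–Tits ovoid, every proper subgroup is contained in the normalizer of a Sylow 2-subgroup, or in the normalizer of a cyclic subgroup of order q − 1, q + 2r + 1 or q − 2r + 1, or in a subgroup isomorphic to a smaller Suzuki group Sz(s) with s = 2^(2k+1) ≥ 8 and 2k+1 a proper divisor of 2m+1. -/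
theorem result {F : Type*} [Field F] [Fintype F] {m : ℕ} (hm : 1 ≤ m) (hF : Fintype.card F = 2 ^ (2 * m + 1)) (M : Subgroup ↥(Cfsg.Sz F m)) (hM : M ≠ ⊤) :
    (∃ P : Sylow 2 ↥(Cfsg.Sz F m), M ≤ Subgroup.normalizer ((P : Subgroup ↥(Cfsg.Sz F m)) : Set ↥(Cfsg.Sz F m))) ∨
    (∃ U : Subgroup ↥(Cfsg.Sz F m), IsCyclic ↥U ∧ Nat.card ↥U ∈ ({2 ^ (2 * m + 1) - 1, 2 ^ (2 * m + 1) + 2 ^ (m + 1) + 1, 2 ^ (2 * m + 1) - 2 ^ (m + 1) + 1} : Set ℕ) ∧
      M ≤ Subgroup.normalizer (U : Set ↥(Cfsg.Sz F m))) ∨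
    (∃ (K : Type) (_ : Field K) (_ : Fintype K) (k : ℕ), 1 ≤ k ∧ k < m ∧ Fintype.card K = 2 ^ (2 * k + 1) ∧ 2 * k + 1 ∣ 2 * m + 1 ∧
      ∃ S : Subgroup ↥(Cfsg.Sz F m), Nonempty (↥S ≃* ↥(Cfsg.Sz K k)) ∧ M ≤ S) := by
  have hq : Nat.card F = 2 ^ (2 * m + 1) := by rw [Nat.card_eq_fintype_card, hF]
  let N := CL.Chev.Sz.modelSz hm hF
  rcases N.subgroup_cases hm hq M with ⟨k, h⟩ | h | ⟨g, F₀, h, rfl⟩
  · exact Or.inl ⟨(N.conj k).sylowU, by rwa [CL.Chev.Sz.Model.sylowU_coe, CL.Chev.Sz.Model.normalizer_U]⟩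
  · exact Or.inr (Or.inl h)
  · obtain ⟨k, hk, hd, hc⟩ := CL.Chev.Sz.exists_card_subfield' hq h
    have hkm : k ≠ m := by
      rintro rfl
      exact hM (by rw [CL.Chev.Sz.subfield_eq_top_of_card (hc.trans hq.symm), CL.Chev.Sz.Model.sub_top])
    have hle := Nat.le_of_dvd (by omega) hd
    let _ : Fintype (GaloisField 2 (2 * k + 1)) := Fintype.ofFinite _
    have hK : Nat.card (GaloisField 2 (2 * k + 1)) = 2 ^ (2 * k + 1) := GaloisField.card 2 _ (by omega)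
    have hK' : Fintype.card (GaloisField 2 (2 * k + 1)) = 2 ^ (2 * k + 1) := by rw [← hK, Nat.card_eq_fintype_card]
    exact Or.inr (Or.inr ⟨GaloisField 2 (2 * k + 1), inferInstance, inferInstance, k, hk, by omega, hK', hd, _,
      (N.conj g).nonempty_sub_equiv (CL.Chev.Sz.modelSz hk hK') (hK.trans hc.symm), le_rfl⟩)

end Cfsg.Agent.S2251
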