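import Cfsg.Statements.S2254
import Cfsg.Agent.Known.AltNilp

set_option autoImplicit false
open Cfsg

namespace Cfsg.Agent.S2254

/-- Let n ≡ 3 (mod 4). Then every nilpotent subgroup of the symmetric group on n letters has order at most 3 times the order of a Sylow 2-subgroup of the symmetric group on n − 3 letters; the bound is attained by a nilpotent subgroup isomorphic to the direct product of such a Sylow 2-subgroup with a cyclic group of order 3; and any two nilpotent subgroups attaining the bound are conjugate. -/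
theorem result  (n : ℕ) (hn : n % 4 = 3)
    (P : Sylow 2 (Equiv.Perm (Fin (n - 3)))) :
    (∀ N : Subgroup (Equiv.Perm (Fin n)), Group.IsNilpotent N → Nat.card N ≤ 3 * Nat.card P) ∧
    (∃ M : Subgroup (Equiv.Perm (Fin n)), Group.IsNilpotent M ∧ Nat.card M = 3 * Nat.card P ∧
      Nonempty (M ≃* (↥(P : Subgroup (Equiv.Perm (Fin (n - 3)))) × Multiplicative (ZMod 3)))) ∧
    (∀ N₁ N₂ : Subgroup (Equiv.Perm (Fin n)), Group.IsNilpotent N₁ → Group.IsNilpotent N₂ →
      Nat.card N₁ = 3 * Nat.card P → Nat.card N₂ = 3 * Nat.card P →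
      ∃ g : Equiv.Perm (Fin n), N₂ = N₁.map (MulAut.conj g).toMonoidHom) := by
  haveI := Fact.mk Nat.prime_two
  have hc : Nat.card (Fin n) = n := by simp
  have hP : 3 * Nat.card P = CL.Known.nilF (Nat.card (Fin n)) := by
    rw [CL.Known.card_sylow_two_perm, hc, CL.Known.nilF_of_eq hn]; simp
  refine ⟨fun N hN => hP ▸ CL.Known.card_le_nilF _ N hN, ?_, fun N₁ N₂ h1 h2 e1 e2 => ?_⟩
  · obtain ⟨M, hM, ⟨e⟩, -⟩ := CL.Known.exists_pext_three (Ω := Fin n) (Δ := Fin (n - 3)) (by simp; omega)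
      (P : Subgroup _) P.isPGroup'.isNilpotent
    refine ⟨M, hM, ?_, ⟨e⟩⟩
    rw [Nat.card_congr e.toEquiv, Nat.card_prod, mul_comm]
    simp
  · obtain ⟨p, _, B, hp, hB, rfl⟩ := CL.Known.eq_pext_of_card_eq_nilF h1 (by rwa [hc]) (e1.trans hP)
    obtain ⟨q, _, C, hq, hC, rfl⟩ := CL.Known.eq_pext_of_card_eq_nilF h2 (by rwa [hc]) (e2.trans hP)
    have k1 := CL.Known.card_add_card_not p
    have k2 := CL.Known.card_add_card_not q
    obtain ⟨g, hg⟩ := ((CL.Known.piso_alt (hp.trans hq.symm)).pext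
      ((CL.Known.piso_top (by omega)).sylow hB hC)).exists_conj
    exact ⟨g, hg.symm⟩

end Cfsg.Agent.S2254
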