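import Cfsg.Statements.S2255
import Cfsg.Agent.Known.AltNilp

set_option autoImplicit false
open Cfsg

namespace Cfsg.Agent.S2255

/-- Let n be a natural number not congruent to 3 modulo 4, with n ∉ {5, 6, 9}. Then every nilpotent subgroup of the alternating group on n letters has order at most the order of a Sylow 2-subgroup of the alternating group (so the nilpotent subgroups of largest order are exactly the Sylow 2-subgroups). -/
theorem result  (n : ℕ) (hn : n % 4 ≠ 3)
    (h5 : n ≠ 5) (h6 : n ≠ 6) (h9 : n ≠ 9)
    (N : Subgroup (alternatingGroup (Fin n))) (hN : Group.IsNilpotent N)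
    (P : Sylow 2 (alternatingGroup (Fin n))) :
    Nat.card N ≤ Nat.card P := by
  have hN' : Group.IsNilpotent (N.map (alternatingGroup (Fin n)).subtype) := CL.Grp.isNilpotent_map hN _
  have h := (CL.Known.card_le_nilA _ _ hN' (Subgroup.map_subtype_le _)).1
  rw [CL.Known.card_map_subtype, Nat.card_eq_fintype_card (α := Fin n), Fintype.card_fin] at h
  by_cases h1 : n ≤ 1
  · rw [CL.Known.nilA, if_pos h1] at h
    exact h.trans Nat.card_pos
  · have h2 := CL.Known.two_mul_le_nilF (by unfold CL.Known.NilExc; omega) h
    have h3 := CL.Known.card_sylow_two_alt (by simp; omega) P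
    rw [Nat.card_eq_fintype_card (α := Fin n), Fintype.card_fin] at h3
    rw [CL.Known.nilF_of_ne hn] at h2
    omega

end Cfsg.Agent.S2255
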