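import Cfsg.Statements.S2256
import Cfsg.Agent.Known.AltNilp

set_option autoImplicit false
open Cfsg

namespace Cfsg.Agent.S2256

/-- Let n ≡ 3 (mod 4) with n ≥ 7. Then every nilpotent subgroup of the alternating group on n letters has order at most 3 times the order of a Sylow 2-subgroup of the alternating group on n − 3 letters; the bound is attained by a nilpotent subgroup isomorphic to the direct product of such a Sylow 2-subgroup with a cyclic group of order 3; and any two nilpotent subgroups of the alternating group attaining the bound are conjugate in it. -/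
theorem result  (n : ℕ) (hn : n % 4 = 3) (h7 : 7 ≤ n)
    (P : Sylow 2 (alternatingGroup (Fin (n - 3)))) :
    (∀ N : Subgroup (alternatingGroup (Fin n)), Group.IsNilpotent N → Nat.card N ≤ 3 * Nat.card P) ∧
    (∃ M : Subgroup (alternatingGroup (Fin n)), Group.IsNilpotent M ∧ Nat.card M = 3 * Nat.card P ∧
      Nonempty (M ≃* (↥(P : Subgroup (alternatingGroup (Fin (n - 3)))) × Multiplicative (ZMod 3)))) ∧
    (∀ N₁ N₂ : Subgroup (alternatingGroup (Fin n)), Group.IsNilpotent N₁ → Group.IsNilpotent N₂ →
      Nat.card N₁ = 3 * Nat.card P → Nat.card N₂ = 3 * Nat.card P →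
      ∃ g : alternatingGroup (Fin n), N₂ = N₁.map (MulAut.conj g).toMonoidHom) := by
  haveI := Fact.mk Nat.prime_two
  have hc : Nat.card (Fin n) = n := by simp
  have hP : 2 * (3 * Nat.card P) = CL.Known.nilF (Nat.card (Fin n)) := by
    rw [mul_left_comm, CL.Known.card_sylow_two_alt (by simp; omega), hc, CL.Known.nilF_of_eq hn]; simp
  refine ⟨fun N hN => ?_, ?_, fun N₁ N₂ h1 h2 e1 e2 => ?_⟩
  · have h := (CL.Known.card_le_nilA _ _ (CL.Grp.isNilpotent_map hN (alternatingGroup (Fin n)).subtype)
      (Subgroup.map_subtype_le _)).1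
    have h2 := CL.Known.two_mul_le_nilF (by unfold CL.Known.NilExc; omega) h
    rw [CL.Known.card_map_subtype] at h2
    omega
  · obtain ⟨M, hM, ⟨e⟩, hA⟩ := CL.Known.exists_pext_three (Ω := Fin n) (Δ := Fin (n - 3)) (by simp; omega)
      ((P : Subgroup (alternatingGroup (Fin (n - 3)))).map (alternatingGroup _).subtype)
      (CL.Grp.isNilpotent_map P.isPGroup'.isNilpotent _)
    have hM' := hA (Subgroup.map_subtype_le _)
    have f := (Subgroup.subgroupOfEquivOfLe hM').trans (e.trans
      (((P : Subgroup (alternatingGroup (Fin (n - 3)))).equivMapOfInjective _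
        (alternatingGroup _).subtype_injective).symm.prodCongr (MulEquiv.refl _)))
    refine ⟨M.subgroupOf _, Group.nilpotent_of_mulEquiv (Subgroup.subgroupOfEquivOfLe hM').symm, ?_, ⟨f⟩⟩
    rw [Nat.card_congr f.toEquiv, Nat.card_prod, mul_comm]
    simp
  · obtain ⟨p, _, B, hp, hB, f1⟩ := CL.Known.eq_pext_of_two_mul_card_eq_nilF
      (CL.Grp.isNilpotent_map h1 (alternatingGroup (Fin n)).subtype) (Subgroup.map_subtype_le _) (by rwa [hc])
      (by rwa [hc]) (by rw [CL.Known.card_map_subtype, e1, hP])
    obtain ⟨q, _, C, hq, hC, f2⟩ := CL.Known.eq_pext_of_two_mul_card_eq_nilF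
      (CL.Grp.isNilpotent_map h2 (alternatingGroup (Fin n)).subtype) (Subgroup.map_subtype_le _) (by rwa [hc])
      (by rwa [hc]) (by rw [CL.Known.card_map_subtype, e2, hP])
    have k1 := CL.Known.card_add_card_not p
    have k2 := CL.Known.card_add_card_not q
    obtain ⟨t, ht⟩ := CL.Known.exists_odd_perm (α := {x // p x}) (by omega)
    obtain ⟨g, hg, e⟩ := ((CL.Known.piso_alt (hp.trans hq.symm)).pext
      ((CL.Known.piso_alt (by omega)).sylow hB hC)).exists_even_conj
      (Or.inr ⟨t.subtypeCongr 1, by rw [Equiv.Perm.sign_subtypeCongr, ht]; simp,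
        CL.Known.subtypeCongr_mem_normalizer (by rw [Subgroup.normalizer_eq_top]; trivial) (one_mem _)⟩)
    exact ⟨⟨g, hg⟩, CL.Known.alt_conj_of_map hg (by rw [f1, f2, e])⟩

end Cfsg.Agent.S2256
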