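import Cfsg.Statements.S2257
import Cfsg.Agent.Cls.SL2Sol


set_option autoImplicit false
open Cfsg Matrix Subgroup CL.GL2 CL.SL2
open scoped MatrixGroups

namespace Cfsg.Agent.S2257

/-- Let G = PSL_2(F) with F a field of order q = 2^p, p prime, and for x ∈ G call the solubilizer of x the set of y ∈ G such that x and y generate a solvable subgroup. Then the solubilizer of an involution has 3q(q − 1) elements; that of a non-identity element of order dividing q − 1 has 2q(q − 1) elements; and that of a non-identity element of order dividing q + 1 has 2(q + 1) elements. -/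
theorem result (p : ℕ) (hp : p.Prime) {F : Type*} [Field F] [Fintype F]
    (hF : Fintype.card F = 2 ^ p) (x : Matrix.ProjectiveSpecialLinearGroup (Fin 2) F) :
    (orderOf x = 2 → Nat.card {y : Matrix.ProjectiveSpecialLinearGroup (Fin 2) F // Group.IsSolvable ↥(Subgroup.closure ({x, y} : Set (Matrix.ProjectiveSpecialLinearGroup (Fin 2) F)))} = 3 * 2 ^ p * (2 ^ p - 1)) ∧
    (x ≠ 1 → orderOf x ∣ 2 ^ p - 1 → Nat.card {y : Matrix.ProjectiveSpecialLinearGroup (Fin 2) F // Group.IsSolvable ↥(Subgroup.closure ({x, y} : Set (Matrix.ProjectiveSpecialLinearGroup (Fin 2) F)))} = 2 * 2 ^ p * (2 ^ p - 1)) ∧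
    (x ≠ 1 → orderOf x ∣ 2 ^ p + 1 → Nat.card {y : Matrix.ProjectiveSpecialLinearGroup (Fin 2) F // Group.IsSolvable ↥(Subgroup.closure ({x, y} : Set (Matrix.ProjectiveSpecialLinearGroup (Fin 2) F)))} = 2 * (2 ^ p + 1)) := by
  classical
  have h2 : (2 : F) = 0 := not_not.1 fun h => by
    have := odd_of_two_ne_zero h
    rw [hF, Nat.odd_pow_iff hp.ne_zero] at this
    exact absurd this (by decide)
  have : CharP F 2 := CharTwo.of_one_ne_zero_of_two_eq_zero one_ne_zero h2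
  have h := minS_of_card 2 hp hF (Or.inl rfl)
  have hd := gcd_two_of_eq h2
  have h3 : x ≠ 1 → orderOf x ∣ Fintype.card F + 1 ∨ orderOf x ∣ Fintype.card F - 1 → x ^ 2 ≠ 1 :=
    fun h1 h3 h4 => by
      rw [orderOf_eq_prime h4 h1] at h3
      exact h3.elim (not_dvd_card_add_one 2) (not_dvd_card_sub_one 2)
  rw [← hF]
  refine ⟨fun hx => ?_, fun h1 h4 => ?_, fun h1 h4 => ?_⟩
  · induction x using QuotientGroup.induction_on with | H X =>
    obtain ⟨h4, h5⟩ := orderOf_eq_prime_iff.1 hx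
    obtain ⟨b, hb, h6⟩ := exists_isConj_psl_upSL h5 (by
      rw [trace_eq_zero_of_psl_sq h5 h4]; linear_combination -2 * h2)
    obtain ⟨c, hc⟩ := isConj_iff.1 h6
    rw [← hc, conj_pow, mul_inv_eq_one, mul_eq_left] at h4
    rw [← hc, Ne, mul_inv_eq_one, mul_eq_left] at h5
    have h7 := card_sl_subtype fun y => Group.IsSolvable
      (closure ({((upSL 1 b (one_mul 1) : SL(2, F)) : PSL(2, F)), y} : Set PSL(2, F)))
    have h8 : ∀ Y : SL(2, F), (Y : PSL(2, F)) ^ 2 = 1 → (Y : M2 F).trace = 0 := fun Y h => by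
      by_cases h1 : (Y : PSL(2, F)) = 1
      · exact pow_eq_zero_iff two_ne_zero |>.1 (by
          linear_combination trace_sq_of_psl_eq_one h1 + 2 * h2)
      · exact trace_eq_zero_of_psl_sq h1 h
    rw [hd, one_mul] at h7
    rw [card_sol_conj h6, ← h7, Nat.card_congr
      (Equiv.subtypeEquivRight (q := fun Y : SL(2, F) => Y 1 0 = 0 ∨
        ((Y : M2 F).trace = 0 ∨ (Y : M2 F).trace + b * Y 1 0 = 0)) fun Y => ⟨fun h1 => ?_, ?_⟩),
      card_sl_lower fun c t => t = 0 ∨ t + b * c = 0, card_eq_mul_of_fiber (β := {c : F // c ≠ 0})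
      (n := 2) (fun z : {z : F × F // z.1 ≠ 0 ∧ (z.2 = 0 ∨ z.2 + b * z.1 = 0)} => ⟨z.1.1, z.2.1⟩)
      fun ⟨c, hc⟩ => ?_, Nat.card_eq_fintype_card, Fintype.card_subtype_compl,
      Fintype.card_subtype_eq]
    · ring
    · rw [Nat.card_eq_two_iff]
      refine ⟨⟨⟨(c, 0), hc, Or.inl rfl⟩, rfl⟩, ⟨⟨(c, -(b * c)), hc, Or.inr (neg_add_cancel _)⟩, rfl⟩,
        by simp [hb, hc], Set.eq_univ_of_forall ?_⟩
      rintro ⟨⟨⟨d, t⟩, h9, h10⟩, ⟨⟩⟩
      simpa [add_eq_zero_iff_eq_neg] using h10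
    · rcases h.sol_cases h1 with h9 | h9 | ⟨-, h9⟩ | ⟨h9, -⟩
      · exact Or.inl (apply_eq_zero_of_fix 2 hb (Or.inl h9))
      · exact Or.inl (apply_eq_zero_of_fix 2 hb (Or.inr h9))
      · exact Or.inr (h9.imp (h8 Y) fun h => trace_upSL_mul b Y ▸ h8 _ h)
      · omega
    · rintro (h9 | h9)
      · exact h.sol_of_fix (a := pinf) ((sl_smul_pinf_eq_pinf _).2 rfl)
          ((sl_smul_pinf_eq_pinf _).2 h9)
      · exact h.sol_of_sq h5 h4 (h9.imp psl_sq_eq_one_of_trace fun h =>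
          psl_sq_eq_one_of_trace ((trace_upSL_mul b Y).trans h))
  · rw [← h.card_sol_split (h3 h1 (Or.inr h4)) h4, hd, mul_one]
  · rw [← h.card_sol_ell (h3 h1 (Or.inl h4)) h4, hd, mul_one]

end Cfsg.Agent.S2257
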