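import Cfsg.Statements.S2258
import Cfsg.Agent.Cls.SL2Sol
import Cfsg.Agent.Known.PSL2Classes


set_option autoImplicit false
set_option linter.unusedSectionVars false
open Cfsg Matrix Subgroup CL.GL2 CL.SL2
open scoped MatrixGroups

namespace Cfsg.Agent.S2258

variable {F : Type*} [Field F] [Fintype F] [CharP F 3]

theorem three : (3 : F) = 0 := CharP.cast_eq_zero F 3

theorem tr {Y : SL(2, F)} (h : (Y : PSL(2, F)) ^ 2 = 1 ∨ (Y : PSL(2, F)) ^ 3 = 1) :
    (Y : M2 F).trace = 0 ∨ (Y : M2 F).trace ^ 2 = 1 := by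
  by_cases h1 : (Y : PSL(2, F)) = 1
  · exact Or.inr (by linear_combination trace_sq_of_psl_eq_one h1 + three (F := F))
  · exact h.imp (trace_eq_zero_of_psl_sq h1) (trace_sq_of_psl_pow_three h1)

theorem mem_range {t : F} (h : t = 0 ∨ t ^ 2 = 1) : t ∈ (ZMod.castHom dvd_rfl F : ZMod 3 →+* F).range := by
  rcases h with rfl | h
  · exact zero_mem _
  · rcases sq_eq_one_iff.1 h with rfl | rfl
    · exact one_mem _
    · exact neg_mem (one_mem _)

theorem unip (h : MinS 3 F) {x : PSL(2, F)} (hx : orderOf x = 3) :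
    2 * Nat.card {y // Group.IsSolvable (closure ({x, y} : Set PSL(2, F)))} =
      Fintype.card F * (Fintype.card F + 5) := by
  classical
  have h2 := two_ne_zero_of_odd (odd_of_charP (F := F) (p := 3) (by decide))
  induction x using QuotientGroup.induction_on with | H X =>
  obtain ⟨h4, h5⟩ := orderOf_eq_prime_iff.1 hx
  obtain ⟨b, hb, h6⟩ := exists_isConj_psl_upSL h5 (by
    linear_combination trace_sq_of_psl_pow_three h5 h4 - three (F := F))
  obtain ⟨c, hc⟩ := isConj_iff.1 h6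
  rw [← hc, show c * _ * c⁻¹ = MulAut.conj c _ from rfl, MulEquiv.orderOf_eq] at hx
  have h3 := mt (orderOf_dvd_iff_pow_eq_one (n := 2)).2 (hx ▸ (by decide : ¬ 3 ∣ 2))
  have h7 := card_sl_subtype fun y => Group.IsSolvable
    (closure ({((upSL 1 b (one_mul 1) : SL(2, F)) : PSL(2, F)), y} : Set PSL(2, F)))
  rw [gcd_two_of_ne h2] at h7
  have h8 : Nat.card {z : F × F // z.1 ≠ 0 ∧ (z.2 = 0 ∨ z.2 ^ 2 = 1) ∧ (b * z.1) ^ 2 = 1} = 6 := by
    have h9 : (1 : F) ≠ -1 := fun h => h2 (by linear_combination h)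
    rw [Nat.card_eq_fintype_card, Fintype.card_subtype, show Finset.univ.filter (fun z : F × F =>
      z.1 ≠ 0 ∧ (z.2 = 0 ∨ z.2 ^ 2 = 1) ∧ (b * z.1) ^ 2 = 1) =
        ({b⁻¹, -b⁻¹} : Finset F) ×ˢ ({0, 1, -1} : Finset F) from ?_,
      Finset.card_product, Finset.card_pair fun h => h9 (mul_left_cancel₀ (inv_ne_zero hb)
        (by linear_combination h)), Finset.card_eq_three.2
      ⟨_, _, _, zero_ne_one, by simp, h9, rfl⟩]
    ext ⟨c, t⟩
    simp only [Finset.mem_filter, Finset.mem_univ, Finset.mem_product, Finset.mem_insert,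
      Finset.mem_singleton, sq_eq_one_iff, ← mul_right_inj' hb (b := c), mul_neg, mul_inv_cancel₀ hb,
      mul_zero, ne_eq]
    grind
  rw [card_sol_conj h6, ← h7, Nat.card_congr (Equiv.subtypeEquivRight (q := fun Y : SL(2, F) =>
    Y 1 0 = 0 ∨ (((Y : M2 F).trace = 0 ∨ (Y : M2 F).trace ^ 2 = 1) ∧ (b * Y 1 0) ^ 2 = 1))
    fun Y => ⟨fun h1 => ?_, ?_⟩), card_sl_lower fun c t => (t = 0 ∨ t ^ 2 = 1) ∧ (b * c) ^ 2 = 1,
    h8, ← mul_add]
  · have := h.1
    congr 1
    omega
  · rcases h.sol_cases h1 with h9 | h9 | ⟨h9, -⟩ | ⟨-, -, h9, h10⟩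
    · exact Or.inl (apply_eq_zero_of_fix 3 hb (Or.inl h9))
    · exact Or.inl (apply_eq_zero_of_fix 3 hb (Or.inr h9))
    · exact absurd h9 h3
    · refine or_iff_not_imp_left.2 fun h11 => ⟨tr h9, mul_left_cancel₀ (mul_ne_zero hb h11) ?_⟩
      have h12 := tr (Y := upSL 1 b (one_mul 1) * Y) h10
      rw [trace_upSL_mul] at h12
      have h13 := tr h9
      have := three (F := F)
      grind
  · rintro (h9 | ⟨h9, h10⟩)
    · exact h.sol_of_fix (a := pinf) ((sl_smul_pinf_eq_pinf _).2 rfl)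
        ((sl_smul_pinf_eq_pinf _).2 h9)
    · refine isSolvable_closure_of_traces (ZMod.card 3).le (ZMod.castHom dvd_rfl F)
        (by rw [trace_upSL]; exact add_mem (one_mem _) (one_mem _)) (mem_range h9)
        (by rw [trace_upSL_mul]; exact add_mem (mem_range h9) (mem_range (Or.inr h10))) ?_
      rw [trace_upSL, trace_upSL_mul]
      exact fun h => one_ne_zero (α := F) (by linear_combination h - h10)

theorem inv (h : MinS 3 F) (h1 : ¬ IsSquare (-1 : F)) {x : PSL(2, F)} (hx : orderOf x = 2) :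
    Nat.card {y // Group.IsSolvable (closure ({x, y} : Set PSL(2, F)))} =
      Fintype.card F * (Fintype.card F + 1) := by
  classical
  have h2 := two_ne_zero_of_odd (odd_of_charP (F := F) (p := 3) (by decide))
  have h3 := three (F := F)
  obtain ⟨W, hW⟩ : ∃ W : SL(2, F), W.val = !![0, -1; 1, 0] := ⟨sl 0 (-1) 1 0 (by ring), rfl⟩
  have h4 : W.val.trace = 0 := by simp [hW]
  have h5 := orderOf_psl_mk_of_even h2 (n := 2)
    (orderOf_eq_four_of_mul_self h2 (mul_self_eq_neg_one_iff.2 h4))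
  obtain ⟨h6, h7⟩ := orderOf_eq_prime_iff.1 h5
  have h8 : IsEll W.val := isEll_iff.2 fun c hc => h1 ⟨c, by
    rw [h4, det_SL] at hc; linear_combination -hc⟩
  have h9 : ∀ Y : SL(2, F), (W * Y).val.trace = Y 0 1 - Y 1 0 := fun Y => by
    rw [coe_mul_SL, hW, trace_fin_two, mul00, mul11]; simp; ring
  have h10 : ∀ Y : SL(2, F), Y * W = W * Y ↔ Y.val.trace ^ 2 + (W * Y).val.trace ^ 2 = 1 := by
    intro Y
    rw [show Y * W = W * Y ↔ Y.val * W.val = W.val * Y.val from Subtype.ext_iff, h9, hW, ext2_iff,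
      trace_fin_two]
    simp only [mul00, mul01, mul10, mul11]
    simp
    have := sl_det Y
    refine ⟨fun h => by grind, fun h => ?_⟩
    have h11 : Y 0 0 - Y 1 1 = 0 := not_not.1 fun h' => h1 ⟨(Y 0 1 + Y 1 0) / (Y 0 0 - Y 1 1), by
      field_simp; linear_combination -h + 4 * this + h3⟩
    have h12 : Y 0 1 + Y 1 0 = 0 := pow_eq_zero_iff two_ne_zero |>.1 (by
      linear_combination h - 4 * this - h3 - (Y 0 0 - Y 1 1) * h11)
    grind
  let T : F × F → Prop := fun z => z.1 ^ 2 + z.2 ^ 2 ≠ 1 ∧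
    (z.1 = 0 ∨ z.2 = 0 ∨ (z.1 ^ 2 = 1 ∧ z.2 ^ 2 = 1))
  have h11 : Nat.card {z // T z} + 1 = 2 * Fintype.card F := by
    have a1 : (1 : F) ≠ -1 := fun h => h2 (by linear_combination h)
    have a2 : ({0, 1, -1} : Finset F).card = 3 :=
      Finset.card_eq_three.2 ⟨_, _, _, zero_ne_one, by simp, a1, rfl⟩
    rw [Nat.card_eq_fintype_card, Fintype.card_subtype, show Finset.univ.filter T =
      ({0} : Finset F) ×ˢ ({1, -1} : Finset F)ᶜ ∪ ({0, 1, -1} : Finset F)ᶜ ×ˢ ({0} : Finset F) ∪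
        ({1, -1} : Finset F) ×ˢ ({1, -1} : Finset F) from ?_,
      Finset.card_union_of_disjoint (by simp [Finset.disjoint_left]; grind),
      Finset.card_union_of_disjoint (by simp [Finset.disjoint_left]; grind)]
    · simp only [Finset.card_product, Finset.card_compl, Finset.card_pair a1, a2,
        Finset.card_singleton]
      have := h.1
      omega
    · ext ⟨t, r⟩
      simp only [Finset.mem_filter, Finset.mem_univ, Finset.mem_product, Finset.mem_insert,
        Finset.mem_singleton, Finset.mem_union, Finset.mem_compl, ← sq_eq_one_iff, T]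
      grind
  have h12 : {Y : SL(2, F) | T (Y.val.trace, (W * Y).val.trace)}.ncard =
      (Fintype.card F + 1) * Nat.card {z // T z} := by
    refine card_eq_mul_of_fiber (α := {Y : SL(2, F) // T (Y.val.trace, (W * Y).val.trace)})
      (fun Y => ⟨_, Y.2⟩) fun ⟨⟨t, r⟩, hz⟩ => ?_
    rw [← card_sq_add_sq h1 (sub_ne_zero.2 hz.1)]
    refine Nat.card_congr (Equiv.ofBijective (fun Y => ⟨(Y.1.1 0 0 - Y.1.1 1 1, Y.1.1 0 1 + Y.1.1 1 0),
      by
        obtain ⟨e1, e2⟩ := Prod.ext_iff.1 (Subtype.ext_iff.1 Y.2)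
        simp only [h9, trace_fin_two] at e1 e2
        linear_combination -4 * sl_det Y.1.1 - h3 + (Y.1.1 0 0 + Y.1.1 1 1 + t) * e1 +
          (Y.1.1 0 1 - Y.1.1 1 0 + r) * e2⟩) ⟨?_, fun ⟨⟨u, v⟩, huv⟩ => ?_⟩)
    · rintro ⟨⟨Y, _⟩, a1⟩ ⟨⟨Y', _⟩, a2⟩ e
      obtain ⟨e1, e2⟩ := Prod.ext_iff.1 (Subtype.ext_iff.1 (a1.trans a2.symm))
      obtain ⟨e3, e4⟩ := Prod.ext_iff.1 (Subtype.ext_iff.1 e)
      simp only [h9, trace_fin_two] at e1 e2 e3 e4
      exact Subtype.ext (Subtype.ext (ext_SL (ext2 (mul_left_cancel₀ h2 (by linear_combination e1 + e3))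
        (mul_left_cancel₀ h2 (by linear_combination e2 + e4))
        (mul_left_cancel₀ h2 (by linear_combination e4 - e2))
        (mul_left_cancel₀ h2 (by linear_combination e1 - e3)))))
    · let Y : SL(2, F) := sl ((t + u) / 2) ((v + r) / 2) ((v - r) / 2) ((t - u) / 2) (by
        field_simp; linear_combination -huv - h3)
      have e : (Y.val.trace, (W * Y).val.trace) = (t, r) := Prod.ext
        (by rw [trace_sl]; field_simp; ring) (by rw [h9]; simp [Y, coe_sl]; field_simp; ring)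
      exact ⟨⟨⟨Y, e.symm ▸ hz⟩, Subtype.ext e⟩, Subtype.ext (Prod.ext
        (by simp [Y, coe_sl]; field_simp; ring) (by simp [Y, coe_sl]; field_simp; ring))⟩
  have h13 := card_sl_subtype fun y => Group.IsSolvable
    (closure ({(W : PSL(2, F)), y} : Set PSL(2, F)))
  rw [gcd_two_of_ne h2, Nat.card_congr (Equiv.subtypeEquivRight (q := fun Y : SL(2, F) => Y ∈
    (centralizer {W} : Set SL(2, F)) ∪ {Y : SL(2, F) | T (Y.val.trace, (W * Y).val.trace)})
    fun Y => ?_), Nat.card_coe_set_eq, Set.ncard_union_eq (Set.disjoint_left.2 fun Y h h' =>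
      h'.1 ((h10 Y).1 (mem_centralizer_singleton_iff.1 h))), h12, ← Nat.card_coe_set_eq,
    SetLike.coe_sort_coe, card_cent_SL_of_isEll h8] at h13
  · rw [card_sol_conj (psl_isConj_of_orderOf_two h2 h5 hx)]
    nlinarith
  simp only [Set.mem_union, SetLike.mem_coe, mem_centralizer_singleton_iff, Set.mem_ofPred_eq, T]
  refine ⟨fun h14 => or_iff_not_imp_left.2 fun h15 => ⟨mt (h10 Y).2 h15, ?_⟩, ?_⟩
  · rcases h.sol_cases h14 with ⟨a, h16, -⟩ | h16 | ⟨-, h16⟩ | ⟨-, -, h16, h17⟩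
    · rcases eq_pinf_or_pt a with rfl | ⟨a, rfl⟩
      · simpa [hW] using (sl_smul_pinf_eq_pinf W).1 h16
      · exact absurd ⟨a, by simpa [hW] using (sl_smul_pt_eq_pt W a a).1 h16⟩ h1
    · obtain ⟨k, hk, h17⟩ := (mem_zpowers_iff_mem_range_orderOf.trans Finset.mem_image).1
        ((mem_normalizer_iff.1 h16 _).1 (mem_zpowers _))
      rw [h5, Finset.mem_range] at hk
      interval_cases k
      · rw [pow_zero, eq_comm, mul_inv_eq_one, mul_eq_left] at h17
        exact absurd h17 h7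
      · rw [pow_one, eq_mul_inv_iff_mul_eq] at h17
        exact Or.inl (trace_eq_zero_of_anti h2
          ((psl_mk_eq_iff.1 h17).resolve_left fun h => h15 h.symm))
    · refine h16.imp (trace_eq_zero_of_psl_sq fun h => h15 ?_) fun h =>
        Or.inl (trace_eq_zero_of_psl_sq (Y := W * Y) (fun h => h15 ?_) h)
      · exact mem_center_iff.1 ((QuotientGroup.eq_one_iff _).1 h) W |>.symm
      · exact mul_left_cancel (by
          rw [← mul_assoc]; exact (mem_center_iff.1 ((QuotientGroup.eq_one_iff _).1 h) W).symm)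
    · have := tr h16
      have := tr (Y := W * Y) h17
      tauto
  · rintro (h14 | ⟨-, h14 | h14 | ⟨h14, h15⟩⟩)
    · exact h.sol_of_mem_normalizer h7 (le_normalizer (mem_zpowers _)) (mem_normalizer_zpowers_of
        (Or.inl (mul_inv_eq_iff_eq_mul.2 (congrArg QuotientGroup.mk h14))))
    · exact h.sol_of_sq h7 h6 (Or.inl (psl_sq_eq_one_of_trace h14))
    · exact h.sol_of_sq h7 h6 (Or.inr (psl_sq_eq_one_of_trace h14))
    · exact isSolvable_closure_of_traces (ZMod.card 3).le (ZMod.castHom dvd_rfl F)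
        (mem_range (Or.inl h4)) (mem_range (Or.inr h14)) (mem_range (Or.inr h15))
        (by rw [h4, h14, h15]; exact fun h => h2 (by linear_combination -h))

/-- Let G = PSL_2(F) with F a field of order q = 3^p, p an odd prime, and for x ∈ G call the solubilizer of x the set of y ∈ G such that x and y generate a solvable subgroup. Then the solubilizer of an involution has q(q + 1) elements; that of an element of order 3 has q(q + 5)/2 elements; that of an element of order neither 1 nor 2 dividing q − 1 has q(q − 1) elements; and that of an element of order neither 1 nor 2 dividing q + 1 has q + 1 elements. -/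
theorem result (p : ℕ) (hp : p.Prime) (hodd : Odd p) {F : Type*} [Field F] [Fintype F]
    (hF : Fintype.card F = 3 ^ p) (x : Matrix.ProjectiveSpecialLinearGroup (Fin 2) F) :
    (orderOf x = 2 → Nat.card {y : Matrix.ProjectiveSpecialLinearGroup (Fin 2) F // Group.IsSolvable ↥(Subgroup.closure ({x, y} : Set (Matrix.ProjectiveSpecialLinearGroup (Fin 2) F)))} = 3 ^ p * (3 ^ p + 1)) ∧
    (orderOf x = 3 → 2 * Nat.card {y : Matrix.ProjectiveSpecialLinearGroup (Fin 2) F // Group.IsSolvable ↥(Subgroup.closure ({x, y} : Set (Matrix.ProjectiveSpecialLinearGroup (Fin 2) F)))} = 3 ^ p * (3 ^ p + 5)) ∧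
    (x ≠ 1 → orderOf x ≠ 2 → orderOf x ∣ 3 ^ p - 1 → Nat.card {y : Matrix.ProjectiveSpecialLinearGroup (Fin 2) F // Group.IsSolvable ↥(Subgroup.closure ({x, y} : Set (Matrix.ProjectiveSpecialLinearGroup (Fin 2) F)))} = 3 ^ p * (3 ^ p - 1)) ∧
    (x ≠ 1 → orderOf x ≠ 2 → orderOf x ∣ 3 ^ p + 1 → Nat.card {y : Matrix.ProjectiveSpecialLinearGroup (Fin 2) F // Group.IsSolvable ↥(Subgroup.closure ({x, y} : Set (Matrix.ProjectiveSpecialLinearGroup (Fin 2) F)))} = 3 ^ p + 1) := by
  obtain ⟨r, _, n, hr, hn⟩ := FiniteField.card' F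
  obtain rfl : r = 3 := (Nat.prime_dvd_prime_iff_eq hr Nat.prime_three).1
    (hr.dvd_of_dvd_pow (hF ▸ hn ▸ dvd_pow_self r n.ne_zero))
  have h := minS_of_card 3 hp hF (Or.inr ⟨rfl, hodd⟩)
  have hd := gcd_two_of_ne (two_ne_zero_of_odd (odd_of_charP (F := F) (p := 3) (by decide)))
  have h3 : x ≠ 1 → orderOf x ≠ 2 → x ^ 2 ≠ 1 := fun h1 h2 h3 => h2 (orderOf_eq_prime h3 h1)
  rw [← hF]
  refine ⟨inv h fun h1 => FiniteField.isSquare_neg_one_iff.1 h1 ?_, unip h, fun h1 h2 h4 => ?_,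
    fun h1 h2 h4 => ?_⟩
  · obtain ⟨k, rfl⟩ := hodd
    rw [hF, pow_succ, pow_mul, Nat.mul_mod, Nat.pow_mod]
    simp
  · have := h.card_sol_split (h3 h1 h2) h4
    rw [hd, mul_assoc] at this
    omega
  · have := h.card_sol_ell (h3 h1 h2) h4
    rw [hd] at this
    omega

end Cfsg.Agent.S2258
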