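import Cfsg.Statements.S2268
import Cfsg.Agent.Base

set_option autoImplicit false
open Cfsg

namespace Cfsg.Agent.S2268

/-- Let G be a finite group with an abelian Sylow p-subgroup P and let Q ≤ P. Then N_G(Q) = (N_G(Q) ∩ N_G(P))·C_G(Q), so that N_G(Q)/C_G(Q) is a homomorphic image of the subgroup (N_G(Q) ∩ N_G(P))/C_G(P) of N_G(P)/C_G(P); in particular the order of N_G(Q)/C_G(Q) divides the order of N_G(P)/C_G(P). -/
theorem result {G : Type*} [Group G] [Finite G] {p : ℕ} [Fact p.Prime]
    (P : Sylow p G) (hP : IsMulCommutative (P : Subgroup G)) (Q : Subgroup G) (hQ : Q ≤ (P : Subgroup G)) :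
    Subgroup.normalizer (Q : Set G) =
      (Subgroup.normalizer (Q : Set G) ⊓ Subgroup.normalizer ((P : Subgroup G) : Set G)) ⊔ Subgroup.centralizer (Q : Set G) ∧
    ((Subgroup.centralizer (Q : Set G)).subgroupOf (Subgroup.normalizer (Q : Set G))).index ∣ ((Subgroup.centralizer ((P : Subgroup G) : Set G)).subgroupOf (Subgroup.normalizer ((P : Subgroup G) : Set G))).index := by
  have hPC : (P : Subgroup G) ≤ Subgroup.centralizer (Q : Set G) := by
    intro x hx
    rw [Subgroup.mem_centralizer_iff]
    intro y hy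
    exact congrArg Subtype.val (hP.is_comm.comm (⟨y, hQ hy⟩ : (P : Subgroup G)) ⟨x, hx⟩)
  have hCN : Subgroup.centralizer (Q : Set G) ≤ Subgroup.normalizer (Q : Set G) :=
    Subgroup.centralizer_le_normalizer _
  have h1 : Subgroup.normalizer (Q : Set G) =
      (Subgroup.normalizer (Q : Set G) ⊓ Subgroup.normalizer ((P : Subgroup G) : Set G)) ⊔ Subgroup.centralizer (Q : Set G) := by
    apply le_antisymm _ (sup_le inf_le_left hCN)
    intro g hg
    have hgP : ((g • P : Sylow p G) : Subgroup G) ≤ Subgroup.centralizer (Q : Set G) := by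
      intro x hx
      rw [Sylow.coe_subgroup_smul, Subgroup.mem_smul_pointwise_iff_exists] at hx
      obtain ⟨y, hy, rfl⟩ := hx
      rw [Subgroup.mem_centralizer_iff]
      intro z hz
      have hz' : g⁻¹ * z * g ∈ Q := by
        have := (Subgroup.mem_normalizer_iff.1 ((Subgroup.normalizer (Q : Set G)).inv_mem hg) z).1 hz
        simpa using this
      have := (Subgroup.mem_centralizer_iff.1 (hPC hy)) _ hz'
      simp only [MulAut.smul_def, MulAut.conj_apply]
      calc z * (g * y * g⁻¹) = g * (g⁻¹ * z * g * y) * g⁻¹ := by group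
        _ = g * (y * (g⁻¹ * z * g)) * g⁻¹ := by rw [this]
        _ = g * y * g⁻¹ * z := by group
    obtain ⟨c, hc⟩ := MulAction.exists_smul_eq (Subgroup.centralizer (Q : Set G))
      ((g • P).subtype hgP) (P.subtype hPC)
    have hc2 : (c : G) • (g • P) = P := by
      have := Sylow.smul_subtype hgP c
      apply Sylow.subtype_injective (hP := (Sylow.smul_le hgP c)) (hQ := hPC)
      rw [← hc, this]
    rw [← mul_smul, Sylow.smul_eq_iff_mem_normalizer] at hc2
    have h3 : (c : G) * g ∈ Subgroup.normalizer (Q : Set G) ⊓ Subgroup.normalizer ((P : Subgroup G) : Set G) :=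
      ⟨Subgroup.mul_mem _ (hCN c.2) hg, hc2⟩
    have : g = (c : G)⁻¹ * ((c : G) * g) := by group
    rw [this]
    exact Subgroup.mul_mem _ (Subgroup.mem_sup_right (Subgroup.inv_mem _ c.2)) (Subgroup.mem_sup_left h3)
  refine ⟨h1, ?_⟩
  set N := Subgroup.normalizer (Q : Set G)
  set C := Subgroup.centralizer (Q : Set G)
  set NP := Subgroup.normalizer ((P : Subgroup G) : Set G)
  set CP := Subgroup.centralizer ((P : Subgroup G) : Set G)
  have hCP : CP ≤ C := Subgroup.centralizer_le (by exact_mod_cast hQ)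
  have hCPN : CP ≤ NP := Subgroup.centralizer_le_normalizer _
  change C.relIndex N ∣ CP.relIndex NP
  have e1 : C.relIndex N = C.relIndex (N ⊓ NP) := by
    have hn : (C.subgroupOf N).Normal := inferInstance
    have e2 : (C.subgroupOf N).relIndex ((N ⊓ NP).subgroupOf N) = C.relIndex (N ⊓ NP) :=
      Subgroup.relIndex_subgroupOf inf_le_left
    rw [← e2, ← Subgroup.relIndex_sup_right ((N ⊓ NP).subgroupOf N) (C.subgroupOf N),
      ← Subgroup.subgroupOf_sup inf_le_left hCN, ← h1]
    rw [Subgroup.subgroupOf_self, Subgroup.relIndex_top_right]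
    rfl
  rw [e1, ← Subgroup.relIndex_mul_relIndex CP (N ⊓ NP) NP (le_inf (hCP.trans hCN) hCPN) inf_le_right]
  exact (Subgroup.relIndex_dvd_of_le_left _ hCP).mul_right _

end Cfsg.Agent.S2268
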