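import Cfsg.Statements.S2269
import Cfsg.Agent.Known.AltAbSylow
import Cfsg.Agent.Known.AltAbelian2

set_option autoImplicit false
open Cfsg

namespace Cfsg.Agent.S2269

/-- Let n ≥ 5 and let P be an abelian Sylow p-subgroup of the alternating group A_n. Then N(P)/C(P) (taken in A_n) has even order, or P is cyclic, except when n = 5 and p = 2, where P is a four-group and N(P)/C(P) has order 3. -/
theorem result (n : ℕ) (hn : 5 ≤ n) {p : ℕ} [Fact p.Prime]
    (P : Sylow p (alternatingGroup (Fin n))) (hP : IsMulCommutative (P : Subgroup (alternatingGroup (Fin n)))) :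
    (¬ (n = 5 ∧ p = 2) → 2 ∣ ((Subgroup.centralizer ((P : Subgroup (alternatingGroup (Fin n))) : Set (alternatingGroup (Fin n)))).subgroupOf (Subgroup.normalizer ((P : Subgroup (alternatingGroup (Fin n))) : Set (alternatingGroup (Fin n))))).index ∨ IsCyclic (P : Subgroup (alternatingGroup (Fin n)))) ∧
    ((n = 5 ∧ p = 2) → ((Subgroup.centralizer ((P : Subgroup (alternatingGroup (Fin n))) : Set (alternatingGroup (Fin n)))).subgroupOf (Subgroup.normalizer ((P : Subgroup (alternatingGroup (Fin n))) : Set (alternatingGroup (Fin n))))).index = 3 ∧ IsKleinFour (P : Subgroup (alternatingGroup (Fin n)))) := by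
  have hS' := CL.Grp.isSylowIn_map_subtype P
  have hp : p.Prime := Fact.out
  have hcardA : 2 * Nat.card (alternatingGroup (Fin n)) = n.factorial := by
    haveI : Nontrivial (Fin n) := Fin.nontrivial_iff_two_le.2 (by omega)
    rw [two_mul_nat_card_alternatingGroup, Nat.card_perm, Nat.card_fin]
  refine ⟨fun h => ?_, ?_⟩
  · rcases hp.eq_two_or_odd' with rfl | ho
    · have := CL.Known.lt_of_sylow_alt_comm (Ω := Fin n) (by simp; omega) hS'
        (CL.Known.map_subtype_isMulCommutative hP)
      simp at this
      omega
    · have h3 : 3 ≤ p := by
        have := hp.two_le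
        have : p ≠ 2 := by rintro rfl; exact absurd ho (by decide)
        omega
      by_cases h2 : 2 * p ≤ n
      · left
        obtain ⟨c, hc, hcard⟩ := CL.Known.exists_cycle_card (Ω := Fin n) (k := p) hp.two_le (by simp; omega)
        have hoc : orderOf c = p := by rw [hc.orderOf, hcard]
        have hcp : c ^ p = 1 := by rw [← hoc, pow_orderOf_eq_one]
        have hca : c ∈ alternatingGroup (Fin n) := CL.Known.sign_eq_one_of_odd ho hcp
        refine CL.Known.two_dvd_automizer_of_real P hP (x := ⟨c, hca⟩) (k := 1)
          (Subtype.ext (by rw [pow_one]; exact hcp))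
          (alternatingGroup.isConj_of (Equiv.Perm.isConj_iff_cycleType_eq.2 (Equiv.Perm.cycleType_inv c).symm)
            (by simp [hcard]; omega)) ?_
        intro e
        have e' : c = c⁻¹ := congrArg Subtype.val e
        have h2 : c ^ 2 = 1 := by rw [pow_two]; nth_rewrite 1 [e']; simp
        have := orderOf_dvd_of_pow_eq_one h2
        rw [hoc] at this
        have := Nat.le_of_dvd (by norm_num) this
        omega
      · right
        have hd : Nat.card (P : Subgroup (alternatingGroup (Fin n))) ∣ p := by
          have h1 : Nat.card (P : Subgroup (alternatingGroup (Fin n))) ∣ n.factorial :=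
            (Subgroup.card_subgroup_dvd_card _).trans (Dvd.intro_left _ hcardA)
          rw [P.card_eq_multiplicity] at h1 ⊢
          have h4 := (hp.pow_dvd_iff_le_factorization n.factorial_ne_zero).1 h1
          rw [CL.Known.factorization_factorial_div hp] at h4
          have h5 : n / p ≤ 1 := by
            rw [Nat.div_le_iff_le_mul_add_pred hp.pos]; omega
          have h6 : (n / p).factorial = 1 := Nat.factorial_eq_one.2 h5
          rw [h6, Nat.factorization_one] at h4
          conv_rhs => rw [← pow_one p]
          exact pow_dvd_pow _ (h4.trans (by simpa using h5))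
        exact isCyclic_of_card_dvd_prime hd
  · rintro ⟨rfl, rfl⟩
    have h60 : Nat.card (alternatingGroup (Fin 5)) = 60 := by
      have : Nat.factorial 5 = 120 := by decide
      omega
    have h4 : Nat.card (P : Subgroup (alternatingGroup (Fin 5))) = 4 := by
      rw [P.card_eq_multiplicity, h60]
      have : (60 : ℕ).factorization 2 = 2 := by
        rw [show (60 : ℕ) = 2 ^ 2 * 15 by norm_num, Nat.factorization_mul (by norm_num) (by norm_num),
          Nat.Prime.factorization_pow Nat.prime_two]
        simp [Nat.factorization_eq_zero_of_not_dvd]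
      rw [this]; rfl
    refine ⟨?_, h4, ?_⟩
    · set C := Subgroup.centralizer ((P : Subgroup (alternatingGroup (Fin 5))) : Set (alternatingGroup (Fin 5))) with hC
      set N := Subgroup.normalizer ((P : Subgroup (alternatingGroup (Fin 5))) : Set (alternatingGroup (Fin 5))) with hN
      have hCN : C ≤ N := Subgroup.centralizer_le_normalizer _
      have h15 : (C.subgroupOf N).index ∣ 15 := by
        have h1 : (P : Subgroup (alternatingGroup (Fin 5))).index = 15 := by
          have := (P : Subgroup (alternatingGroup (Fin 5))).card_mul_index
          rw [h4, h60] at this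
          omega
        rw [← h1]
        exact (Dvd.intro _ (Subgroup.relIndex_mul_index hCN)).trans
          (Subgroup.index_dvd_of_le (P : Subgroup (alternatingGroup (Fin 5))).le_centralizer)
      have h24 : (C.subgroupOf N).index ∣ 24 := by
        have key := Subgroup.card_dvd_of_injective _
          (QuotientGroup.kerLift_injective (P : Subgroup (alternatingGroup (Fin 5))).normalizerMonoidHom)
        rw [Subgroup.normalizerMonoidHom_ker, ← Subgroup.index] at key
        refine key.trans ?_
        have := Subgroup.card_dvd_of_injective (MulAut.toPerm (P : Subgroup (alternatingGroup (Fin 5))))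
          (fun a b h => MulEquiv.ext fun x => congrFun (congrArg (fun e : Equiv.Perm _ => (e : _ → _)) h) x)
        rwa [Nat.card_perm, h4] at this
      have h3 : (C.subgroupOf N).index ∣ 3 := by simpa using Nat.dvd_gcd h15 h24
      rcases (Nat.dvd_prime Nat.prime_three).1 h3 with h1 | h1
      · exfalso
        rw [Subgroup.index_eq_one, Subgroup.subgroupOf_eq_top] at h1
        have hc := MonoidHom.ker_transferSylow_isComplement' P h1
        have hs : IsSimpleGroup (alternatingGroup (Fin 5)) := alternatingGroup.isSimpleGroup (by simp)
        have hm := hc.card_mul_card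
        rw [h4, h60] at hm
        rcases hs.eq_bot_or_eq_top_of_normal (MonoidHom.transferSylow P h1).ker inferInstance with h | h
        · rw [h, Subgroup.card_bot] at hm; omega
        · rw [h, Subgroup.card_top, h60] at hm; omega
      · exact h1
    · have key : ∀ g : Equiv.Perm (Fin 5), Equiv.Perm.sign g = 1 → g ^ 4 = 1 → g ^ 2 = 1 := by decide +kernel
      haveI : Nontrivial (P : Subgroup (alternatingGroup (Fin 5))) := Finite.one_lt_card_iff_nontrivial.1 (by omega)
      apply Monoid.exponent_eq_prime_iff Nat.prime_two |>.2
      intro g hg
      apply orderOf_eq_prime _ hg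
      have h1 : g ^ 4 = 1 := by rw [← h4]; exact pow_card_eq_one'
      exact Subtype.ext (Subtype.ext (key g.1.1 g.1.2 (congrArg (fun x => x.1.1) h1)))

end Cfsg.Agent.S2269
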