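import Cfsg.Statements.S2270
import Cfsg.Agent.Known.AltAbSylow

set_option autoImplicit false
open Cfsg

namespace Cfsg.Agent.S2270

/-- Let n ≥ 3, p an odd prime, and P an abelian Sylow p-subgroup of the symmetric group S_n (with p dividing n!, so that P ≠ 1). Then N(P)/C(P) has even order. -/
theorem result (n : ℕ) (hn : 3 ≤ n) {p : ℕ} [Fact p.Prime] (hp : p ≠ 2) (hpn : p ≤ n)
    (P : Sylow p (Equiv.Perm (Fin n))) (hP : IsMulCommutative (P : Subgroup (Equiv.Perm (Fin n)))) :
    2 ∣ ((Subgroup.centralizer ((P : Subgroup (Equiv.Perm (Fin n))) : Set (Equiv.Perm (Fin n)))).subgroupOf (Subgroup.normalizer ((P : Subgroup (Equiv.Perm (Fin n))) : Set (Equiv.Perm (Fin n))))).index := by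
  obtain ⟨c, hc, hcard⟩ := CL.Known.exists_cycle_card (Ω := Fin n) (k := p) (Fact.out : p.Prime).two_le (by simpa using hpn)
  have ho : orderOf c = p := by rw [hc.orderOf, hcard]
  refine CL.Known.two_dvd_automizer_of_real P hP (x := c) (k := 1) (by rw [pow_one, ← ho, pow_orderOf_eq_one])
    (Equiv.Perm.isConj_iff_cycleType_eq.2 (Equiv.Perm.cycleType_inv c).symm) ?_
  intro e
  have h2 : c ^ 2 = 1 := by rw [pow_two]; nth_rewrite 1 [e]; simp
  have := orderOf_dvd_of_pow_eq_one h2
  rw [ho] at this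
  exact hp ((Nat.prime_dvd_prime_iff_eq Fact.out Nat.prime_two).1 this)

end Cfsg.Agent.S2270
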