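import Cfsg.Statements.S2284
import Cfsg.Agent.Known.AltPres3

set_option autoImplicit false
open Cfsg

namespace Cfsg.Agent.S2284
theorem triv (G : Type) [Group G] [Subsingleton G] : ∃ rels : Finset (FreeGroup (Fin 2)), rels.card ≤ 8 ∧
    Nonempty (PresentedGroup (↑rels : Set (FreeGroup (Fin 2))) ≃* G) := by
  have h := CL.Known.pres_of_list (1 : FreeGroup (Fin 2) →* G) [FreeGroup.of 0, FreeGroup.of 1] (fun _ _ => rfl)
    fun J _ φ h => by
      have : φ = 1 := by
        ext x
        fin_cases x <;> exact h _ (by simp)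
      rw [this]
      exact fun _ _ => rfl
  obtain ⟨R, h3, e, -⟩ := h.exists_equiv fun g => ⟨1, Subsingleton.elim _ _⟩
  exact ⟨R, h3.trans (by norm_num), ⟨e⟩⟩

theorem two : ∃ rels : Finset (FreeGroup (Fin 2)), rels.card ≤ 8 ∧
    Nonempty (PresentedGroup (↑rels : Set (FreeGroup (Fin 2))) ≃* Equiv.Perm (Fin 2)) := by
  have h := CL.Known.pres_of_list (FreeGroup.lift ![Equiv.swap (0 : Fin 2) 1, 1])
    [FreeGroup.of 0 * FreeGroup.of 0, FreeGroup.of 1] (by simp) fun J _ φ h => by
      obtain ⟨ψ, -, h2⟩ := CL.Known.exists_hom_of_odd (η := fun _ => (1 : J)) (fun _ _ _ _ => by simp)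
        (t := Equiv.swap (0 : Fin 2) 1) (by decide) (Y := φ (FreeGroup.of 0)) (by simp)
        (by rw [← map_mul]; exact (h _ (by simp)).symm)
      have : φ = ψ.comp (FreeGroup.lift ![Equiv.swap (0 : Fin 2) 1, 1]) := by
        ext x
        fin_cases x
        · simp [h2]
        · simpa using h (FreeGroup.of 1) (by simp)
      rw [this]
      exact fun w hw => by rw [MonoidHom.mem_ker, MonoidHom.comp_apply, hw, map_one]
  obtain ⟨R, h3, e, -⟩ := h.exists_equiv fun g => by
    have : g = 1 ∨ g = Equiv.swap 0 1 := by revert g; decide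
    rcases this with rfl | rfl
    · exact ⟨1, map_one _⟩
    · exact ⟨FreeGroup.of 0, by simp⟩
  exact ⟨R, h3.trans (by norm_num), ⟨e⟩⟩


/-- For every n, the symmetric group S_n and the alternating group A_n each have a presentation with 2 generators and at most 8 relations. -/
theorem result (n : ℕ) : (∃ rels : Finset (FreeGroup (Fin 2)), rels.card ≤ 8 ∧ Nonempty (PresentedGroup (↑rels : Set (FreeGroup (Fin 2))) ≃* Equiv.Perm (Fin n))) ∧ (∃ rels : Finset (FreeGroup (Fin 2)), rels.card ≤ 8 ∧ Nonempty (PresentedGroup (↑rels : Set (FreeGroup (Fin 2))) ≃* ↥(alternatingGroup (Fin n)))) := by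
  by_cases hn : 3 ≤ n
  · constructor
    · obtain ⟨π, h1, h2, i, h, h3⟩ := CL.Known.pres_perm (Ω := Fin n) (by simpa using hn)
      exact h1.exists_two_gen' h2 h3
    · obtain ⟨π, h1, h2, i, h, h3⟩ := CL.Known.pres_alt (Ω := Fin n) (by simpa using hn)
      exact h1.exists_two_gen' h2 h3
  · have : n = 0 ∨ n = 1 ∨ n = 2 := by omega
    rcases this with rfl | rfl | rfl
    · exact ⟨triv _, triv _⟩
    · exact ⟨triv _, triv _⟩
    · haveI : Subsingleton (alternatingGroup (Fin 2)) := ⟨by decide⟩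
      exact ⟨two, triv _⟩

end Cfsg.Agent.S2284
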