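import Cfsg.Statements.S2286
import Cfsg.Agent.Known.PresSL2

set_option autoImplicit false
open Cfsg

namespace Cfsg.Agent.S2286

/-- For every finite field F, SL_2(F) and PSL_2(F) have presentations with 3 generators and at most 9 relations; when F has characteristic 2, PSL_2(F) has a presentation with 3 generators and at most 5 relations. -/
theorem result {F : Type*} [Field F] [Fintype F] :
    (∃ rels : Finset (FreeGroup (Fin 3)), rels.card ≤ 9 ∧ Nonempty (PresentedGroup (↑rels : Set (FreeGroup (Fin 3))) ≃* Matrix.SpecialLinearGroup (Fin 2) F)) ∧ (∃ rels : Finset (FreeGroup (Fin 3)), rels.card ≤ 9 ∧ Nonempty (PresentedGroup (↑rels : Set (FreeGroup (Fin 3))) ≃* Matrix.ProjectiveSpecialLinearGroup (Fin 2) F)) ∧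
    (CharP F 2 → ∃ rels : Finset (FreeGroup (Fin 3)), rels.card ≤ 5 ∧ Nonempty (PresentedGroup (↑rels : Set (FreeGroup (Fin 3))) ≃* Matrix.ProjectiveSpecialLinearGroup (Fin 2) F)) := by
  classical
  have hq : ∀ {π : FreeGroup (Fin 3) →* Matrix.SpecialLinearGroup (Fin 2) F}, Function.Surjective π →
      Function.Surjective ((QuotientGroup.mk' (Subgroup.center _)).comp π) := fun h =>
    (QuotientGroup.mk'_surjective _).comp h
  have := CL.Known.isCyclic_center_SL (Fin 2) F
  have he : CharP F 2 → ∃ π : FreeGroup (Fin 3) →* Matrix.ProjectiveSpecialLinearGroup (Fin 2) F,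
      CL.Known.Pres π 5 ∧ Function.Surjective π := fun _ => by
    obtain ⟨π, h1, h2⟩ := CL.Known.pres_SL2_even (K := F)
    refine ⟨_, h1.of_ker_eq ?_, hq h2⟩
    ext w
    simp [QuotientGroup.eq_one_iff, CL.Known.center_SL2_eq_bot]
  obtain ⟨π, h1, h2⟩ : ∃ π : FreeGroup (Fin 3) →* Matrix.SpecialLinearGroup (Fin 2) F,
      CL.Known.Pres π 8 ∧ Function.Surjective π := by
    obtain ⟨p, hp⟩ := CharP.exists F
    have := Fact.mk (CharP.char_is_prime F p)
    by_cases h : p = 2
    · subst h
      obtain ⟨π, h1, h2⟩ := CL.Known.pres_SL2_even (K := F)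
      exact ⟨π, h1.mono (by norm_num), h2⟩
    · exact CL.Known.pres_SL2_odd p h
  refine ⟨h1.nonempty_equiv h2 (by norm_num), (h1.quotient_center h2).nonempty_equiv (hq h2) le_rfl, fun h => ?_⟩
  obtain ⟨π, h1, h2⟩ := he h
  exact h1.nonempty_equiv h2 le_rfl

end Cfsg.Agent.S2286
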