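import Cfsg.Statements.S2290
import Cfsg.Agent.Known.Gen2SL
import Cfsg.Agent.Known.PresSLn2

set_option autoImplicit false
open Cfsg

namespace Cfsg.Agent.S2290

/-- For every finite field F with q elements and n ≥ 2, with q ≥ 4 when n = 2, the simple group PSL_n(F) has a presentation with 2 generators and at most 80 relations. -/
theorem result {F : Type*} [Field F] [Fintype F] (n : ℕ) (hn : 2 ≤ n) (h2 : n = 2 → 4 ≤ Fintype.card F) :
    ∃ rels : Finset (FreeGroup (Fin 2)), rels.card ≤ 80 ∧ Nonempty (PresentedGroup (↑rels : Set (FreeGroup (Fin 2))) ≃* Matrix.ProjectiveSpecialLinearGroup (Fin n) F) := by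
  have := CL.Known.isCyclic_center_SL (Fin n) F
  obtain ⟨a, b, h⟩ := CL.Known.two_gen_of_surjective (QuotientGroup.mk' (Subgroup.center _))
    (QuotientGroup.mk'_surjective _) (CL.Known.exists_two_gen_SL (K := F) hn)
  rcases hn.eq_or_lt with rfl | hn
  · exact ((CL.Known.bp_SL2.quotient_center.two_gen h).mono (by decide)).out
  · exact (((CL.Known.bp_PSL_fin hn).two_gen h).mono (by decide)).out

end Cfsg.Agent.S2290
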