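import Cfsg.Statements.S2291
import Cfsg.Agent.Perm.SUPres3

set_option autoImplicit false
open Cfsg

namespace Cfsg.Agent.S2291

/-- Let F be a field with q² elements and n ≥ 3 with (n, q) ≠ (3, 2). Then the simple group PSU_n(q) (for the standard Hermitian form) has a presentation with 2 generators and at most 80 relations. -/
theorem result {F : Type*} [Field F] [Fintype F] (q n : ℕ) (hF : Fintype.card F = q ^ 2) (hn : 3 ≤ n) (h32 : ¬ (n = 3 ∧ q = 2)) :
    ∃ rels : Finset (FreeGroup (Fin 2)), rels.card ≤ 80 ∧ Nonempty (PresentedGroup (↑rels : Set (FreeGroup (Fin 2))) ≃* Cfsg.PSU n F q) := by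
  have := CL.Chev.U3.isCyclic_center_SU hF (n := n) (by omega)
  obtain ⟨a, b, h⟩ := CL.Known.two_gen_of_surjective (QuotientGroup.mk' (Subgroup.center _))
    (QuotientGroup.mk'_surjective _) (CL.Uni.exists_two_gen_SU hF hn (not_and.1 h32))
  rcases hn.eq_or_lt with rfl | hn
  · have h2 : 3 ≤ q := by
      have := Fintype.one_lt_card (α := F)
      by_contra e
      have : q < 3 := by omega
      interval_cases q <;> omega
    exact (((CL.Chev.U3.bp_SU3 hF h2).quotient_center.two_gen h).mono (by omega)).out
  · exact (((CL.Phan.bp_SU hF hn).quotient_center.two_gen h).mono (by split_ifs <;> omega)).out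

end Cfsg.Agent.S2291
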