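import Cfsg.Statements.S2292
import Cfsg.Agent.Known.Gen2Sp

set_option autoImplicit false
open Cfsg

namespace Cfsg.Agent.S2292

/-- Let F be a finite field with q elements and m ≥ 2 with (m, q) ≠ (2, 2). Then the simple group PSp_2m(F) has a presentation with 2 generators and at most 80 relations. -/
theorem result {F : Type*} [Field F] [Fintype F] (m : ℕ) (hm : 2 ≤ m) (h22 : ¬ (m = 2 ∧ Fintype.card F = 2)) :
    ∃ rels : Finset (FreeGroup (Fin 2)), rels.card ≤ 80 ∧ Nonempty (PresentedGroup (↑rels : Set (FreeGroup (Fin 2))) ≃* Cfsg.PSp m F) := by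
  obtain ⟨a, b, h⟩ := CL.Known.exists_two_gen_PSp (F := F) hm fun e => by
    have := Fintype.one_lt_card (α := F)
    rw [Nat.card_eq_fintype_card]; omega
  exact (((CL.Known.bp_PSp_fin hm).two_gen h).mono (by decide)).out

end Cfsg.Agent.S2292
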