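import Cfsg.Statements.S2302
import Cfsg.Agent.Known.GL2Classes

set_option autoImplicit false
open Cfsg

namespace Cfsg.Agent.S2302

/-- Over a finite field with q elements of characteristic 2, the involutions of SL₂ (the non-identity unipotent elements) form a single conjugacy class, of size q² − 1. -/
theorem result {F : Type*} [Field F] [Fintype F] [CharP F 2] (g h : Matrix.SpecialLinearGroup (Fin 2) F) (hg : orderOf g = 2) (hh : orderOf h = 2) :
    IsConj g h ∧ Nat.card (ConjClasses.mk g).carrier = Fintype.card F ^ 2 - 1 := by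
  have h2 : (2 : F) = 0 := CharTwo.two_eq_zero
  rw [CL.GL2.orderOf_SL_eq_char_iff] at hg hh
  refine ⟨CL.GL2.isConj_SL_of_trace hg.1 hh.1 (by rw [hg.2, hh.2]) (Or.inr h2), ?_⟩
  rw [CL.Fgs.card_carrier_mk]
  have h1 := CL.Fgs.card_cent_mul_cs g
  rw [CL.GL2.card_cent_SL_unip_even hg.1 h2 (by rw [hg.2, h2]), CL.GL2.card_SL2] at h1
  exact Nat.eq_of_mul_eq_mul_left Fintype.card_pos h1

end Cfsg.Agent.S2302
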