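import Cfsg.Statements.S2332
import Cfsg.Agent.Known.LSSL4
import Cfsg.Agent.Char.Prod

set_option autoImplicit false
open Cfsg

namespace Cfsg.Agent.S2332

/-- Smallest degree of a non-linear irreducible complex representation of SL_n over a finite field with q elements, for n ≥ 3 and (n, q) not one of (3, 2), (3, 4), (4, 2), (4, 3): every irreducible complex representation of SL_n(F) of degree at least 2 has degree at least (q^n − q)/(q − 1), and there is an irreducible complex representation of exactly that degree. -/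
theorem result {F : Type*} [Field F] [Fintype F] [DecidableEq F] (n : ℕ) (hn : 3 ≤ n)
    (hex : (n, Fintype.card F) ≠ (3, 2) ∧ (n, Fintype.card F) ≠ (3, 4) ∧ (n, Fintype.card F) ≠ (4, 2) ∧ (n, Fintype.card F) ≠ (4, 3)) :
    (∀ (k : ℕ) (ρ : Representation ℂ (Matrix.SpecialLinearGroup (Fin n) F) (Fin k → ℂ)), ρ.IsIrreducible → 2 ≤ k → (Fintype.card F ^ n - Fintype.card F) / (Fintype.card F - 1) ≤ k) ∧
    (∃ ρ : Representation ℂ (Matrix.SpecialLinearGroup (Fin n) F) (Fin ((Fintype.card F ^ n - Fintype.card F) / (Fintype.card F - 1)) → ℂ), ρ.IsIrreducible) := by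
  have hq : 2 ≤ Fintype.card F := Fintype.one_lt_card
  have hN := Projectivization.card' F (Fin n → F)
  rw [Nat.card_fun, Nat.card_eq_fintype_card (α := F), Nat.card_fin] at hN
  set N := Nat.card (Projectivization F (Fin n → F)) with hNdef
  have hN2 : 2 ≤ N := by
    by_contra h
    have h1 : N * (Fintype.card F - 1) ≤ 1 * (Fintype.card F - 1) := Nat.mul_le_mul_right _ (by omega)
    have h2 : Fintype.card F ^ 2 ≤ Fintype.card F ^ n := Nat.pow_le_pow_right (by omega) (by omega)
    have h3 : 2 * Fintype.card F ≤ Fintype.card F ^ 2 := by nlinarith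
    omega
  have e : (Fintype.card F ^ n - Fintype.card F) / (Fintype.card F - 1) = N - 1 := by
    refine Nat.div_eq_of_eq_mul_left (by omega) ?_
    rw [hN, Nat.sub_mul]
    have : Fintype.card F - 1 ≤ N * (Fintype.card F - 1) := Nat.le_mul_of_pos_left _ (by omega)
    omega
  rw [e]
  refine ⟨fun k ρ hρ hk => ?_, ?_⟩
  · have := CL.LS.sl_min_degree hn hex ρ hρ hk
    omega
  · have : Finite (Projectivization F (Fin n → F)) := Nat.finite_of_card_ne_zero (by omega)
    have : Nontrivial (Projectivization F (Fin n → F)) := Finite.one_lt_card_iff_nontrivial.1 (by omega)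
    have : MulAction.IsPretransitive (Matrix.SpecialLinearGroup (Fin n) F) (Projectivization F (Fin n → F)) :=
      MulAction.isPretransitive_of_is_two_pretransitive
    obtain ⟨k, ρ, hρ, hχ⟩ := (CL.Char.isIrrCharacter_card_fixedBy_sub_one_iff
      (G := Matrix.SpecialLinearGroup (Fin n) F) (Projectivization F (Fin n → F))).2 inferInstance
    have h1 := congrFun hχ 1
    rw [Representation.char_one, Module.finrank_fin_fun, MulAction.fixedBy_one_eq_univ, Nat.card_univ] at h1
    obtain rfl : k = N - 1 := by
      have : (k : ℂ) = ((N - 1 : ℕ) : ℂ) := by rw [h1, Nat.cast_sub (by omega), Nat.cast_one]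
      exact_mod_cast this
    exact ⟨ρ, hρ⟩

end Cfsg.Agent.S2332
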