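import Cfsg.Statements.S2336
import Cfsg.Agent.Known.LSSL
import Cfsg.Agent.Char.Prod

set_option autoImplicit false
open Cfsg CL.Char CL.LS Matrix MulAction

namespace Cfsg.Agent.S2336

open CL.Char Matrix MulAction in
theorem isCharacter_part {G A : Type*} [Group G] [Group A] [Finite G] [Fintype A] {Θ : G × A → ℂ}
    (h : Cfsg.IsCharacter (G × A) Θ) {α : A → ℂ} (hα : Cfsg.IsIrrCharacter A α) :
    Cfsg.IsCharacter G fun g => Cfsg.classInner (fun a => Θ (g, a)) α := by
  refine h.induction (P := fun Θ => Cfsg.IsCharacter G fun g => Cfsg.classInner (fun a => Θ (g, a)) α) ?_ ?_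
  · convert isCharacter_zero with g
    exact classInner_zero_left α
  · intro χ ψ hχ _ ih
    obtain ⟨φ, β, hφ, hβ, rfl⟩ := hχ.exists_prod
    have e : ∀ g, Cfsg.classInner (fun a => ((fun x : G × A => φ x.1 * β x.2) + ψ) (g, a)) α =
        φ g * Cfsg.classInner β α + Cfsg.classInner (fun a => ψ (g, a)) α := fun g => by
      rw [← classInner_smul_left, ← classInner_add_left]; rfl
    simp only [e]
    classical
    rw [hβ.classInner_eq_ite hα]
    split_ifs
    · simp only [mul_one]; exact hφ.isCharacter.add ih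
    · simpa using ih

open CL.Char in
theorem irr_of_sum {G ι : Type*} [Group G] [Fintype G] [Fintype ι] (χ : ι → G → ℂ)
    (h : ∀ i, Cfsg.IsCharacter G (χ i)) (h0 : ∀ i, χ i ≠ 0) {m : ℕ}
    (hm : Cfsg.classInner (∑ i, χ i) (∑ i, χ i) = m) (hle : m ≤ Fintype.card ι) :
    (∀ i, Cfsg.IsIrrCharacter G (χ i)) ∧ Function.Injective χ := by
  classical
  choose c hc using fun i j => (h i).exists_nat_classInner (h j)
  have h1 : ∀ i, 1 ≤ c i i := fun i => Nat.pos_of_ne_zero fun e => h0 i (classInner_self_eq_zero.1 (by simp [hc, e]))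
  simp only [classInner_sum_left, classInner_sum_right, hc] at hm
  have hm' : ∑ i, ∑ j, c j i = m := by exact_mod_cast hm
  have h2 : ∀ i ∈ Finset.univ, 1 ≤ ∑ j, c j i := fun i _ =>
    (h1 i).trans (Finset.single_le_sum (f := fun j => c j i) (fun _ _ => Nat.zero_le _) (Finset.mem_univ i))
  have h3 := (Finset.sum_eq_sum_iff_of_le h2).1 (le_antisymm (Finset.sum_le_sum h2) (by simpa [hm'] using hle))
  have h4 : ∀ i, c i i + ∑ j ∈ Finset.univ.erase i, c j i = 1 := fun i => by
    rw [Finset.add_sum_erase _ (fun j => c j i) (Finset.mem_univ i), ← h3 i (Finset.mem_univ i)]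
  refine ⟨fun i => (h i).isIrrCharacter_of_norm_one ?_, fun i j e => ?_⟩
  · have := h4 i; have := h1 i
    rw [hc, show c i i = 1 by omega, Nat.cast_one]
  · by_contra hij
    have a1 := h4 j; have a2 := h1 j
    have a3 : c i j ≤ ∑ k ∈ Finset.univ.erase j, c k j :=
      Finset.single_le_sum (f := fun k => c k j) (fun _ _ => Nat.zero_le _) (by simpa using hij)
    have a4 : (c i j : ℂ) = c j j := by rw [← hc, ← hc, e]
    have a5 : c i j = c j j := by exact_mod_cast a4
    omega

def NZ (F : Type*) [Field F] (n : ℕ) := {v : Fin n → F // v ≠ 0}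

open Matrix in
instance {F : Type*} [Field F] {n : ℕ} : MulAction (Matrix.SpecialLinearGroup (Fin n) F × Fˣ) (NZ F n) where
  smul x v := ⟨(x.2 : F) • (x.1 : Matrix (Fin n) (Fin n) F) *ᵥ v.1, smul_ne_zero x.2.ne_zero fun h => v.2 (by
    have := congrArg (((x.1⁻¹ : Matrix.SpecialLinearGroup (Fin n) F) : Matrix (Fin n) (Fin n) F) *ᵥ ·) h
    simp only [mulVec_mulVec, mulVec_zero] at this
    rwa [(Matrix.SpecialLinearGroup.coe_mul x.1⁻¹ x.1).symm.trans (congrArg Subtype.val (inv_mul_cancel x.1)),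
      Matrix.SpecialLinearGroup.coe_one, one_mulVec] at this)⟩
  one_smul v := Subtype.ext (by
    change ((1 : Fˣ) : F) • ((1 : Matrix.SpecialLinearGroup (Fin n) F) : Matrix (Fin n) (Fin n) F) *ᵥ v.1 = v.1
    simp)
  mul_smul x y v := Subtype.ext (by
    change ((x.2 * y.2 : Fˣ) : F) • ((x.1 * y.1 : Matrix.SpecialLinearGroup (Fin n) F) : Matrix (Fin n) (Fin n) F) *ᵥ v.1 =
      (x.2 : F) • (x.1 : Matrix (Fin n) (Fin n) F) *ᵥ ((y.2 : F) • (y.1 : Matrix (Fin n) (Fin n) F) *ᵥ v.1)
    simp [mulVec_smul, smul_smul])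

instance {F : Type*} [Field F] {n : ℕ} : MulAction (Matrix.SpecialLinearGroup (Fin n) F) (NZ F n) :=
  MulAction.compHom _ (MonoidHom.inl _ Fˣ)

open Matrix in
theorem smul_val {F : Type*} [Field F] {n : ℕ} (g : Matrix.SpecialLinearGroup (Fin n) F) (v : NZ F n) :
    (g • v).1 = (g : Matrix (Fin n) (Fin n) F) *ᵥ v.1 := one_smul F _

instance {F : Type*} [Field F] [Finite F] {n : ℕ} : Finite (NZ F n) := Subtype.finite

/-- Let F be a finite field with q elements and n ≥ 3. The permutation character of SL_n(F) on the non-zero vectors of F^n (the function sending a matrix to the number of non-zero vectors it fixes) is the sum of the principal character and q − 1 pairwise distinct irreducible complex characters. -/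
theorem result {F : Type*} [Field F] [Fintype F] [DecidableEq F] (n : ℕ) (hn : 3 ≤ n) :
    ∃ χ : Fin (Fintype.card F - 1) → (Matrix.SpecialLinearGroup (Fin n) F → ℂ),
      (∀ i, Cfsg.IsIrrCharacter (Matrix.SpecialLinearGroup (Fin n) F) (χ i)) ∧ Function.Injective χ ∧
      ∀ g : Matrix.SpecialLinearGroup (Fin n) F,
        (Nat.card {v : Fin n → F // v ≠ 0 ∧ (g : Matrix (Fin n) (Fin n) F).mulVec v = v} : ℂ) = 1 + ∑ i, χ i g := by

  have h3 : 3 ≤ Fintype.card (Fin n) := by simpa using hn
  have hq : 2 ≤ Fintype.card F := Fintype.one_lt_card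
  obtain ⟨e, he'⟩ := exists_notMem_span (F := F) (by omega) (0 : Fin n → F)
  have he : e ≠ 0 := fun h => he' (by rw [h]; exact Submodule.zero_mem _)
  obtain ⟨w, hw⟩ := exists_notMem_span (by omega) e
  have hw0 : w ≠ 0 := fun h => hw (by rw [h]; exact Submodule.zero_mem _)
  have : Nonempty (NZ F n) := ⟨⟨e, he⟩⟩
  have htr : IsPretransitive (Matrix.SpecialLinearGroup (Fin n) F) (NZ F n) := ⟨fun a b => by
    obtain ⟨x, hx⟩ := exists_notMem_span (by omega) a.1
    obtain ⟨y, hy⟩ := exists_notMem_span (by omega) b.1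
    obtain ⟨g, hg, -⟩ := exists_SL_pair h3 a.2 hx b.2 hy
    exact ⟨g, Subtype.ext ((smul_val _ _).trans hg)⟩⟩
  set Θ : Matrix.SpecialLinearGroup (Fin n) F × Fˣ → ℂ := fun x => Nat.card (fixedBy (NZ F n) x) with hΘ
  have hΘc : IsCharacter _ Θ := isCharacter_card_fixedBy _
  let π : IrrCharacter Fˣ → Matrix.SpecialLinearGroup (Fin n) F → ℂ := fun α g => classInner (fun a => Θ (g, a)) α
  have hπ : ∀ α, IsCharacter _ (π α) := fun α => isCharacter_part hΘc α.2
  have hα1 : ∀ α : IrrCharacter Fˣ, (α : Fˣ → ℂ) 1 = 1 := fun α => α.2.one_eq_one_of_comm mul_comm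
  have hsum : ∀ g, (Nat.card (fixedBy (NZ F n) g) : ℂ) = ∑ α, π α g := fun g => by
    have := IsClassFunction.apply_eq_sum_irr (φ := fun a => Θ (g, a)) (fun a b => by simp) 1
    simp only [hα1, mul_one] at this
    exact this
  have hN := Projectivization.card' F (Fin n → F)
  rw [Nat.card_fun, Nat.card_eq_fintype_card (α := F), Nat.card_fin] at hN
  set N := Nat.card (Projectivization F (Fin n → F))
  have hN2 : 2 ≤ N := by
    by_contra h
    have h1 : N * (Fintype.card F - 1) ≤ 1 * (Fintype.card F - 1) := Nat.mul_le_mul_right _ (by omega)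
    have h2 : Fintype.card F ^ 2 ≤ Fintype.card F ^ n := Nat.pow_le_pow_right (by omega) (by omega)
    have h3 : 2 * Fintype.card F ≤ Fintype.card F ^ 2 := by nlinarith
    omega
  have hU : Nat.card Fˣ = Fintype.card F - 1 := by rw [Nat.card_units, Nat.card_eq_fintype_card]
  have hπ1 : ∀ α, π α 1 = N := fun α => by
    have a1 : Θ (1, 1) = N * Nat.card Fˣ := by
      have : Nat.card (NZ F n) = N * (Fintype.card F - 1) := by
        rw [NZ, Nat.card_eq_fintype_card, Fintype.card_subtype_compl, Fintype.card_fun, Fintype.card_fin, hN]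
        simp
      simp only [hΘ, Prod.mk_one_one, fixedBy_one_eq_univ, Nat.card_univ, this, hU, Nat.cast_mul]
    have a2 : ∀ a : Fˣ, a ≠ 1 → Θ (1, a) = 0 := fun a ha => by
      simp only [hΘ, Nat.cast_eq_zero]
      refine (Nat.card_eq_zero.2 (.inl ⟨fun ⟨v, hv⟩ => ha (Units.ext ?_)⟩))
      have : (a : F) • ((1 : Matrix.SpecialLinearGroup (Fin n) F) : Matrix (Fin n) (Fin n) F) *ᵥ v.1 = v.1 :=
        congrArg Subtype.val hv
      rw [Matrix.SpecialLinearGroup.coe_one, one_mulVec] at this
      exact smul_left_injective F v.2 (this.trans (one_smul F _).symm)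
    simp only [π, classInner_def]
    rw [Finset.sum_eq_single 1 (fun a _ ha => by rw [a2 a ha, zero_mul]) (by simp), a1, hα1, map_one, mul_one]
    field_simp [natCard_ne_zero]
  have hone : IsCharacter _ (π (irrOne Fˣ) - fun _ => 1) := by
    refine (hπ _).sub_of_classInner_ne_zero isIrrCharacter_one ?_
    have a1 := classInner_card_fixedBy_one (G := Matrix.SpecialLinearGroup (Fin n) F × Fˣ) (NZ F n)
    have : Nonempty (orbitRel.Quotient (Matrix.SpecialLinearGroup (Fin n) F × Fˣ) (NZ F n)) := ⟨Quotient.mk'' ⟨e, he⟩⟩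
    have a2 : (Nat.card (orbitRel.Quotient (Matrix.SpecialLinearGroup (Fin n) F × Fˣ) (NZ F n)) : ℂ) ≠ 0 := by
      exact_mod_cast Nat.card_pos.ne'
    rw [← a1] at a2
    intro h
    apply a2
    simp only [classInner_def, π, coe_irrOne, map_one, mul_one, ← Finset.mul_sum] at h ⊢
    rw [Fintype.sum_prod_type]
    simpa [natCard_ne_zero, hΘ] using h
  let χ : IrrCharacter Fˣ → Matrix.SpecialLinearGroup (Fin n) F → ℂ := fun α =>
    if α = irrOne Fˣ then π α - fun _ => 1 else π α
  have hχ : ∀ α, IsCharacter _ (χ α) := fun α => by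
    simp only [χ]
    split_ifs with h
    · exact h ▸ hone
    · exact hπ α
  have hχ0 : ∀ α, χ α ≠ 0 := fun α h => by
    have := congrFun h 1
    simp only [χ] at this
    split_ifs at this
    · rw [Pi.sub_apply, hπ1, Pi.zero_apply, sub_eq_zero] at this
      have : N = 1 := by exact_mod_cast this
      omega
    · rw [hπ1, Pi.zero_apply, Nat.cast_eq_zero] at this
      omega
  have hs : ∑ α, χ α = fun g => (Nat.card (fixedBy (NZ F n) g) : ℂ) - 1 := by
    funext g
    have : ∀ α, χ α g = π α g - if α = irrOne Fˣ then 1 else 0 := fun α => by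
      simp only [χ]; split_ifs <;> simp
    rw [hsum]
    simp [Finset.sum_apply, this]
  have hcard : Fintype.card (IrrCharacter Fˣ) = Fintype.card F - 1 := by
    rw [← Nat.card_eq_fintype_card, card_irr_of_comm mul_comm, hU]
  have horb : Nat.card (orbitRel.Quotient (Matrix.SpecialLinearGroup (Fin n) F) (NZ F n × NZ F n)) ≤ Fintype.card F := by
    rw [← Nat.card_eq_fintype_card]
    refine Nat.card_le_card_of_surjective (fun a : F => Quotient.mk'' (⟨e, he⟩,
      ⟨if a = 0 then w else a • e, by split_ifs with h; exacts [hw0, smul_ne_zero h he]⟩)) fun z => ?_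
    induction z using Quotient.inductionOn' with | h z =>
    obtain ⟨x, y⟩ := z
    by_cases hy : y.1 ∈ F ∙ x.1
    · obtain ⟨a, ha⟩ := Submodule.mem_span_singleton.1 hy
      have ha0 : a ≠ 0 := fun h => y.2 (by rw [← ha, h, zero_smul])
      obtain ⟨g, hg⟩ := htr.exists_smul_eq x ⟨e, he⟩
      refine ⟨a, Quotient.sound' ⟨g, Prod.ext hg (Subtype.ext ?_)⟩⟩
      have := (smul_val g x).symm.trans (congrArg Subtype.val hg)
      simp only [if_neg ha0, Prod.smul_snd, smul_val, ← ha, mulVec_smul, this]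
    · obtain ⟨g, h1, h2⟩ := exists_SL_pair h3 x.2 hy he hw
      refine ⟨0, Quotient.sound' ⟨g, Prod.ext (Subtype.ext ((smul_val _ _).trans h1)) (Subtype.ext ?_)⟩⟩
      simp only [if_pos, Prod.smul_snd, smul_val, h2]
  have hpos : 1 ≤ Nat.card (orbitRel.Quotient (Matrix.SpecialLinearGroup (Fin n) F) (NZ F n × NZ F n)) := by
    have : Nonempty (orbitRel.Quotient (Matrix.SpecialLinearGroup (Fin n) F) (NZ F n × NZ F n)) :=
      ⟨Quotient.mk'' (⟨e, he⟩, ⟨e, he⟩)⟩
    exact Nat.card_pos
  obtain ⟨b1, b2⟩ := irr_of_sum χ hχ hχ0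
    (m := Nat.card (orbitRel.Quotient (Matrix.SpecialLinearGroup (Fin n) F) (NZ F n × NZ F n)) - 1)
    (by rw [hs, classInner_card_fixedBy_sub_one_self, Nat.cast_sub hpos, Nat.cast_one]) (by omega)
  let ε := Fintype.equivFinOfCardEq hcard
  refine ⟨fun i => χ (ε.symm i), fun i => b1 _, b2.comp ε.symm.injective, fun g => ?_⟩
  rw [ε.symm.sum_comp fun α => χ α g, ← Finset.sum_apply, hs, add_sub_cancel]
  congr 1
  exact Nat.card_congr
    { toFun := fun v => ⟨⟨v.1, v.2.1⟩, Subtype.ext ((smul_val _ _).trans v.2.2)⟩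
      invFun := fun v => ⟨v.1.1, v.1.2, (smul_val _ _).symm.trans (congrArg Subtype.val v.2)⟩
      left_inv := fun _ => rfl
      right_inv := fun _ => rfl }

end Cfsg.Agent.S2336
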