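import Cfsg.Statements.S2337
import Cfsg.Agent.Known.LSSz

set_option autoImplicit false
open Cfsg

namespace Cfsg.Agent.S2337

/-- For the Suzuki group Sz(q), q = 2^(2m+1) with m ≥ 1 (realised inside Sp₄ over the field with q elements), every irreducible complex representation of degree at least 2 has degree at least 2^m·(q − 1). -/
theorem result {F : Type*} [Field F] [Fintype F] (m : ℕ) (hm : 1 ≤ m) (hF : Fintype.card F = 2 ^ (2 * m + 1)) :
    (∀ (k : ℕ) (ρ : Representation ℂ (Cfsg.Lie.Sz F (2 ^ (m + 1))) (Fin k → ℂ)), ρ.IsIrreducible → 2 ≤ k → 2 ^ m * (2 ^ (2 * m + 1) - 1) ≤ k) := by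
  intro k ρ hρ hk
  obtain ⟨ψ, hψ⟩ := CL.LS.exists_psi_complex (F := F)
  have hc : Nat.card F = 2 ^ (2 * m + 1) := Nat.card_eq_fintype_card.trans hF
  have h := CL.LS.sz_bound (CL.Chev.Sz.modelLie hm hF) (ρ := ρ) hψ
    (fun e => CL.LS.not_commutator_le_ker ρ hρ hk (e ▸ le_top)) (r := 2 ^ m) (by rw [hc]; ring)
  rw [hc] at h
  simpa using h

end Cfsg.Agent.S2337
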