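import Cfsg.Statements.S2338
import Cfsg.Agent.Known.MXG2d
import Cfsg.Agent.Known.LSSp

set_option autoImplicit false
open Cfsg

namespace Cfsg.Agent.S2338
open scoped Pointwise commutatorElement

open CL.MX.G2 CL.Chev Module

theorem gap {y k : ℤ} (hy : 81 ≤ y) (h1 : y ^ 2 + y ≤ k + 2) (h2 : k ∣ y ^ 3 * (y - 1) * (y ^ 3 - 1)) : y ^ 2 + y + 1 ≤ k := by
  by_contra! h
  obtain e | e | e : k = (y + 2) * (y - 1) ∨ k = y ^ 2 + y - 1 ∨ k = (y + 1) * y := by
    ring_nf at *; omega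
  · rw [e, mul_right_comm, mul_dvd_mul_iff_right (by omega)] at h2
    have := Int.le_of_dvd (by norm_num) ((dvd_add_right (Dvd.intro (y ^ 5 - 2 * y ^ 4 + 4 * y ^ 3 - 9 * y ^ 2 + 18 * y - 36) rfl)).1
      (h2.trans (dvd_of_eq (show _ = _ + (72 : ℤ) by ring))))
    omega
  · rw [e] at h2
    have := Int.le_of_dvd (by omega) ((dvd_add_right (Dvd.intro (y ^ 5 - 2 * y ^ 4 + 3 * y ^ 3 - 6 * y ^ 2 + 10 * y - 16) rfl)).1
      (h2.trans (dvd_of_eq (show _ = _ + (26 * y - 16 : ℤ) by ring))))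
    nlinarith
  · have := Int.le_of_dvd (by norm_num) ((dvd_add_right (Dvd.intro (-(y ^ 6 - 2 * y ^ 5 + 2 * y ^ 4 - 3 * y ^ 3 + 4 * y ^ 2 - 4 * y + 4))
      rfl)).1 (((Dvd.intro _ e.symm).trans h2).neg_right.trans (dvd_of_eq (show _ = _ + (4 : ℤ) by ring))))
    omega


/-- Lower bounds for the degrees of non-linear irreducible complex representations of the Chevalley group of type G₂ over a finite field with q elements: the degree is at least q³ + 1 when q ≡ 1 (mod 3) and q > 4, at least q³ − 1 when q ≡ 2 (mod 3) and q > 2, and at least q⁴ + q² + 1 when q ≡ 0 (mod 3) and q > 3. -/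
theorem result {F : Type*} [Field F] [Fintype F] (k : ℕ) (ρ : Representation ℂ (Cfsg.Lie.chevG2.group F) (Fin k → ℂ)) (hρ : ρ.IsIrreducible) (hk : 2 ≤ k) :
    (Fintype.card F % 3 = 1 → 4 < Fintype.card F → Fintype.card F ^ 3 + 1 ≤ k) ∧
    (Fintype.card F % 3 = 2 → 2 < Fintype.card F → Fintype.card F ^ 3 - 1 ≤ k) ∧
    (Fintype.card F % 3 = 0 → 3 < Fintype.card F → Fintype.card F ^ 4 + Fintype.card F ^ 2 + 1 ≤ k) := by
  classical
  have hq1 : 1 < Fintype.card F := Fintype.one_lt_card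
  have hu : ∀ n : ℕ, ¬ Fintype.card F - 1 ∣ n → ∃ u : F, u ≠ 0 ∧ u ^ n ≠ 1 := fun n h => by
    obtain ⟨u, hu⟩ := not_forall.1 (mt (FiniteField.forall_pow_eq_one_iff F n).1 h)
    exact ⟨u, u.ne_zero, fun e => hu (Units.ext (by simpa using e))⟩
  have hτ : 2 < Fintype.card F → ∀ g, ρ g = 1 → g = 1 := fun h g hg => by
    have := (realG2.isSimpleGroup (F := F) (realG2.commutator_eq_top_of_exists (by
      simpa using hu 1 (by rw [Nat.dvd_one]; omega)))).1
    have h3 := (MonoidHom.normal_ker ρ).eq_bot_or_eq_top.resolve_right fun h => CL.LS.not_commutator_le_ker ρ hρ hk (h ▸ le_top)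
    exact Subgroup.mem_bot.1 (h3 ▸ hg : g ∈ ⊥)
  have hx : 2 < Fintype.card F → ∀ r < Lie.chevG2.nroots, ρ (xg r 1) ≠ 1 := fun h r hr e => one_ne_zero (α := F) (by
    simpa only [xg_lt hr, (realG2.full F).faithful.x_eq_one_iff] using hτ h _ e)
  obtain ⟨ψ, hψ⟩ := CL.LS.exists_psi_complex (F := F)
  have := Fact.mk Nat.prime_three
  have h3 : (3 : F) = 0 ↔ Fintype.card F % 3 = 0 := by
    rw [← Nat.dvd_iff_mod_eq_zero, ← prime_dvd_char_iff_dvd_card, ← Nat.cast_ofNat, ringChar.spec]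
    exact ⟨fun h => ((Nat.dvd_prime Nat.prime_three).1 h).elim (fun e => absurd e CharP.ringChar_ne_one) fun e => e.symm.dvd,
      fun h => ((Nat.prime_dvd_prime_iff_eq Nat.prime_three (CharP.char_is_prime F _)).1 h).symm.dvd⟩
  obtain ⟨l1, l2⟩ := rel.top_layers (ρ := ρ) hψ
  rw [finrank_fin_fun, l2] at l1
  have main : 5 ≤ Fintype.card F → Fintype.card F % 3 ≠ 0 → Fintype.card F ^ 3 + 1 ≤ k ∨ Fintype.card F ^ 3 ≤ k + 1 ∧
      finrank ℂ (W ρ ψ (xg 11) 0 ⊓ W ρ ψ (xg 10) 0 ⊓ W ρ ψ (xg 6) 1 : Submodule ℂ _) ≤ 1 ∧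
      k + 1 = Fintype.card F ^ 3 + finrank ℂ (W ρ ψ (xg 11) 0 ⊓ W ρ ψ (xg 10) 0 ⊓ W ρ ψ (xg 6) 0 : Submodule ℂ _) := fun h h' => by
    obtain ⟨u, u0, u3⟩ := hu 3 fun e => by have := Nat.le_of_dvd (by norm_num) e; omega
    obtain ⟨p, hp⟩ := Nat.exists_eq_add_of_le' h
    rcases rel.bound hψ (mt h3.1 h') u0 u3 (hx (by omega) 11 (by decide)) with h1 | ⟨h1, h2⟩
    · obtain ⟨m, hm⟩ := Nat.exists_eq_add_of_le h1
      rw [hm, hp, Nat.add_succ_sub_one] at l1; rw [hp]; left; ring_nf at l1 ⊢; omega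
    · rcases h2.eq_or_lt with h2 | h2
      · rw [h1, ← h2, hp, Nat.add_succ_sub_one] at l1; rw [hp]; right; ring_nf at l1 ⊢; omega
      · obtain ⟨m, hm⟩ := Nat.exists_eq_add_of_lt h2
        rw [h1, hm, hp, Nat.add_succ_sub_one] at l1; rw [hp]; left; ring_nf at l1 ⊢; omega
  refine ⟨fun h h' => (main h' (by omega)).elim id fun ⟨_, h1, h2⟩ => ?_, fun h h' => ?_, fun h h' => ?_⟩
  · obtain ⟨u, u0, u1⟩ := hu 1 (by rw [Nat.dvd_one]; omega)
    have k1 := fun e => ne_pred ρ (hτ (by omega)) hψ (by omega) h e h1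
    have k2 := ne_cube ρ (ψ := ψ) (by omega) u0 (by simpa using u1)
    rw [finrank_fin_fun] at k1 k2
    omega
  · have := main (by omega) (by omega); omega
  · obtain ⟨u, u0, u1⟩ := hu 2 fun e => by have := Nat.le_of_dvd (by norm_num) e; omega
    have h1 := rel.three (h3.2 h) hψ u0 u1 (hx (by omega) 11 (by decide)) (hx (by omega) 9 (by decide))
    have h4 := CL.Char.finrank_dvd_card ρ
    rw [finrank_fin_fun, S1059.result rfl, ← Int.natCast_dvd_natCast] at h4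
    push_cast [Nat.cast_sub (Nat.one_le_pow _ _ (Fintype.card_pos (α := F)))] at h4
    have h5 : 9 ≤ Fintype.card F := by
      by_contra! h5
      have h6 : IsPrimePow (Fintype.card F) := Fintype.isPrimePow_card_of_field
      rw [show Fintype.card F = 6 by omega] at h6
      exact absurd h6 (by decide)
    rw [finrank_fin_fun] at h1
    zify at h1 h5 ⊢
    have := gap (y := (Fintype.card F : ℤ) ^ 2) (k := k) (by nlinarith) (by linarith) (by convert h4 using 1; ring)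
    linarith

end Cfsg.Agent.S2338
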