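import Cfsg.Statements.S2339
import Cfsg.Agent.Known.MXRep
import Cfsg.Agent.Known.MXCert
import Cfsg.Agent.S1065

set_option autoImplicit false
open Cfsg

namespace Cfsg.Agent.S2339
open scoped Pointwise commutatorElement

open CL.MX CL.Chev CL.Chev.Cert

theorem chk : (layChk auxE8 id 27 8 (0 :: tE8) && hypChk auxE8 id && h4Chk auxE8 id && h5Chk auxE8 id false) = true := by
  decide +kernel


/-- For the Chevalley group of type E₈ over a finite field with q elements, every irreducible complex representation of degree at least 2 has degree at least q(q¹² + 1)(q¹⁰ + 1)(q⁶ + 1). -/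
theorem result {F : Type*} [Field F] [Fintype F] (k : ℕ) (ρ : Representation ℂ (Cfsg.Lie.chevE8.group F) (Fin k → ℂ)) (hρ : ρ.IsIrreducible) (hk : 2 ≤ k) :
    Fintype.card F * (Fintype.card F ^ 12 + 1) * (Fintype.card F ^ 10 + 1) * (Fintype.card F ^ 6 + 1) ≤ k := by
  obtain ⟨h1, h2⟩ := bond_of_mem (D := Cfsg.Lie.chevE8) (by simp)
  have := (realE8.isSimpleGroup (F := F) (realE8.commutator_eq_top_of_bond h1 h2)).1
  have hq : IsPrimePow (Fintype.card F) := Fintype.isPrimePow_card_of_field
  have h3 : ev (0 :: tE8) (Fintype.card F) ≤ k := (rep_bound_one tabE8 realE8 (tab_sl tabE8 realE8 (by decide +kernel)) chk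
    ρ hρ hk).elim id fun h => gapE8 hq (by
      have h4 := CL.Char.finrank_dvd_card ρ
      rw [Module.finrank_fin_fun, S1065.result rfl, ← Int.natCast_dvd_natCast] at h4
      push_cast [Nat.cast_sub (Nat.one_le_pow _ _ hq.pos)] at h4
      convert h4 using 1
      simp only [pv, ev, fE8]; ring) h.1
  zify
  convert h3 using 1
  simp only [ev, tE8]; ring

end Cfsg.Agent.S2339
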