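import Cfsg.Statements.S2340
import Cfsg.Agent.Known.MXIdx
import Cfsg.Agent.Known.MXCert

set_option autoImplicit false
open Cfsg

namespace Cfsg.Agent.S2340
open scoped Pointwise commutatorElement

open CL.MX CL.Chev CL.Chev.Cert

theorem chk : (layChk auxE6 id 9 6 (0 :: tE6) && hypChk auxE6 id && h4Chk auxE6 id && h5Chk auxE6 id false) = true := by
  decide +kernel


/-- For the Chevalley group of type E₆ over a finite field with q elements (the group generated by the root elements), every irreducible complex representation of degree at least 2 has degree at least q(q⁶ + q³ + 1)(q⁴ + 1). -/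
theorem result {F : Type*} [Field F] [Fintype F] :
    (∀ (k : ℕ) (ρ : Representation ℂ (Cfsg.Lie.chevE6.group F) (Fin k → ℂ)), ρ.IsIrreducible → 2 ≤ k → Fintype.card F * (Fintype.card F ^ 6 + Fintype.card F ^ 3 + 1) * (Fintype.card F ^ 4 + 1) ≤ k) := by
  intro k ρ hρ hk
  have hq : IsPrimePow (Fintype.card F) := Fintype.isPrimePow_card_of_field
  have h3 : ev (0 :: tE6) (Fintype.card F) ≤ k := (bound_E6 chk ρ hρ hk).elim id fun h => gapE6 hq (by
      have h4 := h.2
      rw [← Int.natCast_dvd_natCast] at h4
      push_cast [Nat.cast_sub (Nat.one_le_pow _ _ hq.pos), Nat.cast_sub hq.pos] at h4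
      refine h4.trans (Dvd.intro ((Fintype.card F - 1 : ℤ) ^ 5) ?_)
      simp only [pv, ev, fE6]; ring) h.1
  zify
  convert h3 using 1
  simp only [ev, tE6]; ring

end Cfsg.Agent.S2340
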