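import Cfsg.Statements.S2341
import Cfsg.Agent.Known.MXTwist
import Cfsg.Agent.Known.MXCert

set_option autoImplicit false
open Cfsg

namespace Cfsg.Agent.S2341
open scoped Pointwise commutatorElement

open CL.MX CL.Chev CL.Chev.Cert

/-- the graph symmetry -/
def rho : ℕ → ℕ := dig
  0x47464542374441363f34313c2d2926244340353e33303d322f2e3b2c28253a2b27392a380f1d0e201c0d221f1b0c1918150a17140912070423211e1a0b1613081106031005020100 8

theorem chk : (layChk auxE6 rho 9 2 (0 :: tTE6) && hypChk auxE6 rho && h4Chk auxE6 rho && h5Chk auxE6 rho false) = true := by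
  decide +kernel


/-- For the twisted group ²E₆(q), realised over the field with q² elements (q a prime power), every irreducible complex representation of degree at least 2 has degree at least q(q⁶ − q³ + 1)(q⁴ + 1). -/
theorem result {K : Type*} [Field K] [Fintype K] (q : ℕ) (hq : IsPrimePow q) (hK : Fintype.card K = q ^ 2) :
    (∀ (k : ℕ) (ρ : Representation ℂ (Cfsg.Lie.twistedE6 K q) (Fin k → ℂ)), ρ.IsIrreducible → 2 ≤ k → q * (q ^ 6 - q ^ 3 + 1) * (q ^ 4 + 1) ≤ k) := by
  intro k ρ hρ hk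
  obtain ⟨T, ⟨j⟩, h1, h2, h3⟩ := exists_twE6 hq hK
  obtain ⟨-, -, f1, f2⟩ := frob_facts hq hK le_rfl h2
  have h := isTwE6 realE6 hq hK
  have := h.isSimpleGroup.1
  have h3 : ev (0 :: tTE6) q ≤ k := (rep_bound tabE6 realE6 T (ρ := rho) h3 f1 hq.two_le (fun _ => h1 ▸ f2) chk nofun j
    ρ hρ hk).elim id fun h' => gapTE6 hq (by
      have h4 := (CL.Char.finrank_dvd_card ρ).mul_left (Nat.gcd 3 (q + 1))
      rw [Module.finrank_fin_fun, h.card_eq, ← Int.natCast_dvd_natCast] at h4
      push_cast [Nat.cast_sub (Nat.one_le_pow _ _ hq.pos)] at h4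
      convert h4 using 1
      simp only [pv, ev, fTE6]; ring) h'.1
  zify [Nat.pow_le_pow_right hq.pos (show 3 ≤ 6 by norm_num)]
  convert h3 using 1
  simp only [ev, tTE6]; ring

end Cfsg.Agent.S2341
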