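import Cfsg.Statements.S2342
import Cfsg.Agent.Known.MXTwo
import Cfsg.Agent.Known.MXCert

set_option autoImplicit false
open Cfsg

namespace Cfsg.Agent.S2342
open scoped Pointwise commutatorElement

open CL.MX CL.Chev CL.Chev.Cert

/-- the graph symmetry -/
def rho : ℕ → ℕ := dig 0x17161115100d140f130e0c12050b090408030a0702060100 8

theorem chk : (layChk auxD4 rho 3 1 (0 :: tTD4) && hypChk auxD4 rho && h4Chk auxD4 rho && h5Chk auxD4 rho true) = true := by
  decide +kernel

theorem chk2 : (anyLt auxD4.n fun α => fxB rho α && pb auxD4 (auxD4.ng 0) α 1 && anyLt auxD4.n fun δ =>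
    !fxB rho δ && pb auxD4 (auxD4.ng 0) δ 0 && pb auxD4 α δ 1) = true := by
  decide +kernel


/-- For the twisted group ³D₄(q), realised over the field with q³ elements (q a prime power), every irreducible complex representation of degree at least 2 has degree at least q(q⁴ − q² + 1). -/
theorem result {K : Type*} [Field K] [Fintype K] (q : ℕ) (hq : IsPrimePow q) (hK : Fintype.card K = q ^ 3) :
    (∀ (k : ℕ) (ρ : Representation ℂ (Cfsg.Lie.twistedD4 K q) (Fin k → ℂ)), ρ.IsIrreducible → 2 ≤ k → q * (q ^ 4 - q ^ 2 + 1) ≤ k) := by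
  intro k ρ hρ hk
  obtain ⟨T, ⟨j⟩, h1, h2, h3⟩ := exists_twD4 hq hK
  obtain ⟨-, -, f1, f2⟩ := frob_facts hq hK (by norm_num) h2
  have h := isTwD4 realD4 hq hK
  have := h.isSimpleGroup.1
  have h5 : ev (0 :: tTD4) q ≤ k ∨ ev (0 :: tTD4) q ≤ k + (1 : ℕ) := by
    rcases hq.two_le.eq_or_lt with rfl | h4
    · have c1 := chk
      have c2 := chk2
      simp only [Bool.and_eq_true, anyLt_iff, Bool.not_eq_true', Bool.eq_false_iff] at c1 c2
      obtain ⟨α, ⟨a1, a2⟩, c3⟩ := tab_ex tabD4 c2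
      obtain ⟨δ, ⟨d1, d2⟩, d3⟩ := tab_ex tabD4 c3
      obtain ⟨a, ha, k1, -⟩ := exists_act_of j ρ hρ hk
      obtain ⟨ψ, hψ⟩ := exists_psi K
      have H := tab_hyp tabD4 realD4 T (ρ := rho) h3 c1.1.1.2
      have hq' : T.q = 2 := f1
      obtain ⟨D, e1, e2⟩ := Tw.bound_two H ((fxB_iff realD4 T (ρ := rho) h3 α).1 a1) ((pb_iff tabD4 realD4 tabD4.top α 1).1 a2)
        (by omega) (mt (fxB_iff realD4 T (ρ := rho) h3 δ).2 d1) ((pb_iff tabD4 realD4 tabD4.top δ 0).1 d2)
        ((pb_iff tabD4 realD4 α δ 1).1 d3) ha hψ (fun t ht => by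
          rw [h2, sq] at ht
          exact (em (t = 0)).imp_right fun h => mul_right_cancel₀ h (ht.trans (one_mul t).symm))
        (tab_N0 tabD4 realD4 T (fun _ => by rw [hq', h1]; exact f2) c1.1.1.1)
        (k1 _ (T.x_mem H.fix (map_one _)) (by simp [T.faithful.x_eq_one_iff])) (tab_h4 tabD4 realD4 T (ρ := rho) h3 c1.1.2) f2.2
      rw [hq', Module.finrank_fin_fun] at e1 e2
      simp only [ev, tTD4]
      omega
    · refine (rep_bound tabD4 realD4 T (ρ := rho) h3 f1 hq.two_le (fun _ => h1 ▸ f2) chk (fun _ => ?_) j ρ hρ hk).imp_right (·.1)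
      by_contra! h6
      have h7 := (FiniteField.forall_pow_eq_one_iff K (q ^ 2 + q + 1)).1 fun c => Units.ext (by
        have := h6 c c.ne_zero
        rw [Tw.Nm, if_neg (by omega), h2, h2] at this
        rw [Units.val_pow_eq_pow_val, Units.val_one, ← this]; ring)
      have := Nat.le_of_dvd (by positivity) h7
      rw [hK] at this
      have : q ^ 3 ≤ q ^ 2 + q + 2 := by omega
      nlinarith
  have h6 : ev (0 :: tTD4) q ≤ k := h5.elim id (gapTD4 hq (by
      have h4 := CL.Char.finrank_dvd_card ρ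
      rw [Module.finrank_fin_fun, h.card_eq, ← Int.natCast_dvd_natCast] at h4
      push_cast [Nat.cast_sub (Nat.one_le_pow _ _ hq.pos)] at h4
      convert h4 using 1
      simp only [pv, ev, fTD4]; ring))
  zify [Nat.pow_le_pow_right hq.pos (show 2 ≤ 4 by norm_num)]
  convert h6 using 1
  simp only [ev, tTD4]; ring

end Cfsg.Agent.S2342
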