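import Cfsg.Statements.S2347
import Cfsg.Agent.Known.Weil2

set_option autoImplicit false
open Cfsg

namespace Cfsg.Agent.S2347

/-- Smallest degree of a non-linear irreducible complex representation of the symplectic group Sp_{2n} over a finite field of odd order q, n ≥ 2: every irreducible complex representation of degree at least 2 has degree at least (q^n − 1)/2, and there is an irreducible complex representation of exactly that degree (a Weil representation). -/
theorem result {F : Type*} [Field F] [Fintype F] [DecidableEq F] (n : ℕ) (hn : 2 ≤ n) (hodd : Odd (Fintype.card F)) :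
    (∀ (k : ℕ) (ρ : Representation ℂ (Matrix.symplecticGroup (Fin n) F) (Fin k → ℂ)), ρ.IsIrreducible → 2 ≤ k → (Fintype.card F ^ n - 1) / 2 ≤ k) ∧
    (∃ ρ : Representation ℂ (Matrix.symplecticGroup (Fin n) F) (Fin ((Fintype.card F ^ n - 1) / 2) → ℂ), ρ.IsIrreducible) := by
  have : Nontrivial (Fin n) := Fin.nontrivial_iff_two_le.mpr hn
  have h2 := CL.LS.two_ne_zero_of_odd hodd
  refine ⟨fun k ρ hρ hk => ?_, ?_⟩
  · obtain ⟨ψ, hψ⟩ := CL.LS.exists_psi_complex (F := F)
    simpa using CL.LS.sp_odd_bound (ρ := ρ) hψ h2 (CL.LS.ker_le_center_sp ρ hρ hk)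
  · have h := CL.Weil.exists_irr_minus (n := Fin n) h2
    rwa [Fintype.card_fin] at h

end Cfsg.Agent.S2347
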