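import Cfsg.Statements.S2353
import Cfsg.Agent.Cls.SL2Forms


set_option autoImplicit false
open Cfsg Matrix Polynomial CL.GL2 CL.SL2
open scoped MatrixGroups

namespace Cfsg.Agent.S2353

variable {F : Type*} [Field F]

open Classical in
/-- The element with eigenvalue `t` on `(a, 1)` and `t⁻¹` on `(b, 1)`. -/
noncomputable def g (t : Fˣ) (a b : F) : SL(2, F) :=
  if h : a = b then 1 else sl ((t * a - (t : F)⁻¹ * b) / (a - b)) (a * b * ((t : F)⁻¹ - t) / (a - b))
    ((t - (t : F)⁻¹) / (a - b)) (((t : F)⁻¹ * a - t * b) / (a - b)) (by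
      have := sub_ne_zero.2 h
      field_simp
      ring)

theorem g_inv (t : Fˣ) (a b : F) : (g t a b)⁻¹ = g t b a := by
  by_cases h : a = b
  · simp [g, h]
  rw [g, g, dif_neg h, dif_neg (Ne.symm h), SpecialLinearGroup.SL2_inv_expl]
  have := sub_ne_zero.2 h
  have := sub_ne_zero.2 (Ne.symm h)
  refine ext_SL (ext2 ?_ ?_ ?_ ?_) <;> simp [coe_sl] <;> field_simp <;> ring

theorem g_mul (t : Fˣ) {a b : F} (h : a ≠ b) (M : SL(2, F)) :
    (g t a b * M) 0 0 = (t * a - (t : F)⁻¹ * b) / (a - b) * M 0 0 +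
      a * b * ((t : F)⁻¹ - t) / (a - b) * M 1 0 ∧ (g t a b * M) 1 0 =
      (t - (t : F)⁻¹) / (a - b) * M 0 0 + ((t : F)⁻¹ * a - t * b) / (a - b) * M 1 0 := by
  rw [g, dif_neg h]
  exact ⟨mul00 _ _, mul10 _ _⟩

theorem key (α : ℕ × Bool → F) (S : Set (ℕ × Bool)) (hS : ∀ l ∈ S, (l.1, !l.2) ∈ S)
    (hα : Set.InjOn α S) (L : List (ℕ × Bool)) (hL : FreeGroup.IsReduced L) (h : ∀ l ∈ L, l ∈ S) :
    ∃ p q : F[X], p.natDegree ≤ L.length ∧ q.natDegree ≤ L.length ∧
      (∀ t : Fˣ, t ^ L.length * (L.map fun l => g t (α l) (α (l.1, !l.2))).prod 0 0 =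
        p.eval ((t : F) ^ 2) ∧ t ^ L.length * (L.map fun l => g t (α l) (α (l.1, !l.2))).prod 1 0 =
        q.eval ((t : F) ^ 2)) ∧
      (∀ b, (∀ l ∈ L.head?, α l ≠ b) → p.coeff L.length - b * q.coeff L.length ≠ 0) ∧
      (L ≠ [] → q.coeff L.length ≠ 0) := by
  induction L with
  | nil => exact ⟨1, 0, by simp, by simp, by simp, by simp, by simp⟩
  | cons l L ih =>
    obtain ⟨p, q, h1, h2, h3, h4, -⟩ := ih hL.tail fun x hx => h x (List.mem_cons_of_mem _ hx)
    have hl := h l List.mem_cons_self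
    have h5 : α l ≠ α (l.1, !l.2) := fun h => by
      simpa using congrArg Prod.snd (hα hl (hS l hl) h)
    have h6 := h4 (α (l.1, !l.2)) fun m hm h' => by
      obtain ⟨m', L, rfl⟩ : ∃ m' L', L = m' :: L' := by
        cases L with
        | nil => simp at hm
        | cons => exact ⟨_, _, rfl⟩
      obtain rfl : m' = m := by simpa using hm
      obtain rfl := hα (h _ (by simp)) (hS l hl) h'
      simpa using (FreeGroup.isReduced_cons_cons.1 hL).1 rfl
    simp only [List.length_cons, List.map_cons, List.prod_cons, List.head?_cons, Option.mem_def,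
      Option.some.injEq, forall_eq']
    generalize α l = a, α (l.1, !l.2) = b, L.length = n at *
    have h7 := sub_ne_zero.2 h5
    have h8 : ∀ c d : F, (C c * (X * (p - C b * q)) - C d * (p - C a * q)).natDegree ≤ n + 1 ∧
        (C c * (X * (p - C b * q)) - C d * (p - C a * q)).coeff (n + 1) =
          c * (p.coeff n - b * q.coeff n) := fun c d => ⟨by compute_degree; omega, by
        simp [coeff_eq_zero_of_natDegree_lt (Nat.lt_succ_of_le h1),
          coeff_eq_zero_of_natDegree_lt (Nat.lt_succ_of_le h2)]⟩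
    refine ⟨_, _, (h8 (a / (a - b)) (b / (a - b))).1, (h8 (1 / (a - b)) (1 / (a - b))).1,
      fun t => ?_, fun c hc => ?_, fun _ => ?_⟩
    · simp only [eval_sub, eval_mul, eval_C, eval_X, ← (h3 t).1, ← (h3 t).2, g_mul t h5]
      constructor <;> field_simp <;> ring
    · rw [(h8 _ _).2, (h8 _ _).2]
      intro h
      exact mul_ne_zero (sub_ne_zero.2 hc) h6 (by field_simp at h; linear_combination h)
    · rw [(h8 _ _).2]
      exact mul_ne_zero (one_div_ne_zero h7) h6

/-- A non-trivial law holds in PSL_2 over only finitely many finite fields: for every non-trivial element w of the free group on countably many generators there is N such that over every finite field with at least N elements some substitution of elements of PSL_2 into w is not the identity. -/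
theorem result (w : FreeGroup ℕ) (hw : w ≠ 1) :
    ∃ N : ℕ, ∀ (F : Type*) [Field F] [Fintype F], N ≤ Fintype.card F →
      ∃ f : ℕ → Matrix.ProjectiveSpecialLinearGroup (Fin 2) F, FreeGroup.lift f w ≠ 1 := by
  classical
  refine ⟨2 * w.toWord.length + 2, fun F _ _ hF => ?_⟩
  let S : Finset (ℕ × Bool) := (w.toWord.toFinset.image Prod.fst) ×ˢ Finset.univ
  obtain ⟨α, -, hα⟩ := (S.finite_toSet).exists_injOn_of_encard_le (t := (Set.univ : Set F)) (by
    rw [Set.encard_coe_eq_coe_finsetCard, Set.encard_univ, ENat.card_eq_coe_fintype_card,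
      Nat.cast_le, Finset.card_product]
    have := (Finset.card_image_le (f := Prod.fst)).trans (List.toFinset_card_le w.toWord)
    simp only [Finset.card_univ, Fintype.card_bool]
    omega)
  obtain ⟨p, q, -, h1, h2, -, h3⟩ := key α S (by simp [S]) hα w.toWord FreeGroup.isReduced_toWord
    fun l hl => Finset.mem_product.2
      ⟨Finset.mem_image_of_mem _ (List.mem_toFinset.2 hl), Finset.mem_univ _⟩
  have h4 : q ≠ 0 := fun h => h3 (mt FreeGroup.toWord_eq_nil_iff.1 hw) (by simp [h])
  obtain ⟨t, ht⟩ := exists_eval_ne_zero_of_natDegree_lt_card (X * expand F 2 q)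
    (mul_ne_zero X_ne_zero ((expand_ne_zero two_pos).2 h4)) (by
      rw [Cardinal.mk_fintype, Nat.cast_lt]
      refine natDegree_mul_le.trans_lt ?_
      rw [natDegree_X, natDegree_expand]
      omega)
  rw [eval_mul, eval_X, expand_eval, mul_ne_zero_iff] at ht
  let f : ℕ → SL(2, F) := fun i => g (Units.mk0 t ht.1) (α (i, true)) (α (i, false))
  refine ⟨fun i => f i, fun h => ht.2 ?_⟩
  replace h := (FreeGroup.lift_unique ((QuotientGroup.mk' _).comp (FreeGroup.lift f))
    (by simp)).trans h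
  have h5 := (isScal_SL_iff.2 (psl_mk_eq_one_iff.1 h)).2.1
  rw [show FreeGroup.lift f w = _ from congrArg _ FreeGroup.mk_toWord.symm,
    FreeGroup.lift_mk] at h5
  refine (h2 (Units.mk0 t ht.1)).2.symm.trans (mul_eq_zero.2 ?_)
  rw [show (fun x : ℕ × Bool => cond x.2 (f x.1) (f x.1)⁻¹) = fun l =>
    g (Units.mk0 t ht.1) (α l) (α (l.1, !l.2)) from funext fun ⟨i, b⟩ => by
      cases b <;> simp [f, g_inv]] at h5
  exact Or.inr h5

end Cfsg.Agent.S2353
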