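import Cfsg.Statements.S2359
import Cfsg.Agent.Chev.ReeInst
import Cfsg.Agent.Chev.ReeOrd

set_option autoImplicit false
open Cfsg

namespace Cfsg.Agent.S2359

/-- Let R be the small Ree group over the field with q = 3^(2m+1) ≥ 27 elements. If H is a cyclic subgroup of R of order (q−1)/2, then the centralizer of H in R is cyclic of order q−1, and every non-trivial subgroup of H has the same centralizer as H. If H is a cyclic subgroup of order (q+1)/4, then the centralizer of H is abelian of order q+1 with no element of order 4 (so it is the direct product of H and a group of order 4 whose non-identity elements all have order 2), and every non-trivial subgroup of H has the same centralizer as H. -/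
theorem result {K : Type*} [Field K] [Fintype K] {m : ℕ} (hm : 1 ≤ m)
    (hK : Fintype.card K = 3 ^ (2 * m + 1)) (H : Subgroup ↥(Cfsg.Lie.twistedG2 K (3 ^ m))) (hH : IsCyclic H) :
    (Nat.card H = (3 ^ (2 * m + 1) - 1) / 2 →
      IsCyclic ↥(Subgroup.centralizer (H : Set ↥(Cfsg.Lie.twistedG2 K (3 ^ m)))) ∧
        Nat.card ↥(Subgroup.centralizer (H : Set ↥(Cfsg.Lie.twistedG2 K (3 ^ m)))) = 3 ^ (2 * m + 1) - 1 ∧
        ∀ A : Subgroup ↥(Cfsg.Lie.twistedG2 K (3 ^ m)), A ≤ H → A ≠ ⊥ →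
          Subgroup.centralizer (A : Set ↥(Cfsg.Lie.twistedG2 K (3 ^ m))) = Subgroup.centralizer (H : Set ↥(Cfsg.Lie.twistedG2 K (3 ^ m)))) ∧
    (Nat.card H = (3 ^ (2 * m + 1) + 1) / 4 →
      IsMulCommutative ↥(Subgroup.centralizer (H : Set ↥(Cfsg.Lie.twistedG2 K (3 ^ m)))) ∧
        Nat.card ↥(Subgroup.centralizer (H : Set ↥(Cfsg.Lie.twistedG2 K (3 ^ m)))) = 3 ^ (2 * m + 1) + 1 ∧
        (∀ x ∈ Subgroup.centralizer (H : Set ↥(Cfsg.Lie.twistedG2 K (3 ^ m))), orderOf x ≠ 4) ∧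
        ∀ A : Subgroup ↥(Cfsg.Lie.twistedG2 K (3 ^ m)), A ≤ H → A ≠ ⊥ →
          Subgroup.centralizer (A : Set ↥(Cfsg.Lie.twistedG2 K (3 ^ m))) = Subgroup.centralizer (H : Set ↥(Cfsg.Lie.twistedG2 K (3 ^ m)))) := by
  obtain ⟨M, -⟩ := CL.Chev.Ree.exists_model hK
  have hq := Nat.card_eq_fintype_card.trans hK
  have hF := CL.Chev.Ree.three_lt hm hq
  obtain ⟨X, -, e1, hX⟩ := M.exists_tor_H hF
  obtain ⟨Y, -, e2, hY⟩ := M.exists_tor_K hF
  have := M.finite
  rw [← hq]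
  refine ⟨fun h => ?_, fun h => ?_⟩
  · obtain ⟨g, hg⟩ := hX.exists_tor hH (h.trans e1.symm)
    rw [hg.centralizer_eq le_rfl hg.ne_bot]
    exact ⟨CL.Chev.Sz.isCyclic_cj M.isCyclic_H, CL.Chev.Sz.card_cj.trans M.card_H, fun _ => hg.centralizer_eq⟩
  · obtain ⟨g, hg⟩ := hY.exists_tor hH (h.trans e2.symm)
    rw [hg.centralizer_eq le_rfl hg.ne_bot]
    refine ⟨⟨⟨fun x y => Subtype.ext ?_⟩⟩, CL.Chev.Sz.card_cj.trans M.card_K, fun x _ h4 => ?_, fun _ => hg.centralizer_eq⟩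
    · simpa [mul_assoc] using congrArg (· * g⁻¹) (M.comm_K (CL.Chev.Sz.mem_cj.1 x.2) (CL.Chev.Sz.mem_cj.1 y.2))
    · have h2 := M.sq_eq_one_of_pow (x := x) (n := 2) (h4 ▸ pow_orderOf_eq_one x :)
      exact absurd (h4 ▸ orderOf_dvd_of_pow_eq_one ((sq x).trans h2)) (by norm_num)

end Cfsg.Agent.S2359
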