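import Cfsg.Statements.S2385
import Cfsg.Agent.Known.SemiClass

set_option autoImplicit false
open Cfsg

namespace Cfsg.Agent.S2385

open CL.Known CL.Cls CL.GLn Module Polynomial

/-- In the symplectic group `Sp_{2n}(q)`, `q` a power of the prime `p`, the number of conjugacy classes of elements of order prime to `p` is `q^n`. -/
theorem result {F : Type*} [Field F] [Fintype F] {q : ℕ} (hq : Fintype.card F = q) (p : ℕ) [Fact p.Prime] [CharP F p] (n : ℕ) :
    Nat.card {c : ConjClasses ↥(Matrix.symplecticGroup (Fin n) F) //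
      ∃ g : ↥(Matrix.symplecticGroup (Fin n) F), ConjClasses.mk g = c ∧ (orderOf g).Coprime p} = q ^ n := by
  classical
  rw [card_classes_eq _ (fun g => g.1.charpoly)
    (fun f => f.Monic ∧ f.natDegree = 2 * n ∧ f.coeff 0 = 1 ∧ recip (RingHom.id F) f = f)]
  · rcases n with _ | n
    · rw [pow_zero, Nat.card_eq_one_iff_exists]
      exact ⟨⟨1, monic_one, natDegree_one, coeff_one_zero, recip_one⟩, fun f =>
        Subtype.ext (f.2.1.natDegree_eq_zero.1 f.2.2.1)⟩
    rw [show 2 * (n + 1) = 2 * n + 1 + 1 by ring, card_selfRecip (by simp), ← hq, ← Nat.card_eq_fintype_card,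
      ← Fintype.card_fin (n + 1), ← Nat.card_eq_fintype_card, ← Nat.card_fun]
    refine Nat.card_congr ⟨fun a i => a.1 (i.castLE (by omega)),
      fun b => ⟨fun i => b ⟨min i (2 * n - i), by omega⟩, fun i => ?_⟩, fun a => Subtype.ext (funext fun i => ?_),
      fun b => funext fun i => congrArg b (Fin.ext (by simp; omega))⟩
    · rw [one_mul]
      exact congrArg b (Fin.ext (by simp; omega))
    · rcases le_total i.1 n with e | e
      · exact congrArg a.1 (Fin.ext (by simp; omega))
      · exact (congrArg a.1 (Fin.ext (by simp; omega))).trans ((one_mul _).symm.trans (a.2 i))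
  · exact fun a b ha hb => ⟨fun H => IsConj.charpoly_eq ((Matrix.symplecticGroup (Fin n) F).subtype.map_isConj H),
      sp_isConj_of_charpoly (natCast_ne_zero_of_coprime p ha) (pow_orderOf_eq_one a)
        (natCast_ne_zero_of_coprime p hb) (pow_orderOf_eq_one b)⟩
  · intro f
    constructor
    · rintro ⟨f1, f2, f3, f4⟩
      obtain ⟨s, s1, rfl⟩ := exists_multiset_prod_eq f1
      set u := (s.filter (· ≠ X - 1)).filter (· ≠ X + 1)
      set a := s.count (X - 1)
      set b := (s.filter (· ≠ X - 1)).count (X + 1) with hb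
      have hs : s.prod = u.prod * (X - 1) ^ a * (X + 1) ^ b := by
        rw [← Multiset.prod_filter_mul_prod_filter_not (s := s) (· ≠ X - 1), ← Multiset.prod_filter_mul_prod_filter_not
          (s := s.filter (· ≠ X - 1)) (· ≠ X + 1)]
        simp only [not_not, Multiset.filter_eq', Multiset.prod_replicate]
        ring
      have hu : ∀ P ∈ u, P.Monic ∧ Irreducible P ∧ P.coeff 0 ≠ 0 := fun P hP => by
        have hP := Multiset.mem_of_mem_filter (Multiset.mem_of_mem_filter hP)
        refine ⟨(s1 P hP).1, (s1 P hP).2, fun e => ?_⟩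
        simpa [f3] using X_dvd_iff.1 ((X_dvd_iff.2 e).trans (Multiset.dvd_prod hP))
      have h1 : X - 1 ∉ u := by simp [u]
      have h2 : X + 1 ∉ u := by simp [u]
      rw [hs] at f2 f3 f4 ⊢
      have h3 := (map_recip_of_mul (fun _ => rfl) hu).1 f4
      have h4 := Nat.even_iff.1 (even_sum_natDegree hu h3 h1 h2)
      have hm : u.prod.Monic := by simpa using monic_multiset_prod_of_monic u id fun P hP => (hu P hP).1
      have hX : (X + 1 : F[X]).Monic := monic_X_add_C 1
      rw [(hm.mul (monic_X_sub_one.pow a)).natDegree_mul (hX.pow b), hm.natDegree_mul (monic_X_sub_one.pow a),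
        natDegree_multiset_prod_of_monic _ fun P hP => (hu P hP).1, natDegree_pow, natDegree_pow, natDegree_X_sub_one',
        show (X + 1 : F[X]).natDegree = 1 from natDegree_X_add_C 1] at f2
      have h5 : a % 2 = 0 ∧ b % 2 = 0 := by
        by_cases h2 : (2 : F) = 0
        · have e : (2 : F[X]) = 0 := (map_ofNat C 2).symm.trans (by rw [h2, map_zero])
          have : (X + 1 : F[X]) = X - 1 := by linear_combination e
          rw [this, Multiset.count_filter_of_neg (by simp)] at hb
          omega
        have h6 : u.prod.eval 1 ≠ 0 := fun e => by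
          obtain ⟨P, hP, hd⟩ := (prime_X_sub_C (1 : F)).exists_mem_multiset_dvd (dvd_iff_isRoot.2 e)
          exact h1 (eq_of_monic_of_associated monic_X_sub_one (hu P hP).1
            (irreducible_X_sub_one.associated_of_dvd (hu P hP).2.1 hd) ▸ hP)
        have h7 := congrArg (eval 1) ((map_recip_eq_iff (fun _ => rfl) hu).1 h3)
        let := invertibleOne (α := F)
        have h8 := eval₂_reverse_mul_pow (RingHom.id F) 1 u.prod
        rw [invOf_one, one_pow, mul_one, eval₂_id, eval₂_id] at h8
        rw [recip, Polynomial.map_id, eval_mul, eval_C, h8, mul_eq_right₀ h6, inv_eq_one, RingHom.id_apply] at h7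
        simp only [mul_coeff_zero, h7, coeff_zero_eq_eval_zero (_ ^ _), eval_pow, eval_sub, eval_add, eval_X, eval_one,
          zero_sub, zero_add, one_pow, one_mul, mul_one] at f3
        have := Nat.even_iff.1 ((neg_one_pow_eq_one_iff_even fun e => h2 (by linear_combination -e)).1 f3)
        omega
      obtain ⟨A, A1, A2⟩ := exists_sp_charpoly (m := n) hu h3 h1 h2 (a := a / 2) (b := b / 2) (by omega)
      refine ⟨A, ?_, by rw [A1, show 2 * (a / 2) = a by omega, show 2 * (b / 2) = b by omega]⟩
      have h9 : (2 * n).factorial ≠ 0 := Nat.factorial_ne_zero _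
      refine (coprime_card_pow_sub_one (F := F) p h9).coprime_dvd_left (orderOf_dvd_of_pow_eq_one (A2 _
        (fun P hP => irreducible_dvd_X_pow_card_pow_sub_one (hu P hP).2.1 (mt X_dvd_iff.1 (hu P hP).2.2)
          (Nat.dvd_factorial (hu P hP).2.1.natDegree_pos ?_)) (Or.inr ?_)))
      · have := Multiset.single_le_sum (fun _ _ => Nat.zero_le _) _ (Multiset.mem_map_of_mem natDegree hP)
        omega
      · obtain ⟨c, hc⟩ := Nat.sub_one_dvd_pow_sub_one (Nat.card F) (2 * n).factorial
        rw [hc, pow_mul, Nat.card_eq_fintype_card, FiniteField.pow_card_sub_one_eq_one _ (by simp), one_pow]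
    · rintro ⟨g, -, rfl⟩
      refine ⟨Matrix.charpoly_monic _, by simp [two_mul], ?_, sp_recip_charpoly g⟩
      simpa [SymplecticGroup.det_eq_one g.2] using (Matrix.det_eq_sign_charpoly_coeff g.1).symm

end Cfsg.Agent.S2385
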