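import Cfsg.Statements.S2394
import Cfsg.Agent.Cls.SpMatrix2
import Cfsg.Agent.S2904

set_option autoImplicit false
open scoped MatrixGroups
open Cfsg

namespace Cfsg.Agent.S2394

/-- The smallest degree of a faithful representation of the symplectic group `Sp_{2n}(q)` over its own field `F_q` is `2n`: every injective homomorphism from `Sp_{2n}(F)` to `GL_d(F)`, `F` the field with `q` elements, has `d ≥ 2n`. -/
theorem result {F : Type*} [Field F] [Fintype F] (n : ℕ) {d : ℕ}
    (ρ : ↥(Matrix.symplecticGroup (Fin n) F) →* GL (Fin d) F) (hρ : Function.Injective ρ) : 2 * n ≤ d := by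
  classical
  by_contra hd
  push Not at hd
  have hq : 1 < Fintype.card F := Fintype.one_lt_card
  have h1 := Subgroup.card_dvd_of_injective ρ hρ
  rw [CL.Sp.card_symplecticGroup, Matrix.card_GL_field, Nat.card_eq_fintype_card] at h1
  obtain ⟨m, rfl⟩ : ∃ m, n = m + 1 := ⟨n - 1, by omega⟩
  set q := Fintype.card F
  by_cases h0 : m = 0
  · subst h0
    have h2 := Nat.le_of_dvd (Finset.prod_pos fun i _ => Nat.sub_pos_of_lt (Nat.pow_lt_pow_right hq i.2)) h1
    have h3 : q ≤ q ^ 2 - 1 := Nat.le_sub_one_of_lt (by nlinarith)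
    have h4 : q * q ≤ q * (q ^ 2 - 1) := Nat.mul_le_mul_left _ h3
    obtain rfl | rfl : d = 0 ∨ d = 1 := by omega
    · simp at h2; nlinarith
    · simp at h2; have := Nat.sub_le q 1; nlinarith
  by_cases h6 : q = 2 ∧ 2 * (m + 1) = 6
  · obtain rfl : m = 2 := by omega
    rw [h6.1] at h1
    have h7 : d < 6 := hd
    interval_cases d <;> revert h1 <;> decide
  obtain ⟨r, hr, h2, h3⟩ := Cfsg.Agent.S2904.result q (2 * (m + 1)) hq (by omega) h6 (by omega)
  have h4 := (h2.trans ((Finset.dvd_prod_of_mem (fun i => q ^ (2 * (i + 1)) - 1)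
    (Finset.self_mem_range_succ m)).mul_left _)).trans h1
  obtain ⟨i, -, hi⟩ := (Prime.dvd_finsetProd_iff hr.prime _).mp h4
  have hi' := i.2
  rw [show q ^ d - q ^ (i : ℕ) = q ^ (i : ℕ) * (q ^ (d - i) - 1) by
    rw [Nat.mul_sub, ← pow_add, mul_one, Nat.add_sub_cancel' hi'.le]] at hi
  rcases (Nat.Prime.dvd_mul hr).mp hi with h5 | h5
  · have h7 : r ∣ q ^ (2 * (m + 1)) := (hr.dvd_of_dvd_pow h5).trans (dvd_pow_self q (by omega))
    have h8 := (Nat.dvd_sub_iff_right (Nat.one_le_pow _ _ (by omega)) h7).mp h2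
    exact hr.one_lt.ne' (Nat.dvd_one.mp h8)
  · exact h3 _ (by omega) (by omega) h5

end Cfsg.Agent.S2394
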