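import Cfsg.Statements.S2429
import Cfsg.Agent.Known.SL2Norm

set_option autoImplicit false
open Cfsg

namespace Cfsg.Agent.S2429

open CL.GL2

/-- Let F be a finite field with q elements, q odd. Then SL₂ over F contains a cyclic subgroup T′ of order q + 1 (a non-split torus) with the following properties: T′ is its own centraliser, and indeed the centraliser of each element of T′ other than 1 and −1 is exactly T′; every element of SL₂ having no eigenvector in F² is conjugate to an element of T′; the normaliser of T′ has order 2(q + 1) and exactly (q + 7)/2 conjugacy classes; and every element of that normaliser outside T′ has square −1. -/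
theorem result {F : Type*} [Field F] [Fintype F] (hodd : Odd (Fintype.card F)) :
    ∃ T' : Subgroup (Matrix.SpecialLinearGroup (Fin 2) F), IsCyclic T' ∧ Nat.card T' = Fintype.card F + 1 ∧
      Subgroup.centralizer ((T' : Set (Matrix.SpecialLinearGroup (Fin 2) F))) = T' ∧
      (∀ g : Matrix.SpecialLinearGroup (Fin 2) F, g ∈ T' → (g : Matrix (Fin 2) (Fin 2) F) ≠ 1 → (g : Matrix (Fin 2) (Fin 2) F) ≠ -1 → Subgroup.centralizer ({g} : Set (Matrix.SpecialLinearGroup (Fin 2) F)) = T') ∧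
      (∀ g : Matrix.SpecialLinearGroup (Fin 2) F, (∀ (c : F) (v : Fin 2 → F), v ≠ 0 → (g : Matrix (Fin 2) (Fin 2) F).mulVec v ≠ c • v) → ∃ h : Matrix.SpecialLinearGroup (Fin 2) F, h * g * h⁻¹ ∈ T') ∧
      Nat.card (Subgroup.normalizer (T' : Set (Matrix.SpecialLinearGroup (Fin 2) F))) = 2 * (Fintype.card F + 1) ∧
      Nat.card (ConjClasses (Subgroup.normalizer (T' : Set (Matrix.SpecialLinearGroup (Fin 2) F)))) = (Fintype.card F + 7) / 2 ∧
      ∀ g : Matrix.SpecialLinearGroup (Fin 2) F, g ∈ Subgroup.normalizer (T' : Set (Matrix.SpecialLinearGroup (Fin 2) F)) → g ∉ T' → ((g * g) : Matrix (Fin 2) (Fin 2) F) = -1 := by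
  classical
  obtain ⟨𝔢⟩ := nonemptyEll (F := F)
  obtain ⟨z, hz⟩ := 𝔢.exists_embSL_sq_ne_one
  obtain ⟨h1, h2⟩ := 𝔢.torSL.card_normalizer hz
  rw [if_pos hodd, 𝔢.card_K] at h2
  rw [𝔢.card_K] at h1
  refine ⟨𝔢.torSL.emb.range, 𝔢.torSL.isCyclic_range, 𝔢.torSL.card_range.trans 𝔢.card_K,
    𝔢.torSL.centralizer_eq_of_le le_rfl hz ⟨z, rfl⟩, ?_, fun g hg => ?_, h1, ?_, fun g h3 h4 => ?_⟩
  · rintro _ ⟨y, rfl⟩ a1 a2
    refine 𝔢.torSL.cent_emb fun h => ?_
    rcases isScal_SL_iff.1 ((𝔢.torSL.isScal_SL_iff' y).2 h) with h | h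
    · exact a1 (congrArg Subtype.val h)
    · exact a2 (congrArg Subtype.val h)
  · obtain ⟨y, hy⟩ := 𝔢.exists_agree_torSL (g := g) hg
    obtain ⟨c, hc⟩ := 𝔢.torSL.exists_conj_emb_eq (by rw [IsEll.nroots hg]; decide) hy
    exact ⟨c⁻¹, y, by rw [← hc, Torus.conj_emb]; group⟩
  · exact (fun c (h : 2 * c = Fintype.card F + 1 + 3 * 2) => by omega : ∀ c, _ → c = _) _ h2
  · exact congrArg Subtype.val (𝔢.torSL.mul_self_eq_neg_one hz h3 h4)

end Cfsg.Agent.S2429
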