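import Cfsg.Statements.S2444
import Cfsg.Agent.Cls.ProdOre
-- import your own Cfsg.Agent.* helpers here

set_option autoImplicit false
open Cfsg

namespace Cfsg.Agent.S2444

/-- In the special linear group SL(n,F) over a finite field F, with n ≥ 2 and (n, |F|) not (2,2) or (2,3), every element is a commutator a·b·a⁻¹·b⁻¹ of two elements of SL(n,F). -/
theorem result {F : Type*} [Field F] [Fintype F] (n : ℕ) (hn : 2 ≤ n) (hex : n = 2 → 4 ≤ Fintype.card F) :
    ∀ g : Matrix.SpecialLinearGroup (Fin n) F, ∃ a b : Matrix.SpecialLinearGroup (Fin n) F, g = a * b * a⁻¹ * b⁻¹ := by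
  intro g
  have hg : LinearMap.det (Matrix.toLin' g.1) = 1 := by simp
  obtain ⟨a, b, h1, h2, h3⟩ : CL.SLn.IsComm 1 (Matrix.toLin' g.1) := by
    by_cases h : 4 ≤ Fintype.card F
    · exact CL.SLn.isComm_of_four ((CL.SLn.four_or_small F).1 h) (by simpa using hn) hg
    · exact CL.SLn.isComm_small ((CL.SLn.four_or_small F).2 (by omega)) (n - 3) _ _
        (by have : n ≠ 2 := fun e ↦ h (hex e); simp; omega) hg
  let A : Matrix.SpecialLinearGroup (Fin n) F := ⟨LinearMap.toMatrix' a, by simpa using h1⟩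
  let B : Matrix.SpecialLinearGroup (Fin n) F := ⟨LinearMap.toMatrix' b, by simpa using h2⟩
  have e : g * (B * A) = A * B := Subtype.ext (Matrix.toLin'.injective (LinearMap.ext fun x ↦ by
    change Matrix.toLin' (g.1 * (B.1 * A.1)) x = Matrix.toLin' (A.1 * B.1) x
    simpa only [A, B, Matrix.toLin'_mul, Matrix.toLin'_toMatrix',
      LinearMap.comp_apply] using h3 x))
  exact ⟨A, B, by rw [← e]; group⟩

end Cfsg.Agent.S2444
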