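import Cfsg.Statements.S2445
import Cfsg.Agent.Cls.OreSp5
import Cfsg.Agent.Cls.SpMatrix

set_option autoImplicit false
open Cfsg

namespace Cfsg.Agent.S2445

open CL.Sp CL.Ore CL.Known

/-- In the symplectic group Sp(2m,F) over a finite field F (m ≥ 1), other than Sp(2,2), Sp(2,3) and Sp(4,2), every element is a commutator a·b·a⁻¹·b⁻¹ of two elements of Sp(2m,F). -/
theorem result {F : Type*} [Field F] [Fintype F] (m : ℕ) (hm : 1 ≤ m) (h1 : m = 1 → 4 ≤ Fintype.card F)
    (h2 : m = 2 → 3 ≤ Fintype.card F) : ∀ g : Matrix.symplecticGroup (Fin m) F, ∃ a b : Matrix.symplecticGroup (Fin m) F, g = a * b * a⁻¹ * b⁻¹ := by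
  intro g
  have hd : Module.finrank F (Fin m ⊕ Fin m → F) = 2 * m := by simp [two_mul]
  have h : Alt (⟨Fin m ⊕ Fin m → F, stdForm (Fin m) F, spLin (Fin m) F g⟩ : Trip F) :=
    ⟨⟨(stdForm_nondegenerate _ F).1, fun x y => ((stdForm_isAlt _ F).neg_eq x y).symm.trans (neg_one_mul _).symm,
      spLin_mem g⟩, stdForm_isAlt _ F⟩
  obtain ⟨a, ha, b, hb, e⟩ := h.comm (fun e => Nat.card_eq_fintype_card (α := F) ▸ h1 (by have := hd.symm.trans e; omega))
    fun e => Nat.card_eq_fintype_card (α := F) ▸ h2 (by have := hd.symm.trans e; omega)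
  obtain ⟨a, rfl⟩ := exists_spLin_eq ha
  obtain ⟨b, rfl⟩ := exists_spLin_eq hb
  exact ⟨a, b, spLin_injective (by simpa only [map_mul, map_inv] using e)⟩

end Cfsg.Agent.S2445
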