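import Cfsg.Statements.S2446
import Cfsg.Agent.Cls.OreU5

set_option autoImplicit false
open Cfsg

namespace Cfsg.Agent.S2446

/-- In the special unitary group SU(n,q), n ≥ 3, realised over the field F with q² elements as the determinant-one isometries of the standard Hermitian form, and with (n,q) ≠ (3,2), every element is a commutator a·b·a⁻¹·b⁻¹ of two elements of SU(n,q). -/
theorem result {F : Type*} [Field F] [Fintype F] (n q : ℕ) (hn : 3 ≤ n) (hF : Fintype.card F = q ^ 2) (hex : ¬ (n = 3 ∧ q = 2)) :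
    ∀ g : Cfsg.SU n F q, ∃ a b : Cfsg.SU n F q, g = a * b * a⁻¹ * b⁻¹ := by
  intro g
  have h := CL.Uni.isBar_bar hF
  obtain ⟨x, hx, y, hy, e⟩ := CL.OreU.cm_of_mem (CL.Uni.isHerm_stdB h (Fin n)) (CL.Uni.suEquiv h n g).2 (by simpa using hn)
    (by simpa using hex)
  refine ⟨(CL.Uni.suEquiv h n).symm ⟨x, hx⟩, (CL.Uni.suEquiv h n).symm ⟨y, hy⟩, (CL.Uni.suEquiv h n).injective ?_⟩
  simp only [map_mul, map_inv, MulEquiv.apply_symm_apply]
  exact Subtype.ext e

end Cfsg.Agent.S2446
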