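import Cfsg.Statements.S2450
import Cfsg.Agent.Cls.SL2Prod


set_option autoImplicit false
open Cfsg Matrix Subgroup CL.GL2 CL.SL2
open scoped MatrixGroups

namespace Cfsg.Agent.S2450

/-- The Arad–Herzog conjecture for PSL(2,q): let F be a finite field with q ≥ 4 elements. For any two non-identity elements a, b of PSL(2,F), the set of products of a conjugate of a with a conjugate of b is not a single conjugacy class. -/
theorem result {F : Type*} [Field F] [Fintype F] (h4 : 4 ≤ Fintype.card F)
    (a b : Matrix.ProjectiveSpecialLinearGroup (Fin 2) F) (ha : a ≠ 1) (hb : b ≠ 1) (c : Matrix.ProjectiveSpecialLinearGroup (Fin 2) F) :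
    {g : Matrix.ProjectiveSpecialLinearGroup (Fin 2) F | ∃ u v : Matrix.ProjectiveSpecialLinearGroup (Fin 2) F, g = (u * a * u⁻¹) * (v * b * v⁻¹)} ≠ {g | IsConj c g} := by
  intro h
  induction a using QuotientGroup.induction_on with | H A =>
  induction b using QuotientGroup.induction_on with | H B =>
  induction c using QuotientGroup.induction_on with | H C =>
  obtain ⟨U, V, h1, h2, h3⟩ := exists_trace_sq_ne h4 (not_isScal_of_psl_ne_one ha)
    (not_isScal_of_psl_ne_one hb) ((C : M2 F).trace ^ 2)
  obtain ⟨u, rfl⟩ := isConj_iff.1 h1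
  obtain ⟨v, rfl⟩ := isConj_iff.1 h2
  exact h3 (trace_sq_eq_of_isConj ((Set.ext_iff.1 h _).1 ⟨u, v, rfl⟩)).symm

end Cfsg.Agent.S2450
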