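import Cfsg.Statements.S2455
import Cfsg.Agent.Cls.SL2Prod


set_option autoImplicit false
open Cfsg Matrix Subgroup CL.GL2 CL.SL2
open scoped MatrixGroups

namespace Cfsg.Agent.S2455

/-- A strong covering result in the direction of Thompson's conjecture (non-identity elements) for PSL(2,q), q odd: let F be a finite field of odd characteristic p with at least 5 elements and let x ∈ PSL(2,F) have order greater than 2 and not divisible by p (so x is not unipotent). Then every non-identity element of PSL(2,F) is a product of two conjugates of x. -/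
theorem result {F : Type*} [Field F] [Fintype F] (p : ℕ) [Fact p.Prime] [CharP F p] (hp : p ≠ 2) (h5 : 5 ≤ Fintype.card F)
    (x : Matrix.ProjectiveSpecialLinearGroup (Fin 2) F) (hx2 : 2 < orderOf x) (hxp : ¬ p ∣ orderOf x) : ∀ g : Matrix.ProjectiveSpecialLinearGroup (Fin 2) F, g ≠ 1 → ∃ u v : Matrix.ProjectiveSpecialLinearGroup (Fin 2) F, g = (u * x * u⁻¹) * (v * x * v⁻¹) := by
  intro g hg
  induction x using QuotientGroup.induction_on with | H X =>
  induction g using QuotientGroup.induction_on with | H G =>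
  have h2 := two_ne_zero_of_odd (odd_of_charP (F := F) hp)
  have h0 := trace_ne_zero_of_two_lt hx2
  have h4 : (X : M2 F).trace ^ 2 ≠ 4 := fun h => by
    rcases (Nat.dvd_prime Fact.out).1 (orderOf_dvd_of_pow_eq_one (psl_pow_char_of_trace_sq p h))
      with h | h
    · omega
    · exact hxp (h ▸ dvd_rfl)
  obtain ⟨z, h6, h7⟩ : ∃ z : F, z ^ 2 = (X : M2 F).trace ^ 2 ∧
      ∀ e : F, e * e = 1 → (G : M2 F).trace = e + e → z ≠ e * (X : M2 F).trace := by
    by_cases h : (G : M2 F).trace = 2
    · refine ⟨-(X : M2 F).trace, neg_sq _, fun e _ he h' => mul_ne_zero h2 (mul_ne_zero h2 h0) ?_⟩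
      linear_combination (X : M2 F).trace * (he - h) - 2 * h'
    · refine ⟨_, rfl, fun e _ he h' => h (mul_left_cancel₀ h0 ?_)⟩
      linear_combination (X : M2 F).trace * he - 2 * h'
  obtain ⟨B, h8, h9⟩ := exists_trace_mul (not_isScal_of_psl_ne_one hg) _ z h7
  exact exists_eq_conj_mul_conj h4 h8 (h9 ▸ h6)

end Cfsg.Agent.S2455
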