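import Cfsg.Statements.S2456
import Cfsg.Agent.Cls.SL2Prod


set_option autoImplicit false
open Cfsg Matrix Subgroup CL.GL2 CL.SL2
open scoped MatrixGroups

namespace Cfsg.Agent.S2456

/-- A strong covering result in the direction of Thompson's conjecture (non-identity elements) for PSL(2,q), q even: let F be a finite field of characteristic 2 with q ≥ 4 elements and let x ∈ PSL(2,F) have order greater than 2 and not dividing q + 1. Then every non-identity element of PSL(2,F) is a product of two conjugates of x. -/
theorem result {F : Type*} [Field F] [Fintype F] [CharP F 2] (h4 : 4 ≤ Fintype.card F)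
    (x : Matrix.ProjectiveSpecialLinearGroup (Fin 2) F) (hx2 : 2 < orderOf x) (hxq : ¬ orderOf x ∣ Fintype.card F + 1) : ∀ g : Matrix.ProjectiveSpecialLinearGroup (Fin 2) F, g ≠ 1 → ∃ u v : Matrix.ProjectiveSpecialLinearGroup (Fin 2) F, g = (u * x * u⁻¹) * (v * x * v⁻¹) := by
  intro g hg
  induction x using QuotientGroup.induction_on with | H X =>
  induction g using QuotientGroup.induction_on with | H G =>
  have h4 : (X : M2 F).trace ^ 2 ≠ 4 := fun h => trace_ne_zero_of_two_lt hx2
    (pow_eq_zero_iff two_ne_zero |>.1 (by linear_combination h + 2 * CharTwo.two_eq_zero (R := F)))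
  obtain ⟨a, b, h5, h6⟩ := not_isEll_iff.1 fun h : IsEll (X : M2 F) => hxq
    (orderOf_dvd_of_pow_eq_one (psl_pow_eq_one_iff.2 (Or.inl (sl_pow_of_isEll h))))
  obtain ⟨B, h8, h9⟩ := exists_trace_mul_split (not_isScal_of_psl_ne_one hg) (h6.trans (det_SL X))
    (X : M2 F).trace
  exact exists_eq_conj_mul_conj h4 (h8.trans h5) (by rw [h9])

end Cfsg.Agent.S2456
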