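import Cfsg.Statements.S2459
import Cfsg.Agent.Cls.ProdThree
-- import your own Cfsg.Agent.* helpers here

set_option autoImplicit false
open Cfsg

namespace Cfsg.Agent.S2459

/-- A form of Thompson's conjecture for PSL(3,q), q > 2 (covering the non-identity elements), with a semisimple class: for F a finite field of characteristic p with more than 2 elements there is an element x of PSL(3,F) of order prime to p such that every non-identity element of PSL(3,F) is a product of two conjugates of x. -/
theorem result {F : Type*} [Field F] [Fintype F] (p : ℕ) [Fact p.Prime] [CharP F p] (h3 : 3 ≤ Fintype.card F) :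
    ∃ x : Matrix.ProjectiveSpecialLinearGroup (Fin 3) F, ¬ p ∣ orderOf x ∧ ∀ g : Matrix.ProjectiveSpecialLinearGroup (Fin 3) F, g ≠ 1 → ∃ u v : Matrix.ProjectiveSpecialLinearGroup (Fin 3) F, g = (u * x * u⁻¹) * (v * x * v⁻¹) := by
  obtain ⟨T, N, h1, h2, h⟩ := CL.SLn.exists_sq_class_three h3
  refine ⟨QuotientGroup.mk T, fun hp ↦ h1 ((CharP.cast_eq_zero_iff F p N).2 (hp.trans
    (orderOf_dvd_of_pow_eq_one (by rw [← QuotientGroup.mk_pow, h2]; rfl)))), fun g hg ↦ ?_⟩
  obtain ⟨g, rfl⟩ := QuotientGroup.mk_surjective g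
  obtain ⟨A, B, e⟩ := h g fun a ha ↦ hg ((QuotientGroup.eq_one_iff g).2
    (Subgroup.mem_center_iff.2 fun x ↦ Subtype.ext (by
      change x.1 * g.1 = g.1 * x.1
      simp [ha])))
  exact ⟨QuotientGroup.mk A, QuotientGroup.mk B, by rw [e]; rfl⟩

end Cfsg.Agent.S2459
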