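import Cfsg.Statements.S2460
import Cfsg.Agent.Chev.EGFour
import Cfsg.Agent.S1083
import Cfsg.Agent.Cls.OrthIso5
import Cfsg.Agent.Cls.OrthOddEven
import Cfsg.Agent.Cls.SpSimple

set_option autoImplicit false
open Cfsg

namespace Cfsg.Agent.S2460

open CL.Chev CL.Cls

/-- A form of Thompson's conjecture for the simple groups PSp(4,q), q ≥ 3 (covering the non-identity elements), with a semisimple class: for F a finite field of characteristic p with at least 3 elements there is an element x of PSp(4,F) of order prime to p such that every non-identity element of PSp(4,F) is a product of two conjugates of x. -/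
theorem result {F : Type*} [Field F] [Fintype F] (p : ℕ) [Fact p.Prime] [CharP F p] (h3 : 3 ≤ Fintype.card F) :
    ∃ x : Cfsg.PSp 2 F, ¬ p ∣ orderOf x ∧ ∀ g : Cfsg.PSp 2 F, g ≠ 1 → ∃ u v : Cfsg.PSp 2 F, g = (u * x * u⁻¹) * (v * x * v⁻¹) := by
  obtain ⟨x, h1, h2⟩ := exists_inSq_B2 p h3
  obtain ⟨e⟩ : Nonempty (Cfsg.Lie.chevB2.group F ≃* Cfsg.PSp 2 F) := by
    obtain ⟨a, b, c, h⟩ := Fintype.two_lt_card_iff.1 (by omega : 2 < Fintype.card F)
    obtain ⟨e⟩ := Cfsg.Agent.S1083.result (F := F) (by
      by_contra! h'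
      have := fun a => or_iff_not_imp_left.2 (h' a)
      have h1 := this a
      have h2 := this b
      have h3 := this c
      grind)
    by_cases h2 : (2 : F) = 0
    · have : CharP F 2 := (CharP.charP_iff_prime_eq_zero Nat.prime_two).2 (by exact_mod_cast h2)
      obtain ⟨f⟩ := nonempty_OG_qfOdd_equiv_sp (m := 2) (F := F)
      exact ⟨e.trans (quotCenterCongr ((omegaEquiv (qfOdd 2 F)).trans ((commutatorCongr f).trans
        ((MulEquiv.subgroupCongr (CL.Sp.commutator_symplecticGroup 2 (.inr (.inl ⟨rfl, by simpa⟩)))).trans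
          Subgroup.topEquiv))))⟩
    · exact (nonempty_POmega5_equiv h2).map e.trans
  exact ⟨e x, by rwa [e.orderOf_eq], fun g _ => show InSq _ g by simpa using (h2 (e.symm g)).map e.toMonoidHom⟩

end Cfsg.Agent.S2460
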