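import Cfsg.Statements.S2463
import Cfsg.Agent.Chev.EGOct3
import Cfsg.Agent.Chev.EGTits

set_option autoImplicit false
open Cfsg

namespace Cfsg.Agent.S2463

/-- A form of Thompson's conjecture for the simple groups of type ²F₄ (covering the non-identity elements) with a semisimple class: if M is a large Ree group ²F₄(2^(2m+1)) with m ≥ 1, or the Tits group, then there is an element x of M of odd order such that every non-identity element of M is a product of two conjugates of x. -/
theorem result {M : Type*} [Group M] [Finite M] (hM : Cfsg.Lie.Iso2F4 M ∨ Cfsg.Lie.IsoTits M) :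
    ∃ x : M, Odd (orderOf x) ∧ ∀ g : M, g ≠ 1 → ∃ u v : M, g = (u * x * u⁻¹) * (v * x * v⁻¹) := by
  rcases hM with h | h
  · obtain ⟨x, h1, h2⟩ := CL.Chev.exists_inSq_twistedF4 h
    exact ⟨x, h1, fun g _ => h2 g⟩
  · exact CL.Chev.TitsSq.exists_inSq h

end Cfsg.Agent.S2463
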