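import Cfsg.Statements.S2467
import Cfsg.Agent.Known.AltOrders

set_option autoImplicit false
open Cfsg

namespace Cfsg.Agent.S2467

/-- Adjacency of 2 and an odd prime in the prime graph of the alternating groups: let r be an odd prime at most n, with n ≥ 4. The alternating group of degree n has an element of order 2r if and only if r + 4 ≤ n. -/
theorem result (n r : ℕ) (hn : 4 ≤ n) (hr : r.Prime) (hr2 : r ≠ 2) (hrn : r ≤ n) :
    (2 * r ∈ Set.range (orderOf : alternatingGroup (Fin n) → ℕ)) ↔ r + 4 ≤ n := by
  rw [CL.Known.mem_range_orderOf_alt_iff, Fintype.card_fin]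
  have hro := hr.eq_two_or_odd.resolve_left hr2
  have hc : Nat.Coprime r 2 := (Nat.coprime_primes hr Nat.prime_two).2 hr2
  have hr3 := hr.two_le
  constructor
  · rintro ⟨m, h1, h2, h3, h4⟩
    obtain ⟨a, ha, hra⟩ := CL.Known.prime_dvd_multiset_lcm hr m (h4 ▸ dvd_mul_left r 2)
    obtain ⟨b, hb, hsb⟩ := CL.Known.prime_dvd_multiset_lcm Nat.prime_two m (h4 ▸ dvd_mul_right 2 r)
    have ha0 : 0 < a := by have := h2 a ha; omega
    rw [CL.Known.even_sum_add_card_iff] at h3
    have hb' : b ∈ m.filter Even := Multiset.mem_filter.2 ⟨hb, even_iff_two_dvd.2 hsb⟩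
    have hcard : 2 ≤ (m.filter Even).card := by
      have := Multiset.card_pos_iff_exists_mem.2 ⟨b, hb'⟩
      rw [Nat.even_iff] at h3
      omega
    have hsum : ∀ s : Multiset ℕ, (∀ x ∈ s, 2 ≤ x) → 2 * s.card ≤ s.sum := fun s hs => by
      have := Multiset.card_nsmul_le_sum hs
      simpa [mul_comm] using this
    have hm := Multiset.cons_erase ha
    have hs2 : m.sum = a + (m.erase a).sum := by
      conv_lhs => rw [← hm]
      rw [Multiset.sum_cons]
    have hs3 := hsum (m.erase a) fun x hx => h2 x (Multiset.mem_of_mem_erase hx)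
    have hfc := Multiset.card_le_card (Multiset.filter_le Even (m.erase a))
    by_cases hae : Even a
    · have h5 : r * 2 ≤ a := Nat.le_of_dvd ha0 (hc.mul_dvd_of_dvd_of_dvd hra (even_iff_two_dvd.1 hae))
      rw [← hm, Multiset.filter_cons_of_pos _ hae, Multiset.card_cons] at hcard
      omega
    · have h5 := Nat.le_of_dvd ha0 hra
      rw [← hm, Multiset.filter_cons_of_neg _ hae] at hcard
      omega
  · intro h
    refine ⟨{r, 2, 2}, by simpa using h, ?_, ?_, ?_⟩
    · intro a ha
      simp only [Multiset.insert_eq_cons, Multiset.mem_cons, Multiset.mem_singleton] at ha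
      rcases ha with rfl | rfl | rfl
      · exact hr.two_le
      · exact le_rfl
      · exact le_rfl
    · simp only [Multiset.insert_eq_cons, Multiset.sum_cons, Multiset.sum_singleton, Multiset.card_cons,
        Multiset.card_singleton, Nat.even_iff]
      omega
    · simp only [Multiset.insert_eq_cons, Multiset.lcm_cons, Multiset.lcm_singleton, normalize_eq]
      rw [show lcm 2 2 = 2 from rfl, mul_comm]
      exact hc.lcm_eq_mul

end Cfsg.Agent.S2467
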