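import Cfsg.Statements.S2475
import Cfsg.Agent.Cls.SL2Tori
import Cfsg.Agent.Cls.SL2Forms

set_option autoImplicit false
open Cfsg

namespace Cfsg.Agent.S2475

/-- The set of element orders of PSL(2,q): let F be a finite field of characteristic p with q ≥ 4 elements and d = gcd(2, q − 1). The orders of elements of PSL(2,F) are exactly the divisors of p, of (q − 1)/d and of (q + 1)/d. -/
theorem result {F : Type*} [Field F] [Fintype F] (p : ℕ) [Fact p.Prime] [CharP F p] (h4 : 4 ≤ Fintype.card F) :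
    Set.range (orderOf : Matrix.ProjectiveSpecialLinearGroup (Fin 2) F → ℕ) =
      {m : ℕ | m ∣ p ∨ m ∣ (Fintype.card F - 1) / Nat.gcd 2 (Fintype.card F - 1) ∨ m ∣ (Fintype.card F + 1) / Nat.gcd 2 (Fintype.card F - 1)} := by
  have hp' : p.Prime := Fact.out
  ext m
  constructor
  · rintro ⟨x, rfl⟩
    rcases CL.SL2.psl_orderOf_cases p x with h | h | h
    · exact Or.inr (Or.inr h)
    · exact Or.inr (Or.inl h)
    · exact Or.inl (h ▸ dvd_rfl)
  · have key : ∀ (x : Matrix.ProjectiveSpecialLinearGroup (Fin 2) F), m ∣ orderOf x →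
        m ∈ Set.range (orderOf : Matrix.ProjectiveSpecialLinearGroup (Fin 2) F → ℕ) :=
      fun x h => ⟨x ^ (orderOf x / m), orderOf_pow_orderOf_div (orderOf_pos x).ne' h⟩
    rintro (h | h | h)
    · refine key (CL.SL2.upT (1 : F) : Matrix.SpecialLinearGroup (Fin 2) F) ?_
      rwa [orderOf_eq_prime (p := p)]
      · rw [← QuotientGroup.mk_pow, CL.SL2.transvection_pow_char, QuotientGroup.mk_one]
      · rw [ne_eq, QuotientGroup.eq_one_iff, CL.GL2.mem_center_SL_iff, CL.SL2.coe_upT]
        exact fun h => by simpa using h.1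
    · obtain ⟨t, ht⟩ := CL.SL2.exists_sl_orderOf_sub_one (F := F)
      refine key t ?_
      rwa [CL.SL2.orderOf_psl_mk_eq_div (fun h => ht ▸ Nat.Odd.sub_odd h odd_one), ht]
    · obtain ⟨t, ht⟩ := CL.SL2.exists_sl_orderOf_add_one (F := F)
      refine key t ?_
      rwa [CL.SL2.orderOf_psl_mk_eq_div (fun h => ht ▸ h.add_one), ht]

end Cfsg.Agent.S2475
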