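import Cfsg.Statements.S2479
import Cfsg.Agent.Known.ClassNo4

set_option autoImplicit false
open Cfsg

namespace Cfsg.Agent.S2479

/-- The number of conjugacy classes of SL(n,q): for F a finite field with q elements, the number k of conjugacy classes of SL(n,F) satisfies q^(n−1) < k and k ≤ (5/2)·q^(n−1) for n ≥ 2, and k ≤ q^(n−1) + 3q^(n−2) for n ≥ 3. -/
theorem result {F : Type*} [Field F] [Fintype F] (n : ℕ) (hn : 2 ≤ n) :
    Fintype.card F ^ (n - 1) < Nat.card (ConjClasses (Matrix.SpecialLinearGroup (Fin n) F)) ∧ 2 * Nat.card (ConjClasses (Matrix.SpecialLinearGroup (Fin n) F)) ≤ 5 * Fintype.card F ^ (n - 1) ∧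
      (3 ≤ n → Nat.card (ConjClasses (Matrix.SpecialLinearGroup (Fin n) F)) ≤ Fintype.card F ^ (n - 1) + 3 * Fintype.card F ^ (n - 2)) := by
  obtain ⟨m, rfl⟩ := Nat.exists_eq_add_of_le' hn
  have h1 := CL.ClassNo.lt_card_classes_SL (F := F) m
  have h2 := CL.ClassNo.card_classes_SL_le (F := F) (n := m + 2) (by omega)
  rw [Nat.card_eq_fintype_card (α := F)] at h1 h2
  obtain ⟨N, hN⟩ := Nat.exists_eq_add_of_le' (Fintype.card_pos (α := F)).nat_succ_le
  have hN0 : N ≠ 0 := by have := Fintype.one_lt_card (α := F); omega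
  have hN1 : (0 : ℝ) < N := by positivity
  rw [hN] at h1 h2 ⊢
  simp only [Nat.succ_eq_add_one, zero_add, Nat.cast_add, Nat.cast_one, add_sub_cancel_right,
    Nat.add_sub_cancel] at h1 h2 ⊢
  refine ⟨h1, ?_, fun h3 => ?_⟩
  · have h3 := CL.ClassNo.two_mul_Sb_glw_le hN0 (m + 1)
    have h4 : (2 : ℝ) * Nat.card (ConjClasses (Matrix.SpecialLinearGroup (Fin (m + 2)) F)) ≤ 5 * (N + 1) ^ (m + 1) :=
      le_of_mul_le_mul_left (by linarith) hN1
    exact_mod_cast h4
  · obtain ⟨k, rfl⟩ := Nat.exists_eq_add_of_le' (show 1 ≤ m by omega)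
    have h4 := le_of_mul_le_mul_left (h2.trans (CL.ClassNo.Sb_glw_le hN0 k)) hN1
    exact_mod_cast h4

end Cfsg.Agent.S2479
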