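import Cfsg.Statements.S2481
import Cfsg.Agent.Known.ClassNo7

set_option autoImplicit false
open Cfsg

namespace Cfsg.Agent.S2481

/-- The number of conjugacy classes of SU(n,q): for n ≥ 2, q a prime power and F the field with q² elements, the number k of conjugacy classes of SU(n,q) (the determinant-one isometries of the standard Hermitian form on F^n) satisfies q^(n−1) ≤ k ≤ 8.26·q^(n−1). -/
theorem result {F : Type*} [Field F] [Fintype F] (n q : ℕ) (hn : 2 ≤ n) (hF : Fintype.card F = q ^ 2) :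
    q ^ (n - 1) ≤ Nat.card (ConjClasses (Cfsg.SU n F q)) ∧ 100 * Nat.card (ConjClasses (Cfsg.SU n F q)) ≤ 826 * q ^ (n - 1) := by
  have h := CL.Uni.isBar_bar hF
  obtain ⟨m, rfl⟩ := Nat.exists_eq_add_of_le' hn
  refine ⟨CL.ClassNo.le_card_classes_SU h (m + 1), ?_⟩
  have h1 := CL.ClassNo.card_classes_SU_le h (n := m + 2) (by omega)
  have h2 := CL.ClassNo.Sb_guw_le h.two_le m
  have h3 : (100 : ℝ) * Nat.card (ConjClasses (Cfsg.SU (m + 2) F q)) ≤ 826 * q ^ (m + 1) :=
    le_of_mul_le_mul_left (by linarith) (show (0 : ℝ) < q + 1 by positivity)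
  exact_mod_cast h3

end Cfsg.Agent.S2481
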