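import Cfsg.Statements.S2482
import Cfsg.Agent.Known.ClassNo10
import Cfsg.Agent.S2385

set_option autoImplicit false
open Cfsg

namespace Cfsg.Agent.S2482

/-- The number of conjugacy classes of Sp(2n,q), q odd: for F a finite field of odd order q and n ≥ 1, the number k of conjugacy classes of Sp(2n,F) satisfies q^n ≤ k ≤ 10.8·q^n. -/
theorem result {F : Type*} [Field F] [Fintype F] (hodd : Odd (Fintype.card F)) (n : ℕ) (hn : 1 ≤ n) :
    Fintype.card F ^ n ≤ Nat.card (ConjClasses (Matrix.symplecticGroup (Fin n) F)) ∧ 5 * Nat.card (ConjClasses (Matrix.symplecticGroup (Fin n) F)) ≤ 54 * Fintype.card F ^ n := by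
  obtain ⟨p, hp⟩ := CharP.exists F
  have : Fact p.Prime := ⟨CharP.char_is_prime F p⟩
  obtain ⟨n, rfl⟩ := Nat.exists_eq_add_of_le' hn
  refine ⟨(Cfsg.Agent.S2385.result rfl p _).ge.trans (Nat.card_le_card_of_injective _ Subtype.val_injective), ?_⟩
  have := CL.ClassNo.card_classes_sp_le (CL.Cls.two_ne_zero_of_odd_card hodd) n
  rw [Nat.card_eq_fintype_card (α := F)] at this
  rw [← Nat.cast_le (α := ℝ)]
  push_cast
  linarith

end Cfsg.Agent.S2482
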