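import Cfsg.Statements.S2483
import Cfsg.Agent.Cls.Lev7

set_option autoImplicit false
open Cfsg

namespace Cfsg.Agent.S2483

/-- The covering number of PSL(n,q) is n: let F be a finite field with q ≥ 4 elements and n ≥ 3. For every non-identity element x of PSL(n,F), every element of PSL(n,F) is a product of n conjugates of x; and for some non-identity x, some element is not a product of n − 1 conjugates of x. -/
theorem result {F : Type*} [Field F] [Fintype F] (h4 : 4 ≤ Fintype.card F) (n : ℕ) (hn : 3 ≤ n) :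
    (∀ x : Matrix.ProjectiveSpecialLinearGroup (Fin n) F, x ≠ 1 → ∀ g : Matrix.ProjectiveSpecialLinearGroup (Fin n) F, ∃ f : Fin n → Matrix.ProjectiveSpecialLinearGroup (Fin n) F, g = (List.ofFn fun i => f i * x * (f i)⁻¹).prod) ∧
    (∃ x : Matrix.ProjectiveSpecialLinearGroup (Fin n) F, x ≠ 1 ∧ ∃ g : Matrix.ProjectiveSpecialLinearGroup (Fin n) F, ∀ f : Fin (n - 1) → Matrix.ProjectiveSpecialLinearGroup (Fin n) F, g ≠ (List.ofFn fun i => f i * x * (f i)⁻¹).prod) := by
  have h4' : ∀ a b c : F, ∃ x, x ≠ a ∧ x ≠ b ∧ x ≠ c := fun a b c ↦ by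
    classical
    by_contra h
    push Not at h
    have : (Finset.univ : Finset F) ⊆ {a, b, c} := fun x _ ↦ by
      by_cases h1 : x = a
      · simp [h1]
      by_cases h2 : x = b
      · simp [h2]
      simp [h x h1 h2]
    have := (Finset.card_le_card this).trans Finset.card_le_three
    rw [Finset.card_univ] at this
    omega
  have hd : Module.finrank F (Fin n → F) = n := by simp
  have hn' : 3 ≤ Module.finrank F (Fin n → F) := by omega
  have hq : ∀ {k : ℕ} (x : Matrix.SpecialLinearGroup (Fin n) F)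
      (f : Fin k → Matrix.SpecialLinearGroup (Fin n) F),
      (((List.ofFn fun i ↦ f i * x * (f i)⁻¹).prod : Matrix.SpecialLinearGroup (Fin n) F) :
        Matrix.ProjectiveSpecialLinearGroup (Fin n) F) =
      (List.ofFn fun i ↦ (f i : Matrix.ProjectiveSpecialLinearGroup (Fin n) F) * x *
        (f i : Matrix.ProjectiveSpecialLinearGroup (Fin n) F)⁻¹).prod := fun x f ↦ by
    rw [← QuotientGroup.mk'_apply, map_list_prod, List.map_ofFn]
    rfl
  constructor
  · intro x hx g
    obtain ⟨x, rfl⟩ := QuotientGroup.mk_surjective x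
    obtain ⟨g, rfl⟩ := QuotientGroup.mk_surjective g
    have hx' : CL.Lev.NC (CL.Lev.tau n F x) := by
      by_contra h
      exact hx ((QuotientGroup.eq_one_iff x).2 ((CL.Lev.center_iff x).2 h))
    obtain ⟨c1, c2⟩ := CL.Lev.concl h4' hn' hx'
    rw [hd] at c1 c2
    by_cases hg : CL.Lev.NC (CL.Lev.tau n F g)
    · obtain ⟨f, hf⟩ := (CL.Lev.mem_tau_iff x _).1 (c1 _ hg (by simp [CL.Lev.dt_tau]))
      exact ⟨fun i ↦ f i, by rw [← hq, ← CL.Lev.tau_inj hf]⟩
    · obtain ⟨M, hM, z, hz⟩ := c2 (CL.Lev.dt_tau x)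
      obtain ⟨f, rfl⟩ := (CL.Lev.mem_tau_iff x _).1 hM
      refine ⟨fun i ↦ f i, ?_⟩
      rw [← hq, (QuotientGroup.eq_one_iff g).2 ((CL.Lev.center_iff g).2 hg),
        (QuotientGroup.eq_one_iff _).2 ((CL.Lev.center_iff _).2 fun h ↦ h z hz)]
  · classical
    let i0 : Fin n := ⟨0, by omega⟩
    let i1 : Fin n := ⟨1, by omega⟩
    have h01 : i0 ≠ i1 := by simp [i0, i1]
    let φ : Module.Dual F (Fin n → F) := LinearMap.proj i0
    have hφ : φ (Pi.single i1 1) = 0 := by simp [φ, h01]
    obtain ⟨x, hx⟩ := CL.Lev.tau_surj (g := CL.Lev.tvu φ (Pi.single i1 1) (by simp [hφ]))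
      (by simp [hφ])
    obtain ⟨a, ha⟩ : ∃ a : F, ∀ r : F, r ^ n + (a * r + (-1) ^ n) ≠ 0 := by
      by_contra h
      push Not at h
      choose f hf using h
      have h0 : ∀ a, f a ≠ 0 := fun a e ↦ by simpa [e, show n ≠ 0 by omega] using hf a
      have hinj : Function.Injective f := fun s t e ↦ mul_right_cancel₀ (h0 t) (by
        have := hf s
        rw [e] at this
        linear_combination this - hf t)
      obtain ⟨σ, hσ⟩ := Finite.surjective_of_injective hinj 0
      exact h0 σ hσ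
    set P : Polynomial F := Polynomial.X ^ n + (Polynomial.C a * Polynomial.X +
      Polynomial.C ((-1) ^ n)) with hP
    have hlt : (Polynomial.C a * Polynomial.X + Polynomial.C ((-1 : F) ^ n)).degree <
        ((n : ℕ) : WithBot ℕ) := lt_of_le_of_lt Polynomial.degree_linear_le (by norm_cast; omega)
    have hm : P.Monic := Polynomial.monic_X_pow_add hlt
    have hdeg : P.natDegree = n := by
      rw [hP, Polynomial.natDegree_add_eq_left_of_degree_lt (by rwa [Polynomial.degree_X_pow]),
        Polynomial.natDegree_X_pow]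
    have hp0 : P.coeff 0 = (-1) ^ n := by
      rw [Polynomial.coeff_zero_eq_eval_zero]; simp [hP, show n ≠ 0 by omega]
    obtain ⟨T, ⟨v, hv⟩, hT⟩ := CL.Lev.exists_model (V := Fin n → F) hm (hdeg.trans hd.symm)
      (by simp [hp0])
    obtain ⟨g, rfl⟩ := CL.Lev.tau_surj (g := T) (by
      rw [CL.Lev.dt, CL.Lev.det_cyc hv hm (hdeg.trans hd.symm) hT, hdeg, hp0, ← mul_pow]; simp)
    refine ⟨x, fun h ↦ (CL.Lev.center_iff x).1 ((QuotientGroup.eq_one_iff x).1 h) fun c hc ↦ ?_,
      g, fun f hf ↦ ?_⟩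
    · have := congrFun (LinearMap.congr_fun hc (Pi.single i0 1)) i1
      rw [hx] at this
      simp [φ, h01.symm] at this
    · choose f' hf' using fun i ↦ QuotientGroup.mk_surjective (f i)
      obtain rfl : f = fun i ↦ (f' i : Matrix.ProjectiveSpecialLinearGroup (Fin n) F) :=
        funext fun i ↦ (hf' i).symm
      rw [← hq, eq_comm, QuotientGroup.eq, CL.Lev.center_iff] at hf
      obtain ⟨U, h1, h2⟩ := CL.Lev.fix_of_mem (A := CL.Lev.tau n F x) (φ := φ) (u := Pi.single i1 1)
        (fun z ↦ by rw [hx]; rfl) (n - 1) _ ((CL.Lev.mem_tau_iff x _).2 ⟨f', rfl⟩)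
      obtain ⟨⟨y, hy⟩, hy'⟩ := (Module.finrank_pos_iff_exists_ne_zero (R := F) (M := U)).1 (by omega)
      refine hf fun c hc ↦ ?_
      have h3 := congrArg (CL.Lev.tau n F (List.ofFn fun i ↦ f' i * x * (f' i)⁻¹).prod).val
        (LinearMap.congr_fun hc y)
      rw [map_mul, map_inv, CL.Lev.mul_app, CL.Lev.app_inv, LinearMap.smul_apply,
        Module.End.one_apply, map_smul, h2 y hy] at h3
      have h5 := CL.SLn.aeval_eigen h3 P
      rw [hT, LinearMap.zero_apply, eq_comm, smul_eq_zero] at h5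
      rcases h5 with h5 | h5
      · exact ha c (by simpa [hP] using h5)
      · exact hy' (Subtype.ext h5)

end Cfsg.Agent.S2483
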