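import Cfsg.Statements.S2485
import Cfsg.Agent.Cls.SL2Class2


set_option autoImplicit false
open scoped Pointwise
open Cfsg

namespace Cfsg.Agent.S2485

open Matrix Subgroup CL.GL2 CL.SL2 in
theorem exists_mem {F : Type*} [Field F] [Fintype F] (h2 : (2 : F) ≠ 0) {g g' : GL (Fin 2) F}
    (hg : IsEll g.val) (hg' : IsEll g'.val) : ∃ z : ProjGenLinGroup (Fin 2) F, z ≠ 1 ∧
      z ∈ normalizer (zpowers (ProjGenLinGroup.mk g) : Set (ProjGenLinGroup (Fin 2) F)) ∧
      z ∈ normalizer (zpowers (ProjGenLinGroup.mk g') : Set (ProjGenLinGroup (Fin 2) F)) := by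
  by_cases hc : g.val * g'.val = g'.val * g.val
  · refine ⟨.mk g, fun h => hg.not_isScal (pgl_mk_eq_one_iff_isScal.1 h),
      le_normalizer (mem_zpowers _), ?_⟩
    rw [mem_normalizer_iff_map_conj_eq, MonoidHom.map_zpowers]
    refine congrArg zpowers ((MulAut.conj_apply _ _).trans (mul_inv_eq_iff_eq_mul.2 ?_))
    rw [← map_mul, ← map_mul, show g * g' = g' * g from ext_GL hc]
  have key : ∀ a b : M2 F, (a * b - b * a) * a = a.adjugate * (a * b - b * a) := fun a b => by
    rw [adjugate_eq]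
    simp only [sub_mul, mul_sub, mul_assoc, smul_mul_assoc, one_mul]
    rw [← mul_assoc a a, mul_self_eq a]
    simp only [sub_mul, mul_sub, smul_mul_assoc, mul_smul_comm, one_mul, mul_one]
    module
  have h1 := key g.val g'.val
  have h3 : (g.val * g'.val - g'.val * g.val) * g'.val =
      g'.val.adjugate * (g.val * g'.val - g'.val * g.val) := by
    rw [← neg_sub, neg_mul, key, mul_neg]
  have hd : (g.val * g'.val - g'.val * g.val).det ≠ 0 := fun h => by
    obtain ⟨w, hw⟩ := exists_sl_adjugate hg.not_isScal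
      ((Ell.disc_ne_zero_or ⟨g.val, hg⟩).resolve_right h2)
    have hw' : (w⁻¹).val * w.val = 1 := congrArg Subtype.val (inv_mul_cancel w)
    have hw'' : w.val * (w⁻¹).val = 1 := congrArg Subtype.val (mul_inv_cancel w)
    obtain ⟨x, y, h4⟩ := (commute_iff hg.not_isScal
      ((w⁻¹).val * (g.val * g'.val - g'.val * g.val))).1 (by
        rw [mul_assoc, h1, ← mul_assoc, ← mul_assoc, ← mul_one g.val.adjugate, ← hw'',
          ← mul_assoc g.val.adjugate, ← hw, ← mul_assoc, ← mul_assoc, hw', one_mul])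
    have h5 := det_smul_one_add_smul g.val x y
    rw [← h4, det_mul, h, mul_zero] at h5
    have h6 : y = 0 := by_contra fun hy => isEll_iff.1 hg (-x / y) (by
      field_simp; linear_combination -h5)
    have h7 : x = 0 := by simpa [h6] using h5.symm
    rw [h6, h7, zero_smul, zero_smul, add_zero] at h4
    refine hc (sub_eq_zero.1 ?_)
    rw [← one_mul (_ - _), ← hw'', mul_assoc, h4, mul_zero]
  have key2 : ∀ a : GL (Fin 2) F, (mkGL _ hd).val * a.val = a.val.adjugate * (mkGL _ hd).val →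
      ProjGenLinGroup.mk (mkGL _ hd) ∈
        normalizer (zpowers (ProjGenLinGroup.mk a) : Set (ProjGenLinGroup (Fin 2) F)) := fun a h => by
    rw [mem_normalizer_iff_map_conj_eq, MonoidHom.map_zpowers]
    exact (congrArg zpowers (mk_conj_of_adjugate h)).trans zpowers_inv
  refine ⟨_, fun h => hd ?_, key2 g h1, key2 g' h3⟩
  have h4 := pgl_mk_eq_one_iff_isScal.1 h
  rw [coe_mkGL] at h4
  have h5 := h4.trace
  rw [trace_eq_zero_of_adjugate hg.not_isScal h1, ← two_mul, eq_comm, mul_eq_zero] at h5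
  rw [h4.det, h5.resolve_left h2, zero_mul]

/-- Let q = 2^k − 1 ≥ 7 be a prime and let G = PGL(2,q), the general linear group of degree 2 over the field with q elements modulo its centre. Then any two Sylow 2-subgroups of G have a non-trivial intersection: for a Sylow 2-subgroup H and every x ∈ G, H ∩ H^x ≠ 1. -/
theorem result {q k : ℕ} [Fact q.Prime] (hk : q + 1 = 2 ^ k) (hq : 7 ≤ q)
    (H : Sylow 2 (GL (Fin 2) (ZMod q) ⧸ Subgroup.center (GL (Fin 2) (ZMod q))))
    (x : GL (Fin 2) (ZMod q) ⧸ Subgroup.center (GL (Fin 2) (ZMod q))) :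
    (H : Subgroup (GL (Fin 2) (ZMod q) ⧸ Subgroup.center (GL (Fin 2) (ZMod q)))) ⊓ MulAut.conj x • (H : Subgroup _) ≠ ⊥ := by
  have hp : q.Prime := Fact.out
  have hc : Fintype.card (ZMod q) = q := ZMod.card q
  have hk3 : 3 ≤ k := by
    by_contra h
    interval_cases k <;> omega
  have h2 : (2 : ZMod q) ≠ 0 := CL.GL2.two_ne_zero_of_odd (hc.symm ▸ hp.odd_of_ne_two (by omega))
  have key : ∀ g : GL (Fin 2) (ZMod q), orderOf (Matrix.ProjGenLinGroup.mk g) = q + 1 →
      CL.GL2.IsEll g.val ∧ Nat.card (Subgroup.normalizer (Subgroup.zpowers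
        (Matrix.ProjGenLinGroup.mk g) : Set (Matrix.ProjGenLinGroup (Fin 2) (ZMod q)))) =
          2 ^ (k + 1) := fun g hg => by
    obtain ⟨n, h1, ⟨h3, h4⟩ | ⟨-, h4⟩, ⟨e⟩⟩ := CL.SL2.normalizer_pgl_mk q (g := g) fun h => by
      have := Nat.le_of_dvd hp.pos (hg ▸ orderOf_dvd_of_pow_eq_one h)
      omega
    · exact ⟨h3, by rw [Nat.card_congr e.toEquiv, DihedralGroup.nat_card, h4, hc, hk, pow_succ']⟩
    · rw [hg, h4, hc] at h1
      have := Nat.le_of_dvd (by omega) h1
      omega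
  have hS : ∀ P : Sylow 2 (Matrix.ProjGenLinGroup (Fin 2) (ZMod q)), ∃ g : GL (Fin 2) (ZMod q),
      CL.GL2.IsEll g.val ∧ (P : Subgroup _) = Subgroup.normalizer
        (Subgroup.zpowers (Matrix.ProjGenLinGroup.mk g) :
          Set (Matrix.ProjGenLinGroup (Fin 2) (ZMod q))) := fun P => by
    obtain ⟨t, ht⟩ := CL.SL2.exists_pgl_orderOf_add_one (F := ZMod q)
    rw [hc] at ht
    obtain ⟨g, rfl⟩ := Matrix.ProjGenLinGroup.mk_surjective t
    have h3 := (key g ht).2
    have h4 := Subgroup.card_mul_index (Subgroup.normalizer (Subgroup.zpowers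
      (Matrix.ProjGenLinGroup.mk g) : Set (Matrix.ProjGenLinGroup (Fin 2) (ZMod q))))
    obtain ⟨m, hm⟩ : ∃ m, q = 4 * m + 3 := by
      obtain ⟨j, rfl⟩ := Nat.exists_eq_add_of_le hk3
      exact ⟨2 * 2 ^ j - 1, by rw [pow_add] at hk; omega⟩
    rw [h3, CL.SL2.card_pgl, hc, pow_succ, ← hk, Nat.sq_sub_sq _ 1,
      show q * ((q + 1) * (q - 1)) = (q + 1) * 2 * (q * (2 * m + 1)) by
        rw [show q - 1 = 2 * (2 * m + 1) by omega]; ring] at h4
    have h5 := Nat.eq_of_mul_eq_mul_left (by omega) h4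
    obtain ⟨c, hc'⟩ := MulAction.exists_smul_eq (Matrix.ProjGenLinGroup (Fin 2) (ZMod q))
      ((IsPGroup.of_card h3).toSylow (by
        rw [h5]; exact ((hp.odd_of_ne_two (by omega)).mul (odd_two_mul_add_one m)).not_two_dvd_nat)) P
    obtain ⟨c, rfl⟩ := Matrix.ProjGenLinGroup.mk_surjective c
    have h6 : orderOf (Matrix.ProjGenLinGroup.mk (c * g * c⁻¹)) = q + 1 := by
      rw [map_mul, map_mul, map_inv, ← ht]
      exact (MulAut.conj (Matrix.ProjGenLinGroup.mk c)).orderOf_eq (Matrix.ProjGenLinGroup.mk g)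
    refine ⟨c * g * c⁻¹, (key _ h6).1, ?_⟩
    rw [← hc', Sylow.coe_subgroup_smul, IsPGroup.toSylow_coe, map_mul, map_mul, map_inv]
    exact (Subgroup.map_equiv_normalizer_eq _ (MulAut.conj _)).trans (by
      rw [MonoidHom.map_zpowers]; rfl)
  obtain ⟨g, hg, h3⟩ := hS H
  obtain ⟨g', hg', h4⟩ := hS (x • H)
  obtain ⟨z, hz, h5, h6⟩ := exists_mem h2 hg hg'
  exact (Subgroup.ne_bot_iff_exists_ne_one).2 ⟨⟨z, h3.ge h5, h4.ge h6⟩,
    fun h => hz (congrArg Subtype.val h)⟩

end Cfsg.Agent.S2485
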