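import Cfsg.Statements.S2487
import Cfsg.Agent.Loc.SylMeet

set_option autoImplicit false
open scoped Pointwise
open Cfsg

namespace Cfsg.Agent.S2487

/-- Let m ≥ 4 and let G be the full isometry group of the hyperbolic quadratic form x₁y₁ + ⋯ + x_m y_m on the 2m-dimensional space over the field with 2 elements (the orthogonal group O⁺(2m,2), which contains Ω⁺(2m,2) with index 2). Then any two Sylow 2-subgroups of G have a non-trivial intersection: for a Sylow 2-subgroup H and every x ∈ G, H ∩ H^x ≠ 1. -/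
theorem result {F : Type*} [Field F] [Fintype F] (hF : Fintype.card F = 2) {m : ℕ} (hm : 4 ≤ m)
    (H : Sylow 2 (Cfsg.isometryGroup F (Cfsg.quadFormPlus m F)))
    (x : Cfsg.isometryGroup F (Cfsg.quadFormPlus m F)) :
    (H : Subgroup (Cfsg.isometryGroup F (Cfsg.quadFormPlus m F))) ⊓ MulAut.conj x • (H : Subgroup _) ≠ ⊥ := by
  haveI : CharP F 2 := by
    obtain ⟨p, hp⟩ := CharP.exists F
    obtain ⟨k, hp', hk⟩ := FiniteField.card F p
    have : p = 2 := (Nat.prime_dvd_prime_iff_eq hp' Nat.prime_two).1 (by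
      rw [← hF, hk]; exact dvd_pow_self p k.ne_zero)
    exact this ▸ hp
  revert H x
  rw [← CL.Cls.coe_qfPlus]
  obtain ⟨_, A, -, -, h2, -⟩ := CL.Chev.exists_anti (F := F) (CL.Chev.GLB.htSum_injective m)
    (τ := Equiv.sumComm _ _) CL.Chev.GLB.htSum_swap (c := .inl ⟨0, by omega⟩) rfl CL.Chev.GLB.htSum_ne_zero
    (Q := CL.Cls.qfPlus m F) fun v => by
      rw [Finset.sum_filter, Fintype.sum_sum_type, CL.Cls.qfPlus_apply]
      simp [CL.Chev.htSum_inl_neg, CL.Chev.htSum_inr_not_neg]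
  rw [← h2]
  intro H x
  refine CL.Loc.sylow_meet_of_preLie (Subgroup.inclusion CL.Chev.GLB.Anti.K_le)
    (Subgroup.inclusion_injective _) ?_ (CL.Chev.GLB.Anti.preLie_bn 2) ?_ H x
  · rw [Subgroup.inclusion_range]
    exact CL.Chev.GLB.Anti.index_comap_K (f := (A.orth F).subtype) (fun g => g.2)
      ⟨⟨_, CL.Chev.GLB.Anti.t_mem_orth⟩, rfl⟩
  · exact ((CL.Loc.isPGroup_par_two hF).to_le (H := A.B F) fun _ h => h.1).comap_subtype

end Cfsg.Agent.S2487
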