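import Cfsg.Statements.S2490
import Cfsg.Agent.Even.Amb2
import Cfsg.Agent.Grp.Primitive
import Cfsg.Agent.Grp.Supersolv3
import Cfsg.Agent.Grp.Coprime
import Cfsg.Agent.Cit.CentBase
import Cfsg.Agent.Inv.ZStar

set_option autoImplicit false
open Cfsg

namespace Cfsg.Agent.S2490

open Subgroup CL.Even CL.Grp

section Aux

variable {G : Type*} [Group G] [Finite G]

theorem dvd_cent {A K : Subgroup G} {p q : ℕ} (hp : p.Prime) (hq : q.Prime) (hA : Nat.card A = p) (hn : A ≤ 𝒩(K))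
    (hK : ¬ p ∣ Nat.card K) (hd : q ∣ Nat.card K) (h : ∀ k, q ^ (k + 1) ∣ Nat.card G → q ^ (k + 1) % p ≠ 1) :
    q ∣ Nat.card 𝒞(A) := by
  have := Fact.mk hp
  have := Fact.mk hq
  have := isCyclic_of_prime_card hA
  obtain ⟨S, hS, h1⟩ := exists_isSylowIn_le_normalizer q hn (hA ▸ (Nat.Prime.coprime_iff_not_dvd hp).2 hK)
    (.inl inferInstance)
  obtain ⟨k, hk⟩ := hS.isPGroup.exists_card_eq
  obtain ⟨j, hj⟩ := (hS.isPGroup.to_inf_left (K := 𝒞(A))).exists_card_eq
  have h2 := card_modEq_card_inf_centralizer (IsPGroup.of_card (hA.trans (pow_one p).symm)) h1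
  rcases j with _ | j
  · exfalso
    rcases k with _ | k
    · have h3 := card_mul_relIndex hS.le
      rw [hk, pow_zero, one_mul] at h3
      exact hS.not_dvd (h3 ▸ hd)
    · rw [hj, hk, pow_zero] at h2
      exact h k (hk ▸ card_subgroup_dvd_card S) (Eq.trans h2 (Nat.mod_eq_of_lt hp.one_lt))
  · exact ((dvd_pow_self q j.succ_ne_zero).trans hj.symm.dvd).trans (card_dvd_of_le inf_le_right)

theorem adj_of {A : Subgroup G} {p q : ℕ} (hp : p.Prime) (hq : q.Prime) (hpq : p ≠ q) (h1 : p ∣ Nat.card A)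
    (h2 : q ∣ Nat.card 𝒞(A)) : ∃ g : G, orderOf g = p * q := by
  have := Fact.mk hp
  have := Fact.mk hq
  obtain ⟨x, hx⟩ := exists_prime_orderOf_dvd_card' (G := A) p h1
  obtain ⟨y, hy⟩ := exists_prime_orderOf_dvd_card' (G := 𝒞(A)) q h2
  rw [← orderOf_coe] at hx hy
  exact ⟨x * y, by
    rw [(show Commute (x : G) y from comm_of_mem y.2 x.2).orderOf_mul_eq_mul_orderOf_of_coprime
      (by rw [hx, hy]; exact (Nat.coprime_primes hp hq).2 hpq), hx, hy]⟩

theorem prime_cases {q : ℕ} (hq : q.Prime) (h : q ∣ 7920) : q = 2 ∨ q = 3 ∨ q = 5 ∨ q = 11 := by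
  have h1 : q ∈ Nat.primeFactors 7920 := Nat.mem_primeFactors.2 ⟨hq, h, by norm_num⟩
  rw [show Nat.primeFactors 7920 = {2, 3, 5, 11} by simp [Nat.primeFactors]] at h1
  simpa using h1

theorem pow_mod {q p : ℕ} (h : q = 2 ∧ p = 11 ∨ q = 3 ∧ p = 11 ∨ q = 5 ∧ p = 11 ∨ q = 3 ∧ p = 5) (k : ℕ)
    (hk : q ^ (k + 1) ∣ 7920) : q ^ (k + 1) % p ≠ 1 := by
  have h1 : ∀ j, q ^ j ∣ 7920 → ∀ i, ¬ q ^ i ∣ 7920 → j < i := fun j hj i hi =>
    lt_of_not_ge fun e => hi ((pow_dvd_pow q e).trans hj)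
  rcases h with ⟨rfl, rfl⟩ | ⟨rfl, rfl⟩ | ⟨rfl, rfl⟩ | ⟨rfl, rfl⟩
  · have := h1 _ hk 5 (by norm_num)
    have : k < 4 := by omega
    interval_cases k <;> norm_num
  · have := h1 _ hk 3 (by norm_num)
    have : k < 2 := by omega
    interval_cases k <;> norm_num
  · have := h1 _ hk 2 (by norm_num)
    have : k < 1 := by omega
    interval_cases k
    norm_num
  · have := h1 _ hk 3 (by norm_num)
    have : k < 2 := by omega
    interval_cases k <;> norm_num

instance : Fact (Nat.Prime 11) := ⟨by norm_num⟩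

variable (hord : Nat.card G = 7920) (P : Sylow 11 G)
include hord

theorem cardP : Nat.card P = 11 := by
  rw [P.card_eq_multiplicity, hord, show 7920 = 11 * 720 from rfl, Nat.factorization_mul (by norm_num) (by norm_num)]
  simp [Nat.Prime.factorization_self (show Nat.Prime 11 by norm_num),
    Nat.factorization_eq_zero_of_not_dvd (show ¬ 11 ∣ 720 by norm_num)]

theorem dvd_C {K : Subgroup G} (hn : (P : Subgroup G) ≤ 𝒩(K)) (hK : ¬ 11 ∣ Nat.card K) {q : ℕ} (hq : q.Prime)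
    (hd : q ∣ Nat.card K) : q ∣ Nat.card 𝒞((P : Subgroup G)) := by
  refine dvd_cent (by norm_num) hq (cardP hord P) hn hK hd fun k hk => pow_mod ?_ k (hord ▸ hk)
  rcases prime_cases hq (hord ▸ hd.trans (card_subgroup_dvd_card K)) with rfl | rfl | rfl | rfl
  exacts [.inl ⟨rfl, rfl⟩, .inr (.inl ⟨rfl, rfl⟩), .inr (.inr (.inl ⟨rfl, rfl⟩)), (hK hd).elim]

theorem le_of_dvd {K : Subgroup G} (hn : (P : Subgroup G) ≤ 𝒩(K)) (hK : 11 ∣ Nat.card K) : (P : Subgroup G) ≤ K := by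
  obtain ⟨S, hS, h1⟩ := exists_isSylowIn_ge P.2 (le_sup_left : (P : Subgroup G) ≤ (P : Subgroup G) ⊔ K)
  have h2 := hS.inf_of_normalized le_sup_right (sup_le hn le_normalizer)
  rw [P.3 hS.isPGroup h1] at h2
  have h3 : Nat.card ((P : Subgroup G) ⊓ K : Subgroup G) ∣ 11 := (card_dvd_of_le inf_le_left).trans (cardP hord P).dvd
  rcases (Nat.dvd_prime (by norm_num)).1 h3 with h4 | h4
  · have h5 := card_mul_relIndex h2.le
    rw [h4, one_mul] at h5
    exact (h2.not_dvd (h5 ▸ hK)).elim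
  · exact inf_eq_left.1 (eq_of_le_of_card_ge inf_le_left (by rw [h4, cardP hord P]))

theorem dvd_C' {K : Subgroup G} [K.Normal]
    (hc : (𝒞((P : Subgroup G)).relIndex 𝒩((P : Subgroup G))).Coprime
      (Nat.card (K ⊓ 𝒩((P : Subgroup G)) : Subgroup G))) {q : ℕ} (hq : q.Prime) (h11 : q ≠ 11)
    (hd : q ∣ Nat.card K) : q ∣ Nat.card 𝒞((P : Subgroup G)) := by
  by_cases hK : 11 ∣ Nat.card K
  swap
  · exact dvd_C hord P le_normalizer_of_normal hK hq hd
  have hP := le_of_dvd hord P le_normalizer_of_normal hK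
  have h1 : K ⊓ 𝒩((P : Subgroup G)) ≤ 𝒞((P : Subgroup G)) := by
    refine relIndex_eq_one.1 (Nat.eq_one_of_dvd_coprimes hc ?_ (relIndex_dvd_card _ _))
    have := normal_subgroupOf_of_le_normalizer' (norm_le_norm_cent (P : Subgroup G))
    rw [← relIndex_subgroupOf (inf_le_right : K ⊓ 𝒩((P : Subgroup G)) ≤ _)]
    exact relIndex_dvd_index_of_normal _ _
  have h2 := hasNormalPComplement_iff_not_dvd_pResidual.1
    (CL.Cit.npc_of_burnside (isSylowIn_of_le P hP) fun g h3 h4 => h1 ⟨h3, h4⟩)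
  refine dvd_C hord P (hP.trans (self_le_norm_res (p := 11) K)) (by rwa [← res_def, card_map_subtype]) hq ?_
  have := Fact.mk hq
  obtain ⟨x, hx⟩ := exists_prime_orderOf_dvd_card' (G := K) q hd
  rw [← orderOf_coe] at hx
  exact hx ▸ orderOf_dvd_natCard _ (mem_res x.2 (hx ▸ (Nat.coprime_primes hq (by norm_num)).2 h11))

/-- a normal subgroup whose order has no prime divisor other than 11 -/
theorem eq_bot_of {K : Subgroup G} [K.Normal] (hn : 𝒩((P : Subgroup G)) ≠ ⊤)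
    (h : ∀ q : ℕ, q.Prime → q ∣ Nat.card K → q = 11) : K = ⊥ := by
  by_contra h0
  obtain ⟨q, hq, hd⟩ := Nat.exists_prime_and_dvd (mt card_eq_one.1 h0)
  obtain rfl := h q hq hd
  have h1 : IsPGroup 11 K := IsPGroup.of_card (Nat.eq_prime_pow_of_unique_prime_dvd Nat.card_pos.ne' (h _))
  rw [← P.3 h1 (le_of_dvd hord P le_normalizer_of_normal hd)] at hn
  exact hn (normalizer_eq_top K)

theorem simple_of (hN : Nat.card 𝒩((P : Subgroup G)) = 55) (hC : Nat.card 𝒞((P : Subgroup G)) = 11) :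
    IsSimpleGroup G := by
  have hn : 𝒩((P : Subgroup G)) ≠ ⊤ := fun e => by rw [e, card_top, hord] at hN; omega
  have hd : 𝒞((P : Subgroup G)).relIndex 𝒩((P : Subgroup G)) = 5 := by
    have := card_mul_relIndex (cent_le_norm (P : Subgroup G))
    rw [hN, hC] at this
    omega
  have : Nontrivial G := Finite.one_lt_card_iff_nontrivial.1 (by rw [hord]; norm_num)
  refine ⟨fun K _ => ?_⟩
  by_cases h5 : 5 ∣ Nat.card (K ⊓ 𝒩((P : Subgroup G)) : Subgroup G)
  · right
    have h11 : 11 ∣ Nat.card K := by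
      by_contra h11
      have := dvd_C hord P le_normalizer_of_normal h11 (by norm_num) (h5.trans (card_dvd_of_le inf_le_left))
      rw [hC] at this
      omega
    have hP := le_of_dvd hord P le_normalizer_of_normal h11
    have h1 : K ⊓ 𝒩((P : Subgroup G)) = 𝒩((P : Subgroup G)) := eq_of_le_of_card_ge inf_le_right (by
      rw [hN]
      exact Nat.le_of_dvd Nat.card_pos (Nat.Coprime.mul_dvd_of_dvd_of_dvd (m := 5) (n := 11) (by norm_num) h5
        ((cardP hord P).symm.dvd.trans (card_dvd_of_le (le_inf hP le_normalizer)))))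
    have h2 := CL.Even.frattini_sup (isSylowIn_of_le P hP) le_top le_normalizer_of_normal
    rwa [top_inf_eq, sup_eq_right.2 (h1.ge.trans inf_le_left)] at h2
  · refine .inl (eq_bot_of hord P hn fun q hq hd' => ?_)
    by_contra h11
    have := dvd_C' hord P (K := K) (hd ▸ (Nat.Prime.coprime_iff_not_dvd (by norm_num)).2 h5) hq h11 hd'
    rw [hC] at this
    exact h11 ((Nat.prime_dvd_prime_iff_eq hq (by norm_num)).1 this)

theorem eq_of_le_norm {Q : Sylow 11 G} (h : (P : Subgroup G) ≤ 𝒩((Q : Subgroup G))) : (P : Subgroup G) = Q :=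
  eq_of_le_of_card_ge (le_of_dvd hord P h (cardP hord Q).symm.dvd) (by rw [cardP hord P, cardP hord Q])

theorem case45 (hN : Nat.card 𝒩((P : Subgroup G)) = 176) (hC : Nat.card 𝒞((P : Subgroup G)) = 88) :
    ∃ z : G, orderOf z = 2 ∧ 𝒞(zpowers z) = ⊤ := by
  have := Fact.mk Nat.prime_two
  have c11 := cardP hord P
  have hn : 𝒩((P : Subgroup G)) ≠ ⊤ := fun e => by rw [e, card_top, hord] at hN; omega
  have hd : 𝒞((P : Subgroup G)).relIndex 𝒩((P : Subgroup G)) = 2 := by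
    have := card_mul_relIndex (cent_le_norm (P : Subgroup G))
    rw [hN, hC] at this
    omega
  obtain ⟨S, hS⟩ := exists_isSylowIn 2 𝒩((P : Subgroup G))
  have hR := hS.inf_of_normalized (cent_le_norm _) (norm_le_norm_cent _)
  have h0 : S ⊓ 𝒞((P : Subgroup G)) ≠ ⊥ := fun e => hR.not_dvd (by rw [e, relIndex_bot_left, hC]; norm_num)
  have h1 := inf_cent_ne_bot hR.isPGroup hS.isPGroup
    (le_norm_inf le_normalizer (hS.le.trans (norm_le_norm_cent _))) h0
  obtain ⟨z, hz⟩ := exists_prime_orderOf_dvd_card' (G := (S ⊓ 𝒞((P : Subgroup G)) ⊓ 𝒞(S) : Subgroup G)) 2 (by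
    obtain ⟨k, hk, e⟩ := (hR.isPGroup.to_inf_left (K := 𝒞(S))).nontrivial_iff_card.1 ((nontrivial_iff_ne_bot _).2 h1)
    exact e ▸ dvd_pow_self 2 hk.ne')
  rw [← orderOf_coe] at hz
  obtain ⟨z, ⟨zS', zP⟩, zS⟩ := z
  change orderOf z = 2 at hz
  refine ⟨z, hz, ?_⟩
  have z2 : z * z = 1 := by rw [← pow_two, ← hz, pow_orderOf_eq_one]
  have l1 : S ≤ 𝒞(zpowers z) := le_centralizer_iff.1 (zpowers_le.2 zS)
  have l2 : (P : Subgroup G) ≤ 𝒞(zpowers z) := le_centralizer_iff.1 (zpowers_le.2 zP)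
  have l3 : 𝒩((P : Subgroup G)) ≤ 𝒞(zpowers z) := by
    refine inf_eq_left.1 (eq_of_le_of_card_ge inf_le_left ?_)
    have c16 : Nat.card S = 16 := by
      rw [hS.card_eq_pow, hN, show 176 = 2 ^ 4 * 11 from rfl, Nat.factorization_mul (by norm_num) (by norm_num),
        Nat.Prime.factorization_pow Nat.prime_two]
      simp [Nat.factorization_eq_zero_of_not_dvd (show ¬ 2 ∣ 11 by norm_num)]
    rw [hN]
    exact Nat.le_of_dvd Nat.card_pos (Nat.Coprime.mul_dvd_of_dvd_of_dvd (m := 16) (n := 11) (by norm_num)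
      (c16.symm.dvd.trans (card_dvd_of_le (le_inf hS.le l1)))
      (c11.symm.dvd.trans (card_dvd_of_le (le_inf le_normalizer l2))))
  have i1 : 𝒩((P : Subgroup G)).index = 45 := by
    have := 𝒩((P : Subgroup G)).card_mul_index
    rw [hN, hord] at this
    omega
  have i2 := index_modEq_one_of_normalizer_le P l3
  have i3 : 𝒞(zpowers z).index ∣ 45 := i1 ▸ index_dvd_of_le l3
  obtain i4 | i4 : 𝒞(zpowers z).index = 1 ∨ 𝒞(zpowers z).index = 45 := by
    have h2 : ∀ n ∈ Nat.divisors 45, n % 11 = 1 → n = 1 ∨ n = 45 := by decide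
    exact h2 _ (Nat.mem_divisors.2 ⟨i3, by norm_num⟩) i2
  · exact index_eq_one.1 i4
  exfalso
  have e1 : 𝒩((P : Subgroup G)) = 𝒞(zpowers z) := eq_of_le_of_card_ge l3 (by
    have := 𝒞(zpowers z).card_mul_index
    rw [i4, hord] at this
    rw [hN]
    omega)
  have mem : ∀ g : G, g ∈ 𝒞(zpowers z) ↔ g * z = z * g := fun g =>
    ⟨fun h => (comm_of_mem h (mem_zpowers z)).symm, fun h => by
      rintro _ ⟨k, rfl⟩
      exact ((show Commute g z from h).symm.zpow_left k).eq⟩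
  -- a subgroup of order 11 centralised by `z` is `P`
  have uniq : ∀ g : G, cj g (P : Subgroup G) ≤ 𝒞(zpowers z) → g ∈ 𝒞(zpowers z) := fun g hg => by
    have h2 := eq_of_le_norm hord (g • P) (Q := P) (e1 ▸ (show ((g • P : Sylow 11 G) : Subgroup G) ≤ _ from
      (conj_smul_eq_map g _).le.trans hg))
    exact e1 ▸ cj_eq_iff_mem.1 ((conj_smul_eq_map g _).symm.trans h2)
  by_cases hi : IsIsolatedInvolution z
  · have h2 : oddCore G = ⊥ := eq_bot_of hord P hn fun q hq hq' => by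
      by_contra h11
      have h3 := dvd_C' hord P (K := oddCore G) (hd ▸ Nat.coprime_two_left.2
        (CL.Inv.odd_card_oddCore.of_dvd_nat (card_dvd_of_le inf_le_left))) hq h11 hq'
      rw [hC] at h3
      rcases prime_cases hq (h3.trans (by norm_num)) with rfl | rfl | rfl | rfl
      · exact CL.Inv.odd_card_oddCore.not_two_dvd_nat hq'
      all_goals omega
    refine hn (e1.trans ((eq_top_iff' _).2 fun g => (mem g).2 ?_))
    have h3 := CL.Inv.zstar_mem_oddCore hi g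
    rw [h2, mem_bot, mul_inv_eq_one, mul_inv_eq_iff_eq_mul] at h3
    exact h3.symm
  obtain ⟨g, hg, hg'⟩ : ∃ g : G, Commute z (g * z * g⁻¹) ∧ g * z * g⁻¹ ≠ z := by
    by_contra h2
    push Not at h2
    exact hi ⟨hz, h2⟩
  have g1 : g ∉ 𝒞(zpowers z) := fun h => hg' (mul_inv_eq_iff_eq_mul.2 ((mem g).1 h))
  -- `z` inverts `P₀ = g P g⁻¹`
  have n0 : z ∈ 𝒩(cj g (P : Subgroup G)) := by
    rw [← cj_norm, mem_cj, e1, mem]
    calc g⁻¹ * z * g * z = g⁻¹ * (z * (g * z * g⁻¹)) * g := by group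
      _ = z * (g⁻¹ * z * g) := by rw [hg.eq]; group
  have c0 : Nat.card (cj g (P : Subgroup G)) = 11 := (card_cj g _).trans c11
  have f0 : ∀ y ∈ cj g (P : Subgroup G), y ∈ 𝒞(zpowers z) → y = 1 := fun y hy hc => by
    have h2 : Nat.card (cj g (P : Subgroup G) ⊓ 𝒞(zpowers z) : Subgroup G) ∣ 11 :=
      (card_dvd_of_le inf_le_left).trans c0.dvd
    rcases (Nat.dvd_prime (by norm_num)).1 h2 with h3 | h3
    · exact mem_bot.1 (card_eq_one.1 h3 ▸ (⟨hy, hc⟩ : y ∈ cj g (P : Subgroup G) ⊓ 𝒞(zpowers z)))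
    · exact (g1 (uniq g (inf_eq_left.1 (eq_of_le_of_card_ge inf_le_left (by rw [h3, c0]))))).elim
  have cyc := isCyclic_of_prime_card (α := cj g (P : Subgroup G)) c0
  have inv : ∀ y ∈ cj g (P : Subgroup G), z * y * z⁻¹ = y⁻¹ := fun y hy => by
    have h2 := conj_mem n0 hy
    have h3 : y * (z * y * z⁻¹) = z * y * z⁻¹ * y :=
      congrArg Subtype.val (cyc.isMulCommutative.is_comm.comm (⟨y, hy⟩ : cj g (P : Subgroup G)) ⟨_, h2⟩)
    refine eq_inv_of_mul_eq_one_right (f0 _ (mul_mem hy h2) ((mem _).2 ?_))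
    calc y * (z * y * z⁻¹) * z = (z * z) * y * z * y := by rw [z2]; group
      _ = z * (z * y * z⁻¹ * y) := by rw [inv_eq_of_mul_eq_one_right z2]; group
      _ = _ := by rw [h3]
  let f : ↥(P : Subgroup G) × {y : cj g (P : Subgroup G) // y ≠ 1} → G ⧸ 𝒞(zpowers z) :=
    fun a => ((a.1 : G) * (a.2.1 : G) : G)
  have hf : Function.Injective f := by
    rintro ⟨⟨x, hx⟩, ⟨y, hy⟩, y1⟩ ⟨⟨x', hx'⟩, ⟨y', hy'⟩, y1'⟩ h
    have h2 := (mem _).1 (QuotientGroup.eq.1 h)
    change (x * y)⁻¹ * (x' * y') * z = z * ((x * y)⁻¹ * (x' * y')) at h2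
    have k : ∀ x ∈ (P : Subgroup G), ∀ y ∈ cj g (P : Subgroup G),
        x * y * z * (x * y)⁻¹ = x * (y * y) * x⁻¹ * z := fun x hx y hy => by
      calc x * y * z * (x * y)⁻¹ = x * y * (z * y * z⁻¹)⁻¹ * (z * x⁻¹) := by group
        _ = _ := by rw [inv y hy, ← (mem _).1 (l2 (inv_mem hx))]; group
    have h3 : x * (y * y) * x⁻¹ = x' * (y' * y') * x'⁻¹ := by
      refine mul_right_cancel (b := z) ?_
      rw [← k x hx y hy, ← k x' hx' y' hy']
      calc x * y * z * (x * y)⁻¹ = x * y * (z * ((x * y)⁻¹ * (x' * y'))) * (x' * y')⁻¹ := by group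
        _ = _ := by rw [← h2]; group
    have sq : ∀ y ∈ cj g (P : Subgroup G), y * y = 1 → y = 1 := fun y hy e =>
      orderOf_eq_one_iff.1 (Nat.eq_one_of_dvd_coprimes (show Nat.Coprime 2 11 by norm_num)
        (orderOf_dvd_of_pow_eq_one (by rwa [pow_two])) (c0 ▸ orderOf_dvd_natCard _ hy))
    have gen : ∀ y ∈ cj g (P : Subgroup G), y ≠ 1 → zpowers y = cj g (P : Subgroup G) := fun y hy y1 =>
      eq_of_le_of_card_ge (zpowers_le.2 hy) (by
        rw [Nat.card_zpowers, c0, ((Nat.dvd_prime (by norm_num)).1 (c0 ▸ orderOf_dvd_natCard _ hy)).resolve_left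
          (mt orderOf_eq_one_iff.1 y1)])
    have h4 : x'⁻¹ * x ∈ 𝒩(cj g (P : Subgroup G)) := mem_norm_of_cj_le (by
      nth_rewrite 1 [← gen _ (mul_mem hy hy) fun e => y1 (Subtype.ext (sq y hy e))]
      rw [MonoidHom.map_zpowers, zpowers_le]
      change x'⁻¹ * x * (y * y) * (x'⁻¹ * x)⁻¹ ∈ _
      rw [show x'⁻¹ * x * (y * y) * (x'⁻¹ * x)⁻¹ = x'⁻¹ * (x * (y * y) * x⁻¹) * x' by group, h3]
      simpa [mul_assoc] using mul_mem hy' hy')
    obtain rfl : x' = x := by
      by_contra hne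
      have h5 : zpowers (x'⁻¹ * x) = P := eq_of_le_of_card_ge (zpowers_le.2 (mul_mem (inv_mem hx') hx)) (by
        rw [Nat.card_zpowers, c11, ((Nat.dvd_prime (by norm_num)).1
          (c11 ▸ orderOf_dvd_natCard _ (mul_mem (inv_mem hx') hx))).resolve_left
          fun e => hne (inv_mul_eq_one.1 (orderOf_eq_one_iff.1 e))])
      rw [← conj_smul_eq_map g (P : Subgroup G)] at h4
      have h6 := eq_of_le_norm hord P (Q := g • P) (h5.ge.trans (zpowers_le.2 h4))
      exact g1 (uniq g (((conj_smul_eq_map g _).symm.trans h6.symm).le.trans l2))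
    have h5 : y * y = y' * y' := by simpa using h3
    have h6 : y * y' = y' * y :=
      congrArg Subtype.val (cyc.isMulCommutative.is_comm.comm (⟨y, hy⟩ : cj g (P : Subgroup G)) ⟨y', hy'⟩)
    obtain rfl : y = y' := inv_mul_eq_one.1 (sq _ (mul_mem (inv_mem hy) hy') (by
      calc y⁻¹ * y' * (y⁻¹ * y') = y⁻¹ * y⁻¹ * (y * y') * y⁻¹ * y' := by group
        _ = y⁻¹ * y⁻¹ * (y' * y') := by rw [h6]; group
        _ = 1 := by rw [← h5]; group))
    rfl
  have h7 := Nat.card_le_card_of_injective f hf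
  have h8 : Nat.card {y : cj g (P : Subgroup G) // y ≠ 1} = 10 := by
    classical
    have := Fintype.ofFinite (cj g (P : Subgroup G))
    rw [Nat.card_eq_fintype_card, Fintype.card_subtype_compl, Fintype.card_subtype_eq, ← Nat.card_eq_fintype_card, c0]
  rw [← index, i4, Nat.card_prod, c11, h8] at h7
  omega

end Aux


/-- Let G be a finite group of order 7920 = 2⁴·3²·5·11 (the order of the smallest Mathieu group) and suppose its prime graph (vertices the prime divisors of the order, distinct p, q joined when there is an element of order pq) is disconnected: the prime divisors split into two non-empty parts with no element of order pq for p in one part and q in the other. Then G is simple. -/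
theorem result {G : Type*} [Group G] [Finite G] (hord : Nat.card G = 7920)
    (hdisc : (∃ A : Set ℕ, (∃ a ∈ A, a.Prime ∧ a ∣ Nat.card G) ∧ (∃ b ∉ A, b.Prime ∧ b ∣ Nat.card G) ∧
      ∀ a ∈ A, ∀ b ∉ A, a.Prime → b.Prime → a ∣ Nat.card G → b ∣ Nat.card G → ¬ ∃ g : G, orderOf g = a * b)) :
    IsSimpleGroup G := by
  obtain ⟨A, ⟨a, ha, a1, a2⟩, ⟨b, hb, b1, b2⟩, h⟩ := hdisc
  have e : ∀ {p q : ℕ}, p.Prime → q.Prime → (∃ g : G, orderOf g = p * q) → (p ∈ A ↔ q ∈ A) := fun hp hq ⟨g, hg⟩ => by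
    have d := hg ▸ orderOf_dvd_natCard g
    exact ⟨fun h1 => by_contra fun h2 => h _ h1 _ h2 hp hq ((dvd_mul_right _ _).trans d) ((dvd_mul_left _ _).trans d)
      ⟨g, hg⟩, fun h1 => by_contra fun h2 => h _ h1 _ h2 hq hp ((dvd_mul_left _ _).trans d)
      ((dvd_mul_right _ _).trans d) ⟨g, hg.trans (mul_comm _ _)⟩⟩
  have fin : (11 ∈ A ↔ 2 ∈ A) → (11 ∈ A ↔ 3 ∈ A) → (11 ∈ A ↔ 5 ∈ A) → False := fun h2 h3 h5 => by
    rcases prime_cases a1 (hord ▸ a2) with rfl | rfl | rfl | rfl <;>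
      rcases prime_cases b1 (hord ▸ b2) with rfl | rfl | rfl | rfl <;> tauto
  obtain ⟨P⟩ : Nonempty (Sylow 11 G) := inferInstance
  have c11 := cardP hord P
  have e11 : ∀ {q : ℕ}, q.Prime → 11 ≠ q → q ∣ Nat.card 𝒞((P : Subgroup G)) → (11 ∈ A ↔ q ∈ A) := fun hq h1 h2 =>
    e (by norm_num) hq (adj_of (by norm_num) hq h1 c11.symm.dvd h2)
  have cyc := isCyclic_of_prime_card c11
  have hd := card_dvd_of_injective _ (QuotientGroup.kerLift_injective (P : Subgroup G).normalizerMonoidHom)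
  rw [normalizerMonoidHom_ker, ← index, ← relIndex, cyc.card_mulAut, c11, Nat.totient_prime (by norm_num)] at hd
  have h1 := card_mul_relIndex (cent_le_norm (P : Subgroup G))
  have h2 := 𝒩((P : Subgroup G)).card_mul_index
  have h3 := index_modEq_one_of_normalizer_le P le_rfl
  have h4 : 𝒩((P : Subgroup G)).index ∣ 720 := by
    have := (P : Subgroup G).card_mul_index
    rw [c11, hord] at this
    exact (index_dvd_of_le le_normalizer).trans (show (P : Subgroup G).index = 720 by omega).dvd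
  have h5 : ∀ n ∈ Nat.divisors 720, n % 11 = 1 → n = 1 ∨ n = 12 ∨ n = 45 ∨ n = 144 := by decide +kernel
  have h6 : ∀ n ∈ Nat.divisors 10, n = 1 ∨ n = 2 ∨ n = 5 ∨ n = 10 := by decide
  have h7 := h5 _ (Nat.mem_divisors.2 ⟨h4, by norm_num⟩) h3
  have h8 := h6 _ (Nat.mem_divisors.2 ⟨hd, by norm_num⟩)
  rw [hord] at h2
  by_cases d1 : 𝒞((P : Subgroup G)).relIndex 𝒩((P : Subgroup G)) = 1
  · have k : ∀ {q : ℕ}, q.Prime → 11 ≠ q → q ∣ 7920 → (11 ∈ A ↔ q ∈ A) := fun hq h1 h2 =>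
      e11 hq h1 (dvd_C' hord P (K := ⊤) (d1 ▸ Nat.coprime_one_left _) hq h1.symm (by rwa [card_top, hord]))
    exact (fin (k (by norm_num) (by norm_num) (by norm_num)) (k (by norm_num) (by norm_num) (by norm_num))
      (k (by norm_num) (by norm_num) (by norm_num))).elim
  by_cases d6 : 6 ∣ Nat.card 𝒞((P : Subgroup G))
  · exfalso
    have k2 := e11 Nat.prime_two (by norm_num) (Dvd.dvd.trans (by norm_num) d6)
    have k3 := e11 Nat.prime_three (by norm_num) (Dvd.dvd.trans (by norm_num) d6)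
    by_cases d5 : 5 ∣ Nat.card 𝒞((P : Subgroup G))
    · exact fin k2 k3 (e11 Nat.prime_five (by norm_num) d5)
    have := Fact.mk Nat.prime_five
    obtain ⟨x, hx⟩ := exists_prime_orderOf_dvd_card' (G := 𝒩((P : Subgroup G))) 5 (by
      rcases h7 with h7 | h7 | h7 | h7 <;> rw [h7] at h2 <;> rcases h8 with h8 | h8 | h8 | h8 <;> rw [h8] at h1 <;> omega)
    rw [← orderOf_coe, ← Nat.card_zpowers] at hx
    exact fin k2 k3 (k3.trans (e Nat.prime_five Nat.prime_three (adj_of Nat.prime_five Nat.prime_three (by norm_num)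
      hx.symm.dvd (dvd_cent Nat.prime_five Nat.prime_three hx (zpowers_le.2 (norm_le_norm_cent _ x.2)) d5
        (Dvd.dvd.trans (by norm_num) d6) fun k hk => pow_mod (by simp) k (hord ▸ hk)))).symm)
  have h9 : 11 ∣ Nat.card 𝒞((P : Subgroup G)) := by
    have := cyc.isMulCommutative
    have := card_dvd_of_le (P : Subgroup G).le_centralizer
    rwa [c11] at this
  obtain ⟨c1, c2⟩ | ⟨c1, c2⟩ : (Nat.card 𝒩((P : Subgroup G)) = 55 ∧ Nat.card 𝒞((P : Subgroup G)) = 11) ∨
      (Nat.card 𝒩((P : Subgroup G)) = 176 ∧ Nat.card 𝒞((P : Subgroup G)) = 88) := by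
    rcases h7 with h7 | h7 | h7 | h7 <;> rcases h8 with h8 | h8 | h8 | h8 <;> rw [h7] at h2 <;> rw [h8] at h1 <;> omega
  · exact simple_of hord P c1 c2
  obtain ⟨z, hz, h0⟩ := case45 hord P c1 c2
  have k2 := e11 Nat.prime_two (by norm_num) (by rw [c2]; norm_num)
  have k : ∀ {q : ℕ}, q.Prime → 2 ≠ q → q ∣ 7920 → (11 ∈ A ↔ q ∈ A) := fun hq h1 h2 =>
    k2.trans (e Nat.prime_two hq (adj_of (A := zpowers z) Nat.prime_two hq h1 (by rw [Nat.card_zpowers, hz])
      (by rwa [h0, card_top, hord])))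
  exact (fin k2 (k (by norm_num) (by norm_num) (by norm_num)) (k (by norm_num) (by norm_num) (by norm_num))).elim

end Cfsg.Agent.S2490
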