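import Cfsg.Statements.S2503
import Cfsg.Agent.Known.PSL2Classes
import Cfsg.Agent.Cls.SL2Sylow

set_option autoImplicit false
open Cfsg

namespace Cfsg.Agent.S2503

open CL.GL2

/-- Let F be a finite field with q = 2^t ≥ 4 elements and L = PSL(2,F). Then L has a cyclic subgroup A of order q + 1 and an elementary abelian 2-subgroup B of order q such that L = ABA: every element of L is a product a·b·a' with a, a' ∈ A and b ∈ B. -/
theorem result {F : Type*} [Field F] [Fintype F]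
    (h2 : 2 ∣ Fintype.card F) (h4 : 4 ≤ Fintype.card F) :
    ∃ A B : Subgroup (Matrix.ProjectiveSpecialLinearGroup (Fin 2) F),
      IsCyclic A ∧ Nat.card A = Fintype.card F + 1 ∧ IsMulCommutative B ∧ (∀ b ∈ B, b * b = 1) ∧
        Nat.card B = Fintype.card F ∧
        ∀ g : Matrix.ProjectiveSpecialLinearGroup (Fin 2) F, ∃ a ∈ A, ∃ b ∈ B, ∃ c ∈ A, g = a * b * c := by
  classical
  have h2' : (2 : F) = 0 := by
    by_contra h
    exact (Nat.not_even_iff_odd.2 (CL.GL2.odd_of_two_ne_zero h)) (even_iff_two_dvd.2 h2)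
  haveI : CharP F 2 := (CharP.charP_iff_prime_eq_zero Nat.prime_two).2 (by exact_mod_cast h2')
  obtain ⟨𝔢, h⟩ := exists_ABA h2'
  have hinj : Function.Injective ((QuotientGroup.mk' (Subgroup.center (SL2 F))).comp 𝔢.embSL) :=
    (CL.SL2.psl_mk_injective h2').comp 𝔢.embSL_injective
  refine ⟨((QuotientGroup.mk' (Subgroup.center (SL2 F))).comp 𝔢.embSL).range,
    (CL.SL2.uhyp_psl 2).Q CL.SL2.pinf, ?_, ?_, CL.SL2.UHyp.isMulCommutative_Q _ _, ?_, ?_, ?_⟩
  · exact isCyclic_of_surjective _ (MonoidHom.rangeRestrict_surjective _)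
  · rw [← 𝔢.card_K]
    exact (Nat.card_congr (MonoidHom.ofInjective hinj).toEquiv).symm
  · intro b hb
    rw [← sq]
    exact ((CL.SL2.UHyp.mem_Q _).1 hb).2
  · rw [CL.SL2.card_Q_psl, Nat.card_eq_fintype_card]
  · intro x
    obtain ⟨g, rfl⟩ := QuotientGroup.mk_surjective x
    obtain ⟨a, c, b, rfl⟩ := h g
    refine ⟨_, ⟨a, rfl⟩, ((upSL 1 b (one_mul 1) : SL2 F) : PSL2 F), ?_, _, ⟨c, rfl⟩, rfl⟩
    refine (CL.SL2.mem_Q_psl_pinf 2).2 ⟨b, congrArg _ (ext_SL ?_)⟩
    rw [coe_upSL, CL.SL2.coe_upT]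

end Cfsg.Agent.S2503
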