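import Cfsg.Statements.S2504
import Cfsg.Agent.Known.AltAbelian2

set_option autoImplicit false
open Cfsg

namespace Cfsg.Agent.S2504

/-- The largest order of an abelian subgroup of the alternating group of degree n is 3^k when n = 3k, 4·3^(k−1) when n = 3k + 1, and 16·3^(k−2) when n = 3k + 2, for every k ≥ 2 (so for all degrees n ≥ 6). -/
theorem result (k : ℕ) (hk : 2 ≤ k) :
    IsGreatest {c : ℕ | ∃ A : Subgroup (alternatingGroup (Fin (3 * k))), IsMulCommutative A ∧ Nat.card A = c} (3 ^ k) ∧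
    IsGreatest {c : ℕ | ∃ A : Subgroup (alternatingGroup (Fin (3 * k + 1))), IsMulCommutative A ∧ Nat.card A = c}
      (4 * 3 ^ (k - 1)) ∧
    IsGreatest {c : ℕ | ∃ A : Subgroup (alternatingGroup (Fin (3 * k + 2))), IsMulCommutative A ∧ Nat.card A = c}
      (16 * 3 ^ (k - 2)) := by
  obtain ⟨k, rfl⟩ : ∃ j, k = j + 2 := ⟨k - 2, by omega⟩
  refine ⟨?_, ?_, ?_⟩
  · convert CL.Known.isGreatest_abA (3 * (k + 2)) using 1
    simp [CL.Known.abA]
  · convert CL.Known.isGreatest_abA (3 * (k + 2) + 1) using 1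
    have h1 : (3 * (k + 2) + 1) % 3 = 1 := by omega
    have h2 : (3 * (k + 2) + 1) / 3 = k + 2 := by omega
    simp [CL.Known.abA, h1, h2]
  · convert CL.Known.isGreatest_abA (3 * (k + 2) + 2) using 1
    have h1 : (3 * (k + 2) + 2) % 3 = 2 := by omega
    have h2 : (3 * (k + 2) + 2) / 3 = k + 2 := by omega
    have h3 : 3 * (k + 2) + 2 ≠ 5 := by omega
    simp [CL.Known.abA, h1, h2, h3]

end Cfsg.Agent.S2504
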