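import Cfsg.Statements.S2506
import Cfsg.Agent.Known.AltAbelian2

set_option autoImplicit false
open scoped Pointwise
open Cfsg

namespace Cfsg.Agent.S2506

/-- In the alternating group of any degree, any two abelian subgroups of the largest possible order (among abelian subgroups) are conjugate. -/
theorem result (n : ℕ)
    (A B : Subgroup (alternatingGroup (Fin n))) (hA : IsMulCommutative A) (hB : IsMulCommutative B)
    (hAmax : ∀ C : Subgroup (alternatingGroup (Fin n)), IsMulCommutative C → Nat.card C ≤ Nat.card A)
    (hBmax : ∀ C : Subgroup (alternatingGroup (Fin n)), IsMulCommutative C → Nat.card C ≤ Nat.card B) :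
    ∃ g : alternatingGroup (Fin n), B = MulAut.conj g • A := by
  have key : ∀ A : Subgroup (alternatingGroup (Fin n)), IsMulCommutative A →
      (∀ C : Subgroup (alternatingGroup (Fin n)), IsMulCommutative C → Nat.card C ≤ Nat.card A) →
      Nat.card (A.map (alternatingGroup (Fin n)).subtype) = CL.Known.abA (Nat.card (Fin n)) := by
    intro A hA hmax
    obtain ⟨⟨C, hC, hc⟩, hub⟩ := CL.Known.isGreatest_abA n
    rw [CL.Known.card_map_subtype, Nat.card_eq_fintype_card (α := Fin n), Fintype.card_fin]
    exact le_antisymm (hub ⟨A, hA, rfl⟩) (hc ▸ hmax C hC)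
  obtain ⟨e, he, h⟩ := CL.Known.even_conj_of_card_eq_abA (CL.Known.map_subtype_isMulCommutative hA)
    (CL.Known.map_subtype_isMulCommutative hB) (Subgroup.map_subtype_le _) (Subgroup.map_subtype_le _)
    (key A hA hAmax) (key B hB hBmax)
  exact ⟨_, CL.Known.alt_conj_of_map he h⟩

end Cfsg.Agent.S2506
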