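import Cfsg.Statements.S2507
import Cfsg.Agent.Known.PSL2Classes

set_option autoImplicit false
open Cfsg

namespace Cfsg.Agent.S2507

/-- Let F be a finite field with q = 2^f ≥ 4 elements. The conjugacy class sizes of PSL(2,F) are exactly 1, q(q − 1), q² − 1 and q(q + 1). -/
theorem result {F : Type*} [Field F] [Fintype F]
    (h2 : 2 ∣ Fintype.card F) (h4 : 4 ≤ Fintype.card F) :
    Set.range (fun g : (Matrix.ProjectiveSpecialLinearGroup (Fin 2) F) => (Subgroup.centralizer ({g} : Set (Matrix.ProjectiveSpecialLinearGroup (Fin 2) F))).index) =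
      {1, Fintype.card F * (Fintype.card F - 1), Fintype.card F ^ 2 - 1, Fintype.card F * (Fintype.card F + 1)} := by
  classical
  refine CL.GL2.classSizes_PSL2_even ?_ h4
  by_contra h
  exact (Nat.not_even_iff_odd.2 (CL.GL2.odd_of_two_ne_zero h)) (even_iff_two_dvd.2 h2)

end Cfsg.Agent.S2507
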