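import Cfsg.Statements.S2511
import Cfsg.Agent.Known.SpecLU

set_option autoImplicit false
open Cfsg

namespace Cfsg.Agent.S2511

/-- Let F be a finite field with q² elements, q = p^a, n ≥ 3 with (n, q) ≠ (3, 2), L = PSU(n, q) realised over F, and let r be a prime dividing q + 1 and not dividing n. Then for every m the direct product L × L × L × (ℤ/r)^m has the same set of element orders as L × L × L; and if n − 1 is not a power of p, then already L × L × (ℤ/r)^m has the same set of element orders as L × L. -/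
theorem result {F : Type*} [Field F] [Fintype F] (p a n q r m : ℕ) (hp : p.Prime) (ha : 1 ≤ a) (hq : q = p ^ a) (hF : Fintype.card F = q ^ 2)
    (hn : 3 ≤ n) (hn3 : ¬ (n = 3 ∧ q = 2)) (hr : r.Prime) (hrq : r ∣ q + 1) (hrn : ¬ r ∣ n) :
    Set.range (orderOf : Cfsg.PSU n F q × Cfsg.PSU n F q × Cfsg.PSU n F q × Multiplicative (Fin m → ZMod r) → ℕ) = Set.range (orderOf : Cfsg.PSU n F q × Cfsg.PSU n F q × Cfsg.PSU n F q → ℕ) ∧
    ((¬ ∃ j : ℕ, n - 1 = p ^ j) →
      Set.range (orderOf : Cfsg.PSU n F q × Cfsg.PSU n F q × Multiplicative (Fin m → ZMod r) → ℕ) = Set.range (orderOf : Cfsg.PSU n F q × Cfsg.PSU n F q → ℕ)) := by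
  haveI := Fact.mk hp
  haveI : CharP F p := charP_of_card_eq_prime_pow (hF.trans (by rw [hq, ← pow_mul]))
  haveI : NeZero r := ⟨hr.ne_zero⟩
  have h := CL.Spec.lu_PSU (F := F) p hF (n := n) (by omega)
  have hQ : (r : ℤ) ∣ -(q : ℤ) - 1 := by
    rw [← dvd_neg, neg_sub, sub_neg_eq_add, add_comm]; exact_mod_cast hrq
  obtain ⟨a, ha, b, hb, h1, h2⟩ := h.exists_two_orders (by omega) hr hQ hrn
  have := CL.Spec.spec_prod_eq_of_two_orders hr (CL.Spec.pow_eq_one_pi_zmod m r)
    (h.prime_mem (by omega) hr hQ hrn) ha hb h2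
  exact ⟨this.1, fun e => this.2 (h1 e)⟩

end Cfsg.Agent.S2511
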