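import Cfsg.Statements.S2513
import Cfsg.Agent.Known.SpecLU

set_option autoImplicit false
open Cfsg

namespace Cfsg.Agent.S2513

theorem exists_dvd_between {d n : ℕ} (hd : 0 < d) (h : d ≤ n) : ∃ j, d ∣ j ∧ n / 2 < j ∧ j ≤ n := by
  refine ⟨d * (n / d), dvd_mul_right _ _, ?_, Nat.mul_div_le n d⟩
  have h1 := Nat.mod_lt n hd
  have h2 := Nat.div_add_mod n d
  have h3 : d ≤ d * (n / d) := Nat.le_mul_of_pos_right _ (Nat.div_pos h hd)
  omega

/-- Let F be the field with two elements, n ≥ 2, L = PSL(n, F) and k₀ = ⌊(n + 3)/2⌋. Then for every k ≥ k₀ the direct product of k copies of L has the same set of element orders as the direct product of k₀ copies of L. -/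
theorem result {F : Type*} [Field F] [Fintype F] (hF : Fintype.card F = 2) (n k : ℕ) (hn : 2 ≤ n) (hk : (n + 3) / 2 ≤ k) :
    Set.range (orderOf : (Fin k → Matrix.ProjectiveSpecialLinearGroup (Fin n) F) → ℕ) = Set.range (orderOf : (Fin ((n + 3) / 2) → Matrix.ProjectiveSpecialLinearGroup (Fin n) F) → ℕ) := by
  haveI : CharP F 2 := charP_of_card_eq_prime hF
  have h := CL.Spec.lu_PSL (F := F) 2 (n := n) (by omega)
  rw [hF] at h
  have h1 : ∀ j, 0 < j → j ≤ n →
      ∃ g : Matrix.ProjectiveSpecialLinearGroup (Fin n) F, orderOf g = 2 ^ j - 1 := fun j h0 hj => by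
    obtain ⟨x, x0, x1, -, x2, x3⟩ := h.char.exists_singer (AlgebraicClosure F) h0.ne'
    have hA := CL.Spec.adm_orb_add (p := 2) (k := 0) x0 x2 hj (Or.inl rfl)
    refine h.mem_of hA (by rw [Multiset.prod_add, x3]; simp) fun i hi _ => ?_
    have := CL.Spec.zpow_sub_one_mul hA.inv hA.ne hi (x := x) (by simp [CL.Spec.self_mem_orb h0])
    rw [x1, Int.natAbs_dvd] at this
    have e := mul_geom_sum (2 : ℤ) j
    rw [← Int.natCast_dvd_natCast, Nat.cast_sub (Nat.one_le_two_pow)]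
    norm_num at this e ⊢
    exact e ▸ this
  obtain ⟨u, hu⟩ := h.pow_mem (k := Nat.clog 2 n) (Or.inr (Nat.pow_pred_clog_lt_self one_lt_two (by omega)))
  choose! g hg using h1
  refine CL.Perm.spec_eq_of_dvd (fun x => ⟨fun i => if (i : ℕ) = 0 then u else g (n + 1 - i), ?_⟩) (fun y =>
    ⟨fun i => if h : (i : ℕ) < (n + 3) / 2 then y ⟨i, h⟩ else 1, ?_⟩)
  · rw [Pi.orderOf x, Finset.lcm_dvd_iff]
    intro i _
    obtain ⟨E, l, ⟨hA, -⟩, hm⟩ := (h.mem _).1 ⟨x i, rfl⟩
    refine hm.dvd_of_pow_eq (c := 1) (fun y hy => ?_) ?_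
    · obtain ⟨d, E', d0, y1, -, e, -⟩ := CL.Spec.exists_orb_one h.char.injective hA.inv hy
      obtain ⟨j, j1, j2, j3⟩ := exists_dvd_between d0 (n := n) (by rw [← hA.card, e]; simp)
      refine orderOf_dvd_iff_pow_eq_one.1 (Dvd.dvd.trans ?_ (orderOf_apply_dvd_orderOf ⟨n + 1 - j, by omega⟩))
      rw [if_neg (by simp; omega), show n + 1 - (n + 1 - j) = j by omega, hg j (by omega) j3]
      have := (CL.Spec.zpow_pow_eq_self_iff fun e => hA.ne (e ▸ hy)).1 y1
      rw [← Int.natCast_dvd_natCast, Nat.cast_sub (Nat.one_le_two_pow)]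
      obtain ⟨t, rfl⟩ := j1
      exact this.trans (by simpa [pow_mul] using sub_dvd_pow_sub_pow ((2 : ℤ) ^ d) 1 t)
    · refine Dvd.dvd.trans ?_ (orderOf_apply_dvd_orderOf ⟨0, by omega⟩)
      rw [if_pos rfl, hu]
      refine pow_dvd_pow 2 (hA.blk.lt_card.elim (by omega) fun e => ?_)
      have := (Nat.lt_clog_iff_pow_lt one_lt_two).2 (hA.card ▸ e)
      omega
  · rw [Pi.orderOf y, Finset.lcm_dvd_iff]
    intro i _
    refine Dvd.dvd.trans ?_ (orderOf_apply_dvd_orderOf ⟨i, by omega⟩)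
    simp

end Cfsg.Agent.S2513
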