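import Cfsg.Statements.S2514
import Cfsg.Agent.Base

set_option autoImplicit false
open Cfsg

namespace Cfsg.Agent.S2514

lemma exists_ord {X : Type*} [Group X] [Finite X] (x : X) (d : ℕ) (hd : d ∣ orderOf x) : ∃ y : X, orderOf y = d :=
  ⟨x ^ (orderOf x / d), orderOf_pow_orderOf_div (orderOf_pos x).ne' hd⟩

lemma exists_max {X : Type*} [Group X] [Finite X] (x : X) :
    ∃ m ∈ {n : ℕ | n ∈ Set.range (orderOf : X → ℕ) ∧ ∀ m ∈ Set.range (orderOf : X → ℕ), n ∣ m → m = n},
      orderOf x ∣ m := by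
  obtain ⟨y, hy, hmax⟩ := Set.exists_max_image {y : X | orderOf x ∣ orderOf y} orderOf (Set.toFinite _) ⟨x, dvd_rfl⟩
  refine ⟨orderOf y, ⟨⟨y, rfl⟩, ?_⟩, hy⟩
  rintro _ ⟨z, rfl⟩ hz
  exact le_antisymm (hmax z (dvd_trans hy hz)) (Nat.le_of_dvd (orderOf_pos z) hz)

/-- For a finite group X write μ(X) for the set of element orders of X that are maximal under divisibility. Let G and H be finite groups and k ≥ 1 such that μ(H) ⊆ μ(G) and μ(G) has fewer than k elements outside μ(H). Then the direct product of k copies of G has the same set of element orders as the direct product of k − 1 copies of G with H. -/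
theorem result {G H : Type*} [Group G] [Finite G] [Group H] [Finite H] (k : ℕ) (hk : 1 ≤ k)
    (hsub : {n : ℕ | n ∈ Set.range (orderOf : H → ℕ) ∧ ∀ m ∈ Set.range (orderOf : H → ℕ), n ∣ m → m = n} ⊆ {n : ℕ | n ∈ Set.range (orderOf : G → ℕ) ∧ ∀ m ∈ Set.range (orderOf : G → ℕ), n ∣ m → m = n})
    (hfew : ({n : ℕ | n ∈ Set.range (orderOf : G → ℕ) ∧ ∀ m ∈ Set.range (orderOf : G → ℕ), n ∣ m → m = n} \ {n : ℕ | n ∈ Set.range (orderOf : H → ℕ) ∧ ∀ m ∈ Set.range (orderOf : H → ℕ), n ∣ m → m = n}).ncard < k) :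
    Set.range (orderOf : (Fin k → G) → ℕ) = Set.range (orderOf : (Fin (k - 1) → G) × H → ℕ) := by
  obtain ⟨k, rfl⟩ : ∃ j, k = j + 1 := ⟨k - 1, by omega⟩
  set μG := {n : ℕ | n ∈ Set.range (orderOf : G → ℕ) ∧ ∀ m ∈ Set.range (orderOf : G → ℕ), n ∣ m → m = n} with hμG
  set μH := {n : ℕ | n ∈ Set.range (orderOf : H → ℕ) ∧ ∀ m ∈ Set.range (orderOf : H → ℕ), n ∣ m → m = n} with hμH
  change Set.range (orderOf : (Fin (k + 1) → G) → ℕ) = Set.range (orderOf : (Fin k → G) × H → ℕ)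
  have key : ∀ (f : Fin (k + 1) → G) (f' : Fin k → G) (h : H),
      (∀ n, (∀ i, orderOf (f i) ∣ n) ↔ (∀ j, orderOf (f' j) ∣ n) ∧ orderOf h ∣ n) → orderOf (f', h) = orderOf f := by
    intro f f' h hh
    rw [orderOf_eq_orderOf_iff]
    intro n
    simp only [orderOf_dvd_iff_pow_eq_one] at hh
    rw [Prod.pow_mk, Prod.mk_eq_one, funext_iff, funext_iff]
    exact (hh n).symm
  apply Set.Subset.antisymm
  · rintro _ ⟨f, rfl⟩
    choose m hm hdm using fun i => exists_max (f i)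
    by_cases hc : ∃ i, m i ∈ μH
    · obtain ⟨i, ⟨⟨y, hy⟩, -⟩⟩ := hc
      obtain ⟨h, hh⟩ := exists_ord y (orderOf (f i)) (hy ▸ hdm i)
      refine ⟨(fun j => f (i.succAbove j), h), key _ _ _ fun n => ?_⟩
      rw [Fin.forall_iff_succAbove i, hh, and_comm]
    · push Not at hc
      have hfin : (μG \ μH).Finite := (Set.finite_range (orderOf : G → ℕ)).subset fun x hx => hx.1.1
      have hninj : ¬ Function.Injective m := by
        intro hinj
        have h1 : Set.range m ⊆ μG \ μH := by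
          rintro _ ⟨i, rfl⟩
          exact ⟨hm i, hc i⟩
        have h2 := Set.ncard_le_ncard h1 hfin
        rw [Set.ncard_range_of_injective hinj] at h2
        simp at h2
        omega
      simp only [Function.Injective, not_forall] at hninj
      obtain ⟨i, i', hii, hne⟩ := hninj
      obtain ⟨j, rfl⟩ := Fin.exists_succAbove_eq (Ne.symm hne)
      obtain ⟨⟨y, hy⟩, -⟩ := hm i
      obtain ⟨g, hg⟩ := exists_ord y (Nat.lcm (orderOf (f i)) (orderOf (f (i.succAbove j))))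
        (Nat.lcm_dvd (hy ▸ hdm i) (hy ▸ hii ▸ hdm _))
      refine ⟨(Function.update (fun j => f (i.succAbove j)) j g, 1), key _ _ _ fun n => ?_⟩
      rw [Fin.forall_iff_succAbove i, orderOf_one, Function.forall_update_iff _ (fun _ x => orderOf x ∣ n), hg,
        Nat.lcm_dvd_iff]
      constructor
      · rintro ⟨h1, h2⟩
        exact ⟨⟨⟨h1, h2 j⟩, fun x _ => h2 x⟩, one_dvd _⟩
      · rintro ⟨⟨⟨h1, h2⟩, h3⟩, -⟩
        refine ⟨h1, fun x => ?_⟩
        by_cases hx : x = j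
        · rw [hx]; exact h2
        · exact h3 x hx
  · rintro _ ⟨⟨f', h⟩, rfl⟩
    obtain ⟨m, hm, hdm⟩ := exists_max h
    obtain ⟨⟨y, hy⟩, -⟩ := hsub hm
    obtain ⟨g, hg⟩ := exists_ord y (orderOf h) (hy ▸ hdm)
    refine ⟨Fin.cons g f', (key _ _ _ fun n => ?_).symm⟩
    rw [Fin.forall_fin_succ, and_comm]
    simp [hg]

end Cfsg.Agent.S2514
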