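import Cfsg.Statements.S2516
import Cfsg.Agent.Base

set_option autoImplicit false
open Cfsg

namespace Cfsg.Agent.S2516

/-- Let F be a field of characteristic p > 0, V a non-zero finite-dimensional F-vector space, G a finite group and ρ a representation of G on V; form the semidirect product V ⋊ G. For g ∈ G of order k, the coset Vg contains an element of order pk if and only if the minimal polynomial of ρ(g) does not divide 1 + X + ⋯ + X^(k−1). -/
theorem result {F : Type*} [Field F] (p : ℕ) [Fact p.Prime] [CharP F p] {V : Type*} [AddCommGroup V] [Module F V] [FiniteDimensional F V] [Nontrivial V]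
    {G : Type*} [Group G] [Finite G] (ρ : Representation F G V) (g : G) :
    (∃ x : Multiplicative V ⋊[(MulAutMultiplicative V).symm.toMonoidHom.comp
        ((DistribMulAction.toAddAut ((V →ₗ[F] V)ˣ) V).comp ρ.asGroupHom)] G,
        x.right = g ∧ orderOf x = p * orderOf g) ↔
      ¬ (minpoly F (ρ g) ∣ ∑ i ∈ Finset.range (orderOf g), (Polynomial.X : Polynomial F) ^ i) := by
  have hp : p.Prime := Fact.out
  have hpow : ∀ (x : Multiplicative V ⋊[(MulAutMultiplicative V).symm.toMonoidHom.comp
        ((DistribMulAction.toAddAut ((V →ₗ[F] V)ˣ) V).comp ρ.asGroupHom)] G), x.right = g → ∀ n : ℕ,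
      (x ^ n).left = Multiplicative.ofAdd ((∑ i ∈ Finset.range n, (ρ g) ^ i) x.left.toAdd) ∧ (x ^ n).right = g ^ n := by
    intro x hx n
    induction n with
    | zero => rw [pow_zero, pow_zero]; exact ⟨by simp, rfl⟩
    | succ n ih =>
      rw [pow_succ, SemidirectProduct.mul_left, SemidirectProduct.mul_right, ih.1, ih.2, hx, pow_succ g,
        Finset.sum_range_succ, LinearMap.add_apply, ofAdd_add, ← map_pow]
      exact ⟨rfl, rfl⟩
  have hk : 0 < orderOf g := orderOf_pos g
  have hchar : ∀ v : V, p • v = 0 := fun v => by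
    rw [← Nat.cast_smul_eq_nsmul F, CharP.cast_eq_zero, zero_smul]
  have hmin : (minpoly F (ρ g) ∣ ∑ i ∈ Finset.range (orderOf g), (Polynomial.X : Polynomial F) ^ i) ↔
      (∑ i ∈ Finset.range (orderOf g), (ρ g) ^ i) = 0 := by
    rw [minpoly.dvd_iff]
    simp [map_sum]
  rw [hmin]
  constructor
  · rintro ⟨x, hx, ho⟩ h0
    have h1 : x ^ orderOf g = 1 := by
      obtain ⟨h1, h2⟩ := hpow x hx (orderOf g)
      ext
      · rw [h1, h0]; simp
      · rw [h2, pow_orderOf_eq_one]; simp
    have h2 := Nat.le_of_dvd hk (orderOf_dvd_of_pow_eq_one h1)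
    rw [ho] at h2
    have := hp.two_le
    nlinarith
  · intro h0
    obtain ⟨v, hv⟩ : ∃ v, (∑ i ∈ Finset.range (orderOf g), (ρ g) ^ i) v ≠ 0 := by
      by_contra hc
      push Not at hc
      exact h0 (LinearMap.ext hc)
    let x : Multiplicative V ⋊[(MulAutMultiplicative V).symm.toMonoidHom.comp
        ((DistribMulAction.toAddAut ((V →ₗ[F] V)ˣ) V).comp ρ.asGroupHom)] G := ⟨Multiplicative.ofAdd v, g⟩
    refine ⟨x, rfl, ?_⟩
    obtain ⟨h1, h2⟩ := hpow x rfl (orderOf g)
    have h3 : x ^ orderOf g = SemidirectProduct.inl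
        (Multiplicative.ofAdd ((∑ i ∈ Finset.range (orderOf g), (ρ g) ^ i) v)) := by
      ext
      · rw [h1]; rfl
      · rw [h2, pow_orderOf_eq_one]; rfl
    have h4 : orderOf (x ^ orderOf g) = p := by
      rw [h3, orderOf_injective _ SemidirectProduct.inl_injective]
      apply orderOf_eq_prime
      · rw [← ofAdd_nsmul, hchar]; rfl
      · exact hv
    have h5 : orderOf g ∣ orderOf x := by
      have := orderOf_map_dvd SemidirectProduct.rightHom x
      exact this
    obtain ⟨c, hc⟩ := h5
    rw [orderOf_pow' _ hk.ne', hc, Nat.gcd_mul_right_left, Nat.mul_div_cancel_left _ hk] at h4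
    rw [hc, h4, mul_comm]

end Cfsg.Agent.S2516
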