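import Cfsg.Statements.S2519
import Cfsg.Agent.Chev.AlgG2

set_option autoImplicit false
open Cfsg

namespace Cfsg.Agent.S2519

open CL.Chev

theorem anti {p q : ℕ} (hp : p.Prime) (hq : p ∣ q) (h5 : 5 ≤ q) {m n : ℕ}
    (hm : (∃ x ∈ ({q + 1, q - 1, p} : Set ℕ), m = p * x) ∨ m ∈ ({q ^ 2 - 1, q ^ 2 + q + 1, q ^ 2 - q + 1} : Set ℕ))
    (hn : (∃ x ∈ ({q + 1, q - 1, p} : Set ℕ), n = p * x) ∨ n ∈ ({q ^ 2 - 1, q ^ 2 + q + 1, q ^ 2 - q + 1} : Set ℕ))
    (h : m ∣ n) : n = m := by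
  have h1 := Nat.le_of_dvd (by omega) hq
  have h2 := hp.two_le
  have h3 : 5 * q ≤ q ^ 2 := by nlinarith
  have h4 : p ∣ q ^ 2 := dvd_pow hq (by simp)
  have c1 : ¬ p ∣ q + 1 := by rw [Nat.dvd_add_right hq]; simpa using hp.ne_one
  have c2 : ¬ p ∣ q - 1 := by rw [Nat.dvd_sub_iff_right (by omega) hq]; simpa using hp.ne_one
  have c3 : ∀ n ∈ ({q ^ 2 - 1, q ^ 2 + q + 1, q ^ 2 - q + 1} : Set ℕ), ¬ p ∣ n ∧ q ^ 2 - q + 1 ≤ n ∧
      n ≤ q ^ 2 + q + 1 := by
    rintro _ (rfl | rfl | rfl) <;> refine ⟨?_, by omega, by omega⟩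
    · rw [Nat.dvd_sub_iff_right (by omega) h4]; simpa using hp.ne_one
    · rw [Nat.dvd_add_right (h4.add hq)]; simpa using hp.ne_one
    · rw [Nat.dvd_add_right (Nat.dvd_sub h4 hq)]; simpa using hp.ne_one
  rcases hm with ⟨x, hx, rfl⟩ | hm <;> rcases hn with ⟨y, hy, rfl⟩ | hn
  · rw [Nat.mul_dvd_mul_iff_left hp.pos] at h
    rcases hx with rfl | rfl | rfl <;> rcases hy with rfl | rfl | rfl <;> first | rfl | exfalso
    · have := Nat.le_of_dvd (by omega) h; omega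
    · have := Nat.le_of_dvd (by omega) h; omega
    · have := Nat.le_of_dvd two_pos (show q - 1 ∣ 2 from (Nat.dvd_add_right dvd_rfl).1
        (by rwa [show q - 1 + 2 = q + 1 by omega])); omega
    · rcases (Nat.dvd_prime hp).1 h with e | e
      exacts [by omega, c2 (e ▸ dvd_rfl)]
    exacts [c1 h, c2 h]
  · exact absurd ((dvd_mul_right p x).trans h) (c3 n hn).1
  · have := Nat.le_of_dvd (by rcases hy with rfl | rfl | rfl <;> omega)
      ((hp.coprime_iff_not_dvd.2 (c3 m hm).1).symm.dvd_of_dvd_mul_left h)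
    have := (c3 m hm).2.1
    rcases hy with rfl | rfl | rfl <;> omega
  · have := c3 m hm
    have := c3 n hn
    exact (Nat.eq_of_dvd_of_lt_two_mul (by omega) h (by omega))

/-- Let F be a finite field of odd order q = p^a ≥ 5. The element orders of the Chevalley group G₂(F) that are maximal under divisibility are exactly p(q + 1), p(q − 1), q² − 1, q² + q + 1, q² − q + 1, together with p² when p is 3 or 5. -/
theorem result {F : Type*} [Field F] [Fintype F] (p a : ℕ) (hp : p.Prime) (hp2 : p ≠ 2) (ha : 1 ≤ a) (hF : Fintype.card F = p ^ a) (hq5 : 5 ≤ Fintype.card F) :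
    {n : ℕ | n ∈ Set.range (orderOf : ↥(Cfsg.Lie.chevG2.group F) → ℕ) ∧ ∀ m ∈ Set.range (orderOf : ↥(Cfsg.Lie.chevG2.group F) → ℕ), n ∣ m → m = n} =
      ({p * (p ^ a + 1), p * (p ^ a - 1), p ^ (2 * a) - 1, p ^ (2 * a) + p ^ a + 1, p ^ (2 * a) - p ^ a + 1} : Set ℕ) ∪
        (if p = 3 ∨ p = 5 then ({p ^ 2} : Set ℕ) else ∅) := by
  have := Fact.mk hp
  have : CharP F p := charP_of_card_eq_prime_pow hF
  obtain ⟨a1, a2, a3, a4, a5⟩ := G2Ord.exists_orderOf p hF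
  have a6 : p = 3 ∨ p = 5 → ∃ g : Lie.chevG2.group F, orderOf g = p ^ 2 := by
    rintro (rfl | rfl)
    · exact G2Ord.exists_orderOf_unip (F := F) 3 (k := 1) (Z := [9, 11]) (t := 2)
        (by rw [ne_eq, CharP.intCast_eq_zero_iff F 3]; decide) (by decide +kernel) (by simp) (by decide +kernel)
    · exact G2Ord.exists_orderOf_unip (F := F) 5 (k := 1) (Z := [11]) (t := 3)
        (by rw [ne_eq, CharP.intCast_eq_zero_iff F 5]; decide) (by decide +kernel) (by simp) (by decide +kernel)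
  simp only [pow_mul']
  set M := ({p * (p ^ a + 1), p * (p ^ a - 1), (p ^ a) ^ 2 - 1, (p ^ a) ^ 2 + p ^ a + 1, (p ^ a) ^ 2 - p ^ a + 1} : Set ℕ) ∪
    (if p = 3 ∨ p = 5 then ({p ^ 2} : Set ℕ) else ∅) with hM
  have h1 : M ⊆ Set.range (orderOf : Lie.chevG2.group F → ℕ) := by
    simp only [hM, Set.union_subset_iff, Set.insert_subset_iff, Set.singleton_subset_iff]
    refine ⟨⟨a1, a2, a3, a4, a5⟩, ?_⟩
    split_ifs with h
    exacts [Set.singleton_subset_iff.2 (a6 h), Set.empty_subset _]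
  have h2 : ∀ g : Lie.chevG2.group F, ∃ m ∈ M, orderOf g ∣ m := fun g => by
    by_cases h : p = 3 ∨ p = 5
    · rcases G2Ord.orderOf_dvd p (k := 2) (by rcases h with rfl | rfl <;> simp) hF g with e | e | e | e | e | e | ⟨e, -⟩
      iterate 6 exact ⟨_, by simp [hM, h], e⟩
      exact absurd e hp2
    · have h7 : 5 < p ^ 1 := by
        have := hp.two_le
        by_contra! h5
        rw [pow_one] at h5
        interval_cases p
        exacts [hp2 rfl, h (Or.inl rfl), absurd hp (by decide), h (Or.inr rfl)]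
      rcases G2Ord.orderOf_dvd p h7 hF g with e | e | e | e | e | e | ⟨e, -⟩
      iterate 5 exact ⟨_, by simp [hM], e⟩
      exacts [⟨p * (p ^ a + 1), by simp [hM], e.trans (by simp)⟩, absurd e hp2]
  have h3 : ∀ m ∈ M, (∃ x ∈ ({p ^ a + 1, p ^ a - 1, p} : Set ℕ), m = p * x) ∨
      m ∈ ({(p ^ a) ^ 2 - 1, (p ^ a) ^ 2 + p ^ a + 1, (p ^ a) ^ 2 - p ^ a + 1} : Set ℕ) := by
    rintro m ((rfl | rfl | h) | h)
    · simp
    · simp
    · exact Or.inr h
    · split_ifs at h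
      exacts [Or.inl ⟨p, by simp, h.trans (sq p)⟩, h.elim]
  ext n
  constructor
  · rintro ⟨⟨g, rfl⟩, h⟩
    obtain ⟨m, hm, e⟩ := h2 g
    exact h m (h1 hm) e ▸ hm
  · refine fun hn => ⟨h1 hn, ?_⟩
    rintro _ ⟨g, rfl⟩ h
    obtain ⟨m, hm, e⟩ := h2 g
    exact Nat.dvd_antisymm (anti hp (dvd_pow_self p (by omega)) (hF ▸ hq5) (h3 n hn) (h3 m hm) (h.trans e) ▸ e) h

end Cfsg.Agent.S2519
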