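import Cfsg.Statements.S2520
import Cfsg.Agent.Chev.AlgG2

set_option autoImplicit false
open Cfsg

namespace Cfsg.Agent.S2520

open CL.Chev

/-- Let F be a finite field with q = 2^a ≥ 4 elements and G₂(F) the Chevalley group of type G₂ over it. Every element order of G₂(F) maximal under divisibility lies in the set {8, 12, 2(q + 1), 2(q − 1), q² − 1, q² + q + 1, q² − q + 1}, and every member of that set is an element order of G₂(F). -/
theorem result {F : Type*} [Field F] [Fintype F] (a : ℕ) (ha : 2 ≤ a) (hF : Fintype.card F = 2 ^ a) :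
    {n : ℕ | n ∈ Set.range (orderOf : ↥(Cfsg.Lie.chevG2.group F) → ℕ) ∧ ∀ m ∈ Set.range (orderOf : ↥(Cfsg.Lie.chevG2.group F) → ℕ), n ∣ m → m = n} ⊆ ({8, 12, 2 * (2 ^ a + 1), 2 * (2 ^ a - 1), 2 ^ (2 * a) - 1, 2 ^ (2 * a) + 2 ^ a + 1, 2 ^ (2 * a) - 2 ^ a + 1} : Set ℕ) ∧
    ({8, 12, 2 * (2 ^ a + 1), 2 * (2 ^ a - 1), 2 ^ (2 * a) - 1, 2 ^ (2 * a) + 2 ^ a + 1, 2 ^ (2 * a) - 2 ^ a + 1} : Set ℕ) ⊆ Set.range (orderOf : ↥(Cfsg.Lie.chevG2.group F) → ℕ) := by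
  have : CharP F 2 := charP_of_card_eq_prime_pow hF
  obtain ⟨a1, a2, a3, a4, a5⟩ := G2Ord.exists_orderOf 2 hF
  have a6 := G2Ord.exists_orderOf_unip (F := F) 2 (k := 2) (Z := [11]) (t := 1) (by simp) (by decide +kernel) (by simp)
    (by decide +kernel)
  have a7 := G2Ord.exists_orderOf_twelve (F := F)
  simp only [pow_mul']
  refine ⟨?_, by simp only [Set.insert_subset_iff, Set.singleton_subset_iff]; exact ⟨a6, a7, a1, a2, a3, a4, a5⟩⟩
  rintro _ ⟨⟨g, rfl⟩, h⟩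
  rcases G2Ord.orderOf_dvd 2 (k := 3) (by simp) hF g with e | e | e | e | e | e | ⟨-, e⟩
  · simp [← h _ a1 e]
  · simp [← h _ a2 e]
  · simp [← h _ a3 e]
  · simp [← h _ a4 e]
  · simp [← h _ a5 e]
  · simp [← h _ a6 e]
  · simp [← h _ a7 e]

end Cfsg.Agent.S2520
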