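import Cfsg.Statements.S2524
import Cfsg.Agent.Blk.SpRk5

set_option autoImplicit false
open Cfsg

namespace Cfsg.Agent.S2524

/-- Let F be a finite field of odd order q and G = Sp(2n, F) with n ≥ 2. Then G has exactly four irreducible complex characters of degree (q^n + 1)/2 or (q^n − 1)/2 (two of each), and every other non-principal irreducible character has degree at least (q^n − 1)(q^n − q)/(2(q + 1)). -/
theorem result {F : Type*} [Field F] [Fintype F] (hodd : Odd (Fintype.card F)) (n : ℕ) (hn : 2 ≤ n) :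
    Nat.card {χ : Cfsg.IrrCharacter ↥(Matrix.symplecticGroup (Fin n) F) // (χ : ↥(Matrix.symplecticGroup (Fin n) F) → ℂ) 1 = (((Fintype.card F) ^ n + 1 : ℕ) : ℂ) / 2} = 2 ∧
    Nat.card {χ : Cfsg.IrrCharacter ↥(Matrix.symplecticGroup (Fin n) F) // (χ : ↥(Matrix.symplecticGroup (Fin n) F) → ℂ) 1 = (((Fintype.card F) ^ n - 1 : ℕ) : ℂ) / 2} = 2 ∧
    ∀ χ : Cfsg.IrrCharacter ↥(Matrix.symplecticGroup (Fin n) F),
      (χ : ↥(Matrix.symplecticGroup (Fin n) F) → ℂ) 1 ≠ 1 →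
      (χ : ↥(Matrix.symplecticGroup (Fin n) F) → ℂ) 1 ≠ (((Fintype.card F) ^ n + 1 : ℕ) : ℂ) / 2 →
      (χ : ↥(Matrix.symplecticGroup (Fin n) F) → ℂ) 1 ≠ (((Fintype.card F) ^ n - 1 : ℕ) : ℂ) / 2 →
      (((Fintype.card F) ^ n - 1 : ℕ) : ℝ) * (((Fintype.card F) ^ n - Fintype.card F : ℕ) : ℝ) / (2 * ((Fintype.card F : ℕ) + 1 : ℝ)) ≤ ‖(χ : ↥(Matrix.symplecticGroup (Fin n) F) → ℂ) 1‖ := by
  classical
  have : Nontrivial (Fin n) := Fin.nontrivial_iff_two_le.mpr hn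
  have h2 := CL.LS.two_ne_zero_of_odd hodd
  obtain ⟨d, hd, hm, hp⟩ := CL.Blk.Rk1.exists_irr_weil (n := Fin n) h2
  have hq : 3 ≤ Nat.card F := by
    have h9 : 1 < Fintype.card F := Fintype.one_lt_card
    rw [Nat.odd_iff] at hodd
    rw [Nat.card_eq_fintype_card]
    omega
  have hQ : 3 * Nat.card F ≤ Nat.card F ^ Fintype.card (Fin n) := by
    rw [Fintype.card_fin]
    exact le_trans (by rw [sq]; exact Nat.mul_le_mul_right _ hq) (Nat.pow_le_pow_right (by omega) hn)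
  have hlt : 2 * (Nat.card F + 1) * (d + 1) <
      (Nat.card F ^ Fintype.card (Fin n) - 1) * (Nat.card F ^ Fintype.card (Fin n) - Nat.card F) := by
    obtain ⟨r, hr⟩ : ∃ r, Nat.card F ^ Fintype.card (Fin n) = 3 * Nat.card F + r := ⟨_, (Nat.add_sub_cancel' hQ).symm⟩
    have h3 : Nat.card F ^ Fintype.card (Fin n) - 1 = 2 * d := by omega
    have h4 : Nat.card F ^ Fintype.card (Fin n) - Nat.card F = 2 * Nat.card F + r := by omega
    rw [h3, h4]
    nlinarith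
  have e1 : (((Fintype.card F) ^ n + 1 : ℕ) : ℂ) / 2 = (d + 1 : ℕ) := by
    rw [← Nat.card_eq_fintype_card, ← Fintype.card_fin n, ← hd]
    push_cast
    ring
  have e2 : (((Fintype.card F) ^ n - 1 : ℕ) : ℂ) / 2 = (d : ℕ) := by
    rw [← Nat.card_eq_fintype_card, ← Fintype.card_fin n, ← hd, Nat.add_sub_cancel]
    push_cast
    ring
  rw [e1, e2]
  refine ⟨CL.Blk.Rk1.card_eq_two h2 (by omega) hlt hp,
    CL.Blk.Rk1.card_eq_two h2 (by omega) (lt_of_le_of_lt (Nat.mul_le_mul_left _ (Nat.le_succ d)) hlt) hm,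
    fun χ h1 h3 h4 => ?_⟩
  obtain ⟨k, hk0, hk⟩ := χ.2.exists_nat_one
  rw [hk] at h1 h3 h4 ⊢
  rw [Complex.norm_natCast, div_le_iff₀ (by positivity)]
  by_contra hne
  obtain ⟨ψ, hψ⟩ := CL.LS.exists_psi_complex (F := F)
  obtain ⟨δ, hδ⟩ := FiniteField.exists_nonsquare (F := F)
    (fun h => h2 (by simpa [h] using (ringChar.spec F 2).mpr (h ▸ dvd_rfl)))
  have h5 : 2 * χ.1 1 = (Nat.card F ^ Fintype.card (Fin n) : ℕ) + 1 ∨
      2 * χ.1 1 + 1 = (Nat.card F ^ Fintype.card (Fin n) : ℕ) := by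
    rcases CL.Blk.Rk1.exists_hasType hψ h2 hδ χ.2 hk (by
      have : k ≠ 1 := fun e => h1 (by rw [e, Nat.cast_one])
      omega) (by
      rw [Fintype.card_fin, Nat.card_eq_fintype_card, mul_comm _ k]
      exact_mod_cast not_le.mp hne) with h | h
    · exact h.degree one_ne_zero
    · exact h.degree fun e : δ = 0 => hδ (e ▸ IsSquare.zero)
  rw [hk, ← hd] at h5
  rcases h5 with h | h
  · exact h3 (by push_cast at h ⊢; linear_combination h / 2)
  · exact h4 (by push_cast at h ⊢; linear_combination h / 2)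

end Cfsg.Agent.S2524
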