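import Cfsg.Statements.S2557
import Cfsg.Agent.Known.Cl2E
import Cfsg.Agent.S2385

set_option autoImplicit false
open Cfsg

namespace Cfsg.Agent.S2557

/-- The number of conjugacy classes of Sp(2n,q), q even: for F a finite field of even order q and n ≥ 1, the number k of conjugacy classes of Sp(2n,F) satisfies q^n ≤ k ≤ 15.2·q^n. -/
theorem result {F : Type*} [Field F] [Fintype F] (heven : Even (Fintype.card F)) (n : ℕ) (hn : 1 ≤ n) :
    Fintype.card F ^ n ≤ Nat.card (ConjClasses (Matrix.symplecticGroup (Fin n) F)) ∧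
      5 * Nat.card (ConjClasses (Matrix.symplecticGroup (Fin n) F)) ≤ 76 * Fintype.card F ^ n := by
  obtain ⟨p, hp⟩ := CharP.exists F
  have : Fact p.Prime := ⟨CharP.char_is_prime F p⟩
  refine ⟨(Cfsg.Agent.S2385.result rfl p _).ge.trans (Nat.card_le_card_of_injective _ Subtype.val_injective), ?_⟩
  have h1 := FiniteField.even_card_iff_char_two.mpr (Nat.even_iff.mp heven)
  rw [← Nat.card_eq_fintype_card (α := F)]
  exact CL.Cl2.card_sp_le (by simpa [h1] using (ringChar.spec F 2).mpr (h1 ▸ dvd_rfl)) n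

end Cfsg.Agent.S2557
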