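import Cfsg.Statements.S2559
import Cfsg.Agent.Known.Cl2F

set_option autoImplicit false
open Cfsg

namespace Cfsg.Agent.S2559

/-- The number of conjugacy classes of the full orthogonal groups O⁺(2n,q) and O⁻(2n,q), q even, 2n ≥ 4: for F a finite field of even order q and n ≥ 2, the number k of conjugacy classes of the isometry group of the hyperbolic quadratic form Σ xᵢyᵢ on F^{2n}, and likewise of the elliptic form Σ xᵢyᵢ + (z₁² + a z₁z₂ + b z₂²) with anisotropic binary part, satisfies q^n/2 ≤ k ≤ 15·q^n. -/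
theorem result {F : Type*} [Field F] [Fintype F] (heven : Even (Fintype.card F)) (n : ℕ) (hn : 2 ≤ n) (a b : F) (hab : ∀ z₁ z₂ : F, z₁ ^ 2 + a * z₁ * z₂ + b * z₂ ^ 2 = 0 → z₁ = 0 ∧ z₂ = 0) :
    (Fintype.card F ^ n ≤ 2 * Nat.card (ConjClasses ↥(Cfsg.isometryGroup F (Cfsg.quadFormPlus n F))) ∧
      Nat.card (ConjClasses ↥(Cfsg.isometryGroup F (Cfsg.quadFormPlus n F))) ≤ 15 * Fintype.card F ^ n) ∧
    (Fintype.card F ^ n ≤ 2 * Nat.card (ConjClasses ↥(Cfsg.isometryGroup F (Cfsg.quadFormMinus (n - 1) F a b))) ∧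
      Nat.card (ConjClasses ↥(Cfsg.isometryGroup F (Cfsg.quadFormMinus (n - 1) F a b))) ≤ 15 * Fintype.card F ^ n) := by
  obtain ⟨n, rfl⟩ := Nat.exists_eq_add_of_le' hn
  have h1 := FiniteField.even_card_iff_char_two.mpr (Nat.even_iff.mp heven)
  have h2 : (2 : F) = 0 := by simpa [h1] using (ringChar.spec F 2).mpr (h1 ▸ dvd_rfl)
  rw [← Nat.card_eq_fintype_card (α := F)]
  exact ⟨⟨CL.Cl2.le_card_o h2 hab CL.Cls.nondeg_qfPlus (CL.Cls.isomEquiv (CL.Cls.qfPlus _ F)) (by simp [two_mul]),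
    CL.Cl2.card_o_le h2 CL.Cls.nondeg_qfPlus (CL.Cls.isomEquiv (CL.Cls.qfPlus _ F)) (by simp [two_mul])⟩,
    CL.Cl2.le_card_o h2 hab (CL.Cls.nondeg_qfMinus a b hab) (CL.Cls.isomEquiv (CL.Cls.qfMinus _ F a b)) (by simp; omega),
    CL.Cl2.card_o_le h2 (CL.Cls.nondeg_qfMinus a b hab) (CL.Cls.isomEquiv (CL.Cls.qfMinus _ F a b)) (by simp; omega)⟩

end Cfsg.Agent.S2559
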