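import Cfsg.Statements.S2648
import Cfsg.Agent.Known.WrRep

set_option autoImplicit false
open Cfsg

namespace Cfsg.Agent.S2648

open scoped commutatorElement

theorem quat_metab (n : ℕ) : derivedSeries (QuaternionGroup n) 2 = ⊥ := by
  have h : ∀ x ∈ commutator (QuaternionGroup n), ∃ i, x = QuaternionGroup.a i := by
    let K : Subgroup (QuaternionGroup n) :=
      { carrier := {x | ∃ i, x = QuaternionGroup.a i}
        mul_mem' := by rintro _ _ ⟨i, rfl⟩ ⟨j, rfl⟩; exact ⟨_, rfl⟩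
        one_mem' := ⟨0, rfl⟩
        inv_mem' := by rintro _ ⟨i, rfl⟩; exact ⟨_, rfl⟩ }
    have : commutator (QuaternionGroup n) ≤ K := by
      rw [commutator_def, Subgroup.commutator_le]
      rintro (i | i) - (j | j) - <;> exact ⟨_, rfl⟩
    exact this
  rw [derivedSeries_succ, derivedSeries_one, eq_bot_iff, Subgroup.commutator_le]
  intro x hx y hy
  obtain ⟨i, rfl⟩ := h x hx
  obtain ⟨j, rfl⟩ := h y hy
  rw [Subgroup.mem_bot, commutatorElement_eq_one_iff_mul_comm]
  simp [add_comm]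

theorem metab {F : Type*} [Field F] [Finite F] (h2 : (2 : F) ≠ 0)
    (X : Subgroup (Matrix.SpecialLinearGroup (Fin 2) F)) (hX : IsPGroup 2 X) : derivedSeries X 2 = ⊥ := by
  rcases CL.SL2.isCyclic_or_quaternion h2 hX X.subtype X.subtype_injective with h | ⟨k, ⟨e⟩⟩
  · rw [derivedSeries_succ, eq_bot_iff, Subgroup.commutator_le]
    intro x _ y _
    rw [Subgroup.mem_bot, commutatorElement_eq_one_iff_mul_comm]
    exact h.isMulCommutative.is_comm.comm x y
  · by_contra hX
    exact CL.Known.derivedSeries_ne_bot_of_injective e.toMonoidHom e.injective hX (quat_metab _)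

theorem exists_group {F : Type*} [Field F] [Fintype F] (h2 : (2 : F) ≠ 0) (k : ℕ) :
    ∃ (X : Type) (_ : Group X) (_ : Finite X), IsPGroup 2 X ∧ derivedSeries X (k + 1) ≠ ⊥ ∧
      ∃ φ : X →* Matrix.symplecticGroup (Fin (2 ^ k)) F, Function.Injective φ := by
  induction k with
  | zero =>
    obtain ⟨p, _, -, hp, -⟩ := FiniteField.card' F
    haveI := Fact.mk hp
    obtain ⟨ψ, hψ⟩ := CL.SL2.exists_Q8 (F := F) p h2
    obtain ⟨φ, hφ⟩ := CL.Wr.exists_sp_wr_sl2 (F := F) 1
    refine ⟨QuaternionGroup 2, inferInstance, inferInstance, IsPGroup.of_card (n := 3) (by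
      rw [Nat.card_eq_fintype_card, QuaternionGroup.card]; rfl), fun h => ?_,
      φ.comp (SemidirectProduct.inl.comp ((Pi.constMonoidHom _ _).comp ψ)),
      hφ.comp (SemidirectProduct.inl_injective.comp (Function.const_injective.comp hψ))⟩
    have : ⁅(QuaternionGroup.a 1 : QuaternionGroup 2), QuaternionGroup.xa 0⁆ ∈ derivedSeries (QuaternionGroup 2) 1 :=
      Subgroup.commutator_mem_commutator (Subgroup.mem_top _) (Subgroup.mem_top _)
    rw [zero_add] at h
    rw [h, Subgroup.mem_bot] at this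
    revert this
    decide
  | succ k ih =>
    obtain ⟨X, _, _, hX, hd, φ, hφ⟩ := ih
    haveI : Nonempty (Fin (2 ^ k)) := ⟨⟨0, by positivity⟩⟩
    refine ⟨CL.Wr.W X (Fin 2), inferInstance, inferInstance, ?_, CL.Wr.derivedSeries_W_ne_bot hd,
      CL.Wr.exists_sp_wr (ρ := (CL.Sp.spLin _ F).comp φ) (CL.Sp.spLin_injective.comp hφ)
        (CL.Sp.stdForm_nondegenerate _ _).1 (CL.Sp.stdForm_isAlt _ _) (fun g => CL.Sp.spLin_mem _) ?_⟩
    · obtain ⟨j, hj⟩ := IsPGroup.iff_card.1 hX
      exact IsPGroup.of_card (n := j * 2 + 1) (by rw [CL.Wr.card_W, hj]; simp [pow_succ, pow_mul])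
    · rw [CL.Sp.finrank_std]; simp; ring


/-- Let q be odd, F a field with q elements and n ≥ 1. A Sylow 2-subgroup R of the symplectic group Sp_{2n}(F) has derived length exactly k + 1, where 2^k ≤ 2n < 2^{k+1}: the (k+1)-st term of its derived series is trivial and the k-th is not. -/
theorem result {F : Type*} [Field F] [Fintype F] [DecidableEq F] (q : ℕ) (hF : Fintype.card F = q) (hq : Odd q) (n : ℕ) (hn : 1 ≤ n) (R : Sylow 2 ↥(Matrix.symplecticGroup (Fin n) F)) : derivedSeries ↥(R : Subgroup ↥(Matrix.symplecticGroup (Fin n) F)) (Nat.log 2 (2 * n) + 1) = ⊥ ∧ derivedSeries ↥(R : Subgroup ↥(Matrix.symplecticGroup (Fin n) F)) (Nat.log 2 (2 * n)) ≠ ⊥ := by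
  subst hF
  have h2 : (2 : F) ≠ 0 := CL.Cls.two_ne_zero_of_odd_card hq
  have hlog : Nat.log 2 (2 * n) = Nat.log 2 n + 1 := by
    rw [mul_comm, Nat.log_mul_base (by norm_num) (by omega)]
  rw [hlog]
  constructor
  · obtain ⟨φ, hφ⟩ := CL.Wr.exists_sp_wr_sl2 (F := F) n
    obtain ⟨T⟩ : Nonempty (Sylow 2 (CL.Wr.W (Matrix.SpecialLinearGroup (Fin 2) F) (Fin n))) := inferInstance
    obtain ⟨e⟩ := CL.Wr.nonempty_sylow_equiv φ hφ (CL.Wr.val_card_sp hq n) T R
    by_contra h
    exact CL.Known.derivedSeries_ne_bot_of_injective e.symm.toMonoidHom e.symm.injective h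
      (CL.Wr.derivedSeries_eq_bot_of_pgroup (k := Nat.log 2 n) (d := 2)
        (by simpa using Nat.lt_pow_succ_log_self (by norm_num) n) (metab h2) T.isPGroup')
  · obtain ⟨X, _, _, hX, hd, φ, hφ⟩ := exists_group h2 (Nat.log 2 n)
    obtain ⟨r, hr⟩ := Nat.exists_eq_add_of_le (Nat.pow_log_le_self 2 (show n ≠ 0 by omega))
    obtain ⟨ψ, hψ⟩ : ∃ ψ : X →* Matrix.symplecticGroup (Fin n) F, Function.Injective ψ := by
      obtain ⟨θ, hθ⟩ := CL.Wr.exists_sp_prod (F := F) (2 ^ Nat.log 2 n) r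
      have := (⟨θ.comp ((MonoidHom.inl _ _).comp φ), hθ.comp ((Prod.mk_left_injective _).comp hφ)⟩ :
        ∃ ψ : X →* Matrix.symplecticGroup (Fin (2 ^ Nat.log 2 n + r)) F, Function.Injective ψ)
      rwa [← hr] at this
    obtain ⟨P, hP⟩ := (hX.of_surjective _ ψ.rangeRestrict_surjective).exists_le_sylow
    exact CL.Known.derivedSeries_ne_bot_of_injective
      ((P.equiv R).toMonoidHom.comp ((Subgroup.inclusion hP).comp ψ.rangeRestrict))
      ((P.equiv R).injective.comp ((Subgroup.inclusion_injective hP).comp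
        (MonoidHom.rangeRestrict_injective_iff.2 hψ))) hd

end Cfsg.Agent.S2648
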