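import Cfsg.Statements.S2682
import Cfsg.Agent.Known.InvTwo2
import Cfsg.Agent.S2167

set_option autoImplicit false
open Cfsg

namespace Cfsg.Agent.S2682

open CL.Known CL.Cls Module

/-- Centraliser order of an involution t of Sp_2m(q), q even, with s = rank(t − 1) even and f(v, tv) ≠ 0 for some v, f the symplectic form (type c_s): |C(t)| = q^(2ms − (3s² − 3s)/2 − 1) · |Sp_(s−2)(q)| · |Sp_(2m−2s)(q)|. -/
theorem result {F : Type*} [Field F] [Fintype F] [CharP F 2] {q : ℕ} (hF : Fintype.card F = q) {m s : ℕ} (t : Matrix.symplecticGroup (Fin m) F) (ht : t ^ 2 = 1) (hs : ((t : Matrix (Fin m ⊕ Fin m) (Fin m ⊕ Fin m) F) - 1).rank = s) (heven : Even s) (hna : ∃ v : Fin m ⊕ Fin m → F, Cfsg.sympForm m F v ((t : Matrix (Fin m ⊕ Fin m) (Fin m ⊕ Fin m) F).mulVec v) ≠ 0) : Nat.card ↥(Subgroup.centralizer ({t} : Set ↥(Matrix.symplecticGroup (Fin m) F))) = q ^ (2 * m * s - (3 * s ^ 2 - 3 * s) / 2 - 1)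 * ((q : ℕ) ^ (((s - 2) / 2) ^ 2) * ∏ i : Fin ((s - 2) / 2), (q ^ (2 * ((i : ℕ) + 1)) - 1)) * ((q : ℕ) ^ ((m - s) ^ 2) * ∏ i : Fin (m - s), (q ^ (2 * ((i : ℕ) + 1)) - 1)) := by
  subst hF
  have h1 := app_app_of_sq (CL.Sp.spEquiv _ F) ht
  have h2 := finrank_le_of_isotropic (isWittForm_alt _ (CL.Sp.stdForm_nondegenerate (Fin m) F).1
    (CL.Sp.stdForm_isAlt (Fin m) F)) (inv_isotropic (CL.Sp.spEquiv _ F t).2 h1) (CL.Sp.finrank_std m)
  rw [← sp_rng_rank] at hs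
  obtain ⟨j, hj⟩ : ∃ j, m = s + j := ⟨m - s, by omega⟩
  have h3 := sp_card_centralizer (CL.Sp.stdForm_isAlt (Fin m) F) (CL.Sp.stdForm_nondegenerate (Fin m) F) _ h1 hs ((CL.Sp.finrank_std m).trans (congrArg _ hj)) rfl
  rw [card_centralizer_congr (CL.Sp.spEquiv _ F), Fin.prod_univ_eq_prod_range (fun i => Fintype.card F ^ (2 * (i + 1)) - 1),
    Fin.prod_univ_eq_prod_range (fun i => Fintype.card F ^ (2 * (i + 1)) - 1), ← Nat.card_eq_fintype_card,
    show m - s = j by omega]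
  have h0 : s ≠ 0 := by
    rintro rfl
    obtain ⟨v, hv⟩ := hna
    rw [← S2167.alt_iff, rng_eq_bot_iff.1 (Submodule.finrank_eq_zero.1 hs)] at hv
    exact hv (CL.Sp.stdForm_isAlt _ _ v)
  obtain ⟨k, hk⟩ : ∃ k, s = 2 * k + 2 := ⟨s / 2 - 1, by rw [Nat.even_iff] at heven; omega⟩
  rw [h3.2.2 k hk (by simpa only [S2167.alt_iff] using hna), show (s - 2) / 2 = k by omega,
    show 2 * m * s - (3 * s ^ 2 - 3 * s) / 2 - 1 = 2 * k + 1 + (s * (s + 1) / 2 + 2 * s * j) by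
    have e1 := Nat.even_iff.1 (Nat.even_mul_succ_self s)
    rw [hj, pow_two, mul_assoc 2, add_mul, mul_assoc 2, mul_comm j] 
    rw [mul_add_one] at e1 ⊢
    have := Nat.le_mul_self s
    omega]
  ring

end Cfsg.Agent.S2682
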