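import Cfsg.Statements.S2756
import Cfsg.Agent.Grp.GlaubC
import Cfsg.Agent.S2758
import Cfsg.Agent.Grp.Zipper

set_option autoImplicit false
open Cfsg

namespace Cfsg.Agent.S2756

open Subgroup CL.Grp CL.Loc CL.Even

theorem eigen {G : Type*} [Group G] [Finite G] {p a : ℕ} [Fact p.Prime] {R Z : Subgroup G} {h : G}
    (hc : FpCfg p a R Z h) (hZc : Z ≤ 𝒞(Z)) (hhZ : h ∈ 𝒩(Z)) :
    ∃ x ∈ Z, x ≠ 1 ∧ h * x * h⁻¹ = x ^ a := by
  obtain ⟨-, -, V₀, -, -, w, -, h3, -, -, -, -, h8, h9, -, -, -, -, -, e6, -⟩ := hc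
  have hcm : ∀ x ∈ Z, ∀ y ∈ Z, Commute x y := fun x hx y hy => hZc hy x hx
  let ψ : Z →* G := MonoidHom.mk' (fun x => h * x * h⁻¹ * ((x : G) ^ a)⁻¹) fun x y => by
    have h1 := hcm _ (conj_mem hhZ y.2) _ (inv_mem (pow_mem x.2 a))
    rw [coe_mul, (hcm _ x.2 _ y.2).mul_pow, ((hcm _ x.2 _ y.2).pow_pow a a).eq,
      mul_inv_rev, mul_assoc (h * x * h⁻¹), ← mul_assoc ((x : G) ^ a)⁻¹, ← h1.eq]
    group
  have hψ : ∀ x : Z, ψ x ∈ Z := fun x => mul_mem (conj_mem hhZ x.2) (inv_mem (pow_mem x.2 a))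
  have hlt : V₀.subgroupOf Z < V₀.comap ψ := lt_of_le_of_ne
    (fun x hx => mul_mem (conj_mem h3 hx) (inv_mem (pow_mem hx a)))
    fun e => h9 (show (⟨w, h8⟩ : Z) ∈ V₀.subgroupOf Z from e ▸ e6)
  have hni : ¬ Function.Injective ψ := fun hi => (CL.Grp.card_lt_card_of_lt hlt).not_ge
    (Nat.card_le_card_of_injective (fun x : V₀.comap ψ => (⟨⟨ψ x, hψ x⟩, x.2⟩ : V₀.subgroupOf Z))
      fun x y e => Subtype.ext (hi (congrArg (fun t => ((t : V₀.subgroupOf Z) : Z).1) e)))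
  rw [injective_iff_map_eq_one] at hni
  push Not at hni
  obtain ⟨u, hu, hu1⟩ := hni
  exact ⟨u, u.2, fun e => hu1 (Subtype.ext e), mul_inv_eq_one.1 hu⟩

theorem pClo_iff_sylow {G : Type*} [Group G] [Finite G] :
    (∀ P : Sylow 2 G, (P : Subgroup G).Normal) ↔ PClo 2 (⊤ : Subgroup G) :=
  ⟨fun h => pClo_of_syl_norm (isSylowIn_top default) (haveI := h default; le_normalizer_of_normal),
    fun h P => normalizer_eq_top_iff.1 (top_le_iff.1 (h.le_norm (isSylowIn_top P)))⟩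

theorem not_inverts {G : Type*} [Group G] [Finite G] {N : Subgroup G} (h : PClo 2 N) {x g : G}
    (hx : x ∈ N) (ho : (orderOf x).Coprime 2) (h1 : x ≠ 1) (hg : g ∈ N) : g * x * g⁻¹ ≠ x⁻¹ := by
  intro e
  obtain ⟨n, hn, k, hk⟩ := exists_pow_pElement_modEq (p := 2) g
  have h2 : g ^ n ∈ pCoreOf 2 N :=
    h _ (zpowers_le.2 (pow_mem hg n)) (isPGroup_zpowers hk) (mem_zpowers _)
  have h3 : ∀ m : ℕ, g ^ (2 * m + 1) * x * (g ^ (2 * m + 1))⁻¹ = x⁻¹ := fun m => by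
    induction m with
    | zero => simpa using e
    | succ m ih =>
      calc _ = g * (g * (g ^ (2 * m + 1) * x * (g ^ (2 * m + 1))⁻¹) * g⁻¹) * g⁻¹ := by group
        _ = _ := by rw [ih, ← conj_inv, e, inv_inv, e]
  obtain ⟨m, rfl⟩ : Odd n := Nat.odd_iff.2 hn
  have h4 : x ^ 2 ∈ pCoreOf 2 N := by
    have := mul_mem (conj_mem (self_le_norm_core N hx) h2) (inv_mem h2)
    rwa [mul_assoc, mul_assoc, ← mul_assoc _ x⁻¹, ← conj_inv, h3, inv_inv, ← sq] at this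
  exact h1 (eq_one_of_coprime_of_mem (core_isP N) ho (mem_of_pow_mem_of_coprime ho h4))

theorem exists_dihedral {G : Type*} [Group G] [Finite G] (h : ¬ PClo 2 (⊤ : Subgroup G)) :
    ∃ (q : ℕ) (_ : Fact q.Prime), q ≠ 2 ∧ Involves (DihedralGroup q) G := by
  let X := G ⧸ pCore 2 G
  obtain ⟨t, ht⟩ := exists_prime_orderOf_dvd_card' (G := X) 2 (by
    by_contra e
    refine h fun U _ hU x hx => core_top.ge ((QuotientGroup.eq_one_iff x).1 ?_)
    obtain ⟨k, hk⟩ := isPGroup_iff_forall.1 hU x hx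
    refine eq_one_of_coprime_of_pow (p := 2) (k := k) ?_ (by rw [← QuotientGroup.mk_pow, hk]; rfl)
    exact ((Nat.Prime.coprime_iff_not_dvd Nat.prime_two).2 fun h => e (h.trans (orderOf_dvd_natCard _))).symm)
  have h1 := mt (mem_pCore_of_forall_isPGroup_closure_conj (p := 2) (x := t)) (by
    rw [pCore_quotient_pCore, mem_bot]
    rintro rfl
    simp at ht)
  push Not at h1
  obtain ⟨g, hg⟩ := h1
  have ht2 : t ^ 2 ^ 1 = 1 := by rw [pow_one]; exact orderOf_dvd_iff_pow_eq_one.1 ht.dvd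
  have ht3 : t⁻¹ = t := inv_eq_of_mul_eq_one_left (by rwa [pow_one, sq] at ht2)
  have hi : t * (t * (g * t * g⁻¹)) * t⁻¹ = (t * (g * t * g⁻¹))⁻¹ := by
    rw [mul_inv_rev, conj_inv, ht3, ← mul_assoc t t, ← sq, show t ^ 2 = 1 from ht2, one_mul]
  obtain ⟨k, hk⟩ := exists_pow_coprime (p := 2) (t * (g * t * g⁻¹))
  have hne : orderOf ((t * (g * t * g⁻¹)) ^ 2 ^ k) ≠ 1 := fun e => hg ((isPGroup_sup
    (isPGroup_zpowers ht2) (isPGroup_zpowers (orderOf_eq_one_iff.1 e))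
    (zpowers_le.2 (mem_normalizer_zpowers_of_inverts hi))).to_le ((closure_le _).2 (by
      rintro _ (rfl | rfl)
      · exact mem_sup_left (mem_zpowers _)
      · simpa using mul_mem (mem_sup_left (inv_mem (mem_zpowers t)))
          (mem_sup_right (mem_zpowers (t * (g * t * g⁻¹)))))))
  obtain ⟨q, hq, hd⟩ := Nat.exists_prime_and_dvd hne
  have : Fact q.Prime := ⟨hq⟩
  have hq2 : q ≠ 2 := by
    rintro rfl
    exact absurd (Nat.eq_one_of_dvd_coprimes hk hd dvd_rfl) (by decide)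
  obtain ⟨⟨y, hy'⟩, hy⟩ := exists_prime_orderOf_dvd_card' (G := zpowers ((t * (g * t * g⁻¹)) ^ 2 ^ k)) q
    (by rwa [Nat.card_zpowers])
  rw [orderOf_mk] at hy
  obtain ⟨n, rfl⟩ := mem_zpowers_iff.1 hy'
  refine ⟨q, this, hq2, involves_of_involves_quotient ((Cfsg.Agent.S2758.result hq2).2.2
    ⟨t, _, ⟨1, by simpa using ht⟩, ⟨1, by simpa using hy⟩, fun e => ?_, ?_⟩)⟩
  · rw [e, orderOf_one] at hy
    exact hq.one_lt.ne hy
  · simp only [← conj_zpow, ← conj_pow, hi, inv_pow, inv_zpow]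

/-- For a finite group G the following are equivalent: (a) G has a normal Sylow 2-subgroup; (b) for every odd prime q dividing the order of G and every Sylow q-subgroup T, the normalizer of Z(J(T)) has a normal Sylow 2-subgroup; (c) for every odd prime q and every Sylow q-subgroup T, no nonidentity element of T is inverted by an element of the normalizer of Z(J(T)). Here J(T) is the Thompson subgroup generated by the abelian subgroups of T of largest order. Stated as the two equivalences (a) ⇔ (b) and (a) ⇔ (c). -/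
theorem result {G : Type*} [Group G] [Finite G] : ((∀ P : Sylow 2 G, (P : Subgroup G).Normal) ↔ ∀ (q : ℕ) [Fact q.Prime], q ≠ 2 → q ∣ Nat.card G → ∀ T : Sylow q G, ∀ P : Sylow 2 ↥(Subgroup.normalizer (Cfsg.centerThompsonAOf (T : Subgroup G) : Set G)), (P : Subgroup ↥(Subgroup.normalizer (Cfsg.centerThompsonAOf (T : Subgroup G) : Set G))).Normal) ∧ ((∀ P : Sylow 2 G, (P : Subgroup G).Normal) ↔ ∀ (q : ℕ) [Fact q.Prime], q ≠ 2 → ∀ T : Sylow q G, ∀ x ∈ (T : Subgroup G), x ≠ 1 → ∀ g ∈ Subgroup.normalizer (Cfsg.centerThompsonAOf (T : Subgroup G) : Set G), g * x * g⁻¹ ≠ x⁻¹) := by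
  have hab : (∀ P : Sylow 2 G, (P : Subgroup G).Normal) → ∀ N : Subgroup G, PClo 2 N :=
    fun h N => (pClo_iff_sylow.1 h).of_le le_top
  have hsub : ∀ N : Subgroup G, PClo 2 N ↔ ∀ P : Sylow 2 N, (P : Subgroup N).Normal := fun N => by
    rw [pClo_iff_sylow, ← pClo_map_subtype, map_subtype_top]
  have hc : ∀ (q : ℕ) [Fact q.Prime], q ≠ 2 → ∀ T : Sylow q G,
      (q ∣ Nat.card G → PClo 2 𝒩(centerThompsonAOf (T : Subgroup G))) → ∀ x ∈ (T : Subgroup G), x ≠ 1 →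
      ∀ g ∈ 𝒩(centerThompsonAOf (T : Subgroup G)), g * x * g⁻¹ ≠ x⁻¹ := fun q hq hq2 T h x hx h1 g hg => by
    obtain ⟨k, hk⟩ := IsPGroup.iff_orderOf.1 T.isPGroup' ⟨x, hx⟩
    rw [orderOf_mk] at hk
    refine not_inverts (h ?_) ?_ ?_ h1 hg
    · refine dvd_trans ?_ (orderOf_dvd_natCard x)
      rw [hk]
      exact dvd_pow_self q fun e => h1 (orderOf_eq_one_iff.1 (by rw [hk, e, pow_zero]))
    · rw [centerThompsonAOf_eq]
      exact normalizer_le_normalizer_centerThompsonOf 0 _ (le_normalizer hx)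
    · rw [hk]
      exact Nat.Coprime.pow_left k ((Nat.coprime_primes hq.out Nat.prime_two).2 hq2)
  have hca : (∀ (q : ℕ) [Fact q.Prime], q ≠ 2 → ∀ T : Sylow q G, ∀ x ∈ (T : Subgroup G), x ≠ 1 →
      ∀ g ∈ 𝒩(centerThompsonAOf (T : Subgroup G)), g * x * g⁻¹ ≠ x⁻¹) →
      ∀ P : Sylow 2 G, (P : Subgroup G).Normal := fun h => by
    rw [pClo_iff_sylow]
    by_contra hn
    obtain ⟨q, hq, hq2, hD⟩ := exists_dihedral hn
    obtain ⟨t, y, -, ⟨k, hk⟩, hy1, hy⟩ := (Cfsg.Agent.S2758.result hq2).2.1 hD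
    obtain ⟨T, hT⟩ := (isPGroup_zpowers (hk ▸ pow_orderOf_eq_one y)).exists_le_sylow
    replace h := h q hq2 T
    rw [centerThompsonAOf_eq] at h
    by_cases hc : CtlFus 𝒩(centerThompsonOf 0 (T : Subgroup G)) T ⊤
    · obtain ⟨g, hg, e⟩ := hc (zpowers y) hT t trivial
        ((cj_eq (mem_normalizer_zpowers_of_inverts hy)).le.trans hT)
      exact h y (hT (mem_zpowers y)) hy1 g hg ((e y (mem_zpowers y)).symm.trans hy)
    obtain ⟨a, ha⟩ := exists_primitive_natCast (p := q)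
    obtain ⟨R, g, -, hg, H⟩ := exists_fpCfg_of_not_ctlFus hq2 (natCast_ne_zero_of_primitive hq2 ha)
      (isSylowIn_top T) hc
    obtain ⟨u, hu, hu1, e⟩ := eigen H (centerThompsonOf_le_centralizer _) hg
    have huT := centerThompsonOf_le _ hu
    obtain ⟨⟨x, hx'⟩, hx⟩ := exists_prime_orderOf_dvd_card' (G := zpowers u) q
      ((T.isPGroup'.to_le (zpowers_le.2 huT)).card_eq_or_dvd.resolve_left fun e =>
        hu1 (zpowers_eq_bot.1 (card_eq_one.1 e)))
    rw [orderOf_mk] at hx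
    obtain ⟨n, rfl⟩ := mem_zpowers_iff.1 hx'
    obtain ⟨m, hm⟩ := ha (-1) (neg_ne_zero.2 one_ne_zero)
    refine h (u ^ n) (zpow_mem huT n) (fun e => hq.out.one_lt.ne (by rw [← hx]; simp [e])) (g ^ m)
      (pow_mem hg m) ?_
    have e' : ∀ k : ℕ, g ^ k * u ^ n * (g ^ k)⁻¹ = (u ^ n) ^ a ^ k := fun k => by
      induction k with
      | zero => simp
      | succ k ih =>
        calc _ = g ^ k * (g * u * g⁻¹) ^ n * (g ^ k)⁻¹ := by rw [conj_zpow, pow_succ]; group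
          _ = (g ^ k * u ^ n * (g ^ k)⁻¹) ^ a := by
            rw [e, conj_pow, ← zpow_natCast u, ← zpow_natCast (u ^ n), ← zpow_mul, ← zpow_mul, mul_comm n]
          _ = _ := by rw [ih, ← pow_mul, pow_succ]
    rw [e', eq_inv_iff_mul_eq_one, ← pow_succ, ← orderOf_dvd_iff_pow_eq_one, show orderOf (u ^ n) = q from hx,
      ← ZMod.natCast_eq_zero_iff]
    simp [hm]
  exact ⟨⟨fun h q _ _ _ T => (hsub _).1 (hab h _),
    fun h => hca fun q _ hq T => hc q hq T fun hd => (hsub _).2 (h q hq hd T)⟩,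
    fun h q _ hq T => hc q hq T fun _ => hab h _, hca⟩

end Cfsg.Agent.S2756
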