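import Cfsg.Statements.S2793
import Cfsg.Agent.Grp.GlaubC

set_option autoImplicit false
open Cfsg

namespace Cfsg.Agent.S2793

/-- Let p be an odd prime, S a Sylow p-subgroup of the finite group G, J(S) the subgroup generated by the abelian subgroups of S of largest order, and suppose Z(J(S)) does not control strong fusion in G. Put H = N_G(Z(J(S))). Then the group F(p) of upper triangular 3 × 3 matrices (a b c; 0 a⁻¹ d; 0 0 1) over the field with p elements is involved in H, and Z(J(S)) contains a subgroup C of order p with |N_H(C) : C_H(C)| = p − 1. -/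
theorem result {G : Type*} [Group G] [Finite G] {p : ℕ} [Fact p.Prime] (hp : p ≠ 2) (S : Sylow p G) (h : ¬ Cfsg.ControlsStrongFusion p (Cfsg.centerThompsonAOf (S : Subgroup G))) (H : Subgroup G) (hH : H = Subgroup.normalizer ((Cfsg.centerThompsonAOf (S : Subgroup G)) : Set G)) : Cfsg.Involves ↥(Cfsg.fOver (ZMod p)) ↥H ∧ ∃ C : Subgroup G, C ≤ (Cfsg.centerThompsonAOf (S : Subgroup G)) ∧ Nat.card C = p ∧ (H ⊓ Subgroup.centralizer (C : Set G)).relIndex (H ⊓ Subgroup.normalizer (C : Set G)) = p - 1 := by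
  rw [CL.Grp.centerThompsonAOf_eq] at h hH ⊢
  subst hH
  obtain ⟨a, ha⟩ := CL.Grp.exists_primitive_natCast (p := p)
  obtain ⟨R, g, hR, hg, H⟩ := CL.Grp.exists_fpCfg_of_not_ctlFus hp
    (CL.Grp.natCast_ne_zero_of_primitive hp ha) (CL.Grp.isSylowIn_top S)
    fun hc => h ⟨S, CL.Loc.centerThompsonOf_le _, hc.controls⟩
  exact ⟨H.involves hp ha (hR.trans (Subgroup.le_normalizer.trans
    (CL.Grp.normalizer_le_normalizer_centerThompsonOf 0 _))) hg,
    H.exists_automizer ha (S.isPGroup'.to_le (CL.Loc.centerThompsonOf_le _))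
      (CL.Loc.centerThompsonOf_le_centralizer _) hg hg⟩

end Cfsg.Agent.S2793
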