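import Cfsg.Statements.S2794
import Cfsg.Agent.Grp.ZJ2

set_option autoImplicit false
open Cfsg

namespace Cfsg.Agent.S2794

/-- For an odd prime p and a finite group G, the group Qd(p) is not involved in G if and only if in every section K/R of G, for every Sylow p-subgroup S* of K/R, the centre of J(S*) (J generated by the abelian subgroups of largest order) controls strong fusion in K/R. -/
theorem result {G : Type*} [Group G] [Finite G] {p : ℕ} [Fact p.Prime] (hp : p ≠ 2) : ¬ Cfsg.Involves ↥(Cfsg.qd p) G ↔ ∀ (K R : Subgroup G) [hR : (R.subgroupOf K).Normal], ∀ T : Sylow p (K ⧸ R.subgroupOf K), Cfsg.ControlsStrongFusion p (Cfsg.centerThompsonAOf (T : Subgroup (K ⧸ R.subgroupOf K))) := by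
  constructor
  · intro h K R hR T
    rw [CL.Grp.centerThompsonAOf_eq]
    exact ⟨T, CL.Loc.centerThompsonOf_le _, (CL.Grp.zj_ctlFus_of_not_involves_qd hp (Or.inr rfl)
      (fun h' => h (CL.Loc.involves_trans h' (CL.Loc.involves_section K R))) (CL.Grp.isSylowIn_top T)
      (CL.Grp.isStronglyClosed_self _)).controls⟩
  · rintro h ⟨K, R, hR, ⟨e⟩⟩
    obtain ⟨T⟩ : Nonempty (Sylow p (K ⧸ R.subgroupOf K)) := inferInstance
    have := h K R T
    rw [CL.Grp.centerThompsonAOf_eq] at this
    exact CL.Grp.not_controlsStrongFusion_of_equiv_qd e (Or.inr rfl) T this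

end Cfsg.Agent.S2794
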