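import Cfsg.Statements.S2896
import Cfsg.Agent.Even.ParChar

set_option autoImplicit false
open Cfsg

namespace Cfsg.Agent.S2896

open Subgroup CL.Even CL.Grp

/-- Let p be a prime dividing the order of the finite group G, S a Sylow p-subgroup of G and X a subgroup of S. (i) If some nontrivial element z of the centre of X has F*(C_G(z)) = O_p(C_G(z)), then F*(N_G(X)) = O_p(N_G(X)). (ii) G has parabolic characteristic p if and only if F*(C_G(z)) = O_p(C_G(z)) for every nontrivial z ∈ Ω₁(Z(S)). (iii) If F*(C_G(z)) = O_p(C_G(z)) for every element z of S of order p, then G has local characteristic p. -/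
theorem result {G : Type*} [Group G] [Finite G] {p : ℕ} [Fact p.Prime] (hdiv : p ∣ Nat.card G) (S : Sylow p G) (X : Subgroup G) (hX : X ≤ (S : Subgroup G)) : (∀ z : G, z ≠ 1 → z ∈ X → (∀ x ∈ X, x * z = z * x) → Cfsg.generalizedFittingSubgroup ↥(Subgroup.centralizer ({z} : Set G)) = Cfsg.pCore p ↥(Subgroup.centralizer ({z} : Set G)) → Cfsg.generalizedFittingSubgroup ↥(Subgroup.normalizer (X : Set G)) = Cfsg.pCore p ↥(Subgroup.normalizer (X : Set G))) ∧ (Cfsg.IsOfParabolicCharacteristic p G ↔ ∀ z : G, z ≠ 1 → z ∈ Cfsg.omegaOne p ((S : Subgroup G) ⊓ Subgroup.centralizer ((S : Subgroup G) : Set G)) → Cfsg.generalizedFittingSubgroup ↥(Subgroup.centralizer ({z} : Set G)) = Cfsg.pCore p ↥(Subgroup.centralizer ({z} : Set G))) ∧ ((∀ z : G, z ∈ (S : Subgroup G) → orderOf z = p → Cfsg.generalizedFittingSubgroup ↥(Subgroup.centralizer ({z} : Set G)) = Cfsg.pCore p ↥(Subgroup.centralizer ({z} : Set G))) → Cfsg.IsOfLocalCharacteristic p G) := by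
  simp only [← isCharP_iff_fstar]
  refine ⟨fun z _ hz hc h => IsCharP.norm_of_cent_singleton (S.isPGroup'.to_le hX) hz hc h,
    ⟨fun h z hz1 hz => ?_, fun h => ?_⟩, fun h => ⟨hdiv, fun T hT hne => ?_⟩⟩
  · have := omegaOne_le _ hz
    exact isCharP_cent_of_parabolic h S hz1 this.1 this.2
  · exact isOfParabolicCharacteristic_of_cent S fun z hz1 hz hc hp =>
      h z hz1 (subset_closure ⟨⟨hz, hc⟩, hp⟩)
  · refine isCharP_iff.1 (isCharP_norm_of_forall_cent (fun z hz => ?_) hT hne)
    obtain ⟨g, hg⟩ := exists_conj_le_sylow S (U := zpowers z)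
      (isPGroup_zpowers (k := 1) (by rw [pow_one, ← hz, pow_orderOf_eq_one]))
    have := (h (g * z * g⁻¹) (hg (conj_mem_conj_smul g (mem_zpowers z)))
      (by rw [← hz]; exact (MulAut.conj g).orderOf_eq z)).cj g⁻¹
    rw [cj_cent_singleton] at this
    simpa [mul_assoc] using this

end Cfsg.Agent.S2896
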