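import Cfsg.Statements.S2898
import Cfsg.Agent.Even.ParChar

set_option autoImplicit false
open Cfsg

namespace Cfsg.Agent.S2898

open Subgroup CL.Even CL.Grp

/-- Let G be a finite group of even order with parabolic characteristic 2. If the centre of G ⧸ O(G) is trivial, then O(G) = 1. -/
theorem result {G : Type*} [Group G] [Finite G] (h2 : 2 ∣ Nat.card G) (hG : Cfsg.IsOfParabolicCharacteristic 2 G) [hN : (Cfsg.oddCore G).Normal] (hZ : Subgroup.center (G ⧸ Cfsg.oddCore G) = ⊥) : Cfsg.oddCore G = ⊥ := by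
  obtain ⟨S⟩ := (inferInstance : Nonempty (Sylow 2 G))
  have key : ∀ z : G, z ≠ 1 → z ∈ S → z ∈ 𝒞((S : Subgroup G)) →
      oddCore G ⊓ centralizer ({z} : Set G) = ⊥ := fun z hz1 hz hc =>
    (isCharP_cent_of_parabolic hG S hz1 hz hc).eq_bot_of_coprime inf_le_right
      (le_norm_inf le_normalizer_of_normal le_normalizer) (coprime_of_le_pPrimeCore inf_le_left)
  by_cases hC : (S : Subgroup G) ⊓ 𝒞(oddCore G) = ⊥
  · exfalso
    have hle : 𝒞(oddCore G) ≤ oddCore G := by
      refine le_pPrimeCore_of_not_dvd fun hd => ?_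
      have h1 := isSylowIn_inf_normal S 𝒞(oddCore G)
      rw [hC] at h1
      exact h1.not_dvd (by rwa [relIndex_bot_left])
    have hS : (S : Subgroup G) ≠ ⊥ := S.ne_bot_of_dvd_card h2
    obtain ⟨z, hz, hz1, hzp⟩ := exists_mem_pow_eq_one (S.isPGroup'.to_inf_left)
      (inf_cent_ne_bot S.isPGroup' S.isPGroup' le_normalizer hS)
    have hinv := fun x hx => inverts_of_inf_cent_eq_bot (K := oddCore G) (x := x)
      (by rw [← sq, hzp]) (le_normalizer_of_normal (mem_top z)) (key z hz1 hz.1 hz.2) hx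
    have hzc : (QuotientGroup.mk z : G ⧸ oddCore G) ∈ center (G ⧸ oddCore G) := by
      rw [mem_center_iff]
      intro q
      obtain ⟨g, rfl⟩ := QuotientGroup.mk_surjective q
      rw [← QuotientGroup.mk_mul, ← QuotientGroup.mk_mul, QuotientGroup.eq]
      refine hle fun x hx => ?_
      have h1 := hinv (g * x * g⁻¹) (hN.conj_mem x hx g)
      have h3 := hinv x hx
      have h4 : x = z⁻¹ * x⁻¹ * z := by rw [← h3]; group
      calc x * ((g * z)⁻¹ * (z * g)) = (z⁻¹ * x⁻¹ * z) * ((g * z)⁻¹ * (z * g)) := by rw [← h4]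
        _ = (g * z)⁻¹ * (g * x * g⁻¹)⁻¹ * (z * g) := by group
        _ = (g * z)⁻¹ * (z * g) * x := by rw [← h1]; group
    rw [hZ, mem_bot, QuotientGroup.eq_one_iff] at hzc
    have : z ∈ (S : Subgroup G) ⊓ pPrimeCore 2 G := ⟨hz.1, hzc⟩
    rw [inf_pPrimeCore_eq_bot S.isPGroup', mem_bot] at this
    exact hz1 this
  · obtain ⟨z, hz, hz1, -⟩ := exists_mem_pow_eq_one (S.isPGroup'.to_inf_left.to_inf_left)
      (inf_cent_ne_bot S.isPGroup'.to_inf_left S.isPGroup'
        (le_norm_inf le_normalizer le_normalizer_of_normal) hC)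
    have := key z hz1 hz.1.1 hz.2
    rwa [inf_eq_left.2 (le_cent_singleton hz.1.2)] at this

end Cfsg.Agent.S2898
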