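import Cfsg.Statements.S2905
import Cfsg.Agent.Even.PMin2

set_option autoImplicit false
open Cfsg

namespace Cfsg.Agent.S2905

/-- Let P be a finite p-minimal group (a Sylow p-subgroup S is not normal and lies in a unique maximal subgroup M of P) and let F be the normal core of M. Then: every subnormal subgroup N of P contained in M satisfies N ∩ S ≤ O_p(P); if O^p(P) has a normal Sylow p-subgroup then the order of P has at most two prime divisors; every normal subgroup N of P either contains O^p(P) or is contained in F; and O^p(P)F ⧸ F is a minimal normal subgroup of P ⧸ F. -/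
theorem result {P : Type*} [Group P] [Finite P] {p : ℕ} [Fact p.Prime] (hP : Cfsg.IsPMinimal p P) (S : Sylow p P) (M : Subgroup P) (hM : IsCoatom M) (hSM : (S : Subgroup P) ≤ M) [hF : M.normalCore.Normal] : (∀ N : Subgroup P, N.IsSubnormal → N ≤ M → N ⊓ (S : Subgroup P) ≤ Cfsg.pCore p P) ∧ ((∀ T : Sylow p ↥(Cfsg.pResidual p P), (T : Subgroup ↥(Cfsg.pResidual p P)).Normal) → (Nat.card P).primeFactors.card ≤ 2) ∧ (∀ N : Subgroup P, N.Normal → Cfsg.pResidual p P ≤ N ∨ N ≤ M.normalCore) ∧ (∀ N : Subgroup P, N.Normal → M.normalCore ≤ N → N ≤ Cfsg.pResidual p P ⊔ M.normalCore → N = M.normalCore ∨ N = Cfsg.pResidual p P ⊔ M.normalCore) ∧ M.normalCore < Cfsg.pResidual p P ⊔ M.normalCore := by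
  open Subgroup CL.Even CL.Grp commutatorElement in
  have hS := isSylowIn_top S
  obtain ⟨hn, M', hu⟩ := (isPMinimal_top_iff S).mp hP
  obtain rfl : M = M' := (umax_top_iff.mp hu).2.2 M hM hSM
  have h3 : ∀ N : Subgroup P, N.Normal → pResidual p P ≤ N ∨ N ≤ M.normalCore := fun N hN => by
    by_cases e : N ≤ M
    · exact Or.inr (normal_le_normalCore.mpr e)
    · exact Or.inl (res_top.ge.trans (hu.res_le hS le_top (normal_iff_top_le.mp hN) e))
  refine ⟨fun N hN h => (hu.le_core_of_subnIn hS (subnIn_top_iff.mpr hN) h inf_le_left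
    (S.isPGroup'.to_le inf_le_right)).trans core_top.le, fun h => ?_, h3, fun N hN h1 h2 =>
    (h3 N hN).symm.imp (le_antisymm · h1) fun e => le_antisymm h2 (sup_le e h1),
    lt_of_le_of_ne le_sup_right fun e => hu.not_res_le hS
      (res_top.le.trans ((le_sup_left.trans e.ge).trans (normalCore_le M)))⟩
  set f := QuotientGroup.mk' (pCore p P)
  have hk : f.ker ≤ M := by
    rw [QuotientGroup.ker_mk', ← core_top]; exact (core_le_syl hS).trans hSM
  have hu' := hu.map f (inf_le_left.trans hk)
  have hS' := syl_map f hS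
  have hcl : PClo p (pResidualOf p (⊤ : Subgroup P)) := by
    rw [res_top]
    obtain ⟨T⟩ : Nonempty (Sylow p (pResidual p P)) := inferInstance
    refine pClo_of_syl_norm (isSylowIn_map_subtype T) ?_
    have := map_le_norm_map (pResidual p P).subtype (normal_iff_top_le.mp (h T))
    rwa [map_subtype_top] at this
  obtain ⟨q, Q, hq, h4, h5, h6⟩ := hu'.exists_syl_sup_eq hS'.isPGroup (res_le _)
    (hS'.le.trans (self_le_norm_res _)) (coprime_card_of_forall fun U hU hp => by
      rw [← map_res] at hU
      have := (hcl.map f).le_core_of_normal le_top (le_top.trans (by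
        rw [map_res, map_top_of_surjective f (QuotientGroup.mk'_surjective _)]
        exact self_le_norm_res _)) hU hp
      rwa [core_top, pCore_quotient_eq_bot_iff.mpr fun _ hD hr =>
        le_pCore_of hD (isPGroup_of_res_le pCore_isP hr), le_bot_iff] at this) (hu'.not_res_le hS')
  have : Fact q.Prime := ⟨hq⟩
  refine (Finset.card_le_card (t := {p, q}) fun r hr => ?_).trans Finset.card_le_two
  obtain ⟨hr, hd, -⟩ := Nat.mem_primeFactors.mp hr
  obtain ⟨a, ha⟩ := (pCore_isP (p := p) (G := P)).exists_card_eq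
  obtain ⟨b, hb⟩ := hS'.isPGroup.exists_card_eq
  obtain ⟨c, hc⟩ := h4.isPGroup.exists_card_eq
  have h7 : Nat.card (P ⧸ pCore p P) ∣ p ^ b * q ^ c := by
    rw [← hb, ← hc, ← card_top, ← map_top_of_surjective f (QuotientGroup.mk'_surjective _), ← h6]
    exact card_sup_dvd h5
  rw [card_eq_card_quotient_mul_card_subgroup (pCore p P), ha] at hd
  have hp' := fun n (h : r ∣ p ^ n) =>
    (Nat.prime_dvd_prime_iff_eq hr Fact.out).mp (hr.dvd_of_dvd_pow h)
  rcases (Nat.Prime.dvd_mul hr).mp hd with e | e
  · rcases (Nat.Prime.dvd_mul hr).mp (e.trans h7) with e | e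
    · simp [hp' _ e]
    · simp [(Nat.prime_dvd_prime_iff_eq hr hq).mp (hr.dvd_of_dvd_pow e)]
  · simp [hp' _ e]

end Cfsg.Agent.S2905
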