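import Cfsg.Statements.S2906
import Cfsg.Agent.Even.PMin2

set_option autoImplicit false
open Cfsg

namespace Cfsg.Agent.S2906

/-- Let P be a finite p-minimal group with O_p(P) = 1, S a Sylow p-subgroup of P and K a component of P. Then O^p(P) = F*(P) = E(P) is generated by the S-conjugates of K, and the subgroup K·N_S(K) is again p-minimal. -/
theorem result {P : Type*} [Group P] [Finite P] {p : ℕ} [Fact p.Prime] (hP : Cfsg.IsPMinimal p P) (hOp : Cfsg.pCore p P = ⊥) (S : Sylow p P) (K : Subgroup P) (hK : Cfsg.IsComponent K) : Cfsg.pResidual p P = Cfsg.generalizedFittingSubgroup P ∧ Cfsg.generalizedFittingSubgroup P = Cfsg.layer P ∧ Cfsg.layer P = ⨆ s : ↥(S : Subgroup P), K.map (MulAut.conj (s : P)).toMonoidHom ∧ Cfsg.IsPMinimal p ↥(K ⊔ ((S : Subgroup P) ⊓ Subgroup.normalizer (K : Set P))) := by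
  open Subgroup CL.Even CL.Grp commutatorElement in
  have hS := isSylowIn_top S
  obtain ⟨hn, M, hu⟩ := (isPMinimal_top_iff S).mp hP
  have hO : pCoreOf p (⊤ : Subgroup P) = ⊥ := core_top.trans hOp
  have hq := CL.Loc.IsComponent.quasisimple hK
  have hs := subnIn_top_iff.mpr (CL.Loc.IsComponent.subnormal hK)
  have hKK := CL.Loc.IsComponent.commutator_self hK
  have hKM : ¬ K ≤ M := fun e => by
    have h1 := hu.ncl_le_of_subnIn hs e
    have h2 := hu.pClo_of_le hS (le_norm_ncl ⊤ K) h1
    have h3 : (Nat.card (ncl ⊤ K)).Coprime p := coprime_card_of_forall fun U hU hp =>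
      eq_bot_iff.mpr ((h2.le_core_of_normal le_top (le_norm_ncl ⊤ K) hU hp).trans hO.le)
    refine CL.Loc.IsQuasisimple.not_le_of_isSolvable hq
      (@IsNilpotent.to_isSolvable _ _ (fittingOf_isNilpotent (⊤ : Subgroup P))) ((le_ncl ⊤ K).trans
        (le_of_forall_exists_isSylowIn_le fun q hq _ => ?_))
    have : Fact q.Prime := ⟨hq⟩
    obtain ⟨Q, h4, h5⟩ := exists_isSylowIn_le_normalizer q (le_top.trans (le_norm_ncl ⊤ K))
      (CL.Even.coprime_card_of_isPGroup S.isPGroup' h3) (Or.inl (isSolvable_of_isPGroup S.isPGroup'))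
    refine ⟨Q, h4, le_trans (le_core le_top h4.isPGroup ?_) (pCoreOf_le_fittingOf q ⊤)⟩
    by_contra e'
    exact hu.not_le ((frattini_sup h4 le_top (le_norm_ncl ⊤ K)).ge.trans
      (sup_le (hu.inf_norm_le h5 e') h1))
  have key : ∀ X : Subgroup P, ¬ X ≤ M → pResidualOf p (⊤ : Subgroup P) ≤ ncl S X := fun X h => by
    rw [← hu.sup_eq (le_top : ncl S X ≤ ⊤) fun e => h ((le_ncl _ _).trans e)]
    exact res_sup_le_of_isPGroup S.isPGroup' (le_norm_ncl _ _)
  have hKr : K ≤ pResidualOf p (⊤ : Subgroup P) :=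
    (res_eq_self_of_perfect hKK).ge.trans (res_mono le_top)
  have h1 : ncl S K ≤ layer P := ncl_le (CL.Loc.IsComponent.le_layer hK) le_normalizer_of_normal
  have h2 : generalizedFittingSubgroup P ≤ pResidual p P := by
    rw [← CL.Loc.fstarOf_top, ← res_top, ← res_eq_self_of_fstar (fstarOf_fstarOf ⊤)
      (core_eq_bot_of_subnIn (fstarOf_subnIn ⊤) hO)]
    exact res_mono le_top
  have h3 := res_top.ge.trans (key K hKM)
  refine ⟨le_antisymm ((h3.trans h1).trans CL.Loc.layer_le_fstar) h2, le_antisymm ((h2.trans h3).trans h1)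
    CL.Loc.layer_le_fstar, le_antisymm ((CL.Loc.layer_le_fstar.trans h2).trans h3) h1, ?_⟩
  set S₀ := (S : Subgroup P) ⊓ normalizer (K : Set P)
  have hX : ∀ X : Subgroup P, X ≤ K → ¬ K ≤ X → S₀ ≤ normalizer (X : Set P) → X ≤ M :=
      fun X h4 h5 h6 => by
    by_contra e
    have h7 : K ≤ X ⊔ centralizer (K : Set P) := (hKr.trans (key X e)).trans (ncl_le_iff.mpr
      fun s hs' => by
        rcases CL.Loc.IsComponent.eq_or_commutator_eq_bot hK (CL.Loc.IsComponent.conj hK s) with e' | e'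
        · exact le_sup_of_le_left (cj_eq (h6 ⟨hs', cj_eq_iff_mem.mp e'.symm⟩)).le
        · exact le_sup_of_le_right ((cj_mono s h4).trans (commutator_eq_bot_iff'.mp e')))
    have h8 : K ≤ X ⊔ centralizer (K : Set P) ⊓ K := by
      rw [← inf_sup_eq_of_le_norm (Or.inl (h4.trans (le_norm_cent le_normalizer))) h4]
      exact le_inf h7 le_rfl
    refine h5 (hKK.ge.trans ((commutator_mono h8 le_rfl).trans (commutator_sup_le' le_normalizer
      ((inf_le_left.trans (cent_mono h4)).trans (cent_le_norm _)) ?_ ?_)))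
    · refine (commutator_mono le_rfl h8).trans (commutator_sup_le le_normalizer
        ((inf_le_left.trans (cent_mono h4)).trans (cent_le_norm _))
        (commutator_le_of_le_norm le_normalizer) ?_)
      rw [commutator_eq_bot_iff'.mpr (inf_le_left.trans (cent_mono h4))]; exact bot_le
    · rw [commutator_eq_bot_iff'.mpr (le_centralizer_iff.mp inf_le_left)]; exact bot_le
  have hded : ∀ X : Subgroup P, S₀ ≤ X → X ≤ K ⊔ S₀ → X = S₀ ⊔ K ⊓ X := fun X h4 h5 => by
    rw [← inf_sup_eq_of_le_norm (Or.inl inf_le_right) h4, sup_comm, inf_eq_right.mpr h5]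
  have hS₀ : IsSylowIn p S₀ (K ⊔ S₀) := isSylowIn_of_maximal le_sup_right
    (S.isPGroup'.to_le inf_le_left) fun U hU h4 h5 => by
      rw [hded U h4 h5, (syl_inf_of_subnIn hs hS).eq_of_le (hU.to_le inf_le_right) (le_inf inf_le_right
        ((inf_le_inf_left _ le_normalizer).trans h4)) inf_le_left]
      exact sup_eq_left.mpr (inf_le_inf_left _ le_normalizer)
  refine (isPMinimal_iff hS₀).mpr ⟨fun e => hKM fun x hx => ?_, M ⊓ (K ⊔ S₀),
    le_inf (inf_le_left.trans hu.le) le_sup_right, lt_of_le_of_ne inf_le_right fun e =>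
      hKM ((le_sup_left.trans e.ge).trans inf_le_left), fun X h4 h5 => le_inf ?_ h5.le⟩
  · have h4 : ⁅K, S₀⁆ = ⊥ := eq_bot_iff.mpr ((le_core (commutator_le_of_le_norm inf_le_right)
      (hS₀.isPGroup.to_le (commutator_le_of_le_norm' (le_sup_left.trans e)))
      (normalizer_commutator_ge_left _ _)).trans (core_eq_bot_of_subnIn hs hO).le)
    refine hX (zpowers x) (zpowers_le.mpr hx) (fun e' => CL.Loc.IsQuasisimple.not_le_centralizer hq ?_)
      (((commutator_eq_bot_iff'.mp h4).trans (cent_mono (zpowers_le.mpr hx))).trans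
        (cent_le_norm _)) (mem_zpowers x)
    exact (e'.trans (le_centralizer_iff_isMulCommutative.mpr inferInstance)).trans (cent_mono e')
  · rw [hded X h4 h5.le]
    exact sup_le (inf_le_left.trans hu.le) (hX _ inf_le_left (fun e => h5.not_ge
      (sup_le (e.trans inf_le_right) h4)) (le_norm_inf inf_le_right (le_norm_of_le h4)))

end Cfsg.Agent.S2906
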