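import Cfsg.Statements.S2907
import Cfsg.Agent.Grp.ExtraBasic

set_option autoImplicit false
open Cfsg

open scoped commutatorElement

namespace Cfsg.Agent.S2907

/-- Let X be a finite semi-extraspecial p-group and x an element of X outside the centre. Then the index of C_X(x) in X equals the order of Z(X), and the commutators [x, y], y ∈ X, form exactly the centre Z(X). -/
theorem result {X : Type*} [Group X] [Finite X] {p : ℕ} [Fact p.Prime] (hX : Cfsg.IsSemiExtraspecial p X) (x : X) (hx : x ∉ Subgroup.center X) : (Subgroup.centralizer ({x} : Set X)).index = Nat.card ↥(Subgroup.center X) ∧ {z : X | ∃ y : X, z = x * y * x⁻¹ * y⁻¹} = (Subgroup.center X : Set X) := by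
  have hc : ∀ a b : X, ⁅a, b⁆ ∈ Subgroup.center X := fun a b =>
    hX.1.2.2 ▸ CL.Grp.comm_mem_commutator a b
  let δ : X →* Subgroup.center X := MonoidHom.mk' (fun a => ⟨_, hc x a⟩)
    fun a b => Subtype.ext (CL.Grp.comm_mul_right_of_central (hc x b))
  have hk : δ.ker = Subgroup.centralizer ({x} : Set X) := by
    ext a
    rw [MonoidHom.mem_ker, Subtype.ext_iff, Subgroup.mem_centralizer_singleton_iff]
    exact commutatorElement_eq_one_iff_mul_comm.trans eq_comm
  have htop : δ.range = ⊤ := by
    by_contra h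
    obtain ⟨M, hM, hle⟩ := (eq_top_or_exists_le_coatom δ.range).resolve_left h
    have hM' : (M.map (Subgroup.center X).subtype).subgroupOf (Subgroup.center X) = M :=
      Subgroup.comap_map_eq_self_of_injective (Subgroup.subtype_injective _) M
    obtain ⟨hn, hE⟩ := hX.2 (M.map (Subgroup.center X).subtype) (Subgroup.map_subtype_le M)
      (hM'.symm ▸ hM)
    set Y := M.map (Subgroup.center X).subtype
    have h1 : (x : X ⧸ Y) ∈ Subgroup.center (X ⧸ Y) := Subgroup.mem_center_iff.mpr fun g => by
      obtain ⟨g, rfl⟩ := QuotientGroup.mk'_surjective Y g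
      rw [eq_comm, ← QuotientGroup.mk'_apply, ← commutatorElement_eq_one_iff_mul_comm,
        ← map_commutatorElement]
      exact (QuotientGroup.eq_one_iff _).mpr ⟨δ g, hle ⟨g, rfl⟩, rfl⟩
    rw [← CL.Grp.extra_commutator_eq hE, commutator_def, ← Subgroup.map_top_of_surjective _
      (QuotientGroup.mk'_surjective Y), ← Subgroup.map_commutator, ← commutator_def,
      hX.1.2.2] at h1
    obtain ⟨y, hy, hxy⟩ := h1
    have h2 : y⁻¹ * x ∈ Y := QuotientGroup.eq.mp hxy
    have := Subgroup.mul_mem _ hy (Subgroup.map_subtype_le M h2)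
    rw [mul_inv_cancel_left] at this
    exact hx this
  refine ⟨by rw [← hk, Subgroup.index_ker, htop, Subgroup.card_top], ?_⟩
  ext z
  constructor
  · rintro ⟨y, rfl⟩; exact hc x y
  · intro hz
    obtain ⟨y, hy⟩ := (htop ▸ Subgroup.mem_top _ : (⟨z, hz⟩ : Subgroup.center X) ∈ δ.range)
    exact ⟨y, (congrArg Subtype.val hy).symm⟩

end Cfsg.Agent.S2907
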