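import Cfsg.Statements.S2909
import Cfsg.Agent.Even.PMin2
import Cfsg.Agent.Even.ParChar

set_option autoImplicit false
open Cfsg

namespace Cfsg.Agent.S2909

/-- Let p be a prime, E a normal p-subgroup of the finite group G, and U a non-cyclic elementary abelian p-subgroup of G such that either C_E(U) = C_E(u) for every nontrivial u ∈ U, or [E, U] = [E, ⟨u⟩] for every nontrivial u ∈ U. If R is a subgroup of order prime to p normalized by U, then [R, U] centralizes E. -/
theorem result {G : Type*} [Group G] [Finite G] {p : ℕ} [Fact p.Prime] (E : Subgroup G) [E.Normal] (hE : IsPGroup p ↥E) (U : Subgroup G) (hU : Cfsg.IsElementaryAbelian p U) (hnc : ¬ IsCyclic ↥U) (hcond : (∀ u ∈ U, u ≠ 1 → E ⊓ Subgroup.centralizer (U : Set G) = E ⊓ Subgroup.centralizer ({u} : Set G)) ∨ (∀ u ∈ U, u ≠ 1 → ⁅E, U⁆ = ⁅E, Subgroup.zpowers u⁆)) (R : Subgroup G) (hR : ¬ p ∣ Nat.card ↥R) (hRU : U ≤ Subgroup.normalizer (R : Set G)) : ⁅R, U⁆ ≤ Subgroup.centralizer (E : Set G) := by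
  open Subgroup CL.Even CL.Grp commutatorElement in
  have hc : (Nat.card R).Coprime p := ((Nat.Prime.coprime_iff_not_dvd Fact.out).mpr hR).symm
  have hUp := elem_isP hU
  have : IsMulCommutative U := le_centralizer_iff_isMulCommutative.mp (elem_le_cent hU)
  have hC : (centralizer (E : Set G)).Normal := inferInstance
  rw [commutator_comm]
  refine commutator_le_of_le_cmod (le_of_forall_centralizer_le hnc hRU
    (CL.Even.coprime_card_of_isPGroup hUp hc) fun u hu hu1 => le_cmod le_normalizer_of_normal ?_)
  set R' := R ⊓ centralizer ({u} : Set G)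
  have h1 : U ≤ centralizer ({u} : Set G) := (elem_le_cent hU).trans (cent_le_cent_singleton hu)
  have h2 : ⁅U, R'⁆ ≤ R' := commutator_le_of_le_norm' (le_norm_inf hRU (le_norm_of_le h1))
  have h3 : (Nat.card (⁅U, R'⁆ : Subgroup G)).Coprime p :=
    hc.coprime_dvd_left (card_dvd_of_le (h2.trans inf_le_left))
  have hup : IsPGroup p (zpowers u) := hUp.to_le (zpowers_le.mpr hu)
  have h4 : zpowers u ≤ centralizer ((⁅U, R'⁆ : Subgroup G) : Set G) := le_centralizer_iff.mp
    ((h2.trans inf_le_right).trans (cent_zpowers u).ge)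
  have h5 : R' ≤ normalizer (zpowers u : Set G) :=
    (inf_le_right.trans (cent_zpowers u).ge).trans (cent_le_norm _)
  rcases hcond with h | h
  · refine (le_res_of_coprime le_rfl h3).trans (pxq hE (P := zpowers u) (by
      rw [res_eq_bot_of_isPGroup hup]; exact bot_le) le_normalizer_of_normal le_normalizer_of_normal
      (by rw [commutator_eq_bot_iff'.mpr (le_centralizer_iff.mp h4)]; exact bot_le)
      ((res_le _).trans ?_))
    refine (commutator_mono ?_ le_rfl).trans (commutator_le_of_le_norm
      (le_norm_cent (le_norm_inf le_normalizer_of_normal (le_norm_cent h5))))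
    rw [cent_zpowers, ← h u hu hu1]
    exact le_centralizer_iff.mp inf_le_right
  · rw [← commutator_eq_bot_iff']
    refine commutator_eq_bot_of_le_commutator hE hup h3 le_normalizer_of_normal
      le_normalizer_of_normal h4 (commutator_le_of_le_cmod ?_)
    have h6 := le_norm_commutator (le_normalizer_of_normal (H := E)) h5
    refine (commutator_mono (le_cmod ?_ (h u hu hu1).le) le_rfl).trans (commutator_le_of_le_norm
      (le_norm_cmod le_normalizer_of_normal h6))
    rw [← h u hu hu1]
    exact normalizer_commutator_ge_right _ _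

end Cfsg.Agent.S2909
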