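import Cfsg.Statements.S2911
import Cfsg.Agent.Transfer.CentralElt

set_option autoImplicit false
open Cfsg

namespace Cfsg.Agent.S2911

/-- A finite group whose Sylow 2-subgroups are isomorphic to the direct product of a group of order 2 and a dihedral group of order 8 has a subgroup of index two. -/
theorem result {G : Type*} [Group G] [Finite G] (S : Sylow 2 G) (hS : Nonempty (↥(S : Subgroup G) ≃* Multiplicative (ZMod 2) × DihedralGroup 4)) : ∃ H : Subgroup G, H.index = 2 := by
  obtain ⟨e⟩ := hS
  let ϕ := (MonoidHom.fst _ _).comp e.toMonoidHom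
  let z := e.symm (Multiplicative.ofAdd 1, 1)
  have key : ∀ a : Multiplicative (ZMod 2) × DihedralGroup 4, (∀ b, b * a = a * b) →
      (∀ b, b * b ≠ a) → a.1 = Multiplicative.ofAdd 1 := by decide
  have k1 : ∀ b : Multiplicative (ZMod 2) × DihedralGroup 4,
      b * (Multiplicative.ofAdd 1, 1) = (Multiplicative.ofAdd 1, 1) * b := by decide
  have k2 : ∀ b : Multiplicative (ZMod 2) × DihedralGroup 4,
      b * b ≠ (Multiplicative.ofAdd 1, 1) := by decide
  have hz : ϕ z = Multiplicative.ofAdd 1 := by simp [ϕ, z]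
  have hc : ∀ s : (S : Subgroup G), s * z = z * s := fun s => e.injective (by simp [z, k1])
  have hA : IsPGroup 2 (Multiplicative (ZMod 2)) := IsPGroup.of_card (n := 1) (by simp)
  refine Exists.imp (fun N hN => hN.2) <| CL.Transfer.exists_normal_index_eq_of_pResidual_ne_top
    (CL.Transfer.pResidual_ne_top_of_central S hA ϕ z (Subgroup.mem_center_iff.mpr hc)
      (e.injective (by simp only [z, map_pow, MulEquiv.apply_symm_apply, map_one]; decide))
      (by rw [hz]; decide) fun g hg => ?_)
  let σ := (S : Subgroup G).normalizerMonoidHom ⟨g⁻¹, inv_mem hg⟩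
  have h1 : g⁻¹ * z * g = σ z := (congrArg _ (inv_inv g).symm).trans (rfl : g⁻¹ * z * g⁻¹⁻¹ = σ z)
  rw [h1, CL.Transfer.extOne_coe, hz]
  refine key (e (σ z)) (fun b => ?_) fun b hb => ?_
  · obtain ⟨s, rfl⟩ := (σ.trans e).surjective b
    simp only [MulEquiv.trans_apply, ← map_mul, hc]
  · obtain ⟨s, rfl⟩ := (σ.trans e).surjective b
    simp only [MulEquiv.trans_apply, ← map_mul, EmbeddingLike.apply_eq_iff_eq] at hb
    exact k2 (e s) (by rw [← map_mul, hb]; simp [z])

end Cfsg.Agent.S2911
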