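import Cfsg.Statements.S2912
import Cfsg.Agent.Grp.ExtraRep
import Cfsg.Agent.Loc.ElemAb

set_option autoImplicit false
open Cfsg CL.Grp CL.Loc Module

namespace Cfsg.Agent.S2912

theorem pow_inj {K : Type*} [Field K] {p r n : ℕ} (hp : p.Prime) (hr : r.Prime) (hpr : p ≠ r) {ζ : K}
    (hζ : IsPrimitiveRoot ζ p) (hmin : ∀ k : ℕ, 1 ≤ k → p ∣ r ^ k - 1 → n ≤ k) {i j : ℕ} (hij : i < j) (hj : j < n) :
    ζ ^ r ^ i ≠ ζ ^ r ^ j := fun e => by
  obtain ⟨k, rfl⟩ := Nat.exists_eq_add_of_le hij.le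
  have h1 : 1 ≤ r ^ k := Nat.one_le_pow _ _ hr.pos
  have h2 : ζ ^ (r ^ i * (r ^ k - 1)) = 1 := by
    refine mul_left_cancel₀ (pow_ne_zero (r ^ i) (hζ.ne_zero hp.ne_zero)) ?_
    rw [← pow_add, mul_one, ← mul_one_add, Nat.add_sub_cancel' h1, ← pow_add, e]
  have h3 := (((Nat.coprime_primes hp hr).2 hpr).pow_right i).dvd_of_dvd_mul_left (hζ.dvd_of_pow_eq_one _ h2)
  have := hmin k (by omega) h3
  omega

/-- Let p and r be distinct primes, let E be an extraspecial subgroup of order p^(2w+1) of a finite group, and let A be an elementary abelian r-subgroup normalized by E on which E acts faithfully (C_E(A) = 1). If n ≥ 1 is least with p dividing rⁿ − 1 (the smallest dimension of a faithful representation of a group of order p over the field with r elements), then the order of A is at least r^(n·p^w). -/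
theorem result {G : Type*} [Group G] [Finite G] {p r : ℕ} [Fact p.Prime] [hr : Fact r.Prime] (hpr : p ≠ r) (E A : Subgroup G) (w : ℕ) (hE : Cfsg.IsExtraspecial p ↥E) (hEcard : Nat.card ↥E = p ^ (2 * w + 1)) (hA : Cfsg.IsElementaryAbelian r A) (hnorm : E ≤ Subgroup.normalizer (A : Set G)) (hfaith : E ⊓ Subgroup.centralizer (A : Set G) = ⊥) (n : ℕ) (hn : 1 ≤ n) (hdiv : p ∣ r ^ n - 1) (hmin : ∀ k : ℕ, 1 ≤ k → p ∣ r ^ k - 1 → n ≤ k) : r ^ (n * p ^ w) ≤ Nat.card ↥A := by
  classical
  have hp : p.Prime := Fact.out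
  obtain ⟨H, -, -, hN⟩ := extra_exists_heis_of_card hE hEcard
  let K := AlgebraicClosure (ZMod r)
  let ρ := conjRepOf hA hnorm
  let R : Representation K E (EAMod hA →ₗ[ZMod r] K) :=
    { toFun := fun g => LinearMap.lcomp K K (ρ g⁻¹ : EAMod hA →ₗ[ZMod r] EAMod hA)
      map_one' := by ext; simp
      map_mul' := fun g h => by ext; simp }
  have hR : ∀ g φ v, R g φ v = φ (ρ g⁻¹ v) := fun _ _ _ => rfl
  have h0 : (p : K) ≠ 0 := fun e => hpr ((Nat.prime_dvd_prime_iff_eq hr.out hp).1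
    ((CharP.cast_eq_zero_iff K r p).1 e)).symm
  obtain ⟨ζ, hζ, hev⟩ := exists_primitive_eigenvalue h0 (T := R (H.ι 1)) (by rw [← map_pow, H.ι_pow_p, map_one])
    fun e => by
      refine one_ne_zero (H.ι_eq_one_iff.1 (inv_eq_one.1 (conjRepOf_injective hA hnorm hfaith ?_)))
      rw [map_one]
      refine LinearEquiv.ext fun v => sub_eq_zero.1 ((Module.forall_dual_apply_eq_zero_iff (ZMod r) _).1 fun φ => ?_)
      have := hR (H.ι 1) (Algebra.linearMap (ZMod r) K ∘ₗ φ) v
      rw [e] at this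
      rw [map_sub, sub_eq_zero]
      exact (algebraMap (ZMod r) K).injective this.symm
  have h1 : ∀ i, End.HasEigenvalue (R (H.ι 1)) (ζ ^ r ^ i) := fun i => by
    obtain ⟨φ, hφ⟩ := hev.exists_hasEigenvector
    refine End.hasEigenvalue_of_hasEigenvector (x := (iterateFrobenius K r i).toAddMonoidHom.toZModLinearMap r ∘ₗ φ)
      ⟨End.mem_eigenspace_iff.2 (LinearMap.ext fun v => ?_), fun e => hφ.2 (LinearMap.ext fun v => ?_)⟩
    · have := LinearMap.congr_fun hφ.apply_eq_smul v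
      rw [hR] at this ⊢
      change φ _ ^ r ^ i = ζ ^ r ^ i * φ v ^ r ^ i
      rw [this, ← mul_pow]
      rfl
    · simpa using LinearMap.congr_fun e v
  have h2 : iSupIndep fun i : Fin n => End.eigenspace (R (H.ι 1)) (ζ ^ r ^ (i : ℕ)) :=
    (End.eigenspaces_iSupIndep _).comp (f := fun i : Fin n => ζ ^ r ^ (i : ℕ)) fun i j e => by
      rcases lt_trichotomy (i : ℕ) j with h | h | h
      · exact (pow_inj hp hr.out hpr hζ hmin h j.2 e).elim
      · exact Fin.ext h
      · exact (pow_inj hp hr.out hpr hζ hmin h i.2 e.symm).elim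
  have h3 := LinearMap.finrank_le_finrank_of_injective h2.dfinsupp_lsum_injective
  rw [finrank_linearMap_self] at h3
  rw [EAMod.card_eq_pow_finrank hA]
  refine Nat.pow_le_pow_right hr.out.pos (le_trans ?_ (((Module.finrank_directSum _ _).symm.trans_le h3)))
  refine le_trans (by simp) (Finset.card_nsmul_le_sum _ _ (p ^ w) fun i _ => ?_)
  have h4 := H.card_le_finrank_eigenspace_sq hN R
    (hζ.pow_of_coprime _ (((Nat.coprime_primes hr.out hp).2 hpr.symm).pow_left _)) (h1 i)
  rw [Nat.card_fun, Nat.card_zmod, Nat.card_eq_fintype_card, Fintype.card_fin, pow_mul'] at h4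
  exact (Nat.pow_le_pow_iff_left two_ne_zero).1 h4

end Cfsg.Agent.S2912
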