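import Cfsg.Statements.S2925
import Cfsg.Agent.Loc.Components
import Cfsg.Agent.Even.Amb2

set_option autoImplicit false
open Cfsg

namespace Cfsg.Agent.S2925

/-- Let K be a component of the finite group X and T a Sylow 2-subgroup of X. If some abelian normal subgroup Y of T does not normalize K, then K ⧸ Z(K) has abelian Sylow 2-subgroups. -/
theorem result {X : Type*} [Group X] [Finite X] (K : Subgroup X) (hK : Cfsg.IsComponent K) (T : Sylow 2 X) (Y : Subgroup X) (hYT : Y ≤ (T : Subgroup X)) (hYn : (Y.subgroupOf (T : Subgroup X)).Normal) (hYab : IsMulCommutative ↥Y) (hnot : ¬ Y ≤ Subgroup.normalizer (K : Set X)) (P : Sylow 2 (↥K ⧸ Subgroup.center ↥K)) : IsMulCommutative ↥(P : Subgroup (↥K ⧸ Subgroup.center ↥K)) := by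
  have : Fact (Nat.Prime 2) := ⟨Nat.prime_two⟩
  obtain ⟨y, hy, hy'⟩ := SetLike.not_le_iff_exists.mp hnot
  have hc := CL.Even.commutator_eq_bot_iff'.mp (CL.Loc.IsComponent.commutator_eq_bot_of_ne hK
    (CL.Loc.IsComponent.conj hK y) fun e => hy' (CL.Even.cj_eq_iff_mem.mp e.symm))
  have hS := CL.Even.syl_inf_of_subnIn (CL.Grp.subnIn_top_iff.mpr hK.1) (CL.Grp.isSylowIn_top T)
  have hn := (Subgroup.normal_subgroupOf_iff_le_normalizer hYT).mp hYn
  have key : ∀ s ∈ (T : Subgroup X) ⊓ K, ∀ t ∈ (T : Subgroup X) ⊓ K,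
      (t * s)⁻¹ * (s * t) ∈ Subgroup.centralizer (K : Set X) := by
    intro s hs t ht
    have m : ∀ s ∈ (T : Subgroup X) ⊓ K, s * (y * s⁻¹ * y⁻¹) ∈ Y := fun s hs => by
      simpa [mul_assoc] using Y.mul_mem (CL.Even.conj_mem (hn hs.1) hy) (Y.inv_mem hy)
    have e := setLike_mul_comm (s := Y) (m s hs) (m t ht)
    have s' := hc (CL.Even.conj_mem_cj y (K.inv_mem hs.2))
    have t' := hc (CL.Even.conj_mem_cj y (K.inv_mem ht.2))
    generalize y * s⁻¹ * y⁻¹ = a at e s'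
    generalize y * t⁻¹ * y⁻¹ = b at e t'
    have e' : (t * s)⁻¹ * (s * t) = b * a * (a * b)⁻¹ := by
      calc _ = (t * s)⁻¹ * (s * (t * a) * b) * (a * b)⁻¹ := by group
        _ = (t * s)⁻¹ * (t * (b * s) * a) * (a * b)⁻¹ := by
          rw [CL.Even.comm_of_mem s' ht.2, ← mul_assoc s, mul_assoc (s * a), e]; group
        _ = _ := by rw [← CL.Even.comm_of_mem t' hs.2]; group
    exact e' ▸ Subgroup.mul_mem _ (Subgroup.mul_mem _ t' s') (Subgroup.inv_mem _ (Subgroup.mul_mem _ s' t'))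
  obtain ⟨g, -, hg⟩ := CL.Even.syl_conj (CL.Even.syl_map (QuotientGroup.mk' (Subgroup.center K))
    (CL.Grp.isSylowIn_top hS.toSylow)) (by
      rw [← MonoidHom.range_eq_map, QuotientGroup.range_mk']; exact CL.Grp.isSylowIn_top P)
  rw [← hg]
  refine ⟨⟨?_⟩⟩
  rintro ⟨_, _, ⟨s, hs, rfl⟩, rfl⟩ ⟨_, _, ⟨t, ht, rfl⟩, rfl⟩
  refine Subtype.ext ?_
  change (MulAut.conj g) _ * (MulAut.conj g) _ = (MulAut.conj g) _ * (MulAut.conj g) _
  rw [← map_mul, ← map_mul, ← map_mul, ← map_mul]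
  refine congrArg _ (QuotientGroup.eq.mpr (Subgroup.mem_center_iff.mpr fun k => Subtype.ext ?_))
  exact key _ ht _ hs k k.2

end Cfsg.Agent.S2925
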