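import Cfsg.Statements.S2929
import Cfsg.Agent.Known.AltOn
import Cfsg.Agent.Loc.FStar

set_option autoImplicit false
open Cfsg

namespace Cfsg.Agent.S2929

/-- Let n ≥ 5 and let H be a subgroup of the symmetric group of degree n whose generalized Fitting subgroup F*(H) is quasisimple. If H contains a Sylow 3-subgroup of the symmetric group, then F*(H) is isomorphic to an alternating group of degree m for some m ∈ {n − 2, n − 1, n}. -/
theorem result (n : ℕ) (hn : 5 ≤ n) (H : Subgroup (Equiv.Perm (Fin n))) (hF : Cfsg.IsQuasisimple ↥(Cfsg.generalizedFittingSubgroup ↥H)) (hS : ∃ P : Sylow 3 (Equiv.Perm (Fin n)), (P : Subgroup (Equiv.Perm (Fin n))) ≤ H) : ∃ m : ℕ, (m = n - 2 ∨ m = n - 1 ∨ m = n) ∧ Nonempty (↥(Cfsg.generalizedFittingSubgroup ↥H) ≃* ↥(alternatingGroup (Fin m))) := by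
  obtain ⟨P, hP⟩ := hS
  obtain ⟨Q, hQ⟩ := CL.Grp.exists_isSylowIn (p := 3) (⊤ : Subgroup (Equiv.Perm (Fin (n / 3))))
  obtain ⟨ι, e⟩ := CL.Known.exists_WR_eq (CL.Grp.isSylowIn_top P) (Fin (n / 3)) (by simp) hQ
  rw [e] at hP
  have hne : ∀ (l : Fin (n / 3)) (a b : ZMod 3), a ≠ b → ι (a, l) ≠ ι (b, l) := fun l a b h e =>
    h (congrArg Prod.fst (ι.injective e))
  have h3 : ∀ l, CL.Known.c3 (ι (0, l)) (ι (1, l)) (ι (2, l)) = CL.Known.wE ι (Pi.single l 1) 1 := by
    intro l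
    refine CL.Known.eq_wE ι (fun a m => ?_) fun x hx => CL.Known.c3_apply_of_ne (fun e => hx ⟨_, e.symm⟩)
      (fun e => hx ⟨_, e.symm⟩) fun e => hx ⟨_, e.symm⟩
    by_cases hm : m = l
    · subst hm
      rw [Pi.single_eq_same]
      have : a = 0 ∨ a = 1 ∨ a = 2 := by revert a; decide
      rcases this with rfl | rfl | rfl
      · exact CL.Known.c3_apply_fst (hne _ _ _ (by decide)) (hne _ _ _ (by decide))
      · exact CL.Known.c3_apply_snd (hne _ _ _ (by decide)) (hne _ _ _ (by decide))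
      · exact CL.Known.c3_apply_thd _ _ _
    · have : ∀ b, ι (a, m) ≠ ι (b, l) := fun b e => hm (congrArg Prod.snd (ι.injective e))
      rw [CL.Known.c3_apply_of_ne (this _) (this _) (this _), Pi.single_eq_of_ne hm, add_zero]
      rfl
  have h4 : ∀ l, (CL.Known.wE ι (Pi.single l 1) 1).IsThreeCycle := fun l =>
    h3 l ▸ CL.Known.isThreeCycle_c3 (hne _ _ _ (by decide)) (hne _ _ _ (by decide)) (hne _ _ _ (by decide))
  have h5 : ∀ l, CL.Known.wE ι (Pi.single l 1) 1 ∈ H := fun l => hP (CL.Known.wE_mem_WR.2 Q.one_mem)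
  obtain ⟨O, hO, h6, -⟩ := CL.Known.eq_altOn_of_three_cycle (CL.Loc.fstarOf_le H)
    (Subgroup.le_normalizer.trans (CL.Loc.normalizer_le_normalizer_fstarOf H))
    (CL.Loc.IsQuasisimple.map_of_injective hF H.subtype_injective)
    ((CL.Loc.inf_centralizer_fstarOf_le H).trans (CL.Loc.fstarOf_eq H ▸ le_sup_right))
    (h4 ⟨0, by omega⟩) (h5 _)
  have h7 : Finset.univ.map ι ⊆ O := by
    intro x hx
    obtain ⟨⟨a, l⟩, -, rfl⟩ := Finset.mem_map.1 hx
    refine h6 _ (h5 l) (h4 l) (Equiv.Perm.mem_support.2 ?_)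
    rw [CL.Known.wE_apply, Pi.single_eq_same]
    exact hne _ _ _ (by simp)
  have h8 := Finset.card_le_card h7
  have h9 := Finset.card_le_univ O
  simp only [Finset.card_map, Finset.card_univ, Fintype.card_prod, ZMod.card, Fintype.card_fin] at h8 h9
  obtain ⟨e1⟩ := CL.Known.nonempty_altOn_equiv O (α := Fin O.card) (by simp)
  exact ⟨O.card, by omega, ⟨(((Cfsg.generalizedFittingSubgroup H).equivMapOfInjective _ H.subtype_injective).trans
    (MulEquiv.subgroupCongr hO)).trans e1⟩⟩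

end Cfsg.Agent.S2929
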