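import Cfsg.Statements.S2931
import Cfsg.Agent.Spor.SylIso
-- import your own Cfsg.Agent.* helpers here

set_option autoImplicit false
open Cfsg

namespace Cfsg.Agent.S2931

/-- The Sylow 2-subgroups of the alternating group of degree 8 and of PSp₄(3) are isomorphic, and so are the Sylow 2-subgroups of the symmetric group of degree 8 and of the full isometry group of a non-degenerate quadratic form of minus type in dimension 6 over the field with 2 elements. -/
theorem result (F : Type) [Field F] [Fintype F] (hF : Fintype.card F = 3) (K : Type) [Field K] [Fintype K] (hK : Fintype.card K = 2) (a b : K) (hab : ∀ z₁ z₂ : K, z₁ ^ 2 + a * z₁ * z₂ + b * z₂ ^ 2 = 0 → z₁ = 0 ∧ z₂ = 0) (P : Sylow 2 ↥(alternatingGroup (Fin 8))) (Q : Sylow 2 (Cfsg.PSp 2 F)) (P' : Sylow 2 (Equiv.Perm (Fin 8))) (Q' : Sylow 2 ↥(Cfsg.isometryGroup K (Cfsg.quadFormMinus 2 K a b))) : Nonempty (↥(P : Subgroup ↥(alternatingGroup (Fin 8))) ≃* ↥(Q : Subgroup (Cfsg.PSp 2 F))) ∧ Nonempty (↥(P' : Subgroup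 (Equiv.Perm (Fin 8))) ≃* ↥(Q' : Subgroup ↥(Cfsg.isometryGroup K (Cfsg.quadFormMinus 2 K a b)))) := by
  have h01 : ∀ x : K, x ≠ 0 → x = 1 := fun x hx => by
    have := FiniteField.pow_card_sub_one_eq_one x hx
    rwa [hK, pow_one] at this
  have h2 : (1 : K) + 1 = 0 := by
    have := FiniteField.cast_card_eq_zero K
    rw [hK] at this
    simpa [one_add_one_eq_two] using this
  obtain rfl : b = 1 := h01 b fun h => one_ne_zero (hab 0 1 (by simp [h])).2
  obtain rfl : a = 1 := h01 a fun h => one_ne_zero (hab 1 1 (by simpa [h] using h2)).2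
  exact ⟨CL.SylIso.A8.main CL.Std.A8.iso (CL.Std.PS43.iso hF) P Q,
    CL.SylIso.S8.main CL.Std.S8.iso (CL.Std.O6m2.iso hK) P' Q'⟩


end Cfsg.Agent.S2931
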