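import Cfsg.Statements.S2932
import Cfsg.Agent.Loc.NatOver4

set_option autoImplicit false
open Cfsg

namespace Cfsg.Agent.S2932

/-- Let p be a prime. Inside a finite ambient group let V be an elementary abelian p-subgroup and G a subgroup normalizing V and acting faithfully on it (G ∩ C(V) = 1), and let L ≤ G act on V as SL₂(F) on its natural module, F a finite field of characteristic p, with L ≅ SL₂(F). If every Sylow p-subgroup of N_G(L) is a Sylow p-subgroup of G, then either L is normal in G, or F has 4 elements and G is isomorphic to the alternating group of degree 7. -/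
theorem result {X : Type*} [Group X] [Finite X] {p : ℕ} [Fact p.Prime] (F : Type) [Field F] [Fintype F] [CharP F p] (V G L : Subgroup X) (hV : Cfsg.IsElementaryAbelian p V) (hGV : G ≤ Subgroup.normalizer (V : Set X)) (hfaith : G ⊓ Subgroup.centralizer (V : Set X) = ⊥) (hLG : L ≤ G) (hnat : Cfsg.IsNaturalSL2Module F V L) (hLiso : Nonempty (↥L ≃* Matrix.SpecialLinearGroup (Fin 2) F)) (hSyl : ∀ S : Sylow p ↥(G ⊓ Subgroup.normalizer (L : Set X)), ∀ P : Sylow p ↥G, Nat.card S = Nat.card P) : (L.subgroupOf G).Normal ∨ (Fintype.card F = 4 ∧ Nonempty (↥G ≃* ↥(alternatingGroup (Fin 7)))) := by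
  classical
  obtain ⟨-, ρ, ψ, hs, hk, hρ⟩ := hnat
  let φ : G →* MulAut V := V.normalizerMonoidHom.comp (Subgroup.inclusion hGV)
  have hφ : ∀ (g : G) (v : V), ((φ g v : V) : X) = (g : X) * v * (g : X)⁻¹ := fun _ _ => rfl
  letI : DistribMulAction G (Fin 2 → F) :=
    { smul := fun g a => ψ (Additive.ofMul (φ g (Additive.toMul (ψ.symm a))))
      one_smul := fun a => by
        change ψ (Additive.ofMul (φ 1 _)) = a
        simp
      mul_smul := fun g k a => by
        change ψ (Additive.ofMul (φ (g * k) _)) =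
          ψ (Additive.ofMul (φ g (Additive.toMul (ψ.symm (ψ (Additive.ofMul (φ k _)))))))
        simp
      smul_zero := fun g => by
        change ψ (Additive.ofMul (φ g _)) = 0
        simp
      smul_add := fun g a b => by
        change ψ (Additive.ofMul (φ g _)) = ψ (Additive.ofMul (φ g _)) + ψ (Additive.ofMul (φ g _))
        simp }
  have hsm : ∀ (g : G) (v : V), g • ψ (Additive.ofMul v) = ψ (Additive.ofMul (φ g v)) := fun g v => by
    change ψ (Additive.ofMul (φ g (Additive.toMul (ψ.symm _)))) = _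
    simp
  have hfa : ∀ g : G, (∀ v : Fin 2 → F, g • v = v) → g = 1 := fun g hg => by
    have h1 : (g : X) ∈ G ⊓ Subgroup.centralizer (V : Set X) := ⟨g.2, fun v hv => by
      have h2 := hg (ψ (Additive.ofMul ⟨v, hv⟩))
      rw [hsm] at h2
      have h3 := congrArg Subtype.val (Additive.ofMul.injective (ψ.injective h2))
      rw [hφ] at h3
      exact (mul_inv_eq_iff_eq_mul.1 h3).symm⟩
    rw [hfaith] at h1
    exact Subtype.ext h1
  have hinj : Function.Injective ρ := by
    rw [← MonoidHom.ker_eq_bot_iff, hk, Subgroup.subgroupOf_eq_bot, disjoint_comm]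
    exact (disjoint_iff.2 hfaith).mono_left hLG
  let e := MulEquiv.ofBijective ρ ⟨hinj, hs⟩
  let ι : Matrix.SpecialLinearGroup (Fin 2) F →* G := (Subgroup.inclusion hLG).comp e.symm.toMonoidHom
  have hr : ι.range = L.subgroupOf G := by
    ext g
    exact ⟨by rintro ⟨s, rfl⟩; exact (e.symm s).2, fun hg => ⟨e ⟨g, hg⟩, Subtype.ext (by simp [ι])⟩⟩
  have hact : ∀ (s : Matrix.SpecialLinearGroup (Fin 2) F) (v : Fin 2 → F),
      ι s • v = (s : Matrix (Fin 2) (Fin 2) F).mulVec v := fun s v => by
    obtain ⟨w, h1, h2⟩ := hρ (e.symm s) (Additive.toMul (ψ.symm v))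
    rw [show ρ (e.symm s) = s from e.apply_symm_apply s] at h2
    simp only [ofMul_toMul, AddEquiv.apply_symm_apply] at h2
    rw [← h2, show w = φ (ι s) (Additive.toMul (ψ.symm v)) from Subtype.ext h1]
    rfl
  let U : Subgroup G := (ι.comp (MonoidHom.mk' (fun a : Multiplicative F => CL.Chev.SL2.up a.toAdd)
    fun a b => CL.Chev.SL2.up_add _ _)).range
  have hU : IsPGroup p U := by
    refine IsPGroup.of_surjective ?_ _ (MonoidHom.rangeRestrict_surjective _)
    exact fun a => ⟨1, Multiplicative.toAdd.injective (by simp)⟩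
  have hUN : U ≤ Subgroup.normalizer (ι.range : Set G) :=
    le_trans (by rintro _ ⟨a, rfl⟩; exact ⟨_, rfl⟩) Subgroup.le_normalizer
  obtain ⟨S, hS, hUS⟩ := CL.Grp.exists_isSylowIn_ge hU hUN
  have hc : Nat.card S = p ^ (Nat.card G).factorization p := by
    obtain ⟨S₀⟩ : Nonempty (Sylow p ↥(G ⊓ Subgroup.normalizer (L : Set X))) := inferInstance
    obtain ⟨P⟩ : Nonempty (Sylow p G) := inferInstance
    rw [← P.card_eq_multiplicity, ← hSyl S₀ P, S₀.card_eq_multiplicity, hS.card_eq_pow, hr,
      ← Subgroup.subgroupOf_normalizer_eq hLG, ← Subgroup.inf_subgroupOf_left,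
      Nat.card_congr (Subgroup.subgroupOfEquivOfLe inf_le_left).toEquiv]
  have h : CL.Loc.NatOver.Hyp ι (Sylow.ofCard S hc) :=
    ⟨hfa, hact, hS.le, fun a => hUS ⟨Multiplicative.ofAdd a, rfl⟩⟩
  exact hr ▸ h.normal_or_alt

end Cfsg.Agent.S2932
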