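import Cfsg.Statements.S2939
import Cfsg.Agent.Even.SylCtl

set_option autoImplicit false
open Cfsg

namespace Cfsg.Agent.S2939

open CL.Even CL.Grp


/-- Let p be a prime dividing the order of the finite group G and 𝓕 a family of subgroups of G closed under conjugation, with conjugates taken as X^g = g⁻¹Xg. Then 𝓕 controls Sylow p-intersections in G (any two distinct Sylow p-subgroups S and T with S ∩ T ≠ 1 are joined by a chain S = S₀, S₁, …, Sₙ = T of Sylow p-subgroups where, for each i, some member Xᵢ of 𝓕 meets both S_{i-1} and Sᵢ in Sylow p-subgroups of Xᵢ, satisfies S ∩ T ≤ Sᵢ ∩ Xᵢ, and contains an element xᵢ with Sᵢ^{xᵢ} = S_{i-1}) if and only if 𝓕 strongly controls p-fusion in G (whenever A is a subset of a Sylow p-subgroup S, A contains an element other than 1, and A^g ⊆ S, the element g factorises as g = y₁⋯yₙy with y ∈ N_G(S) and each yᵢ in a member Yᵢ of 𝓕 that meets S in a Sylow p-subgroup of Yᵢ, with A^{y₁⋯yᵢ} ⊆ S ∩ Yᵢ for each i). -/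
theorem result {G : Type*} [Group G] [Finite G] {p : ℕ} [Fact p.Prime] (hdiv : p ∣ Nat.card G) (𝓕 : Set (Subgroup G)) (h𝓕 : Cfsg.IsNormalSet 𝓕) : Cfsg.ControlsSylowIntersections p 𝓕 ↔ Cfsg.FamilyStronglyControlsFusion p 𝓕 := by
  rw [controls_iff_aChain]
  have hconj : ∀ (g : G) (A : Set G) (B : Subgroup G), conjRight g A ⊆ (B : Set G) ↔ A ⊆ (cj g B : Subgroup G) := by
    intro g A B
    constructor
    · intro h a ha
      exact mem_cj.2 (h ⟨a, ha, rfl⟩)
    · rintro h _ ⟨a, ha, rfl⟩
      exact mem_cj.1 (h ha)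
  constructor
  · intro h S A g hA hA1 hAg
    replace hAg := (hconj g A (S : Subgroup G)).1 hAg
    have hS := isSylowIn_top S
    have hne : (S : Subgroup G) ⊓ cj g (S : Subgroup G) ≠ ⊥ := by
      obtain ⟨a, ha, ha1⟩ := hA1
      intro h0
      have : a ∈ (S : Subgroup G) ⊓ cj g (S : Subgroup G) := ⟨hA ha, hAg ha⟩
      rw [h0] at this
      exact ha1 this
    have hc := h S (cj g (S : Subgroup G)) hS (syl_cj_of_mem_norm hS (Subgroup.le_normalizer (Subgroup.mem_top g))) hne
    have key : ∀ B, AChain p ⊤ 𝓕 (S ⊓ cj g (S : Subgroup G)) S B → ∃ l : List G, B = cj l.prod (S : Subgroup G) ∧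
        ∀ i : Fin l.length, ∃ Y ∈ sylowMembers p 𝓕 (S : Subgroup G), l.get i ∈ Y ∧
          A ⊆ (cj (l.take (i.val + 1)).prod ((S : Subgroup G) ⊓ Y) : Subgroup G) := by
      intro B hB
      induction hB with
      | refl => exact ⟨[], (cj_one _).symm, fun i => i.elim0⟩
      | @tail C E _ hr ih =>
        obtain ⟨l, hl, hl'⟩ := ih
        obtain ⟨-, -, X, hX, a1, a2, a3, x, hx, e⟩ := hr
        refine ⟨l ++ [l.prod⁻¹ * x * l.prod], ?_, fun i => ?_⟩
        · rw [e, hl, ← cj_mul]; simp [mul_assoc]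
        · rcases lt_or_ge i.val l.length with hi | hi
          · obtain ⟨Y, hY, b1, b2⟩ := hl' ⟨i.val, hi⟩
            refine ⟨Y, hY, ?_, ?_⟩
            · simpa [List.getElem_append_left hi] using b1
            · rwa [List.take_append_of_le_length (by omega)]
          · have hi' : i.val = l.length := by
              have := i.2
              simp at this
              omega
            refine ⟨cj l.prod⁻¹ X, ⟨h𝓕 X hX _, isSylowIn_iff_exists.1 ?_⟩, ?_, ?_⟩
            · have := syl_cj a1 l.prod⁻¹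
              rwa [cj_inf, hl, cj_inv_cj] at this
            · have : (l ++ [l.prod⁻¹ * x * l.prod]).get i = l.prod⁻¹ * x * l.prod := by
                simp [hi']
              rw [this, mem_cj]
              simpa [mul_assoc] using hx
            · rw [List.take_of_length_le (by simp [hi']), cj_inf, ← cj_mul]
              have e1 : (l ++ [l.prod⁻¹ * x * l.prod]).prod = x * l.prod := by simp [mul_assoc]
              rw [e1, mul_inv_cancel_right, cj_eq (Subgroup.le_normalizer hx), cj_mul, ← hl, ← e]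
              exact fun a ha => a3 ⟨hA ha, hAg ha⟩
    obtain ⟨l, hl, hl'⟩ := key _ hc
    choose Y hY b1 b2 using hl'
    refine ⟨l.length, Y, l.get, l.prod⁻¹ * g, ?_, fun i => ⟨hY i, b1 i⟩, ?_, fun i => ?_⟩
    · rw [← cj_eq_iff_mem, cj_mul, hl, cj_inv_cj]
    · rw [List.ofFn_get, mul_inv_cancel_left]
    · rw [List.ofFn_get]
      exact (hconj _ A ((S : Subgroup G) ⊓ Y i)).2 (b2 i)
  · intro h A B hA hB hAB
    obtain ⟨S, rfl⟩ := isSylowIn_top_iff.1 hA
    obtain ⟨g, -, rfl⟩ := syl_conj hA hB
    obtain ⟨n, Y, y, y₀, hy₀, hY, hg, hc⟩ := h S ((S : Subgroup G) ⊓ cj g (S : Subgroup G) : Subgroup G) g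
      (fun a ha => ha.1) (by
        obtain ⟨a, ha⟩ := (Subgroup.ne_bot_iff_exists_ne_one).1 hAB
        exact ⟨a, a.2, fun h => ha (Subtype.ext h)⟩) ((hconj g _ (S : Subgroup G)).2 fun a ha => ha.2)
    have := spe_reflTransGen_of_fin_chain (r := AStep p ⊤ 𝓕 ((S : Subgroup G) ⊓ cj g (S : Subgroup G)))
      (fun j : Fin (n + 1) => cj ((List.ofFn y).take j.val).prod (S : Subgroup G)) (fun i => by
        have e : ((List.ofFn y).take (i.val + 1)).prod = ((List.ofFn y).take i.val).prod * y i := by
          rw [List.prod_take_succ _ _ (by simp)]; simp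
        set u := ((List.ofFn y).take i.val).prod with hu
        have hs := isSylowIn_iff_exists.2 (hY i).1.2
        have e2 : cj (u * y i) (Y i) = cj u (Y i) := by
          rw [cj_mul, cj_eq (Subgroup.le_normalizer (hY i).2)]
        change AStep p ⊤ 𝓕 _ (cj u (S : Subgroup G)) (cj ((List.ofFn y).take (i.val + 1)).prod (S : Subgroup G))
        have hc' := (hconj _ _ ((S : Subgroup G) ⊓ Y i)).1 (hc i)
        rw [e] at hc' ⊢
        refine ⟨syl_cj_of_mem_norm hA (Subgroup.le_normalizer (Subgroup.mem_top _)),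
          syl_cj_of_mem_norm hA (Subgroup.le_normalizer (Subgroup.mem_top _)), cj u (Y i), ?_, ?_, ?_, ?_,
          u * y i * u⁻¹, conj_mem_cj u (hY i).2, ?_⟩
        · have := h𝓕 _ (hY i).1.1 u⁻¹
          rwa [subgroupConjRight, inv_inv] at this
        · rw [← cj_inf]; exact syl_cj hs u
        · rw [← e2, ← cj_inf]; exact syl_cj hs _
        · rw [← e2, ← cj_inf]; exact hc'
        · rw [← cj_mul, inv_mul_cancel_right]) (Fin.last n)
    simp only [Fin.val_zero, List.take_zero, List.prod_nil, cj_one, Fin.val_last] at this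
    rw [List.take_of_length_le (by simp)] at this
    have e : cj g (S : Subgroup G) = cj (List.ofFn y).prod (S : Subgroup G) := by
      conv_lhs => rw [hg, cj_mul, cj_eq hy₀]
    rwa [← e] at this

end Cfsg.Agent.S2939
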