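import Cfsg.Statements.S2951
import Cfsg.Agent.Even.KS12.H

set_option autoImplicit false
open Cfsg Subgroup CL.Even CL.Loc CL.KS12

namespace Cfsg.Agent.S2951

/-- Let G be a finite group of characteristic 2 type in which every 2-local subgroup is solvable and the centralizer of Ω₁(Z(S)) lies in N_G(S) for every Sylow 2-subgroup S; suppose O₂(G) = 1, fix a Sylow 2-subgroup S and a 2-local subgroup M containing N_G(J(S)) (J the Thompson subgroup generated by the elementary abelian 2-subgroups of largest order), and put Z = Ω₁(Z(S)). Let T ≤ S be maximal (for the order of a largest elementary abelian subgroup, then the order of J(T), then the order of T) among the nontrivial 2-subgroups of M lying in a 2-local subgroup not inside M, K a J(T)-component not contained in M with J(T) the Thompson subgroup of every Sylow 2-subgroup of N_G(W_K) containing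 J(T), and O₂(⟨K, T⟩) ≠ 1, L a maximal 2-local subgroup containing ⟨K, J(T)⟩ (there is only one), and Z₀ = Ω₁(Z(J(T))). Then Z₀ ∩ W_K ≠ 1, and one of: Z = Z₀ has order 2; Z = Z₀ has order 4 and T = S; Ω₁(Z(T)) = Z₀ has order 4 and C_L(Z₀) has index 2 in N_G(Z₀). -/
theorem result {G : Type*} [Group G] [Finite G] (hL : Cfsg.IsCharacteristicTwoType G) (hN : ∀ N : Subgroup G, Cfsg.IsTwoLocal N → Group.IsSolvable ↥N)
    (hZ : ∀ S : Sylow 2 G, Subgroup.centralizer (Cfsg.omegaCenterOf (S : Subgroup G) : Set G) ≤ Subgroup.normalizer ((S : Subgroup G) : Set G)) (hO : Cfsg.pCore 2 G = ⊥) (S : Sylow 2 G) (M : Subgroup G) (hM : Cfsg.IsTwoLocal M)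
    (hMJ : Subgroup.normalizer (Cfsg.thompsonSubgroupOf 2 (S : Subgroup G) : Set G) ≤ M) (T : Subgroup G) (hT : T ∈ Cfsg.maxStraddlingTwoSubgroups M)
    (hTS : T ≤ (S : Subgroup G)) (K : Subgroup G) (hK : K ∈ Cfsg.jComponentsOutside M T)
    (L : Subgroup G) (hLmax : Cfsg.IsMaximalTwoLocal L) (hKL : K ⊔ Cfsg.thompsonSubgroupOf 2 T ≤ L)
    (Z Z₀ : Subgroup G) (hZdef : Z = Cfsg.omegaCenterOf (S : Subgroup G)) (hZ₀ : Z₀ = Cfsg.omegaCenterOf (Cfsg.thompsonSubgroupOf 2 T)) :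
    Z₀ ⊓ Cfsg.wOf K ≠ ⊥ ∧
      ((Z = Z₀ ∧ Nat.card ↥Z₀ = 2) ∨ (Z = Z₀ ∧ Nat.card ↥Z₀ = 4 ∧ T = (S : Subgroup G)) ∨
        (Cfsg.omegaCenterOf T = Z₀ ∧ Nat.card ↥Z₀ = 4 ∧
          (L ⊓ Subgroup.centralizer (Z₀ : Set G)).relIndex (Subgroup.normalizer (Z₀ : Set G)) = 2)) := by
  subst hZdef hZ₀
  have h : CL.KS12.HM (S : Subgroup G) M T := ⟨⟨hL, hN, hZ⟩, CL.Grp.isSylowIn_top S, hM, hMJ, hT⟩
  obtain ⟨L', u⟩ := h.exists_uq hK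
  obtain rfl : L' = L := hLmax.2 _ u.mx.1 (u.uq L hLmax.1 (le_sup_left.trans hKL) (le_sup_right.trans hKL))
  obtain ⟨K₂, L₂, p⟩ := u.exists_pair h.z hO
  change 𝛀[2] (𝐉[2] T) ⊓ wOf K ≠ ⊥ ∧ ((𝛀[2] (S : Subgroup G) = 𝛀[2] (𝐉[2] T) ∧ Nat.card (𝛀[2] (𝐉[2] T)) = 2) ∨
    (𝛀[2] (S : Subgroup G) = 𝛀[2] (𝐉[2] T) ∧ Nat.card (𝛀[2] (𝐉[2] T)) = 4 ∧ T = S) ∨
    (𝛀[2] T = 𝛀[2] (𝐉[2] T) ∧ Nat.card (𝛀[2] (𝐉[2] T)) = 4 ∧
      (L' ⊓ 𝒞(𝛀[2] (𝐉[2] T))).relIndex 𝒩(𝛀[2] (𝐉[2] T)) = 2))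
  refine ⟨(one_lt_card_iff_ne_bot _).1 (by rw [JC.card_zw p.jc p.isP]; exact one_lt_two), ?_⟩
  have h1 := ZN.om_le u.syl (h.z.cent_le hLmax.1) hTS
  rw [p.om_eq] at h1
  have h2 := ozc_ne_bot S.isPGroup' (h.z.syl_ne h.syl)
  have h3 := JC.card_z0 p.jc p.isP
  have h4 := p.card_d
  by_cases h0 : dD T K = ⊥
  · rw [show 𝛀[2] (𝐉[2] T) ⊓ 𝒞(K) = ⊥ from h0, card_bot] at h3
    exact Or.inl ⟨eq_of_le_of_card_ge h1 (h3 ▸ (one_lt_card_iff_ne_bot _).2 h2), h3⟩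
  have h5 : Nat.card (𝛀[2] (𝐉[2] T)) = 4 := by
    have := (one_lt_card_iff_ne_bot _).2 h0
    simp only [dD] at *
    omega
  rcases hTS.eq_or_lt with e | hlt
  · exact Or.inr (Or.inl ⟨e ▸ p.om_eq, h5, e⟩)
  refine Or.inr (Or.inr ⟨p.om_eq, h5, ?_⟩)
  obtain ⟨⟨d, hd⟩, hd1⟩ := ne_bot_iff_exists_ne_one.1 h0
  obtain ⟨⟨s, hs⟩, hs1⟩ := ne_bot_iff_exists_ne_one.1 h2
  rw [Ne, mk_eq_one] at hd1 hs1
  have hE := ozc_elem (p := 2) (𝐉[2] T)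
  have c2 := card_zp (ea_pow hE (h1 hs)) hs1
  have i2 := idx_zp hE h5 (h1 hs) hs1
  have k1 : ∀ a : G, a * d * a⁻¹ ∉ zpowers s := fun a e => by
    have m1 := eq_of_card_le_two c2.le e (mem_zpowers s) (by rwa [Ne, conj_eq_one_iff]) hs1
    have m2 := cj_mono a (u.cz_le hd hd1)
    rw [cj_cent, cj_zp, m1] at m2
    have m3 := (syl_cj u.syl a).card_le S.isPGroup' ((cz_comm.2 (ozc_le_cent _ hs)).trans m2)
    rw [card_cj] at m3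
    exact hlt.ne (eq_of_le_of_card_ge hTS m3)
  have k0 : d ∉ zpowers s := by simpa using k1 1
  obtain ⟨g, hg, hg'⟩ := SetLike.exists_of_lt (CL.Grp.lt_inf_normalizer_of_isPGroup S.isPGroup' hlt)
  have hgn : g ∈ 𝒩(𝛀[2] (𝐉[2] T)) := le_norm_ozc (le_norm_thom le_rfl) hg.2
  have k2 : d ≠ g * d * g⁻¹ := fun e => hg' ((u.syl.eq_of_le (S.isPGroup'.to_le inf_le_left) (le_inf hTS u.syl.le)
    inf_le_right).le (mem_inf.2 ⟨hg.1, u.cz_le hd hd1 (mem_cz.2 (eq_mul_inv_iff_mul_eq.1 e))⟩))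
  have k3 : ∀ a ∈ 𝒩(𝛀[2] (𝐉[2] T)), a * s * a⁻¹ = s := fun a ha => by
    refine eq_of_card_le_two c2.le (by_contra fun e => ?_) (mem_zpowers s) (by rwa [Ne, conj_eq_one_iff]) hs1
    rcases two_coset hE i2 c2.le hd.1 (conj_mem hgn hd.1) (conj_mem ha (h1 hs)) k0 (k1 g) e k2 with e | e
    · exact k1 a⁻¹ (by rw [← e]; simp [mul_assoc])
    · exact k1 (a⁻¹ * g) (by
        rw [show a⁻¹ * g * d * (a⁻¹ * g)⁻¹ = a⁻¹ * (g * d * g⁻¹) * a by group, ← e]; simp [mul_assoc])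
  have k4 : ∀ a ∈ 𝒩(𝛀[2] (𝐉[2] T)), a * d * a⁻¹ = d → a ∈ L' ⊓ 𝒞(𝛀[2] (𝐉[2] T)) := fun a ha e => by
    have m1 : a ∈ 𝒞(zpowers d) := mem_cz.2 (mul_inv_eq_iff_eq_mul.1 e).symm
    have m2 : zpowers s ≤ 𝒞(zpowers a) := zpowers_le.2 (mem_cz.2 (mul_inv_eq_iff_eq_mul.1 (k3 a ha)))
    refine mem_inf.2 ⟨u.cz_le hd hd1 m1, cz_comm.1 fun y hy => ?_⟩
    by_cases k : y ∈ zpowers s
    · exact m2 k
    · exact (mul_mem_cancel_right (mem_cz.2 (mul_inv_eq_iff_eq_mul.1 e))).1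
        (m2 ((mul_mem_two i2 hy hd.1).2 (iff_of_false k k0)))
  have k5 : ∀ a ∈ 𝒩(𝛀[2] (𝐉[2] T)), a ∉ L' ⊓ 𝒞(𝛀[2] (𝐉[2] T)) → a * d * a⁻¹ = g * d * g⁻¹ := fun a ha e =>
    (two_coset hE i2 c2.le hd.1 (conj_mem hgn hd.1) (conj_mem ha hd.1) k0 (k1 g) (k1 a) k2).resolve_left
      fun e' => e (k4 a ha e')
  refine relIndex_eq_two (fun a ha b hb na nb => k4 _ (mul_mem ha hb) ?_) fun e =>
    k2 (eq_mul_inv_iff_mul_eq.2 ((e hgn).2 d hd.1))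
  rw [show a * b * d * (a * b)⁻¹ = a * (b * d * b⁻¹) * a⁻¹ by group, k5 b hb nb,
    ← k5 a⁻¹ (inv_mem ha) (by rwa [inv_mem_iff])]
  group

end Cfsg.Agent.S2951
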