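import Cfsg.Statements.S2953
import Cfsg.Agent.Even.KS12.H

set_option autoImplicit false
open Cfsg

namespace Cfsg.Agent.S2953

/-- Let G be a finite group of characteristic 2 type in which every 2-local subgroup is solvable and the centralizer of Ω₁(Z(S)) lies in N_G(S) for every Sylow 2-subgroup S; suppose O₂(G) = 1, fix a Sylow 2-subgroup S and a 2-local subgroup M containing N_G(J(S)) (J the Thompson subgroup generated by the elementary abelian 2-subgroups of largest order). Let T be maximal (for the order of a largest elementary abelian subgroup, then the order of J(T), then the order of T) among the nontrivial 2-subgroups of M lying in a 2-local subgroup not inside M. Then there are two distinct J(T)-components K₁, K₂ such that, with Pᵢ = ⟨Kᵢ, T⟩: C_G(O₂(Pᵢ)) ≤ O₂(Pᵢ), T is a Sylow 2-subgroup of Pᵢ, O₂(Pᵢ) has index 6 in Pᵢ with Pᵢ/O₂(Pᵢ) non-abelian,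 [Ω₁(Z(T)), Pᵢ] ≠ 1, O₂(⟨P₁, P₂⟩) = 1, and each Pᵢ lies in exactly one maximal 2-local subgroup Lᵢ of G, in which T is a Sylow 2-subgroup. -/
theorem result {G : Type*} [Group G] [Finite G] (hL : Cfsg.IsCharacteristicTwoType G) (hN : ∀ N : Subgroup G, Cfsg.IsTwoLocal N → Group.IsSolvable ↥N)
    (hZ : ∀ S : Sylow 2 G, Subgroup.centralizer (Cfsg.omegaCenterOf (S : Subgroup G) : Set G) ≤ Subgroup.normalizer ((S : Subgroup G) : Set G)) (hO : Cfsg.pCore 2 G = ⊥) (S : Sylow 2 G) (M : Subgroup G) (hM : Cfsg.IsTwoLocal M)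
    (hMJ : Subgroup.normalizer (Cfsg.thompsonSubgroupOf 2 (S : Subgroup G) : Set G) ≤ M) (T : Subgroup G) (hT : T ∈ Cfsg.maxStraddlingTwoSubgroups M) :
    ∃ K₁ K₂ : Subgroup G, K₁ ≠ K₂ ∧ Cfsg.IsJComponent T K₁ ∧ Cfsg.IsJComponent T K₂ ∧
      Cfsg.pCoreOf 2 ((K₁ ⊔ T) ⊔ (K₂ ⊔ T)) = ⊥ ∧
      ∀ P ∈ [K₁ ⊔ T, K₂ ⊔ T],
        Subgroup.centralizer (Cfsg.pCoreOf 2 P : Set G) ≤ Cfsg.pCoreOf 2 P ∧ Cfsg.IsSylowTwoIn T P ∧
        (Cfsg.pCoreOf 2 P).relIndex P = 6 ∧ ¬ ⁅P, P⁆ ≤ Cfsg.pCoreOf 2 P ∧ ⁅Cfsg.omegaCenterOf T, P⁆ ≠ ⊥ ∧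
        ∃ L : Subgroup G, Cfsg.IsMaximalTwoLocal L ∧ P ≤ L ∧ Cfsg.IsSylowTwoIn T L ∧
          ∀ L' : Subgroup G, Cfsg.IsMaximalTwoLocal L' → P ≤ L' → L' = L := by
  have h : CL.KS12.HM (S : Subgroup G) M T := ⟨⟨hL, hN, hZ⟩, CL.Grp.isSylowIn_top S, hM, hMJ, hT⟩
  obtain ⟨K₁, L₁, K₂, L₂, p⟩ := h.exists_pair hO
  have f : ∀ {K₁ K₂ L₁ L₂ : Subgroup G}, CL.KS12.Pr T K₁ L₁ K₂ L₂ → ∀ P, P = K₁ ⊔ T →
      Subgroup.centralizer (Cfsg.pCoreOf 2 P : Set G) ≤ Cfsg.pCoreOf 2 P ∧ Cfsg.IsSylowTwoIn T P ∧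
        (Cfsg.pCoreOf 2 P).relIndex P = 6 ∧ ¬ ⁅P, P⁆ ≤ Cfsg.pCoreOf 2 P ∧ ⁅Cfsg.omegaCenterOf T, P⁆ ≠ ⊥ ∧
        ∃ L : Subgroup G, Cfsg.IsMaximalTwoLocal L ∧ P ≤ L ∧ Cfsg.IsSylowTwoIn T L ∧
          ∀ L' : Subgroup G, Cfsg.IsMaximalTwoLocal L' → P ≤ L' → L' = L := by
    rintro K₁ K₂ L₁ L₂ p P rfl
    have hJ : Cfsg.thompsonSubgroupOf 2 T ≤ K₁ ⊔ T := (CL.Loc.thompsonSubgroupOf_le T).trans le_sup_right
    refine ⟨p.cent_core, CL.KS12.sylTwo_iff.2 p.p_syl, p.idx_six, fun e => p.k3.not_isP ((CL.Even.core_isP _).to_le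
      ((CL.KS12.JC.comm p.jc).ge.trans ((Subgroup.commutator_mono le_sup_left hJ).trans e))), fun e => ?_,
      L₁, p.u₁.mx, p.p_le, CL.KS12.sylTwo_iff.2 p.u₁.syl, fun L' h1 h2 =>
        (h1.2 _ p.u₁.mx.1 (p.u₁.uq L' h1.1 (le_sup_left.trans h2) (hJ.trans h2))).symm⟩
    exact p.u₁.om_not p.z (Subgroup.le_centralizer_iff.1 (le_sup_left.trans (CL.Even.commutator_eq_bot_iff'.1 e)))
  have hn := CL.Even.self_le_norm_core (p := 2) ((K₁ ⊔ T) ⊔ (K₂ ⊔ T))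
  refine ⟨K₁, K₂, fun e => p.not_le (e ▸ p.u₁.le), p.jc, p.symm.jc, p.eq_bot (CL.Even.core_isP _)
    ((le_sup_left.trans le_sup_left).trans hn) ((le_sup_left.trans le_sup_right).trans hn)
    ((le_sup_right.trans le_sup_left).trans hn), fun P hP => ?_⟩
  simp only [List.mem_cons, List.not_mem_nil, or_false] at hP
  exact hP.elim (f p P) (f p.symm P)

end Cfsg.Agent.S2953
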