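import Cfsg.Statements.S2955
import Cfsg.Agent.Even.StrEmb2
import Cfsg.Agent.Grp.SylowIn

set_option autoImplicit false
open Cfsg

namespace Cfsg.Agent.S2955

open CL.Even
open scoped Pointwise

/-- Let p be a prime dividing the order of the finite group G and 𝓕 a conjugation-closed family of subgroups that controls Sylow p-intersections in G. Suppose the Sylow p-subgroups of G are chain-connected: any two of them are joined by a chain of Sylow p-subgroups, consecutive ones distinct with nontrivial intersection, all containing the intersection of the two ends (equivalently, the graph on the Sylow p-subgroups whose edges are the distinct pairs meeting nontrivially is connected). Then for every Sylow p-subgroup S, G is generated by N_G(S) together with the members of 𝓕 that meet S in a Sylow p-subgroup of themselves. -/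
theorem result {G : Type*} [Group G] [Finite G] (p : ℕ) [Fact p.Prime] (hdiv : p ∣ Nat.card G)
    (𝓕 : Set (Subgroup G)) (h𝓕 : Cfsg.IsNormalSet 𝓕) (hc : Cfsg.ControlsSylowIntersections p 𝓕)
    (hconn : Cfsg.IsSylowChainConnected p G) (S : Sylow p G) :
    (⨆ X ∈ Cfsg.sylowMembers p 𝓕 (S : Subgroup G), X) ⊔ Subgroup.normalizer ((S : Subgroup G) : Set G) = ⊤ := by
  set H := (⨆ X ∈ Cfsg.sylowMembers p 𝓕 (S : Subgroup G), X) ⊔
    Subgroup.normalizer ((S : Subgroup G) : Set G) with hH
  have key : ∀ h ∈ H, ∀ X ∈ Cfsg.sylowMembers p 𝓕 ((h • S : Sylow p G) : Subgroup G), X ≤ H := by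
    intro h hh X ⟨hX, hP⟩
    have h1 : CL.Grp.IsSylowIn p (((h • S : Sylow p G) : Subgroup G) ⊓ X) X :=
      CL.Grp.isSylowIn_iff_exists.mpr hP
    have h2 := h1.conj_smul h⁻¹
    have h3 : subgroupConjRight h X ∈ Cfsg.sylowMembers p 𝓕 (S : Subgroup G) := by
      refine ⟨h𝓕 X hX h, CL.Grp.isSylowIn_iff_exists.mp ?_⟩
      rw [Subgroup.smul_inf, Sylow.coe_subgroup_smul, smul_smul, ← map_mul, inv_mul_cancel, map_one,
        one_smul] at h2
      exact h2
    have h4 : subgroupConjRight h X ≤ H := le_sup_of_le_left (le_iSup₂_of_le _ h3 le_rfl)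
    intro y hy
    have := H.mul_mem (H.mul_mem hh (h4 ⟨y, hy, rfl⟩)) (H.inv_mem hh)
    simpa [mul_assoc] using this
  have step : ∀ A B : Sylow p G, (A : Subgroup G) ⊓ (B : Subgroup G) ≠ ⊥ →
      (∃ h ∈ H, h • S = A) → ∃ h ∈ H, h • S = B := by
    intro A B hAB hA
    by_cases e : A = B
    · exact e ▸ hA
    obtain ⟨n, c, X, x, h0, hl, hc'⟩ := hc A B e hAB
    have : ∀ j : Fin (n + 1), ∃ h ∈ H, h • S = c j := by
      intro j
      induction j using Fin.induction with
      | zero => exact h0 ▸ hA
      | succ i ih =>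
        obtain ⟨h, hh, e1⟩ := ih
        obtain ⟨a1, -, a3, a4, -⟩ := hc' i
        refine ⟨x i * h, H.mul_mem (key h hh (X i) (e1 ▸ a1) a3) hh, ?_⟩
        have e2 : (x i)⁻¹ • c i.succ = c i.castSucc := Sylow.ext a4
        rw [mul_smul, e1, ← e2, smul_inv_smul]
    exact hl ▸ this (Fin.last n)
  have all : ∀ T : Sylow p G, ∃ h ∈ H, h • S = T := by
    intro T
    have := isSylowChainConnected_iff.mp hconn S T
    induction this with
    | refl => exact ⟨1, H.one_mem, one_smul _ _⟩
    | tail _ hr ih => exact step _ _ hr ih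
  rw [eq_top_iff]
  intro g _
  obtain ⟨h, hh, e⟩ := all (g • S)
  have h2 : (h⁻¹ * g) • S = S := by rw [mul_smul, ← e, inv_smul_smul]
  have h3 : h⁻¹ * g ∈ H := Subgroup.mem_sup_right (Sylow.smul_eq_iff_mem_normalizer.mp h2)
  simpa using H.mul_mem hh h3

end Cfsg.Agent.S2955
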