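import Cfsg.Statements.S2958
import Cfsg.Agent.Even.Amb

set_option autoImplicit false
open Cfsg

namespace Cfsg.Agent.S2958

open CL.Even


/-- Let X, A, B be subgroups of a group G such that G is generated by the conjugates of X and every conjugate of X is contained in A or in B. Then A = G or B = G. -/
theorem result {G : Type*} [Group G] (X A B : Subgroup G) (hgen : (⨆ g : G, X.map (MulAut.conj g).toMonoidHom) = ⊤) (hcover : ∀ g : G, X.map (MulAut.conj g).toMonoidHom ≤ A ∨ X.map (MulAut.conj g).toMonoidHom ≤ B) : A = ⊤ ∨ B = ⊤ := by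
  by_cases hA : A = ⊤
  · exact Or.inl hA
  right
  set N : Subgroup G := ⨆ g : {g : G // ¬ cj g X ≤ A}, cj (g : G) X with hN
  have hNB : N ≤ B := iSup_le fun g => (hcover g).resolve_left g.2
  have hAN : A ≤ 𝒩(N) := by
    apply le_norm_of_cj_le
    intro a ha
    rw [hN, Subgroup.map_iSup]
    refine iSup_le fun g => ?_
    rw [← cj_mul]
    refine le_iSup (fun g : {g : G // ¬ cj g X ≤ A} => cj (g : G) X) ⟨a * g, fun h => g.2 ?_⟩
    rw [cj_mul, cj_le_iff, cj_eq (Subgroup.le_normalizer (inv_mem ha))] at h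
    exact h
  have hn : (⊤ : Subgroup G) ≤ 𝒩(N) := by
    rw [← hgen]
    refine iSup_le fun g => ?_
    by_cases h : cj g X ≤ A
    · exact h.trans hAN
    · exact le_norm_of_le (le_iSup (fun g : {g : G // ¬ cj g X ≤ A} => cj (g : G) X) ⟨g, h⟩)
  obtain ⟨g₀, hg₀⟩ : ∃ g : G, ¬ cj g X ≤ A := by
    by_contra h
    push Not at h
    exact hA (top_le_iff.1 (hgen ▸ iSup_le h))
  rw [eq_top_iff, ← hgen]
  refine iSup_le fun g => le_trans ?_ hNB
  have h1 : cj g₀ X ≤ N := le_iSup (fun g : {g : G // ¬ cj g X ≤ A} => cj (g : G) X) ⟨g₀, hg₀⟩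
  have h2 := cj_le_of_le h1 (hn (Subgroup.mem_top (g * g₀⁻¹)))
  rwa [← cj_mul, inv_mul_cancel_right] at h2

end Cfsg.Agent.S2958
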