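import Cfsg.Statements.S2981
import Cfsg.Agent.Even.BHS9

set_option autoImplicit false
open Cfsg

namespace Cfsg.Agent.S2981

/-- The local C**(G,T)-Theorem for minimal parabolic groups. Let G be a finite p-minimal group (a Sylow p-subgroup T is not normal and lies in exactly one maximal subgroup) of characteristic p (C_G(O_p(G)) ≤ O_p(G)), and suppose G ≠ C**(G,T), the subgroup generated by C_G(Ω₁(Z(T))) and N_G(J(T)) (J(T) generated by the elementary abelian p-subgroups of T of largest order). Put V = Ω₁(Z(O_p(G))) and C = C_G(V). Then there are subgroups E₁, …, E_r of G containing C such that: J(G)TC = G and the E_i C/C form an internal direct product equal to J(G)C/C; any two of the E_i are conjugate by an element of T; V = C_V(⟨E_i⟩)·∏[V, E_i] with [V, E_i, E_j] = 1 for i ≠ j; for some n ≥ 1, each E_i/C is isomorphic to SL₂(pⁿ), or p = 2 and to the symmetric group of degree 2ⁿ + 1; and E_i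 acts on [V, E_i]/C_{[V,E_i]}(E_i) as the natural two-dimensional SL₂(pⁿ)-module, respectively as the symmetric group of degree 2ⁿ+1 on its even-weight permutation module. -/
theorem result {G : Type*} [Group G] [Finite G] {p : ℕ} [Fact p.Prime] (hmin : Cfsg.IsPMinimal p G) (hG : Subgroup.centralizer (Cfsg.pCore p G : Set G) ≤ Cfsg.pCore p G) (T : Sylow p G) (hne : Cfsg.cStarStarOf p (T : Subgroup G) ≠ ⊤) : ∃ (r : ℕ) (E : Fin r → Subgroup G), (∀ i, Subgroup.centralizer (Cfsg.omegaOneCenter p (Cfsg.pCore p G) : Set G) ≤ E i) ∧ Cfsg.thompsonSubgroup p G ⊔ (T : Subgroup G) ⊔ Subgroup.centralizer (Cfsg.omegaOneCenter p (Cfsg.pCore p G) : Set G) = ⊤ ∧ (⨆ i, E i) = Cfsg.thompsonSubgroup p G ⊔ Subgroup.centralizer (Cfsg.omegaOneCenter p (Cfsg.pCore p G) : Set G) ∧ (∀ i j, i ≠ j → ⁅E i, E j⁆ ≤ Subgroup.centralizer (Cfsg.omegaOneCenter p (Cfsg.pCore p G) : Set G)) ∧ (∀ i, E i ⊓ (⨆ j ∈ {j | j ≠ i}, E j) ≤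 Subgroup.centralizer (Cfsg.omegaOneCenter p (Cfsg.pCore p G) : Set G)) ∧ (∀ i j, ∃ t ∈ (T : Subgroup G), (E i).map (MulAut.conj t).toMonoidHom = E j) ∧ (Cfsg.omegaOneCenter p (Cfsg.pCore p G) ⊓ Subgroup.centralizer ((⨆ i, E i : Subgroup G) : Set G)) ⊔ (⨆ i, ⁅Cfsg.omegaOneCenter p (Cfsg.pCore p G), E i⁆) = Cfsg.omegaOneCenter p (Cfsg.pCore p G) ∧ (∀ i j, i ≠ j → ⁅⁅Cfsg.omegaOneCenter p (Cfsg.pCore p G), E i⁆, E j⁆ = ⊥) ∧ ∀ i, ∃ n : ℕ, 1 ≤ n ∧ ((∃ (F : Type) (_ : Field F) (_ : Fintype F), Fintype.card F = p ^ n ∧ (∃ _ : ((Subgroup.centralizer (Cfsg.omegaOneCenter p (Cfsg.pCore p G) : Set G)).subgroupOf (E i)).Normal, Nonempty (↥(E i) ⧸ (Subgroup.centralizer (Cfsg.omegaOneCenter p (Cfsg.pCore p G) : Set G)).subgroupOf (E i) ≃* Matrix.SpecialLinearGroup (Fin 2) F)) ∧ Cfsg.ActsAsSL2OnSection F ⊤ (E i) ⁅Cfsg.omegaOneCenter p (Cfsg.pCore p G), E i⁆ (⁅Cfsg.omegaOneCenter p (Cfsg.pCore p G), E i⁆ ⊓ Subgroup.centralizer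 ((E i : Subgroup G) : Set G))) ∨ (p = 2 ∧ (∃ _ : ((Subgroup.centralizer (Cfsg.omegaOneCenter p (Cfsg.pCore p G) : Set G)).subgroupOf (E i)).Normal, Nonempty (↥(E i) ⧸ (Subgroup.centralizer (Cfsg.omegaOneCenter p (Cfsg.pCore p G) : Set G)).subgroupOf (E i) ≃* Equiv.Perm (Fin (2 ^ n + 1)))) ∧ Cfsg.ActsAsOddPermModuleOnSection (2 ^ n + 1) ⊤ (E i) ⁅Cfsg.omegaOneCenter p (Cfsg.pCore p G), E i⁆ (⁅Cfsg.omegaOneCenter p (Cfsg.pCore p G), E i⁆ ⊓ Subgroup.centralizer ((E i : Subgroup G) : Set G)))) := by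
  open Subgroup CL.Even CL.Grp commutatorElement in
    open CL.Loc commutatorElement in
    obtain ⟨-, M, hU⟩ := (isPMinimal_top_iff T).1 hmin
    have h : PMF p ⊤ T M (𝛀[p] (pCore p G)) := ⟨isCharP_top.2 hG, isSylowIn_top T, hU, by rw [core_top],
      fun h => hne (eq_top_iff.2 (h.trans le_sup_left)), fun h => hne (eq_top_iff.2 (h.trans le_sup_right))⟩
    generalize 𝛀[p] (pCore p G) = V at h ⊢
    have hk := isKer_hψ V
    have hn : ∀ X : Subgroup G, X ≤ 𝒩(V) := fun X => le_top.trans h.norm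
    obtain ⟨q, 𝒟, k, hD⟩ := h.exists_tvP
    obtain ⟨E, hE, hEM, hF, hc⟩ := k.exists_fac k.no_over k.umax.not_le
    obtain ⟨r, F, -, h2, h3, h4, h5, h6, h7, h8⟩ := k.exists_family k.syl.le hE hF hc
    have hF' : ∀ i, F i ≤ him[V] ⊤ ∧ TvFac p q (hem V V) 𝒟 (F i) := fun i => by
      obtain ⟨t, ht, e⟩ := h2 i
      exact e ▸ ⟨cj_le_of_mem hE (k.syl.le ht), k.fac_conj hF (k.syl.le ht)⟩
    have e : ∀ i, him[V] (gpre (hψ V) (F i)) = F i := fun i => by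
      rw [← top_inf_eq (gpre _ _), gim_inf_gpre (hF' i).1]
    have hC : ∀ i, 𝒞(V) ≤ gpre (hψ V) (F i) := fun i => hk.le_gpre' _
    obtain ⟨i₀, e₀⟩ := h3 1 (one_mem _)
    rw [cj_one] at e₀
    have hC' := (hC i₀).trans (le_iSup (fun i => gpre (hψ V) (F i)) i₀)
    have hs : him[V] T ⊔ ⨆ i, F i = him[V] ⊤ :=
      k.umax.sup_eq (iSup_le fun i => (hF' i).1) fun h => hEM (e₀ ▸ (le_iSup F i₀).trans h)
    have eS : him[V] (⨆ i, gpre (hψ V) (F i)) = ⨆ i, F i := by rw [gim_iSup fun i => hn _]; simp only [e]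
    have hJ : ⨆ i, gpre (hψ V) (F i) = thompsonSubgroup p G ⊔ 𝒞(V) := by
      rw [← thompsonSubgroupOf_top]
      refine le_antisymm (iSup_le fun i => (hk.gim_le (hn _) (hn _)).1 ?_) (sup_le ?_ (hC'))
      · rw [e]
        refine (k.fac_le_tvD (hF' i).2 (hF' i).1).trans (tvD_le_iff.2 fun X hX _ => ?_)
        obtain ⟨A, hA, rfl⟩ := hD X hX
        exact gim_mono (le_thompsonSubgroupOf hA)
      obtain ⟨X, hX, h9⟩ : ∃ X ∈ 𝒟, X ≤ E := by
        by_contra! h9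
        exact hEM ((k.fac_le_tvD hF hE).trans (tvD_le_iff.2 fun X hX h => (h9 X hX h).elim))
      refine ((hk.gim_le (hn _) (hn _)).1 ?_).trans (sup_le le_rfl (hC'))
      rw [eS]
      refine h.him_JH_le k hD (hs ▸ sup_le (le_norm_of_cj_le fun t ht => ?_) le_normalizer) hX
        (h9.trans (e₀ ▸ le_iSup F i₀))
      rw [cj_le_iff]
      refine iSup_le fun i => ?_
      obtain ⟨s, hs, e1⟩ := h2 i
      obtain ⟨j, e2⟩ := h3 _ (mul_mem ht hs)
      rw [← cj_le_iff, ← e1, ← cj_mul, e2]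
      exact le_iSup F j
    have hW : ∀ i, ⁅V, gpre (hψ V) (F i)⁆ ≤ V := fun i => commutator_le_of_le_norm (hn _)
    have eW : ∀ i, hem V ⁅V, gpre (hψ V) (F i)⁆ = ⁅hem V V, F i⁆ := fun i => by rw [hem_commutator le_rfl (hn _), e]
    refine ⟨r, fun i => gpre (hψ V) (F i), hC, ?_, hJ, fun i j hij => ?_, fun i => ?_, fun i j => ?_, ?_,
      fun i j hij => ?_, fun i => ?_⟩
    · rw [sup_right_comm, ← hJ, eq_top_iff]
      refine ((hk.gim_le (hn _) (hn _)).1 ?_).trans (sup_le le_rfl ((hC').trans le_sup_left))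
      rw [gim_sup (hn _) (hn _), eS, sup_comm, hs]
    · exact (hk.gim_le_cent_iff (hn _) (hn _)).1 (by rw [e, e]; exact h4 i j hij)
    · refine (hk.gim_eq_bot (hn _)).1 (eq_bot_iff.2 (le_trans (le_inf ((gim_mono inf_le_left).trans (e i).le)
        ((gim_mono inf_le_right).trans ?_)) (h6 i).le))
      simp only [gim_iSup fun _ => hn _, e, le_refl]
    · obtain ⟨_, ht₀, e1⟩ := h7 i j
      obtain ⟨t, _, ht, rfl⟩ := mem_gim.1 ht₀
      refine ⟨t, ht, ?_⟩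
      have := congrArg (gpre (hψ V)) ((gim_cj (hn _) (hn ⊤ trivial)).trans ((congrArg _ (e i)).trans e1))
      rwa [hk.gpre_gim (hn _), sup_eq_left.2 ((cj_eq (norm_le_norm_cent V (hn ⊤ trivial))).ge.trans
        (cj_mono t (hC i)))] at this
    · rw [← hem_inj (sup_le inf_le_left (iSup_le hW)) le_rfl, hem_sup inf_le_left (iSup_le hW),
        hem_inf_cent le_rfl (hn _), eS, hem_iSup hW]
      simpa only [eW] using h8
    · exact commutator_eq_bot_iff_le_centralizer.2 ((hem_le_cent (hW i) (hn _)).1 (by rw [eW, e]; exact h5 i j hij))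
    obtain ⟨n, h9, h10⟩ : FacOut p (hem V V) (him[V] (gpre (hψ V) (F i))) := (e i).symm ▸ k.fac_out (hF' i).2
    obtain ⟨h11, ⟨φ⟩⟩ := hk.exists_equiv (hn (gpre (hψ V) (F i)))
    rw [← hem_commutator le_rfl (hn _), ← hem_inf_cent (hW i) (hn _)] at h10
    refine ⟨n, h9, h10.imp ?_ ?_⟩
    · rintro ⟨K, _, _, h12, ⟨χ⟩, h13⟩
      exact ⟨K, _, _, h12, ⟨h11, ⟨φ.trans χ⟩⟩, actsSL2_of_him (hn _) (hW i) (inf_le_left.trans (hW i)) h13⟩
    · rintro ⟨h12, ⟨χ⟩, h13⟩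
      exact ⟨h12, ⟨h11, ⟨φ.trans χ⟩⟩, actsPerm_of_him (hn _) (hW i) (inf_le_left.trans (hW i)) h13⟩

end Cfsg.Agent.S2981
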