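import Cfsg.Statements.S2987
import Cfsg.Agent.Even.Blk5

set_option autoImplicit false
open Cfsg

namespace Cfsg.Agent.S2987

/-- Let G be a finite group of characteristic p (C_G(O_p(G)) ≤ O_p(G)) and E a subnormal subgroup of G which is a B(T)-block for some Sylow p-subgroup T of G. Then E is a normal subgroup of the Baumann subgroup B(G) (generated by the B(T) over all Sylow p-subgroups T), E is a B(T')-block for every Sylow p-subgroup T' of G, and every subgroup F that is a B(T')-block for some Sylow p-subgroup T' satisfies F ≤ E or [F, E] = 1. -/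
theorem result {G : Type*} [Group G] [Finite G] {p : ℕ} [Fact p.Prime] (hG : Subgroup.centralizer (Cfsg.pCore p G : Set G) ≤ Cfsg.pCore p G) (E : Subgroup G) (hE : ∃ T : Sylow p G, Cfsg.IsBaumannBlock p (T : Subgroup G) E) (hEs : E.IsSubnormal) : E ≤ Cfsg.baumannSubgroup p G ∧ Cfsg.baumannSubgroup p G ≤ Subgroup.normalizer (E : Set G) ∧ (∀ T' : Sylow p G, Cfsg.IsBaumannBlock p (T' : Subgroup G) E) ∧ ∀ F : Subgroup G, (∃ T' : Sylow p G, Cfsg.IsBaumannBlock p (T' : Subgroup G) F) → F ≤ E ∨ ⁅F, E⁆ = ⊥ := by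
  obtain ⟨T, hT⟩ := hE
  have hH := CL.Even.isCharP_top.2 hG
  have hs := CL.Grp.subnIn_top_iff.2 hEs
  have h0 := CL.Grp.isSylowIn_top T
  have hB : ∀ T' : Sylow p G, Cfsg.baumannSubgroupOf p (T' : Subgroup G) ≤ Cfsg.baumannSubgroup p G := fun T' =>
    le_iSup (fun T : Sylow p G => Cfsg.baumannSubgroupOf p (T : Subgroup G)) T'
  refine ⟨hT.2.1.ge.trans (Subgroup.commutator_le.2 fun e _ b hb => ?_), iSup_le fun T' =>
    CL.Even.bau_le_norm hH h0 hs hT (CL.Grp.isSylowIn_top T'), fun T' =>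
    CL.Even.block_of_syl hH h0 hs hT (CL.Grp.isSylowIn_top T'), fun F ⟨T', hF⟩ =>
    (CL.Even.block_le_or_cent hH h0 hs hT (CL.Grp.isSylowIn_top T') le_top hF).imp_right
      Subgroup.commutator_eq_bot_iff_le_centralizer.2⟩
  obtain ⟨T', h1⟩ := CL.Grp.isSylowIn_top_iff.1 (h0.conj_smul_of_mem (Subgroup.mem_top e))
  refine Subgroup.mul_mem _ (hB T' ?_) (Subgroup.inv_mem _ (hB T hb))
  rw [h1]
  exact (CL.Even.cj_bau e _).le (CL.Even.conj_mem_cj e hb)

end Cfsg.Agent.S2987
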