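import Cfsg.Statements.S2989
import Cfsg.Agent.Loc.Push3

set_option autoImplicit false
open Cfsg

namespace Cfsg.Agent.S2989

/-- Let G be a finite group and S a Sylow p-subgroup of G in the basic pushing-up situation (G ≠ 1, C_G(O_p(G)) ≤ O_p(G), S lies in a unique maximal subgroup of G, and some quotient of G is isomorphic to PSL₂ over a field of order a power of p), and suppose that S centralizes Z(J(S)), where J(S) is generated by the abelian subgroups of S of largest order (that is, J̃(S) = C_S(Z(J(S))) = S). Call a subgroup R of S centrally large if |R|·|Z(R)| is as large as possible among subgroups of S, and let S_Φ be the subgroup generated by the Frattini subgroups Φ(Q) of those minimal centrally large subgroups Q of S whose Ω₁(Z(Q)) has the largest order among minimal centrally large subgroups. Then Z(S) or S_Φ is normal in G; and if S_Φ = 1, the minimal centrally large subgroups of S are exactly the abelian subgroups of S of largest order, and at least one of them is elementary abelian. -/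
theorem result {G : Type*} [Group G] [Finite G] {p : ℕ} [Fact p.Prime] (S : Subgroup G) (hE : Cfsg.IsPushingUpSituation p S) (hJ : S ≤ Subgroup.centralizer (Cfsg.centerThompsonAOf S : Set G)) : ((S ⊓ Subgroup.centralizer (S : Set G)).Normal ∨ ((Cfsg.frattiniOfMinimalCLJoin p ↥S).map S.subtype).Normal) ∧ (Cfsg.frattiniOfMinimalCLJoin p ↥S = ⊥ → (∀ Q : Subgroup ↥S, Cfsg.IsMinimalCentrallyLarge Q ↔ Q ∈ Cfsg.maxAbelianSubgroups ↥S) ∧ ∃ A ∈ Cfsg.maxAbelianSubgroups ↥S, Cfsg.IsElementaryAbelian p A) := by
  obtain ⟨F, _, _, M, h⟩ := CL.Loc.exists_E0_of_pushingUp hE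
  constructor
  · by_cases hZ : S ⊓ Subgroup.centralizer (S : Set G) ≤ Subgroup.centralizer ((⊤ : Subgroup G) : Set G)
    · exact Or.inl (CL.Even.normal_iff_top_le.2 (CL.Loc.le_norm_of_le_cent hZ))
    rw [CL.Grp.centerThompsonAOf_eq] at hJ
    rw [CL.Loc.map_subtype_phiJoin]
    exact Or.inr (CL.Even.normal_iff_top_le.2 (h.ff_of_le_cent_ZJ hZ hJ).1.le_norm_phiJoin)
  · intro h0
    obtain ⟨Q, hQ⟩ := CL.Loc.exists_mzIn p (⊤ : Subgroup S)
    have h1 := CL.Loc.frat_le_phiJoin hQ
    rw [CL.Loc.phiJoin_top, h0, CL.Loc.frat_le_iff (h.isP.to_subgroup Q), le_bot_iff,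
      CL.Even.commutator_eq_bot_iff'] at h1
    have h2 := CL.Even.mcl_iff_maxAbelian (CL.Loc.mclIn_top.1 hQ.1).1
      (CL.Even.isMulCommutative_iff_le_centralizer.2 h1.1)
    exact ⟨h2, Q, (h2 Q).1 (CL.Loc.mclIn_top.1 hQ.1), CL.Even.elem_iff.2 ⟨h1.1, h1.2⟩⟩

end Cfsg.Agent.S2989
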