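import Cfsg.Statements.S2990
import Cfsg.Agent.Loc.Push3

set_option autoImplicit false
open Cfsg

namespace Cfsg.Agent.S2990

/-- Let G be a finite group and S a Sylow p-subgroup of G in the basic pushing-up situation (G ≠ 1, C_G(O_p(G)) ≤ O_p(G), S lies in a unique maximal subgroup of G, and some quotient of G is isomorphic to PSL₂ over a field of order a power of p), and suppose that S centralizes Z(J(S)), where J(S) is generated by the abelian subgroups of S of largest order (that is, J̃(S) = C_S(Z(J(S))) = S). Call a subgroup R of S centrally large if |R|·|Z(R)| is as large as possible among subgroups of S, let Q be a minimal centrally large subgroup of S and let S_MCL be the subgroup generated by all minimal centrally large subgroups of S. Then the derived subgroup [Q, Q] is characteristic in S; Z(S) ∩ [Q, Q] or S_MCL is normal in G; and if [Q, Q] = 1, the minimal centrally large subgroups of S are exactly the abelian subgroups of S of largest order. -/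
theorem result {G : Type*} [Group G] [Finite G] {p : ℕ} [Fact p.Prime] (S : Subgroup G) (hE : Cfsg.IsPushingUpSituation p S) (hJ : S ≤ Subgroup.centralizer (Cfsg.centerThompsonAOf S : Set G)) (Q : Subgroup ↥S) (hQ : Cfsg.IsMinimalCentrallyLarge Q) : (⁅Q, Q⁆).Characteristic ∧ (((S ⊓ Subgroup.centralizer (S : Set G)) ⊓ (⁅Q, Q⁆).map S.subtype).Normal ∨ ((Cfsg.minimalCentrallyLargeJoin ↥S).map S.subtype).Normal) ∧ (⁅Q, Q⁆ = ⊥ → ∀ R : Subgroup ↥S, Cfsg.IsMinimalCentrallyLarge R ↔ R ∈ Cfsg.maxAbelianSubgroups ↥S) := by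
  obtain ⟨F, _, _, M, h⟩ := CL.Loc.exists_E0_of_pushingUp hE
  refine ⟨CL.Loc.mcl_commutator_characteristic hQ, ?_, fun h0 => CL.Even.mcl_iff_maxAbelian hQ.1
    (CL.Even.isMulCommutative_iff_le_centralizer.2 (CL.Even.commutator_eq_bot_iff'.1 h0))⟩
  by_cases hZ : S ⊓ Subgroup.centralizer (S : Set G) ≤ Subgroup.centralizer ((⊤ : Subgroup G) : Set G)
  · exact Or.inl (CL.Even.normal_iff_top_le.2 (CL.Loc.le_norm_of_le_cent (inf_le_left.trans hZ)))
  rw [CL.Grp.centerThompsonAOf_eq] at hJ
  rw [Subgroup.map_commutator, CL.Loc.map_subtype_mclJoin]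
  exact ((h.ff_of_le_cent_ZJ hZ hJ).1.mcl_commutator_or (CL.Loc.mclIn_map_subtype.2 hQ)).imp
    (fun hle => CL.Even.normal_iff_top_le.2 (CL.Loc.le_norm_of_le_cent
      (h.le_cent_of_res (inf_le_left.trans inf_le_right) (inf_le_right.trans hle))))
    CL.Even.normal_iff_top_le.2

end Cfsg.Agent.S2990
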