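import Cfsg.Statements.S2998
import Cfsg.Agent.Even.Isolated

set_option autoImplicit false
open Cfsg

namespace Cfsg.Agent.S2998

open CL.Even

/-- Let G be a finite group, p a prime, P a Sylow p-subgroup of G and x ∈ P an element such that N_G(R) ≤ C_G(x) for every nontrivial subgroup R of P. Then P ≤ C_G(x); every G-conjugate of x lying in P equals x (so g ∈ C_G(x) whenever g x g⁻¹ ∈ P); and for every normal subgroup N of G, the image of x in G ⧸ N has the same property with respect to the image of P: the normalizer of every nontrivial subgroup of the image of P centralizes the image of x. -/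
theorem result {G : Type*} [Group G] [Finite G] {p : ℕ} [Fact p.Prime] (P : Sylow p G) (x : G) (hxP : x ∈ (P : Subgroup G)) (hlc : ∀ R : Subgroup G, R ≤ (P : Subgroup G) → R ≠ ⊥ → Subgroup.normalizer (R : Set G) ≤ Subgroup.centralizer ({x} : Set G)) : (P : Subgroup G) ≤ Subgroup.centralizer ({x} : Set G) ∧ (∀ g : G, g * x * g⁻¹ ∈ (P : Subgroup G) → g * x * g⁻¹ = x) ∧ ∀ (N : Subgroup G) [N.Normal], ∀ R : Subgroup (G ⧸ N), R ≤ (P : Subgroup G).map (QuotientGroup.mk' N) → R ≠ ⊥ → Subgroup.normalizer (R : Set (G ⧸ N)) ≤ Subgroup.centralizer ({(QuotientGroup.mk x : G ⧸ N)} : Set (G ⧸ N)) := by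
  by_cases hP1 : (P : Subgroup G) = ⊥
  · have hx1 : x = 1 := by rw [hP1] at hxP; exact hxP
    subst hx1
    refine ⟨fun y _ => by simp [Subgroup.mem_centralizer_singleton_iff], fun g _ => by simp,
      fun N _ R _ _ y _ => by simp [Subgroup.mem_centralizer_singleton_iff]⟩
  have hPC : (P : Subgroup G) ≤ Subgroup.centralizer ({x} : Set G) :=
    Subgroup.le_normalizer.trans (hlc _ le_rfl hP1)
  have h := speElt_of_sylow hPC hlc
  have hd := (spe_dvd_card_of_isPGroup_ne_bot P.isPGroup' hP1).trans (Subgroup.card_dvd_of_le hPC)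
  refine ⟨hPC, fun g hg => ?_, fun N _ R hR hR1 => ?_⟩
  · by_cases hx1 : x = 1
    · simp [hx1]
    have h1 := P.isPGroup'.dvd_orderOf (g := ⟨x, hxP⟩) (fun h => hx1 (congrArg Subtype.val h))
    rw [← Subgroup.orderOf_coe] at h1
    exact conj_eq_iff_mem_centralizer.mpr (h.mem_of_dvd_orderOf (hPC hxP) h1 (hPC hg))
  · have h2 := (h.of_le hd (le_sup_left (b := N))).map_of_surjective
      (QuotientGroup.mk'_surjective N) (by rw [QuotientGroup.ker_mk']; exact le_sup_right)
    refine (h2.normalizer_le (hR.trans (Subgroup.map_mono (hPC.trans le_sup_left)))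
      (spe_dvd_card_of_isPGroup_ne_bot ((P.isPGroup'.map _).to_le hR) hR1)).trans ?_
    rw [Subgroup.map_sup, (Subgroup.map_eq_bot_iff N).mpr (by rw [QuotientGroup.ker_mk']),
      sup_bot_eq]
    rintro _ ⟨c, hc, rfl⟩
    rw [SetLike.mem_coe, Subgroup.mem_centralizer_singleton_iff] at hc
    rw [Subgroup.mem_centralizer_singleton_iff, QuotientGroup.mk'_apply, ← QuotientGroup.mk_mul,
      hc, QuotientGroup.mk_mul]

end Cfsg.Agent.S2998
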