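import Cfsg.Statements.S3003
import Cfsg.Agent.Even.ParChar
import Cfsg.Agent.Grp.Coprime2
import Cfsg.Agent.Grp.PGroupBasic

set_option autoImplicit false
open Cfsg

namespace Cfsg.Agent.S3003

open Subgroup CL.Even CL.Grp

/-- Let G be a finite group, p a prime and Q a large p-subgroup of G: C_G(Q) ≤ Q and N_G(U) ≤ N_G(Q) for every nontrivial subgroup U of C_G(Q). Let Q ≤ G₁ ≤ G, let R be a subgroup of order prime to p normalized by G₁, and let U ≤ G₁ be a p-subgroup. If U contains a nontrivial element which is G₁-conjugate to an element of Z(Q), then C_R(U) = 1. In particular, if U is elementary abelian of order at least p² and every maximal subgroup of U contains a nontrivial element G₁-conjugate into Z(Q), then R = 1. -/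
theorem result {G : Type*} [Group G] [Finite G] {p : ℕ} [Fact p.Prime] (Q : Subgroup G) (hQp : IsPGroup p ↥Q) (hlarge : Cfsg.IsLarge Q) (G₁ : Subgroup G) (hQG : Q ≤ G₁) (R : Subgroup G) (hR : (Nat.card ↥R).Coprime p) (hGR : G₁ ≤ Subgroup.normalizer (R : Set G)) (U : Subgroup G) (hUG : U ≤ G₁) (hUp : IsPGroup p ↥U) : ((∃ x ∈ U, x ≠ 1 ∧ ∃ g ∈ G₁, g * x * g⁻¹ ∈ Q ⊓ Subgroup.centralizer (Q : Set G)) → R ⊓ Subgroup.centralizer (U : Set G) = ⊥) ∧ (Cfsg.IsElementaryAbelian p U → p ^ 2 ≤ Nat.card ↥U → (∀ U₀ : Subgroup G, U₀ ≤ U → IsCoatom (U₀.subgroupOf U) → ∃ x ∈ U₀, x ≠ 1 ∧ ∃ g ∈ G₁, g * x * g⁻¹ ∈ Q ⊓ Subgroup.centralizer (Q : Set G)) → R = ⊥) := by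
  have key : ∀ x : G, x ≠ 1 → (∃ g ∈ G₁, g * x * g⁻¹ ∈ Q ⊓ 𝒞(Q)) →
      R ⊓ centralizer ({x} : Set G) = ⊥ := by
    rintro x hx1 ⟨g, hg, hy⟩
    rw [← cj_eq_bot (g := g), cj_inf, cj_eq (hGR hg), cj_cent_singleton]
    have hQR : Q ⊓ R = ⊥ := CL.Loc.inf_eq_bot_of_isPGroup_of_coprime hQp hR
    have h1 : centralizer ({g * x * g⁻¹} : Set G) ≤ 𝒩(Q) := by
      rw [← cent_zpowers]
      exact (cent_le_norm _).trans (hlarge.2 _ (zpowers_le.2 hy.2) (by simpa using hx1))
    rw [← le_bot_iff, ← hQR]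
    refine le_inf (le_trans ?_ hlarge.1) inf_le_left
    rw [← commutator_eq_bot_iff', ← le_bot_iff, ← hQR]
    exact le_inf (commutator_le_of_le_norm (inf_le_right.trans h1))
      ((commutator_mono le_rfl inf_le_left).trans (commutator_le_of_le_norm' (hQG.trans hGR)))
  refine ⟨fun ⟨x, hx, hx1, h⟩ => ?_, fun hel hc h => ?_⟩
  · exact le_bot_iff.1 ((inf_le_inf_left R (cent_le_cent_singleton hx)).trans (key x hx1 h).le)
  have := hel.1
  have key2 : ∀ B : Subgroup G, B ≤ U → IsCoatom (B.subgroupOf U) → R ⊓ 𝒞(B) ≤ ⊥ := by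
    intro B hB hco
    obtain ⟨x, hx, hx1, h'⟩ := h B hB hco
    exact (inf_le_inf_left R (cent_le_cent_singleton hx)).trans (key x hx1 h').le
  refine le_bot_iff.1 (le_of_forall_cocyclic_centralizer_le (hUG.trans hGR)
    (coprime_card_of_isPGroup hUp hR) ?_)
  rintro B hB ⟨a, ha, hBa⟩
  by_cases haB : a ∈ B
  · have hBU : B = U := by rw [← hBa, sup_eq_left.2 (zpowers_le.2 haB)]
    subst hBU
    have hne : (⊥ : Subgroup B) ≠ ⊤ := by
      intro h0
      have h1 : Nat.card B = 1 := by rw [← card_top (G := B), ← h0, card_bot]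
      have := (Fact.out : p.Prime).two_le
      nlinarith
    obtain ⟨M, hM, -⟩ := (eq_top_or_exists_le_coatom (⊥ : Subgroup B)).resolve_left hne
    refine (inf_le_inf_left R (cent_mono (map_subtype_le M))).trans
      (key2 _ (map_subtype_le M) ?_)
    rwa [subgroupOf, comap_map_eq_self_of_injective (subtype_injective B)]
  · refine key2 B hB (isCoatom_of_index_prime ?_)
    have hn : (B.subgroupOf U).Normal := ⟨fun n hn g => by rwa [mul_comm' g n, mul_inv_cancel_right]⟩
    have h1 := relIndex_sup_zpowers_eq_prime (p := p) (B.subgroupOf U) (x := ⟨a, ha⟩) haB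
      (by rw [show (⟨a, ha⟩ : U) ^ p = 1 from Subtype.ext (hel.2 a ha)]; exact one_mem _)
    have h2 : B.subgroupOf U ⊔ zpowers ⟨a, ha⟩ = ⊤ := by
      apply map_injective U.subtype_injective
      rw [Subgroup.map_sup, map_subgroupOf_eq_of_le hB, MonoidHom.map_zpowers, ← MonoidHom.range_eq_map,
        range_subtype]
      exact hBa
    rw [h2, relIndex_top_right] at h1
    exact h1 ▸ Fact.out

end Cfsg.Agent.S3003
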