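import Cfsg.Statements.S3008
import Cfsg.Agent.Even.CentLarge2

set_option autoImplicit false
open Cfsg

namespace Cfsg.Agent.S3008


/-- Let P be a finite p-group, with J(P) generated by its abelian subgroups of largest order and J̃(P) = C_P(Z(J(P))); call R ≤ P centrally large if |R|·|Z(R)| is as large as possible, and let P_MCL be generated by the minimal centrally large subgroups. Then: for every centrally large Q, Q·J(P) ⊇ J̃(P); some minimal centrally large subgroup of P is normalized by both J(P) and P_MCL; if P = J(P) and d(P)² = |P|·|Z(P)|, where d(P) is the largest order of an abelian subgroup, then every minimal centrally large subgroup of P is abelian; and if every minimal centrally large subgroup is abelian then J̃(P) = J(P). -/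
theorem result {p : ℕ} [Fact p.Prime] (P : Type*) [Group P] [Finite P] (hP : IsPGroup p P) : (∀ Q : Subgroup P, Cfsg.IsCentrallyLarge Q → Subgroup.centralizer ((Cfsg.thompsonSubgroupA P ⊓ Subgroup.centralizer (Cfsg.thompsonSubgroupA P : Set P) : Subgroup P) : Set P) ≤ Q ⊔ Cfsg.thompsonSubgroupA P) ∧ (∃ Q : Subgroup P, Cfsg.IsMinimalCentrallyLarge Q ∧ Cfsg.thompsonSubgroupA P ≤ Subgroup.normalizer (Q : Set P) ∧ Cfsg.minimalCentrallyLargeJoin P ≤ Subgroup.normalizer (Q : Set P)) ∧ (Cfsg.thompsonSubgroupA P = ⊤ → (∀ A ∈ Cfsg.maxAbelianSubgroups P, Nat.card ↥A ^ 2 = Nat.card P * Nat.card ↥(Subgroup.center P)) → ∀ Q : Subgroup P, Cfsg.IsMinimalCentrallyLarge Q → IsMulCommutative ↥Q) ∧ ((∀ Q : Subgroup P, Cfsg.IsMinimalCentrallyLarge Q → IsMulCommutative ↥Q) → Subgroup.centralizer ((Cfsg.thompsonSubgroupA P ⊓ Subgroup.centralizer (Cfsg.thompsonSubgroupA P : Set P) : Subgroup P) : Set P) = Cfsg.thompsonSubgroupA P) := by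
  refine ⟨fun Q hQ => CL.Even.cl_centralizer_center_thompson_le (CL.Even.cl_sup_thompsonSubgroupA hQ)
    le_sup_right, CL.Even.exists_mcl_normalized hP, fun hJ hd Q hQ => ?_, fun h => ?_⟩
  · obtain ⟨A, hA⟩ := CL.Even.exists_mem_maxAbelian P
    have h1 := CL.Even.cl_sup_thompsonSubgroupA hQ.1
    rw [hJ, sup_top_eq] at h1
    refine CL.Even.mcl_comm_of_comm (Q := A) ?_ hA.1 hQ
    change _ = _
    rw [← h1, CL.Even.central_of_comm hA.1, ← sq, hd A hA, CL.Even.card_center_eq, top_inf_eq,
      Subgroup.card_top, Subgroup.coe_top, Subgroup.centralizer_univ]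
  · obtain ⟨Q, hQ⟩ := CL.Even.exists_isMinimalCentrallyLarge P
    have h1 : thompsonSubgroupA P = minimalCentrallyLargeJoin P := by
      unfold thompsonSubgroupA minimalCentrallyLargeJoin
      congr 1
      ext X
      exact (CL.Even.mcl_iff_maxAbelian hQ.1 (h Q hQ) X).symm
    have h2 := CL.Even.isCentrallyLarge_minimalCentrallyLargeJoin P
    rw [← h1] at h2
    rw [h2.cl_inf_eq, h2.cl_large.cl_centralizer_centralizer]

end Cfsg.Agent.S3008
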