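import Cfsg.Statements.S3009
import Cfsg.Agent.Even.SL2Amb
import Cfsg.Agent.Even.Blk1

set_option autoImplicit false
open Cfsg CL.Even CL.Loc CL.Grp Subgroup Matrix
open scoped commutatorElement

namespace Cfsg.Agent.S3009

section mod
variable {F : Type*} [Field F]

/-- the Weyl element. -/
def w : SL2 F := ⟨!![0, -1; 1, 0], by simp [det_fin_two]⟩

/-- the diagonal elements. -/
def D (t : Fˣ) : SL2 F := ⟨!![(t : F), 0; 0, (t⁻¹ : Fˣ)], by simp [det_fin_two]⟩

theorem w_coe : (w : SL2 F).1 = !![0, -1; 1, 0] := rfl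

theorem D_coe (t : Fˣ) : (D t).1 = !![(t : F), 0; 0, (t⁻¹ : Fˣ)] := rfl

theorem mul_coe (a b : SL2 F) : (a * b).1 = a.1 * b.1 := rfl

theorem e1 (x : Fˣ) : sl2Up (x : F) * w = w * (sl2Up (-(x⁻¹ : Fˣ) : F) * (w * (D (-x) * sl2Up (-(x⁻¹ : Fˣ) : F)))) := by
  refine Subtype.ext ?_
  simp only [mul_coe, sl2Up_coe, w_coe, D_coe, mul_fin_two]
  ext i j; fin_cases i <;> fin_cases j <;> simp

theorem e2 (y : F) (t : Fˣ) : sl2Up y * D t = D t * sl2Up (y * (t⁻¹ * t⁻¹ : Fˣ)) := by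
  refine Subtype.ext ?_
  simp only [mul_coe, sl2Up_coe, D_coe, mul_fin_two]
  ext i j; fin_cases i <;> fin_cases j <;> simp [mul_comm y, mul_assoc]

theorem e3 (t : Fˣ) : w * D t = D t⁻¹ * w := by
  refine Subtype.ext ?_
  simp only [mul_coe, w_coe, D_coe, mul_fin_two]
  ext i j; fin_cases i <;> fin_cases j <;> simp

theorem e4 : (w * w : SL2 F) = D (-1) := by
  refine Subtype.ext ?_
  simp only [mul_coe, w_coe, D_coe, mul_fin_two]
  ext i j; fin_cases i <;> fin_cases j <;> simp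

theorem e5 (s t : Fˣ) : D s * D t = D (s * t) := by
  refine Subtype.ext ?_
  simp only [mul_coe, D_coe, mul_fin_two]
  ext i j; fin_cases i <;> fin_cases j <;> simp [mul_comm]

theorem e6 (y : F) : sl2Lo y * w = w * sl2Up (-y) := by
  refine Subtype.ext ?_
  simp only [mul_coe, sl2Up_coe, sl2Lo_coe, w_coe, mul_fin_two]
  ext i j; fin_cases i <;> fin_cases j <;> simp

variable (F) {V : Type*} [AddCommGroup V] [DistribMulAction (SL2 F) V]

/-- the fixed points of the upper unitriangular group. -/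
def V0 : AddSubgroup V where
  carrier := {v | ∀ c : F, sl2Up c • v = v}
  zero_mem' := fun _ => smul_zero _
  add_mem' := fun ha hb c => by rw [smul_add, ha c, hb c]
  neg_mem' := fun ha c => by rw [smul_neg, ha c]

/-- the vectors whose image under `w` is acted on quadratically. -/
def V1 (v : V) : Prop := v ∈ V0 F ∧ ∀ c : F, sl2Up c • (w : SL2 F) • v - (w : SL2 F) • v ∈ V0 F

variable {F} {v : V}

theorem D_mem (h : v ∈ V0 F) (t : Fˣ) : D t • v ∈ V0 F := fun c => by rw [← mul_smul, e2, mul_smul, h]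

theorem V1.D (h : V1 F v) (t : Fˣ) : V1 F (D t • v) := ⟨D_mem h.1 t, fun c => by
  rw [← mul_smul w, e3, mul_smul, ← mul_smul (sl2Up c), e2, mul_smul, ← smul_sub]
  exact D_mem (h.2 _) _⟩

variable (hf : ∀ v : V, (∀ g : SL2 F, g • v = v) → v = 0)
include hf

theorem zero (h : v ∈ V0 F) (h' : (w : SL2 F) • v ∈ V0 F) : (w : SL2 F) • v = 0 := hf _ fun g =>
  show g ∈ MulAction.stabilizer _ _ from eq_top_of_sl2Up_sl2Lo_mem (MulAction.stabilizer (SL2 F) ((w : SL2 F) • v)) h'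
    (fun s => by rw [MulAction.mem_stabilizer_iff, ← mul_smul, e6, mul_smul, h]) ▸ mem_top g

theorem key (h : V1 F v) (x : Fˣ) : sl2Up (x : F) • (w : SL2 F) • v - (w : SL2 F) • v = D x • v := by
  have h1 := (h.D (-x)).2 (-(x⁻¹ : Fˣ))
  have h2 : sl2Up (x : F) • (w : SL2 F) • v - (w : SL2 F) • v - D x • v = (w : SL2 F) • (sl2Up (-(x⁻¹ : Fˣ) : F) •
      (w : SL2 F) • D (-x) • v - (w : SL2 F) • D (-x) • v - v) := by
    rw [← mul_smul (sl2Up _), e1, smul_sub, smul_sub, ← mul_smul w w, e4, ← mul_smul (D _), e5, neg_mul_neg, one_mul]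
    simp only [mul_smul, h.1 _]
    abel
  exact sub_eq_zero.1 (h2.trans (zero hf (sub_mem h1 h.1) (h2 ▸ sub_mem (h.2 x) (D_mem h.1 x))))

theorem exists_hom (h : V1 F v) : ∃ ψ : (Fin 2 → F) →+ V, ψ ![1, 0] = v ∧ ∀ (g : SL2 F) u, g • ψ u = ψ (g.1 *ᵥ u) := by
  let a : F →+ V := AddMonoidHom.mk' (fun c => sl2Up c • (w : SL2 F) • v - (w : SL2 F) • v) fun c d => by
    have := h.2 d c
    rw [smul_sub, sub_eq_iff_eq_add] at this
    rw [sl2Up_add, mul_smul, this]
    abel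
  have ha : ∀ x : Fˣ, a x = D x • v := key hf h
  have h1 : ∀ (s : Fˣ) (y : F), D s • a y = a (s * y) := fun s y => by
    rcases eq_or_ne y 0 with rfl | hy
    · simp
    · rw [← Units.val_mk0 hy, ← Units.val_mul, ha, ha, ← mul_smul, e5]
  have h2 : ∀ c y : F, sl2Up c • (w : SL2 F) • a y = (w : SL2 F) • a y + a (c * y) := fun c y => by
    rcases eq_or_ne y 0 with rfl | hy
    · simp
    rcases eq_or_ne c 0 with rfl | hc
    · simp [sl2Up_zero]
    rw [← Units.val_mk0 hc, ← h1, ← Units.val_mk0 hy, ha, ← key hf (h.D _), add_sub_cancel]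
  let ψ : (Fin 2 → F) →+ V := AddMonoidHom.mk' (fun u => a (u 0) + (w : SL2 F) • a (u 1)) fun u u' => by
    simp only [Pi.add_apply, map_add, smul_add]
    abel
  let K : Subgroup (SL2 F) :=
    { carrier := {g | ∀ u, g • ψ u = ψ (g.1 *ᵥ u)}
      one_mem' := fun u => by rw [one_smul, sl2_one_mulVec]
      mul_mem' := fun {g g'} hg hg' u => by rw [mul_smul, hg', hg, sl2_mul_mulVec]
      inv_mem' := fun {g} hg u => by rw [inv_smul_eq_iff, hg, sl2_mulVec_inv] }
  have h3 : ∀ c, sl2Up c ∈ K := fun c u => by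
    change sl2Up c • (a (u 0) + (w : SL2 F) • a (u 1)) = a _ + (w : SL2 F) • a _
    rw [smul_add, h2, show sl2Up c • a (u 0) = a (u 0) from h.2 _ c, sl2Up_mulVec]
    simp only [cons_val_zero, cons_val_one, map_add]
    abel
  have h4 : w ∈ K := fun u => by
    change (w : SL2 F) • (a (u 0) + (w : SL2 F) • a (u 1)) = a _ + (w : SL2 F) • a _
    rw [smul_add, ← mul_smul, e4, h1, add_comm]
    simp [w, mulVec, dotProduct, Fin.sum_univ_two]
  refine ⟨ψ, ?_, fun g => show g ∈ K from eq_top_of_sl2Up_sl2Lo_mem K h3 (fun s => ?_) ▸ mem_top g⟩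
  · change a 1 + (w : SL2 F) • a 0 = v
    rw [map_zero, smul_zero, add_zero, ← Units.val_one, ha, show (D 1 : SL2 F) = 1 from by
      ext i j; fin_cases i <;> fin_cases j <;> simp [D], one_smul]
  · rw [eq_mul_inv_of_mul_eq (e6 s)]
    exact mul_mem (mul_mem h4 (h3 _)) (inv_mem h4)

end mod

/-- Let p be a prime and let G and V be subgroups of a finite group with V elementary abelian and normalized by G, and G isomorphic to SL₂(F) for a finite field F with pⁿ elements. Suppose G acts irreducibly and nontrivially on V by conjugation (no G-invariant subgroups of V other than 1 and V, and [V, G] ≠ 1), and let S be a Sylow p-subgroup of G and V₀ = C_V(S). If [V, S, S] = 1 or |V| ≤ |V₀|², then G acts on V as SL₂(F) on its natural two-dimensional module; in particular |V| = |F|². -/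
theorem result {X : Type*} [Group X] [Finite X] {p : ℕ} [Fact p.Prime] (G V : Subgroup X) (hV : Cfsg.IsElementaryAbelian p V) (hGV : G ≤ Subgroup.normalizer (V : Set X)) (F : Type) [Field F] [Fintype F] (n : ℕ) (hF : Fintype.card F = p ^ n) (hG : Nonempty (↥G ≃* Matrix.SpecialLinearGroup (Fin 2) F)) (hirr : ∀ U : Subgroup X, U ≤ V → G ≤ Subgroup.normalizer (U : Set X) → U = ⊥ ∨ U = V) (hnt : ⁅V, G⁆ ≠ ⊥) (S : Sylow p ↥G) (hyp : ⁅⁅V, (S : Subgroup ↥G).map G.subtype⁆, (S : Subgroup ↥G).map G.subtype⁆ = ⊥ ∨ Nat.card ↥V ≤ Nat.card ↥(V ⊓ Subgroup.centralizer (((S : Subgroup ↥G).map G.subtype : Subgroup X) : Set X)) ^ 2) : Cfsg.ActsAsSL2OnSection F ⊤ G V ⊥ := by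
  obtain ⟨e₀⟩ := hG
  have := charP_of_card (Nat.card_eq_fintype_card.trans hF)
  obtain ⟨s, hs⟩ := exists_cj_le_upSub (S.2.map e₀.toMonoidHom)
  let e : G ≃* SL2 F := e₀.trans (MulAut.conj s)
  have hS : (S : Subgroup G) = (upSub F).comap e.toMonoidHom :=
    (S.3 ((upSub_isP p).comap_of_injective e.toMonoidHom e.injective) fun x hx =>
      hs (conj_mem_cj s (mem_map_of_mem e₀.toMonoidHom hx))).symm
  set T := (S : Subgroup G).map G.subtype with hT
  have hT1 : ∀ c, (e.symm (sl2Up c) : X) ∈ T := fun c =>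
    mem_map_of_mem G.subtype (hS ▸ show e (e.symm _) ∈ upSub F from ⟨c, (e.apply_symm_apply _).symm⟩)
  have hT2 : ∀ x ∈ T, ∃ c, x = e.symm (sl2Up c) := by
    rintro _ ⟨x, hx, rfl⟩
    obtain ⟨c, hc⟩ : e x ∈ upSub F := by rwa [SetLike.mem_coe, hS] at hx
    exact ⟨c, by rw [hc, e.symm_apply_apply]; rfl⟩
  let _ : DistribMulAction (SL2 F) (EAMod hV) := .compHom _ ((ambRep hV hGV).comp e.symm.toMonoidHom)
  have hsm : ∀ (g : SL2 F) (v : EAMod hV), (g • v).val = e.symm g * v.val * (e.symm g : X)⁻¹ := fun _ _ => rfl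
  have h0 : ∀ v : EAMod hV, v ∈ V0 F ↔ v.val ∈ centralizer (T : Set X) := fun v =>
    ⟨fun h => mem_centralizer_iff.2 fun x hx => by
      obtain ⟨c, rfl⟩ := hT2 x hx
      exact mul_inv_eq_iff_eq_mul.1 (congrArg EAMod.val (h c)),
    fun h c => EAMod.val_injective hV (mul_inv_eq_iff_eq_mul.2 (mem_centralizer_iff.1 h _ (hT1 c)))⟩
  have hf : ∀ v : EAMod hV, (∀ g : SL2 F, g • v = v) → v = 0 := fun v h => by
    have h1 := (hirr (V ⊓ centralizer (G : Set X)) inf_le_left (le_norm_inf hGV (le_norm_cent le_normalizer))).resolve_right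
      fun e => hnt (commutator_eq_bot_iff_le_centralizer.2 (inf_eq_left.1 e))
    refine (EAMod.val_eq_one hV).1 (mem_bot.1 (h1 ▸ ⟨v.val_mem, mem_centralizer_iff.2 fun x hx => ?_⟩))
    have := congrArg EAMod.val (h (e ⟨x, hx⟩))
    rwa [hsm, e.symm_apply_apply, mul_inv_eq_iff_eq_mul] at this
  have hVp : IsPGroup p V := ea_isPGroup hV
  have hTp : IsPGroup p T := S.2.map _
  have hTn := (map_subtype_le (S : Subgroup G)).trans hGV
  have V0' : V ≠ ⊥ := fun e => hnt (by rw [e, commutator_bot_left])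
  obtain ⟨u, hu, u0, hu'⟩ := exists_fix_mod (U₀ := ⊥) hVp hTp hTn (le_bot_iff.not.2 V0')
  have hu0 : EAMod.mk hV u hu ∈ V0 F := (h0 _).2 (mem_centralizer_iff.2 fun x hx =>
    commutatorElement_eq_one_iff_mul_comm.1 (hu' x hx))
  obtain ⟨v, v0, hv⟩ : ∃ v : EAMod hV, v ≠ 0 ∧ V1 F v := by
    rcases hyp with hq | hc
    · refine ⟨EAMod.mk hV u hu, fun e => u0 (congrArg EAMod.val e :), hu0, fun c => (h0 _).2 (commutator_eq_bot_iff_le_centralizer.1 hq ?_)⟩
      rw [EAMod.val_sub, hsm, ← commutatorElement_def, commutator_comm]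
      exact commutator_mem_commutator (hT1 c) (EAMod.val_mem _ _)
    · let f : V0 (V := EAMod hV) F × V0 (V := EAMod hV) F →+ EAMod hV :=
        AddMonoidHom.mk' (fun x => x.1 + (w : SL2 F) • x.2.1) fun x y => by
          simp only [Prod.fst_add, Prod.snd_add, AddSubgroup.coe_add, smul_add]
          abel
      have f1 : Function.Injective f := (injective_iff_map_eq_zero f).2 fun x hx => by
        have e1 := eq_neg_of_add_eq_zero_right hx
        have e2 := zero hf x.2.2 (e1 ▸ neg_mem x.1.2)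
        exact Prod.ext (Subtype.ext (neg_eq_zero.1 (e1.symm.trans e2))) (Subtype.ext ((smul_eq_zero_iff_eq _).1 e2))
      have f2 := (f1.bijective_of_nat_card_le (by
        rw [Nat.card_prod, ← sq, EAMod.card_eq, Nat.card_congr (α := V0 (V := EAMod hV) F) (β := ↥(V ⊓ centralizer (T : Set X)))
          ⟨fun x => ⟨x.1.val, x.1.val_mem, (h0 _).1 x.2⟩, fun x => ⟨EAMod.mk hV x x.2.1, (h0 (EAMod.mk hV x x.2.1)).2 x.2.2⟩,
            fun _ => rfl, fun _ => rfl⟩]
        exact hc)).2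
      obtain ⟨y, hy, y0, hy'⟩ := exists_fix_mod (U₀ := centralizer (T : Set X)) hVp hTp hTn fun e =>
        u0 (congrArg EAMod.val ((smul_eq_zero_iff_eq _).1 (zero hf hu0 ((h0 _).2 (e (EAMod.val_mem _ _))))))
      obtain ⟨⟨a, b⟩, e1⟩ := f2 (EAMod.mk hV y hy)
      have e2 : (w : SL2 F) • b.1 = EAMod.mk hV y hy - a := eq_sub_of_add_eq' e1
      refine ⟨b, fun e => y0 ((h0 (EAMod.mk hV y hy)).1 ?_), b.2, fun c => ?_⟩
      · rw [e, smul_zero, eq_comm, sub_eq_zero] at e2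
        exact e2 ▸ a.2
      · rw [e2, smul_sub, a.2 c, sub_sub_sub_cancel_right, h0, EAMod.val_sub, hsm]
        exact hy' _ (hT1 c)
  obtain ⟨ψ, h1, h2⟩ := exists_hom hf hv
  have h3 : Function.Injective ψ := (injective_iff_map_eq_zero ψ).2 fun x hx => by
    by_contra x0
    obtain ⟨g, hg⟩ := exists_sl2_mulVec_eq x0
    exact v0 (by rw [← h1, ← hg, ← h2, hx, smul_zero])
  have h4 : Function.Surjective ψ := fun y => by
    have h5 := (hirr (EAMod.grp (AddSubgroup.toZModSubmodule p ψ.range)) (EAMod.grp_le _ _)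
      (le_norm_of_cj_le fun g hg => map_le_iff_le_comap.2 fun _ ⟨_, ⟨x, rfl⟩, e1⟩ => ⟨_, ⟨(e ⟨g, hg⟩).1 *ᵥ x, rfl⟩, by
        rw [← h2, hsm, e.symm_apply_apply, e1]; rfl⟩)).resolve_left fun e1 =>
          v0 ((EAMod.val_eq_one hV).1 (mem_bot.1 (e1 ▸ ⟨v, ⟨_, h1⟩, rfl⟩)))
    exact (EAMod.val_mem_grp hV).1 (h5.ge (EAMod.val_mem hV y))
  let χ := AddEquiv.ofBijective ψ ⟨h3, h4⟩
  refine ⟨hGV, bot_le, e.toMonoidHom, MonoidHom.mk' (fun x => .ofAdd (χ.symm (EAMod.mk hV x x.2)))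
    fun x y => congrArg Multiplicative.ofAdd (χ.symm.map_add (EAMod.mk hV x x.2) (EAMod.mk hV y y.2)),
    MonoidHom.range_eq_top.2 e.surjective, fun x => ⟨⟨_, (χ x.toAdd).val_mem⟩, χ.symm_apply_apply _⟩,
    fun x => χ.symm.map_eq_zero_iff.trans (EAMod.val_eq_one hV).symm,
    fun g x => ⟨⟨_, conj_mem_of_mem_normalizer (hGV g.2) x.2⟩, rfl, χ.injective ?_⟩⟩
  refine (χ.apply_symm_apply _).trans (Eq.trans (EAMod.val_injective hV ?_) (h2 _ _))
  exact (congrArg (fun g : G => (g : X) * x * (g : X)⁻¹) (e.symm_apply_apply g).symm).trans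
    (congrArg (fun y => (e g • y).val) (χ.apply_symm_apply (EAMod.mk hV x x.2))).symm

end Cfsg.Agent.S3009
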