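import Cfsg.Statements.S3013
import Cfsg.Agent.Even.Sidki

set_option autoImplicit false
open Cfsg

namespace Cfsg.Agent.S3013

open CL.Even

/-- Let G be a finite group and V a nontrivial elementary abelian 2-subgroup of G satisfying the Sidki pair condition. Let v ∈ V and let x be an element of odd order inverted by v, and put C = C_G(v) ∩ C_G(x), the centralizer of the dihedral subgroup generated by v and x. Then C ∩ V is nontrivial and satisfies the Sidki pair condition inside C: every odd-order element of C inverted by an element of C ∩ V commutes with a nontrivial element of C ∩ V. -/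
theorem result {G : Type*} [Group G] [Finite G] (V : Subgroup G) (hV : Cfsg.IsElementaryAbelian 2 V) (hV1 : V ≠ ⊥) (hS : Cfsg.IsSidkiPair V) (v x : G) (hv : v ∈ V) (hx : Odd (orderOf x)) (hinv : v * x * v⁻¹ = x⁻¹) (C : Subgroup G) (hC : C = Subgroup.centralizer ({v} : Set G) ⊓ Subgroup.centralizer ({x} : Set G)) : C ⊓ V ≠ ⊥ ∧ Cfsg.IsSidkiPair ((C ⊓ V).subgroupOf C) := by
  subst hC
  have hmem : ∀ w ∈ V, w * x = x * w → w ∈ (Subgroup.centralizer ({v} : Set G) ⊓
      Subgroup.centralizer ({x} : Set G)) ⊓ V := fun w hw h =>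
    ⟨⟨Subgroup.mem_centralizer_singleton_iff.mpr (CL.Loc.ea_mul_comm hV hw hv),
      Subgroup.mem_centralizer_singleton_iff.mpr h⟩, hw⟩
  refine ⟨fun h => ?_, isSidkiPair_subgroupOf inf_le_left fun h hh u hu ho e => ?_⟩
  · obtain ⟨w, hw, hw1, hc⟩ := hS x v hv hx hinv
    exact hw1 (Subgroup.mem_bot.mp (h ▸ hmem w hw hc))
  · obtain ⟨w, hw, hw1, h1, h2⟩ := IsSidkiPair.centralizer hV hS hv hx hinv
      (Subgroup.mem_centralizer_singleton_iff.mp hh.1)
      (Subgroup.mem_centralizer_singleton_iff.mp hh.2) hu.2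
      (Subgroup.mem_centralizer_singleton_iff.mp hu.1.2) ho e
    exact ⟨w, hmem w hw h1, hw1, h2⟩

end Cfsg.Agent.S3013
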