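import Cfsg.Statements.S3014
import Cfsg.Agent.Even.ExtClosed

set_option autoImplicit false
open Cfsg

namespace Cfsg.Agent.S3014

open CL.Even

/-- Let G be a finite group and H ≤ M ≤ G subgroups such that for every g ∈ G the subgroup generated by H and g H g⁻¹ meets M exactly in H. If H is a maximal subgroup of M and M is a maximal subgroup of G, then the normal closure of H in G meets M exactly in H. -/
theorem result {G : Type*} [Group G] [Finite G] (H M : Subgroup G) (hHM : H ≤ M) (hcl : ∀ g : G, (H ⊔ H.map (MulAut.conj g).toMonoidHom) ⊓ M = H) (hmaxH : IsCoatom (H.subgroupOf M)) (hmaxM : IsCoatom M) : Subgroup.normalClosure (H : Set G) ⊓ M = H := by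
  refine normalClosure_inf_eq_of_triple hHM hcl (fun K h1 h2 => ?_) hmaxM
  refine le_antisymm h2 (Subgroup.subgroupOf_eq_top.mp (hmaxH.2 _ ?_))
  refine lt_of_le_of_ne (Subgroup.comap_mono h1.le) fun e => h1.ne ?_
  rw [← Subgroup.map_subgroupOf_eq_of_le hHM, e, Subgroup.map_subgroupOf_eq_of_le h2]

end Cfsg.Agent.S3014
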