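import Cfsg.Statements.S3015
import Cfsg.Agent.Even.ExtClosed

set_option autoImplicit false
open Cfsg

namespace Cfsg.Agent.S3015

open CL.Even
open scoped Pointwise

/-- Let G be a finite non-abelian simple group, M a maximal subgroup of G and H a normal subgroup of M of prime index in M. Then G is generated by H together with one of its conjugates. -/
theorem result {G : Type*} [Group G] [Finite G] [IsSimpleGroup G] (hG : ¬ IsMulCommutative G) (M H : Subgroup G) (hmaxM : IsCoatom M) (hHM : H ≤ M) (hHn : (H.subgroupOf M).Normal) (hidx : (H.relIndex M).Prime) : ∃ g : G, H ⊔ H.map (MulAut.conj g).toMonoidHom = ⊤ := by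
  by_contra hcon
  push Not at hcon
  have := Fact.mk hidx
  set q := H.relIndex M with hq
  have hmax : ∀ H' : Subgroup G, H' ≤ M → H'.relIndex M = q →
      ∀ K : Subgroup G, H' < K → K ≤ M → K = M := by
    intro H' h1 h2 K h3 h4
    have h5 := Subgroup.relIndex_mul_relIndex H' K M h3.le h4
    rw [h2] at h5
    rcases (Nat.dvd_prime hidx).mp (Dvd.intro _ h5) with h6 | h6
    · exact absurd (Subgroup.relIndex_eq_one.mp h6) h3.not_ge
    · rw [h6] at h5
      exact le_antisymm h4 (Subgroup.relIndex_eq_one.mp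
        (Nat.eq_of_mul_eq_mul_left hidx.pos (h5.trans (mul_one _).symm)))
  have hMN : M ≤ Subgroup.normalizer (H : Set G) :=
    (Subgroup.normal_subgroupOf_iff_le_normalizer hHM).mp hHn
  have hHM' : H ≠ M := fun e => hidx.ne_one (by rw [hq, e, Subgroup.relIndex_self])
  have hM1 : M ≠ ⊥ := fun e => hHM' (le_antisymm hHM (e ▸ bot_le))
  have hnorm : ∀ K : Subgroup G, K ≠ ⊥ → K ≤ M → M ≤ Subgroup.normalizer (K : Set G) →
      Subgroup.normalizer (K : Set G) = M := by
    intro K h1 h2 h3
    refine (hmaxM.le_iff.mp h3).resolve_left fun e => ?_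
    rcases (Subgroup.normalizer_eq_top_iff.mp e).eq_bot_or_eq_top with h4 | h4
    · exact h1 h4
    · exact hmaxM.1 (eq_top_iff.mpr (h4 ▸ h2))
  have hNM := hnorm M hM1 le_rfl Subgroup.le_normalizer
  by_cases hH1 : H = ⊥
  · have hp : IsPGroup q M := IsPGroup.of_card (n := 1) (by
      rw [pow_one, hq, hH1, Subgroup.relIndex_bot_left])
    obtain ⟨P, hP⟩ := spe_exists_sylow_eq_of_maximal hp hNM.le fun E _ h1 h2 => le_antisymm h2 h1
    have hc : IsCyclic M := isCyclic_of_prime_card (p := q)
      (by rw [hq, hH1, Subgroup.relIndex_bot_left])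
    have h1 : HasNormalPComplement q G := by
      refine CL.Grp.hasNormalPComplement_of_normalizer_le_centralizer P ?_
      change Subgroup.normalizer ((P : Subgroup G) : Set G) ≤
        Subgroup.centralizer ((P : Subgroup G) : Set G)
      rw [hP, hNM]
      exact M.le_centralizer
    have := (CL.Loc.isQuasisimple_of_isSimpleGroup hG).1
    refine not_dvd_card_of_perfect_of_hasNormalPComplement h1 ?_
    rw [hq, hH1, Subgroup.relIndex_bot_left]
    exact M.card_subgroup_dvd_card
  have hNH := hnorm H hH1 hHM hMN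
  have hcl : ∀ g : G, (H ⊔ MulAut.conj g • H) ⊓ M = H := by
    intro g
    by_contra hne
    have h1 := hmax H hHM rfl _ (lt_of_le_of_ne (le_inf le_sup_left hHM) (Ne.symm hne))
      inf_le_right
    have h2 : H ⊔ MulAut.conj g • H = M :=
      (hmaxM.le_iff.mp (inf_eq_right.mp h1)).resolve_left (hcon g)
    have h3 : MulAut.conj g • H ≤ M := h2 ▸ le_sup_right
    have hg : g ∉ M := fun hg => hHM' (by
      rw [← h2, (CL.Grp.conj_smul_eq_self_iff g H).mpr (hMN hg), sup_idem])
    have h4 : (pResidual q M).map M.subtype ≤ H := by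
      rw [← Subgroup.map_subgroupOf_eq_of_le hHM]
      exact Subgroup.map_mono (CL.Grp.pResidual_le_of_index_eq_pow (k := 1) (pow_one _).symm)
    by_cases h5 : (pResidual q M).map M.subtype = ⊥
    · rw [Subgroup.map_eq_bot_iff_of_injective _ M.subtype_injective,
        CL.Grp.pResidual_eq_bot_iff] at h5
      have h6 : (MulAut.conj g • H).relIndex M = q := by
        have h7 := Subgroup.card_mul_index (H.subgroupOf M)
        have h8 := Subgroup.card_mul_index ((MulAut.conj g • H).subgroupOf M)
        rw [Nat.card_congr (Subgroup.subgroupOfEquivOfLe hHM).toEquiv] at h7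
        rw [Nat.card_congr (Subgroup.subgroupOfEquivOfLe h3).toEquiv, CL.Grp.card_conj_smul,
          ← h7] at h8
        exact Nat.eq_of_mul_eq_mul_left Nat.card_pos h8
      have h7 : MulAut.conj g • H ≠ M := fun e =>
        hidx.ne_one (by rw [← h6, e, Subgroup.relIndex_self])
      have h8 := hmax _ h3 h6 _ (CL.Grp.lt_inf_normalizer_of_isPGroup h5 (lt_of_le_of_ne h3 h7))
        inf_le_left
      rw [inf_eq_left, CL.Grp.normalizer_conj_smul, hNH] at h8
      refine hg (hNM ▸ (CL.Grp.conj_smul_eq_self_iff g M).mp ?_)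
      exact (Subgroup.eq_of_le_of_card_ge h8 (CL.Grp.card_conj_smul g M).le).symm
    · refine hg (hnorm _ h5 (Subgroup.map_subtype_le _) (CL.Grp.le_normalizer_map_subtype _) ▸
        mem_normalizer_of_conj_smul_le ?_)
      rw [CL.Grp.conj_smul_eq_map, Subgroup.map_map, Subgroup.map_le_iff_le_comap,
        CL.Grp.pResidual_le_iff]
      intro y hy
      have h6 : g * y * g⁻¹ ∈ M := h3 (CL.Grp.conj_mem_conj_smul g
        (h4 ⟨y, CL.Grp.mem_pResidual_of_coprime hy, rfl⟩))
      refine ⟨⟨_, h6⟩, CL.Grp.mem_pResidual_of_coprime ?_, rfl⟩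
      rwa [Subgroup.orderOf_mk, spe_orderOf_conj, Subgroup.orderOf_coe]
  have h1 := normalClosure_inf_eq_of_triple hHM hcl (hmax H hHM rfl) hmaxM
  rcases (inferInstance : (Subgroup.normalClosure (H : Set G)).Normal).eq_bot_or_eq_top with h | h
  · exact hH1 (le_bot_iff.mp (h ▸ Subgroup.le_normalClosure))
  · rw [h, top_inf_eq] at h1
    exact hHM' h1.symm

end Cfsg.Agent.S3015
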