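import Cfsg.Statements.S3020
import Cfsg.Agent.Even.ExtClosed

set_option autoImplicit false
open Cfsg

namespace Cfsg.Agent.S3020

open CL.Even

/-- Let G be a finite group, p a prime and H an abelian p-subgroup of G that is extremely closed (for every g, the subgroup generated by H and g H g⁻¹ meets N_G(H) exactly in H). Then for every g ∈ G, the subgroup T generated by H and g H g⁻¹ is the product of H with O_{p'}(T), and H meets O_{p'}(T) trivially; that is, O_{p'}(T) is a normal p-complement of H in T. -/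
theorem result {G : Type*} [Group G] [Finite G] {p : ℕ} [Fact p.Prime] (H : Subgroup G) (hHp : IsPGroup p H) (hHab : IsMulCommutative H) (hcl : Cfsg.IsExtremelyClosed H) (g : G) (T : Subgroup G) (hT : T = H ⊔ H.map (MulAut.conj g).toMonoidHom) : H ⊔ (Cfsg.pPrimeCore p ↥T).map T.subtype = T ∧ H ⊓ (Cfsg.pPrimeCore p ↥T).map T.subtype = ⊥ := by
  subst hT
  have hS := IsExtremelyClosed.isSylowIn_pair hcl hHp g
  have hc := CL.Grp.hasNormalPComplement_iff_coprime_pResidual.mp
    (IsExtremelyClosed.hasNormalPComplement_pair hcl hHp hHab g)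
  refine ⟨le_antisymm (sup_le le_sup_left (Subgroup.map_subtype_le _)) fun x hx => ?_, ?_⟩
  · obtain ⟨a, ha, b, hb, e⟩ := CL.Grp.exists_pResidual_mul_sylow hS.toSylow ⟨x, hx⟩
    rw [show x = a * b from congrArg Subtype.val e]
    exact Subgroup.mul_mem _ (Subgroup.mem_sup_right ⟨a, CL.Grp.le_pPrimeCore hc ha, rfl⟩)
      (Subgroup.mem_sup_left hb)
  · exact disjoint_iff.mp (Subgroup.disjoint_of_coprime_natCard
      (CL.Grp.coprime_card_of_isPGroup hHp (CL.Grp.pPrimeCoreOf_coprime p _)))

end Cfsg.Agent.S3020
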