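import Cfsg.Statements.S3021
import Cfsg.Agent.Even.ExtClosed

set_option autoImplicit false
open Cfsg

namespace Cfsg.Agent.S3021

open CL.Even

/-- Let G be a finite group, p a prime and H a p-subgroup of G that is extremely closed (for every g, the subgroup generated by H and g H g⁻¹ meets N_G(H) exactly in H). Then every p-subgroup Q of G containing H has N_G(Q) ≤ N_G(H); in particular every Sylow p-subgroup P of G containing H normalizes H, and H is strongly closed in P with respect to G. -/
theorem result {G : Type*} [Group G] [Finite G] {p : ℕ} [Fact p.Prime] (H : Subgroup G) (hHp : IsPGroup p H) (hcl : Cfsg.IsExtremelyClosed H) : (∀ Q : Subgroup G, IsPGroup p Q → H ≤ Q → Subgroup.normalizer (Q : Set G) ≤ Subgroup.normalizer (H : Set G)) ∧ ∀ P : Sylow p G, H ≤ (P : Subgroup G) → (P : Subgroup G) ≤ Subgroup.normalizer (H : Set G) ∧ Cfsg.IsStronglyClosed H (P : Subgroup G) := by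
  refine ⟨fun Q hQ h => IsExtremelyClosed.normalizer_le hcl hQ h, fun P hP => ?_⟩
  have h1 : (P : Subgroup G) ≤ Subgroup.normalizer (H : Set G) :=
    Subgroup.le_normalizer.trans (IsExtremelyClosed.normalizer_le hcl P.isPGroup' hP)
  exact ⟨h1, hP, fun x hx g hg => IsExtremelyClosed.mem_of_conj hcl hx (h1 hg)⟩

end Cfsg.Agent.S3021
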