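import Cfsg.Statements.S3022
import Cfsg.Agent.QT.PairMain

set_option autoImplicit false
open Cfsg Subgroup CL.Even CL.Grp CL.Loc

namespace Cfsg.Agent.S3022

/-- Let G be a finite group all of whose non-abelian simple sections are known simple groups, such that a Sylow 2-subgroup of G lies in exactly one maximal subgroup of G and C_G(O₂(G)) ≤ O₂(G). Let S be a Sylow 2-subgroup of G and A a group of automorphisms of S of odd order. Then some nontrivial A-invariant subgroup of S is normal in G. -/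
theorem result {G : Type*} [Group G] [Finite G] (hK : Cfsg.IsKGroup G) (hirr : ∀ S : Sylow 2 G, ∃! M : Subgroup G, IsCoatom M ∧ (S : Subgroup G) ≤ M) (hchar : Subgroup.centralizer (Cfsg.pCore 2 G : Set G) ≤ Cfsg.pCore 2 G) (S : Sylow 2 G) (A : Subgroup (MulAut ↥(S : Subgroup G))) (hA : Odd (Nat.card A)) : ∃ U : Subgroup G, U ≠ ⊥ ∧ U.Normal ∧ U ≤ (S : Subgroup G) ∧ ∀ a ∈ A, ∀ x : ↥(S : Subgroup G), (x : G) ∈ U → ((a x : ↥(S : Subgroup G)) : G) ∈ U := by
  have : Finite (S ⋊[A.subtype] A) := Finite.of_equiv _ SemidirectProduct.equivProd.symm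
  obtain ⟨Δ, _, _, i, j, hi, hj, hij⟩ := CL.Even.exists_amalgam (f₁ := (S : Subgroup G).subtype)
    (f₂ := (SemidirectProduct.inl : S →* S ⋊[A.subtype] A)) (subtype_injective _) SemidirectProduct.inl_injective
  have hij' : ∀ x : S, i x = j (SemidirectProduct.inl x) := fun x => DFunLike.congr_fun hij x
  obtain ⟨M, hM⟩ := existsUnique_coatom_iff.1 (hirr S)
  have hN : IsSylowIn 2 (SemidirectProduct.inl : S →* S ⋊[A.subtype] A).range ⊤ := by
    refine ⟨le_top, (S.isPGroup'.of_surjective _ (MonoidHom.rangeRestrict_surjective _)), ?_⟩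
    rw [relIndex_top_right, SemidirectProduct.range_inl_eq_ker_rightHom, index_ker,
      MonoidHom.range_eq_top.2 SemidirectProduct.rightHom_surjective, card_top]
    exact hA.not_two_dvd_nat
  have hT : (SemidirectProduct.inl : S →* S ⋊[A.subtype] A).range.map j = (S : Subgroup G).map i := by
    rw [MonoidHom.map_range, ← hij, MonoidHom.range_comp, range_subtype]
  have hn : (SemidirectProduct.inl : S →* S ⋊[A.subtype] A).range.Normal := by
    rw [SemidirectProduct.range_inl_eq_ker_rightHom]; infer_instance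
  obtain ⟨D, h1, h2, h3⟩ := CL.QT.pair_odd (syl_map i (isSylowIn_top S)) (hT ▸ syl_map j hN)
    ((umax_map_iff hi).2 hM) ((isCharP_map_iff hi).2 (isCharP_top.2 hchar))
    (hT ▸ map_le_norm_map j (normal_iff_top_le.1 hn))
  have hmem : ∀ {g x : Δ}, g ∈ 𝒩(D) → x ∈ D → g * x * g⁻¹ ∈ D := fun hg hx => (mem_normalizer_iff.1 hg _).1 hx
  refine ⟨D.comap i, fun e => h1 (eq_bot_iff.2 fun x hx => ?_), ⟨fun x hx g => ?_⟩, fun x hx => ?_,
    fun a ha x hx => ?_⟩
  · obtain ⟨y, -, rfl⟩ := h2 hx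
    rw [mem_bot.1 (e.le hx), map_one]
    exact one_mem _
  · rw [mem_comap, map_mul, map_mul, map_inv]
    exact hmem (h3 (le_sup_right (a := map j ⊤) (mem_map_of_mem i (mem_top g)))) hx
  · obtain ⟨y, hy, e⟩ := h2 hx
    exact hi e ▸ hy
  · rw [mem_comap, hij'] at hx ⊢
    have := hmem (h3 (le_sup_left (b := map i ⊤) (mem_map_of_mem j (mem_top (SemidirectProduct.inr ⟨a, ha⟩))))) hx
    rwa [← map_inv, ← map_mul, ← map_mul, ← map_inv, ← SemidirectProduct.inl_aut] at this

end Cfsg.Agent.S3022
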