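import Cfsg.Statements.S3023
import Cfsg.Agent.Even.ParChar

set_option autoImplicit false
open Cfsg

namespace Cfsg.Agent.S3023

open Subgroup CL.Even CL.Grp

/-- Let p be a prime, G a finite group of parabolic characteristic p (every p-local subgroup containing a Sylow p-subgroup of G has characteristic p), S a Sylow p-subgroup of G and G₁ a subnormal subgroup of G. If the centre of S ∩ G₁ is nontrivial and contained in the centre of S, then G₁ has parabolic characteristic p. -/
theorem result {G : Type*} [Group G] [Finite G] {p : ℕ} [Fact p.Prime] (hG : Cfsg.IsOfParabolicCharacteristic p G) (S : Sylow p G) (G₁ : Subgroup G) (hsn : G₁.IsSubnormal) (hne : ((S : Subgroup G) ⊓ G₁) ⊓ Subgroup.centralizer (((S : Subgroup G) ⊓ G₁ : Subgroup G) : Set G) ≠ ⊥) (hle : ((S : Subgroup G) ⊓ G₁) ⊓ Subgroup.centralizer (((S : Subgroup G) ⊓ G₁ : Subgroup G) : Set G) ≤ (S : Subgroup G) ⊓ Subgroup.centralizer ((S : Subgroup G) : Set G)) : Cfsg.IsOfParabolicCharacteristic p ↥G₁ := by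
  refine isOfParabolicCharacteristic_subgroup
    (syl_inf_of_subnIn (subnIn_top_iff.2 hsn) (isSylowIn_top S)) fun z hz1 hz hc hp => ?_
  have := hle ⟨hz, hc⟩
  refine (isCharP_cent_of_parabolic hG S hz1 this.1 this.2).of_subnIn ?_
  simpa using (subnIn_top_iff.2 hsn).inf_right (centralizer ({z} : Set G))

end Cfsg.Agent.S3023
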