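import Cfsg.Statements.S3025
import Cfsg.Agent.Grp.PGroupCyc
import Cfsg.Agent.Even.Amb2

set_option autoImplicit false
open Cfsg

namespace Cfsg.Agent.S3025

/-- Let F be a finite group and H a nontrivial subgroup of F that is contained in every nontrivial subgroup of F which H normalizes. Then F has a nontrivial normal subgroup N contained in every nontrivial normal subgroup of F (a unique minimal normal subgroup), N is simple, and one of the following holds: C_F(N) = 1; or H = N has prime order p, C_F(N) is cyclic of order a power of p, and F/C_F(N) is cyclic of order dividing p − 1; or H = N has order 2, N is central in F, and F is a generalized quaternion group. -/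
theorem result {F : Type*} [Group F] [Finite F] (H : Subgroup F) (hH : H ≠ ⊥)
    (hmin : ∀ R : Subgroup F, R ≠ ⊥ → H ≤ Subgroup.normalizer (R : Set F) → H ≤ R) :
    ∃ N : Subgroup F, N.Normal ∧ N ≠ ⊥ ∧ (∀ M : Subgroup F, M.Normal → M ≠ ⊥ → N ≤ M) ∧ IsSimpleGroup ↥N ∧
      (Subgroup.centralizer (N : Set F) = ⊥ ∨
       (H = N ∧ (Nat.card N).Prime ∧ IsCyclic ↥(Subgroup.centralizer (N : Set F)) ∧
          (∃ k : ℕ, 1 ≤ k ∧ Nat.card ↥(Subgroup.centralizer (N : Set F)) = Nat.card N ^ k) ∧
          (∃ g : F, Subgroup.centralizer (N : Set F) ⊔ Subgroup.zpowers g = ⊤) ∧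
          (Subgroup.centralizer (N : Set F)).index ∣ Nat.card N - 1) ∨
       (H = N ∧ Nat.card N = 2 ∧ Subgroup.centralizer (N : Set F) = ⊤ ∧
          ∃ k : ℕ, 1 ≤ k ∧ Nonempty (F ≃* QuaternionGroup (2 ^ k)))) := by
  obtain ⟨N, hN⟩ : ∃ N, N = Subgroup.normalClosure (H : Set F) := ⟨_, rfl⟩
  have hNn : N.Normal := hN ▸ inferInstance
  have hHN : H ≤ N := hN ▸ Subgroup.le_normalClosure
  have hN1 : N ≠ ⊥ := fun e => hH (le_bot_iff.mp (hHN.trans e.le))
  have h1 : ∀ M : Subgroup F, M.Normal → M ≠ ⊥ → N ≤ M := fun M hM h =>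
    hN ▸ Subgroup.normalClosure_le_normal (hmin M h Subgroup.le_normalizer_of_normal)
  have h2 : ∀ R : Subgroup F, R ≠ ⊥ → N ≤ Subgroup.normalizer (R : Set F) → N ≤ R := fun R hR hn => by
    have h3 : H ≤ R.normalCore := fun x hx g => by
      have := hmin (R.map (MulAut.conj g⁻¹).toMonoidHom) (mt CL.Even.cj_eq_bot.mp hR) (hHN.trans (by
        rw [← CL.Even.cj_norm, CL.Even.le_cj_iff]
        exact (CL.Even.cj_eq (Subgroup.le_normalizer_of_normal (Subgroup.mem_top _))).le.trans hn)) hx
      simpa using CL.Even.mem_cj.mp this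
    exact (h1 _ inferInstance fun e => hH (le_bot_iff.mp (h3.trans e.le))).trans R.normalCore_le
  have hs : IsSimpleGroup N := by
    have := (Subgroup.nontrivial_iff_ne_bot N).mpr hN1
    refine ⟨fun R hR => or_iff_not_imp_left.mpr fun h => eq_top_iff.mpr fun x _ => ?_⟩
    have := h2 (R.map N.subtype) (mt (Subgroup.map_eq_bot_iff_of_injective _ N.subtype_injective).mp h)
      (fun y hy => Subgroup.le_normalizer_map N.subtype ⟨⟨y, hy⟩, Subgroup.le_normalizer_of_normal
        (Subgroup.mem_top _), rfl⟩) x.2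
    simpa using this
  refine ⟨N, hNn, hN1, h1, hs, or_iff_not_imp_left.mpr fun hC => ?_⟩
  have hNC := h1 _ inferInstance hC
  have : IsMulCommutative N := Subgroup.le_centralizer_iff_isMulCommutative.mp hNC
  have hp : (Nat.card N).Prime := by
    open scoped IsMulCommutative in exact IsSimpleGroup.prime_card
  have := Fact.mk hp
  have hcyc : IsCyclic N := isCyclic_of_prime_card rfl
  have e1 : H = N := le_antisymm hHN (h2 H hH (hNC.trans ((CL.Even.cent_mono hHN).trans (CL.Even.cent_le_norm H))))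
  have h3 : ∀ R : Subgroup F, R ≤ Subgroup.centralizer (N : Set F) → (Nat.card R).Prime → R = N := fun R hR hq => by
    have h4 := h2 R (by rintro rfl; exact hq.ne_one Subgroup.card_bot)
      ((Subgroup.le_centralizer_iff.mp hR).trans (CL.Even.cent_le_norm R))
    exact (Subgroup.eq_of_le_of_card_ge h4 ((Nat.prime_dvd_prime_iff_eq hp hq).mp
      (Subgroup.card_dvd_of_le h4)).ge).symm
  have h4 : IsPGroup (Nat.card N) (Subgroup.centralizer (N : Set F)) := by
    refine IsPGroup.of_card (Nat.eq_prime_pow_of_unique_prime_dvd Nat.card_pos.ne' fun {q} hq hd => ?_)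
    have := Fact.mk hq
    obtain ⟨x, hx⟩ := exists_prime_orderOf_dvd_card' q hd
    have h5 : Nat.card (Subgroup.zpowers (x : F)) = q := by rw [Nat.card_zpowers, Subgroup.orderOf_coe, hx]
    rw [← h3 _ (Subgroup.zpowers_le.mpr x.2) (h5 ▸ hq), h5]
  have hk : (MulAut.conjNormal (H := N)).ker = Subgroup.centralizer (N : Set F) := by
    ext g
    simp only [MonoidHom.mem_ker, Subgroup.mem_centralizer_iff, MulEquiv.ext_iff, Subtype.ext_iff,
      MulAut.conjNormal_apply, MulAut.one_apply, Subtype.forall, SetLike.mem_coe, mul_inv_eq_iff_eq_mul]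
    exact ⟨fun h a ha => (h a ha).symm, fun h a ha => (h a ha).symm⟩
  have h5 : (Subgroup.centralizer (N : Set F)).index ∣ Nat.card N - 1 := by
    rw [← hk, Subgroup.index_ker, ← Nat.totient_prime hp, ← IsCyclic.card_mulAut]
    exact Subgroup.card_subgroup_dvd_card _
  rcases CL.Grp.isCyclic_or_nonempty_quaternion_of_unique h4 (fun A B hA hB =>
    Subgroup.map_injective (Subgroup.subtype_injective _) ((h3 _ (Subgroup.map_subtype_le A) (by
      rwa [Subgroup.card_subtype, hA])).trans (h3 _ (Subgroup.map_subtype_le B) (by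
      rwa [Subgroup.card_subtype, hB])).symm)) with h | ⟨h, k, ⟨e⟩⟩
  · refine Or.inl ⟨e1, hp, h, ?_, ?_, h5⟩
    · obtain ⟨k, hk⟩ := IsPGroup.iff_card.mp h4
      exact ⟨k, Nat.one_le_iff_ne_zero.mpr fun e => hC (by rwa [e, pow_zero, Subgroup.card_eq_one] at hk), hk⟩
    · have : IsCyclic (MulAut N) := isCyclic_of_surjective _ (IsCyclic.mulAutMulEquiv N).symm.surjective
      obtain ⟨⟨_, g, rfl⟩, hg⟩ := IsCyclic.exists_generator (α := (MulAut.conjNormal (H := N)).range)
      refine ⟨g, eq_top_iff.mpr fun x _ => ?_⟩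
      obtain ⟨n, hn⟩ := hg ⟨_, x, rfl⟩
      have h6 : x * (g ^ n)⁻¹ ∈ (MulAut.conjNormal (H := N)).ker := by
        rw [MonoidHom.mem_ker, map_mul, map_inv, map_zpow, mul_inv_eq_one]
        exact (congrArg Subtype.val hn).symm
      simpa using Subgroup.mul_mem_sup (hk.le h6) (Subgroup.zpow_mem_zpowers g n)
  · rw [h, Nat.dvd_one, Subgroup.index_eq_one] at h5
    exact Or.inr ⟨e1, h, h5, k + 1, by omega,
      ⟨(Subgroup.topEquiv.symm.trans (MulEquiv.subgroupCongr h5.symm)).trans e⟩⟩

end Cfsg.Agent.S3025
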