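import Cfsg.Statements.S3027
import Cfsg.Agent.Even.PMin2

set_option autoImplicit false
open Cfsg

namespace Cfsg.Agent.S3027

/-- Let G be a finite group and D a normal subgroup of G such that G/D is perfect (that is, G = G′D). Then among the subnormal subgroups B of G with BD = G there is a least one, and it is normal in G. -/
theorem result {G : Type*} [Group G] [Finite G] (D : Subgroup G) [D.Normal] (hperf : ⁅(⊤ : Subgroup G), (⊤ : Subgroup G)⁆ ⊔ D = ⊤) :
    ∃ B : Subgroup G, B.Normal ∧ B ⊔ D = ⊤ ∧ ∀ B' : Subgroup G, B'.IsSubnormal → B' ⊔ D = ⊤ → B ≤ B' := by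
  open Subgroup CL.Even CL.Grp commutatorElement in
  have hiff : ∀ N : Subgroup G, N ⊔ D = ⊤ ↔ N.map (QuotientGroup.mk' D) = ⊤ := fun N => by
    rw [← (comap_injective (QuotientGroup.mk'_surjective D)).eq_iff, comap_map_eq,
      QuotientGroup.ker_mk', comap_top]
  have key : ∀ N₁ N₂ : Subgroup G, N₁ ⊔ D = ⊤ → N₂ ⊔ D = ⊤ → N₁ ≤ normalizer (N₂ : Set G) →
      N₂ ≤ normalizer (N₁ : Set G) → N₁ ⊓ N₂ ⊔ D = ⊤ := fun N₁ N₂ h1 h2 h3 h4 => by
    refine eq_top_iff.mpr (le_trans (eq_top_iff.mp ?_) (sup_le_sup_right (le_inf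
      (commutator_le_of_le_norm h4) (commutator_le_of_le_norm' h3)) D))
    rw [hiff] at h1 h2 hperf ⊢
    rwa [map_commutator, h1, h2, ← map_top_of_surjective _ (QuotientGroup.mk'_surjective D),
      ← map_commutator, map_top_of_surjective _ (QuotientGroup.mk'_surjective D)]
  obtain ⟨B, ⟨h1, h2⟩, hmin⟩ := (Set.toFinite {B : Subgroup G | B.Normal ∧ B ⊔ D = ⊤}).exists_minimal
    ⟨⊤, inferInstance, top_sup_eq _⟩
  refine ⟨B, h1, h2, fun B' h => ?_⟩
  induction h with
  | top => exact fun _ => le_top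
  | step H K hle _ hn ih =>
    intro h3
    have h4 := ih (eq_top_iff.mpr (h3.ge.trans (sup_le_sup_right hle D)))
    have h5 := (normal_subgroupOf_iff_le_normalizer hle).mp hn
    obtain ⟨N, ⟨h6, h7, h8⟩, hm⟩ := (Set.toFinite {N : Subgroup G | N ≤ B ⊓ H ∧
      B ≤ normalizer (N : Set G) ∧ N ⊔ D = ⊤}).exists_minimal ⟨B ⊓ H, le_rfl,
        le_norm_inf le_normalizer (h4.trans h5), key _ _ h2 h3 (h4.trans h5) le_normalizer_of_normal⟩
    have h9 : N.Normal := normal_iff_top_le.mpr (le_norm_of_cj_le fun g _ => by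
      have e1 : B ≤ normalizer ((cj g⁻¹ N : Subgroup G) : Set G) := by
        rw [← cj_norm, le_cj_iff, inv_inv]
        exact (cj_eq (le_normalizer_of_normal (mem_top g))).le.trans h7
      have e2 : cj g⁻¹ N ≤ B := cj_le_of_le (h6.trans inf_le_left) (le_normalizer_of_normal (mem_top _))
      rw [cj_le_iff]
      refine (hm ⟨inf_le_left.trans h6, le_norm_inf h7 e1, key _ _ h8 ?_ ((h6.trans inf_le_left).trans
        e1) (e2.trans h7)⟩ inf_le_left).trans inf_le_right
      rw [← cj_eq (H := D) (le_normalizer_of_normal (mem_top g⁻¹)), ← cj_sup, h8, cj_top])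
    exact (hmin ⟨h9, h8⟩ (h6.trans inf_le_left)).trans (h6.trans inf_le_right)

end Cfsg.Agent.S3027
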