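import Cfsg.Statements.S3043
import Cfsg.Agent.Loc.LargeTI2

set_option autoImplicit false
open Cfsg

namespace Cfsg.Agent.S3043

open CL.Odd CL.Inv.SE CL.Loc in

/-- Let M be a nontrivial subgroup of a finite group G meeting each of its other conjugates trivially, with N_G(M) = M · C_{N_G(M)}(z) for some involution z ∈ N_G(M), and with C_G(x) of odd order for every nontrivial x ∈ M. Then one of the following holds: M is normal in G; the number of involutions of G is at most |G : M|; G is isomorphic to PGL₂(F) or to PSL₂(F) for a finite field F with |F| = |M|, M is an elementary abelian p-group for the characteristic p of F, and |F| ≡ 1 (mod 4) in the PSL₂ case; G is isomorphic to PSL₂(F) with |F| = 2^e, e > 1, and M is cyclic of order 2^e + 1; or for some d ≥ 1, G has an elementary abelian normal subgroup of order 2^{2d} complemented by N_G(M), and N_G(M) is dihedral of order 2(2^d + 1). -/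
theorem result {G : Type*} [Group G] [Finite G] (M : Subgroup G) (hM1 : M ≠ ⊥)
    (hTI : ∀ g : G, M ⊓ M.map (MulAut.conj g).toMonoidHom ≠ ⊥ → M.map (MulAut.conj g).toMonoidHom = M)
    (z : G) (hz : orderOf z = 2) (hzN : z ∈ Subgroup.normalizer (M : Set G))
    (hfac : M ⊔ (Subgroup.normalizer (M : Set G) ⊓ Subgroup.centralizer ({z} : Set G)) = Subgroup.normalizer (M : Set G))
    (hodd : ∀ x ∈ M, x ≠ 1 → Odd (Nat.card ↥(Subgroup.centralizer ({x} : Set G)))) :
    M.Normal ∨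
    Nat.card {g : G // orderOf g = 2} ≤ M.index ∨
    (∃ (F : Type) (_ : Field F) (_ : Fintype F) (p : ℕ) (_ : Fact p.Prime) (_ : CharP F p), Fintype.card F = Nat.card M ∧ Cfsg.IsElementaryAbelian p M ∧
        (Nonempty (G ≃* (GL (Fin 2) F ⧸ Subgroup.center (GL (Fin 2) F))) ∨
         (Fintype.card F % 4 = 1 ∧ Nonempty (G ≃* Matrix.ProjectiveSpecialLinearGroup (Fin 2) F)))) ∨
    (∃ (F : Type) (_ : Field F) (_ : Fintype F) (e : ℕ), 1 < e ∧ Fintype.card F = 2 ^ e ∧ IsCyclic ↥M ∧ Nat.card M = 2 ^ e + 1 ∧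
        Nonempty (G ≃* Matrix.ProjectiveSpecialLinearGroup (Fin 2) F)) ∨
    (∃ (d : ℕ) (E : Subgroup G), 1 ≤ d ∧ E.Normal ∧ Cfsg.IsElementaryAbelian 2 E ∧ Nat.card E = 2 ^ (2 * d) ∧
        E ⊓ Subgroup.normalizer (M : Set G) = ⊥ ∧ E ⊔ Subgroup.normalizer (M : Set G) = ⊤ ∧
        Nonempty (↥(Subgroup.normalizer (M : Set G)) ≃* DihedralGroup (2 ^ d + 1))) := by
  have h : LTI M z := ⟨hM1, fun x hx h1 g e => by
      refine Subgroup.mem_normalizer_fintype fun y hy => ?_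
      rw [← hTI g fun e1 => h1 (conj_eq_one_iff.1 (Subgroup.mem_bot.1 (e1.le ⟨e, x, hx, rfl⟩)))]
      exact ⟨y, hy, rfl⟩,
    mul_self_of_inv hz, ne_one_of_inv hz, hzN, fun n hn => by
      obtain ⟨x, hx, c, hc, e⟩ := (mem_sup_norm inf_le_left).1 (hfac.ge hn)
      exact ⟨x, hx, c, hc.1, mem_c1.1 hc.2, e⟩,
    fun x hx h1 g e => (hodd x hx h1).of_dvd_nat (Subgroup.orderOf_dvd_natCard _ (mem_c1.2 e))⟩
  by_cases h1 : M.Normal
  · exact .inl h1
  by_cases h2 : Nat.card {g : G // orderOf g = 2} ≤ M.index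
  · exact .inr (.inl h2)
  have hc : LTC M z := ⟨h, fun _ hg => h.cos_of_card (not_le.1 h2) hg, by
    by_contra! hn
    exact h1 (Subgroup.normalizer_eq_top_iff.1 (eq_top_iff.2 fun g _ => hn g))⟩
  refine .inr (.inr ?_)
  obtain ⟨t, ht, hN⟩ := hc.exists_t
  by_cases h3 : ∀ s ∈ C1[z], s ∉ N[M] → t * s ∈ N[M]
  · exact .inl (hc.zass ht hN h3)
  push Not at h3
  obtain ⟨s, hs, hsN, e⟩ := h3
  have he := hc.lte ht hs hN hsN e
  obtain ⟨d, hd, hf⟩ := he.exists_pow
  have h4 : 1 < 2 ^ d := Nat.one_lt_two_pow (by omega)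
  rcases he.cases hf h4 with ⟨hm, hy⟩ | ⟨hm, hy⟩
  · exact .inr (.inl (he.psl hd hf hm hy))
  · obtain ⟨E, a1, a2, a3, a4⟩ := he.affine hf h4 hm hy
    exact .inr (.inr ⟨d, E, hd.le, a1, a2, by rw [a3, two_mul, pow_add], a4⟩)

end Cfsg.Agent.S3043
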