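import Cfsg.Statements.S3044
import Cfsg.Agent.Loc.IsoMin

set_option autoImplicit false
open Cfsg

namespace Cfsg.Agent.S3044

/-- Let G be a finite group, p a prime, S a Sylow p-subgroup of G and P a p-minimal subgroup of G containing S (S is not normal in P and lies in exactly one maximal subgroup of P). Let L be the subgroup generated by N_G(S) and all p-minimal subgroups of G containing S other than P, and suppose P is isolated: O_p(L) is not contained in O_p(P). Put Y for the normal closure of O^p(P) in G. Then G = YL; P is again isolated in the subgroup YS (the subgroup L₀ generated by N_{YS}(S) and the p-minimal subgroups of YS containing S other than P has O_p(L₀) not contained in O_p(P)); and either Y = O^p(P), or p divides |Y/O_p(Y)|, Y/O_p(Y) is generated by its components (a central product of quasisimple groups), and S permutes these components transitively by conjugation. -/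
theorem result {G : Type*} [Group G] [Finite G] {p : ℕ} [Fact p.Prime] (S : Sylow p G) (P : Subgroup G) (hSP : (S : Subgroup G) ≤ P) (hPmin : Cfsg.IsPMinimal p ↥P)
    (L Y : Subgroup G)
    (hL : L = Subgroup.normalizer ((S : Subgroup G) : Set G) ⊔ ⨆ P' : {P' : Subgroup G // (S : Subgroup G) ≤ P' ∧ Cfsg.IsPMinimal p ↥P' ∧ P' ≠ P}, (P' : Subgroup G))
    (hiso : ¬ (Cfsg.pCore p ↥L).map L.subtype ≤ (Cfsg.pCore p ↥P).map P.subtype)
    (hY : Y = Subgroup.normalClosure (((Cfsg.pResidual p ↥P).map P.subtype : Subgroup G) : Set G)) :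
    Y ⊔ L = ⊤ ∧
    ¬ (Cfsg.pCore p ↥((Subgroup.normalizer ((S : Subgroup G) : Set G) ⊓ (Y ⊔ (S : Subgroup G))) ⊔
          ⨆ P' : {P' : Subgroup G // (S : Subgroup G) ≤ P' ∧ P' ≤ Y ⊔ (S : Subgroup G) ∧ Cfsg.IsPMinimal p ↥P' ∧ P' ≠ P}, (P' : Subgroup G))).map
        (Subgroup.subtype _) ≤ (Cfsg.pCore p ↥P).map P.subtype ∧
    ((Cfsg.pResidual p ↥P).map P.subtype = Y ∨
     ∃ _ : (Cfsg.pCore p ↥Y).Normal,
       p ∣ Nat.card (↥Y ⧸ Cfsg.pCore p ↥Y) ∧ Cfsg.layer (↥Y ⧸ Cfsg.pCore p ↥Y) = ⊤ ∧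
       ∀ K₁ K₂ : Subgroup (↥Y ⧸ Cfsg.pCore p ↥Y), Cfsg.IsComponent K₁ → Cfsg.IsComponent K₂ →
         ∃ s ∈ (S : Subgroup G), ((K₂.comap (QuotientGroup.mk' (Cfsg.pCore p ↥Y))).map Y.subtype) = (((K₁.comap (QuotientGroup.mk' (Cfsg.pCore p ↥Y))).map Y.subtype)).map (MulAut.conj s).toMonoidHom) := by
  have h := CL.Loc.isol_of_isPMinimal S hSP hPmin hL hiso
  rw [CL.Even.res_def] at hY ⊢
  have hYn : Y.Normal := hY ▸ inferInstance
  refine ⟨h.sup_eq_top (hY ▸ Subgroup.le_normalClosure), fun e => hiso ((CL.Even.core_le_core_of_le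
    (h.QS.trans (le_sup_of_le_left (le_inf Subgroup.le_normalizer le_sup_right))) ?_).trans e), ?_⟩
  · rw [hL]
    exact sup_le (le_sup_of_le_left inf_le_left) (le_sup_of_le_right (iSup_le fun P' =>
      le_iSup_of_le ⟨P'.1, P'.2.1, P'.2.2.2⟩ le_rfl))
  let f := QuotientGroup.mk' (pCore p G)
  have hf : Function.Surjective f := QuotientGroup.mk'_surjective _
  have hk : f.ker ≤ S := (QuotientGroup.ker_mk' _).le.trans (CL.Even.core_top.ge.trans (CL.Even.core_le_syl h.syl))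
  rcases (h.map hf hk).cases (CL.Grp.pCore_quotient_pCore p G) with ⟨t, -, -, -, h1, -⟩ | ⟨K, hK, h1, h2⟩
  · exact Or.inl (hY.trans (h.normal_of_map hk (CL.Even.map_res (p := p) f P ▸ h1))).symm
  have e1 : Y.map f = CL.Even.ncl ((S : Subgroup G).map f) K := by
    rw [hY, Subgroup.map_normalClosure _ _ hf, ← h1, ← CL.Even.map_res, Subgroup.coe_map]
  obtain ⟨e, he⟩ := CL.Loc.exists_equiv_map_mk_pCore (p := p) Y
  refine Or.inr ⟨inferInstance, by rwa [Nat.card_congr e.toEquiv, e1], ?_, fun K₁ K₂ k1 k2 => ?_⟩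
  · rw [← CL.Loc.map_layer_equiv e.symm, (eq_top_iff (a := layer (Y.map f))).mpr fun x _ => ?_]
    · exact Subgroup.map_top_of_surjective _ e.symm.surjective
    · obtain ⟨y, hy, e'⟩ := (e1.le.trans (CL.Even.ncl_le_iff.mpr fun s hs => CL.Loc.IsComponent.le_map_layer
        (CL.Loc.IsComponent.conj hK s) ((CL.Even.cj_le_ncl K hs).trans e1.ge))) x.2
      exact Subtype.ext e' ▸ hy
  have key : ∀ X : Subgroup (Y ⧸ pCore p Y), IsComponent X → ∃ s ∈ (S : Subgroup G),
      (X.comap (QuotientGroup.mk' (pCore p Y))).map Y.subtype =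
        (Y ⊓ K.comap f).map (MulAut.conj s).toMonoidHom := fun X hX => by
    obtain ⟨⟨_, s, hs, rfl⟩, e'⟩ := CL.Loc.IsComponent.mem_of_le_sSup
      (S := Set.range fun s : (S : Subgroup G).map f => K.map (MulAut.conj (s : G ⧸ pCore p G)).toMonoidHom)
      (by rintro _ ⟨s, rfl⟩; exact CL.Loc.IsComponent.conj hK s)
      (CL.Loc.IsComponent.map_subtype (CL.Loc.IsComponent.map_equiv hX e) (hYn.map f hf).isSubnormal)
      ((Subgroup.map_subtype_le _).trans e1.le)
    refine ⟨s, hs, Subgroup.ext fun x => ?_⟩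
    rw [CL.Even.cj_inf, CL.Even.cj_eq (Subgroup.le_normalizer_of_normal (Subgroup.mem_top s)), Subgroup.mem_inf,
      CL.Even.mem_cj, Subgroup.mem_comap, map_mul, map_mul, map_inv, ← CL.Even.mem_cj]
    refine Iff.trans ?_ (and_congr_right fun _ => SetLike.ext_iff.mp e' (f x)).symm
    constructor
    · rintro ⟨y, hy, rfl⟩
      exact ⟨y.2, e y, ⟨_, hy, rfl⟩, he y⟩
    · rintro ⟨hx, _, ⟨y, hy, rfl⟩, e2⟩
      refine ⟨⟨x, hx⟩, ?_, rfl⟩
      rwa [← e.injective (Subtype.ext ((he ⟨x, hx⟩).trans e2.symm))] at hy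
  obtain ⟨s₁, a1, b1⟩ := key K₁ k1
  obtain ⟨s₂, a2, b2⟩ := key K₂ k2
  exact ⟨s₂ * s₁⁻¹, Subgroup.mul_mem _ a2 (Subgroup.inv_mem _ a1), by
    rw [b1, b2, ← CL.Even.cj_mul, inv_mul_cancel_right]⟩

end Cfsg.Agent.S3044
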