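import Cfsg.Statements.S3045
import Cfsg.Agent.Loc.IsoMin

set_option autoImplicit false
open Cfsg

namespace Cfsg.Agent.S3045

theorem aux {A B : Type*} [Group A] [Group B] {X : Subgroup B} (e : A ≃* X) (h : ⁅⁅X, X⁆, X⁆ = ⊥) :
    ∃ _ : Group.IsNilpotent A, Group.nilpotencyClass A ≤ 2 := by
  have := CL.Grp.isNilpotent_of_commutator_commutator_eq_bot h
  refine ⟨Group.nilpotent_of_mulEquiv e.symm, ?_⟩
  refine (Group.nilpotencyClass_le_of_surjective e.symm.toMonoidHom e.symm.surjective).trans ?_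
  rw [← Subgroup.lowerCentralSeries_eq_bot_iff_nilpotencyClass_le, ← Subgroup.map_eq_bot_iff_of_injective _
    X.subtype_injective, Subgroup.top_subtype_lowerCentralSeries]
  exact h

/-- Let G be a finite group, p a prime, S a Sylow p-subgroup of G and P a p-minimal subgroup of G containing S. Let L be the subgroup generated by N_G(S) and all p-minimal subgroups of G containing S other than P, and suppose O_p(L) is not contained in O_p(P). Put Y for the normal closure of O^p(P) in G. Then O^p(P) is contained in the preimage in G of F*(G/O_p(G)); and if Y is solvable, then Y = O^p(P) and Y/O_p(Y) is a t-group of nilpotency class at most 2 for some prime t ≠ p. -/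
theorem result {G : Type*} [Group G] [Finite G] {p : ℕ} [Fact p.Prime] (S : Sylow p G) (P : Subgroup G) (hSP : (S : Subgroup G) ≤ P) (hPmin : Cfsg.IsPMinimal p ↥P)
    (L Y : Subgroup G)
    (hL : L = Subgroup.normalizer ((S : Subgroup G) : Set G) ⊔ ⨆ P' : {P' : Subgroup G // (S : Subgroup G) ≤ P' ∧ Cfsg.IsPMinimal p ↥P' ∧ P' ≠ P}, (P' : Subgroup G))
    (hiso : ¬ (Cfsg.pCore p ↥L).map L.subtype ≤ (Cfsg.pCore p ↥P).map P.subtype)
    (hY : Y = Subgroup.normalClosure (((Cfsg.pResidual p ↥P).map P.subtype : Subgroup G) : Set G)) [hn : (Cfsg.pCore p G).Normal] :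
    (Cfsg.pResidual p ↥P).map P.subtype ≤ (Cfsg.generalizedFittingSubgroup (G ⧸ Cfsg.pCore p G)).comap (QuotientGroup.mk' (Cfsg.pCore p G)) ∧
    (Group.IsSolvable ↥Y → (Cfsg.pResidual p ↥P).map P.subtype = Y ∧
       ∃ _ : (Cfsg.pCore p ↥Y).Normal, ∃ t : ℕ, t.Prime ∧ t ≠ p ∧ IsPGroup t (↥Y ⧸ Cfsg.pCore p ↥Y) ∧
         ∃ _ : Group.IsNilpotent (↥Y ⧸ Cfsg.pCore p ↥Y), Group.nilpotencyClass (↥Y ⧸ Cfsg.pCore p ↥Y) ≤ 2) := by
  have h := CL.Loc.isol_of_isPMinimal S hSP hPmin hL hiso
  rw [CL.Even.res_def] at hY ⊢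
  have hYn : Y.Normal := hY ▸ inferInstance
  let f := QuotientGroup.mk' (pCore p G)
  have hf : Function.Surjective f := QuotientGroup.mk'_surjective _
  have hk : f.ker ≤ S := (QuotientGroup.ker_mk' _).le.trans (CL.Even.core_top.ge.trans (CL.Even.core_le_syl h.syl))
  have e0 := CL.Even.map_res (p := p) f P
  rcases (h.map hf hk).cases (CL.Grp.pCore_quotient_pCore p G) with ⟨t, ht, htp, h0, h1, h2⟩ | ⟨K, hK, h1, h2⟩
  · have := Fact.mk ht
    have e1 := (hY.trans (h.normal_of_map hk (e0 ▸ h1))).symm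
    refine ⟨Subgroup.map_le_iff_le_comap.mp (e0.le.trans (h0.trans ((CL.Grp.pCore_le_fittingSubgroup t).trans
      le_sup_right))), fun _ => ⟨e1, inferInstance, t, ht, htp, ?_⟩⟩
    obtain ⟨e, he⟩ := CL.Loc.exists_equiv_map_mk_pCore (p := p) Y
    rw [← e0, e1] at h0 h2
    exact ⟨((CL.Grp.pCore_isPGroup t _).to_le h0).of_equiv e.symm, aux e h2⟩
  have e1 : Y.map f = CL.Even.ncl ((S : Subgroup G).map f) K := by
    rw [hY, Subgroup.map_normalClosure _ _ hf, ← h1, ← CL.Even.map_res, Subgroup.coe_map]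
  refine ⟨Subgroup.map_le_iff_le_comap.mp ((Subgroup.map_mono (hY ▸ Subgroup.le_normalClosure)).trans
    (e1.le.trans (CL.Even.ncl_le_iff.mpr fun s _ => (CL.Loc.IsComponent.le_layer
      (CL.Loc.IsComponent.conj hK s)).trans le_sup_left))), fun hs => absurd ?_ (CL.Loc.IsComponent.ne_bot hK)⟩
  have := hYn.map f hf
  have h3 := CL.Loc.IsComponent.commutator_eq_bot_of_isSolvable hK
    (Group.isSolvable_of_surjective (f.subgroupMap_surjective Y)) Subgroup.le_normalizer_of_normal
  rw [eq_bot_iff, ← h3]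
  refine (CL.Loc.IsComponent.commutator_self hK).ge.trans (Subgroup.commutator_mono le_rfl ?_)
  exact (CL.Even.cj_one K).ge.trans ((CL.Even.cj_le_ncl K (Subgroup.one_mem _)).trans e1.ge)

end Cfsg.Agent.S3045
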