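import Cfsg.Statements.S3048
import Cfsg.Agent.Even.Sidki2

set_option autoImplicit false
universe u
open Cfsg

namespace Cfsg.Agent.S3048

open CL.Even

/-- Minimal counterexample reduction for the Sidki pair problem. Let G be a finite group and V a nontrivial elementary abelian 2-subgroup satisfying the Sidki pair condition with V ∩ O₂(G) = 1. Suppose that for every finite group H of smaller order, every nontrivial elementary abelian 2-subgroup W of H satisfying the Sidki pair condition meets O₂(H) nontrivially, and that the same holds in G for every such subgroup W of order smaller than that of V. Then the generalized Fitting subgroup F*(G) is a non-abelian simple group and G = V F*(G). -/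
theorem result {G : Type u} [Group G] [Finite G] (V : Subgroup G) (hV : Cfsg.IsElementaryAbelian 2 V) (hV1 : V ≠ ⊥) (hS : Cfsg.IsSidkiPair V) (hVO : V ⊓ Cfsg.pCore 2 G = ⊥) (hminG : ∀ (H : Type u) [Group H] [Finite H] (W : Subgroup H), Nat.card H < Nat.card G → Cfsg.IsElementaryAbelian 2 W → W ≠ ⊥ → Cfsg.IsSidkiPair W → W ⊓ Cfsg.pCore 2 H ≠ ⊥) (hminV : ∀ W : Subgroup G, Nat.card W < Nat.card V → Cfsg.IsElementaryAbelian 2 W → W ≠ ⊥ → Cfsg.IsSidkiPair W → W ⊓ Cfsg.pCore 2 G ≠ ⊥) : IsSimpleGroup ↥(Cfsg.generalizedFittingSubgroup G) ∧ ¬ IsMulCommutative ↥(Cfsg.generalizedFittingSubgroup G) ∧ V ⊔ Cfsg.generalizedFittingSubgroup G = ⊤ := by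
  have hq : ∀ (N : Subgroup G) [N.Normal], N ≠ ⊥ → V ⊓ N = ⊥ →
      V.map (QuotientGroup.mk' N) ⊓ pCore 2 (G ⧸ N) ≠ ⊥ := by
    intro N _ hN hVN
    refine hminG _ _ (CL.Grp.card_quotient_lt hN) (CL.Loc.ea_map hV _) (fun h => hV1 ?_)
      (IsSidkiPair.map (QuotientGroup.mk'_surjective N) hV hS (by rwa [QuotientGroup.ker_mk']))
    rw [Subgroup.map_eq_bot_iff, QuotientGroup.ker_mk'] at h
    rw [← hVN, inf_eq_left.mpr h]
  have hO : pCore 2 G = ⊥ := by
    by_contra h
    exact hq _ h hVO (by rw [CL.Grp.pCore_quotient_pCore, inf_bot_eq])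
  have hsub : SidkiSub V := by
    intro H W hH hWV hWH hW h
    obtain ⟨⟨w, hw, hwO⟩, hw1⟩ := Subgroup.ne_bot_iff_exists_ne_one.mp
      (hminG H (W.subgroupOf H) (CL.Grp.card_subgroup_lt hH)
        (CL.Loc.ea_subgroupOf (CL.Loc.ea_mono hV hWV) H)
        (fun e => hW (by rw [← Subgroup.map_subgroupOf_eq_of_le hWH, e, Subgroup.map_bot]))
        (isSidkiPair_subgroupOf hWH h))
    exact ⟨w, hw, fun e => hw1 (Subtype.ext (Subtype.ext e)), ⟨w, hwO, rfl⟩⟩
  have hF := SidkiSub.fitting_eq_bot hV hV1 hS hO hsub hq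
  obtain ⟨L, h1, h2, h3⟩ := SidkiSub.exists_simple_eq_layer hV hV1 hS hO hsub hF
  have hE : generalizedFittingSubgroup G = L := by rw [CL.Loc.fstar_def, hF, sup_bot_eq, h3]
  refine ⟨hE ▸ h1, hE ▸ h2, SidkiSub.sup_fstar_eq_top hV hV1 hS hO hsub⟩

end Cfsg.Agent.S3048
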