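import Cfsg.Statements.S3049
import Cfsg.Agent.Even.Isolated2
import Cfsg.Agent.Grp.PGroupCritical

set_option autoImplicit false
open Cfsg

namespace Cfsg.Agent.S3049

open CL.Even

theorem not_dvd_of_le_centralizer {G : Type*} [Group G] [Finite G] {p : ℕ} [Fact p.Prime]
    (hp : p ≠ 2) (hrank : PRankLE p 2 G) {x : G} (hx : orderOf x = p) (hiso : IsIsolated x)
    {K L : Subgroup G} (hK : IsComponent K) (hpK : p ∣ Nat.card K)
    (hxK : x ∉ Subgroup.centralizer (K : Set G)) (hL : L.IsSubnormal)
    (hLK : L ≤ Subgroup.centralizer (K : Set G)) : ¬ p ∣ Nat.card L := by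
  intro hpL
  have hxp := spe_isPGroup_zpowers_of_prime hx
  obtain ⟨P, hP⟩ := hxp.exists_le_sylow
  have hPC := IsIsolated.le_centralizer hiso P.isPGroup' (hP (Subgroup.mem_zpowers x))
  have hSL := CL.Grp.isSylowIn_inf_of_isSubnormal P hL
  obtain ⟨w, hwL, hw⟩ := spe_exists_orderOf_of_dvd_card hpL
  have h1 : p ∣ Nat.card ((P : Subgroup G) ⊓ L : Subgroup G) := by
    have := hSL.card_dvd (spe_isPGroup_zpowers_of_prime hw) (Subgroup.zpowers_le.mpr hwL)
    rwa [Nat.card_zpowers, hw] at this
  obtain ⟨z, hz, hzp⟩ := spe_exists_orderOf_of_dvd_card h1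
  have hzx : z * x = x * z := Subgroup.mem_centralizer_singleton_iff.mp (hPC hz.1)
  have hxz : Subgroup.zpowers x ≤ Subgroup.centralizer (Subgroup.zpowers z : Set G) := by
    rintro _ ⟨i, rfl⟩ _ ⟨j, rfl⟩
    exact (Commute.zpow_zpow hzx j i).eq
  have hA : IsElementaryAbelian p (Subgroup.zpowers x ⊔ Subgroup.zpowers z) :=
    CL.Loc.ea_sup (CL.Loc.ea_zpowers (hx ▸ pow_orderOf_eq_one x))
      (CL.Loc.ea_zpowers (hzp ▸ pow_orderOf_eq_one z)) hxz
  have hinf : Subgroup.zpowers x ⊓ Subgroup.zpowers z = ⊥ := by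
    by_contra hne
    have h2 : Subgroup.zpowers x ⊓ Subgroup.zpowers z = Subgroup.zpowers x := by
      have h3 := Subgroup.card_dvd_of_le
        (inf_le_left : Subgroup.zpowers x ⊓ Subgroup.zpowers z ≤ Subgroup.zpowers x)
      rw [Nat.card_zpowers, hx] at h3
      rcases (Nat.dvd_prime Fact.out).mp h3 with h4 | h4
      · exact absurd (Subgroup.card_eq_one.mp h4) hne
      · exact Subgroup.eq_of_le_of_card_ge inf_le_left (by rw [h4, Nat.card_zpowers, hx])
    exact hxK (Subgroup.zpowers_le.mpr (hLK hz.2) ((h2.ge (Subgroup.mem_zpowers x)).2))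
  have hcard : p ^ 2 ≤ Nat.card (Subgroup.zpowers x ⊔ Subgroup.zpowers z : Subgroup G) := by
    rw [CL.Grp.card_sup_of_inf_eq_bot (hxz.trans (Subgroup.centralizer_le_normalizer _)) hinf,
      Nat.card_zpowers, Nat.card_zpowers, hx, hzp, sq]
  have hS := CL.Grp.isSylowIn_inf_of_isSubnormal P hK.1
  have := (CL.Loc.IsComponent.quasisimple hK).1
  refine not_dvd_card_of_perfect_of_hasNormalPComplement ?_ hpK
  rw [CL.Grp.hasNormalPComplement_iff_normalizer_coprime_centralizes hS.toSylow]
  intro Q hQ g hg hc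
  refine CL.Grp.mem_centralizer_of_centralizes_omega (hS.toSylow.isPGroup'.to_le hQ) hg hc ?_
  intro y hy hyp
  have hyp' : (y : G) ^ p = 1 := congrArg Subtype.val (hyp.resolve_right fun h => hp h.1)
  have hxy : ∀ y : K, y ∈ Q → x * y = y * x := fun y hy =>
    (Subgroup.mem_centralizer_singleton_iff.mp
      (hPC (show (y : G) ∈ (P : Subgroup G) ⊓ K from hQ hy).1)).symm
  have hyA : (y : G) ∈ Subgroup.zpowers x ⊔ Subgroup.zpowers z := by
    refine mem_of_pRankLE hrank hA hcard hyp' ?_
    have : Subgroup.zpowers x ⊔ Subgroup.zpowers z ≤ Subgroup.centralizer ({(y : G)} : Set G) :=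
      sup_le (Subgroup.zpowers_le.mpr (Subgroup.mem_centralizer_singleton_iff.mpr (hxy y hy)))
        (Subgroup.zpowers_le.mpr (Subgroup.mem_centralizer_singleton_iff.mpr
          (hLK hz.2 y y.2).symm))
    exact fun a ha => Subgroup.mem_centralizer_singleton_iff.mp (this ha)
  obtain ⟨a, ha, b, hb, e⟩ := (CL.Loc.mem_sup_of_le_normalizer
    (hxz.trans (Subgroup.centralizer_le_normalizer _))).mp hyA
  have hgb : (g : G) * b = b * g := Subgroup.zpowers_le.mpr (hLK hz.2) hb g g.2
  have hxb : b * x = x * b := hxz (Subgroup.mem_zpowers x) b hb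
  have h5 : (g : G) * y * (g : G)⁻¹ = g * a * (g : G)⁻¹ * b := by
    rw [← e]
    calc (g : G) * (a * b) * (g : G)⁻¹ = g * a * (g : G)⁻¹ * (g * b) * (g : G)⁻¹ := by group
      _ = _ := by rw [hgb]; group
  have h6 : x * (g * y * (g : G)⁻¹) = g * y * (g : G)⁻¹ * x :=
    hxy (g * y * g⁻¹) ((Subgroup.mem_normalizer_iff.mp hg y).mp hy)
  have h7 := IsIsolated.conj_eq_of_mem_zpowers hiso hxp ha (g := g) (by
    rw [h5, mul_assoc _ b x, hxb, ← mul_assoc, ← mul_assoc _ x b] at h6
    exact mul_right_cancel h6)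
  rw [h7, e, mul_inv_eq_iff_eq_mul] at h5
  exact Subtype.ext h5

/-- Let G be a finite group and p an odd prime with O_{p'}(G) = 1. Suppose that G has p-rank at most 2 (no elementary abelian subgroup of order p³) and that some element x of order p is isolated in G (no G-conjugate of x other than x commutes with x) and not central. Then the generalized Fitting subgroup F*(G) is a non-abelian simple group. Since O_{p'}(G) = 1, such an x is not central modulo O_{p'}(G): the hypotheses describe a counterexample to the Z*_p statement in p-rank at most 2. -/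
theorem result {G : Type*} [Group G] [Finite G] {p : ℕ} [Fact p.Prime] (hp : p ≠ 2) (hcore : Cfsg.pPrimeCore p G = ⊥)
    (hrank : Cfsg.PRankLE p 2 G) (x : G) (hx : orderOf x = p) (hiso : Cfsg.IsIsolated x) (hnc : x ∉ Subgroup.center G) :
    IsSimpleGroup ↥(Cfsg.generalizedFittingSubgroup G) ∧ ¬ IsMulCommutative ↥(Cfsg.generalizedFittingSubgroup G) := by
  have hxp := spe_isPGroup_zpowers_of_prime hx
  have hxP := IsIsolated.mem_centralizer_pCore hiso hxp
  obtain ⟨K, hK, hxK⟩ : ∃ K : Subgroup G, IsComponent K ∧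
      x ∉ Subgroup.centralizer (K : Set G) := by
    by_contra hcon
    push Not at hcon
    have h1 : Subgroup.zpowers x ≤ pCore p G := by
      refine CL.Loc.le_pCore_of_centralizes hcore ?_ ?_
      · exact Subgroup.commutator_eq_bot_iff_le_centralizer.mpr (Subgroup.zpowers_le.mpr hxP)
      · rw [Subgroup.commutator_comm, CL.Loc.commutator_layer_eq_bot_iff]
        intro L hL
        rw [Subgroup.commutator_comm]
        exact Subgroup.commutator_eq_bot_iff_le_centralizer.mpr
          (Subgroup.zpowers_le.mpr (hcon L hL))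
    have h2 := IsIsolated.normalizer_le hiso (CL.Grp.pCore_isPGroup p G)
      (h1 (Subgroup.mem_zpowers x))
    rw [Subgroup.normalizer_eq_top, top_le_iff] at h2
    exact hnc (Subgroup.centralizer_eq_top_iff_subset.mp h2 (Set.mem_singleton x))
  have hpK := dvd_card_component_of_pPrimeCore_eq_bot hcore hK
  have hP : pCore p G = ⊥ := by
    by_contra hne
    refine not_dvd_of_le_centralizer hp hrank hx hiso hK hpK hxK
      (Subgroup.Normal.isSubnormal inferInstance) ?_
      (spe_dvd_card_of_isPGroup_ne_bot (CL.Grp.pCore_isPGroup p G) hne)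
    rw [← Subgroup.commutator_eq_bot_iff_le_centralizer, Subgroup.commutator_comm]
    exact le_bot_iff.mp ((Subgroup.commutator_mono (CL.Loc.IsComponent.le_layer hK) le_rfl).trans
      (CL.Loc.commutator_layer_pCore p).le)
  have huniq : ∀ L : Subgroup G, IsComponent L → L = K := by
    intro L hL
    by_contra hne
    exact not_dvd_of_le_centralizer hp hrank hx hiso hK hpK hxK hL.1
      (Subgroup.commutator_eq_bot_iff_le_centralizer.mp
        (CL.Loc.IsComponent.commutator_eq_bot_of_ne hL hK hne))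
      (dvd_card_component_of_pPrimeCore_eq_bot hcore hL)
  have hF : fittingSubgroup G = ⊥ := by rw [CL.Grp.fittingSubgroup_eq_pCore hcore, hP]
  have ht : (⊤ : Subgroup G) ≠ ⊥ := fun h0 => spe_ne_one_of_orderOf_prime hx
    (Subgroup.mem_bot.mp (h0 ▸ Subgroup.mem_top x))
  obtain ⟨K', -, hK', hs, hnc'⟩ := exists_component_le_of_inf_fitting_eq_bot
    (Subgroup.IsSubnormal.top) ht (by rw [hF, inf_bot_eq])
  have hE : generalizedFittingSubgroup G = K' := by
    rw [CL.Loc.fstar_def, hF, sup_bot_eq]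
    exact le_antisymm (CL.Loc.layer_le_iff.mpr fun L hL =>
      ((huniq L hL).trans (huniq K' hK').symm).le) (CL.Loc.IsComponent.le_layer hK')
  rw [hE]
  exact ⟨hs, hnc'⟩

end Cfsg.Agent.S3049
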