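import Cfsg.Statements.S3053
import Cfsg.Agent.Transfer.Yoshida
import Cfsg.Agent.Grp.ExtraBasic
import Cfsg.Agent.Grp.Alperin

set_option autoImplicit false
open Cfsg
open scoped IsMulCommutative

namespace Cfsg.Agent.S3053

open scoped IsMulCommutative commutatorElement in
theorem aut_fix {E : Type*} [Group E] [Finite E] {p : ℕ} [hp : Fact p.Prime] (hp2 : p ≠ 2)
    (hE : Cfsg.IsExtraspecial p E) (hcard : Nat.card E = p ^ 3) (hexp : Monoid.exponent E = p ^ 2)
    {b : E} (hb : b ∉ Subgroup.center E) (hbp : b ^ p = 1) (σ : MulAut E) :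
    b⁻¹ * σ b ∈ Subgroup.center E := by
  have hc := CL.Grp.extra_comm_mem_center hE
  let f : E →* E := MonoidHom.mk' (fun x => x ^ p) fun x y =>
    CL.Grp.mul_pow_prime_of_commute_comm hp.out hp2 (CL.Grp.commute_of_mem_center (hc _ _) _)
      (CL.Grp.commute_of_mem_center (hc _ _) _) (CL.Grp.extra_pow_eq_one_of_mem_center hE (hc _ _))
  let c : E →* E := MonoidHom.mk' (fun x => ⁅x, b⁆) fun x y =>
    CL.Grp.comm_mul_left_of_central (hc _ _)
  let B := Subgroup.center E ⊔ Subgroup.zpowers b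
  have key : ∀ g : E →* E, (∀ x, g x ∈ Subgroup.center E) → (∃ a, g a ≠ 1) →
      (∀ z ∈ Subgroup.center E, g z = 1) → g b = 1 → g.ker = B ∧ g.ker.index = p := by
    rintro g h1 ⟨a, ha⟩ h2 h3
    have h4 : g.range = Subgroup.center E := le_antisymm (by rintro _ ⟨x, rfl⟩; exact h1 x)
      (by rw [← CL.Grp.extra_zpowers_eq_center hE (h1 a) ha]; exact Subgroup.zpowers_le.mpr ⟨a, rfl⟩)
    have h5 : g.ker.index = p := by rw [Subgroup.index_ker, h4, hE.2]
    have h6 : Nat.card g.ker = p ^ 2 := by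
      have := g.ker.card_mul_index
      rw [h5, hcard, pow_succ] at this
      exact Nat.eq_of_mul_eq_mul_right hp.out.pos this
    have h7 : B ≤ g.ker := sup_le h2 (Subgroup.zpowers_le.mpr h3)
    refine ⟨(Subgroup.eq_of_le_of_card_ge h7 ?_).symm, h5⟩
    obtain ⟨k, hk, e⟩ := (Nat.dvd_prime_pow hp.out).mp (h6 ▸ Subgroup.card_dvd_of_le h7)
    have h8 : Subgroup.center E < B := lt_of_le_of_ne le_sup_left fun h =>
      hb (h ▸ Subgroup.mem_sup_right (Subgroup.mem_zpowers b))
    have h9 := CL.Grp.subgroup_card_lt_of_lt h8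
    rw [hE.2, e] at h9
    have : 1 < k := (Nat.pow_lt_pow_iff_right hp.out.one_lt).mp (by rwa [pow_one])
    rw [h6, e]
    exact Nat.pow_le_pow_right hp.out.pos this
  obtain ⟨a, ha⟩ : ∃ a, f a ≠ 1 := by
    by_contra! h
    have := (Monoid.exponent_dvd_iff_forall_pow_eq_one (G := E) (n := p ^ 1)).mpr
      (by rw [pow_one]; exact h)
    rw [hexp, Nat.pow_dvd_pow_iff_le_right hp.out.one_lt] at this
    omega
  obtain ⟨hf, hfi⟩ := key f (CL.Grp.extra_pow_mem_center hE) ⟨a, ha⟩
    (fun z hz => CL.Grp.extra_pow_eq_one_of_mem_center hE hz) hbp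
  obtain ⟨hc', -⟩ := key c (fun x => hc x b) (by
      by_contra! h
      exact hb (Subgroup.mem_center_iff.mpr fun g =>
        commutatorElement_eq_one_iff_mul_comm.mp (h g)))
    (fun z hz => commutatorElement_eq_one_iff_mul_comm.mpr (Subgroup.mem_center_iff.mp hz b).symm)
    (commutatorElement_self b)
  obtain ⟨m, hm⟩ : c a ∈ Subgroup.zpowers (f a) := by
    rw [CL.Grp.extra_zpowers_eq_center hE (z := f a) (CL.Grp.extra_pow_mem_center hE a) ha]
    exact hc a b
  have h1 : ∀ x, c x = f x ^ m := fun x => by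
    have h2 : Subgroup.zpowers a ⊔ f.ker = ⊤ :=
      (CL.Grp.isCoatom_of_index_prime (hfi ▸ hp.out)).2 _ (lt_of_le_of_ne le_sup_right fun h =>
        ha (h ▸ Subgroup.mem_sup_left (Subgroup.mem_zpowers a) : a ∈ f.ker))
    obtain ⟨_, ⟨i, rfl⟩, k, hk, rfl⟩ := Subgroup.mem_sup_of_normal_right.mp (h2.ge (Subgroup.mem_top x))
    have hk' : k ∈ c.ker := by rwa [hc', ← hf]
    simp only [map_mul, map_zpow, MonoidHom.mem_ker.mp hk, MonoidHom.mem_ker.mp hk', mul_one, ← hm,
      ← zpow_mul, mul_comm i m]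
  refine Subgroup.mem_center_iff.mpr fun x => ?_
  obtain ⟨x, rfl⟩ := σ.surjective x
  have h2 : ⁅σ x, σ b⁆ = ⁅σ x, b⁆ := by
    rw [← map_commutatorElement]
    change σ (c x) = c (σ x)
    rw [h1, h1, map_zpow]
    exact congrArg (· ^ m) (map_pow σ x p)
  rw [← commutatorElement_eq_one_iff_mul_comm, CL.Grp.comm_mul_right_of_central (hc _ _), h2,
    CL.Grp.comm_inv_right (CL.Grp.commute_of_mem_center (hc _ _) _), inv_mul_cancel]

/-- Let p be an odd prime and G a finite group with a Sylow p-subgroup P that is extraspecial of order p³ and exponent p². Then the centre of P is strongly closed in P with respect to G: a G-conjugate of an element of Z(P) that lies in P already lies in Z(P). In particular a nontrivial central element of P is conjugate in G to no noncentral element of P. -/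
theorem result {G : Type*} [Group G] [Finite G]
    {p : ℕ} [Fact p.Prime] (hp : p ≠ 2) (P : Sylow p G) (hE : Cfsg.IsExtraspecial p ↥P)
    (hcard : Nat.card P = p ^ 3) (hexp : Monoid.exponent ↥P = p ^ 2) :
    Cfsg.IsStronglyClosed ((Subgroup.center ↥P).map (P : Subgroup G).subtype) (P : Subgroup G) := by
  have hp' : p.Prime := Fact.out
  refine ⟨Subgroup.map_subtype_le _, ?_⟩
  rintro _ ⟨z, hz, rfl⟩ g hy
  by_contra hne
  let y : (P : Subgroup G) := ⟨_, hy⟩
  have hyZ : y ∉ Subgroup.center (P : Subgroup G) := fun h => hne ⟨y, h, rfl⟩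
  have hyp : y ^ p = 1 := Subtype.ext (by
    have := congrArg Subtype.val (CL.Grp.extra_pow_eq_one_of_mem_center hE hz)
    simp only [y, SubmonoidClass.mk_pow, conj_pow, Subgroup.coe_subtype]
    rw [← Subgroup.coe_pow, this]
    simp)
  let N := Subgroup.normalizer ((P : Subgroup G) : Set G)
  have h1 : commutator G ⊓ P ≤ ⁅N, N⁆ := CL.Transfer.commutator_inf_le_of_card_le P (by
    rw [hcard]
    exact Nat.pow_le_pow_right hp'.pos (by have := hp'.two_le; omega))
  have hzc : (z : G) ∈ ⁅(P : Subgroup G), (P : Subgroup G)⁆ := by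
    rw [← Subgroup.map_subtype_commutator]
    exact ⟨z, CL.Grp.extra_commutator_eq hE ▸ hz, rfl⟩
  have hyN : (y : G) ∈ ⁅N, N⁆ := h1 ⟨Subgroup.Normal.conj_mem inferInstance _
    (Subgroup.commutator_mono le_top le_top hzc) g, hy⟩
  have : IsMulCommutative ((P : Subgroup G) ⧸ Subgroup.center (P : Subgroup G)) :=
    Subgroup.Normal.quotient_commutative_iff_commutator_le.mpr (CL.Grp.extra_commutator_eq hE).le
  let ϕ := QuotientGroup.mk' (Subgroup.center (P : Subgroup G))
  have : ((P : Subgroup G).comap N.subtype).FiniteIndex := inferInstance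
  have h2 := CL.Transfer.transfer_eq_pow_of_extOne (CL.Transfer.pull ϕ N.subtype)
    ⟨y, Subgroup.le_normalizer y.2⟩ (ϕ y) fun k n _ => by
      let σ := (P : Subgroup G).normalizerMonoidHom n⁻¹
      have e : N.subtype (n⁻¹ * ⟨y, Subgroup.le_normalizer y.2⟩ ^ k * n) = σ (y ^ k) :=
        (congrArg _ (by rw [inv_inv])).trans
          (rfl : N.subtype (n⁻¹ * ⟨y, Subgroup.le_normalizer y.2⟩ ^ k * n⁻¹⁻¹) = σ (y ^ k))
      rw [CL.Transfer.extOne_pull, e, CL.Transfer.extOne_coe, map_pow, map_pow]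
      exact congrArg (· ^ k) (QuotientGroup.eq.mpr (aut_fix hp hE hcard hexp hyZ hyp σ)).symm
  rw [← Subgroup.map_subtype_commutator] at hyN
  obtain ⟨y', hy', e⟩ := hyN
  obtain rfl : y' = ⟨y, Subgroup.le_normalizer y.2⟩ := Subtype.ext e
  rw [Abelianization.commutator_subset_ker _ hy'] at h2
  have h3 : ϕ y ^ p = 1 := by rw [← map_pow, hyp, map_one]
  exact hyZ ((QuotientGroup.eq_one_iff _).mp ((pow_eq_one_iff_of_coprime
    ((Nat.Prime.coprime_iff_not_dvd hp').mpr
      (CL.Grp.isSylowIn_of_le P Subgroup.le_normalizer).not_dvd)).mp ⟨h3, h2.symm⟩))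

end Cfsg.Agent.S3053
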