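import Cfsg.Statements.S3054
import Cfsg.Agent.Loc.XP3

set_option autoImplicit false
open Cfsg CL.Grp CL.XP3 Subgroup

namespace Cfsg.Agent.S3054

/-- Let p be an odd prime and G a finite group with a Sylow p-subgroup P that is extraspecial of order p³ and exponent p. Suppose P contains three distinct subgroups A of order p² (each is elementary abelian of rank 2) such that every automorphism of A of order p is induced by conjugation by an element of G; equivalently the automorphism group induced on A by its normalizer contains the special linear group of A. Then p ≤ 13. -/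
theorem result {G : Type*} [Group G] [Finite G]
    {p : ℕ} [Fact p.Prime] (hp : p ≠ 2) (P : Sylow p G) (hE : Cfsg.IsExtraspecial p ↥P)
    (hcard : Nat.card P = p ^ 3) (hexp : Monoid.exponent ↥P = p)
    (A : Fin 3 → Subgroup G) (hA : Function.Injective A) (hAP : ∀ i, A i ≤ (P : Subgroup G))
    (hAcard : ∀ i, Nat.card ↥(A i) = p ^ 2)
    (hSL : ∀ i, ∀ φ : MulAut ↥(A i), orderOf φ = p → ∃ g : G, ∀ a : ↥(A i), (φ a : G) = g * (a : G) * g⁻¹) :
    p ≤ 13 := by
  classical
  obtain ⟨H, -, hZ, hN⟩ : ∃ H : Heis p (P : Subgroup G) (Fin 2 → ZMod p), 1 ≤ 1 ∧ H.Z = center _ ∧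
    ∀ x, (∀ y, H.B x y = 0) → x = 0 := extra_exists_heis_of_card (n := 1) hE hcard
  have he : ∀ a : P, a ^ p = 1 := fun a => by
    have := Monoid.pow_exponent_eq_one a
    rwa [hexp] at this
  have key : ∀ i, ∃ (a : P) (h0 : H.π a ≠ 0), (A i).subgroupOf P = H.pre (Submodule.span _ {H.π a}) ∧
      ∃ y : G, y * H.ι 1 * y⁻¹ = H.ι 1 * a ∧ y * a * y⁻¹ = a := fun i => by
    have c1 : Nat.card ((A i).subgroupOf P) = p ^ 2 :=
      (Nat.card_congr (subgroupOfEquivOfLe (hAP i)).toEquiv).trans (hAcard i)
    have := normal_of_index_eq_pGroup P.2 (H := (A i).subgroupOf P) (Nat.eq_of_mul_eq_mul_left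
      (pow_pos (Fact.out : p.Prime).pos 2) (by rw [← c1, card_mul_index, hcard, c1, pow_succ]))
    have h1 : H.Z ≤ (A i).subgroupOf P := hZ ▸ extra_center_le_of_normal hE (N := (A i).subgroupOf P) fun e => by
      rw [e, card_bot] at c1
      exact (Nat.one_lt_pow two_ne_zero (Fact.out : p.Prime).one_lt).ne c1
    have c2 := H.card_of_Z_le h1
    rw [c1, sq, mul_right_inj' (Fact.out : p.Prime).ne_zero, Module.natCard_eq_pow_finrank (K := ZMod p),
      Nat.card_zmod] at c2
    have c3 : Module.finrank (ZMod p) (H.img ((A i).subgroupOf P)) = 1 :=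
      Nat.pow_right_injective (Fact.out : p.Prime).two_le (c2.symm.trans (pow_one p).symm)
    obtain ⟨_, ⟨a, ha, rfl⟩, h0⟩ := Submodule.exists_mem_ne_zero_of_ne_bot (p := H.img ((A i).subgroupOf P))
      fun e => by rw [e, finrank_bot] at c3; omega
    refine ⟨a, h0, by rw [← eq_span_singleton_of_mem_of_finrank_eq_one c3 (H.π_mem_img ha) h0, H.pre_img_of_le h1], ?_⟩
    have o1 : orderOf a = p := orderOf_eq_prime (he a) fun e => h0 (e ▸ H.π_one)
    obtain ⟨τ, e1, e2, e3⟩ := exists_transv (hAcard i) (a := ⟨a, ha⟩) (z := ⟨H.ι 1, h1 (H.ι_mem_Z 1)⟩)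
      ((orderOf_coe _).symm.trans ((orderOf_coe a).trans o1)) fun ⟨k, e⟩ => by
        have e' : H.ι 1 ∈ zpowers a := ⟨k, Subtype.ext (congrArg (fun x : A i => (x : G)) e)⟩
        have := eq_of_le_of_card_ge (zpowers_le.2 e') (by rw [Nat.card_zpowers, Nat.card_zpowers, o1, H.orderOf_ι_one])
        exact h0 (H.mem_Z.1 (by rw [H.Z_eq_zpowers, this]; exact mem_zpowers a))
    obtain ⟨g, hg⟩ := hSL i τ e1
    exact ⟨g, (hg _).symm.trans (congrArg Subtype.val e2), (hg _).symm.trans (congrArg Subtype.val e3)⟩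
  choose a h0 h1 h2 using key
  have hinj : Function.Injective fun i => Projectivization.mk (ZMod p) (H.π (a i)) (h0 i) := fun i j e => hA (by
    have := congrArg Projectivization.submodule e
    simp only [Projectivization.submodule_mk] at this
    rw [← map_subgroupOf_eq_of_le (hAP i), h1, this, ← h1, map_subgroupOf_eq_of_le (hAP j)])
  have := bound H hZ hN he (X := Finset.univ.image fun i => Projectivization.mk (ZMod p) (H.π (a i)) (h0 i))
    fun x hx => let ⟨i, _, e⟩ := Finset.mem_image.1 hx; ⟨a i, h0 i, e.symm, h2 i⟩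
  rw [Finset.card_image_of_injective _ hinj, Finset.card_univ, Fintype.card_fin] at this
  omega

end Cfsg.Agent.S3054
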