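import Cfsg.Statements.S3055
import Cfsg.Agent.Loc.XP3

set_option autoImplicit false
open Cfsg CL.Grp CL.XP3 CL.Odd Subgroup

namespace Cfsg.Agent.S3055

/-- Let p be an odd prime and G a finite group with a Sylow p-subgroup P that is extraspecial of order p³ and exponent p. If all nonidentity elements of P are conjugate in G, then p ≤ 7. -/
theorem result {G : Type*} [Group G] [Finite G]
    {p : ℕ} [Fact p.Prime] (hp : p ≠ 2) (P : Sylow p G) (hE : Cfsg.IsExtraspecial p ↥P)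
    (hcard : Nat.card P = p ^ 3) (hexp : Monoid.exponent ↥P = p)
    (hconj : ∀ x y : ↥P, x ≠ 1 → y ≠ 1 → ∃ g : G, g * (x : G) * g⁻¹ = (y : G)) :
    p ≤ 7 := by
  obtain ⟨H, -, hZ, hN⟩ : ∃ H : Heis p (P : Subgroup G) (Fin 2 → ZMod p), 1 ≤ 1 ∧ H.Z = center _ ∧
    ∀ x, (∀ y, H.B x y = 0) → x = 0 := extra_exists_heis_of_card (n := 1) hE hcard
  have he : ∀ a : P, a ^ p = 1 := fun a => by
    have := Monoid.pow_exponent_eq_one a
    rwa [hexp] at this
  have := Fintype.ofFinite (CL.SL2.P1 (ZMod p))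
  have := bound H hZ hN he (X := Finset.univ) fun x _ => by
    induction x using Projectivization.ind with
    | h v hv =>
    obtain ⟨a, rfl⟩ := H.π_surj v
    refine ⟨a, hv, rfl, ?_⟩
    have a1 : a ≠ 1 := fun e => hv (e ▸ H.π_one)
    obtain ⟨g, hg⟩ := hconj a (H.ι 1) a1 (H.ι_eq_one_iff.not.2 one_ne_zero)
    have hc : (H.ι 1 : G) * a = a * H.ι 1 := congrArg Subtype.val (H.ι_comm 1 a).symm
    obtain ⟨c, hc1, e⟩ := (isSylowIn_of_le P (H := C1[(H.ι 1 : G)]) fun x hx =>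
      mem_c1.2 (congrArg Subtype.val (H.ι_comm 1 ⟨x, hx⟩))).exists_conj_le (U := zpowers (g * H.ι 1 * g⁻¹))
      (cj_zpowers g _ ▸ isPGroup_cj.2 (P.2.to_le (zpowers_le.2 (H.ι 1).2)))
      (zpowers_le.2 (mem_c1.2 (by nth_rw 2 3 [← hg]; rw [conj_mul, conj_mul, hc])))
    have h1 : c * g * a * (c * g)⁻¹ = H.ι 1 := by
      rw [← mem_c1_iff_conj.1 hc1, ← hg]; group
    obtain ⟨b, hb⟩ : ∃ b : P, c * g * H.ι 1 * (c * g)⁻¹ = b :=
      ⟨⟨_, e (conj_mem_cj.2 (mem_zpowers _))⟩, by group⟩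
    generalize c * g = g at h1 hb
    have h2 : H.π b ≠ 0 := fun e => by
      obtain ⟨s, rfl⟩ := (H.π_eq_zero_iff b).1 e
      rw [H.ι_eq_pow_val s, coe_pow, congrArg (· ^ s.val) h1.symm, conj_pow, mul_left_inj, mul_right_inj] at hb
      have e' : H.ι 1 ∈ zpowers a := (show a ^ s.val = H.ι 1 from Subtype.ext hb.symm) ▸ npow_mem_zpowers _ _
      have := eq_of_le_of_card_ge (zpowers_le.2 e') (by
        rw [Nat.card_zpowers, Nat.card_zpowers, orderOf_eq_prime (he a) a1, H.orderOf_ι_one])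
      exact hv (H.mem_Z.1 (by rw [H.Z_eq_zpowers, this]; exact mem_zpowers a))
    obtain ⟨w, hw⟩ : ∃ w, H.B w (H.π b) = 1 := by
      obtain ⟨w, hw⟩ := not_forall.1 (mt (hN _) h2)
      exact ⟨-(H.B (H.π b) w)⁻¹ • w, by rw [map_smul, LinearMap.smul_apply, H.B_swap w]; simp [hw]⟩
    have h3 := H.conj_eq (H.σ w) b
    rw [H.π_σ, hw] at h3
    have h4 : (H.σ w : G) * b * (H.σ w : G)⁻¹ = b * H.ι 1 := congrArg Subtype.val h3
    have h5 : (H.σ w : G) * H.ι 1 * (H.σ w : G)⁻¹ = H.ι 1 :=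
      mul_inv_eq_iff_eq_mul.2 (congrArg Subtype.val (H.ι_comm 1 _))
    refine ⟨g⁻¹ * H.σ w * g, (cj g).injective (?_ : g * _ * g⁻¹ = g * _ * g⁻¹),
      (cj g).injective (?_ : g * _ * g⁻¹ = g * _ * g⁻¹)⟩
    · rw [← conj_mul (a := (H.ι 1 : G)), hb, h1, ← h4, ← hb]; group
    · rw [h1, ← h5, ← h1]; group
  rw [Finset.card_univ, ← Nat.card_eq_fintype_card, CL.SL2.card_P1, Nat.card_zmod] at this
  omega

end Cfsg.Agent.S3055
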