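import Cfsg.Statements.S3057
import Cfsg.Agent.S0016
import Cfsg.Agent.Even.StrEmbRank
import Cfsg.Agent.Loc.PSolv

set_option autoImplicit false
open Cfsg

namespace Cfsg.Agent.S3057

open CL.Even

/-- Let p be a prime and G a finite p-solvable group of order divisible by p, with Sylow p-subgroup P. Then the Sylow p-subgroups of G fail to be chain-connected through nontrivial intersections (equivalently, G has a strongly p-embedded subgroup) if and only if O_p(G) = 1 and P is cyclic or, for p = 2, generalized quaternion. -/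
theorem result {G : Type*} [Group G] [Finite G]
    (p : ℕ) [Fact p.Prime] (hdiv : p ∣ Nat.card G) (hsol : Cfsg.IsPSolvable p G) (P : Sylow p G) :
    ¬ Cfsg.IsSylowChainConnected p G ↔
      Cfsg.pCore p G = ⊥ ∧ (IsCyclic ↥P ∨ (p = 2 ∧ ∃ n : ℕ, Nonempty (↥P ≃* QuaternionGroup (2 ^ n)))) := by
  rw [not_isSylowChainConnected_iff]
  constructor
  · rintro ⟨M, h1, h2, h⟩
    refine ⟨h.eq_bot_of_normal_isPGroup h1 h2 (CL.Grp.pCore_isPGroup p G), ?_⟩
    obtain ⟨Q, hQ⟩ := h.exists_sylow_le h2
    have hU : UniqueOrderP p (Q : Subgroup G) := by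
      by_contra hU
      set N := Cfsg.pPrimeCore p G with hN
      have hNM : N ≤ M := h.le_of_not_uniqueOrderP hQ Q.isPGroup' hU
        (by rw [Subgroup.normalizer_eq_top]; exact le_top) (CL.Grp.not_dvd_card_pPrimeCore p G)
      have h3 := h.map_of_surjective (QuotientGroup.mk'_surjective N)
        (by rwa [QuotientGroup.ker_mk'])
      have h4 : M.map (QuotientGroup.mk' N) ≠ ⊤ := by
        intro ht
        have := congrArg (Subgroup.comap (QuotientGroup.mk' N)) ht
        rw [Subgroup.comap_map_eq, QuotientGroup.ker_mk', Subgroup.comap_top,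
          sup_eq_left.mpr hNM] at this
        exact h1 this
      have h5 : p ∣ Nat.card (M.map (QuotientGroup.mk' N)) := by
        have e := CL.Grp.card_eq_card_inf_ker_mul_card_map (QuotientGroup.mk' N) M
        rw [e, QuotientGroup.ker_mk', inf_eq_left.mpr hNM] at h2
        exact ((Nat.Prime.dvd_mul Fact.out).mp h2).resolve_left (CL.Grp.not_dvd_card_pPrimeCore p G)
      have h6 := CL.Loc.subsingleton_of_isPSolvable (CL.Loc.isPSolvable_quotient hsol N)
        (h3.eq_bot_of_normal_isPGroup h4 h5 (CL.Grp.pCore_isPGroup p _))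
        (CL.Grp.pPrimeCore_quotient_pPrimeCore p G)
      exact h4 (Subsingleton.elim _ _)
    rcases Cfsg.Agent.S0016.result p Q.isPGroup' hU.eq_of_card with hc | ⟨hp2, n, ⟨e⟩⟩
    · exact Or.inl (isCyclic_of_surjective (Sylow.equiv Q P) (MulEquiv.surjective _))
    · exact Or.inr ⟨hp2, n, ⟨(Sylow.equiv P Q).trans e⟩⟩
  · rintro ⟨hO, hT⟩
    have hU : UniqueOrderP p (P : Subgroup G) := by
      rcases hT with h | ⟨-, n, ⟨e⟩⟩
      · exact uniqueOrderP_of_isCyclic h
      · exact uniqueOrderP_of_quaternion P.isPGroup' e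
    obtain ⟨z, hz, hzp⟩ := spe_exists_orderOf_of_dvd_card (P.dvd_card_of_dvd_card hdiv)
    refine ⟨_, fun ht => ?_, spe_dvd_card_of_orderOf
      (Subgroup.le_normalizer (Subgroup.mem_zpowers z)) hzp, hU.speElt hz hzp⟩
    have : (Subgroup.zpowers z).Normal := Subgroup.normalizer_eq_top_iff.mp ht
    have h1 := CL.Grp.le_pCore (spe_isPGroup_zpowers_of_prime hzp)
    rw [hO] at h1
    exact spe_ne_one_of_orderOf_prime hzp (h1 (Subgroup.mem_zpowers z))

end Cfsg.Agent.S3057
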