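import Cfsg.Statements.S3060
import Cfsg.Agent.Even.DStar

set_option autoImplicit false
open Cfsg

namespace Cfsg.Agent.S3060

open CL.Even CL.Grp Subgroup
open scoped Pointwise commutatorElement


/-- The D*-Theorem. For a finite p-group S let D*(S) be the subgroup generated by the abelian subgroups A of S such that every x ∈ S with ⟨A, x⟩ of nilpotency class at most two centralizes A. Let p be an odd prime and H a finite p-stable group with Sylow p-subgroup S. Here H is p-stable in the following sense: the largest normal p-subgroup O_p(H) contains its centralizer in H, and for every normal p-subgroup P of H, every element acting quadratically on P has image in O_p(H/C_H(P)). Then D*(S) is a normal subgroup of H. -/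
theorem result {G : Type*} [Group G] [Finite G] {p : ℕ} [Fact p.Prime] (hp : p ≠ 2)
    (hc : Subgroup.centralizer (Cfsg.pCore p G : Set G) ≤ Cfsg.pCore p G)
    (hst : ∀ (P : Subgroup G) [P.Normal], IsPGroup p P → Cfsg.IsPStableOn p P) (S : Sylow p G) :
    (Cfsg.dStarOf (S : Subgroup G)).Normal := by
  have hD := dFam_dStarOf S.isPGroup'
  have hSD := le_normalizer.trans (norm_le_norm_dStarOf (S : Subgroup G))
  set D := dStarOf (S : Subgroup G) with hDdef
  have hS : IsSylowIn p (S : Subgroup G) ⊤ := isSylowIn_top_iff.2 ⟨S, rfl⟩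
  have hQ : ∀ g : G, pCore p G ≤ cj g (S : Subgroup G) := fun g => by
    rw [← core_top]; exact core_le_syl (syl_cj_of_mem_norm hS (le_normalizer (mem_top g)))
  have hQS : pCore p G ≤ S := by simpa only [cj_one] using hQ 1
  have hDQ : D ≤ pCore p G := by
    intro a ha
    have h1 := hst (pCore p G) pCore_isP a (le_bot_iff.1 (by
      rw [← commutator_eq_bot_iff'.2 hD.2.1]
      refine commutator_mono ?_ (zpowers_le.2 ha)
      exact (commutator_mono le_rfl (zpowers_le.2 ha)).trans
        (commutator_le_of_le_norm' (hQS.trans hSD))))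
    refine le_pCore_of (N := (pCore p _).comap (QuotientGroup.mk' 𝒞(pCore p G))) inferInstance ?_ h1
    exact pCore_isP.comap_of_ker_isPGroup _ (by rw [QuotientGroup.ker_mk']; exact pCore_isP.to_le hc)
  have hcQ : ∀ g : G, cj g D ≤ pCore p G := fun g => cj_le_of_le hDQ (le_normalizer_of_normal (mem_top g))
  set W := ncl ⊤ D with hW
  have hWn : W.Normal := normalizer_eq_top_iff.1 (top_le_iff.1 (le_norm_ncl ⊤ D))
  have hWQ : W ≤ pCore p G := ncl_le hDQ le_normalizer_of_normal
  have hWc : W ≤ 𝒞(W) := by
    refine ncl_le_iff.2 fun g _ => le_centralizer_iff.1 (ncl_le_iff.2 fun h _ => ?_)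
    refine (hD.cj g).le_cent (isPGroup_cj S.isPGroup' g) ((hcQ h).trans (hQ g)) (hD.cj h).2.1 ?_
    rw [← cj_norm]
    exact (hcQ g).trans ((hQ h).trans (cj_mono h hSD))
  have hWD : DFam S W := by
    refine ⟨hWQ.trans hQS, hWc, fun x _ hx => ?_⟩
    have h0 : ⁅⁅W, zpowers x⁆, zpowers x⁆ = ⊥ := le_bot_iff.1 (hx ▸
      commutator_mono (commutator_mono le_sup_left le_sup_right) le_sup_right)
    have h1 := hst W (pCore_isP.to_le hWQ) x h0
    refine zpowers_le.1 (le_centralizer_iff.1 (ncl_le_iff.2 fun g _ => le_centralizer_iff.1 ?_))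
    have h2 := core_le_syl (syl_map (QuotientGroup.mk' 𝒞(W)) (syl_cj_of_mem_norm hS (le_normalizer (mem_top g))))
    rw [← MonoidHom.range_eq_map, QuotientGroup.range_mk', core_top] at h2
    obtain ⟨s, hs, hsx⟩ := h2 h1
    have h3 : s⁻¹ * x ∈ 𝒞(W) := QuotientGroup.eq.1 hsx
    set U := W ⊓ 𝒞(zpowers x) with hU
    have h4 : zpowers x ≤ cmod W U := le_cmod
      ((le_centralizer_iff.1 inf_le_right).trans (cent_le_norm U))
      (le_inf (commutator_le_left _ _) (commutator_eq_bot_iff_le_centralizer.1 h0))
    have h5 : 𝒞(W) ≤ cmod W U := le_cmod ((cent_mono inf_le_left).trans (cent_le_norm U))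
      (by rw [commutator_eq_bot_iff'.2 le_rfl]; exact bot_le)
    have es : s = x * (s⁻¹ * x)⁻¹ := by group
    have h6 : s ∈ cmod W U := es ▸ mul_mem (h4 (mem_zpowers x)) (inv_mem (h5 h3))
    have h7 : s ∈ 𝒞(U) := es ▸ mul_mem (le_centralizer_iff.1 inf_le_right (mem_zpowers x))
      (inv_mem (cent_mono inf_le_left h3))
    have hDW : cj g D ≤ W := cj_le_ncl D (mem_top g)
    have h8 : s ∈ 𝒞(cj g D) := (hD.cj g).2.2 s hs (class_two_of (C := U) (hD.cj g).2.1
      (zpowers_le_cent_self s) (inf_le_left.trans (hWc.trans (cent_mono hDW)))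
      (le_centralizer_iff.1 (zpowers_le.2 h7)) (by
        rw [Subgroup.commutator_comm]
        exact (commutator_mono hDW le_rfl).trans (commutator_le_of_le_cmod (zpowers_le.2 h6))))
    have ex : x = s * (s⁻¹ * x) := by group
    rw [zpowers_le, ex]
    exact mul_mem h8 (cent_mono hDW h3)
  have : W = D := le_antisymm (by rw [hDdef, dStarOf_eq]; exact le_sSup hWD) (le_ncl ⊤ D)
  exact this ▸ hWn

end Cfsg.Agent.S3060
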