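import Cfsg.Statements.S3062
import Cfsg.Agent.Even.DStar

set_option autoImplicit false
open Cfsg

namespace Cfsg.Agent.S3062

open CL.Even CL.Grp Subgroup
open scoped Pointwise commutatorElement


/-- Let S be a finite p-group, J(S) the subgroup generated by the abelian subgroups of S of largest order and Z(J(S)) its centre. Then Z(S) ≤ D*(S) ≤ Z(J(S)), and every maximal normal abelian subgroup of S contains D*(S). -/
theorem result {S : Type*} [Group S] [Finite S] {p : ℕ} [Fact p.Prime]
    (hS : IsPGroup p S) :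
    Subgroup.center S ≤ Cfsg.dStar S ∧
    Cfsg.dStar S ≤ Cfsg.thompsonSubgroupA S ⊓ Subgroup.centralizer (Cfsg.thompsonSubgroupA S : Set S) ∧
    ∀ A : Subgroup S, A.Normal → IsMulCommutative A →
      (∀ B : Subgroup S, B.Normal → IsMulCommutative B → A ≤ B → B = A) → Cfsg.dStar S ≤ A := by
  have := hS.isNilpotent
  refine ⟨?_, le_inf ?_ ?_, fun A hn hA hmax => ?_⟩
  · refine le_sSup (s := dStarFamily S) ⟨inferInstance, fun x _ a ha => ?_⟩
    exact (mem_center_iff.1 ha x).symm
  · obtain ⟨B, hB⟩ := exists_mem_maxAbelian S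
    exact (dStar_le_maxAbelian hS hB).trans (le_thompsonSubgroupA hB)
  · refine le_cent_sSup fun B hB => ?_
    rw [centralizer_eq_of_mem_maxAbelian hB]
    exact dStar_le_maxAbelian hS hB
  · exact dStar_le_of_maximal hS hA (centralizer_eq_of_maximal_abelian_normal A hmax)

end Cfsg.Agent.S3062
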