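import Cfsg.Statements.S3063
import Cfsg.Agent.Even.DStar

set_option autoImplicit false
open Cfsg

namespace Cfsg.Agent.S3063

open CL.Even CL.Grp Subgroup
open scoped Pointwise commutatorElement


/-- A weak replacement Theorem for metabelian p-groups: let S be a finite p-group whose derived subgroup is abelian and A an abelian subgroup of S of largest possible order. Then the normal closure of A in S contains an abelian subgroup B of the same order as A that is normal in S. -/
theorem result {S : Type*} [Group S] [Finite S] {p : ℕ} [Fact p.Prime]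
    (hS : IsPGroup p S) (hmeta : IsMulCommutative ↥(commutator S))
    (A : Subgroup S) (hA : A ∈ Cfsg.maxAbelianSubgroups S) :
    ∃ B ∈ Cfsg.maxAbelianSubgroups S, B.Normal ∧ B ≤ Subgroup.normalClosure (A : Set S) := by
  obtain ⟨B, ⟨hB, hBA⟩, hmax⟩ := Set.exists_max_image
    {B : Subgroup S | B ∈ maxAbelianSubgroups S ∧ B ≤ normalClosure (A : Set S)}
    (fun B => Nat.card (B ⊓ _root_.commutator S : Subgroup S)) (Set.toFinite _) ⟨A, hA, le_normalClosure⟩
  refine ⟨B, hB, normalizer_eq_top_iff.1 (top_le_iff.1 fun x _ => ?_), hBA⟩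
  have hc := isMulCommutative_iff_le_centralizer.1 hmeta
  set M := closure {c | ∃ b ∈ B, c = ⁅x, b⁆} with hM
  have hMD : M ≤ _root_.commutator S := (closure_le _).2 (by
    rintro _ ⟨b, hb, rfl⟩
    exact commutator_mem_commutator (mem_top x) (mem_top b))
  have hMN : M ≤ normalClosure (A : Set S) := (closure_le _).2 (by
    rintro _ ⟨b, hb, rfl⟩
    exact commutator_le_right ⊤ _ (commutator_mem_commutator (mem_top x) (hBA hb)))
  have h3 := thompson_replacement_abelian hB
    (isMulCommutative_iff_le_centralizer.2 (hMD.trans (hc.trans (cent_mono hMD)))) hM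
  have h5 : B ⊓ _root_.commutator S ≤ (M ⊔ (B ⊓ 𝒞(M))) ⊓ _root_.commutator S :=
    le_inf (le_sup_of_le_right (inf_le_inf_left B (hc.trans (cent_mono hMD)))) inf_le_right
  have h6 := eq_of_le_of_card_ge h5 (hmax _ ⟨h3, sup_le hMN (inf_le_left.trans hBA)⟩)
  refine mem_norm_of_comm_mem fun b hb => ?_
  have h7 : ⁅x, b⁆ ∈ M := subset_closure ⟨b, hb, rfl⟩
  have : ⁅x, b⁆ ∈ B ⊓ _root_.commutator S := h6 ▸ ⟨mem_sup_left h7, hMD h7⟩
  exact this.1

end Cfsg.Agent.S3063
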