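import Cfsg.Statements.S3067
import Cfsg.Agent.Grp.Coprime2
import Cfsg.Agent.C2Low.Basic

set_option autoImplicit false
open Cfsg

namespace Cfsg.Agent.S3067

open Subgroup CL.Grp
open scoped Pointwise

theorem two_zpowers {G : Type*} [Group G] {t : G} (h : t * t = 1) : IsPGroup 2 (zpowers t) := by
  rintro ⟨_, i, rfl⟩
  refine ⟨1, Subtype.ext ?_⟩
  change (t ^ i) ^ 2 ^ 1 = 1
  rw [pow_one, ← zpow_natCast, ← zpow_mul, mul_comm, zpow_mul, zpow_natCast, pow_two, h, one_zpow]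

section

variable {A G : Type*} [Group A] [Group G] [MulDistribMulAction A G] [Finite A] [Finite G]
  (hcop : (Nat.card A).Coprime (Nat.card G)) (hs : Group.IsSolvable A) {τ : G} (h2 : τ * τ = 1)
  (hC : centralizer ({τ} : Set G) ≤ FixedPoints.subgroup A G)
include hcop hs hC

theorem mem_of_conj_mem {g : G} (h : g * τ * g⁻¹ ∈ FixedPoints.subgroup A G) : g ∈ FixedPoints.subgroup A G := by
  obtain ⟨c, hc, e⟩ := act_exists_fixed_conj_elem_eq hcop (.inl hs) (x := τ) (k := g)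
    (hC (mem_centralizer_singleton_iff.2 rfl)) h
  have h1 : c⁻¹ * g ∈ centralizer ({τ} : Set G) := mem_centralizer_singleton_iff.2 (by
    calc c⁻¹ * g * τ = c⁻¹ * (g * τ * g⁻¹) * g := by group
      _ = τ * (c⁻¹ * g) := by rw [← e]; group)
  simpa using mul_mem (show c ∈ FixedPoints.subgroup A G from hc) (hC h1)

theorem mem_of_conj_mem' {t g : G} (ht : IsConj τ t) (htF : t ∈ FixedPoints.subgroup A G)
    (h : g * t * g⁻¹ ∈ FixedPoints.subgroup A G) : g ∈ FixedPoints.subgroup A G := by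
  obtain ⟨f, rfl⟩ := isConj_iff.1 ht
  have h1 := mem_of_conj_mem hcop hs hC (g := g * f) (by rwa [show g * f * τ * (g * f)⁻¹ = g * (f * τ * f⁻¹) * g⁻¹ by group])
  simpa using mul_mem h1 (inv_mem (mem_of_conj_mem hcop hs hC htF))

include h2

theorem le_of_two {U : Subgroup G} (hU : IsPGroup 2 U) (hUA : ∀ a : A, ∀ x ∈ U, a • x ∈ U) :
    U ≤ FixedPoints.subgroup A G := by
  have hτ : τ ∈ FixedPoints.subgroup A G := hC (mem_centralizer_singleton_iff.2 rfl)
  have h1 : IsPGroup 2 (zpowers τ) := two_zpowers h2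
  obtain ⟨P, hP, hPA⟩ := act_exists_sylow_ge hcop (.inl hs) h1 fun a x hx => by
    rwa [show a • x = x from (zpowers_le.2 hτ : zpowers τ ≤ _) hx a]
  obtain ⟨Q, hQ, hQA⟩ := act_exists_sylow_ge hcop (.inl hs) hU hUA
  obtain ⟨c, hc, rfl⟩ := act_exists_fixed_smul_sylow_eq hcop (.inl hs) P Q hPA hQA
  have h3 : (P : Subgroup G) ≤ FixedPoints.subgroup A G := by
    by_contra h
    have := P.isPGroup'.isNilpotent
    obtain ⟨n, ⟨hn0, hn⟩, hn'⟩ := SetLike.exists_of_lt (lt_inf_normalizer_of_isNilpotent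
      (D := (P : Subgroup G) ⊓ FixedPoints.subgroup A G) (H := P) (inf_lt_left.2 h))
    refine hn' ⟨hn0, mem_of_conj_mem hcop hs hC ?_⟩
    exact ((mem_normalizer_iff.1 hn τ).1 ⟨hP (mem_zpowers τ), hτ⟩).2
  intro x hx
  obtain ⟨y, hy, rfl⟩ := hQ hx
  exact mul_mem (mul_mem (show c ∈ FixedPoints.subgroup A G from hc) (h3 hy)) (inv_mem (show c ∈ _ from hc))

/-- two conjugates of `τ` in one coset have the same fixed point -/
theorem mem_of_coset {t t' g g' : G} (ht : IsConj τ t) (htF : t ∈ FixedPoints.subgroup A G) (ht' : IsConj τ t')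
    (htF' : t' ∈ FixedPoints.subgroup A G)
    (h : (g * t * g⁻¹)⁻¹ * (g' * t' * g'⁻¹) ∈ FixedPoints.subgroup A G) : g⁻¹ * g' ∈ FixedPoints.subgroup A G := by
  have sq : ∀ {t g : G}, IsConj τ t → (g * t * g⁻¹) * (g * t * g⁻¹) = 1 := fun {t g} ht => by
    obtain ⟨f, rfl⟩ := isConj_iff.1 ht
    calc _ = g * f * (τ * τ) * (g * f)⁻¹ := by group
      _ = 1 := by rw [h2]; group
  have e3 := sq (g := g) ht
  have e4 := sq (g := g') ht'
  generalize hk : g * t * g⁻¹ = k at h e3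
  generalize hk' : g' * t' * g'⁻¹ = k' at h e4
  have e1 : k⁻¹ = k := inv_eq_of_mul_eq_one_right e3
  have e2 : k'⁻¹ = k' := inv_eq_of_mul_eq_one_right e4
  let D := zpowers (k⁻¹ * k')
  have hD : D ≤ FixedPoints.subgroup A G := zpowers_le.2 h
  have hkN : k ∈ normalizer (D : Set G) := by
    refine mem_normalizer_fintype fun x hx => ?_
    obtain ⟨i, rfl⟩ := hx
    change k * (k⁻¹ * k') ^ i * k⁻¹ ∈ D
    rw [← conj_zpow]
    refine zpow_mem ?_ i
    have : k * (k⁻¹ * k') * k⁻¹ = (k⁻¹ * k')⁻¹ := by rw [mul_inv_rev, e2, inv_inv, e1, ← mul_assoc, e3, one_mul]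
    rw [this]
    exact inv_mem (mem_zpowers _)
  have hNA : ∀ a : A, ∀ x ∈ normalizer (D : Set G), a • x ∈ normalizer (D : Set G) := fun a x hx => by
    refine mem_normalizer_fintype fun y hy => ?_
    have h1 := (mem_normalizer_iff.1 hx y).1 hy
    have h3 : a • x * y * (a • x)⁻¹ = a • (x * y * x⁻¹) := by
      rw [smul_mul', smul_mul', smul_inv', show a • y = y from hD hy a]
    rw [h3, show a • (x * y * x⁻¹) = _ from hD h1 a]
    exact h1
  obtain ⟨T, hT, -, hTA⟩ := act_exists_isSylowIn_ge (p := 2) hNA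
    (hcop.coprime_dvd_right (card_subgroup_dvd_card _)) (.inl hs) bot_le IsPGroup.of_bot
    fun a x hx => by rw [mem_bot.1 hx, smul_one]; exact one_mem _
  obtain ⟨n, hn, hle⟩ := hT.exists_conj_le (two_zpowers e3) (zpowers_le.2 hkN)
  have h5 : n * k * n⁻¹ ∈ FixedPoints.subgroup A G :=
    le_of_two hcop hs h2 hC hT.isPGroup hTA (hle (smul_mem_pointwise_smul _ _ _ (mem_zpowers k)))
  have h6 : n * g ∈ FixedPoints.subgroup A G :=
    mem_of_conj_mem' hcop hs hC ht htF (by rwa [show n * g * t * (n * g)⁻¹ = n * k * n⁻¹ by rw [← hk]; group])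
  have h7 := mul_mem (mul_mem (inv_mem h6) (hD ((mem_normalizer_iff.1 hn _).1 (mem_zpowers _)))) h6
  refine mem_of_conj_mem' hcop hs hC ht' htF' ?_
  convert mul_mem htF h7 using 1
  rw [← hk, ← hk']
  group

theorem mem_normalCore {t : G} (ht : IsConj τ t) (htF : t ∈ FixedPoints.subgroup A G) :
    τ⁻¹ * t ∈ (FixedPoints.subgroup A G).normalCore := by
  set F := FixedPoints.subgroup A G
  have key : ∀ t t' : G, IsConj τ t → t ∈ F → IsConj τ t' → t' ∈ F → ∀ ω : G ⧸ F,
      ω.out * (t⁻¹ * t') * ω.out⁻¹ ∈ F := by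
    intro t t' ht htF ht' htF' ω
    by_cases h : ω.out ∈ F
    · exact mul_mem (mul_mem h (mul_mem (inv_mem htF) htF')) (inv_mem h)
    have nm : ∀ {t : G}, IsConj τ t → t ∈ F → ∀ ω : G ⧸ F, ω.out ∉ F →
        ((ω.out * t * ω.out⁻¹ : G) : G ⧸ F).out ∉ F := fun {t} ht htF ω h h' => by
      obtain ⟨f, hf⟩ := QuotientGroup.mk_out_eq_mul F (ω.out * t * ω.out⁻¹)
      rw [hf] at h'
      exact h (mem_of_conj_mem' hcop hs hC ht htF ((mul_mem_cancel_right f.2).1 h'))
    let φ : {ω : G ⧸ F // ω.out ∉ F} → {ω : G ⧸ F // ω.out ∉ F} := fun ω =>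
      ⟨((ω.1.out * t' * ω.1.out⁻¹ : G) : G ⧸ F), nm ht' htF' _ ω.2⟩
    have hφ : Function.Injective φ := fun a b e => Subtype.ext (by
      rw [← a.1.out_eq', ← b.1.out_eq', QuotientGroup.eq]
      exact mem_of_coset hcop hs h2 hC ht' htF' ht' htF' (QuotientGroup.eq.1 (congrArg Subtype.val e)))
    obtain ⟨ω', e⟩ := Finite.surjective_of_injective hφ ⟨_, nm ht htF ω h⟩
    have e1 := QuotientGroup.eq.1 (congrArg Subtype.val e).symm
    have e2 : ω = ω'.1 := by
      rw [← ω.out_eq', ← ω'.1.out_eq', QuotientGroup.eq]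
      exact mem_of_coset hcop hs h2 hC ht htF ht' htF' e1
    rw [← e2] at e1
    convert e1 using 1
    group
  intro g
  obtain ⟨f, hf⟩ := QuotientGroup.mk_out_eq_mul F g
  have hτ : τ ∈ F := hC (mem_centralizer_singleton_iff.2 rfl)
  have c : ∀ x ∈ F, (f : G)⁻¹ * x * (f : G)⁻¹⁻¹ ∈ F := fun x hx =>
    mul_mem (mul_mem (inv_mem f.2) hx) (inv_mem (inv_mem f.2))
  convert key _ _ (isConj_iff.2 ⟨_, rfl⟩) (c τ hτ) (ht.trans (isConj_iff.2 ⟨_, rfl⟩)) (c t htF) g using 1
  rw [hf]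
  group

end

/-- Let G be a finite non-abelian simple group, τ an involution of G, and α a nontrivial automorphism of G whose order is coprime to the order of G. Then α moves some element of the centralizer of τ: α does not fix C_G(τ) elementwise. -/
theorem result {G : Type*} [Group G] [Finite G] [IsSimpleGroup G]
    (hG : ¬ IsMulCommutative G) (τ : G) (hτ : orderOf τ = 2) (α : MulAut G) (hα : α ≠ 1)
    (hcop : (orderOf α).Coprime (Nat.card G)) :
    ∃ c ∈ Subgroup.centralizer ({τ} : Set G), α c ≠ c := by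
  by_contra h
  push Not at h
  have : Finite (MulAut G) := Finite.of_injective _ (DFunLike.coe_injective (F := MulAut G))
  have hC : centralizer ({τ} : Set G) ≤ FixedPoints.subgroup (zpowers α) G := by
    rintro c hc ⟨_, i, rfl⟩
    change (α ^ i) c = c
    exact MulAction.mem_fixedBy.1 (MulAction.fixedBy_subset_fixedBy_zpow G α i (h c hc))
  refine CL.C2Low.not_isolated_of_simple hG τ ⟨hτ, fun g hg => ?_⟩
  have h1 := mem_normalCore (A := zpowers α) (by rwa [Nat.card_zpowers]) inferInstance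
    (by rw [← pow_two, ← hτ, pow_orderOf_eq_one]) hC (isConj_iff.2 ⟨g, rfl⟩)
    (hC (mem_centralizer_singleton_iff.2 hg.symm))
  rcases (FixedPoints.subgroup (zpowers α) G).normalCore_normal.eq_bot_or_eq_top with e | e
  · rw [e, mem_bot, inv_mul_eq_one] at h1
    exact h1.symm
  · refine absurd (MulEquiv.ext fun x => ?_) hα
    have h2 : x ∈ FixedPoints.subgroup (zpowers α) G := normalCore_le _ (e ▸ mem_top x)
    exact h2 ⟨α, mem_zpowers α⟩

end Cfsg.Agent.S3067
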