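import Cfsg.Statements.S3069
import Cfsg.Agent.S1991
import Cfsg.Agent.Grp.PNilp

set_option autoImplicit false
open Cfsg

namespace Cfsg.Agent.S3069

/-- Let p ≥ 7 be a prime and S a nontrivial Sylow p-subgroup of the finite group G. If N_G(S)/C_G(S) is a p-group (every element of N_G(S) of order prime to p centralizes S), then O^p(G) < G, i.e. G has a nontrivial p-factor group. -/
theorem result {G : Type*} [Group G] [Finite G] {p : ℕ} [Fact p.Prime]
    (hp : 7 ≤ p) (S : Sylow p G) (hS : (S : Subgroup G) ≠ ⊥)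
    (hN : ∀ g ∈ Subgroup.normalizer ((S : Subgroup G) : Set G), (orderOf g).Coprime p →
      g ∈ Subgroup.centralizer ((S : Subgroup G) : Set G)) :
    Cfsg.pResidual p G ≠ ⊤ := by
  obtain ⟨N, _, h⟩ := Cfsg.Agent.S1991.result (by omega) S hS hN
  intro e
  have h1 := CL.Grp.pResidual_le_of_index_eq_pow (p := p) (k := 1) (N := N) (by rw [h, pow_one])
  rw [e, top_le_iff] at h1
  rw [h1, Subgroup.index_top] at h
  omega

end Cfsg.Agent.S3069
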