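import Cfsg.Statements.S3074
import Cfsg.Agent.Loc.QdStruct
import Cfsg.Agent.Fus.SubGrp

set_option autoImplicit false
open Cfsg

namespace Cfsg.Agent.S3074

open CL.Loc Matrix in
theorem key (p : ℕ) [hp : Fact p.Prime] (h2 : p ≠ 2) : Nat.card (qdSyl (ZMod p)) = p ^ 3 ∧
    ¬ IsMulCommutative (qdSyl (ZMod p)) ∧ ∀ x : qdSyl (ZMod p), x ^ p = 1 := by
  have hm : ∀ (v : Fin 2 → ZMod p) (a : ZMod p), qdMk v (sl2Up a) ∈ qdSyl (ZMod p) := fun v a =>
    mem_qdSyl_iff.2 ⟨a, qdProj_mk _ _⟩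
  have hx : ∀ x : qdSyl (ZMod p), ∃ v a, x = ⟨_, hm v a⟩ := by
    rintro ⟨x, hx⟩
    obtain ⟨a, ha⟩ := mem_qdSyl_iff.1 hx
    obtain ⟨v, M, rfl⟩ := exists_qdMk x
    rw [qdProj_mk] at ha
    exact ⟨v, a, by subst ha; rfl⟩
  refine ⟨?_, fun h => ?_, fun x => ?_⟩
  · rw [← Nat.card_congr (Equiv.ofBijective
      (fun y : (Fin 2 → ZMod p) × ZMod p => (⟨_, hm y.1 y.2⟩ : qdSyl (ZMod p))) ⟨?_, ?_⟩)]
    · simp [pow_succ]
    · rintro ⟨v, a⟩ ⟨w, b⟩ e
      obtain ⟨h1, h3⟩ := qdMk_inj.1 (congrArg Subtype.val e)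
      exact Prod.ext h1 (sl2Up_injective h3)
    · intro x
      obtain ⟨v, a, rfl⟩ := hx x
      exact ⟨(v, a), rfl⟩
  · have := congrArg Subtype.val (h.1.1 ⟨_, hm 0 1⟩ ⟨_, hm ![0, 1] 0⟩)
    simp only [Subgroup.coe_mul, qdMk_mul, qdMk_inj] at this
    simpa [sl2Up_coe, mulVec, dotProduct] using congrFun this.1 0
  · obtain ⟨v, a, rfl⟩ := hx x
    have : ∀ n : ℕ, qdMk v (sl2Up a) ^ n =
        qdMk ![n * v 0 + (n.choose 2 : ℕ) * a * v 1, n * v 1] (sl2Up (n * a)) := by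
      intro n
      induction n with
      | zero =>
        rw [pow_zero, ← qdMk_one, qdMk_inj]
        exact ⟨by ext i; fin_cases i <;> simp, by simp [sl2Up_zero]⟩
      | succ n ih =>
        rw [pow_succ, ih, qdMk_mul, qdMk_inj, ← sl2Up_add]
        refine ⟨?_, by congr 1; push_cast; ring⟩
        ext i
        fin_cases i
        · simp [sl2Up_coe, mulVec, dotProduct, Nat.choose_succ_succ']; ring
        · simp [sl2Up_coe, mulVec, dotProduct]; ring
    apply Subtype.ext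
    rw [Subgroup.coe_pow, this, Subgroup.coe_one, ← qdMk_one, qdMk_inj]
    have h3 : ((p.choose 2 : ℕ) : ZMod p) = 0 := (ZMod.natCast_eq_zero_iff _ _).2
      (hp.out.dvd_choose_self (by norm_num) (lt_of_le_of_ne hp.out.two_le (Ne.symm h2)))
    exact ⟨by ext i; fin_cases i <;> simp [h3], by simp [sl2Up_zero]⟩

/-- Let p be an odd prime. A Sylow p-subgroup of Qd(p), the split extension of an elementary abelian group of order p² by SL₂(p) acting naturally, is extraspecial of order p³ and exponent p. -/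
theorem result (p : ℕ) [Fact p.Prime] (hp : p ≠ 2) (P : Sylow p ↥(Cfsg.qd p)) :
    Cfsg.IsExtraspecial p ↥P ∧ Nat.card P = p ^ 3 ∧ Monoid.exponent ↥P = p := by
  obtain ⟨h1, h2, h3⟩ := key p hp
  obtain ⟨g, hg⟩ := CL.Loc.exists_conj_eq_qdSyl (F := ZMod p) (p := p) P
  let e : ↥P ≃* CL.Loc.qdSyl (ZMod p) :=
    (Subgroup.equivSMul (MulAut.conj g)
      (show Subgroup (qdOver (ZMod p)) from (P : Subgroup (qd p)))).trans (MulEquiv.subgroupCongr hg)
  have hc : Nat.card P = p ^ 3 := (Nat.card_congr e.toEquiv).trans h1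
  have hn : ¬ IsMulCommutative P := fun h => h2 ⟨⟨fun x y => e.symm.injective (by
    rw [map_mul, map_mul]; exact h.1.1 _ _)⟩⟩
  refine ⟨CL.Fus.isExtraspecial_of_card_eq_cube hc hn, hc, ?_⟩
  have : Nontrivial P := by
    by_contra h
    rw [not_nontrivial_iff_subsingleton] at h
    exact hn ⟨⟨fun _ _ => Subsingleton.elim _ _⟩⟩
  refine ((Nat.dvd_prime Fact.out).1 (Monoid.exponent_dvd_of_forall_pow_eq_one fun x =>
    e.injective (by rw [map_pow, h3, map_one]))).resolve_left Monoid.one_lt_exponent.ne'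

end Cfsg.Agent.S3074
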