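import Cfsg.Statements.S3075
import Cfsg.Agent.Loc.SFour
import Cfsg.Agent.Loc.QuadNat
import Cfsg.Agent.Loc.FFPlane
import Cfsg.Agent.Grp.ThompsonReduction
import Cfsg.Agent.Grp.Coprime2

set_option autoImplicit false
open Cfsg

namespace Cfsg.Agent.S3075

/-- Let p be an odd prime and N a finite group with a normal elementary abelian subgroup A of order p² that is its own centralizer in N, such that N/A is isomorphic to SL₂(p) (over any field F with p elements). Then N splits over A: some subgroup U of N satisfies A ∩ U = 1 and AU = N. -/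
theorem result {N : Type*} [Group N] [Finite N] {p : ℕ} [Fact p.Prime] (hp : p ≠ 2)
    (A : Subgroup N) [A.Normal] (hAcomm : IsMulCommutative A) (hAcard : Nat.card A = p ^ 2) (hAexp : Monoid.exponent ↥A = p)
    (hAself : Subgroup.centralizer (A : Set N) = A)
    {F : Type*} [Field F] [Fintype F] (hF : Fintype.card F = p) (e : N ⧸ A ≃* Matrix.SpecialLinearGroup (Fin 2) F) :
    ∃ U : Subgroup N, A ⊓ U = ⊥ ∧ A ⊔ U = ⊤ := by
  open CL.Loc CL.Grp in
  have hpp : p.Prime := Fact.out
  have : Fact (Nat.Prime 2) := ⟨Nat.prime_two⟩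
  have : CharP F p := charP_of_card_eq_prime hF
  let π : N →* Matrix.SpecialLinearGroup (Fin 2) F := e.toMonoidHom.comp (QuotientGroup.mk' A)
  have hπ : Function.Surjective π := e.surjective.comp (QuotientGroup.mk'_surjective A)
  have hk : ∀ x, π x = 1 ↔ x ∈ A := fun x =>
    (map_eq_one_iff e e.injective).trans (QuotientGroup.eq_one_iff x)
  have hA : IsPGroup p A := IsPGroup.of_card hAcard
  obtain ⟨t₀, ht₀⟩ := hπ (-1)
  obtain ⟨m, k, hm, hkm⟩ := exists_coprime_pow_pElt Nat.prime_two t₀
  have ht : π (t₀ ^ m) = -1 := by rw [map_pow, ht₀, (Nat.odd_iff.2 (by omega) : Odd m).neg_one_pow]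
  generalize t₀ ^ m = t at ht hkm
  have hT := isPGroup_zpowers_of_pElt hkm
  set T := Subgroup.zpowers t with hTd
  have hcop : (Nat.card T).Coprime (Nat.card A) := IsPGroup.coprime_card_of_ne 2 p hp.symm _ _ hT hA
  have hTA : T ≤ Subgroup.normalizer (A : Set N) := Subgroup.le_normalizer_of_normal
  have hS : IsSylowIn 2 T (T ⊔ A) := isSylowIn_sup_of_coprime hT (by
    rw [hAcard]; exact ((Nat.coprime_primes hpp Nat.prime_two).2 hp).pow_left 2) hTA
  have hn : (⊤ : Subgroup N) ≤ Subgroup.normalizer ((T ⊔ A : Subgroup N) : Set N) := fun g _ =>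
    Subgroup.mem_normalizer_fintype fun x hx => by
      obtain ⟨_, ⟨n, rfl⟩, a, ha, rfl⟩ := (mem_sup_iff_of_le_normalizer' hTA).1 hx
      have h1 : (t ^ n)⁻¹ * (g * (t ^ n * a) * g⁻¹) ∈ A := by
        rw [← hk]
        have : Commute (π g) ((-1) ^ n) := (Commute.neg_one_right _).zpow_right n
        simp only [map_mul, map_inv, map_zpow, ht, (hk a).2 ha, mul_one, this.eq]
        group
      simpa using Subgroup.mul_mem_sup (Subgroup.zpow_mem_zpowers t n) h1
  have hU : ∀ g : N, ∃ a ∈ A, ∃ u ∈ Subgroup.normalizer (T : Set N), g = a * u := fun g => by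
    obtain ⟨n, hn1, hn2⟩ := hS.frattini hn (Subgroup.mem_top g)
    obtain ⟨s, hs, a, ha, rfl⟩ := (mem_sup_iff_of_le_normalizer' hTA).1 hn1
    exact ⟨a⁻¹, inv_mem ha, _, mul_mem (inv_mem (Subgroup.le_normalizer hs)) hn2, by group⟩
  refine ⟨Subgroup.normalizer (T : Set N), ?_, eq_top_iff.2 fun g _ => ?_⟩
  · rw [inf_normalizer_eq_inf_centralizer_of_disjoint hTA
      (Subgroup.disjoint_of_coprime_natCard hcop)]
    by_contra hne
    obtain ⟨g, hg⟩ := hπ (sl2Up 1)
    obtain ⟨a, ha, u, hu, rfl⟩ := hU g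
    rw [map_mul, (hk a).2 ha, one_mul] at hg
    obtain ⟨m, k, hm, hkm⟩ := exists_coprime_pow_pElt hpp u
    have key : ∀ W : Subgroup N, W ≤ A → W ≠ A → u ^ m ∈ Subgroup.normalizer (W : Set N) →
        u ^ m ∈ Subgroup.centralizer (W : Set N) := by
      intro W h1 h2 h3
      obtain ⟨j, hj, hc⟩ := (Nat.dvd_prime_pow hpp).1 (hAcard ▸ Subgroup.card_dvd_of_le h1)
      interval_cases j
      · rw [Subgroup.eq_bot_of_card_eq W (by simpa using hc), centralizer_bot_eq]; trivial
      · exact le_centralizer_of_card_prime (isPGroup_zpowers_of_pElt hkm) (Subgroup.zpowers_le.2 h3)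
          (by simpa using hc) (Subgroup.mem_zpowers _)
      · exact absurd (Subgroup.eq_of_le_of_card_ge h1 (by rw [hc, hAcard])) h2
    have hz : Subgroup.zpowers (u ^ m) ≤ Subgroup.normalizer (T : Set N) :=
      Subgroup.zpowers_le.2 (pow_mem hu m)
    have h1 := key ⁅A, T⁆ (Subgroup.commutator_le_left _ _) (fun e => hne (by
      have := inf_centralizer_inf_commutator_eq_bot hTA hcop
      rwa [e, inf_eq_left.2 inf_le_left] at this))
      (le_normalizer_commutator' Subgroup.le_normalizer_of_normal hz (Subgroup.mem_zpowers _))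
    have h2 := key (A ⊓ Subgroup.centralizer (T : Set N)) inf_le_left (fun e => by
      have h3 : t ∈ A := hAself ▸ Subgroup.le_centralizer_iff.1 (inf_eq_left.1 e)
        (Subgroup.mem_zpowers t)
      rw [← hk, ht] at h3
      have h4 := congrArg (fun M : Matrix.SpecialLinearGroup (Fin 2) F => M.1 0 0) h3
      have h5 : ((2 : ℕ) : F) = 0 := by
        simp at h4; push_cast; linear_combination -h4
      exact hp ((Nat.prime_dvd_prime_iff_eq hpp Nat.prime_two).1 ((CharP.cast_eq_zero_iff F p 2).1 h5)))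
      (CL.Grp.le_normalizer_inf' Subgroup.le_normalizer_of_normal
        (CL.Grp.le_normalizer_centralizer' hz)
        (Subgroup.mem_zpowers _))
    have h3 : u ^ m ∈ A := by
      rw [← hAself, ← commutator_sup_centralizer_eq hTA hcop (Or.inl inferInstance),
        centralizer_sup_eq]
      exact ⟨h1, h2⟩
    rw [← hk, map_pow, hg, sl2Up_pow, sl2Up_eq_one_iff, mul_one] at h3
    exact hm ((CharP.cast_eq_zero_iff F p m).1 h3)
  · obtain ⟨a, ha, u, hu, rfl⟩ := hU g
    exact Subgroup.mul_mem_sup ha hu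

end Cfsg.Agent.S3075
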