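import Cfsg.Statements.S3076
import Cfsg.Agent.Loc.PConstr
import Cfsg.Agent.Grp.PNilp
import Cfsg.Agent.Even.CharP

set_option autoImplicit false
open Cfsg

namespace Cfsg.Agent.S3076

open CL.Grp CL.Loc Cfsg Subgroup

theorem le_comap_pCore {N : Type*} [Group N] {p : ℕ} {X K : Subgroup N} [hX : X.Normal] [K.Normal]
    (h : ∀ x ∈ X, ∃ k : ℕ, x ^ p ^ k ∈ K) :
    X ≤ (pCore p (N ⧸ K)).comap (QuotientGroup.mk' K) := by
  rw [← map_le_iff_le_comap]
  haveI := hX.map (QuotientGroup.mk' K) (QuotientGroup.mk'_surjective K)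
  refine le_pCore ?_
  rintro ⟨_, x, hx, rfl⟩
  obtain ⟨k, hk⟩ := h x hx
  refine ⟨k, Subtype.ext ?_⟩
  change (QuotientGroup.mk' K x) ^ p ^ k = 1
  rw [← map_pow]
  exact (QuotientGroup.eq_one_iff _).2 hk

theorem pow_mem_of_mem {N : Type*} [Group N] {p : ℕ} {K : Subgroup N} [K.Normal] {x : N}
    (h : x ∈ (pCore p (N ⧸ K)).comap (QuotientGroup.mk' K)) : ∃ k : ℕ, x ^ p ^ k ∈ K := by
  obtain ⟨k, hk⟩ := pCore_isPGroup p (N ⧸ K) ⟨_, h⟩
  refine ⟨k, (QuotientGroup.eq_one_iff _).1 ?_⟩
  have := congrArg Subtype.val hk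
  change (QuotientGroup.mk' K x) ^ p ^ k = 1 at this
  rw [← map_pow] at this
  exact this

theorem key {N : Type*} [Group N] [Finite N] {p : ℕ} [hp : Fact p.Prime] {H S C : Subgroup N}
    [H.Normal] [C.Normal] (hC : C = centralizer (H : Set N)) (hS : IsSylowIn p S ⊤) (hHS : H ≤ S) :
    (H ≤ (pCore p (N ⧸ C)).comap (QuotientGroup.mk' C) ∧
      ¬ p ∣ H.relIndex ((pCore p (N ⧸ C)).comap (QuotientGroup.mk' C))) ↔
    (S ⊓ C ≤ H ∧ pPrimePCore p N = H ⊔ C) := by
  have hH : IsPGroup p H := hS.isPGroup.to_le hHS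
  set M := (pCore p (N ⧸ C)).comap (QuotientGroup.mk' C) with hM
  have hHM : H ≤ M := le_comap_pCore fun x hx => by
    obtain ⟨k, hk⟩ := hH ⟨x, hx⟩
    refine ⟨k, ?_⟩
    have := congrArg Subtype.val hk
    change x ^ p ^ k = 1 at this
    rw [this]; exact one_mem _
  have hCM : C ≤ M := le_comap_pCore fun x hx => ⟨0, by simpa using hx⟩
  have hOC : pPrimeCore p N ≤ C := by
    rw [hC]
    exact pPrimeCore_le_centralizer_pCore.trans (centralizer_le (by exact_mod_cast le_pCore hH))
  constructor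
  · rintro ⟨-, h⟩
    have hSyl : IsSylowIn p H M := ⟨hHM, hH, h⟩
    have h1 : S ⊓ C ≤ H := by
      have := hSyl.eq_of_le (U := H ⊔ S ⊓ C) (hS.isPGroup.to_le (sup_le hHS inf_le_left))
        le_sup_left (sup_le hHM (inf_le_right.trans hCM))
      exact le_sup_right.trans this.le
    have h2 : H ⊔ C = M := by
      have h3 := isSylowIn_map hSyl (QuotientGroup.mk' C)
      rw [hM, map_comap_eq_self_of_surjective (QuotientGroup.mk'_surjective C)] at h3
      have h4 := congrArg (comap (QuotientGroup.mk' C))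
        (isSylowIn_eq_of_isPGroup h3 (pCore_isPGroup p _))
      rwa [comap_map_eq, QuotientGroup.ker_mk'] at h4
    refine ⟨h1, le_antisymm ?_ (sup_le ((le_pCore hH).trans pCore_le_pPrimePCore) ?_)⟩
    · rw [h2]
      refine le_comap_pCore fun x hx => ?_
      obtain ⟨k, hk⟩ := pow_mem_of_mem hx
      exact ⟨k, hOC hk⟩
    · have h5 : IsSylowIn p (H ⊓ C) C :=
        hSyl.inf_of_normalized hCM (by rw [normalizer_eq_top]; exact le_top)
      have h6 : HasNormalPComplement p C := by
        refine hasNormalPComplement_of_sylow_le_center h5.toSylow ?_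
        intro x hx
        rw [mem_center_iff]
        intro g
        have hg : (g : N) ∈ centralizer (H : Set N) := hC ▸ g.2
        exact Subtype.ext (mem_centralizer_iff.1 hg x (mem_subgroupOf.1 hx).1).symm
      have h7 : (pResidual p C).map C.subtype ≤ pPrimeCore p N := by
        refine le_pPrimeCore ?_
        rw [card_map_subtype]
        exact hasNormalPComplement_iff_coprime_pResidual.1 h6
      refine le_comap_pCore fun x hx => ?_
      obtain ⟨k, hk⟩ := exists_pow_orderOf_coprime hp.out (⟨x, hx⟩ : C)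
      exact ⟨k, h7 ⟨_, mem_pResidual_of_coprime hk, rfl⟩⟩
  · rintro ⟨h1, h2⟩
    refine ⟨hHM, ?_⟩
    have h3 : M = H ⊔ C := by
      refine le_antisymm ?_ (sup_le hHM hCM)
      rw [← h2]
      refine le_comap_pCore fun x hx => ?_
      obtain ⟨k, hk⟩ := pow_mem_of_mem hx
      have : x ^ p ^ k ∈ pPrimePCore p N := h2 ▸ mem_sup_right hk
      obtain ⟨l, hl⟩ := pow_mem_of_mem this
      exact ⟨k + l, by rwa [pow_add, pow_mul]⟩
    have h4 : IsSylowIn p (S ⊓ M) M :=
      hS.inf_of_normalized le_top (by rw [normalizer_eq_top])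
    have h5 : S ⊓ M = H := by
      refine le_antisymm ?_ (le_inf hHS hHM)
      rintro x ⟨hxS, hxM⟩
      rw [h3] at hxM
      obtain ⟨h, hh, c, hc, rfl⟩ := mem_sup_of_normal_right.1 hxM
      exact mul_mem hh (h1 ⟨(mul_mem_cancel_left (hHS hh)).1 hxS, hc⟩)
    rw [h5] at h4
    exact h4.not_dvd


/-- Let P be a Sylow p-subgroup of the finite group G and H ≤ P a subgroup with N_P(H) a Sylow p-subgroup of N_G(H). Let N be the preimage in N_G(H) of O_p(N_G(H)/C_G(H)). Then H is a Sylow p-subgroup of N if and only if C_P(H) ≤ H and O_{p',p}(N_G(H)) = H·C_G(H). -/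
theorem result {G : Type*} [Group G] [Finite G] {p : ℕ} [Fact p.Prime]
    (P : Sylow p G) (H : Subgroup G) (hHP : H ≤ (P : Subgroup G))
    (hSyl : ¬ p ∣ ((P : Subgroup G) ⊓ Subgroup.normalizer (H : Set G)).relIndex (Subgroup.normalizer (H : Set G)))
    [hC : ((Subgroup.centralizer (H : Set G)).subgroupOf (Subgroup.normalizer (H : Set G))).Normal] :
    (H ≤ ((Cfsg.pCore p (↥(Subgroup.normalizer (H : Set G)) ⧸
              (Subgroup.centralizer (H : Set G)).subgroupOf (Subgroup.normalizer (H : Set G)))).comap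
            (QuotientGroup.mk' _)).map (Subgroup.normalizer (H : Set G)).subtype ∧
      ¬ p ∣ H.relIndex (((Cfsg.pCore p (↥(Subgroup.normalizer (H : Set G)) ⧸
              (Subgroup.centralizer (H : Set G)).subgroupOf (Subgroup.normalizer (H : Set G)))).comap
            (QuotientGroup.mk' _)).map (Subgroup.normalizer (H : Set G)).subtype)) ↔
    ((P : Subgroup G) ⊓ Subgroup.centralizer (H : Set G) ≤ H ∧
      (Cfsg.pPrimePCore p ↥(Subgroup.normalizer (H : Set G))).map (Subgroup.normalizer (H : Set G)).subtype =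
        H ⊔ Subgroup.centralizer (H : Set G)) := by
  set N := normalizer (H : Set G) with hN
  have hHN : H ≤ N := le_normalizer
  have hCN : centralizer (H : Set G) ≤ N := centralizer_le_normalizer _
  have hS : IsSylowIn p (((P : Subgroup G) ⊓ N).subgroupOf N) ⊤ := by
    refine ⟨le_top, (P.2.to_le inf_le_left).comap_subtype, ?_⟩
    rw [relIndex_top_right]
    exact hSyl
  haveI : (H.subgroupOf N).Normal := normal_in_normalizer
  have h := key (H := H.subgroupOf N) (C := (centralizer (H : Set G)).subgroupOf N)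
    (CL.Even.cent_subgroupOf hHN).symm hS (comap_mono (le_inf hHP hHN))
  have hH : (H.subgroupOf N).map N.subtype = H := by
    rw [subgroupOf_map_subtype, inf_eq_left.2 hHN]
  have hC' : ((centralizer (H : Set G)).subgroupOf N).map N.subtype = centralizer (H : Set G) := by
    rw [subgroupOf_map_subtype, inf_eq_left.2 hCN]
  have e1 : ∀ X : Subgroup N, H ≤ X.map N.subtype ↔ H.subgroupOf N ≤ X := fun X => by
    rw [← map_le_map_iff_of_injective N.subtype_injective, hH]
  have e2 : ∀ X : Subgroup N, H.relIndex (X.map N.subtype) = (H.subgroupOf N).relIndex X := fun X => by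
    rw [← relIndex_map_map_of_injective _ _ N.subtype_injective, hH]
  have e3 : ∀ X : Subgroup N, X.map N.subtype = H ⊔ centralizer (H : Set G) ↔
      X = H.subgroupOf N ⊔ (centralizer (H : Set G)).subgroupOf N := fun X => by
    rw [← (map_injective N.subtype_injective).eq_iff, Subgroup.map_sup, hH, hC']
  refine Iff.trans ?_ (h.trans ?_)
  · exact and_congr (e1 _) (not_congr (by rw [← e2]))
  · refine and_congr ?_ ?_
    · constructor
      · rintro h1 x ⟨hxP, hxC⟩
        exact h1 (x := ⟨x, hCN hxC⟩) ⟨⟨hxP, hCN hxC⟩, hxC⟩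
      · rintro h1 x ⟨hxP, hxC⟩
        exact h1 ⟨hxP.1, hxC⟩
    · exact (e3 _).symm

end Cfsg.Agent.S3076
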