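import Cfsg.Statements.S3087
import Cfsg.Agent.Even.PMin2

set_option autoImplicit false
open Cfsg

namespace Cfsg.Agent.S3087

/-- Let p be a prime, G a finite group acting linearly on a finite vector space V over the field with p elements, W a G-invariant subspace, and A a subgroup of G with |A|·|C_V(A)| ≥ |B|·|C_V(B)| for every subgroup B of A. Then |A|·|C_W(A)| ≥ |B|·|C_W(B)| for every subgroup B of A that contains C_A(W); that is, the image of A in the group induced on W satisfies the same maximality condition. -/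
theorem result {G V : Type*} [Group G] [Finite G] [AddCommGroup V] [Finite V] (p : ℕ) [Fact p.Prime] [Module (ZMod p) V]
    (ρ : Representation (ZMod p) G V) (W : Submodule (ZMod p) V) (hW : ∀ g : G, ∀ w ∈ W, ρ g w ∈ W)
    (A : Subgroup G)
    (hP : ∀ B : Subgroup G, B ≤ A →
      Nat.card ↥B * Nat.card {v : V // ∀ b ∈ B, ρ b v = v} ≤ Nat.card ↥A * Nat.card {v : V // ∀ a ∈ A, ρ a v = v})
    (B : Subgroup G) (hBA : B ≤ A) (hCB : ∀ a ∈ A, (∀ w ∈ W, ρ a w = w) → a ∈ B) :
    Nat.card ↥B * Nat.card {w : W // ∀ b ∈ B, ρ b w = w} ≤ Nat.card ↥A * Nat.card {w : W // ∀ a ∈ A, ρ a w = w} := by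
  open Subgroup CL.Even CL.Grp commutatorElement in
  let C : Subgroup G → AddSubgroup V := fun X =>
    { carrier := {v | ∀ b ∈ X, ρ b v = v}
      zero_mem' := fun _ _ => map_zero _
      add_mem' := fun h1 h2 b hb => by rw [map_add, h1 b hb, h2 b hb]
      neg_mem' := fun h1 b hb => by rw [map_neg, h1 b hb] }
  have e1 : ∀ X : Subgroup G, Nat.card {w : W // ∀ b ∈ X, ρ b w = w} =
      Nat.card (C X ⊓ W.toAddSubgroup : AddSubgroup V) := fun X => Nat.card_congr
    ⟨fun w => ⟨w.1, w.2, w.1.2⟩, fun w => ⟨⟨w.1, w.2.2⟩, w.2.1⟩, fun _ => rfl, fun _ => rfl⟩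
  have h1 : Nat.card B * Nat.card (C B) ≤ Nat.card A * Nat.card (C A) := hP B hBA
  have h2 : C A ≤ C B := fun v hv b hb => hv b (hBA hb)
  have h3 : Nat.card (C A ⊔ C B ⊓ W.toAddSubgroup : AddSubgroup V) * Nat.card
      (C A ⊓ W.toAddSubgroup : AddSubgroup V) = Nat.card (C A) *
      Nat.card (C B ⊓ W.toAddSubgroup : AddSubgroup V) := by
    have := card_sup_mul_card_inf_of_normal (G := Multiplicative V) (C A).toSubgroup
      (C B ⊓ W.toAddSubgroup).toSubgroup
    rw [← SupHomClass.map_sup, ← InfHomClass.map_inf, ← inf_assoc, inf_eq_left.mpr h2] at this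
    exact this
  have h4 : Nat.card (C A ⊔ C B ⊓ W.toAddSubgroup : AddSubgroup V) ≤ Nat.card (C B) :=
    AddSubgroup.card_le_of_le (sup_le h2 inf_le_left)
  rw [e1, e1]
  refine Nat.le_of_mul_le_mul_right ?_ (Nat.card_pos (α := C A))
  calc _ = Nat.card B * (Nat.card (C A) * Nat.card (C B ⊓ W.toAddSubgroup : AddSubgroup V)) := by ring
    _ ≤ Nat.card B * (Nat.card (C B) * Nat.card (C A ⊓ W.toAddSubgroup : AddSubgroup V)) := by
      rw [← h3]; gcongr
    _ ≤ Nat.card A * Nat.card (C A) * Nat.card (C A ⊓ W.toAddSubgroup : AddSubgroup V) := by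
      rw [← mul_assoc]; gcongr
    _ = _ := by ring

end Cfsg.Agent.S3087
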