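import Cfsg.Statements.S3144
import Cfsg.Agent.TE.O8S4
import Cfsg.Agent.S2098
import Cfsg.Agent.S0817
-- import your own Cfsg.Agent.* helpers here

set_option autoImplicit false
open Cfsg

namespace Cfsg.Agent.S3144

/-- Let G be a finite group with no nontrivial normal subgroup of odd order and L a standard subgroup of G which is a double cover of the simple orthogonal group PΩ⁺ of dimension 8 over the field with 2 elements (the centre of L has order 2 and L modulo its centre is isomorphic to that group), and suppose the centralizer of L in G has cyclic Sylow 2-subgroups. Then L is normal in G. -/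
theorem result {G : Type*} [Group G] [Finite G] (hO : Cfsg.oddCore G = ⊥) (L : Subgroup G) (hL : Cfsg.IsStandardSubgroup L)
    {F : Type*} [Field F] [Fintype F] (hF : Fintype.card F = 2)
    (hZ : Nat.card ↥(Subgroup.center ↥L) = 2) (hLX : Nonempty ((↥L ⧸ Subgroup.center ↥L) ≃* Cfsg.POmega F (Cfsg.quadFormPlus 4 F)))
    (hR : ∀ R : Sylow 2 ↥(Subgroup.centralizer (L : Set G)), IsCyclic ↥(R : Subgroup ↥(Subgroup.centralizer (L : Set G)))) :
    L.Normal := by
  obtain ⟨e⟩ := CL.Std.O8p2.iso hF
  have hq : Nat.card (Cfsg.POmega F (Cfsg.quadFormPlus 4 F)) = 174182400 :=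
    CL.PG.card_po_plus hF 3 (by norm_num) (by decide +kernel)
  have : Finite (Cfsg.Omega F (Cfsg.quadFormPlus 4 F)) := Finite.of_equiv _ e.toEquiv
  have hb := (Nat.bijective_iff_surjective_and_card _).2 ⟨QuotientGroup.mk'_surjective
    (Subgroup.center (Cfsg.Omega F (Cfsg.quadFormPlus 4 F))), by
      rw [← Nat.card_congr e.toEquiv, CL.Std.O8p2.card]; exact hq.symm⟩
  have f : CL.O8S.HH ≃* Cfsg.POmega F (Cfsg.quadFormPlus 4 F) := e.trans (MulEquiv.ofBijective _ hb)
  refine CL.O8S.normal hO hL hR hZ (hLX.some.trans f.symm)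
    (CL.Schur.HasSM.congr_left (Cfsg.Agent.S2098.result hF) f.symm) ?_
  rw [Nat.card_congr (MulAut.congr f).toEquiv, Nat.card_congr f.toEquiv]
  simpa using Cfsg.Agent.S0817.result (F := F) 2 1 le_rfl hF 4 le_rfl

end Cfsg.Agent.S3144
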