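import Cfsg.Statements.S3149
import Cfsg.Agent.TE.RuD
import Cfsg.Agent.Known.GRuIn

set_option autoImplicit false
open Cfsg CL.Pc CL.TE.Px CL.TE.Ru2

namespace Cfsg.Agent.S3149

/-- Let G be a finite group with no nontrivial normal subgroup of odd order and A a standard subgroup of G which is a double cover of the Rudvalis group (the centre of A has order 2 and A modulo its centre is isomorphic to the Rudvalis group). If the centralizer of A in G has cyclic Sylow 2-subgroups, then A is normal in G. -/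
theorem result {G : Type*} [Group G] [Finite G] (hO : Cfsg.oddCore G = ⊥) (A : Subgroup G) (hA : Cfsg.IsStandardSubgroup A)
    (hZ : Nat.card ↥(Subgroup.center ↥A) = 2) (hAX : Cfsg.Spor.IsoRu (↥A ⧸ Subgroup.center ↥A))
    (hR : ∀ R : Sylow 2 ↥(Subgroup.centralizer (A : Set G)), IsCyclic ↥(R : Subgroup ↥(Subgroup.centralizer (A : Set G)))) : A.Normal := by
  obtain ⟨e⟩ := hAX
  obtain ⟨x, h⟩ := CL.Pc.GRu.full CL.Pc.GRu.input
  have := h.fin
  have a := h.alph.subW CL.Pc.GRu.P2.W 25 17 (by decide +kernel)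
  have w1 := CL.Pc.GRu.P2.w1
  have f0 := CL.Pc.GRu.P2.f0
  have f1 := CL.Pc.GRu.P2.f1
  have f2 := CL.Pc.GRu.P2.f2
  have ch := CL.Pc.GRu.P2.ch_ok
  rw [lazyA_eq] at w1 f0 f1 f2 ch
  have H0 := holds_of_chk (D := CL.Pc.GRu.P2.D) (fun u v => a.eqB_sound h.isBase u v) a.1 (by decide) (by decide)
    (by decide) (cover_step w1 (cover_end (by decide)))
    (show ∀ k < 3, _ from below_step f2 (below_step f1 (below_step f0 below_end)))
  have H : Holds D _ _ := ⟨H0.1, H0.2, H0.3, H0.4⟩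
  have wf : wfChk D.n D.rel = true := CL.Pc.GRu.P2.checks.wf
  have hle : 2 ^ D.n ≤ _ := a.le_card_genP (n := 14) (by decide) h.inj (by decide +kernel) ch
  obtain ⟨ζ, hζ1, hζ⟩ := (Nat.card_eq_two_iff' (1 : Subgroup.center A)).1 hZ
  let τ : A →* CL.Pc.GRu.H := (e.trans CL.Pc.GRu.iso.symm).toMonoidHom.comp (QuotientGroup.mk' _)
  have hτ : DC τ ζ _ D.n := ⟨(e.trans CL.Pc.GRu.iso.symm).surjective.comp (QuotientGroup.mk'_surjective _),
    fun y => by
      rw [show τ y = 1 ↔ y ∈ Subgroup.center A from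
        (MulEquiv.map_eq_one_iff (e.trans CL.Pc.GRu.iso.symm)).trans (QuotientGroup.eq_one_iff y)]
      refine ⟨fun hy => ?_, fun hy => hy.elim (fun h => h ▸ one_mem _) fun h => h ▸ ζ.2⟩
      by_cases h1 : (⟨y, hy⟩ : Subgroup.center A) = 1
      exacts [.inl (congrArg Subtype.val h1), .inr (congrArg Subtype.val (hζ _ h1))],
    fun h => hζ1 (Subtype.ext h), ζ.2, by rw [hA.1.1.commutator_eq_top]; trivial, hle,
    IsPGroup.of_card ((card_genP_le (by decide) (by decide) wf H).antisymm hle), by rw [h.card]; decide⟩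
  have hm := msk_ok
  simp only [Bool.and_eq_true, CL.Spor.allL_iff, Nat.beq_eq] at hm
  obtain ⟨c, hc, b, L, hz, hb⟩ := hτ.exists_pl params rfl rfl rfl H wf ((CL.Spor.allL_iff _ _).1 rels_ok)
    (cover_step goals_ok (cover_end (by decide))) (by decide) (cs := [(msk, rel)])
    (fun c hc => by rw [List.mem_singleton.1 hc]; exact ⟨by decide, hm.1.1.1, hm.1.1.2, hm.1.2⟩)
    (fun f => by
      obtain ⟨κ, hκ⟩ : ∃ κ, S.kap = [κ] := ⟨_, rfl⟩
      cases k : f κ.1
      · exact .inl fun κ' h' => by rw [hκ, List.mem_singleton] at h'; rw [h', k]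
      · exact .inr ⟨_, List.mem_singleton_self _, fun κ' h' => by
          rw [hm.2 _ h']; rw [hκ, List.mem_singleton] at h'; rw [h', k]; rfl⟩)
  rw [List.mem_singleton.1 hc] at L
  exact CL.TE.normal_of_cen hO hA hR hZ ((card_out_congr e).trans CL.Pc.GRu.out) ζ.2 hτ.ne
    (hτ.cen_of H L hz hb (m := 13) rfl (by decide) hm.1.1.2 sq_ok ((CL.Spor.allL_iff _ _).1 cjs_ok) grw_ok
      (by rw [c1, c2]; decide) (by rw [c3, c2]; decide))

end Cfsg.Agent.S3149
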