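import Cfsg.Statements.S3155
import Cfsg.Agent.Base

set_option autoImplicit false
open Cfsg

namespace Cfsg.Agent.S3155

/-- Let B be the direct product of three cyclic groups of order 4. Then the automorphism of B inverting every element is not the square of any automorphism of B. -/
theorem result {B : Type*} [CommGroup B] [Finite B] (hB : Nonempty (B ≃* Multiplicative (ZMod 4 × ZMod 4 × ZMod 4)))
    (τ : B ≃* B) : τ.trans τ ≠ MulEquiv.inv B := by
  intro h
  obtain ⟨e⟩ := hB
  let σ : Multiplicative (ZMod 4 × ZMod 4 × ZMod 4) ≃* Multiplicative (ZMod 4 × ZMod 4 × ZMod 4) :=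
    (e.symm.trans τ).trans e
  let f : (ZMod 4 × ZMod 4 × ZMod 4) →ₗ[ZMod 4] (ZMod 4 × ZMod 4 × ZMod 4) :=
    AddMonoidHom.toZModLinearMap 4 (AddEquiv.toMultiplicative.symm σ).toAddMonoidHom
  have hf : f ∘ₗ f = (-1 : ZMod 4) • LinearMap.id := by
    apply LinearMap.ext
    intro v
    have h1 : τ (τ (e.symm (Multiplicative.ofAdd v))) = (e.symm (Multiplicative.ofAdd v))⁻¹ :=
      DFunLike.congr_fun h _
    show Multiplicative.toAdd (e (τ (e.symm (e (τ (e.symm (Multiplicative.ofAdd v))))))) = _
    rw [e.symm_apply_apply, h1, map_inv, e.apply_symm_apply]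
    simp
  have hd := congrArg LinearMap.det hf
  rw [LinearMap.det_comp, LinearMap.det_smul, LinearMap.det_id] at hd
  have hr : Module.finrank (ZMod 4) (ZMod 4 × ZMod 4 × ZMod 4) = 3 := by
    have : Fact (1 < 4) := ⟨by norm_num⟩
    rw [Module.finrank_prod, Module.finrank_prod, Module.finrank_self]
  rw [hr] at hd
  generalize LinearMap.det f = d at hd
  revert d
  decide

end Cfsg.Agent.S3155
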