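import Cfsg.Statements.S3156
import Cfsg.Agent.Inv.U3Aut

set_option autoImplicit false
open Cfsg

namespace Cfsg.Agent.S3156

/-- If a finite group T is isomorphic to a Sylow 2-subgroup of the projective special unitary group of dimension 3 with parameter 4 (realised over the field with 16 elements), then no subgroup of the automorphism group of T is isomorphic to the symmetric group of degree 3. -/
theorem result {T : Type*} [Group T] [Finite T] (hT : (∃ (F : Type) (_ : Field F) (_ : Fintype F), Fintype.card F = 16 ∧ ∃ S : Sylow 2 (Cfsg.PSU 3 F 4), Nonempty (T ≃* ↥(S : Subgroup (Cfsg.PSU 3 F 4))))) (H : Subgroup (MulAut T)) : ¬ Nonempty (↥H ≃* Equiv.Perm (Fin 3)) := by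
  obtain ⟨F, _, _, hF, P, ⟨e⟩⟩ := hT
  have hF' : Fintype.card F = 4 ^ 2 := hF
  have : CharP F 2 := CL.Chev.U3.charP_two_of_card (n := 4) hF
  obtain ⟨f⟩ := (CL.Chev.U3.modelPSU hF').nonempty_sylow_equiv P
  rintro ⟨k⟩
  let g := (MulAut.congr (e.trans f.symm)).toMonoidHom.comp (H.subtype.comp k.symm.toMonoidHom)
  have hg : Function.Injective g :=
    (MulAut.congr (e.trans f.symm)).injective.comp (H.subtype_injective.comp k.symm.injective)
  have := CL.U3Aut.eq_one_of_inverted (S := (CL.Chev.U3.modelPSU hF').toUF) rfl (r := g (finRotate 3))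
    (t := g (Equiv.swap 0 1)) (by rw [← map_pow, show finRotate 3 ^ 3 = 1 by decide, map_one])
    (by rw [← map_pow, show Equiv.swap (0 : Fin 3) 1 ^ 2 = 1 by decide, map_one])
    (by rw [← map_inv, ← map_inv, ← map_mul, ← map_mul]; congr 1; decide)
  exact absurd ((map_eq_one_iff g hg).1 this) (by decide)

end Cfsg.Agent.S3156
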