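import Cfsg.Statements.S3162
import Cfsg.Agent.Inv.U3Aut

set_option autoImplicit false
open Cfsg

namespace Cfsg.Agent.S3162

/-- Let S be a Sylow 2-subgroup of the special unitary group of dimension 3 with parameter q = 2^n (n ≥ 2; realised over the field with q² elements). Then the largest normal 2-subgroup of the automorphism group of S is elementary abelian of order 2^(2n²), and the automorphism group has order 2^(2n²) · 2n(q² − 1). -/
theorem result {S : Type*} [Group S] [Finite S] (n : ℕ) (hn : 2 ≤ n) {F : Type*} [Field F] [Fintype F] (hF : Fintype.card F = 4 ^ n)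
    (P : Sylow 2 ↥(Cfsg.SU 3 F (2 ^ n))) (hS : Nonempty (S ≃* ↥(P : Subgroup ↥(Cfsg.SU 3 F (2 ^ n))))) :
    Cfsg.IsElementaryAbelian 2 (Cfsg.pCore 2 (MulAut S)) ∧ Nat.card ↥(Cfsg.pCore 2 (MulAut S)) = 2 ^ (2 * n ^ 2) ∧
      Nat.card (MulAut S) = 2 ^ (2 * n ^ 2) * (2 * n * ((2 ^ n) ^ 2 - 1)) := by
  have hF' : Fintype.card F = (2 ^ n) ^ 2 := by rw [hF, ← pow_mul, mul_comm, pow_mul]; norm_num
  have : CharP F 2 := CL.Chev.U3.charP_two_of_card (n := n * 2) (by rw [hF', pow_mul])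
  obtain ⟨e⟩ := hS
  obtain ⟨f⟩ := (CL.Chev.U3.modelSU hF').nonempty_sylow_equiv P
  let g := MulAut.congr (f.trans e.symm)
  have h1 := CL.U3Aut.card_pCore (CL.Chev.U3.modelSU hF').toUF (n := n) rfl
  have h2 := CL.U3Aut.card_aut (CL.Chev.U3.modelSU hF').toUF (n := n) rfl
  have h3 := CL.U3Aut.isElementaryAbelian_ker (S := (CL.Chev.U3.modelSU hF').toUF)
  rw [← CL.U3Aut.pCore_eq_ker] at h3
  refine ⟨?_, by rw [← CL.Grp.card_pCore_equiv g, h1], by rw [← Nat.card_congr g.toEquiv, h2]⟩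
  rw [← CL.Grp.map_pCore_equiv g]
  have := h3.1
  refine ⟨inferInstance, ?_⟩
  rintro _ ⟨a, ha, rfl⟩
  rw [← map_pow, h3.2 a ha, map_one]

end Cfsg.Agent.S3162
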