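import Cfsg.Statements.S3171
import Cfsg.Agent.Spor.M24Class
import Cfsg.Agent.Grp.PGroupBasic

set_option autoImplicit false
open Cfsg

namespace Cfsg.Agent.S3171

open CL.Spor MulAction
open scoped Pointwise

def cm (X Y : ℕ) : Bool := (fun a b => Nat.beq a b || Nat.beq a (pmul b r2A)) (pmul X Y) (pmul Y X)

def CM (x y : M24) : Prop := x * y = y * x ∨ x * y = y * x * m24 r2A

theorem cm_iff {X Y : ℕ} {x y : M24} (hX : Rep X x) (hY : Rep Y y) : CM x y ↔ cm X Y = true := by
  simp only [CM, cm, Bool.or_eq_true, Nat.beq_eq]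
  rw [(hX.mul hY).eq_iff (hY.mul hX), (hX.mul hY).eq_iff ((hY.mul hX).mul rep_r2A)]

theorem card_le_cnt {H K : Subgroup M24} {lv : List (ℕ × List ℕ)} (h : SChain H lv) (hK : K ≤ H) (f : ℕ → Bool)
    (hf : ∀ P g, Rep P g → g ∈ K → f P = true) : Nat.card K ≤ cntProds f lv pone := by
  rw [← h.ncard_eq (fun g => ∃ P, Rep P g ∧ f P = true) f
    fun P g hP _ => ⟨fun ⟨Q, hQ, e⟩ => hQ.unique' hP ▸ e, fun e => ⟨P, hP, e⟩⟩, ← SetLike.coe_sort_coe, Nat.card_coe_set_eq]
  refine Set.ncard_le_ncard (fun g hg => ⟨hK hg, ?_⟩)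
  obtain ⟨P, hP⟩ := exists_rep g
  exact ⟨P, hP, hf P g hP hg⟩

def xL : List ℕ := [95211200848415628898834566699146241, 145641219286638688582135187878525477, 134047176796348820602481718630008261, 144624363833108733781180005365138885]
def rL : List ℕ := [984818244535754528103549039458486304, 975206881659631450991128307143182368, 960831283963798152912375878980765728, 967395599751671306805005400863606816, 963638301172151078401281205057258560, 960948414562504837307874707570263104, 983157188495245625430171096158078016, 972650098054148380359354734738867264]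
def lvQ : List (ℕ × List ℕ) := [(4, [984818244535754528103549039458486304, 971592882964418941354553515258775584, 979121071158219704299181131031480352, 970499966350631336865513127433832480, 980224387687010295957922729495201824, 976448692869377735270425038196672544, 961365507626256404119956257276790816, 981818691054096003685363657089320992, 972512676110088067912772961567868960, 968708902336673183175954409307867168, 975346028712660580592452217730074656, 94282123903370908099441979271109633, 91051156117885148070224244441046017, 983548720921252936276249910206105632, 965128854020860192151391391390468128, 227655178992036118779800651160372675]), (0, [984818244535754528103549039458486304, 111943941958064166877680061588659201, 602616509886284082620884219345308849, 228758467070986392801249166517880259, 146261786287366217854178837448604197, 727786351360932490696593070100616302, 70961312958146288193683039871075042, 28854523491105362182008475499005015])]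
noncomputable def Q : Subgroup M24 := gen (levelEls lvQ)

theorem chainQ : SChain Q lvQ := sChain_gen (by decide +kernel)
theorem xL_good : ∀ P ∈ xL, Good P2 P := chainP2.good_of_sift (good_top_of_all (by decide +kernel)) (by decide +kernel)
theorem Q_le : Q ≤ P2 := gen_le (chainP2.good_of_sift chainQ.1 (by decide +kernel))
theorem z_mem : m24 r2A ∈ Q := (chainQ.mem_iff_sift rep_r2A).2 (by decide +kernel)
theorem card_Q : Nat.card Q = 128 := chainQ.card_eq

theorem Q_cm {x y : M24} (hx : x ∈ Q) (hy : y ∈ Q) : CM x y := by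
  obtain ⟨X, hX, h⟩ := chainQ.forall_mem (f := fun X => allProds (cm X) lvQ pone) (by decide +kernel) x hx
  obtain ⟨Y, hY, h⟩ := chainQ.forall_mem h y hy
  exact (cm_iff hX hY).2 h

theorem Q_sq {x : M24} (hx : x ∈ Q) : x * x = 1 ∨ x * x = m24 r2A := by
  obtain ⟨X, hX, h⟩ := chainQ.forall_mem (f := fun X => (fun a => Nat.beq a pone || Nat.beq a r2A) (pmul X X))
    (by decide +kernel) x hx
  simpa only [Bool.or_eq_true, Nat.beq_eq, ← (hX.mul hX).eq_one_iff, ← (hX.mul hX).eq_iff rep_r2A] using h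

theorem center_P2 (x : P2) : x ∈ Subgroup.center P2 ↔ (x : M24) = 1 ∨ (x : M24) = m24 r2A := by
  rw [Subgroup.mem_center_iff]
  constructor
  · intro h
    obtain ⟨X, hX, h'⟩ := chainP2.forall_mem (f := fun X => !allL (fun Y => Nat.beq (pmul Y X) (pmul X Y)) xL ||
      (Nat.beq X pone || Nat.beq X r2A)) (by decide +kernel) x x.2
    have : allL (fun Y => Nat.beq (pmul Y X) (pmul X Y)) xL = true := (allL_iff _ _).2 fun Y hY => by
      obtain ⟨y, hy, hY⟩ := xL_good Y hY
      exact Nat.beq_eq ▸ (hY.commute_iff hX).1 (congrArg Subtype.val (h ⟨y, hy⟩))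
    simpa only [this, Bool.not_true, Bool.false_or, Bool.or_eq_true, Nat.beq_eq, ← hX.eq_one_iff,
      ← hX.eq_iff rep_r2A] using h'
  · rintro (h | h) y <;> apply Subtype.ext <;> simp only [Subgroup.coe_mul, h, mul_one, one_mul]
    obtain ⟨Y, hY, h'⟩ := chainP2.forall_mem (f := fun Y => Nat.beq (pmul Y r2A) (pmul r2A Y)) (by decide +kernel) y y.2
    exact (hY.commute_iff rep_r2A).2 (Nat.eq_of_beq_eq_true h')

def W (l : List (ℕ × Bool)) : List ℕ :=
  l.flatMap fun c => l.map fun d => cond c.2 (pconj d.1 c.1) (cond d.2 pone (pmul c.1 d.1))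

theorem chk1 : ∀ a b c d : Bool, Nat.ble (cntProds (fun Y => allL (fun w => cm w Y) (W (xL.zip [a, b, c, d]))) levP2 pone) 16 =
    true := by decide +kernel

def chk (l : List (ℕ × Bool)) : Bool := allL (fun c => !c.2 || Nat.beq c.1 pone) l ||
  Nat.blt (Nat.mul (l.countP (·.2)) (cntProds (fun Y => allL (fun c => !c.2 || cm c.1 Y) l) lvQ pone)) 128

theorem chk2 : ∀ a b c d e f g h : Bool, chk (rL.zip [a, b, c, d, e, f, g, h]) = true := by decide +kernel

theorem cosets {G : Type*} [Group G] [Finite G] (A B : Subgroup G) (r : ℕ → G) (l : List (ℕ × Bool))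
    (h : ∀ c ∈ l, ∀ g ∈ A, (r c.1)⁻¹ * g ∈ B → c.2 = true) :
    {g | g ∈ A ∧ ∃ c ∈ l, (r c.1)⁻¹ * g ∈ B}.ncard ≤ l.countP (·.2) * Nat.card (A ⊓ B : Subgroup G) := by
  induction l with
  | nil => simp
  | cons c l ih =>
    have h1 : {g | g ∈ A ∧ (r c.1)⁻¹ * g ∈ B}.ncard ≤ (if c.2 = true then 1 else 0) * Nat.card (A ⊓ B : Subgroup G) := by
      rcases Set.eq_empty_or_nonempty {g | g ∈ A ∧ (r c.1)⁻¹ * g ∈ B} with e | ⟨a, ha, hb⟩
      · simp [e]
      · rw [if_pos (h c List.mem_cons_self a ha hb), one_mul, ← SetLike.coe_sort_coe, Nat.card_coe_set_eq]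
        refine Set.ncard_le_ncard_of_injOn (fun g => a⁻¹ * g) (fun g hg => ⟨A.mul_mem (A.inv_mem ha) hg.1, ?_⟩)
          fun x _ y _ e => mul_left_cancel e
        have := B.mul_mem (B.inv_mem hb) hg.2
        simpa [mul_assoc] using this
    rw [List.countP_cons, add_mul]
    refine le_trans (Set.ncard_le_ncard ?_) ((Set.ncard_union_le _ _).trans
      (add_le_add (ih fun d hd => h d (List.mem_cons_of_mem _ hd)) h1))
    rintro g ⟨hg, d, hd, e⟩
    rcases List.mem_cons.1 hd with rfl | hd
    exacts [Or.inr ⟨hg, e⟩, Or.inl ⟨hg, d, hd, e⟩]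

section main
variable {S : Type*} [Group S] (φ : P2 →* S) (hs : Function.Surjective φ)
  (hk : ∀ x, φ x = 1 ↔ (x : M24) = 1 ∨ (x : M24) = m24 r2A)

include hk in
theorem comm_iff (x y : P2) : φ x * φ y = φ y * φ x ↔ CM x y := by
  rw [← map_mul, ← map_mul, eq_comm, ← inv_mul_eq_one, ← map_inv, ← map_mul, hk, CM]
  simp only [Subgroup.coe_mul, Subgroup.coe_inv]
  rw [inv_mul_eq_one, inv_mul_eq_iff_eq_mul, eq_comm]

include hk in
theorem card_ker : Nat.card φ.ker = 2 := by
  have : (φ.ker : Set P2) = {1, ⟨_, Q_le z_mem⟩} := by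
    ext x
    simp only [SetLike.mem_coe, MonoidHom.mem_ker, hk, Set.mem_insert_iff, Set.mem_singleton_iff, Subtype.ext_iff,
      Subgroup.coe_one]
  rw [← SetLike.coe_sort_coe, Nat.card_coe_set_eq, this, Set.ncard_pair]
  intro h
  exact absurd (rep_r2A.eq_one_iff.1 (congrArg Subtype.val h).symm) (by decide)

include hs hk in
theorem card_S : Nat.card S = 512 := by
  have h1 := φ.ker.card_mul_index
  rw [Subgroup.index_ker, card_ker φ hk, card_P2, MonoidHom.range_eq_top.2 hs, Subgroup.card_top] at h1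
  omega

include hs hk in
theorem card_pre (K : Subgroup S) : Nat.card ((K.comap φ).map P2.subtype) = 2 * Nat.card K := by
  rw [Subgroup.card_map_of_injective P2.subtype_injective]
  have h1 := (K.comap φ).card_mul_index
  have h2 := K.card_mul_index
  rw [Subgroup.index_comap_of_surjective _ hs, card_P2] at h1
  rw [card_S φ hs hk] at h2
  have : K.index ≠ 0 := fun h => by simp [h] at h2
  apply Nat.eq_of_mul_eq_mul_right (Nat.pos_of_ne_zero this)
  rw [h1, mul_assoc, h2]; rfl

include hk in
theorem pre_Q : (((Q.subgroupOf P2).map φ).comap φ).map P2.subtype = Q := by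
  rw [Subgroup.comap_map_eq_self, Subgroup.map_subgroupOf_eq_of_le Q_le]
  intro x hx
  rcases (hk x).1 hx with h | h <;> rw [Subgroup.mem_subgroupOf, h]
  exacts [Q.one_mem, z_mem]

include hs hk in
theorem card_Qb : Nat.card ((Q.subgroupOf P2).map φ) = 64 := by
  have := card_pre φ hs hk ((Q.subgroupOf P2).map φ)
  rw [pre_Q φ hk, card_Q] at this
  omega

include hs hk in
theorem part1 (M : Subgroup S) (hM : IsCoatom M) : Nat.card (Subgroup.center M) ≤ 8 := by
  classical
  have hS := card_S φ hs hk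
  have : Finite S := Nat.finite_of_card_ne_zero (by omega)
  have hi : M.index = 2 := CL.Grp.index_eq_of_isCoatom_pGroup (IsPGroup.of_card (n := 9) hS) hM
  have hn := Subgroup.normal_of_index_eq_two hi
  have key : ∀ l : List (ℕ × Bool), (∀ c ∈ l, ∃ x : P2, Rep c.1 x ∧ (φ x ∈ M ↔ c.2 = true)) →
      2 * Nat.card (Subgroup.center M) ≤ cntProds (fun Y => allL (fun w => cm w Y) (W l)) levP2 pone := fun l hl => by
    rw [← Subgroup.card_map_of_injective M.subtype_injective, ← card_pre φ hs hk]
    refine card_le_cnt chainP2 (Subgroup.map_subtype_le _) _ ?_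
    rintro Y _ hY ⟨y, ⟨m, hm, e⟩, rfl⟩
    refine (allL_iff _ _).2 fun w hw => ?_
    have : ∃ x : P2, Rep w x ∧ φ x ∈ M := by
      simp only [W, List.mem_flatMap, List.mem_map] at hw
      obtain ⟨c, hc, d, hd, rfl⟩ := hw
      obtain ⟨x, hx, ex⟩ := hl c hc
      obtain ⟨u, hu, eu⟩ := hl d hd
      cases h1 : c.2
      · cases h2 : d.2
        · refine ⟨x * u, hx.mul hu, ?_⟩
          rw [map_mul, Subgroup.mul_mem_iff_of_index_two hi, ex, eu, h1, h2]
        · exact ⟨1, rep_one, by rw [map_one]; exact M.one_mem⟩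
      · exact ⟨u * x * u⁻¹, hu.conj hx, by rw [map_mul, map_mul, map_inv]; exact hn.conj_mem _ (ex.2 h1) _⟩
    obtain ⟨x, hx, hxM⟩ := this
    refine (cm_iff hx hY).1 ((comm_iff φ hk x y).1 ?_)
    rw [← e]
    exact congrArg Subtype.val (Subgroup.mem_center_iff.1 hm ⟨_, hxM⟩)
  let b : ℕ → Bool := fun X => decide (∃ x : P2, Rep X x ∧ φ x ∈ M)
  have h1 := key (xL.map fun X => (X, b X)) fun c hc => by
    obtain ⟨X, hX, rfl⟩ := List.mem_map.1 hc
    obtain ⟨x, hx, hX⟩ := xL_good X hX
    refine ⟨⟨x, hx⟩, hX, fun h => decide_eq_true ⟨_, hX, h⟩, fun h => ?_⟩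
    obtain ⟨y, hy, h⟩ := of_decide_eq_true h
    rwa [show (⟨x, hx⟩ : P2) = y from Subtype.ext (hX.unique hy)]
  have h2 := Nat.le_of_ble_eq_true (chk1 (b 95211200848415628898834566699146241) (b 145641219286638688582135187878525477) (b 134047176796348820602481718630008261) (b 144624363833108733781180005365138885))
  have := h1.trans h2
  omega

include hk in
theorem Qb_comm {a b : S} (ha : a ∈ (Q.subgroupOf P2).map φ) (hb : b ∈ (Q.subgroupOf P2).map φ) : a * b = b * a := by
  obtain ⟨x, hx, rfl⟩ := ha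
  obtain ⟨y, hy, rfl⟩ := hb
  exact (comm_iff φ hk x y).2 (Q_cm hx hy)

include hs hk in
theorem part3 (A : Subgroup S) (hA : IsMulCommutative A) (hc : Nat.card A = 64) : A = (Q.subgroupOf P2).map φ := by
  classical
  have hS := card_S φ hs hk
  have : Finite S := Nat.finite_of_card_ne_zero (by omega)
  have h0 := card_pre φ hs hk A
  set A' := (A.comap φ).map P2.subtype with hA'
  have hAP : A' ≤ P2 := Subgroup.map_subtype_le _
  have hcov : ∀ g ∈ A', ∃ r ∈ rL, (m24 r)⁻¹ * g ∈ Q := fun g hg => by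
    obtain ⟨X, hX, h⟩ := chainP2.forall_mem (f := fun X => anyL (fun r => sift lvQ (pmul (pinv r) X)) rL)
      (by decide +kernel) g (hAP hg)
    obtain ⟨r, hr, h⟩ := (anyL_iff _ _).1 h
    exact ⟨r, hr, (chainQ.mem_iff_sift ((good_top_of_all (by decide +kernel) r hr).rep.inv.mul hX)).2 h⟩
  let b : ℕ → Bool := fun r => decide (∃ g ∈ A', (m24 r)⁻¹ * g ∈ Q)
  have h1 := cosets A' Q m24 (rL.map fun r => (r, b r)) fun c hc g hg h => by
    obtain ⟨r, -, rfl⟩ := List.mem_map.1 hc
    exact decide_eq_true ⟨g, hg, h⟩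
  have h2 : {g | g ∈ A' ∧ ∃ c ∈ rL.map fun r => (r, b r), (m24 c.1)⁻¹ * g ∈ Q} = A' := by
    ext g
    refine ⟨fun h => h.1, fun h => ⟨h, ?_⟩⟩
    obtain ⟨r, hr, h⟩ := hcov g h
    exact ⟨_, List.mem_map_of_mem hr, h⟩
  have h3 := card_le_cnt chainQ (K := A' ⊓ Q) inf_le_right
    (fun Y => allL (fun c => !c.2 || cm c.1 Y) (rL.map fun r => (r, b r))) fun Y y hY hy => (allL_iff _ _).2 fun c hc => by
    obtain ⟨r, hr, rfl⟩ := List.mem_map.1 hc
    cases hb : b r
    · rfl
    obtain ⟨g, hg, h⟩ := of_decide_eq_true hb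
    obtain ⟨⟨y, hy, rfl⟩, hyQ⟩ := hy
    obtain ⟨g, hg, rfl⟩ := hg
    have e : m24 r = ((g * (⟨_, Q_le h⟩ : P2)⁻¹ : P2) : M24) := by simp
    have hr' := (good_top_of_all (S := rL) (by decide +kernel) r hr).rep
    rw [e] at hr'
    refine (cm_iff hr' hY).1 ((comm_iff φ hk _ y).1 ?_)
    have c1 : Commute (φ g) (φ y) := congrArg Subtype.val (hA.is_comm.comm ⟨_, hg⟩ ⟨_, hy⟩)
    have c2 : Commute (φ ⟨_, Q_le h⟩) (φ y) := (comm_iff φ hk _ y).2 (Q_cm h hyQ)
    rw [map_mul, map_inv]
    exact c1.mul_left c2.inv_left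
  have h4 : chk (rL.map fun r => (r, b r)) = true := chk2 (b 984818244535754528103549039458486304) (b 975206881659631450991128307143182368) (b 960831283963798152912375878980765728) (b 967395599751671306805005400863606816) (b 963638301172151078401281205057258560) (b 960948414562504837307874707570263104) (b 983157188495245625430171096158078016) (b 972650098054148380359354734738867264)
  rw [h2, ← Nat.card_coe_set_eq, SetLike.coe_sort_coe, h0, hc] at h1
  rcases Bool.or_eq_true_iff.1 h4 with h | h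
  · refine Subgroup.eq_of_le_of_card_ge (fun a ha => ?_) (by rw [card_Qb φ hs hk, hc])
    obtain ⟨x, rfl⟩ := hs a
    obtain ⟨r, hr, hq⟩ := hcov x ⟨x, ha, rfl⟩
    have := (allL_iff _ _).1 h _ (List.mem_map_of_mem hr)
    rw [show b r = true from decide_eq_true ⟨x, ⟨x, ha, rfl⟩, hq⟩] at this
    rw [show r = pone from Nat.eq_of_beq_eq_true this, rep_one.m24_eq, inv_one, one_mul] at hq
    exact ⟨x, hq, rfl⟩
  · exact absurd ((h1.trans (Nat.mul_le_mul_left _ h3)).trans_lt (Nat.blt_eq ▸ h)) (by norm_num)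

end main

/-- Let P be a Sylow 2-subgroup of the Mathieu group of degree 24 and S the quotient of P by its centre. Then the centre of every maximal subgroup of S has order at most 8; S has an elementary abelian subgroup of order 64; and S has only one abelian subgroup of order 64. -/
theorem result (P : Sylow 2 ↥Cfsg.M24) :
    (∀ M : Subgroup (↥(P : Subgroup ↥Cfsg.M24) ⧸ Subgroup.center ↥(P : Subgroup ↥Cfsg.M24)), IsCoatom M →
        Nat.card ↥(Subgroup.center ↥M) ≤ 8) ∧
      (∃ A : Subgroup (↥(P : Subgroup ↥Cfsg.M24) ⧸ Subgroup.center ↥(P : Subgroup ↥Cfsg.M24)),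
        Cfsg.IsElementaryAbelian 2 A ∧ Nat.card ↥A = 64) ∧
      ∀ A B : Subgroup (↥(P : Subgroup ↥Cfsg.M24) ⧸ Subgroup.center ↥(P : Subgroup ↥Cfsg.M24)),
        IsMulCommutative ↥A → Nat.card ↥A = 64 → IsMulCommutative ↥B → Nat.card ↥B = 64 → A = B := by
  have e : P2 ≃* P := (Sylow.equiv (Sylow.ofCard P2 (by rw [card_P2, card_M24]; decide +kernel)) P)
  let φ : P2 →* _ := (QuotientGroup.mk' (Subgroup.center P)).comp e.toMonoidHom
  have hs : Function.Surjective φ := (QuotientGroup.mk'_surjective _).comp e.surjective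
  have hk : ∀ x, φ x = 1 ↔ (x : M24) = 1 ∨ (x : M24) = m24 r2A := fun x => by
    rw [← center_P2]
    refine (QuotientGroup.eq_one_iff _).trans ?_
    simp only [Subgroup.mem_center_iff]
    refine ⟨fun h y => e.injective (by rw [map_mul, map_mul]; exact h _), fun h y => ?_⟩
    obtain ⟨y, rfl⟩ := e.surjective y
    exact (map_mul e _ _).symm.trans ((congrArg e (h y)).trans (map_mul e _ _))
  refine ⟨part1 φ hs hk, ⟨_, ⟨⟨⟨fun a b => Subtype.ext (Qb_comm φ hk a.2 b.2)⟩⟩, ?_⟩, card_Qb φ hs hk⟩,
    fun A B hA cA hB cB => (part3 φ hs hk A hA cA).trans (part3 φ hs hk B hB cB).symm⟩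
  rintro _ ⟨x, hx, rfl⟩
  rw [sq, ← map_mul, hk]
  exact Q_sq hx

end Cfsg.Agent.S3171
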