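import Cfsg.Statements.S3174
import Cfsg.Agent.Fus.RuC

set_option autoImplicit false
open Cfsg

namespace Cfsg.Agent.S3174

/-- Let T be a finite 2-group of order at least 2^14 in which the fourth term of the upper central series has order 16. Let W be the centralizer in T of the third term Z₃(T), and suppose the Frattini subgroup of W has order at most 8 and lies in every subgroup of W of index at most 16. Then T has order exactly 2^14; the derived subgroup of W and the Frattini subgroup of W both equal Z₃(T), which is elementary abelian of order 8; the centre of W has order 8; W is normal in T with quotient dihedral of order 8; and W modulo its derived subgroup is elementary abelian of order 2^8. -/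
theorem result {T : Type*} [Group T] [Finite T]
    (hT : IsPGroup 2 T) (ha : 2 ^ 14 ≤ Nat.card T) (hb : Nat.card ↥(Subgroup.upperCentralSeries T 4) = 16)
    (W : Subgroup T) (hW : W = Subgroup.centralizer ((Subgroup.upperCentralSeries T 3 : Subgroup T) : Set T))
    (hc : Nat.card ↥(frattini ↥W) ≤ 8) (hd : ∀ U : Subgroup ↥W, U.index ≤ 16 → frattini ↥W ≤ U) :
    Nat.card T = 2 ^ 14 ∧
      (commutator ↥W).map W.subtype = Subgroup.upperCentralSeries T 3 ∧
      (frattini ↥W).map W.subtype = Subgroup.upperCentralSeries T 3 ∧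
      Nat.card ↥(Subgroup.center ↥W) = 8 ∧
      Nat.card ↥(Subgroup.upperCentralSeries T 3) = 8 ∧ (∀ z ∈ Subgroup.upperCentralSeries T 3, z ^ 2 = 1) ∧
      (∃ (_ : W.Normal), Nonempty (T ⧸ W ≃* DihedralGroup 4)) ∧
      Nat.card (↥W ⧸ commutator ↥W) = 2 ^ 8 ∧ (∀ x : ↥W ⧸ commutator ↥W, x ^ 2 = 1) := by
  subst hW
  have h : CL.RuT.Hyp T := ⟨hT, ha, hb, hc, hd⟩
  obtain ⟨C⟩ := h.exists_coord
  refine ⟨h.card_T, h.map_commutator_W, h.fr_W, ?_, h.card_zc3, fun z hz => h.V_sq hz,
    ⟨inferInstance, ⟨(QuotientGroup.quotientMulEquivOfEq C.ker.symm).trans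
      (QuotientGroup.quotientKerEquivOfSurjective C.ρ C.ρ_surj)⟩⟩, ?_, ?_⟩
  · rw [← Subgroup.card_map_of_injective (Subgroup.subtype_injective _), h.center_W, h.card_zc3]
    norm_num
  · rw [← h.relIndex_V, Subgroup.relIndex, ← h.commutator_W_eq]; rfl
  · intro x
    obtain ⟨x, rfl⟩ := QuotientGroup.mk_surjective x
    rw [← QuotientGroup.mk_pow, QuotientGroup.eq_one_iff, h.commutator_W_eq]
    exact h.sq_mem_V x.2

end Cfsg.Agent.S3174
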