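import Cfsg.Statements.S3178
import Cfsg.Agent.Inv.AutTwo

set_option autoImplicit false
open Cfsg

namespace Cfsg.Agent.S3178

open Subgroup CL.Inv in
theorem aut_eq_one_of_cyclic_quot {X Y : Type*} [Group X] [Group Y] [IsCyclic Y]
    (hX : IsPGroup 2 X) {α : MulAut X} (hα : Odd (orderOf α)) (f : X →* Y)
    (hB : ∀ b ∈ f.ker, α b = b) : α = 1 := by
  obtain ⟨⟨y, x, rfl⟩, hy⟩ := IsCyclic.exists_generator (α := f.range)
  have key : ∀ g : X, ∃ m : ℤ, (x ^ m)⁻¹ * g ∈ f.ker := by
    intro g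
    obtain ⟨m, hm⟩ := hy ⟨f g, g, rfl⟩
    refine ⟨m, ?_⟩
    have hm' : f x ^ m = f g := congrArg Subtype.val hm
    rw [MonoidHom.mem_ker, map_mul, map_inv, map_zpow, hm', inv_mul_cancel]
  have hx : α x = x := by
    obtain ⟨m, hm⟩ := key (α x)
    exact aut_fix_step hX hα f.ker hB m hm
  ext g
  obtain ⟨m, hm⟩ := key g
  have := hB _ hm
  rw [map_mul, map_inv, map_zpow, hx] at this
  simpa using this

/-- Groups with a modular Sylow 2-subgroup have a normal 2-complement. Let S, of order 2^(n+1) with n ≥ 3, be a Sylow 2-subgroup of a finite group G, and suppose S contains an element a of order 2^n and an involution b with b a b⁻¹ = a^(2^(n-1) + 1); so S is the non-abelian 2-group with a cyclic subgroup of index 2 that is neither dihedral, semidihedral nor generalized quaternion. Then G has a normal 2-complement. -/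
theorem result {G : Type*} [Group G] [Finite G]
    (S : Sylow 2 G) (n : ℕ) (hn : 3 ≤ n) (hS : Nat.card ↥(S : Subgroup G) = 2 ^ (n + 1))
    (a b : G) (ha : a ∈ (S : Subgroup G)) (hb : b ∈ (S : Subgroup G))
    (hao : orderOf a = 2 ^ n) (hbo : orderOf b = 2) (hrel : b * a * b⁻¹ = a ^ (2 ^ (n - 1) + 1)) :
    Cfsg.HasNormalPComplement 2 G := by
  open Subgroup CL.Inv in
  obtain ⟨m, rfl⟩ : ∃ m, n = m + 3 := ⟨n - 3, by omega⟩
  have hrel' : b * a * b⁻¹ = a ^ (2 ^ (m + 2) + 1) := hrel
  have hbb : b * b = 1 := by rw [← pow_two, ← hbo, pow_orderOf_eq_one]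
  have hbinv : b⁻¹ = b := inv_eq_of_mul_eq_one_right hbb
  set z := a ^ 2 ^ (m + 2) with hz
  have hzz : z * z = 1 := by
    rw [hz, ← pow_add, ← two_mul, ← pow_succ', ← hao, pow_orderOf_eq_one]
  have hz1 : z ≠ 1 := by
    intro h
    have := orderOf_dvd_of_pow_eq_one h
    rw [hao] at this
    have := Nat.le_of_dvd (by positivity) this
    have h2 : 2 ^ (m + 2) < 2 ^ (m + 3) := Nat.pow_lt_pow_right (by norm_num) (by omega)
    omega
  have hconj : ∀ c ∈ zpowers a, b * c * b⁻¹ = c ^ (2 ^ (m + 2) + 1) := by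
    rintro c ⟨i, rfl⟩
    simp only
    rw [← conj_zpow, hrel', ← zpow_natCast, ← zpow_natCast, ← zpow_mul, ← zpow_mul, mul_comm]
  have hba : b ∉ zpowers a := by
    intro h
    have h1 : b * a = a * b := by
      obtain ⟨i, rfl⟩ := h
      exact (Commute.refl a).zpow_left i
    rw [h1, mul_inv_cancel_right, pow_succ] at hrel'
    apply hz1
    exact (mul_eq_right.1 hrel'.symm)
  have hbN : b ∈ normalizer ((zpowers a : Subgroup G) : Set G) := by
    refine mem_normalizer_fintype ?_
    intro c hc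
    rw [hconj c hc]
    exact pow_mem hc _
  have hmem := mem_sup_zpowers_iff hbN (by rw [hbb]; exact one_mem _)
  have hcard := card_eq_two_mul_of_mem_iff hba hmem
  have hSeq : zpowers a ⊔ zpowers b = S := by
    apply Subgroup.eq_of_le_of_card_ge
    · exact sup_le (zpowers_le.2 ha) (zpowers_le.2 hb)
    · rw [hcard, Nat.card_zpowers, hao, hS, pow_succ' 2 (m + 3)]
  rw [hSeq] at hmem
  have hS' : ∀ g ∈ (S : Subgroup G), g ∈ zpowers a ∨ ∃ c ∈ zpowers a, g = c * b := by
    intro g hg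
    rcases (hmem g).1 hg with h | h
    · exact Or.inl h
    · exact Or.inr ⟨_, h, by simp⟩
  have hsq : ∀ c ∈ zpowers a, c * b * (c * b) = (c * c) ^ (2 ^ (m + 1) + 1) := by
    intro c hc
    have : c * b * (c * b) = c * (b * c * b⁻¹) := by rw [hbinv]; group
    rw [this, hconj c hc, ← pow_succ', ← pow_two, ← pow_mul]
    congr 1
    ring
  have hinvA : ∀ c ∈ zpowers a, c * c = 1 → c = 1 ∨ c = z := by
    intro c hc h
    obtain ⟨i, rfl⟩ := (mem_powers_iff_mem_zpowers.2 hc)
    simp only at h ⊢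
    rw [← pow_add, ← orderOf_dvd_iff_pow_eq_one, hao, ← two_mul, pow_succ'] at h
    obtain ⟨k, rfl⟩ := Nat.dvd_of_mul_dvd_mul_left (by norm_num) h
    rw [pow_mul, ← hz]
    rcases Nat.even_or_odd' k with ⟨j, rfl | rfl⟩
    · left; rw [pow_mul, pow_two, hzz, one_pow]
    · right; rw [pow_succ, pow_mul, pow_two, hzz, one_pow, one_mul]
  have hinv : ∀ g ∈ (S : Subgroup G), g * g = 1 → g = 1 ∨ g = z ∨ g = b ∨ g = z * b := by
    intro g hg h
    rcases hS' g hg with h1 | ⟨c, hc, rfl⟩
    · rcases hinvA g h1 h with h | h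
      · exact Or.inl h
      · exact Or.inr (Or.inl h)
    · rw [hsq c hc] at h
      have hcS : c ∈ (S : Subgroup G) := (zpowers_le.2 ha) hc
      have h2 : (⟨c * c, mul_mem hcS hcS⟩ : (S : Subgroup G)) = 1 :=
        eq_one_of_pow_odd S.isPGroup' (k := 2 ^ (m + 1) + 1)
          (Even.add_one ⟨2 ^ m, by ring⟩) (Subtype.ext h)
      rcases hinvA c hc (congrArg Subtype.val h2) with h | h
      · right; right; left; rw [h, one_mul]
      · right; right; right; rw [h]
  have hsqA : ∀ g ∈ (S : Subgroup G), g * g ∈ zpowers a := by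
    intro g hg
    rcases hS' g hg with h1 | ⟨c, hc, rfl⟩
    · exact mul_mem h1 h1
    · rw [hsq c hc]; exact pow_mem (mul_mem hc hc) _
  have ha2b : b * a ^ 2 = a ^ 2 * b := by
    have := hconj (a ^ 2) (pow_mem (mem_zpowers a) 2)
    rw [pow_succ (a ^ 2), ← pow_mul, ← pow_succ', ← hao, pow_orderOf_eq_one, one_mul] at this
    exact mul_inv_eq_iff_eq_mul.1 this
  have hza : z = (a ^ 2) ^ 2 ^ (m + 1) := by rw [hz, ← pow_mul, ← pow_succ']
  have hzb : z * b = b * z := by
    rw [hza]; exact ((show Commute b (a ^ 2) from ha2b).pow_right _).symm.eq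
  let V : Subgroup (S : Subgroup G) :=
    { carrier := {g | (g : G) * g = 1}
      one_mem' := by simp
      inv_mem' := by
        intro g hg
        have hg' : (g : G) * g = 1 := hg
        show ((g⁻¹ : (S : Subgroup G)) : G) * (g⁻¹ : (S : Subgroup G)) = 1
        rw [Subgroup.coe_inv, ← mul_inv_rev, hg', inv_one]
      mul_mem' := by
        intro g h hg hh
        have hg' : (g : G) * g = 1 := hg
        have hh' : (h : G) * h = 1 := hh
        show ((g : G) * h) * (g * h) = 1
        have hc : (h : G) * g = g * h := by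
          have c1 : Commute z b := hzb
          rcases hinv g g.2 hg' with h1 | h1 | h1 | h1 <;>
          rcases hinv h h.2 hh' with h2 | h2 | h2 | h2 <;> rw [h1, h2] <;>
          first
          | rfl
          | simp only [one_mul, mul_one]
          | exact c1.eq
          | exact c1.symm.eq
          | exact ((Commute.refl z).mul_left c1.symm).eq
          | exact (c1.mul_left (Commute.refl b)).eq
          | exact ((Commute.refl z).mul_right c1).eq
          | exact (c1.symm.mul_right (Commute.refl b)).eq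
        calc ((g : G) * h) * (g * h) = g * (h * g) * h := by group
          _ = (g * g) * (h * h) := by rw [hc]; group
          _ = 1 := by rw [hg', hh', one_mul] }
  have hV : ∀ g, g ∈ V ↔ (g : G) * g = 1 := fun g => Iff.rfl
  haveI hVn : V.Normal := ⟨fun g hg s => by
    rw [hV] at hg ⊢
    simp only [Subgroup.coe_mul, Subgroup.coe_inv]
    calc (s : G) * g * (s : G)⁻¹ * (s * g * (s : G)⁻¹) = s * (g * g) * (s : G)⁻¹ := by group
      _ = 1 := by rw [hg]; group⟩
  haveI : IsCyclic ((S : Subgroup G) ⧸ V) := by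
    refine ⟨⟨((⟨a, ha⟩ : (S : Subgroup G)) : (S : Subgroup G) ⧸ V), fun q => ?_⟩⟩
    obtain ⟨g, rfl⟩ := QuotientGroup.mk_surjective q
    rcases hS' g g.2 with ⟨i, hi⟩ | ⟨c, ⟨i, rfl⟩, hc⟩
    · refine ⟨i, ?_⟩
      simp only [← QuotientGroup.mk_zpow]
      congr 1
      exact Subtype.ext hi
    · refine ⟨i, ?_⟩
      simp only [← QuotientGroup.mk_zpow]
      rw [QuotientGroup.eq, hV]
      have : (((⟨a, ha⟩ : (S : Subgroup G)) ^ i)⁻¹ * g : (S : Subgroup G)) = ⟨b, hb⟩ := by
        apply Subtype.ext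
        simp [hc]
      rw [this]
      exact hbb
  apply hasNormalPComplement_of_no_coprimeAut S
  rintro X hXS hC ⟨g, hgN, hgo, hgC⟩
  obtain ⟨α, hα, -, h1⟩ := exists_odd_aut_of_mem_normalizer hgN hgo
  apply hgC
  apply h1
  have hXp : IsPGroup 2 X := S.isPGroup'.to_le hXS
  have ha2 : a ^ 2 ∈ X := by
    apply hC
    refine ⟨?_, pow_mem ha 2⟩
    intro x hx
    rcases hS' x (hXS hx) with ⟨i, rfl⟩ | ⟨c, ⟨i, rfl⟩, rfl⟩
    · exact (((Commute.refl a).zpow_left i).pow_right 2).eq
    · exact ((((Commute.refl a).zpow_left i).pow_right 2).mul_left ha2b).eq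
  have hzX : z ∈ X := by rw [hza]; exact pow_mem ha2 _
  have hαz : α ⟨z, hzX⟩ = ⟨z, hzX⟩ := by
    have e1 : (⟨z, hzX⟩ : X) = (⟨a ^ 2, ha2⟩ : X) ^ 2 ^ m * (⟨a ^ 2, ha2⟩ : X) ^ 2 ^ m := by
      apply Subtype.ext
      simp only [Subgroup.coe_mul, SubmonoidClass.coe_pow]
      rw [hza, ← pow_add, ← two_mul, ← pow_succ']
    have e2 : ((α ⟨z, hzX⟩ : X) : G) ∈ zpowers a := by
      rw [e1, map_mul]
      exact hsqA _ (hXS (α _).2)
    have e3 : ((α ⟨z, hzX⟩ : X) : G) * (α ⟨z, hzX⟩ : X) = 1 := by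
      rw [← Subgroup.coe_mul, ← map_mul]
      have : (⟨z, hzX⟩ : X) * ⟨z, hzX⟩ = 1 := Subtype.ext hzz
      rw [this, map_one, Subgroup.coe_one]
    rcases hinvA _ e2 e3 with h | h
    · exfalso
      have : α ⟨z, hzX⟩ = 1 := Subtype.ext h
      rw [map_eq_one_iff α α.injective] at this
      exact hz1 (congrArg Subtype.val this)
    · exact Subtype.ext h
  refine aut_eq_one_of_cyclic_quot hXp hα ((QuotientGroup.mk' V).comp (inclusion hXS)) ?_
  intro t ht
  have ht' : (t : G) * t = 1 := by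
    rw [MonoidHom.mem_ker, MonoidHom.comp_apply, QuotientGroup.mk'_apply,
      QuotientGroup.eq_one_iff, hV] at ht
    exact ht
  by_cases ht1 : t = 1
  · rw [ht1, map_one]
  by_cases htz : t = ⟨z, hzX⟩
  · rw [htz, hαz]
  have e3 : ((α t : X) : G) * (α t : X) = 1 := by
    rw [← Subgroup.coe_mul, ← map_mul]
    have : t * t = 1 := Subtype.ext ht'
    rw [this, map_one, Subgroup.coe_one]
  have hb' : ∀ u : X, (u : G) * u = 1 → u ≠ 1 → u ≠ ⟨z, hzX⟩ → (u : G) = b ∨ (u : G) = z * b := by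
    intro u hu h1 h2
    rcases hinv u (hXS u.2) hu with h | h | h | h
    · exact absurd (Subtype.ext h) h1
    · exact absurd (Subtype.ext h) h2
    · exact Or.inl h
    · exact Or.inr h
  have n1 : α t ≠ 1 := by rwa [Ne, map_eq_one_iff α α.injective]
  have n2 : α t ≠ ⟨z, hzX⟩ := by
    intro h
    rw [← hαz] at h
    exact htz (α.injective h)
  rcases hb' t ht' ht1 htz with h | h <;> rcases hb' (α t) e3 n1 n2 with h' | h'
  · exact Subtype.ext (h'.trans h.symm)
  · refine aut_fix_of_mul hXp hα (b := ⟨z, hzX⟩) (Subtype.ext ?_) hαz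
    simp only [Subgroup.coe_mul]
    rw [h', h, hzb]
  · refine aut_fix_of_mul hXp hα (b := ⟨z, hzX⟩) (Subtype.ext ?_) hαz
    simp only [Subgroup.coe_mul]
    rw [h', h, hzb, mul_assoc, hzz, mul_one]
  · exact Subtype.ext (h'.trans h.symm)

end Cfsg.Agent.S3178
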