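import Cfsg.Statements.S3179
import Cfsg.Agent.S0280
import Cfsg.Agent.S1163
import Cfsg.Agent.Cls.SL2Tori
import Cfsg.Agent.Grp.FrobCompl
import Cfsg.Agent.Grp.SylowIn
import Cfsg.Agent.Inv.AlperinCentric

set_option autoImplicit false
open Cfsg

namespace Cfsg.Agent.S3179

def ga : GL (Fin 5) (ZMod 2) :=
  ⟨!![0,1,0,0,0; 1,1,0,0,0; 0,0,1,0,0; 0,0,0,1,0; 0,0,0,0,1],
    !![1,1,0,0,0; 1,0,0,0,0; 0,0,1,0,0; 0,0,0,1,0; 0,0,0,0,1], by decide +kernel, by decide +kernel⟩

def gb : GL (Fin 5) (ZMod 2) :=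
  ⟨!![1,0,0,0,0; 0,1,0,0,0; 0,0,0,1,0; 0,0,1,1,0; 0,0,0,0,1],
    !![1,0,0,0,0; 0,1,0,0,0; 0,0,1,1,0; 0,0,1,0,0; 0,0,0,0,1], by decide +kernel, by decide +kernel⟩

theorem card_gl : Nat.card (GL (Fin 5) (ZMod 2)) = 9999360 := by
  rw [Matrix.card_GL_field]
  simp [Fin.prod_univ_five]

open Subgroup in
theorem orderOf_ne_nine (g : GL (Fin 5) (ZMod 2)) : orderOf g ≠ 9 := by
  intro hg
  haveI : Fact (Nat.Prime 3) := ⟨by norm_num⟩
  have ha : orderOf ga = 3 := orderOf_eq_prime (by decide +kernel) (by decide +kernel)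
  have hb : orderOf gb = 3 := orderOf_eq_prime (by decide +kernel) (by decide +kernel)
  have hab : Commute ga gb := by
    change ga * gb = gb * ga
    decide +kernel
  have hS : CL.Grp.IsSylowIn 3 (zpowers g) ⊤ := by
    refine ⟨le_top, IsPGroup.of_card (n := 2) (by rw [Nat.card_zpowers, hg]; norm_num), ?_⟩
    have := (zpowers g).card_mul_index
    rw [Nat.card_zpowers, hg, card_gl] at this
    rw [relIndex_top_right]
    omega
  have hE : IsPGroup 3 (zpowers ga ⊔ zpowers gb : Subgroup _) := by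
    refine IsPGroup.to_sup_of_normal_right'
      (IsPGroup.of_card (n := 1) (by rw [Nat.card_zpowers, ha, pow_one]))
      (IsPGroup.of_card (n := 1) (by rw [Nat.card_zpowers, hb, pow_one])) ?_
    rintro _ ⟨i, rfl⟩
    apply CL.Inv.centralizer_le_normalizer'
    rintro _ ⟨j, rfl⟩
    exact (hab.zpow_zpow i j).symm.eq
  obtain ⟨h, -, hle⟩ := hS.exists_conj_le hE le_top
  have h1 := hle (CL.Grp.conj_mem_conj_smul h (mem_sup_left (mem_zpowers ga)))
  have h2 := hle (CL.Grp.conj_mem_conj_smul h (mem_sup_right (mem_zpowers gb)))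
  have h3 := CL.Grp.mem_zpowers_of_isCyclic_of_pow_orderOf (T := zpowers g) (z := ⟨_, h1⟩)
    (x := ⟨_, h2⟩) (by
      rw [orderOf_mk, show orderOf (h * ga * h⁻¹) = orderOf ga from (MulAut.conj h).orderOf_eq ga, ha]
      apply Subtype.ext
      simp only [SubmonoidClass.mk_pow, conj_pow, ← hb, pow_orderOf_eq_one]
      simp)
  obtain ⟨k, hk⟩ := mem_powers_iff_mem_zpowers.2 h3
  have h4 : ga ^ k = gb := by
    have := congrArg Subtype.val hk
    simpa using this
  rw [← pow_mod_orderOf, ha] at h4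
  have h5 : k % 3 < 3 := Nat.mod_lt _ (by norm_num)
  generalize k % 3 = r at h4 h5
  interval_cases r <;> exact absurd h4 (by decide +kernel)

/-- Let X be a section of the general linear group GL(5, 2), that is, a quotient of a subgroup of it. If X is isomorphic to PSL(2, 2^n) for some n ≥ 2, to a Suzuki group over the field with 2^(2m+1) elements for some m ≥ 1, or to PSU(3, 2^n) for some n ≥ 2, then X is isomorphic to PSL(2, 4). -/
theorem result {H : Subgroup (GL (Fin 5) (ZMod 2))}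
    {K : Subgroup ↥H} [K.Normal]
    (hX : (∃ (n : ℕ) (F : Type) (_ : Field F) (_ : Fintype F), 2 ≤ n ∧ Fintype.card F = 2 ^ n ∧
        Nonempty (↥H ⧸ K ≃* Matrix.ProjectiveSpecialLinearGroup (Fin 2) F)) ∨
      (∃ (m : ℕ) (F : Type) (_ : Field F) (_ : Fintype F), 1 ≤ m ∧ Fintype.card F = 2 ^ (2 * m + 1) ∧
        Nonempty (↥H ⧸ K ≃* ↥(Cfsg.Lie.Sz F (2 ^ (m + 1))))) ∨
      (∃ (n : ℕ) (F : Type) (_ : Field F) (_ : Fintype F), 2 ≤ n ∧ Fintype.card F = 4 ^ n ∧
        Nonempty (↥H ⧸ K ≃* Cfsg.PSU 3 F (2 ^ n)))) :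
    ∃ (F : Type) (_ : Field F) (_ : Fintype F), Fintype.card F = 4 ∧
      Nonempty (↥H ⧸ K ≃* Matrix.ProjectiveSpecialLinearGroup (Fin 2) F) := by
  have hdvd : Nat.card (↥H ⧸ K) ∣ 9999360 :=
    card_gl ▸ (Subgroup.card_quotient_dvd_card K).trans H.card_subgroup_dvd_card
  have hpow : ∀ k : ℕ, 2 ^ k ∣ 9999360 → k ≤ 10 := by
    intro k hk
    by_contra h
    have := (pow_dvd_pow 2 (show 11 ≤ k by omega)).trans hk
    omega
  rcases hX with ⟨n, F, _, _, hn, hF, ⟨e⟩⟩ | ⟨m, F, _, _, hm, hF, ⟨e⟩⟩ | ⟨n, F, _, _, hn, hF, ⟨e⟩⟩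
  · have hc := CL.SL2.card_psl_mul (F := F)
    have hg : Nat.gcd 2 (Fintype.card F - 1) = 1 := by
      rw [hF]
      obtain ⟨k, rfl⟩ : ∃ k, n = k + 1 := ⟨n - 1, by omega⟩
      have := Nat.one_le_two_pow (n := k)
      exact Nat.coprime_two_left.2 ⟨2 ^ k - 1, by omega⟩
    rw [hg, mul_one, hF] at hc
    rw [Nat.card_congr e.toEquiv, hc] at hdvd
    have h10 := hpow n ((Dvd.intro _ rfl).trans hdvd)
    by_cases h2 : n = 2
    · exact ⟨F, inferInstance, inferInstance, by rw [hF, h2]; norm_num, ⟨e⟩⟩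
    by_cases h3 : n = 3
    · exfalso
      obtain ⟨t, ht⟩ := CL.SL2.exists_sl_orderOf_add_one (F := F)
      rw [hF, h3] at ht
      have h4 := CL.SL2.orderOf_psl_mk_of_odd (g := t) (by rw [ht]; decide)
      rw [ht, ← e.symm.orderOf_eq] at h4
      obtain ⟨x, hx⟩ := QuotientGroup.mk_surjective (e.symm t)
      have h5 : 9 ∣ orderOf (x : GL (Fin 5) (ZMod 2)) := by
        have := orderOf_map_dvd (QuotientGroup.mk' K) x
        rw [QuotientGroup.mk'_apply, hx, h4] at this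
        rwa [Subgroup.orderOf_coe]
      exact orderOf_ne_nine _ (orderOf_pow_orderOf_div (orderOf_pos _).ne' h5)
    exfalso
    interval_cases n <;> omega
  · exfalso
    rw [Nat.card_congr e.toEquiv, (Cfsg.Agent.S1163.result hm hF).1] at hdvd
    have h10 := hpow ((2 * m + 1) * 2) (by
      rw [pow_mul]
      exact ((Dvd.intro _ rfl).trans (Dvd.intro _ rfl)).trans hdvd)
    have : m ≤ 2 := by omega
    interval_cases m <;> omega
  · exfalso
    have hc := Cfsg.Agent.S0280.result (F := F) (q := 2 ^ n)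
      (by rw [hF, ← pow_mul, mul_comm, pow_mul]; norm_num) 3 (by norm_num)
    rw [← Nat.card_congr e.toEquiv] at hc
    have h1 : 2 ^ (n * 3) ∣ Nat.card (↥H ⧸ K) := by
      have h2 : 2 ^ (n * 3) ∣ Nat.gcd 3 (2 ^ n + 1) * (2 ^ n + 1) * Nat.card (↥H ⧸ K) := by
        rw [mul_assoc, hc, pow_mul]
        exact Dvd.intro _ rfl
      refine Nat.Coprime.dvd_of_dvd_mul_left (Nat.Coprime.pow_left _ (Nat.coprime_two_left.2 ?_)) h2
      have h3 : Odd (2 ^ n + 1) := Even.add_one ((Nat.even_pow' (by omega)).2 even_two)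
      exact (h3.of_dvd_nat (Nat.gcd_dvd_right _ _)).mul h3
    have h10 := hpow _ (h1.trans hdvd)
    have : n ≤ 3 := by omega
    generalize Nat.card (↥H ⧸ K) = c at hc hdvd
    interval_cases n
    · have : c = 62400 := by
        simp [Finset.prod_range_succ, Nat.even_iff] at hc
        omega
      subst this
      omega
    · have : c = 5515776 := by
        simp [Finset.prod_range_succ, Nat.even_iff] at hc
        omega
      subst this
      omega

end Cfsg.Agent.S3179
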