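import Cfsg.Statements.S3180
import Cfsg.Agent.Inv.WeakCl

set_option autoImplicit false
open Cfsg

namespace Cfsg.Agent.S3180

/-- Let P be a Sylow p-subgroup of a finite group J and P₁ a subgroup of P that is weakly closed in P with respect to J. If J acts on a set and two points, each fixed by every element of P₁, lie in one J-orbit, then they lie in one orbit of the normalizer of P₁ in J. -/
theorem result {J : Type*} [Group J] [Finite J]
    {p : ℕ} [Fact p.Prime] (P : Sylow p J) (P₁ : Subgroup J) (hW : Cfsg.IsWeaklyClosed P₁ (P : Subgroup J))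
    {Ω : Type*} [MulAction J Ω] (x y : Ω) (hx : ∀ g ∈ P₁, g • x = x) (hy : ∀ g ∈ P₁, g • y = y)
    (hc : ∃ g : J, g • x = y) :
    ∃ g ∈ Subgroup.normalizer (P₁ : Set J), g • x = y := by
  obtain ⟨g, hg⟩ := hc
  have hP₁ : IsPGroup p P₁ := P.isPGroup'.to_le hW.1
  obtain ⟨Q, hQ, hPQ⟩ := CL.Grp.exists_isSylowIn_ge (H := MulAction.stabilizer J y) hP₁ hy
  obtain ⟨h, hh, hle⟩ := hQ.exists_conj_le (CL.Grp.IsPGroup.conj_smul hP₁ g) (by
    rw [CL.Grp.conj_smul_le_iff]
    intro a ha
    rw [MulAction.mem_stabilizer_iff, ← hg, ← mul_smul, inv_mul_cancel_right, mul_smul, hx a ha])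
  rw [CL.Grp.conj_smul_conj_smul] at hle
  refine ⟨h * g, ?_, ?_⟩
  · rw [← CL.Grp.conj_smul_eq_self_iff]
    exact CL.Inv.weaklyClosed_conj_eq_self_of_le_pgroup P hW hQ.isPGroup hPQ hle
  · rw [mul_smul, hg]; exact hh

end Cfsg.Agent.S3180
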