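import Cfsg.Statements.S3184
import Cfsg.Agent.C2Low.Basic
import Cfsg.Agent.S3183

set_option autoImplicit false
open Cfsg
open CL.Inv.SE CL.C2Low CL.Grp

namespace Cfsg.Agent.S3184

/-- Let G be a finite group in which the intersection of any two distinct Sylow 2-subgroups is contained in the centre of some Sylow 2-subgroup, and let S be a Sylow 2-subgroup. If C is a nontrivial cyclic characteristic subgroup of S, then the involution of C is central modulo the largest normal subgroup of odd order of G: each of its conjugates has the same image in G/O(G). -/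
theorem result {G : Type*} [Group G] [Finite G]
    (hCI : ∀ S T : Sylow 2 G, S ≠ T → ∃ U : Sylow 2 G,
      (S : Subgroup G) ⊓ (T : Subgroup G) ≤ (Subgroup.center ↥(U : Subgroup G)).map (U : Subgroup G).subtype)
    (S : Sylow 2 G) (C : Subgroup ↥(S : Subgroup G)) (hC : C ≠ ⊥) (hCc : IsCyclic ↥C) (hCh : C.Characteristic)
    (c : ↥(S : Subgroup G)) (hc : c ∈ C) (hc2 : orderOf c = 2) :
    ∀ g : G, (QuotientGroup.mk (s := Cfsg.oddCore G) (g * (c : G) * g⁻¹)) =
      QuotientGroup.mk (s := Cfsg.oddCore G) (c : G) := by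
  have hfix : ∀ φ : MulAut ↥(S : Subgroup G), φ c = c := fun φ => by
    have h1 : φ c ∈ C := by
      have := hCh.fixed φ
      rw [← this] at hc
      exact hc
    have h2 : orderOf (⟨φ c, h1⟩ : C) = 2 := by
      rw [← Subgroup.orderOf_coe]
      simpa using hc2
    have h3 : orderOf (⟨c, hc⟩ : C) = 2 := by rwa [← Subgroup.orderOf_coe]
    classical
    have := Fintype.ofFinite C
    have h4 := IsCyclic.card_orderOf_eq_totient (α := C) (d := 2) (h3.symm.dvd.trans orderOf_dvd_card)
    rw [Nat.totient_two, Finset.card_eq_one] at h4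
    obtain ⟨a, ha⟩ := h4
    have h5 : (⟨φ c, h1⟩ : C) ∈ ({a} : Finset C) := ha ▸ by simpa using h2
    have h6 : (⟨c, hc⟩ : C) ∈ ({a} : Finset C) := ha ▸ by simpa using h3
    rw [Finset.mem_singleton] at h5 h6
    exact congrArg Subtype.val (h5.trans h6.symm)
  have hN : ∀ n ∈ Subgroup.normalizer ((S : Subgroup G) : Set G), n * (c : G) * n⁻¹ = c := fun n hn =>
    congrArg Subtype.val (hfix ((S : Subgroup G).normalizerMonoidHom ⟨n, hn⟩))
  have hcen : ∀ s ∈ (S : Subgroup G), s * (c : G) = c * s := fun s hs => by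
    have := hN s (Subgroup.le_normalizer hs)
    rw [mul_inv_eq_iff_eq_mul] at this
    exact this
  have ho : orderOf (c : G) = 2 := by rwa [Subgroup.orderOf_coe]
  have hiso : IsIsolatedInvolution (c : G) := by
    refine isolated_of_sylow S ho hcen fun g hg => ?_
    by_cases hgS : g • S = S
    · exact hN g (Sylow.smul_eq_iff_mem_normalizer.1 hgS)
    · have h1 := ((Cfsg.Agent.S3183.result hCI S).2 (g • S) hgS ⟨hg, conj_mem_conj_smul g c.2⟩).1
      obtain ⟨n, hn, e⟩ := exists_normalizer_conj S hcen (mem_center_map_iff.1 h1).2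
      rw [← e, hN n hn]
  intro g
  rw [eq_comm, QuotientGroup.eq]
  have h := CL.Inv.zstar_mem_oddCore hiso g
  rw [inv_eq_of_inv ho] at h ⊢
  simpa [mul_assoc] using h

end Cfsg.Agent.S3184
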