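import Cfsg.Statements.S3190
import Cfsg.Agent.Inv.WeakCl
import Cfsg.Agent.Grp.PGroupBasic

set_option autoImplicit false
open Cfsg

namespace Cfsg.Agent.S3190

/-- Let p be an odd prime and, inside a finite group, let P be a p-subgroup normalized by a Klein four-group T. Let R be a subgroup of P, normal in P and normalized by T, such that P is the product of R with the centralizer of T in P. If T centralizes the centre of P, then T centralizes the centre of R. -/
theorem result {X : Type*} [Group X] [Finite X]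
    {p : ℕ} (hp : p.Prime) (hodd : Odd p) (P T R : Subgroup X) (hP : IsPGroup p ↥P) (hT : IsKleinFour ↥T)
    (hTP : T ≤ Subgroup.normalizer (P : Set X)) (hRP : R ≤ P) (hRn : (R.subgroupOf P).Normal)
    (hTR : T ≤ Subgroup.normalizer (R : Set X)) (hfac : R ⊔ (P ⊓ Subgroup.centralizer (T : Set X)) = P)
    (hZ : T ≤ Subgroup.centralizer (((Subgroup.center ↥P).map P.subtype : Subgroup X) : Set X)) :
    T ≤ Subgroup.centralizer (((Subgroup.center ↥R).map R.subtype : Subgroup X) : Set X) := by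
  have := Fact.mk hp
  have hmem : ∀ (U : Subgroup X) (x : X), x ∈ (Subgroup.center U).map U.subtype ↔
      x ∈ U ∧ ∀ u ∈ U, u * x = x * u := by
    intro U x
    constructor
    · rintro ⟨y, hy, rfl⟩
      exact ⟨y.2, fun u hu => congrArg Subtype.val (Subgroup.mem_center_iff.1 hy ⟨u, hu⟩)⟩
    · rintro ⟨hx, h⟩
      exact ⟨⟨x, hx⟩, Subgroup.mem_center_iff.2 fun u => Subtype.ext (h u u.2), rfl⟩
  intro t ht
  have ht2 : t * t = 1 := congrArg Subtype.val (IsKleinFour.mul_self (⟨t, ht⟩ : T))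
  have hti := CL.Inv.inv_eq_self_of_mul_self ht2
  -- the elements of the centre of `R` inverted by `t`
  let I : Subgroup X :=
    { carrier := {v | (v ∈ R ∧ ∀ u ∈ R, u * v = v * u) ∧ t * v * t⁻¹ = v⁻¹}
      one_mem' := ⟨⟨R.one_mem, by simp⟩, by simp⟩
      mul_mem' := by
        rintro a b ⟨⟨haR, ha⟩, hat⟩ ⟨⟨hbR, hb⟩, hbt⟩
        refine ⟨⟨R.mul_mem haR hbR, fun u hu => ?_⟩, ?_⟩
        · rw [← mul_assoc, ha u hu, mul_assoc, hb u hu, mul_assoc]
        · rw [← ha b hbR, mul_inv_rev, ← hat, ← hbt, ha b hbR]; group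
      inv_mem' := by
        rintro a ⟨⟨haR, ha⟩, hat⟩
        refine ⟨⟨R.inv_mem haR, fun u hu => (Commute.inv_right (ha u hu)).eq⟩, ?_⟩
        calc t * a⁻¹ * t⁻¹ = (t * a * t⁻¹)⁻¹ := by group
          _ = _ := by rw [hat] }
  have hIP : I ≤ P := fun v hv => hRP hv.1.1
  have hPR : P ≤ Subgroup.normalizer (R : Set X) := (Subgroup.normal_subgroupOf_iff_le_normalizer hRP).1 hRn
  have hconj : ∀ g ∈ Subgroup.normalizer (R : Set X), ∀ v, (v ∈ R ∧ ∀ u ∈ R, u * v = v * u) →
      (g * v * g⁻¹ ∈ R ∧ ∀ u ∈ R, u * (g * v * g⁻¹) = (g * v * g⁻¹) * u) := by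
    rintro g hg v ⟨hvR, hv⟩
    refine ⟨CL.Loc.conj_mem_of_mem_normalizer hg hvR, fun u hu => ?_⟩
    have := hv _ (CL.Loc.inv_conj_mem_of_mem_normalizer hg hu)
    calc u * (g * v * g⁻¹) = g * (g⁻¹ * u * g * v) * g⁻¹ := by group
      _ = _ := by rw [this]; group
  have hPI : P ≤ Subgroup.normalizer (I : Set X) := by
    rw [← hfac, sup_le_iff]
    constructor
    · intro r hr
      apply Subgroup.centralizer_le_normalizer
      intro v hv
      exact (hv.1.2 r hr).symm
    · rintro c ⟨hcP, hcT⟩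
      apply Subgroup.mem_normalizer_fintype
      rintro v ⟨hv, hvt⟩
      refine ⟨hconj c (hPR hcP) v hv, ?_⟩
      have hct : t * c = c * t := hcT t ht
      calc t * (c * v * c⁻¹) * t⁻¹ = (t * c) * v * (t * c)⁻¹ := by group
        _ = c * (t * v * t⁻¹) * c⁻¹ := by rw [hct]; group
        _ = _ := by rw [hvt]; group
  have hI : I = ⊥ := by
    by_contra hne
    have : Group.IsNilpotent P := hP.isNilpotent
    have hn : (I.subgroupOf P).Normal := (Subgroup.normal_subgroupOf_iff_le_normalizer hIP).2 hPI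
    have h1 : I.subgroupOf P ≠ ⊥ := by
      rwa [Ne, Subgroup.subgroupOf_eq_bot, disjoint_iff, inf_eq_left.2 hIP]
    obtain ⟨⟨v, hvI, hvZ⟩, hv1⟩ := Subgroup.ne_bot_iff_exists_ne_one.1 (CL.Grp.inf_center_ne_bot h1)
    have h2 : (v : X) * t = t * v := hZ ht v ⟨v, hvZ, rfl⟩
    have h3 : t * (v : X) * t⁻¹ = (v : X)⁻¹ := hvI.2
    rw [← h2, mul_inv_cancel_right] at h3
    obtain ⟨k, hk⟩ := hP v
    have h4 : v ^ 2 = 1 := by
      rw [pow_two]; exact Subtype.ext (mul_eq_one_iff_eq_inv.2 h3)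
    have h5 := pow_gcd_eq_one.2 ⟨hk, h4⟩
    rw [Nat.coprime_two_right.2 hodd.pow, pow_one] at h5
    exact hv1 (Subtype.ext h5)
  intro v hv
  have hv' := (hmem R v).1 hv
  have hw := hconj t (hTR ht) v hv'
  have h1 : v⁻¹ * (t * v * t⁻¹) ∈ I := by
    refine ⟨⟨R.mul_mem (R.inv_mem hv'.1) hw.1, fun u hu => ?_⟩, ?_⟩
    · exact ((Commute.inv_right (hv'.2 u hu)).mul_right (hw.2 u hu)).eq
    · rw [hti]
      calc t * (v⁻¹ * (t * v * t)) * t = t * v⁻¹ * t * v * (t * t) := by group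
        _ = (v⁻¹ * (t⁻¹ * v * t⁻¹))⁻¹ := by rw [ht2]; group
        _ = _ := by rw [hti]
  rw [hI, Subgroup.mem_bot] at h1
  calc v * t = v * (v⁻¹ * (t * v * t⁻¹)) * t := by rw [h1, mul_one]
    _ = _ := by group

end Cfsg.Agent.S3190
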