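import Cfsg.Statements.S3191
import Cfsg.Agent.Altn.Model2

set_option autoImplicit false
open Cfsg

namespace Cfsg.Agent.S3191

/-- Let n ≥ 1 and r = 2 or 3, and let H be the centralizer in the alternating group of degree 4n + r of an involution moving exactly 4n points (a product of 2n disjoint transpositions). Let G be a finite group that has no normal subgroup of index 2 and that contains an involution t which is central in some Sylow 2-subgroup of G and whose centralizer is isomorphic to H. Then G has exactly n conjugacy classes of involutions. -/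
theorem result (n r : ℕ) (hn : 1 ≤ n) (hr : r = 2 ∨ r = 3)
    (α : ↥(alternatingGroup (Fin (4 * n + r)))) (hα : orderOf α = 2)
    (hα4 : (α : Equiv.Perm (Fin (4 * n + r))).support.card = 4 * n)
    {G : Type*} [Group G] [Finite G] (h2 : ∀ H : Subgroup G, H.Normal → H.index ≠ 2)
    (t : G) (ht : orderOf t = 2) (S : Sylow 2 G) (htS : t ∈ (S : Subgroup G))
    (htZ : ∀ s ∈ (S : Subgroup G), s * t = t * s)
    (hiso : Nonempty (↥(Subgroup.centralizer ({t} : Set G)) ≃*
      ↥(Subgroup.centralizer ({α} : Set ↥(alternatingGroup (Fin (4 * n + r))))))) :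
    Nat.card {c : ConjClasses G // ∃ x ∈ c.carrier, orderOf x = 2} = n := by
    obtain ⟨e⟩ := hiso
    obtain ⟨E⟩ := CL.Altn.exists_emb e
    obtain ⟨r, rfl⟩ : ∃ s, r = s + 2 := ⟨r - 2, by omega⟩
    have h1 : (α : Equiv.Perm (Fin (4 * n + (r + 2)))) * α = 1 := by
      rw [← Subgroup.coe_mul, ← sq, orderOf_dvd_iff_pow_eq_one.1 hα.dvd]; rfl
    obtain ⟨E'⟩ := E.exists_std (ι := Fin n) (R := Fin (r + 2)) h1 Finset.univ (by simp) (by simpa using hα4)
    simpa using CL.Altn.card_classes_alt h2 ht E' (a := 0) (b := 1) (by simp) (by simp; omega)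

end Cfsg.Agent.S3191
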