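import Cfsg.Statements.S3195
import Cfsg.Agent.Inv.Misc1
import Cfsg.Agent.Inv.BaerSuzuki

set_option autoImplicit false
open Cfsg

namespace Cfsg.Agent.S3195

open Subgroup CL.Inv CL.Grp

theorem commute_of_pow_two_pow {G : Type*} [Group G] {x e : G} (hx : Odd (orderOf x)) (k : ℕ)
    (h : Commute e (x ^ 2 ^ k)) : Commute e x := by
  obtain ⟨m, hm⟩ := exists_pow_eq_self_of_coprime (x := x) (n := 2 ^ k)
    (Nat.Coprime.pow_left k hx.coprime_two_left)
  rw [← hm]
  exact h.pow_right m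

theorem eq_one_of_four {G : Type*} [Group G] {x : G} (hx : Odd (orderOf x)) (h : x ^ 4 = 1) : x = 1 :=
  orderOf_eq_one_iff.1 (Nat.Coprime.eq_one_of_dvd (hx.coprime_two_right.pow_right 2)
    (orderOf_dvd_of_pow_eq_one h))

/-- If `w` inverts `v`, the conjugate `v w v⁻¹` is `v² w`. -/
theorem conj_eq_sq_mul {G : Type*} [Group G] {v w : G} (h : w * v * w⁻¹ = v⁻¹) :
    v * w * v⁻¹ = v ^ 2 * w := by
  rw [← h]
  have : w * v * w⁻¹ * v = 1 := by rw [h, inv_mul_cancel]
  calc v * w * (w * v * w⁻¹) = v * w * (w * v * w⁻¹) := rfl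
    _ = v * w * v⁻¹ := by rw [h]
    _ = v * (w * v⁻¹ * w⁻¹) * w := by group
    _ = v * (w * v * w⁻¹)⁻¹ * w := by group
    _ = v ^ 2 * w := by rw [h, inv_inv, pow_two]

/-- Let A be a Klein four-subgroup of a finite group G. If every G-conjugate of every involution of A commutes with some involution of A (its centralizer meets A nontrivially), then A meets the largest normal 2-subgroup O₂(G) nontrivially. -/
theorem result {G : Type*} [Group G] [Finite G]
    (A : Subgroup G) (hA : IsKleinFour ↥A)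
    (h : ∀ a ∈ A, a ≠ 1 → ∀ g : G, A ⊓ Subgroup.centralizer ({g * a * g⁻¹} : Set G) ≠ ⊥) :
    A ⊓ Cfsg.pCore 2 G ≠ ⊥ := by
  intro hbot
  have hsq : ∀ a ∈ A, a * a = 1 := fun a ha => IsKleinFour.mul_self_of_mem hA ha
  have hinv : ∀ a ∈ A, a⁻¹ = a := fun a ha => inv_eq_of_mul_eq_one_right (hsq a ha)
  have hcomm : ∀ a ∈ A, ∀ b ∈ A, a * b = b * a := by
    intro a ha b hb
    rw [← hinv _ (mul_mem ha hb), mul_inv_rev, hinv a ha, hinv b hb]
  have hall : ∀ a ∈ A, ∀ b ∈ A, a ≠ 1 → b ≠ 1 → a ≠ b → ∀ c ∈ A, c = 1 ∨ c = a ∨ c = b ∨ c = a * b := by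
    intro a ha b hb ha1 hb1 hab c hc
    by_contra hne
    push Not at hne
    have := IsKleinFour.eq_mul_of_ne_all (G := A) (x := ⟨a, ha⟩) (y := ⟨b, hb⟩) (z := ⟨c, hc⟩)
      (fun h => ha1 (congrArg Subtype.val h)) (fun h => hb1 (congrArg Subtype.val h))
      (fun h => hab (congrArg Subtype.val h)) (fun h => hne.1 (congrArg Subtype.val h))
      (fun h => hne.2.1 (congrArg Subtype.val h)) (fun h => hne.2.2.1 (congrArg Subtype.val h))
    exact hne.2.2.2 (congrArg Subtype.val this)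
  have h' : ∀ a ∈ A, a ≠ 1 → ∀ g : G, ∃ b ∈ A, b ≠ 1 ∧ Commute b (g * a * g⁻¹) := by
    intro a ha ha1 g
    obtain ⟨⟨b, hb⟩, hb1⟩ := (ne_bot_iff_exists_ne_one).1 (h a ha ha1 g)
    exact ⟨b, hb.1, fun h => hb1 (Subtype.ext h), mem_centralizer_singleton_iff.1 hb.2⟩
  -- `w` inverting `v ≠ 1` of odd order does not commute with `v² w`
  have hnc : ∀ v w : G, Odd (orderOf v) → v ≠ 1 → w * v * w⁻¹ = v⁻¹ → ¬ Commute w (v ^ 2 * w) := by
    intro v w hv hv1 hw hc
    apply hv1 (eq_one_of_four hv _)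
    have h1 : w * v ^ 2 * w⁻¹ = v ^ 2 := by
      have := hc.eq
      rw [← mul_assoc, mul_left_inj] at this
      rw [this, mul_inv_cancel_right]
    rw [← conj_pow, hw, inv_pow, inv_eq_iff_mul_eq_one, ← pow_add] at h1
    exact h1
  have key : ∀ a ∈ A, a ≠ 1 → ∃ x : G, x ≠ 1 ∧ Odd (orderOf x) ∧ ∃ b ∈ A, b ≠ 1 ∧ b ≠ a ∧
      Commute b x ∧ ∀ c ∈ A, c ≠ 1 → c ≠ b → c * x * c⁻¹ = x⁻¹ := by
    intro a ha ha1
    obtain ⟨x, hx1, hx, hax, -⟩ := invol_inverts_odd_of_not_mem (hsq a ha) (fun hp => by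
      have h1 : a ∈ A ⊓ pCore 2 G := ⟨ha, le_pCore hp (subset_normalClosure (Set.mem_singleton a))⟩
      rw [hbot, mem_bot] at h1
      exact ha1 h1)
    obtain ⟨b, hb, hb1, hc⟩ := h' a ha ha1 x
    rw [conj_eq_sq_mul hax] at hc
    have hba : b ≠ a := by
      rintro rfl
      exact hnc x b hx hx1 hax hc
    have hbx : Commute b x := by
      refine commute_of_pow_two_pow hx 1 ?_
      have : Commute b (x ^ 2 * a * a⁻¹) := hc.mul_right (Commute.inv_right (hcomm b hb a ha))
      simpa using this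
    refine ⟨x, hx1, hx, b, hb, hb1, hba, hbx, fun c hc hc1 hcb => ?_⟩
    rcases hall a ha b hb ha1 hb1 hba.symm c hc with h | h | h | h
    · exact absurd h hc1
    · rw [h, hax]
    · exact absurd h hcb
    · rw [h, mul_inv_rev, ← hax, mul_assoc a b, hbx.eq]
      group
  haveI : Nontrivial A := Finite.one_lt_card_iff_nontrivial.1 (by rw [hA.card_four]; norm_num)
  obtain ⟨⟨a, ha⟩, ha1⟩ := exists_ne (1 : A)
  have ha1' : a ≠ 1 := fun h => ha1 (Subtype.ext h)
  obtain ⟨x, hx1, hx, b, hb, hb1, hba, hbx, hxinv⟩ := key a ha ha1'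
  obtain ⟨y, hy1, hy, b', hb', hb1', hbb', hby', hyinv⟩ := key b hb hb1
  have hby := hyinv b hb hb1 hbb'.symm
  have hax := hxinv a ha ha1' hba.symm
  set e := y ^ 2 * b with he
  have hbe : ¬ Commute b e := hnc y b hy hy1 hby
  have step : ∀ i : ℕ, Commute e (x ^ (2 * i) * a) ∨ Commute e (x ^ (2 * i) * a * b) := by
    intro i
    obtain ⟨c, hc, hc1, hce⟩ := h' b hb hb1 ((x ^ i)⁻¹ * y)
    have h1 : Commute (x ^ i * c * (x ^ i)⁻¹) e := by
      have := hce.map (MulAut.conj (x ^ i))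
      simp only [MulAut.conj_apply] at this
      rw [he, ← conj_eq_sq_mul hby]
      convert this using 1
      group
    have h2 : x ^ i * a * (x ^ i)⁻¹ = x ^ (2 * i) * a := by
      rw [conj_eq_sq_mul (by rw [← conj_pow, hax, inv_pow]), ← pow_mul, mul_comm i 2]
    have h3 : x ^ i * b * (x ^ i)⁻¹ = b := by
      rw [← (hbx.pow_right i).eq, mul_inv_cancel_right]
    rcases hall a ha b hb ha1' hb1 hba.symm c hc with h | h | h | h
    · exact absurd h hc1
    · left; rw [← h2, ← h]; exact h1.symm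
    · rw [h, h3] at h1; exact absurd h1 hbe
    · right
      rw [← h2]
      nth_rewrite 1 [← h3]
      rw [h] at h1
      convert h1.symm using 1
      group
  have hex : Commute e x := by
    have q : ∀ (i j : ℕ) (u : G), Commute e (x ^ (2 * (i + j)) * u) → Commute e (x ^ (2 * i) * u) →
        Commute e (x ^ (2 * j)) := by
      intro i j u h1 h2
      have e1 : x ^ (2 * j) = x ^ (2 * (i + j)) * u * (x ^ (2 * i) * u)⁻¹ := by
        rw [mul_add, add_comm, pow_add]
        group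
      rw [e1]
      exact h1.mul_right h2.inv_right
    have s0 := step 0
    have s1 := step 1
    have s2 := step 2
    simp only [mul_assoc] at s0 s1 s2
    rcases s0 with s0 | s0 <;> rcases s1 with s1 | s1 <;> rcases s2 with s2 | s2 <;>
    first
    | exact commute_of_pow_two_pow hx 1 (q 0 1 _ s1 s0)
    | exact commute_of_pow_two_pow hx 1 (q 1 1 _ s2 s1)
    | exact commute_of_pow_two_pow hx 2 (q 0 2 _ s2 s0)
  have hxy : Commute x y := by
    refine commute_of_pow_two_pow hy 1 ?_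
    have : Commute x (e * b⁻¹) := hex.symm.mul_right hbx.symm.inv_right
    simpa [he] using this
  have hw1 : b * b' ≠ 1 := fun h => hbb' (by rw [← hinv b hb]; exact eq_inv_of_mul_eq_one_right h)
  have hwx := hxinv _ (mul_mem hb hb') hw1 (by simpa using hb1')
  have hwy := hyinv _ (mul_mem hb hb') hw1 (by simpa using hb1)
  have hb'x := hxinv _ hb' hb1' hbb'
  set w := b * b' with hw
  have hwv : w * (x * y) * w⁻¹ = (x * y)⁻¹ := by
    calc w * (x * y) * w⁻¹ = (w * x * w⁻¹) * (w * y * w⁻¹) := by group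
      _ = (y * x)⁻¹ := by rw [hwx, hwy, mul_inv_rev]
      _ = _ := by rw [hxy.eq]
  have hv : Odd (orderOf (x * y)) := (hx.mul hy).of_dvd_nat hxy.orderOf_mul_dvd_mul_orderOf
  obtain ⟨c, hc, hc1, hce⟩ := h' w (mul_mem hb hb') hw1 (x * y)
  rw [conj_eq_sq_mul hwv] at hce
  have hcv : Commute c (x * y) := by
    refine commute_of_pow_two_pow hv 1 ?_
    have : Commute c ((x * y) ^ 2 * w * w⁻¹) :=
      hce.mul_right (Commute.inv_right (hcomm c hc w (mul_mem hb hb')))
    simpa using this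
  have odd_inv : ∀ u : G, Odd (orderOf u) → u⁻¹ = u → u = 1 := by
    intro u hu h
    apply eq_one_of_four hu
    rw [inv_eq_iff_mul_eq_one] at h
    rw [show 4 = 2 * 2 from rfl, pow_mul, pow_two u, h, one_pow]
  rcases hall b hb b' hb' hb1 hb1' hbb'.symm c hc with h | h | h | h
  · exact hc1 h
  · subst h
    have h1 : Commute c y := by
      have := hbx.inv_right.mul_right hcv
      simpa using this
    apply hy1 (odd_inv y hy _)
    rw [← hby, h1.eq, mul_inv_cancel_right]
  · subst h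
    have h1 : Commute c x := by
      have := hcv.mul_right hby'.inv_right
      simpa using this
    apply hx1 (odd_inv x hx _)
    rw [← hb'x, h1.eq, mul_inv_cancel_right]
  · rw [← hw] at h
    subst h
    have h1 : x * y = 1 := by
      apply odd_inv _ hv
      rw [← hwv, hcv.eq, mul_inv_cancel_right]
    have h2 : y = x⁻¹ := eq_inv_of_mul_eq_one_right h1
    apply hy1 (odd_inv y hy _)
    rw [← hby, h2, hbx.inv_right.eq, mul_inv_cancel_right]

end Cfsg.Agent.S3195
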