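import Cfsg.Statements.S3196
import Cfsg.Agent.Inv.Misc1
import Cfsg.Agent.Inv.BaerSuzuki

set_option autoImplicit false
open Cfsg

namespace Cfsg.Agent.S3196

open Subgroup CL.Inv CL.Grp
open scoped Pointwise

theorem comm_zpow_right {G : Type*} [Group G] {a b : G} (h : Commute (a * b * a⁻¹ * b⁻¹) b) (i : ℤ) :
    a * b ^ i * a⁻¹ * (b ^ i)⁻¹ = (a * b * a⁻¹ * b⁻¹) ^ i := by
  rw [← conj_zpow]
  have : a * b * a⁻¹ = (a * b * a⁻¹ * b⁻¹) * b := by group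
  conv_lhs => rw [this, h.mul_zpow]
  group

theorem comm_mem_zpowers {G : Type*} [Group G] {a b : G} (ha : Commute (a * b * a⁻¹ * b⁻¹) a)
    (hb : Commute (a * b * a⁻¹ * b⁻¹) b) {a' b' : G} (ha' : a' ∈ zpowers a) (hb' : b' ∈ zpowers b) :
    a' * b' * a'⁻¹ * b'⁻¹ ∈ zpowers (a * b * a⁻¹ * b⁻¹) := by
  obtain ⟨i, rfl⟩ := ha'
  obtain ⟨j, rfl⟩ := hb'
  simp only
  have h1 := comm_zpow_right hb j
  have h2 : b ^ j * a * (b ^ j)⁻¹ * a⁻¹ = ((a * b * a⁻¹ * b⁻¹) ^ j)⁻¹ := by rw [← h1]; group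
  have h3 := comm_zpow_right (a := b ^ j) (b := a) (by rw [h2]; exact (ha.zpow_left j).inv_left) i
  have h4 : a ^ i * b ^ j * (a ^ i)⁻¹ * (b ^ j)⁻¹ = (b ^ j * a ^ i * (b ^ j)⁻¹ * (a ^ i)⁻¹)⁻¹ := by
    group
  rw [h4, h3, h2]
  exact inv_mem (zpow_mem (inv_mem (zpow_mem (mem_zpowers _) j)) i)

theorem comm_of_mem {G : Type*} [Group G] {x u w : G} (hu : u ∈ zpowers x) (h : Commute x w) :
    Commute u w := by
  obtain ⟨i, rfl⟩ := hu
  exact h.zpow_left i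

/-- The geometric core: a one-or-all geometry of elements has a radical point. -/
theorem exists_radical {G : Type*} [Group G] (D : Set G)
    (hup : ∀ x ∈ D, ∀ u ∈ zpowers x, u ≠ 1 → x ∈ zpowers u)
    (hpow : ∀ x ∈ D, ∀ u ∈ zpowers x, u ≠ 1 → u ∈ D)
    (hconj : ∀ x ∈ D, ∀ g : G, g * x * g⁻¹ ∈ D)
    (L1 : ∀ x ∈ D, ∀ y ∈ D, Commute x y → zpowers x ≠ zpowers y →
      ∀ u ∈ zpowers x, ∀ v ∈ zpowers y, u * v ≠ 1 → u * v ∈ D)
    (L2 : ∀ x ∈ D, ∀ y ∈ D, Commute x y → zpowers x ≠ zpowers y → ∀ w ∈ D,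
      ∃ u ∈ zpowers x, ∃ v ∈ zpowers y, u * v ≠ 1 ∧ Commute (u * v) w)
    {x₀ y₀ : G} (hx₀ : x₀ ∈ D) (hy₀ : y₀ ∈ D) (hc₀ : Commute x₀ y₀) (hne₀ : zpowers x₀ ≠ zpowers y₀) :
    ∃ v ∈ D, ∀ w ∈ D, Commute v w := by
  by_contra hno
  push Not at hno
  have up : ∀ x ∈ D, ∀ u ∈ zpowers x, u ≠ 1 → ∀ w, Commute u w → Commute x w :=
    fun x hx u hu hu1 w h => comm_of_mem (hup x hx u hu hu1) h
  have ne : ∀ x y w : G, Commute x w → ¬ Commute y w → zpowers x ≠ zpowers y :=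
    fun x y w h1 h2 h => h2 (comm_of_mem (h ▸ mem_zpowers y) h1)
  -- a point `u * v` of the line commuting with `w`, when `x` does not, has `v ≠ 1`
  have L3 : ∀ x ∈ D, ∀ y ∈ D, Commute x y → zpowers x ≠ zpowers y → ∀ w ∈ D, ¬ Commute x w →
      ∃ u ∈ zpowers x, ∃ v ∈ zpowers y, v ≠ 1 ∧ u * v ∈ D ∧ Commute (u * v) w := by
    intro x hx y hy hc hne w hw hxw
    obtain ⟨u, hu, v, hv, h1, h2⟩ := L2 x hx y hy hc hne w hw
    refine ⟨u, hu, v, hv, ?_, L1 x hx y hy hc hne u hu v hv h1, h2⟩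
    rintro rfl
    rw [mul_one] at h1 h2
    exact hxw (up x hx u hu h1 w h2)
  obtain ⟨u₀, hu₀, hyu⟩ := hno y₀ hy₀
  obtain ⟨a, ha, b, hb, -, hx, hxu₀⟩ := L3 y₀ hy₀ x₀ hx₀ hc₀.symm hne₀.symm u₀ hu₀ hyu
  have hxy₀ : Commute (a * b) y₀ :=
    (comm_of_mem ha (Commute.refl _)).mul_left (comm_of_mem hb hc₀)
  set x := a * b
  obtain ⟨w, hw, hxw⟩ := hno x hx
  obtain ⟨a₁, ha₁, b₁, hb₁, hb1, hy, hyw⟩ := L3 x hx y₀ hy₀ hxy₀ (ne _ _ _ hxu₀ hyu) w hw hxw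
  obtain ⟨a₂, ha₂, c₂, hc₂, hc1, hu, huw⟩ := L3 x hx u₀ hu₀ hxu₀
    (ne _ _ _ hxy₀ (fun h => hyu h.symm)) w hw hxw
  have hxy : Commute x (a₁ * b₁) :=
    (comm_of_mem ha₁ (Commute.refl _)).symm.mul_right (comm_of_mem hb₁ hxy₀.symm).symm
  have hxu : Commute x (a₂ * c₂) :=
    (comm_of_mem ha₂ (Commute.refl _)).symm.mul_right (comm_of_mem hc₂ hxu₀.symm).symm
  have hyu' : ¬ Commute (a₁ * b₁) (a₂ * c₂) := by
    intro h
    have h1 : Commute b₁ (a₂ * c₂) := by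
      simpa using (comm_of_mem ha₁ hxu).inv_left.mul_left h
    have h2 : Commute c₂ b₁ := by
      simpa using (comm_of_mem ha₂ (comm_of_mem hb₁ hxy₀.symm).symm).inv_left.mul_left h1.symm
    exact hyu (up y₀ hy₀ b₁ hb₁ hb1 u₀ (up u₀ hu₀ c₂ hc₂ hc1 b₁ h2).symm)
  set y := a₁ * b₁
  set u := a₂ * c₂
  have hxyD : x * y ∈ D := by
    refine L1 x hx y hy hxy (ne _ _ _ hyw hxw).symm x (mem_zpowers x) y (mem_zpowers y) ?_
    intro h
    apply hxw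
    rw [eq_inv_of_mul_eq_one_left h]
    exact hyw.inv_left
  have huxy : ¬ Commute u (x * y) := by
    intro h
    apply hyu'
    simpa using (hxu.inv_left.mul_left h.symm)
  obtain ⟨u₁, hu₁, w₁, hw₁, hw1, -, hcomm⟩ := L3 u hu w hw huw
    (ne _ _ _ hxu.symm (fun h => hxw h.symm)) (x * y) hxyD huxy
  have hw₁D : w₁ ∈ D := hpow w hw w₁ hw₁ hw1
  have hxw₁ : ¬ Commute x w₁ := fun h => hxw (up w hw w₁ hw₁ hw1 x h.symm).symm
  have e1 : Commute u₁ x := comm_of_mem hu₁ hxu.symm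
  have e2 : Commute w₁ y := comm_of_mem hw₁ hyw.symm
  have e3 : Commute u₁ w₁ := comm_of_mem hu₁ (comm_of_mem hw₁ huw.symm).symm
  set c := w₁ * x * w₁⁻¹ * x⁻¹ with hc
  have hd : Commute (y * u₁ * y⁻¹ * u₁⁻¹) x ∧ Commute (y * u₁ * y⁻¹ * u₁⁻¹) w₁ :=
    ⟨((hxy.symm.mul_left e1).mul_left hxy.symm.inv_left).mul_left e1.inv_left,
      ((e2.symm.mul_left e3).mul_left e2.symm.inv_left).mul_left e3.inv_left⟩
  have hcd : c = y * u₁ * y⁻¹ * u₁⁻¹ := by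
    have h1 : w₁ * x * (u₁ * y) = x * w₁ * (y * u₁) := by
      calc w₁ * x * (u₁ * y) = w₁ * (x * u₁) * y := by group
        _ = (w₁ * u₁) * (x * y) := by rw [← e1.eq]; group
        _ = x * y * (u₁ * w₁) := by rw [← e3.eq, hcomm.eq]
        _ = x * (y * w₁) * u₁ := by rw [e3.eq]; group
        _ = _ := by rw [← e2.eq]; group
    have h2 : w₁ * x = x * w₁ * (y * u₁ * y⁻¹ * u₁⁻¹) := by
      calc w₁ * x = w₁ * x * (u₁ * y) * (u₁ * y)⁻¹ := by group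
        _ = _ := by rw [h1]; group
    rw [hc, h2, ← (hd.1.mul_right hd.2).eq]
    group
  have hcx : Commute c x := hcd ▸ hd.1
  have hcw : Commute c w₁ := hcd ▸ hd.2
  have hc1' : c ≠ 1 := by
    intro h
    apply hxw₁
    rw [hc, mul_inv_eq_one, mul_inv_eq_iff_eq_mul] at h
    exact h.symm
  have hcD : c ∈ D := by
    have h1 : w₁ * x * w₁⁻¹ = c * x := by rw [hc]; group
    refine L1 _ (hconj x hx w₁) x hx (h1 ▸ hcx.mul_left (Commute.refl x)) ?_ _ (mem_zpowers _) _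
      (inv_mem (mem_zpowers x)) hc1'
    intro h
    have h2 : c ∈ zpowers x := mul_mem (h ▸ mem_zpowers _) (inv_mem (mem_zpowers x))
    exact hxw₁ (up x hx c h2 hc1' _ hcw)
  obtain ⟨t, ht, hct⟩ := hno c hcD
  obtain ⟨c₃, hc₃, x₂, hx₂, hx1, -, h3⟩ := L3 c hcD x hx hcx (ne _ _ _ hcw hxw₁) t ht hct
  obtain ⟨c₄, hc₄, w₂, hw₂, hw2, -, h4⟩ := L3 c hcD w₁ hw₁D hcw
    (ne _ _ _ hcx (fun h => hxw₁ h.symm)) t ht hct
  have hmem := comm_mem_zpowers hcw hcx hw₂ hx₂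
  refine hct (up c hcD _ hmem ?_ t ?_)
  · intro h
    rw [mul_inv_eq_one, mul_inv_eq_iff_eq_mul] at h
    exact hxw₁ (up x hx x₂ hx₂ hx1 _ (up w₁ hw₁D w₂ hw₂ hw2 x₂ h).symm)
  · have f1 : Commute c₃ w₂ := comm_of_mem hc₃ (comm_of_mem hw₂ hcw.symm).symm
    have f2 : Commute c₄ x₂ := comm_of_mem hc₄ (comm_of_mem hx₂ hcx.symm).symm
    have f3 : Commute c₄ w₂ := comm_of_mem hc₄ (comm_of_mem hw₂ hcw.symm).symm
    have f4 : Commute c₃ x₂ := comm_of_mem hc₃ (comm_of_mem hx₂ hcx.symm).symm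
    have f5 : Commute c₃ c₄ := comm_of_mem hc₃ (comm_of_mem hc₄ (Commute.refl c)).symm
    have e : w₂ * x₂ * w₂⁻¹ * x₂⁻¹ = (c₄ * w₂) * (c₃ * x₂) * (c₄ * w₂)⁻¹ * (c₃ * x₂)⁻¹ := by
      have g1 : c₄ * w₂ * (c₃ * x₂) = c₃ * (w₂ * x₂) * c₄ := by
        rw [f3.eq, f4.eq]
        calc w₂ * c₄ * (x₂ * c₃) = w₂ * (c₄ * x₂) * c₃ := by group
          _ = w₂ * x₂ * (c₄ * c₃) := by rw [f2.eq]; group
          _ = (w₂ * x₂ * c₃) * c₄ := by rw [← f5.eq]; group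
          _ = _ := by rw [← (f1.mul_right f4).eq]
      rw [g1]
      have g2 : Commute c₃ (w₂ * x₂ * w₂⁻¹ * x₂⁻¹) :=
        ((f1.mul_right f4).mul_right f1.inv_right).mul_right f4.inv_right
      calc w₂ * x₂ * w₂⁻¹ * x₂⁻¹ = c₃ * (w₂ * x₂ * w₂⁻¹ * x₂⁻¹) * c₃⁻¹ := by
            rw [g2.eq, mul_inv_cancel_right]
        _ = c₃ * (w₂ * x₂) * (w₂⁻¹ * c₄ * c₄⁻¹) * (c₃ * x₂)⁻¹ := by group
        _ = _ := by rw [← f3.inv_right.eq]; group
    rw [e]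
    exact ((h4.mul_left h3).mul_left h4.inv_left).mul_left h3.inv_left

/-- Let p be a prime and K a set of subgroups of order p of a finite group G, closed under conjugation, such that at least two distinct members of K commute elementwise, and whenever two distinct members X, Y of K commute: every subgroup of order p of the group XY they generate belongs to K, and every member W of K has centralizer meeting XY nontrivially. Then some member V of K commutes elementwise with every member of K and lies in O_p(G); in particular G is not simple. -/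
theorem result {G : Type*} [Group G] [Finite G]
    {p : ℕ} (hp : p.Prime) (K : Set (Subgroup G)) (hK : ∀ X ∈ K, Nat.card ↥X = p)
    (hKc : ∀ X ∈ K, ∀ g : G, X.map (MulAut.conj g).toMonoidHom ∈ K)
    (hex : ∃ X ∈ K, ∃ Y ∈ K, X ≠ Y ∧ ∀ x ∈ X, ∀ y ∈ Y, x * y = y * x)
    (ha : ∀ X ∈ K, ∀ Y ∈ K, X ≠ Y → (∀ x ∈ X, ∀ y ∈ Y, x * y = y * x) →
      ∀ Z : Subgroup G, Z ≤ X ⊔ Y → Nat.card ↥Z = p → Z ∈ K)
    (hb : ∀ X ∈ K, ∀ Y ∈ K, X ≠ Y → (∀ x ∈ X, ∀ y ∈ Y, x * y = y * x) →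
      ∀ W ∈ K, (X ⊔ Y) ⊓ Subgroup.centralizer (W : Set G) ≠ ⊥) :
    (∃ V ∈ K, (∀ W ∈ K, ∀ v ∈ V, ∀ w ∈ W, v * w = w * v) ∧ V ≤ Cfsg.pCore p G) ∧ ¬ IsSimpleGroup G := by
  haveI : Fact p.Prime := ⟨hp⟩
  have hgen : ∀ X ∈ K, ∀ x ∈ X, x ≠ 1 → zpowers x = X := by
    intro X hX x hx hx1
    refine Subgroup.eq_of_le_of_card_ge (zpowers_le.2 hx) ?_
    have h1 := X.orderOf_dvd_natCard hx
    rw [hK X hX] at h1 ⊢
    rw [Nat.card_zpowers, ((Nat.dvd_prime hp).1 h1).resolve_left (by simpa using hx1)]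
  have hne : ∀ X ∈ K, ∃ x ∈ X, x ≠ 1 := by
    intro X hX
    have : X ≠ ⊥ := by
      rintro rfl
      have := hK _ hX
      rw [card_bot] at this
      exact hp.one_lt.ne this
    obtain ⟨x, hx⟩ := ne_bot_iff_exists_ne_one.1 this
    exact ⟨x, x.2, fun h => hx (Subtype.ext h)⟩
  have hcc : ∀ x y : G, Commute x y → ∀ a ∈ zpowers x, ∀ b ∈ zpowers y, a * b = b * a :=
    fun x y h a ha b hb => (comm_of_mem ha (comm_of_mem hb h.symm).symm).eq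
  obtain ⟨X, hX, Y, hY, hXY, hcXY⟩ := hex
  obtain ⟨x₀, hx₀, hx₀1⟩ := hne X hX
  obtain ⟨y₀, hy₀, hy₀1⟩ := hne Y hY
  obtain ⟨v, ⟨hv1, hv⟩, hrad⟩ := exists_radical {x : G | x ≠ 1 ∧ zpowers x ∈ K}
    (fun x hx u hu hu1 => by rw [hgen _ hx.2 u hu hu1]; exact mem_zpowers x)
    (fun x hx u hu hu1 => ⟨hu1, by rw [hgen _ hx.2 u hu hu1]; exact hx.2⟩)
    (fun x hx g => ⟨by simpa using hx.1, by
      have := hKc _ hx.2 g
      rwa [MonoidHom.map_zpowers] at this⟩)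
    (fun x hx y hy hc hne u hu v hv h1 => ⟨h1, by
      refine ha _ hx.2 _ hy.2 hne (hcc x y hc) _
        (zpowers_le.2 (mul_mem (mem_sup_left hu) (mem_sup_right hv))) ?_
      rw [Nat.card_zpowers]
      refine orderOf_eq_prime ?_ h1
      have hu' := (zpowers x).orderOf_dvd_natCard hu
      have hv' := (zpowers y).orderOf_dvd_natCard hv
      rw [hK _ hx.2, orderOf_dvd_iff_pow_eq_one] at hu'
      rw [hK _ hy.2, orderOf_dvd_iff_pow_eq_one] at hv'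
      rw [Commute.mul_pow (hcc x y hc u hu v hv), hu', hv', one_mul]⟩)
    (fun x hx y hy hc hne w hw => by
      obtain ⟨⟨z, hz⟩, hz1⟩ := ne_bot_iff_exists_ne_one.1 (hb _ hx.2 _ hy.2 hne (hcc x y hc) _ hw.2)
      have h1 : z ∈ ((zpowers x ⊔ zpowers y : Subgroup G) : Set G) := hz.1
      rw [coe_mul_of_left_le_normalizer_right _ _ (fun a ha => centralizer_le_normalizer' _
        (fun b hb => (hcc x y hc a ha b hb).symm))] at h1
      obtain ⟨u, hu, v, hv, rfl⟩ := h1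
      exact ⟨u, hu, v, hv, fun h => hz1 (Subtype.ext h), (hz.2 w (mem_zpowers w)).symm⟩)
    (x₀ := x₀) (y₀ := y₀) ⟨hx₀1, by rwa [hgen X hX x₀ hx₀ hx₀1]⟩ ⟨hy₀1, by rwa [hgen Y hY y₀ hy₀ hy₀1]⟩
    (hcXY x₀ hx₀ y₀ hy₀) (by rwa [hgen X hX x₀ hx₀ hx₀1, hgen Y hY y₀ hy₀ hy₀1])
  have hV : ∀ W ∈ K, ∀ a ∈ zpowers v, ∀ w ∈ W, a * w = w * a := by
    intro W hW a ha w hw
    by_cases hw1 : w = 1
    · simp [hw1]
    exact (comm_of_mem ha (hrad w ⟨hw1, by rwa [hgen W hW w hw hw1]⟩)).eq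
  have hVp : zpowers v ≤ pCore p G := by
    refine baerSuzuki_le_pCore _ fun g => ?_
    refine IsPGroup.to_sup_of_normal_right' (IsPGroup.of_card (n := 1) (by rw [hK _ hv, pow_one]))
      (IsPGroup.of_card (n := 1) (by rw [hK _ (hKc _ hv g), pow_one])) ?_
    exact fun a ha => centralizer_le_normalizer' _ fun b hb => (hV _ (hKc _ hv g) a ha b hb).symm
  refine ⟨⟨_, hv, hV, hVp⟩, fun hs => ?_⟩
  have h1 : pCore p G = ⊤ := by
    refine (hs.eq_bot_or_eq_top_of_normal _ inferInstance).resolve_left fun h => hv1 ?_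
    rw [h] at hVp
    exact mem_bot.1 (hVp (mem_zpowers v))
  have h2 : IsPGroup p G := by
    have := pCore_isPGroup p G
    rw [h1] at this
    exact this.of_equiv topEquiv
  have h3 : center G = ⊤ := (hs.eq_bot_or_eq_top_of_normal _ inferInstance).resolve_left
    ((nontrivial_iff_ne_bot _).1 h2.center_nontrivial)
  have h4 : ∀ Z ∈ K, Z = ⊤ := by
    intro Z hZ
    refine (hs.eq_bot_or_eq_top_of_normal Z ⟨fun a ha g => ?_⟩).resolve_left fun h => ?_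
    · rw [mem_center_iff.1 (h3 ▸ mem_top a : a ∈ center G) g, mul_inv_cancel_right]
      exact ha
    · obtain ⟨z, hz, hz1⟩ := hne Z hZ
      rw [h] at hz
      exact hz1 (mem_bot.1 hz)
  exact hXY ((h4 X hX).trans (h4 Y hY).symm)

end Cfsg.Agent.S3196
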