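import Cfsg.Statements.S3200
import Cfsg.Agent.S0564
import Cfsg.Agent.Grp.Hall

set_option autoImplicit false
open Cfsg

namespace Cfsg.Agent.S3200

theorem isComplement'_of_hall {X : Type*} [Group X] [Finite X] (P : Sylow 2 X) {D : Subgroup X}
    (hD : IsPiHall {q | q ≠ 2} D) : Subgroup.IsComplement' (P : Subgroup X) D := by
  obtain ⟨k, hk⟩ := P.isPGroup'.exists_card_eq
  have h1 : (Nat.card (P : Subgroup X)).Coprime (Nat.card D) := by
    rw [hk]
    refine Nat.Coprime.pow_left k ((Nat.Prime.coprime_iff_not_dvd Nat.prime_two).2 fun h => ?_)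
    exact hD.1 2 Nat.prime_two h rfl
  have h2 : (P : Subgroup X).index.Coprime D.index := by
    refine Nat.coprime_of_dvd fun q hq h h' => ?_
    have : q = 2 := by
      by_contra hne
      exact hD.2 q hq hne h'
    subst this
    exact P.not_dvd_index h
  refine Subgroup.isComplement'_of_coprime ?_ h1
  rw [← (P : Subgroup X).card_mul_index]
  congr 1
  apply Nat.dvd_antisymm
  · apply h1.symm.dvd_of_dvd_mul_left
    rw [Subgroup.card_mul_index]
    exact D.card_subgroup_dvd_card
  · apply h2.dvd_of_dvd_mul_right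
    rw [Subgroup.card_mul_index]
    exact Subgroup.index_dvd_card _

/-- Let H be a finite group in which a Sylow 2-subgroup has an abelian complement (an abelian subgroup meeting it trivially whose product with it is all of H). Then H is solvable, and every subgroup and every quotient group of H again has a Sylow 2-subgroup with an abelian complement. -/
theorem result {H : Type*} [Group H] [Finite H]
    (S : Sylow 2 H) (C : Subgroup H) (hC : IsMulCommutative ↥C) (hSC : Subgroup.IsComplement' (S : Subgroup H) C) :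
    Group.IsSolvable H ∧
    (∀ L : Subgroup H, ∃ (P : Sylow 2 ↥L) (D : Subgroup ↥L), IsMulCommutative ↥D ∧ Subgroup.IsComplement' (P : Subgroup ↥L) D) ∧
    (∀ (N : Subgroup H) [N.Normal], ∃ (P : Sylow 2 (H ⧸ N)) (D : Subgroup (H ⧸ N)),
      IsMulCommutative ↥D ∧ Subgroup.IsComplement' (P : Subgroup (H ⧸ N)) D) := by
  have hsol : Group.IsSolvable H := by
    refine Cfsg.Agent.S0564.result (S : Subgroup H) C S.isPGroup'.isNilpotent ?_ fun g => ?_
    · letI : CommGroup C := { (inferInstance : Group C) with mul_comm := hC.is_comm.comm }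
      infer_instance
    · obtain ⟨⟨a, b⟩, h⟩ := hSC.2 g
      exact ⟨a, a.2, b, b.2, h.symm⟩
  have hCH : IsPiHall {q | q ≠ 2} C := by
    constructor
    · rintro q - h rfl
      rw [← hSC.symm.index_eq_card] at h
      exact S.not_dvd_index h
    · intro q hq hq2 h
      obtain ⟨k, hk⟩ := S.isPGroup'.exists_card_eq
      rw [hSC.index_eq_card, hk] at h
      exact hq2 ((Nat.prime_dvd_prime_iff_eq hq Nat.prime_two).1 (hq.dvd_of_dvd_pow h))
  refine ⟨hsol, fun L => ?_, fun N _ => ?_⟩
  · obtain ⟨P⟩ : Nonempty (Sylow 2 L) := inferInstance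
    obtain ⟨D, hD⟩ := CL.Grp.exists_piHall_of_solvable {q | q ≠ 2} L
    refine ⟨P, D, ?_, isComplement'_of_hall P hD⟩
    obtain ⟨g, hg⟩ := (CL.Grp.hallD_of_solvable {q | q ≠ 2} H).le_conj hCH
      (CL.Grp.hall_pi_map (CL.Grp.isPiHall_isPiSubgroup hD) L.subtype)
    refine ⟨⟨fun x y => ?_⟩⟩
    have hx := CL.Grp.hall_mem_conj.1 (hg ⟨x.1, x.2, rfl⟩)
    have hy := CL.Grp.hall_mem_conj.1 (hg ⟨y.1, y.2, rfl⟩)
    have h := congrArg Subtype.val (hC.is_comm.comm (⟨_, hx⟩ : C) ⟨_, hy⟩)
    simp only [Subgroup.coe_mul, Subgroup.coe_subtype] at h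
    apply Subtype.ext
    apply Subtype.ext
    simp only [Subgroup.coe_mul]
    apply (MulAut.conj g⁻¹).injective
    simp only [map_mul, MulAut.conj_apply, inv_inv]
    exact h
  · obtain ⟨P⟩ : Nonempty (Sylow 2 (H ⧸ N)) := inferInstance
    exact ⟨P, C.map (QuotientGroup.mk' N), inferInstance,
      isComplement'_of_hall P (CL.Grp.isPiHall_map hCH (QuotientGroup.mk'_surjective N))⟩

end Cfsg.Agent.S3200
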