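import Cfsg.Statements.S3201
import Cfsg.Agent.Inv.Misc3

set_option autoImplicit false
open Cfsg

namespace Cfsg.Agent.S3201

/-- Let S be a finite 2-group whose centre Z(S) has n ≥ 2 distinct maximal subgroups C₁, …, Cₙ with trivial intersection such that each quotient S/Cᵢ is a non-abelian group with exactly one involution (a generalized quaternion group). Then S is the internal direct product of an elementary abelian subgroup and a non-abelian subgroup with exactly one involution. -/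
theorem result {S : Type*} [Group S] [Finite S]
    (hS : IsPGroup 2 S) (n : ℕ) (hn : 2 ≤ n) (C : Fin n → Subgroup ↥(Subgroup.center S))
    (hCmax : ∀ i, IsCoatom (C i)) (hCinj : Function.Injective C) (hCint : ⨅ i, C i = ⊥)
    (hCq : ∀ i, ∃ (_ : ((C i).map (Subgroup.center S).subtype).Normal),
      ¬ IsMulCommutative (S ⧸ (C i).map (Subgroup.center S).subtype) ∧
      ∃! x : S ⧸ (C i).map (Subgroup.center S).subtype, orderOf x = 2) :
    ∃ E Q : Subgroup S, Cfsg.IsInternalDirectProduct E Q ⊤ ∧ Cfsg.IsElementaryAbelian 2 E ∧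
      ¬ IsMulCommutative ↥Q ∧ ∃! x : ↥Q, orderOf x = 2 := by
  open Subgroup in
  let N : Fin n → Subgroup S := fun i => (C i).map (center S).subtype
  have hNZ : ∀ i, N i ≤ center S := fun i => map_subtype_le _
  have hN0 : ∀ x : S, (∀ i, x ∈ N i) → x = 1 := by
    intro x hx
    have hxZ := hNZ ⟨0, by omega⟩ (hx _)
    have : (⟨x, hxZ⟩ : center S) ∈ ⨅ i, C i := by
      rw [mem_iInf]
      intro i
      obtain ⟨y, hy, rfl⟩ := hx i
      exact hy
    rw [hCint, mem_bot] at this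
    exact congrArg Subtype.val this
  -- for each `i`, `Z / N i` is the subgroup of order two of `S / N i`
  have key : ∀ i, (∀ u ∈ center S, u * u ∈ N i) ∧ (∀ x : S, x * x ∈ N i → x ∈ center S) ∧
      ∀ u ∈ center S, ∀ v ∈ center S, u ∉ N i → v ∉ N i → u⁻¹ * v ∈ N i := by
    intro i
    obtain ⟨hn, -, z, -, hz⟩ := hCq i
    have hidx : (C i).index = 2 :=
      CL.Grp.index_eq_of_isCoatom_pGroup (hS.to_subgroup (center S)) (hCmax i)
    have h1 : ∀ u ∈ center S, u * u ∈ N i := fun u hu =>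
      ⟨⟨u, hu⟩ * ⟨u, hu⟩, mul_self_mem_of_index_two hidx _, rfl⟩
    have h2 : ∀ x : S, x * x ∈ N i → x ∉ N i → (x : S ⧸ N i) = z := by
      intro x hx hx1
      refine (CL.Inv.eq_one_or_eq_of_unique_involution hz ?_).resolve_left
        (by rwa [QuotientGroup.eq_one_iff])
      rwa [pow_two, ← QuotientGroup.mk_mul, QuotientGroup.eq_one_iff]
    refine ⟨h1, fun x hx => ?_, fun u hu v hv hu1 hv1 => ?_⟩
    · by_cases hx1 : x ∈ N i
      · exact hNZ i hx1
      obtain ⟨u, hu⟩ : ∃ u : center S, u ∉ C i := by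
        by_contra hne
        push Not at hne
        exact (hCmax i).1 (eq_top_iff.2 fun u _ => hne u)
      have hu1 : (u : S) ∉ N i := by
        rintro ⟨y, hy, hyu⟩
        exact hu (Subtype.ext hyu ▸ hy)
      have h3 := (h2 u (h1 u u.2) hu1).trans (h2 x hx hx1).symm
      rw [QuotientGroup.eq] at h3
      simpa using mul_mem u.2 (hNZ i h3)
    · rw [← QuotientGroup.eq, h2 u (h1 u hu) hu1, h2 v (h1 v hv) hv1]
  have hZ2 : ∀ u ∈ center S, u * u = 1 := fun u hu => hN0 _ fun i => (key i).1 u hu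
  have hsq : ∀ x y : S, x ∉ center S → y ∉ center S → x * x ∈ center S → y * y ∈ center S →
      x * x = y * y := by
    intro x y hx hy hx2 hy2
    rw [← inv_mul_eq_one]
    exact hN0 _ fun i => (key i).2.2 _ hx2 _ hy2 (fun h => hx ((key i).2.1 x h))
      (fun h => hy ((key i).2.1 y h))
  let i₀ : Fin n := ⟨0, by omega⟩
  let E := N i₀
  obtain ⟨hn₀, hna, z, hz2, hz⟩ : ∃ (_ : E.Normal), ¬ IsMulCommutative (S ⧸ E) ∧
    ∃! x : S ⧸ E, orderOf x = 2 := hCq i₀
  have hEZ : E ≤ center S := hNZ i₀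
  obtain ⟨m, a, b, h, hb2, hba⟩ := CL.Inv.exists_dqsGen_of_unique_involution (hS.to_quotient E) hna hz
  obtain ⟨a, rfl⟩ := QuotientGroup.mk_surjective a
  obtain ⟨b, rfl⟩ := QuotientGroup.mk_surjective b
  obtain ⟨k, rfl⟩ : ∃ k, m = k + 2 := ⟨m - 2, by have := h.two_le; omega⟩
  -- membership in the centre is detected in the quotient
  have hZq : ∀ x : S, x ∈ center S ↔ (x : S ⧸ E) ^ 2 = 1 := by
    intro x
    rw [pow_two, ← QuotientGroup.mk_mul, QuotientGroup.eq_one_iff]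
    exact ⟨(key i₀).1 x, (key i₀).2.1 x⟩
  have hz1 : ((a : S ⧸ E)) ^ 2 ^ (k + 1) ≠ 1 := by
    intro h1
    have := h.orderOf_z
    rw [show k + 2 - 1 = k + 1 from rfl, h1, orderOf_one] at this
    omega
  have hz4 : (((a : S ⧸ E)) ^ 2 ^ (k + 1)) ^ 2 = 1 := by
    exact orderOf_dvd_iff_pow_eq_one.1 h.orderOf_z.dvd
  rw [show k + 2 - 1 = k + 1 from rfl] at hb2
  have sq : ∀ x : S, (x : S ⧸ E) ^ 2 = (a : S ⧸ E) ^ 2 ^ (k + 1) →
      x ∉ center S ∧ x * x ∈ center S := by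
    intro x hx
    rw [hZq, hZq, QuotientGroup.mk_mul, ← pow_two, hx]
    exact ⟨hz1, hz4⟩
  obtain ⟨hb1, hb1'⟩ := sq b hb2
  obtain ⟨ha1, ha1'⟩ := sq (a ^ 2 ^ k) (by rw [QuotientGroup.mk_pow, ← pow_mul, ← pow_succ])
  obtain ⟨hab1, hab1'⟩ := sq (a * b) (by
    rw [QuotientGroup.mk_mul, ← hb2]
    calc ((a : S ⧸ E) * b) ^ 2 = a * (b * a * (b : S ⧸ E)⁻¹) * b ^ 2 := by
          rw [pow_two, pow_two]; group
      _ = _ := by rw [hba]; group)
  have hbb : b * b = a ^ 2 ^ (k + 1) := by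
    rw [hsq _ _ hb1 ha1 hb1' ha1', ← pow_add, ← two_mul, ← pow_succ']
  have hba' : b * a * b⁻¹ = a⁻¹ := by
    have := hsq _ _ hab1 hb1 hab1' hb1'
    calc b * a * b⁻¹ = a⁻¹ * (a * b * (a * b)) * (b * b)⁻¹ := by group
      _ = _ := by rw [this]; group
  have hao : a ^ 2 ^ (k + 2) = 1 := by
    rw [pow_succ, pow_mul, ← hbb, pow_two, hZ2 _ hb1']
  have hbN : b ∈ normalizer ((zpowers a : Subgroup S) : Set S) := by
    refine mem_normalizer_fintype ?_
    rintro _ ⟨i, rfl⟩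
    simp only
    rw [← conj_zpow, hba']
    exact zpow_mem (inv_mem (mem_zpowers a)) i
  have hmem := CL.Inv.mem_sup_zpowers_iff hbN (hbb ▸ pow_mem (mem_zpowers a) _)
  set Q := zpowers a ⊔ zpowers b with hQ
  have haQ : a ∈ Q := mem_sup_left (mem_zpowers a)
  have hbQ : b ∈ Q := mem_sup_right (mem_zpowers b)
  let f : Q →* S ⧸ E := (QuotientGroup.mk' E).comp Q.subtype
  have hinj : ∀ x ∈ Q, x ∈ E → x = 1 := by
    intro x hx hxE
    rw [← QuotientGroup.eq_one_iff] at hxE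
    rcases (hmem x).1 hx with ⟨i, rfl⟩ | ⟨i, hi⟩
    · simp only at hxE ⊢
      rw [QuotientGroup.mk_zpow, ← orderOf_dvd_iff_zpow_eq_one, h.ord] at hxE
      obtain ⟨j, rfl⟩ := hxE
      rw [zpow_mul, zpow_natCast, hao, one_zpow]
    · exfalso
      apply h.notMem
      have : (b : S ⧸ E) = ((a : S ⧸ E) ^ i)⁻¹ := by
        simp only at hi
        rw [← QuotientGroup.mk_zpow, hi, QuotientGroup.mk_mul, hxE, one_mul, QuotientGroup.mk_inv,
          inv_inv]
      rw [this]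
      exact inv_mem (zpow_mem (mem_zpowers _) i)
  have hsurj : ∀ g : S, ∃ x ∈ Q, (x : S ⧸ E) = g := by
    intro g
    obtain ⟨i, h1 | h1⟩ := h.elt (g : S ⧸ E)
    · exact ⟨a ^ i, zpow_mem haQ i, h1.symm⟩
    · exact ⟨a ^ i * b, mul_mem (zpow_mem haQ i) hbQ, h1.symm⟩
  let e : Q ≃* S ⧸ E := MulEquiv.ofBijective f ⟨by
    rw [injective_iff_map_eq_one]
    intro x hx
    exact Subtype.ext (hinj x x.2 ((QuotientGroup.eq_one_iff _).1 hx)), by
    intro q
    obtain ⟨g, rfl⟩ := QuotientGroup.mk_surjective q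
    obtain ⟨x, hx, hxg⟩ := hsurj g
    exact ⟨⟨x, hx⟩, hxg⟩⟩
  refine ⟨E, Q, ⟨le_top, le_top, fun u hu x _ => (mem_center_iff.1 (hEZ hu) x).symm, ?_, ?_⟩,
    ⟨⟨⟨fun u v => Subtype.ext (mem_center_iff.1 (hEZ v.2) u)⟩⟩,
      fun u hu => by rw [pow_two, hZ2 u (hEZ hu)]⟩, fun hc => hna ⟨⟨fun x y => ?_⟩⟩,
    e.symm z, (e.symm.orderOf_eq z).trans hz2, fun y hy => ?_⟩
  · rw [eq_bot_iff]
    intro x hx
    exact hinj x hx.2 hx.1
  · rw [eq_top_iff]
    intro g _
    obtain ⟨x, hx, hxg⟩ := hsurj g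
    rw [QuotientGroup.eq] at hxg
    have : g = x * (x⁻¹ * g) := by group
    rw [this]
    exact mul_mem (mem_sup_right hx) (mem_sup_left hxg)
  · obtain ⟨x, rfl⟩ := e.surjective x
    obtain ⟨y, rfl⟩ := e.surjective y
    rw [← map_mul, ← map_mul, hc.is_comm.comm]
  · rw [MulEquiv.eq_symm_apply]
    exact hz _ ((e.orderOf_eq y).trans hy)

end Cfsg.Agent.S3201
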