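import Cfsg.Statements.S3202
import Cfsg.Agent.Inv.Misc3

set_option autoImplicit false
open Cfsg

namespace Cfsg.Agent.S3202

/-- Let S be a finite 2-group of 2-rank exactly 2 and D a maximal subgroup of the centre of S such that S/D is a non-abelian group with exactly one involution (a generalized quaternion group). Then S has a nontrivial cyclic characteristic subgroup. -/
theorem result {S : Type*} [Group S]
    [Finite S] (hS : IsPGroup 2 S) (hr2 : Cfsg.PRankLE 2 2 S) (hr1 : ¬ Cfsg.PRankLE 2 1 S)
    (D : Subgroup ↥(Subgroup.center S)) (hD : IsCoatom D)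
    (hq : ∃ (_ : (D.map (Subgroup.center S).subtype).Normal),
      ¬ IsMulCommutative (S ⧸ D.map (Subgroup.center S).subtype) ∧
      ∃! x : S ⧸ D.map (Subgroup.center S).subtype, orderOf x = 2) :
    ∃ C : Subgroup S, C ≠ ⊥ ∧ IsCyclic ↥C ∧ C.Characteristic := by
  obtain ⟨hn, hna, z, -, hz⟩ := hq
  set N := D.map (Subgroup.center S).subtype with hN
  obtain ⟨n, a, b, h, -, -⟩ := CL.Inv.exists_dqsGen_of_unique_involution (hS.to_quotient N) hna hz
  obtain ⟨a, rfl⟩ := QuotientGroup.mk_surjective a
  obtain ⟨b, rfl⟩ := QuotientGroup.mk_surjective b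
  have hNZ : N ≤ Subgroup.center S := Subgroup.map_subtype_le _
  have hc := CL.Inv.commutator_eq_zpowers_of_central_ext (a := a) (b := b) fun g => by
    obtain ⟨i, h1 | h1⟩ := h.elt (g : S ⧸ N)
    · rw [← QuotientGroup.mk_zpow, eq_comm, QuotientGroup.eq] at h1
      exact ⟨i, _, hNZ h1, Or.inl (by group)⟩
    · rw [← QuotientGroup.mk_zpow, ← QuotientGroup.mk_mul, eq_comm, QuotientGroup.eq] at h1
      exact ⟨i, _, hNZ h1, Or.inr (by group)⟩
  refine ⟨commutator S, fun h1 => hna ?_, hc ▸ inferInstance, inferInstance⟩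
  rw [Subgroup.Normal.quotient_commutative_iff_commutator_le, h1]
  exact bot_le

end Cfsg.Agent.S3202
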