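import Cfsg.Statements.S3208
import Cfsg.Agent.Inv.WeakCl

set_option autoImplicit false
open Cfsg

namespace Cfsg.Agent.S3208

/-- Let j be an involution of a finite group G, H a subgroup of G, and T a Sylow 2-subgroup of H ∩ C_G(j) containing j such that ⟨j⟩ is a characteristic subgroup of T. Then T is a Sylow 2-subgroup of H. -/
theorem result {G : Type*} [Group G] [Finite G]
    (j : G) (hj : orderOf j = 2) (H T : Subgroup G) (hT : T ≤ H ⊓ Subgroup.centralizer ({j} : Set G)) (h2 : IsPGroup 2 ↥T)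
    (hSyl : ¬ 2 ∣ T.relIndex (H ⊓ Subgroup.centralizer ({j} : Set G))) (hjT : j ∈ T)
    (hchar : ((Subgroup.zpowers j).subgroupOf T).Characteristic) :
    ¬ 2 ∣ T.relIndex H := by
  have hTS : CL.Grp.IsSylowIn 2 T (H ⊓ Subgroup.centralizer ({j} : Set G)) := ⟨hT, h2, hSyl⟩
  refine (CL.Grp.isSylowIn_of_maximal (hT.trans inf_le_left) h2 ?_).not_dvd
  intro U hU hTU hUH
  by_contra hne
  have hlt := CL.Grp.lt_inf_normalizer_of_isPGroup hU (lt_of_le_of_ne hTU (Ne.symm hne))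
  refine hlt.ne' (hTS.eq_of_le hU.to_inf_left hlt.le (le_inf (inf_le_left.trans hUH) ?_))
  rintro x ⟨-, hx⟩
  have h1 := (Subgroup.characteristic_iff_map_le.1 hchar) (Subgroup.normalizerMonoidHom T ⟨x, hx⟩)
    ⟨⟨j, hjT⟩, Subgroup.mem_zpowers j, rfl⟩
  have h3 : x * j * x⁻¹ ∈ Subgroup.zpowers j := h1
  have hj2 := CL.Inv.mul_self_of_orderOf_two hj
  obtain ⟨k, hk⟩ := h3
  simp only at hk
  have h4 : j ^ (2 : ℤ) = 1 := by rw [zpow_two, hj2]
  rw [Subgroup.mem_centralizer_singleton_iff]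
  rcases Int.even_or_odd' k with ⟨m, rfl | rfl⟩
  · rw [zpow_mul, h4, one_zpow] at hk
    exact absurd (by simpa using hk.symm) (CL.Inv.ne_one_of_orderOf_two hj)
  · rw [zpow_add, zpow_mul, h4, one_zpow, one_mul, zpow_one] at hk
    conv_rhs => rw [hk]
    group

end Cfsg.Agent.S3208
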