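import Cfsg.Statements.S3209
import Cfsg.Agent.Inv.SL2Pair

set_option autoImplicit false
open Cfsg

namespace Cfsg.Agent.S3209

/-- Let L₁ ≅ SL₂(q₁) and L₂ ≅ SL₂(q₂), q₁ and q₂ odd, be elementwise-commuting subgroups of a finite group meeting in ⟨j⟩ for an involution j. Then L₁L₂ has exactly two conjugacy classes of involutions: the central involution j, and one further class (there is an involution x ≠ j in L₁L₂, and every involution of L₁L₂ other than j is conjugate to x by an element of L₁L₂). -/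
theorem result {G : Type*} [Group G] [Finite G]
    {F₁ : Type*} [Field F₁] [Fintype F₁] {F₂ : Type*} [Field F₂] [Fintype F₂]
    (hF₁ : Odd (Fintype.card F₁)) (hF₂ : Odd (Fintype.card F₂)) (L₁ L₂ : Subgroup G)
    (e₁ : ↥L₁ ≃* Matrix.SpecialLinearGroup (Fin 2) F₁) (e₂ : ↥L₂ ≃* Matrix.SpecialLinearGroup (Fin 2) F₂)
    (hc : ∀ x ∈ L₁, ∀ y ∈ L₂, x * y = y * x) (j : G) (hj : orderOf j = 2) (hm : L₁ ⊓ L₂ = Subgroup.zpowers j) :
    ∃ x ∈ L₁ ⊔ L₂, orderOf x = 2 ∧ x ≠ j ∧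
      ∀ y ∈ L₁ ⊔ L₂, orderOf y = 2 → y = j ∨ ∃ g ∈ L₁ ⊔ L₂, g * x * g⁻¹ = y := by
  open CL.Inv Subgroup in
  have hj1 : zpowers j ≤ L₁ := hm ▸ inf_le_left
  have hj2 : zpowers j ≤ L₂ := hm ▸ inf_le_right
  have h₁ := sl2Like_of_equiv hF₁ e₁ hj (hj1 (mem_zpowers j))
  have h₂ := sl2Like_of_equiv hF₂ e₂ hj (hj2 (mem_zpowers j))
  obtain ⟨a, ha, -, -, haa, -⟩ := h₁.pair
  obtain ⟨b, hb, -, -, hbb, -⟩ := h₂.pair
  have hab : a * b ∉ zpowers j := by
    intro h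
    have h1 : a ∈ zpowers j := hm ▸ mem_inf.2 ⟨ha, (mul_mem_cancel_right hb).1 (hj2 h)⟩
    exact h₁.ne_one (haa.symm.trans (h₁.sq_eq_one h1))
  have hsq : a * b * (a * b) = 1 := by
    calc a * b * (a * b) = a * (b * a) * b := by group
      _ = a * a * (b * b) := by rw [← hc a ha b hb]; group
      _ = 1 := by rw [haa, hbb, h₁.mul_self]
  refine ⟨a * b, mul_mem (mem_sup_left ha) (mem_sup_right hb),
    orderOf_eq_prime (by rw [pow_two, hsq]) (fun h => hab (h ▸ one_mem _)),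
    fun h => hab (h ▸ mem_zpowers _), fun y hy ho => ?_⟩
  obtain ⟨u, hu, v, hv, rfl⟩ := exists_mul_of_mem_sup_of_commute hc hy
  have hy2 : u * v * (u * v) = 1 := by rw [← pow_two, ← ho, pow_orderOf_eq_one]
  obtain ⟨h1, h2 | h2, h3 | h3⟩ := sq_cases_of_pair hj hc hm hu hv (hy2 ▸ one_mem _)
  · left
    refine ((mem_zpowers_invol_iff hj).1 (mul_mem (h₁.inv u hu h2) (h₂.inv v hv h3))).resolve_left ?_
    intro h
    rw [h, orderOf_one] at ho
    omega
  · rw [hy2, h2, h3, one_mul] at h1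
    exact absurd h1.symm h₁.ne_one
  · rw [hy2, h2, h3, mul_one] at h1
    exact absurd h1.symm h₁.ne_one
  · right
    obtain ⟨g, hg, rfl⟩ := h₁.conj a ha u hu haa h2
    obtain ⟨k, hk, rfl⟩ := h₂.conj b hb v hv hbb h3
    refine ⟨g * k, mul_mem (mem_sup_left hg) (mem_sup_right hk), ?_⟩
    calc g * k * (a * b) * (g * k)⁻¹ = g * (k * a) * (b * k⁻¹) * g⁻¹ := by group
      _ = g * a * (k * b * k⁻¹ * g⁻¹) := by rw [← hc a ha k hk]; group
      _ = _ := by rw [← hc _ (inv_mem hg) _ hv]; group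

end Cfsg.Agent.S3209
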