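import Cfsg.Statements.S3210
import Cfsg.Agent.Inv.SL2Pair

set_option autoImplicit false
open Cfsg

namespace Cfsg.Agent.S3210

/-- Let G be a finite group with subgroups L₁ ≅ SL₂(q₁) and L₂ ≅ SL₂(q₂), q₁ and q₂ odd prime powers, which commute elementwise and meet in ⟨j⟩ for an involution j, and suppose L₁L₂ has index 2 in C_G(j). Then every element n of C_G(j) outside L₁L₂ either normalizes both L₁ and L₂, or conjugates L₁ onto L₂; in the second case q₁ = q₂ and there is an element n′ of C_G(j) outside L₁L₂ conjugating L₁ onto L₂ with n′² ∈ ⟨j⟩. -/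
theorem result {G : Type*} [Group G] [Finite G]
    {F₁ : Type*} [Field F₁] [Fintype F₁] {F₂ : Type*} [Field F₂] [Fintype F₂]
    (hF₁ : Odd (Fintype.card F₁)) (hF₂ : Odd (Fintype.card F₂)) (L₁ L₂ : Subgroup G)
    (e₁ : ↥L₁ ≃* Matrix.SpecialLinearGroup (Fin 2) F₁) (e₂ : ↥L₂ ≃* Matrix.SpecialLinearGroup (Fin 2) F₂)
    (hc : ∀ x ∈ L₁, ∀ y ∈ L₂, x * y = y * x) (j : G) (hj : orderOf j = 2) (hm : L₁ ⊓ L₂ = Subgroup.zpowers j)
    (hle : L₁ ⊔ L₂ ≤ Subgroup.centralizer ({j} : Set G)) (hi : (L₁ ⊔ L₂).relIndex (Subgroup.centralizer ({j} : Set G)) = 2) (n : G) (hn : n ∈ Subgroup.centralizer ({j} : Set G)) (hn' : n ∉ L₁ ⊔ L₂) :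
    (L₁.map (MulAut.conj n).toMonoidHom = L₁ ∧ L₂.map (MulAut.conj n).toMonoidHom = L₂) ∨
      (L₁.map (MulAut.conj n).toMonoidHom = L₂ ∧ Fintype.card F₁ = Fintype.card F₂ ∧
        ∃ n' ∈ Subgroup.centralizer ({j} : Set G), n' ∉ L₁ ⊔ L₂ ∧ L₁.map (MulAut.conj n').toMonoidHom = L₂ ∧ n' ^ 2 ∈ Subgroup.zpowers j) := by
  open CL.Inv Subgroup in
  have hj1 : zpowers j ≤ L₁ := hm ▸ inf_le_left
  have hj2 : zpowers j ≤ L₂ := hm ▸ inf_le_right
  have h₁ := sl2Like_of_equiv hF₁ e₁ hj (hj1 (mem_zpowers j))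
  have h₂ := sl2Like_of_equiv hF₂ e₂ hj (hj2 (mem_zpowers j))
  have hnj : n * j * n⁻¹ = j := by
    rw [mem_centralizer_singleton_iff.1 hn, mul_inv_cancel_right]
  let φ := (MulAut.conj n).toMonoidHom
  have hφ : Function.Injective φ := (MulAut.conj n).injective
  have hM := h₁.map_conj hnj
  have hM' := h₂.map_conj hnj
  have hc' : ∀ x ∈ L₁.map φ, ∀ y ∈ L₂.map φ, x * y = y * x := by
    rintro _ ⟨x, hx, rfl⟩ _ ⟨y, hy, rfl⟩
    rw [← map_mul, ← map_mul, hc x hx y hy]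
  have hN : ((L₁ ⊔ L₂).subgroupOf (centralizer ({j} : Set G))).Normal := normal_of_index_eq_two hi
  have hsup : L₁.map φ ⊔ L₂.map φ = L₁ ⊔ L₂ := by
    rw [← Subgroup.map_sup]
    refine Subgroup.eq_of_le_of_card_ge ?_ (card_map_of_injective hφ).ge
    rintro _ ⟨x, hx, rfl⟩
    exact hN.conj_mem ⟨x, hle hx⟩ hx ⟨n, hn⟩
  have c1 : Nat.card (L₁.map φ) = Nat.card L₁ := card_map_of_injective hφ
  have c2 : Nat.card (L₂.map φ) = Nat.card L₂ := card_map_of_injective hφ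
  have hno : ∀ {A B : Subgroup G}, SL2Like B j → A ⊓ B = zpowers j → ¬ B ≤ A := by
    intro A B hB h hBA
    obtain ⟨a, ha, -, -, haa, -⟩ := hB.pair
    exact hB.ne_one (haa.symm.trans (hB.sq_eq_one (h ▸ mem_inf.2 ⟨hBA ha, ha⟩)))
  rcases le_or_le_of_pairs hc hm hM hM' hc' hsup with h1 | h1 <;>
  rcases le_or_le_of_pairs hc hm hM' hM (fun x hx y hy => (hc' y hy x hx).symm)
    ((sup_comm _ _).trans hsup) with h2 | h2
  · exact (hno h₂ hm (le_sup_right.trans (hsup.symm.le.trans (sup_le h1 h2)))).elim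
  · exact Or.inl ⟨Subgroup.eq_of_le_of_card_ge h1 c1.ge, Subgroup.eq_of_le_of_card_ge h2 c2.ge⟩
  · right
    have d1 : Nat.card (L₁.map φ) ≤ _ := card_le_of_le h1
    have d2 : Nat.card (L₂.map φ) ≤ _ := card_le_of_le h2
    have e1 : L₁.map φ = L₂ := Subgroup.eq_of_le_of_card_ge h1 (by omega)
    refine ⟨e1, ?_, ?_⟩
    · have h3 : Nat.card L₁ = Nat.card L₂ := by omega
      rw [Nat.card_congr e₁.toEquiv, Nat.card_congr e₂.toEquiv, card_sl2_of_odd hF₁,
        card_sl2_of_odd hF₂] at h3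
      have mono : ∀ a b : ℕ, 1 < a → a < b → a * (a ^ 2 - 1) < b * (b ^ 2 - 1) := by
        intro a b ha hab
        have : a ^ 2 < b ^ 2 := Nat.pow_lt_pow_left hab (by norm_num)
        have : 1 < a ^ 2 := Nat.one_lt_pow (by norm_num) ha
        exact Nat.mul_lt_mul'' hab (by omega)
      rcases lt_trichotomy (Fintype.card F₁) (Fintype.card F₂) with h | h | h
      · exact absurd h3 (mono _ _ Fintype.one_lt_card h).ne
      · exact h
      · exact absurd h3 (mono _ _ Fintype.one_lt_card h).ne'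
    · have hnn : n * n ∈ L₁ ⊔ L₂ := mul_self_mem_of_index_two hi ⟨n, hn⟩
      obtain ⟨x, hx, y, hy, hxy⟩ := exists_mul_of_mem_sup_of_commute hc hnn
      refine ⟨n * x⁻¹, mul_mem hn (inv_mem (hle (mem_sup_left hx))),
        fun h => hn' ((mul_mem_cancel_right (inv_mem (mem_sup_left hx))).1 h), ?_, ?_⟩
      · refine Subgroup.eq_of_le_of_card_ge ?_ (by
          rw [card_map_of_injective (MulAut.conj (n * x⁻¹)).injective]; omega)
        rintro _ ⟨u, hu, rfl⟩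
        refine h1 ⟨x⁻¹ * u * x, mul_mem (mul_mem (inv_mem hx) hu) hx, ?_⟩
        simp [mul_assoc]
      · have hx' : n * x * n⁻¹ ∈ L₂ := h1 ⟨x, hx, rfl⟩
        have hy' : n * y * n⁻¹ ∈ L₁ := h2 ⟨y, hy, rfl⟩
        have h3 : (n * x⁻¹) ^ 2 = (n * x * n⁻¹)⁻¹ * y := by
          calc (n * x⁻¹) ^ 2 = (n * x * n⁻¹)⁻¹ * (n * n) * x⁻¹ := by rw [pow_two]; group
            _ = _ := by rw [hxy, hc x hx y hy]; group
        have h4 : (n * x⁻¹) ^ 2 = x⁻¹ * (n * y * n⁻¹) := by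
          have h5 : n * x * n⁻¹ * (n * y * n⁻¹) = x * y := by
            calc n * x * n⁻¹ * (n * y * n⁻¹) = n * (x * y) * n⁻¹ := by group
              _ = _ := by rw [← hxy]; group
          have h6 := hc _ (inv_mem hx) _ hx'
          rw [h3]
          calc (n * x * n⁻¹)⁻¹ * y = (n * x * n⁻¹)⁻¹ * x⁻¹ * (x * y) := by group
            _ = (n * x * n⁻¹)⁻¹ * (x⁻¹ * (n * x * n⁻¹)) * (n * y * n⁻¹) := by rw [← h5]; group
            _ = _ := by rw [h6]; group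
        rw [← hm]
        exact mem_inf.2 ⟨h4 ▸ mul_mem (inv_mem hx) hy', h3 ▸ mul_mem (inv_mem hx') hy⟩
  · exact (hno h₁ ((inf_comm _ _).trans hm)
      (le_sup_left.trans (hsup.symm.le.trans (sup_le h1 h2)))).elim

end Cfsg.Agent.S3210
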