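import Cfsg.Statements.S3211
import Cfsg.Agent.FW.Basic

set_option autoImplicit false
open Cfsg

namespace Cfsg.Agent.S3211

open CL.FW Subgroup

/-- Let G be a finite group with subgroups L₁ ≅ SL₂(q₁) and L₂ ≅ SL₂(q₂), q₁ and q₂ odd prime powers, which commute elementwise and meet in ⟨j⟩ for an involution j, and suppose L₁L₂ has index 2 in C_G(j). If some n ∈ C_G(j) with n² = j interchanges L₁ and L₂ under conjugation (so that C_G(j) = L₁L₂⟨n⟩), then G = C_G(j)O(G). -/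
theorem result {G : Type*} [Group G] [Finite G]
    {F₁ : Type*} [Field F₁] [Fintype F₁] {F₂ : Type*} [Field F₂] [Fintype F₂]
    (hF₁ : Odd (Fintype.card F₁)) (hF₂ : Odd (Fintype.card F₂)) (L₁ L₂ : Subgroup G)
    (e₁ : ↥L₁ ≃* Matrix.SpecialLinearGroup (Fin 2) F₁) (e₂ : ↥L₂ ≃* Matrix.SpecialLinearGroup (Fin 2) F₂)
    (hc : ∀ x ∈ L₁, ∀ y ∈ L₂, x * y = y * x) (j : G) (hj : orderOf j = 2) (hm : L₁ ⊓ L₂ = Subgroup.zpowers j)
    (hle : L₁ ⊔ L₂ ≤ Subgroup.centralizer ({j} : Set G)) (hi : (L₁ ⊔ L₂).relIndex (Subgroup.centralizer ({j} : Set G)) = 2) (n : G) (hn : n ∈ Subgroup.centralizer ({j} : Set G))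
    (hn2 : n ^ 2 = j) (hswap : L₁.map (MulAut.conj n).toMonoidHom = L₂) :
    Subgroup.centralizer ({j} : Set G) ⊔ Cfsg.oddCore G = ⊤ := by
  have h := pair_of_equiv hF₁ hF₂ e₁ e₂ hc hj hm
  have hs : ∀ a ∈ L₁, n * a * n⁻¹ ∈ L₂ := fun a ha => hswap.le ⟨a, ha, rfl⟩
  have hn3 : n * n = j := by rw [← sq, hn2]
  have hn' : n ∉ L₁ ⊔ L₂ := fun e => by
    obtain ⟨x, hx, -, -, h1, -⟩ := h.h₁.ex
    have h2 : n * x * n⁻¹ * (n * x * n⁻¹) = j := by rw [conj_mul, h1, ← hn3]; group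
    rcases h.hm _ (h.conj_mem e hx) (hs x hx) with e' | e' <;> rw [e'] at h2
    · exact h.h₁.ne (by simpa using h2.symm)
    · exact h.h₁.ne (h2.symm.trans h.h₁.sq)
  rw [sup_comm]
  refine CL.Inv.zstar_oddCore_sup_centralizer ⟨hj, h.isolated_of_swap hn3 hs (fun a ha => ?_)
    fun c hc => ?_⟩
  · obtain ⟨b, hb, rfl⟩ := hswap.ge ha
    have : n * (n * b * n⁻¹) * n⁻¹ = b := by
      calc _ = n * n * b * (n * n)⁻¹ := by group
        _ = _ := by rw [hn3, ← h.h₁.cen b hb, mul_inv_cancel_right]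
    exact this.symm ▸ hb
  · by_cases e : c ∈ L₁ ⊔ L₂
    · exact Or.inl e
    · exact Or.inr ((mul_mem_iff_of_index_two hi (a := ⟨c, mem_centralizer_singleton_iff.2 hc⟩)
        (b := ⟨n, hn⟩⁻¹)).2 (iff_of_false e fun e' => hn' (by simpa [mem_subgroupOf] using e')))

end Cfsg.Agent.S3211
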