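import Cfsg.Statements.S3213
import Cfsg.Agent.Known.GL2Classes

set_option autoImplicit false
open Cfsg

namespace Cfsg.Agent.S3213

open Matrix Module CL.GL2 in
theorem finrank_le_ker_add {F V : Type*} [Field F] [AddCommGroup V] [Module F V] [FiniteDimensional F V]
    (f : V →ₗ[F] V) (W : Submodule F V) : finrank F W ≤ finrank F (LinearMap.ker f) + finrank F (W.map f) := by
  have h := LinearMap.finrank_range_add_finrank_ker (f.domRestrict W)
  rw [LinearMap.range_domRestrict] at h
  have h2 : finrank F (LinearMap.ker (f.domRestrict W)) ≤ finrank F (LinearMap.ker f) := by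
    rw [← Submodule.finrank_map_subtype_eq]
    refine Submodule.finrank_mono ?_
    rintro _ ⟨v, hv, rfl⟩
    exact hv
  omega

open Matrix CL.GL2 in
theorem exists_pair {K : Type*} [Field K] [Fintype K] (hK : Fintype.card K = 5) (x : SL2 K) (hx : orderOf x = 3) :
    ∃ a b : SL2 K, IsConj x a ∧ IsConj x b ∧ orderOf ((a * b) ^ 2) = 5 := by
  have : Fact (Nat.Prime 5) := ⟨by norm_num⟩
  have : CharP K 5 := charP_of_card_eq_prime hK
  have h5 : (5 : K) = 0 := CharP.cast_eq_zero K 5
  have h3 : (3 : K) ≠ 0 := fun h => one_ne_zero (α := K) (by linear_combination 2 * h - h5)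
  have hx3 : x ^ 3 = 1 := by rw [← hx, pow_orderOf_eq_one]
  have hns : ¬ IsScal (x : M2 K) := fun h => by
    have h2 : x ^ 2 = 1 := by rcases isScal_SL_iff.1 h with h | h <;> rw [h] <;> simp
    have := orderOf_dvd_of_pow_eq_one h2
    rw [hx] at this
    omega
  have htr : (x : M2 K).trace = -1 := by
    have h1 := mul_self_eq (x : M2 K)
    rw [det_SL, one_smul] at h1
    have h2 : (x : M2 K) * (x : M2 K) * (x : M2 K) = 1 := by
      rw [← coe_mul_SL, ← coe_mul_SL, ← pow_three', hx3]; rfl
    have h4 : (-(x : M2 K).trace) • (1 : M2 K) + ((x : M2 K).trace ^ 2 - 1) • (x : M2 K) =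
        (1 : K) • (1 : M2 K) + (0 : K) • (x : M2 K) := by
      rw [one_smul, zero_smul, add_zero]
      conv_rhs => rw [← h2, h1, sub_mul, smul_mul_assoc, h1, one_mul]
      module
    linear_combination -(smul_one_add_smul_inj hns h4).1
  have h4 : (x : M2 K).trace ^ 2 ≠ 4 ∨ (2 : K) = 0 := Or.inl fun h => h3 (by rw [htr] at h; linear_combination -h)
  let a : SL2 K := mkSL !![0, -1; 1, -1] (by simp [det_fin_two])
  let b : SL2 K := mkSL !![1, -3; 1, -2] (by simp [det_fin_two]; norm_num)
  refine ⟨a, b, isConj_SL_of_trace hns (fun h => by simpa [a] using h.1) (by simp [a, htr]) h4,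
    isConj_SL_of_trace hns (fun h => by simpa [b] using h.2.1) (by rw [htr]; simp [b]; norm_num) h4, ?_⟩
  have e : (((a * b) ^ 2 : SL2 K) : M2 K) = !![1, -4; 0, 1] := by
    rw [sq]
    refine ext2 ?_ ?_ ?_ ?_ <;> simp [a, b] <;> norm_num
  rw [orderOf_SL_eq_char_iff, e]
  refine ⟨fun h => one_ne_zero (α := K) ?_, by simp; norm_num⟩
  have := h.1
  simp only [Matrix.of_apply, cons_val', cons_val_one, cons_val_zero, cons_val_fin_one] at this
  linear_combination this + h5

/-- Let F be the field with 3 elements and K the field with 5 elements. For every injective homomorphism φ from SL₂(K) into the symplectic group Sp₄(F) (4 × 4 matrices g with g J gᵀ = J for the standard alternating matrix J) and every element x of order 3 of SL₂(K), the vectors of F⁴ fixed by φ(x) form a 2-dimensional subspace that is totally isotropic for the alternating form defined by J. -/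
theorem result {F : Type*} [Field F] [Fintype F] (hF : Fintype.card F = 3)
    {K : Type*} [Field K] [Fintype K] (hK : Fintype.card K = 5)
    (φ : Matrix.SpecialLinearGroup (Fin 2) K →* ↥(Matrix.symplecticGroup (Fin 2) F)) (hφ : Function.Injective φ)
    (x : Matrix.SpecialLinearGroup (Fin 2) K) (hx : orderOf x = 3) :
    Module.finrank F ↥(LinearMap.ker (Matrix.toLin' ((φ x : Matrix (Fin 2 ⊕ Fin 2) (Fin 2 ⊕ Fin 2) F)) - LinearMap.id)) = 2 ∧
      ∀ v w : Fin 2 ⊕ Fin 2 → F, (φ x : Matrix (Fin 2 ⊕ Fin 2) (Fin 2 ⊕ Fin 2) F).mulVec v = v →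
        (φ x : Matrix (Fin 2 ⊕ Fin 2) (Fin 2 ⊕ Fin 2) F).mulVec w = w →
          dotProduct v ((Matrix.J (Fin 2) F).mulVec w) = 0 := by
  classical
  have : Fact (Nat.Prime 5) := ⟨by norm_num⟩
  have : CharP F 3 := charP_of_card_eq_prime hF
  let ρ : Matrix.SpecialLinearGroup (Fin 2) K →* Module.End F (Fin 2 ⊕ Fin 2 → F) :=
    ((Matrix.toLinAlgEquiv' : Matrix (Fin 2 ⊕ Fin 2) (Fin 2 ⊕ Fin 2) F ≃ₐ[F] _).toMonoidHom.comp
      (Matrix.symplecticGroup (Fin 2) F).subtype).comp φ
  have hρ : ∀ g v, ρ g v = (φ g : Matrix (Fin 2 ⊕ Fin 2) (Fin 2 ⊕ Fin 2) F).mulVec v := fun g v => rfl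
  have hρi : ∀ g, ρ g = 1 → g = 1 := fun g h => hφ (Subtype.ext (Matrix.toLinAlgEquiv'.injective (by
    rw [map_one]; exact h.trans (map_one _).symm)))
  have h4 : Module.finrank F (Fin 2 ⊕ Fin 2 → F) = 4 := by simp
  let L : Matrix.SpecialLinearGroup (Fin 2) K → Submodule F (Fin 2 ⊕ Fin 2 → F) := fun g => LinearMap.ker (ρ g - 1)
  have hL : ∀ g v, v ∈ L g ↔ ρ g v = v := fun g v => by simp [L, sub_eq_zero]
  have hmul : ∀ g h v, ρ (g * h) v = ρ g (ρ h v) := fun g h v => by rw [map_mul]; rfl
  have hconj : ∀ a, IsConj x a → Module.finrank F (L x) ≤ Module.finrank F (L a) := by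
    intro a ha
    obtain ⟨c, rfl⟩ := isConj_iff.1 ha
    refine LinearMap.finrank_le_finrank_of_injective (f := (ρ c).restrict (p := L x) (q := L (c * x * c⁻¹)) ?_) ?_
    · intro v hv
      rw [hL, ← hmul, inv_mul_cancel_right, hmul, (hL _ _).1 hv]
    · intro v w h
      have h1 : ρ c v = ρ c w := congrArg Subtype.val h
      have h2 := congrArg (ρ c⁻¹) h1
      rw [← hmul, ← hmul, inv_mul_cancel, map_one] at h2
      exact Subtype.ext h2
  have hfive : ∀ y, orderOf y = 5 → L y = ⊥ := by
    intro y hy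
    have h1 := Equiv.Perm.card_fixedPoints_modEq (α := Fin 2 ⊕ Fin 2 → F) (f := fun v => ρ y v) (p := 5) (n := 1) (by
      funext v
      have h5 : ρ (y * (y * (y * (y * y)))) v = v := by
        rw [show y * (y * (y * (y * y))) = y ^ 5 by simp only [pow_succ', pow_zero, mul_one], ← hy,
          pow_orderOf_eq_one, map_one]; rfl
      simp only [hmul] at h5
      exact h5)
    have h2 : Fintype.card (Function.fixedPoints fun v => ρ y v) = 3 ^ Module.finrank F (L y) := by
      rw [← hF, ← Module.card_eq_pow_finrank]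
      exact Fintype.card_congr (Equiv.subtypeEquivRight fun v => (hL y v).symm)
    have h3 : Module.finrank F (L y) ≤ 4 := h4 ▸ Submodule.finrank_le _
    have h5 : Module.finrank F (L y) ≠ 4 := fun h => by
      have h6 := Submodule.eq_top_of_finrank_eq (h.trans h4.symm)
      have := hρi y (LinearMap.ext fun v => (hL y v).1 (h6 ▸ Submodule.mem_top))
      rw [this, orderOf_one] at hy
      omega
    rw [h2] at h1
    simp only [Fintype.card_pi, Finset.prod_const, hF, Finset.card_univ, Fintype.card_sum, Fintype.card_fin] at h1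
    rw [← Submodule.finrank_eq_zero]
    generalize Module.finrank F (L y) = d at *
    interval_cases d <;> simp_all [Nat.ModEq]
  have hN : (ρ x - 1) ^ 3 = 0 := by
    have : CharP (Module.End F (Fin 2 ⊕ Fin 2 → F)) 3 := charP_of_injective_algebraMap (R := F)
      (algebraMap F (Module.End F (Fin 2 ⊕ Fin 2 → F))).injective 3
    rw [sub_pow_char_of_commute _ (Commute.one_right _), one_pow, ← map_pow, ← hx, pow_orderOf_eq_one, map_one,
      sub_self]
  have hN' : ∀ v, (ρ x - 1) ((ρ x - 1) ((ρ x - 1) v)) = 0 := fun v => by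
    have := congrArg (fun f : Module.End F (Fin 2 ⊕ Fin 2 → F) => f v) hN
    simpa only [pow_three, Module.End.mul_apply, LinearMap.zero_apply] using this
  have hd : Module.finrank F (L x) = 2 := by
    obtain ⟨a, b, ha, hb, hab⟩ := exists_pair hK x hx
    have h1 : L a ⊓ L b = ⊥ := by
      rw [eq_bot_iff, ← hfive _ hab]
      intro v hv
      rw [hL, sq, hmul, hmul a b v, (hL _ _).1 hv.2, (hL _ _).1 hv.1, hmul, (hL _ _).1 hv.2, (hL _ _).1 hv.1]
    have h2 := Submodule.finrank_sup_add_finrank_inf_eq (L a) (L b)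
    rw [h1, finrank_bot] at h2
    have h3 : Module.finrank F (L a ⊔ L b : Submodule F _) ≤ 4 := h4 ▸ Submodule.finrank_le _
    have h5 := hconj a ha
    have h6 := hconj b hb
    have h7 := finrank_le_ker_add (ρ x - 1) ⊤
    have h8 := finrank_le_ker_add (ρ x - 1) (Submodule.map (ρ x - 1) ⊤)
    have h9 : Module.finrank F ((Submodule.map (ρ x - 1) ⊤).map (ρ x - 1)) ≤ Module.finrank F (L x) := by
      refine Submodule.finrank_mono ?_
      rintro _ ⟨_, ⟨v, -, rfl⟩, rfl⟩
      exact hN' v
    rw [finrank_top, h4] at h7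
    change 4 ≤ Module.finrank F (L x) + _ at h7
    change _ ≤ Module.finrank F (L x) + _ at h8
    omega
  refine ⟨hd, fun v w hv hw => ?_⟩
  by_contra hvw
  let B : (Fin 2 ⊕ Fin 2 → F) → (Fin 2 ⊕ Fin 2 → F) → F := fun v w => dotProduct v ((Matrix.J (Fin 2) F).mulVec w)
  have hB : ∀ v w, B v w = v (.inr 0) * w (.inl 0) + v (.inr 1) * w (.inl 1) - v (.inl 0) * w (.inr 0) -
      v (.inl 1) * w (.inr 1) := fun v w => by
    simp [B, Matrix.J, dotProduct, Matrix.mulVec, Fin.sum_univ_two, Matrix.one_apply]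
    ring
  have hBi : ∀ v w, B (ρ x v) (ρ x w) = B v w := fun v w => by
    have h := SymplecticGroup.mem_iff'.1 (φ x).2
    simp only [B, hρ]
    rw [Matrix.mulVec_mulVec, ← Matrix.vecMul_transpose, Matrix.dotProduct_mulVec, Matrix.vecMul_vecMul,
      ← Matrix.dotProduct_mulVec, ← mul_assoc, h]
  obtain ⟨u, hu0, hu, y, hy⟩ : ∃ u, u ≠ 0 ∧ u ∈ L x ∧ ∃ y, u = (ρ x - 1) y := by
    by_cases h : ∀ v, (ρ x - 1) ((ρ x - 1) v) = 0
    · by_contra h1
      push Not at h1
      have := hρi x (LinearMap.ext fun v => by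
        by_contra h2
        exact h1 ((ρ x - 1) v) (fun h3 => h2 (sub_eq_zero.1 h3)) (h v) v rfl)
      rw [this, orderOf_one] at hx
      omega
    · push Not at h
      obtain ⟨v, hv⟩ := h
      exact ⟨_, hv, hN' v, _, rfl⟩
  have hperp : ∀ w, ρ x w = w → B u w = 0 := fun w hw => by
    have h1 := hBi y w
    rw [hw] at h1
    rw [hy, hB] at *
    simp only [LinearMap.sub_apply, Module.End.one_apply, Pi.sub_apply]
    linear_combination h1 + hB y w
  have hli : LinearIndependent F ![(⟨u, hu⟩ : L x), ⟨v, (hL _ _).2 hv⟩, ⟨w, (hL _ _).2 hw⟩] := by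
    rw [Fintype.linearIndependent_iff]
    intro g hg
    have h1 : g 0 • u + g 1 • v + g 2 • w = 0 := by
      simpa [Fin.sum_univ_three] using congrArg Subtype.val hg
    have h2 := hperp v hv
    have h3 := hperp w hw
    have h5 : B v w ≠ 0 := hvw
    have h6 : B (g 0 • u + g 1 • v + g 2 • w) v = 0 := by rw [h1, hB]; simp
    have h7 : B (g 0 • u + g 1 • v + g 2 • w) w = 0 := by rw [h1, hB]; simp
    have h8 : g 1 * B v w = 0 := by
      rw [hB] at h3 h7 ⊢
      simp only [Pi.add_apply, Pi.smul_apply, smul_eq_mul] at h7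
      linear_combination h7 - g 0 * h3
    have h9 : g 2 * B v w = 0 := by
      rw [hB] at h2 h6 ⊢
      simp only [Pi.add_apply, Pi.smul_apply, smul_eq_mul] at h6
      linear_combination g 0 * h2 - h6
    have g1 := (mul_eq_zero.1 h8).resolve_right h5
    have g2 := (mul_eq_zero.1 h9).resolve_right h5
    rw [g1, g2, zero_smul, zero_smul, add_zero, add_zero] at h1
    have g0 := (smul_eq_zero.1 h1).resolve_right hu0
    intro i
    fin_cases i <;> assumption
  have := hli.fintype_card_le_finrank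
  rw [hd] at this
  simp at this

end Cfsg.Agent.S3213
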