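import Cfsg.Statements.S3215
import Cfsg.Agent.Inv.Misc2
import Cfsg.Agent.Grp.FrobCompl
import Cfsg.Agent.Grp.Supersolv

set_option autoImplicit false
open Cfsg

namespace Cfsg.Agent.S3215

open Subgroup CL.Inv CL.Grp CL.Loc
open scoped commutatorElement

/-- Elements commuting with nontrivial elements of odd order have odd order. -/
def OddCent (G : Type*) [Group G] : Prop :=
  ∀ x y : G, Commute x y → x ≠ 1 → Odd (orderOf x) → Odd (orderOf y)

theorem oddCent_of_invol {G : Type*} [Group G] [Finite G]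
    (h : ∀ t : G, orderOf t = 2 → IsPGroup 2 (centralizer ({t} : Set G))) : OddCent G := by
  intro x y hxy hx1 hx
  by_contra hy
  rw [Nat.not_odd_iff_even, even_iff_two_dvd] at hy
  have ho := orderOf_pow_orderOf_div (orderOf_pos y).ne' hy
  obtain ⟨k, hk⟩ := h _ ho ⟨x, mem_centralizer_singleton_iff.2 (hxy.pow_right _).eq⟩
  have h1 : x ^ 2 ^ k = 1 := congrArg Subtype.val hk
  have h2 := orderOf_dvd_of_pow_eq_one h1
  exact hx1 (orderOf_eq_one_iff.1
    (Nat.Coprime.eq_one_of_dvd (hx.coprime_two_right.pow_right k) h2))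

theorem OddCent.quotient {G : Type*} [Group G] [Finite G] (h : OddCent G) (N : Subgroup G) [N.Normal]
    (hN : IsPGroup 2 N) : OddCent (G ⧸ N) := by
  intro x y hxy hx1 hx
  obtain ⟨p, hp, hpx⟩ := Nat.exists_prime_and_dvd (fun h => hx1 (orderOf_eq_one_iff.1 h))
  haveI : Fact p.Prime := ⟨hp⟩
  have hp2 : Odd p := hx.of_dvd_nat hpx
  have ho := orderOf_pow_orderOf_div (orderOf_pos x).ne' hpx
  set z := x ^ (orderOf x / p) with hz
  have hzp : IsPGroup p (zpowers z) := IsPGroup.of_card (n := 1) (by rw [Nat.card_zpowers, ho, pow_one])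
  obtain ⟨P, hP, hPz⟩ := exists_isPGroup_map_eq (QuotientGroup.mk'_surjective N) hzp
  have hcop : (Nat.card N).Coprime p := by
    obtain ⟨k, hk⟩ := hN.exists_card_eq
    rw [hk]
    exact Nat.Coprime.pow_left k hp2.coprime_two_left
  have hc := map_centralizer_quotient_of_coprime hcop hP
  rw [hPz] at hc
  have hy : y ∈ centralizer ((zpowers z : Subgroup (G ⧸ N)) : Set (G ⧸ N)) := by
    rintro _ ⟨i, rfl⟩
    exact ((hxy.pow_left _).zpow_left i).eq
  rw [← hc] at hy
  obtain ⟨y', hy', rfl⟩ := hy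
  obtain ⟨z', hz', hzz⟩ : z ∈ P.map (QuotientGroup.mk' N) := hPz ▸ mem_zpowers z
  have hz1 : z' ≠ 1 := by
    rintro rfl
    rw [map_one] at hzz
    rw [← hzz, orderOf_one] at ho
    exact hp.one_lt.ne ho
  obtain ⟨k, hk⟩ := hP ⟨z', hz'⟩
  have h1 : z' ^ p ^ k = 1 := congrArg Subtype.val hk
  exact (h z' y' (hy' z' hz') hz1 (hp2.pow.of_dvd_nat (orderOf_dvd_of_pow_eq_one h1))).of_dvd_nat
    (orderOf_map_dvd _ _)

theorem OddCent.fpf {G : Type*} [Group G] [Finite G] (h : OddCent G) {A B : Subgroup G}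
    (hA : Odd (Nat.card A)) (hB : IsPGroup 2 B) {x y : G} (hx : x ∈ A) (hy : y ∈ B) (hx1 : x ≠ 1)
    (hy1 : y ≠ 1) : x * y ≠ y * x := by
  intro hc
  have h1 := h x y hc hx1 (hA.of_dvd_nat (A.orderOf_dvd_natCard hx))
  obtain ⟨k, hk⟩ := hB ⟨y, hy⟩
  have h2 := orderOf_dvd_of_pow_eq_one (congrArg Subtype.val hk : y ^ 2 ^ k = 1)
  exact hy1 (orderOf_eq_one_iff.1
    (Nat.Coprime.eq_one_of_dvd (h1.coprime_two_right.pow_right k) h2))

/-- Let H be a finite solvable group with no nontrivial normal subgroup of odd order in which the centralizer of every involution has a normal 2-complement. Let X be a Hall 2'-subgroup of H (odd order, index a power of 2) and Y = O₂(H). Then no non-identity element of X commutes with a non-identity element of Y (so for X ≠ 1 the group XY is a Frobenius group with kernel Y), every Sylow subgroup of X is cyclic, XY is normal in H, and H/XY is a cyclic 2-group. -/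
theorem result {H : Type*} [Group H] [Finite H] (hsol : Group.IsSolvable H)
    (hO : Cfsg.oddCore H = ⊥)
    (hI : ∀ t : H, orderOf t = 2 → Cfsg.HasNormalPComplement 2 ↥(Subgroup.centralizer ({t} : Set H)))
    (X : Subgroup H) (hXodd : Odd (Nat.card X)) (hXidx : ∃ k : ℕ, X.index = 2 ^ k) :
    (∀ x ∈ X, x ≠ 1 → ∀ y ∈ Cfsg.pCore 2 H, y ≠ 1 → x * y ≠ y * x) ∧
      (∀ (p : ℕ) [Fact p.Prime] (P : Sylow p ↥X), IsCyclic ↥(P : Subgroup ↥X)) ∧
      (X ⊔ Cfsg.pCore 2 H).Normal ∧
      ∀ hN : (X ⊔ Cfsg.pCore 2 H).Normal, IsCyclic (H ⧸ (X ⊔ Cfsg.pCore 2 H)) ∧ IsPGroup 2 (H ⧸ (X ⊔ Cfsg.pCore 2 H)) := by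
  have hY := pCore_isPGroup 2 H
  have hC := centralizer_pCore_le_of_isSolvable hO
  have hodd : OddCent H := by
    refine oddCent_of_invol fun t ht => ?_
    obtain ⟨N, hN, hcop, k, hk⟩ := hasNormalPComplement_iff_exists_normal.1 (hI t ht)
    have hT : IsPGroup 2 (zpowers t) :=
      IsPGroup.of_card (n := 1) (by rw [Nat.card_zpowers, ht, pow_one])
    have h1 := pPrimeCoreOf_centralizer (isPConstrained_of_isSolvable hsol) hT
    have hc : centralizer (zpowers t : Set H) = centralizer ({t} : Set H) := by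
      rw [zpowers_eq_closure, centralizer_closure]
    rw [hc, show pPrimeCore 2 H = ⊥ from hO, bot_inf_eq] at h1
    have h2 : N = ⊥ := by
      have h3 := le_pPrimeCore hcop
      rw [← pPrimeCoreOf_subgroupOf, h1, bot_subgroupOf] at h3
      exact le_bot_iff.1 h3
    rw [h2, index_bot] at hk
    exact IsPGroup.of_card hk
  have hfpf : ∀ x ∈ X, x ≠ 1 → ∀ y ∈ Cfsg.pCore 2 H, y ≠ 1 → x * y ≠ y * x :=
    fun x hx hx1 y hy hy1 => hodd.fpf hXodd hY hx hy hx1 hy1
  have hZ : IsZGroup X := by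
    by_cases hY1 : pCore 2 H = ⊥
    · have h1 : X = ⊥ := by
        rw [hY1] at hC
        refine le_bot_iff.1 (le_trans ?_ hC)
        intro x _ y hy
        rw [SetLike.mem_coe, mem_bot] at hy
        simp [hy]
      subst h1
      infer_instance
    refine (pqCyclic_of_fpf hY1 (by rw [normalizer_eq_top]; exact le_top) ?_).isZGroup_of_odd hXodd
    intro a ha ha1
    rw [eq_bot_iff]
    intro y hy
    by_contra hy1
    exact hfpf a ha ha1 y hy.1 hy1 (mem_centralizer_singleton_iff.1 hy.2).symm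
  have hXH : IsPiHall {q | q ≠ 2} X := by
    constructor
    · rintro q - h rfl
      exact (Nat.not_even_iff_odd.2 hXodd) (even_iff_two_dvd.2 h)
    · intro q hq hq2 h
      obtain ⟨k, hk⟩ := hXidx
      rw [hk] at h
      exact hq2 ((Nat.prime_dvd_prime_iff_eq hq Nat.prime_two).1 (hq.dvd_of_dvd_pow h))
  let f := QuotientGroup.mk' (pCore 2 H)
  have hf : Function.Surjective f := QuotientGroup.mk'_surjective _
  set F := fittingSubgroup (H ⧸ pCore 2 H) with hF
  have hFodd : Odd (Nat.card F) := by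
    have h1 := fittingSubgroup_le_pCore_sup_pPrimeCore (G := H ⧸ pCore 2 H) 2
    rw [pCore_quotient_pCore, bot_sup_eq] at h1
    exact Nat.coprime_two_right.1 (coprime_of_le_pPrimeCore h1)
  have hFX : F ≤ X.map f := isPiHall_normal_le (isPiHall_map hXH hf) (by
    rintro q - h rfl
    exact (Nat.not_even_iff_odd.2 hFodd) (even_iff_two_dvd.2 h))
  haveI : IsZGroup (X.map f) := IsZGroup.of_surjective (f.subgroupMap_surjective X)
  haveI : IsZGroup F := IsZGroup.of_injective (inclusion_injective hFX)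
  haveI := fittingSubgroup_isNilpotent (H ⧸ pCore 2 H)
  haveI : IsCyclic F := inferInstance
  have hCF := centralizer_fittingSubgroup_le (H ⧸ pCore 2 H)
  have hcomm : commutator (H ⧸ pCore 2 H) ≤ F := (commutator_le_centralizer_of_isCyclic F).trans hCF
  have hXn : (X.map f).Normal := Normal.of_commutator_le _ (hcomm.trans hFX)
  have hN : (X ⊔ Cfsg.pCore 2 H).Normal := by
    have := hXn.comap f
    rwa [comap_map_eq, QuotientGroup.ker_mk'] at this
  refine ⟨hfpf, fun p _ P => inferInstance, hN, fun hN => ?_⟩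
  have h2 : IsPGroup 2 (H ⧸ (X ⊔ Cfsg.pCore 2 H)) := by
    obtain ⟨k, hk⟩ := hXidx
    have : (X ⊔ Cfsg.pCore 2 H).index ∣ 2 ^ k := hk ▸ index_dvd_of_le le_sup_left
    obtain ⟨j, -, hj⟩ := (Nat.dvd_prime_pow Nat.prime_two).1 this
    exact IsPGroup.of_card hj
  refine ⟨?_, h2⟩
  obtain ⟨T⟩ : Nonempty (Sylow 2 (H ⧸ pCore 2 H)) := inferInstance
  have hT : IsCyclic (T : Subgroup (H ⧸ pCore 2 H)) := by
    by_cases hF1 : F = ⊥
    · have h1 : (T : Subgroup (H ⧸ pCore 2 H)) = ⊥ := by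
        rw [← hF, hF1] at hCF
        refine le_bot_iff.1 (le_trans ?_ hCF)
        intro x _ y hy
        rw [SetLike.mem_coe, mem_bot] at hy
        simp [hy]
      rw [h1]
      infer_instance
    haveI : IsMulCommutative (T : Subgroup (H ⧸ pCore 2 H)) := by
      refine ⟨⟨fun x y => ?_⟩⟩
      have h1 : ⁅(x : H ⧸ pCore 2 H), (y : H ⧸ pCore 2 H)⁆ ∈ (T : Subgroup (H ⧸ pCore 2 H)) ⊓ F :=
        mem_inf.2 ⟨by
          rw [commutatorElement_def]
          exact mul_mem (mul_mem (mul_mem x.2 y.2) (inv_mem x.2)) (inv_mem y.2),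
        hcomm (commutator_mem_commutator (mem_top _) (mem_top _))⟩
      rw [inf_eq_bot_of_isPGroup_of_coprime T.isPGroup' hFodd.coprime_two_right, mem_bot,
        commutatorElement_eq_one_iff_mul_comm] at h1
      exact Subtype.ext h1
    refine (pqCyclic_of_fpf hF1 (by rw [normalizer_eq_top]; exact le_top) ?_).isCyclic_of_comm
    intro a ha ha1
    rw [eq_bot_iff]
    intro y hy
    by_contra hy1
    exact (hodd.quotient _ hY).fpf hFodd T.isPGroup' hy.1 ha hy1 ha1
      (mem_centralizer_singleton_iff.1 hy.2)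
  let g : H ⧸ pCore 2 H →* H ⧸ (X ⊔ Cfsg.pCore 2 H) :=
    QuotientGroup.map _ _ (MonoidHom.id H) le_sup_right
  have hg : Function.Surjective g := by
    intro q
    obtain ⟨x, rfl⟩ := QuotientGroup.mk_surjective q
    exact ⟨x, rfl⟩
  have h3 : (T : Subgroup (H ⧸ pCore 2 H)).map g = ⊤ :=
    ((T.mapSurjective hg).is_maximal' (h2.to_subgroup ⊤) le_top).symm
  refine isCyclic_of_surjective (g.comp (T : Subgroup (H ⧸ pCore 2 H)).subtype) ?_
  intro q
  obtain ⟨x, hx, rfl⟩ : q ∈ (T : Subgroup (H ⧸ pCore 2 H)).map g := h3 ▸ mem_top q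
  exact ⟨⟨x, hx⟩, rfl⟩

end Cfsg.Agent.S3215
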