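import Cfsg.Statements.S3225
import Cfsg.Agent.Transfer.Control

set_option autoImplicit false
open Cfsg

namespace Cfsg.Agent.S3225

/-- Let G be a finite group of even order with no subgroup of index 2, S a Sylow 2-subgroup of G and M a subgroup of index 2 in S such that, for some n ≥ 1, every element of S outside M has order greater than 2^(n−1). Then every element of S of order 2ⁿ is conjugate in G to an element of M. -/
theorem result {G : Type*} [Group G] [Finite G] (hev : Even (Nat.card G))
    (hG : ∀ H : Subgroup G, H.index ≠ 2) (S : Sylow 2 G) (M : Subgroup G) (hMS : M ≤ (S : Subgroup G)) (hM : M.relIndex (S : Subgroup G) = 2)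
    (n : ℕ) (hn : 1 ≤ n) (hord : ∀ y ∈ (S : Subgroup G), y ∉ M → 2 ^ (n - 1) < orderOf y)
    (x : G) (hx : x ∈ (S : Subgroup G)) (hxn : orderOf x = 2 ^ n) :
    ∃ g : G, g * x * g⁻¹ ∈ M := by
  by_contra hcon
  have hcon' : ∀ g : G, g * x * g⁻¹ ∉ M := not_exists.mp hcon
  obtain ⟨N, -, hN, -⟩ := CL.Transfer.thompson_transfer_general (S : Subgroup G) M
    (CL.Transfer.odd_index_sylow_two S) hM x (fun k g hk hkg => by
      have h1 : (g⁻¹ * x * g) ^ k ∈ M := by
        have := conj_pow (a := g⁻¹) (b := x) (i := k)
        rw [inv_inv] at this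
        rwa [this]
      have h2 : orderOf (g⁻¹ * x * g) = 2 ^ n := by
        rw [← hxn]
        simpa using (MulAut.conj g⁻¹).orderOf_eq x
      refine hcon' g⁻¹ ?_
      rw [inv_inv]
      refine CL.Transfer.mem_of_pow_mem_of_coprime h1 ?_
      rw [h2]
      exact Nat.Coprime.pow_right n (hk.coprime_two_right))
    (fun k g hk hkg => by
      by_contra hnot
      have h1 := hord _ hkg hnot
      have h2 : orderOf (g⁻¹ * x ^ k * g) ∣ 2 ^ (n - 1) := by
        apply orderOf_dvd_of_pow_eq_one
        obtain ⟨j, rfl⟩ := hk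
        have := conj_pow (a := g⁻¹) (b := x ^ (j + j)) (i := 2 ^ (n - 1))
        rw [inv_inv] at this
        rw [this, ← pow_mul, ← two_mul, mul_right_comm, ← pow_succ', Nat.sub_add_cancel hn, ← hxn,
          pow_mul, pow_orderOf_eq_one]
        simp
      exact absurd (Nat.le_of_dvd (by positivity) h2) (not_le.mpr h1))
  exact hG N hN

end Cfsg.Agent.S3225
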