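import Cfsg.Statements.S3246
import Cfsg.Agent.Inv.Misc2

set_option autoImplicit false
open Cfsg

namespace Cfsg.Agent.S3246

/-- Let G be a finite group whose Sylow 2-subgroup S has a self-centralizing normal subgroup of rank at least 3. Suppose that either every maximal 2-local subgroup of G is 2-constrained with no nontrivial normal subgroup of odd order, or the centralizer of every involution of G is 2-constrained with no nontrivial normal subgroup of odd order. Then S normalizes no nontrivial subgroup of G of odd order and every 2-local subgroup of G is 2-constrained. -/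
theorem result {G : Type*} [Group G] [Finite G]
    (S : Sylow 2 G) (A : Subgroup G) (hA : Cfsg.IsSCN (S : Subgroup G) A) (hA3 : ¬ Cfsg.PRankLE 2 2 ↥A)
    (h : (∀ M : Subgroup G, Cfsg.IsMaximalTwoLocal M → Cfsg.IsPConstrained 2 ↥M ∧ Cfsg.oddCore ↥M = ⊥) ∨
      (∀ t : G, orderOf t = 2 → Cfsg.IsPConstrained 2 ↥(Subgroup.centralizer ({t} : Set G)) ∧
        Cfsg.oddCore ↥(Subgroup.centralizer ({t} : Set G)) = ⊥)) :
    (∀ X : Subgroup G, Odd (Nat.card ↥X) → (S : Subgroup G) ≤ Subgroup.normalizer (X : Set G) → X = ⊥) ∧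
      (∀ T : Subgroup G, IsPGroup 2 ↥T → T ≠ ⊥ → Cfsg.IsPConstrained 2 ↥(Subgroup.normalizer (T : Set G))) := by
  have key : ∀ t : G, orderOf t = 2 →
      Subgroup.centralizer (pCore 2 (Subgroup.centralizer ({t} : Set G)) :
        Set (Subgroup.centralizer ({t} : Set G))) ≤ pCore 2 (Subgroup.centralizer ({t} : Set G)) := by
    intro t ht
    rcases h with h | h
    · have hT : IsPGroup 2 (Subgroup.zpowers t) :=
        IsPGroup.of_card (n := 1) (by rw [Nat.card_zpowers, ht, pow_one])
      have hT1 : Subgroup.zpowers t ≠ ⊥ := by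
        rw [Ne, Subgroup.zpowers_eq_bot]
        rintro rfl
        simp at ht
      obtain ⟨M, hle, hM⟩ := Finite.exists_le_maximal (p := fun M : Subgroup G => IsTwoLocal M)
        (⟨_, hT, hT1, rfl⟩ : IsTwoLocal (Subgroup.normalizer (Subgroup.zpowers t : Set G)))
      obtain ⟨h1, h2⟩ := h M ⟨hM.1, fun N hN hMN => le_antisymm (hM.2 hN hMN) hMN⟩
      have h3 := (CL.Loc.isPConstrained_iff_of_pPrimeCore_eq_bot h2).1 h1
      have htM : Subgroup.zpowers t ≤ M := Subgroup.le_normalizer.trans hle
      have hc : Subgroup.centralizer (Subgroup.zpowers t : Set G) =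
          Subgroup.centralizer ({t} : Set G) := by
        rw [Subgroup.zpowers_eq_closure, Subgroup.centralizer_closure]
      have h4 := CL.Loc.centralizer_pCore_le_centralizer h3 (hT.comap_subtype (K := M))
      have h5 := CL.Inv.map_cent_subgroupOf_of_le htM
        ((CL.Inv.centralizer_le_normalizer' _).trans hle)
      rw [hc] at h5
      exact CL.Loc.centralizer_pCore_le_of_equiv
        ((Subgroup.equivMapOfInjective _ _ M.subtype_injective).trans (MulEquiv.subgroupCongr h5)) h4
    · exact (CL.Loc.isPConstrained_iff_of_pPrimeCore_eq_bot (h t ht).2).1 (h t ht).1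
  refine ⟨fun X hX hSX => ?_, fun T hT hT1 => CL.Inv.isPConstrained_normalizer_of_elts
    (fun t ht => CL.Loc.isPConstrained_of_centralizer_pCore_le (key t ht)) hT hT1⟩
  unfold PRankLE at hA3
  push Not at hA3
  obtain ⟨E, -, hE, hc⟩ := hA3
  let f : A →* (S : Subgroup G) := Subgroup.inclusion hA.1
  obtain ⟨U, hUn, hU, hU4⟩ := CL.Inv.exists_normal_four_of_ea_gt_four S.isPGroup' (E := E.map f)
    (by
      rintro _ ⟨a, ha, rfl⟩
      rw [← map_pow, hE a ha, map_one])
    (by rwa [Subgroup.card_map_of_injective (Subgroup.inclusion_injective hA.1)])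
  refine CL.Inv.eq_bot_of_charTwo_centralizers S (U := U.map (S : Subgroup G).subtype)
    (Subgroup.map_subtype_le _) ?_ ?_ ?_ key hX hSX
  · have := Subgroup.le_normalizer_map (H := U) (S : Subgroup G).subtype
    rwa [Subgroup.normalizer_eq_top, ← MonoidHom.range_eq_map, Subgroup.range_subtype] at this
  · rintro _ ⟨u, hu, rfl⟩
    rw [← map_mul, ← pow_two, hU.2 u hu, map_one]
  · rwa [Subgroup.card_map_of_injective (Subgroup.subtype_injective _)]

end Cfsg.Agent.S3246
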