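import Cfsg.Statements.S3252
import Cfsg.Agent.Perm.ABZ4
import Cfsg.Agent.Perm.ZassSharp2
import Cfsg.Agent.Perm.ZassCoord

set_option autoImplicit false
open Cfsg

namespace Cfsg.Agent.S3252

/-- Let G be a finite non-solvable group that is the product G = AB of a cyclic subgroup A and a subgroup B all of whose Sylow subgroups are cyclic. Then the quotient of G by its largest solvable normal subgroup is isomorphic to PGL₂(p) for some prime p > 3. -/
theorem result {G : Type*} [Group G] [Finite G] (hG : ¬ Group.IsSolvable G)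
    (A B : Subgroup G) (hA : IsCyclic ↥A) (hB : ∀ (q : ℕ) [Fact q.Prime] (Q : Sylow q ↥B), IsCyclic ↥(Q : Subgroup ↥B))
    (hAB : ∀ g : G, ∃ a ∈ A, ∃ b ∈ B, g = a * b)
    (R : Subgroup G) [hR : R.Normal] (hRs : Group.IsSolvable ↥R) (hRmax : ∀ N : Subgroup G, N.Normal → Group.IsSolvable ↥N → N ≤ R) :
    ∃ (F : Type) (_ : Field F) (_ : Fintype F) (p : ℕ), p.Prime ∧ 3 < p ∧ Fintype.card F = p ∧
      Nonempty ((G ⧸ R) ≃* (GL (Fin 2) F ⧸ Subgroup.center (GL (Fin 2) F))) := by
  have f : CL.ABZ.Fac (G ⧸ R) (A.map (QuotientGroup.mk' R)) (B.map (QuotientGroup.mk' R)) := by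
    have : IsZGroup B := ⟨fun q hq Q => have := Fact.mk hq; hB q Q⟩
    refine ⟨isCyclic_of_surjective _ (MonoidHom.subgroupMap_surjective _ A),
      IsZGroup.of_surjective (MonoidHom.subgroupMap_surjective _ B), fun g => ?_⟩
    obtain ⟨g, rfl⟩ := QuotientGroup.mk_surjective g
    obtain ⟨a, ha, b, hb, rfl⟩ := hAB g
    exact ⟨_, Subgroup.mem_map_of_mem _ ha, _, Subgroup.mem_map_of_mem _ hb, rfl⟩
  have s : CL.ABZ.SS (G ⧸ R) := fun N _ _ => eq_bot_iff.2 fun x hx => by
    obtain ⟨g, rfl⟩ := QuotientGroup.mk_surjective x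
    refine (QuotientGroup.eq_one_iff g).2 (hRmax (N.comap (QuotientGroup.mk' R)) inferInstance ?_ hx)
    refine Group.isSolvable_of_ker_le_range (Subgroup.inclusion (H := R) fun r hr => ?_)
      ((QuotientGroup.mk' R).subgroupComap N) fun x e => ⟨⟨x, (QuotientGroup.eq_one_iff _).1 (congrArg Subtype.val e)⟩, rfl⟩
    exact Subgroup.mem_comap.2 ((QuotientGroup.eq_one_iff r).2 hr ▸ N.one_mem :)
  have : Nontrivial (G ⧸ R) := not_subsingleton_iff_nontrivial.1 fun _ =>
    hG (Group.isSolvable_of_ker_le_range R.subtype (QuotientGroup.mk' R) (by simp))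
  have h := f.hyp s
  have c := h.concl
  have := CL.ABZ.faithful_of_core (f.faithful s)
  have z : CL.Perm.IsSharp3 _ _ := ⟨c.isZ h.big, fun h1 h2 h3 h4 h5 h6 => c.three h1 h3.symm h2.symm h4 h6.symm h5.symm⟩
  obtain ⟨a, b, -, hab, -⟩ := z.three
  obtain ⟨K, _, _, h1, h2⟩ := z.pgl2_of_comm hab fun x hx y hy => h.D_comm hab.symm hx.1 hx.2 hy.1 hy.2
  refine ⟨K, inferInstance, inferInstance, _, c.prime, lt_of_not_ge fun e => ?_, by omega, h2⟩
  have := CL.Known.isSolvable_perm_of_card_le_four (α := (G ⧸ R) ⧸ B.map (QuotientGroup.mk' R)) (by omega)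
  exact s.not_solv (Group.isSolvable_of_isSolvable_injective
    (f := MulAction.toPermHom _ ((G ⧸ R) ⧸ B.map (QuotientGroup.mk' R))) MulAction.toPerm_injective)

end Cfsg.Agent.S3252
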