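import Cfsg.Statements.S3261
import Cfsg.Agent.Inv.CentD8
import Cfsg.Agent.S0254

set_option autoImplicit false
open Cfsg
open CL.Inv.FI

namespace Cfsg.Agent.S3261

/-- Let α̃ be an involution of the alternating group A₆ that is a product of two disjoint transpositions (it lies in the centre of a Sylow 2-subgroup of A₆; its centralizer is dihedral of order 8). Let G be a finite group that has no subgroup of index 2 and contains an involution α, central in some Sylow 2-subgroup of G, with C_G(α) ≅ C_{A₆}(α̃). Then G is isomorphic to A₆ or to PSL₂(7). -/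
theorem result {G : Type*} [Group G] [Finite G]
    (hG : ∀ H : Subgroup G, H.index ≠ 2)
    (αt : ↥(alternatingGroup (Fin 6))) (hαt : orderOf αt = 2) (hsupp : (αt : Equiv.Perm (Fin 6)).support.card = 4)
    (α : G) (hα : orderOf α = 2) (S : Sylow 2 G) (hαS : α ∈ (S : Subgroup G)) (hαc : ∀ s ∈ (S : Subgroup G), s * α = α * s)
    (e : ↥(Subgroup.centralizer ({α} : Set G)) ≃* ↥(Subgroup.centralizer ({αt} : Set ↥(alternatingGroup (Fin 6))))) :
    Nonempty (G ≃* ↥(alternatingGroup (Fin 6))) ∨
      (∃ (F : Type) (_ : Field F) (_ : Fintype F), Fintype.card F = 7 ∧ Nonempty (G ≃* Matrix.ProjectiveSpecialLinearGroup (Fin 2) F)) := by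
  obtain ⟨e'⟩ := alt_six_cent hαt hsupp
  obtain ⟨F, _, _, hF | hF, ⟨f⟩⟩ := d8_psl hG hα (e.trans e')
  · exact Or.inr ⟨F, inferInstance, inferInstance, hF, ⟨f⟩⟩
  · obtain ⟨f'⟩ := Cfsg.Agent.S0254.result hF
    exact Or.inl ⟨f.trans f'⟩

end Cfsg.Agent.S3261
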