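import Cfsg.Statements.S3264
import Cfsg.Agent.Fgs.InvOdd

set_option autoImplicit false
open Cfsg

namespace Cfsg.Agent.S3264

/-- Let G be a non-abelian finite simple group and X a conjugacy class of involutions of G. Form the graph on X in which two distinct involutions are joined when their product has odd order. Then this graph is connected. (By the Baer–Suzuki Theorem the graph has at least one edge; connectedness is the stronger statement.) -/
theorem result {G : Type*} [Group G] [Finite G] [IsSimpleGroup G]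
    (hG : ¬ IsMulCommutative G) (t : G) (ht : orderOf t = 2) :
    (SimpleGraph.fromRel fun x y : {x : G // IsConj t x} => Odd (orderOf (x.1 * y.1))).Connected := by
  have tt : t * t = 1 := by rw [← sq, ← ht, pow_orderOf_eq_one]
  have ti : t⁻¹ = t := inv_eq_of_mul_eq_one_right tt
  set Γ := SimpleGraph.fromRel fun x y : {x : G // IsConj t x} => Odd (orderOf (x.1 * y.1))
  let c : G → {x : G // IsConj t x} → {x : G // IsConj t x} := fun g x =>
    ⟨g * x.1 * g⁻¹, x.2.trans (isConj_iff.2 ⟨g, rfl⟩)⟩
  have hc : ∀ g x y, Γ.Reachable x y → Γ.Reachable (c g x) (c g y) := fun g x y h => by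
    have e : ∀ x y : {x : G // IsConj t x}, orderOf ((c g x).1 * (c g y).1) = orderOf (x.1 * y.1) := fun x y => by
      rw [← (MulAut.conj g).orderOf_eq (x.1 * y.1), map_mul]; rfl
    refine h.map ⟨c g, fun {a b} hab => ?_⟩
    rw [SimpleGraph.fromRel_adj] at hab ⊢
    rw [e, e]
    exact ⟨fun h => hab.1 (Subtype.ext ((MulAut.conj g).injective (congrArg Subtype.val h))), hab.2⟩
  let t0 : {x : G // IsConj t x} := ⟨t, IsConj.refl t⟩
  have cm : ∀ a b x, c (a * b) x = c a (c b x) := fun a b x => Subtype.ext (by simp [c, mul_assoc])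
  have c1 : ∀ x, c 1 x = x := fun x => Subtype.ext (by simp [c])
  let H : Subgroup G :=
    { carrier := {g | Γ.Reachable t0 (c g t0)}
      one_mem' := by change Γ.Reachable _ _; rw [c1]
      mul_mem' := fun {a b} ha hb => by
        change Γ.Reachable _ _
        rw [cm]
        exact ha.trans (hc a _ _ hb)
      inv_mem' := fun {a} ha => by
        have := hc a⁻¹ _ _ ha
        rw [← cm, inv_mul_cancel, c1] at this
        exact this.symm }
  have hgen : Subgroup.closure (Set.range fun x : G => x * (MulAut.conj t x)⁻¹) = ⊤ := by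
    have hN : (Subgroup.closure (Set.range fun x : G => x * (MulAut.conj t x)⁻¹)).Normal := by
      refine ⟨fun n hn g => ?_⟩
      induction hn using Subgroup.closure_induction with
      | mem x hx =>
        obtain ⟨x, rfl⟩ := hx
        have : g * (x * (MulAut.conj t x)⁻¹) * g⁻¹ =
            (g * x) * (MulAut.conj t (g * x))⁻¹ * (g * (MulAut.conj t g)⁻¹)⁻¹ := by
          simp only [MulAut.conj_apply]; group
        rw [this]
        exact mul_mem (Subgroup.subset_closure ⟨_, rfl⟩) (inv_mem (Subgroup.subset_closure ⟨_, rfl⟩))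
      | one => simp
      | mul x y _ _ hx hy => rw [← conj_mul]; exact mul_mem hx hy
      | inv x _ hx => rw [← conj_inv]; exact inv_mem hx
    refine (hN.eq_bot_or_eq_top).resolve_left fun e => ?_
    have hz : t ∈ Subgroup.center G := Subgroup.mem_center_iff.2 fun x => by
      have h1 : x * (MulAut.conj t x)⁻¹ = 1 := Subgroup.mem_bot.1 (e ▸ Subgroup.subset_closure ⟨x, rfl⟩)
      rw [mul_inv_eq_one, MulAut.conj_apply, eq_mul_inv_iff_mul_eq] at h1
      exact h1
    rcases (inferInstance : (Subgroup.center G).Normal).eq_bot_or_eq_top with e' | e'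
    · rw [e', Subgroup.mem_bot] at hz
      rw [hz, orderOf_one] at ht
      omega
    · exact hG ⟨⟨fun a b => (Subgroup.mem_center_iff.1 (e'.symm ▸ Subgroup.mem_top b) a)⟩⟩
  have hH : (⊤ : Subgroup G) ≤ H := by
    rw [← CL.Fgs.closure_invOdd (MulAut.conj t) (fun x => by
      simp only [MulAut.conj_apply, ti, ← mul_assoc, tt, one_mul]; rw [mul_assoc, tt, mul_one]) hgen,
      Subgroup.closure_le]
    rintro w ⟨h1, h2⟩
    change Γ.Reachable _ _
    by_cases e : t0 = c w t0
    · rw [← e]
    refine SimpleGraph.Adj.reachable ((SimpleGraph.fromRel_adj _ _ _).2 ⟨e, .inl ?_⟩)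
    have : t * (w * t * w⁻¹) = (w ^ 2)⁻¹ := by
      rw [MulAut.conj_apply, ti] at h2
      rw [← mul_assoc, ← mul_assoc, h2, sq, mul_inv_rev]
    change Odd (orderOf (t * (w * t * w⁻¹)))
    rw [this, orderOf_inv]
    exact h1.of_dvd_nat (orderOf_pow_dvd 2)
  have key : ∀ x, Γ.Reachable t0 x := fun x => by
    obtain ⟨g, hg⟩ := isConj_iff.1 x.2
    have : c g t0 = x := Subtype.ext hg
    exact this ▸ hH (Subgroup.mem_top g)
  have : Nonempty {x : G // IsConj t x} := ⟨t0⟩
  exact ⟨fun x y => (key x).symm.trans (key y)⟩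

end Cfsg.Agent.S3264
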