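import Cfsg.Statements.S3265
import Cfsg.Agent.Perm.OddProd

set_option autoImplicit false
open Cfsg

namespace Cfsg.Agent.S3265

open Equiv in
theorem not_odd {α : Type*} [DecidableEq α] {a b c d : α} (ab : a ≠ b) (ac : a ≠ c) (ad : a ≠ d) (bc : b ≠ c)
    (bd : b ≠ d) : swap a b * swap c d ≠ 1 ∧ ¬ Odd (orderOf (swap a b * swap c d)) := by
  have h1 : swap a b * swap c d ≠ 1 := fun e => ab (by
    simpa [swap_apply_of_ne_of_ne bc bd] using congrArg (fun f : Perm α => f b) e)
  have h2 : swap a b * swap c d * (swap a b * swap c d) = 1 := by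
    rw [← mul_assoc, mul_assoc _ _ (swap a b), mul_swap_eq_swap_mul (swap c d), swap_apply_of_ne_of_ne ac ad,
      swap_apply_of_ne_of_ne bc bd, ← mul_assoc, swap_mul_self, one_mul, swap_mul_self]
  exact ⟨h1, by rw [CL.Inv.orderOf_two_of_mul_self h2 h1]; decide⟩

open Equiv in
theorem exists_far {n : ℕ} (hn : 5 ≤ n) {t : Perm (Fin n)} (h2 : t * t = 1) (h1 : t ≠ 1) :
    ∃ s, IsConj t s ∧ t * s ≠ 1 ∧ ¬ Odd (orderOf (t * s)) := by
  have it : Function.Involutive t := fun p => congrArg (fun f : Perm (Fin n) => f p) h2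
  obtain ⟨a, ha⟩ : ∃ a, t a ≠ a := by
    by_contra! e
    exact h1 (Equiv.ext e)
  by_cases h : ∃ c, c ≠ a ∧ c ≠ t a ∧ t c ≠ c
  · obtain ⟨c, c1, c2, c3⟩ := h
    refine ⟨_, isConj_iff.2 ⟨swap (t a) c, rfl⟩, ?_⟩
    rw [swap_inv, ← mul_assoc, ← mul_assoc, mul_swap_eq_swap_mul t, mul_assoc _ t t, h2, mul_one, it]
    exact not_odd (fun e => c2 (by rw [e, it])) ha.symm c1.symm (t.injective.ne c1) c3
  · push Not at h
    have e : t = swap a (t a) := Equiv.ext fun p => by
      by_cases e1 : p = a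
      · rw [e1, swap_apply_left]
      by_cases e2 : p = t a
      · rw [e2, swap_apply_right, it]
      · rw [swap_apply_of_ne_of_ne e1 e2, h p e1 e2]
    obtain ⟨c, hc, d, hd, cd⟩ := Finset.one_lt_card.1 (show 1 < ({a, t a}ᶜ : Finset (Fin n)).card by
      have := Finset.card_le_two (a := a) (b := t a)
      rw [Finset.card_compl, Fintype.card_fin]; omega)
    simp only [Finset.mem_compl, Finset.mem_insert, Finset.mem_singleton, not_or] at hc hd
    refine ⟨swap c d, ?_⟩
    rw [e]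
    exact ⟨Perm.isConj_swap ha.symm cd, not_odd ha.symm (Ne.symm hc.1) (Ne.symm hd.1) (Ne.symm hc.2) (Ne.symm hd.2)⟩


/-- Let n ≥ 5 and let X be a conjugacy class of involutions of the symmetric group of degree n. The graph on X joining two distinct involutions whose product has odd order is connected and has diameter exactly 2. -/
theorem result (n : ℕ) (hn : 5 ≤ n) (t : Equiv.Perm (Fin n)) (ht : orderOf t = 2) :
    (SimpleGraph.fromRel fun x y : {x : Equiv.Perm (Fin n) // IsConj t x} =>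
        Odd (orderOf (x.1 * y.1))).Connected ∧
      (SimpleGraph.fromRel fun x y : {x : Equiv.Perm (Fin n) // IsConj t x} =>
        Odd (orderOf (x.1 * y.1))).diam = 2 := by
  have h2 := CL.Inv.mul_self_of_orderOf_two ht
  have sq : ∀ x : {x : Equiv.Perm (Fin n) // IsConj t x}, x.1 * x.1 = 1 := fun ⟨x, hx⟩ => by
    obtain ⟨g, rfl⟩ := isConj_iff.1 hx
    simp only [conj_mul, h2, mul_one, mul_inv_cancel]
  set Γ := SimpleGraph.fromRel fun x y : {x : Equiv.Perm (Fin n) // IsConj t x} => Odd (orderOf (x.1 * y.1))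
  have le1 : ∀ x y, Odd (orderOf (x.1 * y.1)) → Γ.edist x y ≤ 1 := fun x y h =>
    SimpleGraph.edist_le_one_iff_adj_or_eq.2 (or_iff_not_imp_right.2 fun e => ⟨e, .inl h⟩)
  have key : Γ.ediam = 2 := by
    refine le_antisymm (SimpleGraph.ediam_le_of_edist_le fun x y => ?_) ?_
    · obtain ⟨z, z1, z2, z3⟩ := CL.OddProd.exists_mid (by simpa using hn) (sq x) (x.2.symm.trans y.2)
      let w : {x : Equiv.Perm (Fin n) // IsConj t x} := ⟨z, x.2.trans (CL.Inv.isConj_of_odd_mul (sq x) z1 z2)⟩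
      exact (Γ.edist_triangle (v := w)).trans (add_le_add (le1 x w z2) (Γ.edist_comm ▸ le1 y w z3))
    · obtain ⟨s, s1, s2, s3⟩ := exists_far hn h2 (CL.Inv.ne_one_of_orderOf_two ht)
      refine le_trans ?_ (Γ.edist_le_ediam (u := ⟨t, .refl t⟩) (v := ⟨s, s1⟩))
      refine Order.add_one_le_of_lt (x := (1 : ℕ∞)) (not_le.1 fun h => ?_)
      rcases SimpleGraph.edist_le_one_iff_adj_or_eq.1 h with ⟨-, h | h⟩ | h
      · exact s3 h
      · exact s3 (by
          rwa [← orderOf_inv, mul_inv_rev, inv_eq_of_mul_eq_one_right h2,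
            inv_eq_of_mul_eq_one_right (sq ⟨s, s1⟩)] at h)
      · exact s2 (by rw [← show t = s from congrArg Subtype.val h, h2])
  have : Nonempty {x : Equiv.Perm (Fin n) // IsConj t x} := ⟨⟨t, .refl t⟩⟩
  exact ⟨SimpleGraph.connected_of_ediam_ne_top (by rw [key]; decide), by rw [SimpleGraph.diam, key]; rfl⟩

end Cfsg.Agent.S3265
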