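import Cfsg.Statements.S3266
import Cfsg.Agent.Cls.SL2Prod


set_option autoImplicit false
open Cfsg Matrix Subgroup CL.GL2 CL.SL2
open scoped MatrixGroups

namespace Cfsg.Agent.S3266

theorem graph {α : Type*} (r : α → α → Prop) (h1 : ∀ x y, ∃ z, r x z ∧ r z y)
    (h2 : ∃ x y, x ≠ y ∧ ¬ r x y ∧ ¬ r y x) :
    (SimpleGraph.fromRel r).Connected ∧ (SimpleGraph.fromRel r).diam = 2 := by
  obtain ⟨x, y, h3, h4, h5⟩ := h2
  have h6 : ∀ x y, r x y → (SimpleGraph.fromRel r).edist x y ≤ 1 := fun x y h =>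
    SimpleGraph.edist_le_one_iff_adj_or_eq.2 (or_iff_not_imp_right.2 fun h' => ⟨h', Or.inl h⟩)
  have h7 : (SimpleGraph.fromRel r).ediam = 2 := le_antisymm (SimpleGraph.ediam_le_of_edist_le
    fun x y => (h1 x y).elim fun z h => SimpleGraph.edist_triangle.trans
      (add_le_add (h6 _ _ h.1) (h6 _ _ h.2))) (le_trans (Order.add_one_le_of_lt (not_le.1 (mt
        SimpleGraph.edist_le_one_iff_adj_or_eq.1 fun h => h.elim
          (fun h => ((SimpleGraph.fromRel_adj ..).1 h).2.elim h4 h5) h3)))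
      SimpleGraph.edist_le_ediam)
  have : Nonempty α := ⟨x⟩
  exact ⟨SimpleGraph.connected_of_ediam_ne_top (by rw [h7]; decide), by
    rw [SimpleGraph.diam, h7]; rfl⟩

variable {F : Type*} [Field F]

theorem exists_third {X Y : SL(2, F)} (hX : (X : M2 F).trace = 0) (hY : (Y : M2 F).trace = 0)
    {r : F} (hr : ((X * Y : SL(2, F)) : M2 F).trace = r) (h4 : r ^ 2 ≠ 4) {s s' : F}
    (h : IsSquare (4 - r ^ 2 - s ^ 2 - s' ^ 2 - r * s * s')) : ∃ Z : SL(2, F), (Z : M2 F).trace = 0 ∧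
      ((X * Z : SL(2, F)) : M2 F).trace = s ∧ ((Z * Y : SL(2, F)) : M2 F).trace = s' := by
  obtain ⟨d, hd⟩ := h
  have h5 : 4 - r ^ 2 ≠ 0 := sub_ne_zero.2 h4.symm
  have a1 := det_SL X
  have a2 := det_SL Y
  have key : ∀ a b c : F, (a • X.val + b • Y.val + c • (X.val * Y.val - Y.val * X.val)).det =
      a ^ 2 + b ^ 2 - a * b * r + c ^ 2 * (4 - r ^ 2) ∧
      (a • X.val + b • Y.val + c • (X.val * Y.val - Y.val * X.val)).trace = 0 ∧
      (X.val * (a • X.val + b • Y.val + c • (X.val * Y.val - Y.val * X.val))).trace = b * r - 2 * a ∧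
      ((a • X.val + b • Y.val + c • (X.val * Y.val - Y.val * X.val)) * Y.val).trace =
        a * r - 2 * b := by
    intro a b c
    subst hr
    simp only [coe_mul_SL, det_fin_two, trace_fin_two, Matrix.sub_apply, Matrix.add_apply,
      Matrix.smul_apply, smul_eq_mul, mul00, mul01, mul10, mul11] at *
    rw [eq_neg_of_add_eq_zero_right hX, eq_neg_of_add_eq_zero_right hY] at *
    refine ⟨?_, by ring, by linear_combination -2 * a * a1, by linear_combination -2 * b * a2⟩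
    linear_combination (a ^ 2 + 4 * c ^ 2 * (-Y.val 0 0 * Y.val 0 0 - Y.val 0 1 * Y.val 1 0)) * a1 +
      (b ^ 2 + 4 * c ^ 2) * a2
  obtain ⟨b1, b2, b3, b4⟩ := key ((-2 * s - r * s') / (4 - r ^ 2)) ((-2 * s' - r * s) / (4 - r ^ 2))
    (d / (4 - r ^ 2))
  exact ⟨mkSL _ (b1.trans (by field_simp; linear_combination -(4 - r ^ 2) * hd)), b2,
    b3.trans (by field_simp; ring), b4.trans (by field_simp; ring)⟩

variable [Fintype F]

theorem exists_param (h2 : (2 : F) ≠ 0) (h4 : 4 ≤ Fintype.card F) {r : F}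
    (hr : ¬ IsSquare (r ^ 2 - 4)) : ∃ u : F, u ≠ 0 ∧ IsSquare (-(r + 2) * (u ^ 2 + r * u + 1)) := by
  classical
  by_cases h : IsSquare (-(r + 2))
  · obtain ⟨c, h1⟩ : ∃ c, c ∉ ({1, -1, r / 2} : Finset F) := by
      by_contra! h
      have := (Finset.card_le_card fun c (_ : c ∈ Finset.univ) => h c).trans Finset.card_le_three
      rw [Finset.card_univ] at this
      omega
    simp only [Finset.mem_insert, Finset.mem_singleton, not_or] at h1
    have h3 : r - 2 * c ≠ 0 := fun h => h1.2.2 (by field_simp; linear_combination -h)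
    refine ⟨(c ^ 2 - 1) / (r - 2 * c), div_ne_zero (sub_ne_zero.2 fun h =>
      (sq_eq_one_iff.1 h).elim h1.1 h1.2.1) h3, h.mul ⟨(c ^ 2 - 1) / (r - 2 * c) + c, ?_⟩⟩
    linear_combination div_mul_cancel₀ (c ^ 2 - 1) h3
  by_contra! h1
  have h3 : ∀ w : F, IsSquare (w ^ 2 - (r ^ 2 - 4)) := fun w => by
    have : w ^ 2 - (r ^ 2 - 4) = 2 ^ 2 * (((w - r) / 2) ^ 2 + r * ((w - r) / 2) + 1) := by
      field_simp; ring
    rw [this]
    refine (IsSquare.sq _).mul (by_contra fun h5 => h1 _ (fun h0 => h5 ?_)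
      (isSquare_mul_of_not h h5))
    rw [h0]; exact ⟨1, by ring⟩
  have h5 : ∀ k : ℕ, IsSquare (-(k : F) * (r ^ 2 - 4)) := fun k => by
    induction k with
    | zero => simp
    | succ k ih =>
      obtain ⟨w, hw⟩ := ih
      convert h3 w using 1
      push_cast
      linear_combination hw
  refine hr ?_
  convert h5 (Fintype.card F - 1) using 1
  rw [Nat.cast_sub Fintype.card_pos, FiniteField.cast_card_eq_zero]
  ring

theorem odd_of_trace_sq (h2 : (2 : F) ≠ 0) {g : SL(2, F)} (h : (g : M2 F).trace ^ 2 = 4) :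
    Odd (orderOf (g : PSL(2, F))) := by
  obtain ⟨p, _, n, hp, -⟩ := FiniteField.card' F
  have := Fact.mk hp
  exact (hp.odd_of_ne_two fun h => h2 (by subst h; exact CharTwo.two_eq_zero)).of_dvd_nat
    (orderOf_dvd_of_pow_eq_one (psl_pow_char_of_trace_sq p h))

theorem odd_of_not_isEll (h3 : Fintype.card F % 4 = 3) {g : SL(2, F)} (h : ¬ IsEll (g : M2 F)) :
    Odd (orderOf (g : PSL(2, F))) := by
  obtain ⟨p, _, n, hp, -⟩ := FiniteField.card' F
  have := Fact.mk hp
  have h2 := two_ne_zero_of_odd (F := F) (Nat.odd_iff.2 (by omega))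
  rcases sl_cases p g with h1 | ⟨c, a, rfl⟩ | h1
  · exact absurd h1 h
  · refine Odd.of_dvd_nat ?_ (orderOf_dvd_of_pow_eq_one (psl_pow_div_of_pow
      (n := Fintype.card F - 1) (fun h => Nat.Odd.sub_odd h odd_one)
      (by rw [conj_pow, diagSL_pow, mul_one, mul_inv_cancel])))
    rw [gcd_two_of_ne h2, Nat.odd_iff]
    omega
  · exact (hp.odd_of_ne_two fun h => h2 (by subst h; exact CharTwo.two_eq_zero)).of_dvd_nat
      (orderOf_dvd_of_pow_eq_one (ProjectiveSpecialLinearGroup.toPGL_injective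
        (by rw [map_pow, map_one]; exact h1)))

theorem exists_odd (h2 : (2 : F) ≠ 0) (h4 : 4 ≤ Fintype.card F) {X Y : SL(2, F)}
    (hX : (X : M2 F).trace = 0) (hY : (Y : M2 F).trace = 0) : ∃ Z : SL(2, F), (Z : M2 F).trace = 0 ∧
      Odd (orderOf ((X * Z : SL(2, F)) : PSL(2, F))) ∧
      Odd (orderOf ((Z * Y : SL(2, F)) : PSL(2, F))) := by
  have h0 : Odd (orderOf ((X * X : SL(2, F)) : PSL(2, F))) :=
    odd_of_trace_sq h2 (by rw [trace_sq_sl, hX]; norm_num)
  obtain ⟨r, hr⟩ : ∃ r, ((X * Y : SL(2, F)) : M2 F).trace = r := ⟨_, rfl⟩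
  by_cases h5 : r ^ 2 = 4
  · exact ⟨X, hX, h0, odd_of_trace_sq h2 (hr ▸ h5)⟩
  by_cases h3 : Fintype.card F % 4 = 3
  swap
  · obtain ⟨i, hi⟩ := FiniteField.isSquare_neg_one_iff.2 h3
    obtain ⟨Z, h6, h7, h8⟩ := exists_third hX hY hr h5 (s := 2) (s' := 2)
      ⟨i * (r + 2), by linear_combination (r + 2) ^ 2 * hi⟩
    exact ⟨Z, h6, odd_of_trace_sq h2 (by rw [h7]; norm_num),
      odd_of_trace_sq h2 (by rw [h8]; norm_num)⟩
  by_cases h6 : IsSquare (r ^ 2 - 4)
  · obtain ⟨d, hd⟩ := h6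
    exact ⟨X, hX, h0, odd_of_not_isEll h3 (not_isEll_iff.2 ⟨(r + d) / 2, (r - d) / 2,
      by rw [hr]; field_simp; ring, by rw [det_SL]; field_simp; linear_combination hd⟩)⟩
  have h7 : ¬ IsSquare (-1 : F) := fun h => FiniteField.isSquare_neg_one_iff.1 h h3
  have key : ∀ {g : SL(2, F)} {a : F}, a ≠ 0 → (g : M2 F).trace = a + a⁻¹ →
      Odd (orderOf (g : PSL(2, F))) := fun ha h => odd_of_not_isEll h3
    (not_isEll_iff.2 ⟨_, _, h.symm, by rw [det_SL, mul_inv_cancel₀ ha]⟩)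
  obtain ⟨u, hu, c, hc⟩ := exists_param h2 h4 h6
  by_cases h8 : IsSquare u
  · obtain ⟨a, rfl⟩ := h8
    have ha : a ≠ 0 := left_ne_zero_of_mul hu
    obtain ⟨Z, h6, h7, h8⟩ := exists_third hX hY hr h5 (s := a + a⁻¹) (s' := a + a⁻¹)
      ⟨c / a, by field_simp; linear_combination hc⟩
    exact ⟨Z, h6, key ha h7, key ha h8⟩
  · obtain ⟨a, ha⟩ := isSquare_mul_of_not h7 h8
    obtain rfl : u = -(a * a) := by linear_combination -ha
    have ha : a ≠ 0 := left_ne_zero_of_mul (neg_ne_zero.1 hu)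
    obtain ⟨d, hd⟩ := isSquare_mul_of_not h7 h6
    have h9 : r + 2 ≠ 0 := fun h => h5 (by linear_combination (r - 2) * h)
    obtain ⟨Z, h6, h7, h8⟩ := exists_third hX hY hr h5 (s := a + a⁻¹) (s' := -a + (-a)⁻¹)
      ⟨c * d / (a * (r + 2)), by
        field_simp; linear_combination d ^ 2 * hc - (r + 2) * (a ^ 4 - r * a ^ 2 + 1) * hd⟩
    exact ⟨Z, h6, key ha h7, key (neg_ne_zero.2 ha) h8⟩

theorem trace_eq_zero {X : SL(2, F)} (h : orderOf (X : PSL(2, F)) = 2) : (X : M2 F).trace = 0 :=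
  trace_eq_zero_of_toPGL (fun h1 => by
    rw [psl_mk_eq_one_iff.2 (toPGL_eq_one_iff.1 h1), orderOf_one] at h; omega)
    ((map_pow ProjectiveSpecialLinearGroup.toPGL (X : PSL(2, F)) 2).symm.trans
      (by rw [(orderOf_eq_prime_iff.1 h).1, map_one]))

/-- Let F be a finite field with at least 4 elements and let X be a conjugacy class of involutions of PSL(2, F). The graph on X joining two distinct involutions whose product has odd order is connected and has diameter exactly 2. -/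
theorem result {F : Type*} [Field F] [Fintype F] (hF : 4 ≤ Fintype.card F)
    (t : Matrix.ProjectiveSpecialLinearGroup (Fin 2) F) (ht : orderOf t = 2) :
    (SimpleGraph.fromRel fun x y : {x : Matrix.ProjectiveSpecialLinearGroup (Fin 2) F // IsConj t x} =>
        Odd (orderOf (x.1 * y.1))).Connected ∧
      (SimpleGraph.fromRel fun x y : {x : Matrix.ProjectiveSpecialLinearGroup (Fin 2) F // IsConj t x} =>
        Odd (orderOf (x.1 * y.1))).diam = 2 := by
  have hc : ∀ x : PSL(2, F), IsConj t x ↔ orderOf x = 2 := fun x => by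
    refine ⟨fun h => ?_, fun h => ?_⟩
    · obtain ⟨c, rfl⟩ := isConj_iff.1 h
      exact ((MulAut.conj c).orderOf_eq t).trans ht
    induction t using QuotientGroup.induction_on with | H T =>
    induction x using QuotientGroup.induction_on with | H X =>
    exact psl_isConj_of_isConj (isConj_SL_of_trace
      (not_isScal_of_psl_ne_one fun h1 => by rw [h1, orderOf_one] at ht; omega)
      (not_isScal_of_psl_ne_one fun h1 => by rw [h1, orderOf_one] at h; omega)
      ((trace_eq_zero h).trans (trace_eq_zero ht).symm) (or_iff_not_imp_right.2 fun h2 h4 =>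
        mul_ne_zero h2 h2 (by rw [trace_eq_zero ht] at h4; linear_combination -h4)))
  have hp : ∀ x y : PSL(2, F), CPair x y → ∃ x y : {x : PSL(2, F) // IsConj t x}, x ≠ y ∧
      ¬ Odd (orderOf (x.1 * y.1)) ∧ ¬ Odd (orderOf (y.1 * x.1)) := fun x y h => by
    have h1 : orderOf (x * y) = 2 := orderOf_eq_prime (by
      rw [sq, mul_assoc, ← mul_assoc y, h.comm, mul_assoc, h.sq_right, mul_one, h.sq_left])
      fun h1 => h.ne (mul_right_cancel (h1.trans h.sq_right.symm))
    exact ⟨⟨x, (hc x).2 (orderOf_eq_prime (by rw [sq, h.sq_left]) h.left_ne)⟩,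
      ⟨y, (hc y).2 (orderOf_eq_prime (by rw [sq, h.sq_right]) h.right_ne)⟩,
      fun h1 => h.ne (congrArg Subtype.val h1), by rw [h1]; decide, by rw [h.comm, h1]; decide⟩
  by_cases h2 : (2 : F) = 0
  · have : CharP F 2 := CharTwo.of_one_ne_zero_of_two_eq_zero one_ne_zero h2
    have hU := uhyp_psl (F := F) 2
    have h3 : ∀ {x z : PSL(2, F)} {a c : P1 F}, orderOf x = 2 → x • a = a → z ∈ hU.Q c → z ≠ 1 →
        a ≠ c → Odd (orderOf (x * z)) := fun {x z a c} h3 h4 h5 h6 h7 => by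
      have h8 := orderOf_eq_prime_iff.1 h3
      obtain ⟨k, hk⟩ := even_card_of_two_eq_zero h2
      rcases psl_pow_cases 2 (x * z) with h | h | h
      · exact Odd.of_dvd_nat (by rw [gcd_two_of_eq h2, Nat.odd_iff]; omega)
          (orderOf_dvd_of_pow_eq_one h)
      · exact Odd.of_dvd_nat (by rw [gcd_two_of_eq h2, Nat.odd_iff]; omega)
          (orderOf_dvd_of_pow_eq_one h)
      · exact absurd (hU.eq_of_fix h8.2 h8.1 h4 (hU.smul_eq_of_commute h5 h6
          ((commute_iff_eq ..).2 (by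
            rw [← inv_eq_of_mul_eq_one_right ((sq _).symm.trans h), _root_.mul_inv_rev,
              inv_eq_of_mul_eq_one_right ((sq _).symm.trans h8.1),
              inv_eq_of_mul_eq_one_right ((sq _).symm.trans h5.2)])))) h7
    refine graph _ (fun ⟨x, hx⟩ ⟨y, hy⟩ => ?_) ?_
    · have h4 := orderOf_eq_prime_iff.1 ((hc x).1 hx)
      have h5 := orderOf_eq_prime_iff.1 ((hc y).1 hy)
      obtain ⟨a, ha⟩ := hU.fix_one x h4.2 h4.1
      obtain ⟨b, hb⟩ := hU.fix_one y h5.2 h5.1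
      obtain ⟨c, h6, h7⟩ : ∃ c : P1 F, a ≠ c ∧ b ≠ c := by
        have h8 := pt_ne_pinf (0 : F)
        have h9 := pt_ne_pinf (1 : F)
        have h10 : pt (0 : F) ≠ pt 1 := fun h => zero_ne_one (pt_injective h)
        by_contra! h
        have := imp_iff_not_or.1 (h pinf)
        have := imp_iff_not_or.1 (h (pt 0))
        have := imp_iff_not_or.1 (h (pt 1))
        grind
      obtain ⟨⟨z, hz⟩, h8⟩ := ne_bot_iff_exists_ne_one.1 (Q_psl_ne_bot 2 c)
      have h9 : z ≠ 1 := fun h => h8 (Subtype.ext h)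
      exact ⟨⟨z, (hc z).2 (orderOf_eq_prime hz.2 h9)⟩, h3 ((hc x).1 hx) ((ha a).2 rfl) hz h9 h6, by
        rw [show z * y = MulAut.conj z (y * z) by simp [mul_assoc], MulEquiv.orderOf_eq]
        exact h3 ((hc y).1 hy) ((hb b).2 rfl) hz h9 h7⟩
    · obtain ⟨w, h4, h5⟩ := exists_sq_ne_zero_one hF
      have h6 : ∀ b : F, ((upT b : SL(2, F)) : PSL(2, F)) ∈ hU.Q pinf := fun b =>
        (mem_Q_psl_pinf 2).2 ⟨b, rfl⟩
      have h7 : Function.Injective fun b : F => ((upT b : SL(2, F)) : PSL(2, F)) :=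
        (psl_mk_injective h2).comp upT_injective
      have h8 : ((upT (0 : F) : SL(2, F)) : PSL(2, F)) = 1 := by simp [upT]
      exact hp (upT (1 : F) : SL(2, F)) (upT w : SL(2, F)) ⟨by rw [← sq, (h6 _).2], by rw [← sq, (h6 _).2],
        hU.comm _ _ _ (h6 _).1 (h6 _).1 (h6 _).2 (h6 _).2, fun h => one_ne_zero (h7 (h.trans h8.symm)),
        fun h => h4 (h7 (h.trans h8.symm)), fun h => h5 (by rw [← h7 h, one_pow])⟩
  refine graph _ (fun ⟨x, hx⟩ ⟨y, hy⟩ => ?_) ?_
  · induction x using QuotientGroup.induction_on with | H X =>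
    induction y using QuotientGroup.induction_on with | H Y =>
    obtain ⟨Z, h3, h4⟩ := exists_odd h2 hF (trace_eq_zero ((hc _).1 hx))
      (trace_eq_zero ((hc _).1 hy))
    exact ⟨⟨Z, (hc _).2 (orderOf_psl_mk_of_even h2
      (orderOf_eq_four_of_mul_self h2 (mul_self_eq_neg_one_iff.2 h3)))⟩, h4⟩
  · obtain ⟨a, b, h⟩ := exists_qpair_of_finite (F := F)
    exact hp _ _ (h.cpair h2)

end Cfsg.Agent.S3266
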