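import Cfsg.Statements.S3276
import Cfsg.Agent.Inv.WeakCl

set_option autoImplicit false
open Cfsg

namespace Cfsg.Agent.S3276

/-- Let x and y be commuting, non-conjugate involutions of a finite group G, and suppose that for every involution u commuting with x, each conjugate of y that commutes with u also commutes with y. Then the normal closure of y is a proper, normal, elementary abelian 2-subgroup of G; and if y is the only involution of that normal closure commuting with x, it has order at most 4. -/
theorem result {G : Type*} [Group G] [Finite G] (x y : G) (hx : orderOf x = 2) (hy : orderOf y = 2)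
    (hxy : Commute x y) (hnc : ¬ IsConj x y)
    (hstar : ∀ u : G, orderOf u = 2 → Commute u x → ∀ g : G, Commute (g * y * g⁻¹) u → Commute (g * y * g⁻¹) y) :
    Subgroup.normalClosure ({y} : Set G) ≠ ⊤ ∧ Cfsg.IsElementaryAbelian 2 (Subgroup.normalClosure ({y} : Set G)) ∧
      ((∀ u ∈ Subgroup.normalClosure ({y} : Set G), orderOf u = 2 → Commute u x → u = y) →
        Nat.card ↥(Subgroup.normalClosure ({y} : Set G)) ≤ 4) := by
  have hx2 := CL.Inv.mul_self_of_orderOf_two hx
  have hy2 := CL.Inv.mul_self_of_orderOf_two hy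
  have hall : ∀ g : G, Commute (g * y * g⁻¹) y := by
    intro g
    have hg2 := CL.Inv.conj_mul_self hy2 g
    have heven : Even (orderOf (x * (g * y * g⁻¹))) := by
      rw [← Nat.not_odd_iff_even]
      intro h
      exact hnc ((CL.Inv.isConj_of_odd_mul hx2 hg2 h).trans (isConj_iff.2 ⟨g, rfl⟩).symm)
    obtain ⟨hw, hwx, hwy⟩ := CL.Inv.half_pow_central hx2 hg2 (orderOf_pos _).ne' heven
    exact hstar _ hw hwx g hwy.symm
  have hea : IsElementaryAbelian 2 (Subgroup.normalClosure ({y} : Set G)) := by
    have hmem : ∀ a ∈ Group.conjugatesOfSet ({y} : Set G), ∃ g : G, g * y * g⁻¹ = a := by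
      intro a ha
      obtain ⟨b, hb, hab⟩ := Group.mem_conjugatesOfSet_iff.1 ha
      rw [Set.mem_singleton_iff.1 hb] at hab
      exact isConj_iff.1 hab
    apply CL.Loc.ea_closure
    · intro a ha b hb
      obtain ⟨g, rfl⟩ := hmem a ha
      obtain ⟨h, rfl⟩ := hmem b hb
      have := (hall (h⁻¹ * g)).conj h
      convert this.eq using 2 <;> group
    · intro a ha
      obtain ⟨g, rfl⟩ := hmem a ha
      rw [pow_two, CL.Inv.conj_mul_self hy2]
  have hle : ∀ u : G, u ∈ Subgroup.zpowers y ↔ u = 1 ∨ u = y := by
    intro u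
    constructor
    · rintro ⟨k, rfl⟩
      have h4 : y ^ (2 : ℤ) = 1 := by rw [zpow_two, hy2]
      rcases Int.even_or_odd' k with ⟨m, rfl | rfl⟩
      · left; simp only; rw [zpow_mul, h4, one_zpow]
      · right; simp only; rw [zpow_add, zpow_mul, h4, one_zpow, one_mul, zpow_one]
    · rintro (rfl | rfl)
      · exact Subgroup.one_mem _
      · exact Subgroup.mem_zpowers _
  refine ⟨fun htop => ?_, hea, fun h => ?_⟩
  · have hn : (Subgroup.zpowers y).Normal := ⟨fun a _ g => by
      rw [CL.Loc.ea_mul_comm hea (a := g) (b := a) (htop ▸ Subgroup.mem_top g) (htop ▸ Subgroup.mem_top a),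
        mul_inv_cancel_right]
      assumption⟩
    have h1 : Subgroup.normalClosure ({y} : Set G) ≤ Subgroup.zpowers y :=
      Subgroup.normalClosure_le_normal (by simp)
    rcases (hle x).1 (h1 (htop ▸ Subgroup.mem_top x)) with h | h
    · exact CL.Inv.ne_one_of_orderOf_two hx h
    · exact hnc (h ▸ IsConj.refl _)
  · have h1 := CL.Inv.card_le_sq_card_inf_centralizer hea hx2 (by rw [Subgroup.normalizer_eq_top]; trivial)
    have h2 : Subgroup.normalClosure ({y} : Set G) ⊓ Subgroup.centralizer ({x} : Set G) ≤ Subgroup.zpowers y := by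
      rintro u ⟨hu, hux⟩
      rw [hle]
      by_cases hu1 : u = 1
      · exact Or.inl hu1
      · exact Or.inr (h u hu (CL.Loc.ea_orderOf hea hu hu1) (Subgroup.mem_centralizer_singleton_iff.1 hux))
    have h3 := Subgroup.card_le_of_le h2
    rw [Nat.card_zpowers, hy] at h3
    exact h1.trans (by nlinarith)

end Cfsg.Agent.S3276
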