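import Cfsg.Statements.S3277
import Cfsg.Agent.Inv.FewInv
import Cfsg.Agent.Cls.SmallIso

set_option autoImplicit false
open Cfsg
open CL.Inv.FI

namespace Cfsg.Agent.S3277

/-- Let G be a finite group containing an involution whose centralizer is elementary abelian of order 4. If G has no normal 2-complement and no normal elementary abelian 2-subgroup of order 2 or 4, then G is isomorphic to the alternating group of degree 5 (that is, to PSL(2, 5)). -/
theorem result {G : Type*} [Group G] [Finite G] (x : G) (hx : orderOf x = 2)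
    (hC4 : Nat.card ↥(Subgroup.centralizer ({x} : Set G)) = 4) (hCe : ∀ c ∈ Subgroup.centralizer ({x} : Set G), c ^ 2 = 1)
    (hnc : ¬ Cfsg.HasNormalPComplement 2 G)
    (hne : ∀ E : Subgroup G, E.Normal → Cfsg.IsElementaryAbelian 2 E → Nat.card ↥E ≠ 2 ∧ Nat.card ↥E ≠ 4) :
    Nonempty (G ≃* ↥(alternatingGroup (Fin 5))) := by
  rcases klein_cases hx (isKleinFour_of_sq hC4 hCe) with h | ⟨E, h1, h2, h3⟩ | ⟨F, _, _, hF | hF, ⟨e⟩⟩
  · exact absurd h hnc
  · have := hne E h1 h2
    omega
  · obtain ⟨e'⟩ := CL.Cls.nonempty_PSL2_three hF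
    have h4 : Nat.card (Fin 4) = 4 := by simp
    have hK := alternatingGroup.kleinFour_isKleinFour h4
    have hn := alternatingGroup.normal_kleinFour h4
    let f := (e.trans e').toMonoidHom
    have hf : Function.Bijective f := (e.trans e').bijective
    have hK' : IsKleinFour ((alternatingGroup.kleinFour (Fin 4)).comap f) :=
      CL.Inv.isKleinFour_of_equiv (((e.trans e').subgroupMap _).trans
        (MulEquiv.subgroupCongr (Subgroup.map_comap_eq_self_of_surjective hf.2 _))).symm hK
    refine absurd hK'.card_four (hne _ (hn.comap f) ⟨hK'.isMulCommutative, fun a ha => ?_⟩).2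
    rw [pow_two]; exact CL.Inv.IsKleinFour.mul_self_of_mem hK' ha
  · obtain ⟨e'⟩ := CL.Cls.nonempty_PSL2_five hF
    exact ⟨e.trans e'⟩

end Cfsg.Agent.S3277
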