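import Cfsg.Statements.S3278
import Cfsg.Agent.Inv.FewInv
import Cfsg.Agent.Blk.Klein2
import Cfsg.Agent.Blk.TildeInt
import Cfsg.Agent.Spor.CharTools
import Cfsg.Agent.S0494

set_option autoImplicit false
open Cfsg
open CL.Inv CL.Inv.FI CL.Inv.SE CL.Inv.BSW CL.Blk CL.Char

namespace Cfsg.Agent.S3278

/-- Let G be a finite simple group with an involution x such that a Sylow 2-subgroup of C_G(x) is a Klein four-group which is normal in C_G(x). Then G is isomorphic to the alternating group of degree 5 (that is, to PSL(2, 5)). -/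
theorem result {G : Type*} [Group G] [Finite G] [IsSimpleGroup G] (x : G) (hx : orderOf x = 2)
    (S₀ : Subgroup G) (hle : S₀ ≤ Subgroup.centralizer ({x} : Set G)) (hK : IsKleinFour ↥S₀)
    (hodd : ¬ 2 ∣ S₀.relIndex (Subgroup.centralizer ({x} : Set G))) (hn : (S₀.subgroupOf (Subgroup.centralizer ({x} : Set G))).Normal) :
    Nonempty (G ≃* ↥(alternatingGroup (Fin 5))) := by
  classical
  set C := Subgroup.centralizer ({x} : Set G) with hC
  have hmem : ∀ g ∈ C, ∀ k : ℕ, g ^ 2 ^ k = 1 → g ∈ S₀ := by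
    intro g hg k hk
    have h1 : orderOf (QuotientGroup.mk' (S₀.subgroupOf C) ⟨g, hg⟩) ∣ 2 ^ k :=
      orderOf_dvd_of_pow_eq_one (by rw [← map_pow]; exact (congrArg _ (Subtype.ext hk)).trans (map_one _))
    have h2 : orderOf (QuotientGroup.mk' (S₀.subgroupOf C) ⟨g, hg⟩) ∣ S₀.relIndex C := orderOf_dvd_natCard _
    have h3 := Nat.eq_one_of_dvd_coprimes
      ((Nat.Prime.coprime_iff_not_dvd Nat.prime_two).mpr hodd |>.pow_left k) h1 h2
    exact (QuotientGroup.eq_one_iff (N := S₀.subgroupOf C) ⟨g, hg⟩).mp (orderOf_eq_one_iff.mp h3)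
  have hm2 : ∀ g : G, orderOf g = 2 → g * x = x * g → g ∈ S₀ := fun g hg hgx =>
    hmem g (mem_cent.mpr hgx) 1 (by rw [pow_one, pow_two, mul_self_of_inv hg])
  have hxS := hm2 x hx rfl
  have hf : Few x := fun a b ha hax hne hb hbx hne' => or_iff_not_imp_left.mpr fun h =>
    IsKleinFour.eq_mul_of_mem hK hxS (hm2 a ha hax) (hm2 b hb hbx) (ne_one_of_inv hx) (ne_one_of_inv ha)
      hne.symm (ne_one_of_inv hb) hne' h
  have hc := fun y hy => hf.isConj_of_simple hx (y := y) hy
  have hone : ∀ s t : G, orderOf s = 2 → orderOf t = 2 → IsConj s t :=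
    fun u v hu hv => (hc u hu).symm.trans (hc v hv)
  obtain ⟨P, hP⟩ := exists_sylow_le_of_one_class hx hc
  obtain rfl : S₀ = P := P.is_maximal' (IsKleinFour.isPGroup_two hK) fun g hg => by
    obtain ⟨k, hk⟩ := P.2 ⟨g, hg⟩
    exact hmem g (hP hg) k (congrArg Subtype.val hk)
  have hCC : Subgroup.centralizer ((P : Subgroup G) : Set G) = C :=
    le_antisymm (Subgroup.centralizer_le (Set.singleton_subset_iff.mpr hxS)) fun g hg =>
      klein_centralizer_inf_normalizer P hK hxS (ne_one_of_inv hx)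
        ⟨hg, (Subgroup.normal_subgroupOf_iff_le_normalizer hle).mp hn hg⟩
  have h4 : 4 ∣ Nat.card C := hK.card_four ▸ Subgroup.card_dvd_of_le hle
  have hG : ¬ IsMulCommutative G := not_isMulCommutative_of_not_prime fun hp => by
    have := (Nat.dvd_prime hp).mp (h4.trans (Subgroup.card_subgroup_dvd_card C))
    rcases this with h | h
    · omega
    · rw [← h] at hp; exact absurd hp (by decide)
  have hperf := commutator_eq_top_of_simple hG
  obtain ⟨M, hM⟩ := CL.Blk.exists_isPModular (p := 2) Nat.prime_two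
  obtain ⟨a, b, c, ε, hε, ha, hb, hc', hab, hac, hbc, hB, va, vb, vc⟩ := klein_labels hM P hK hx
  obtain ⟨e1, e2⟩ := klein_order_rat hM P hK hone hxS hx (ε₁ := 1) (ε₂ := ε) (ε₃ := -1) hB ha hb hc' hab hac hbc
    (Or.inl rfl) hε (Or.inr rfl) (by simpa using va) vb (by simpa using vc)
  have da := klein_four_dvd P hK hone hx a (n := 1) (by simpa using va)
  have db := klein_four_dvd P hK hone hx b (n := ε) vb
  have dc := klein_four_dvd P hK hone hx c (n := -1) (by simpa using vc)
  have n1 : ∀ χ : IrrCharacter G, (χ : G → ℂ) ≠ (fun _ => 1) → 2 ≤ charDegree (χ : G → ℂ) := by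
    intro χ hχ
    have h1 : charDegree (χ : G → ℂ) ≠ 1 := fun e =>
      hχ (by rw [CL.Spor.eq_irrOne_of_degree_one hperf e]; rfl)
    have h0 := irr_charDegree_ne_zero χ
    omega
  have na := n1 a ha
  have nb := n1 b hb
  have nc := n1 c hc'
  have hi : C.index ≤ 18 := by
    rw [hCC, ← hC, ← C.card_mul_index] at e2
    have hpos : (0 : ℚ) < Nat.card C := by exact_mod_cast Nat.card_pos
    generalize charDegree (a : G → ℂ) = u at *
    generalize charDegree (b : G → ℂ) = v at *
    generalize charDegree (c : G → ℂ) = w at *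
    have e3 : (C.index : ℚ) * ((u + (1 : ℤ)) * (v + ε) * (w + (-1 : ℤ))) = 8 * (u * v * w) := by
      refine mul_right_cancel₀ (pow_pos hpos 3).ne' ?_
      rw [← e2]; push_cast; ring
    have e4 : (C.index : ℤ) * ((u + 1) * (v + ε) * (w - 1)) = 8 * (u * v * w) := by
      apply Int.cast_injective (α := ℚ); push_cast at e3 ⊢; linear_combination e3
    by_contra hlt
    have hi' : (19 : ℤ) ≤ C.index := by omega
    have hw : (3 : ℤ) ≤ w := by omega
    have hv : 2 * (v : ℤ) ≤ 3 * (v + ε) := by omega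
    have hu : (2 : ℤ) ≤ u := by omega
    have hv' : (2 : ℤ) ≤ v := by omega
    have t1 : (2 * (v : ℤ)) * (2 * w) ≤ (3 * (v + ε)) * (3 * (w - 1)) :=
      mul_le_mul hv (by omega) (by omega) (by omega)
    have t2 : (u : ℤ) * ((2 * (v : ℤ)) * (2 * w)) ≤ (u + 1) * ((3 * (v + ε)) * (3 * (w - 1))) :=
      mul_le_mul (by omega) t1 (by positivity) (by omega)
    have t3 : (0 : ℤ) < u * v * w := by positivity
    have t4 : 19 * ((u + 1) * (v + ε) * (w - 1) : ℤ) ≤ C.index * ((u + 1) * (v + ε) * (w - 1)) :=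
      mul_le_mul_of_nonneg_right hi' (by nlinarith)
    nlinarith
  set N := Subgroup.normalizer ((P : Subgroup G) : Set G) with hN
  have hCN : C ≤ N := hCC ▸ Subgroup.centralizer_le_normalizer _
  have r1 := relIndex_centralizer_dvd_card_mulAut (P : Subgroup G)
  rw [card_mulAut_kleinFour, hCC, ← hN] at r1
  have r2 := Subgroup.relIndex_mul_index hCN
  have r3 : ¬ 2 ∣ C.index := fun h => P.not_dvd_index (h.trans (Subgroup.index_dvd_of_le hle))
  have r4 : C.relIndex N ≠ 1 := fun e => not_normalizer_le_centralizer_of_perfect hperf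
    ((by decide : 2 ∣ 4).trans (h4.trans (Subgroup.card_subgroup_dvd_card C))) P
    (hCC ▸ Subgroup.relIndex_eq_one.mp e)
  have r5 : C.relIndex N = 3 := by
    have h1 := Nat.le_of_dvd (by decide) r1
    have h2 : ¬ 2 ∣ C.relIndex N := fun h => r3 (r2 ▸ h.mul_right _)
    generalize C.relIndex N = m at *
    interval_cases m <;> omega
  have r6 := two_mul_card_dvd_index_factorial hG N (normalizer_sylow_ne_top_of_simple hG
    ((by decide : 2 ∣ 4).trans (h4.trans (Subgroup.card_subgroup_dvd_card C))) P)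
  have r7 := C.card_mul_index
  obtain ⟨k, hk⟩ := h4
  rw [r5] at r2
  refine Cfsg.Agent.S0494.result ?_
  rw [← r7, ← r2, hk] at r6 ⊢
  have r8 : N.index ≤ 5 := by omega
  have r9 := Nat.le_of_dvd (Nat.factorial_pos _) r6
  have hk0 : 0 < k := Nat.pos_of_ne_zero fun e => by
    rw [e] at hk; exact (Nat.card_pos (α := C)).ne' hk
  generalize N.index = n at *
  interval_cases n <;> simp only [Nat.factorial] at r9 <;> omega

end Cfsg.Agent.S3278
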