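import Cfsg.Statements.S3283
import Cfsg.Agent.Even.W9h

set_option autoImplicit false
open Cfsg

namespace Cfsg.Agent.S3283

/-- Let G be a finite group with an involution z whose centralizer M has Q = O₂(M) extraspecial of order 2⁹ with C_M(Q) ≤ Q, and M/Q isomorphic to S₃ × A₆ or to S₃ × S₆. Then G is not simple. -/
theorem result {G : Type*} [Group G] [Finite G] (z : G) (hz : orderOf z = 2)
    (hQ : Cfsg.IsExtraspecial 2 ↥(Cfsg.pCore 2 ↥(Subgroup.centralizer ({z} : Set G)))) (hQ9 : Nat.card ↥(Cfsg.pCore 2 ↥(Subgroup.centralizer ({z} : Set G))) = 2 ^ 9)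
    (hCQ : Subgroup.centralizer ((Cfsg.pCore 2 ↥(Subgroup.centralizer ({z} : Set G))) : Set ↥(Subgroup.centralizer ({z} : Set G))) ≤ Cfsg.pCore 2 ↥(Subgroup.centralizer ({z} : Set G)))
    (hMQ : Nonempty (↥(Subgroup.centralizer ({z} : Set G)) ⧸ Cfsg.pCore 2 ↥(Subgroup.centralizer ({z} : Set G)) ≃* (Equiv.Perm (Fin 3) × ↥(alternatingGroup (Fin 6)))) ∨
      Nonempty (↥(Subgroup.centralizer ({z} : Set G)) ⧸ Cfsg.pCore 2 ↥(Subgroup.centralizer ({z} : Set G)) ≃* (Equiv.Perm (Fin 3) × Equiv.Perm (Fin 6)))) :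
    ¬ IsSimpleGroup G := by
  have hE := CL.Grp.extra_of_mulEquiv hQ ((Cfsg.pCore 2 _).equivMapOfInjective _
    (Subgroup.centralizer ({z} : Set G)).subtype_injective)
  have hzC : z ∈ Subgroup.centralizer ({z} : Set G) := CL.Even.mem_cent_singleton.mpr rfl
  have hzQ : (⟨z, hzC⟩ : Subgroup.centralizer ({z} : Set G)) ∈ Cfsg.pCore 2 _ :=
    hCQ fun y _ => Subtype.ext (CL.Even.mem_cent_singleton.mp y.2)
  have h := CL.Even.xe_of_core hz rfl hE fun c hc =>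
    ⟨⟨c, CL.Even.cent_le_cent_singleton (Subgroup.mem_map_of_mem (Subgroup.subtype _) hzQ) hc⟩, hCQ fun y hy => Subtype.ext (hc _ ⟨y, hy, rfl⟩), rfl⟩
  rcases hMQ with ⟨⟨e⟩⟩ | ⟨⟨e⟩⟩
  · exact CL.Even.W9.not_simple' h hQ9 e ((MonoidHom.id _).prodMap (alternatingGroup (Fin 6)).subtype)
      (Function.Injective.prodMap (fun _ _ h => h) Subtype.val_injective)
      (fun g k _ hk => ⟨(g, ⟨k, hk⟩), rfl⟩) ⟨(Equiv.swap 0 1, 1), by decide⟩
  · exact CL.Even.W9.not_simple' h hQ9 e (MonoidHom.id _) (fun _ _ h => h) (fun g k _ _ => ⟨(g, k), rfl⟩)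
      ⟨(Equiv.swap 0 1, 1), by decide⟩

end Cfsg.Agent.S3283
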