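import Cfsg.Statements.S3301
import Cfsg.Agent.Even.XTr3

set_option autoImplicit false
open Cfsg

open scoped commutatorElement

namespace Cfsg.Agent.S3301

/-- Let G be a finite group with no nontrivial 2-group quotient (O^2(G) = G), z an involution of G with H = C_G(z), and suppose E = O_2(H) is extraspecial with C_G(E) ≤ E. Then the Sylow 2-subgroups of H/[H, H] are elementary abelian: every element of 2-power order of the abelianization of H has order at most 2. -/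
theorem result {G : Type*} [Group G] [Finite G] (hres : Cfsg.pResidual 2 G = ⊤) (z : G) (hz : orderOf z = 2)
    (E : Subgroup G) (hE : E = (Cfsg.pCore 2 ↥(Subgroup.centralizer ({z} : Set G))).map (Subgroup.centralizer ({z} : Set G)).subtype)
    (hext : Cfsg.IsExtraspecial 2 ↥E) (hcent : Subgroup.centralizer (E : Set G) ≤ E) :
    ∀ q : Abelianization ↥(Subgroup.centralizer ({z} : Set G)), (∃ k : ℕ, orderOf q = 2 ^ k) → q ^ 2 = 1 := by
  set H := Subgroup.centralizer ({z} : Set G)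
  rintro q ⟨k, hk⟩
  by_contra hq
  obtain ⟨φ, hφ⟩ := CommGroup.exists_apply_ne_one_of_hasEnoughRootsOfUnity (Abelianization H) ℂ hq
  have : Finite φ.range := Finite.of_surjective _ φ.rangeRestrict_surjective
  obtain ⟨⟨_, γ, rfl⟩, hγ⟩ := Monoid.exists_orderOf_eq_exponent (G := φ.range)
    Monoid.ExponentExists.of_finite
  have hdvd : ∀ m, orderOf (φ m) ∣ orderOf (φ γ) := fun m => by
    have := Monoid.order_dvd_exponent (⟨φ m, m, rfl⟩ : φ.range)
    rwa [← hγ, ← Subgroup.orderOf_coe, ← Subgroup.orderOf_coe] at this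
  obtain ⟨c, hc⟩ : 4 ∣ orderOf (φ γ) := by
    refine dvd_trans ?_ (hdvd q)
    obtain ⟨j, -, hj⟩ := (Nat.dvd_prime_pow Nat.prime_two).mp (hk ▸ orderOf_map_dvd φ q)
    rw [hj]
    refine pow_dvd_pow 2 (show 2 ≤ j from not_lt.mp fun h1 => hφ ?_)
    rw [map_pow, ← orderOf_dvd_iff_pow_eq_one, hj]
    exact pow_dvd_pow 2 (show j ≤ 1 by omega)
  have hc0 : 0 < c := by
    have : 0 < orderOf (φ γ) := (φ.isOfFinOrder (isOfFinOrder_of_finite γ)).orderOf_pos
    omega
  let ψ : H →* ℂˣ := (powMonoidHom (2 * c)).comp (φ.comp Abelianization.of)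
  have hψ : ∀ a, ψ a = φ (Abelianization.of a) ^ (2 * c) := fun _ => rfl
  have h2 : ∀ a, ψ a = 1 ∨ ψ a = -1 := fun a => by
    have : ψ a ^ 2 = 1 := by
      rw [hψ, ← pow_mul, ← orderOf_dvd_iff_pow_eq_one]
      exact (hdvd _).trans (by rw [hc]; exact ⟨1, by ring⟩)
    exact (sq_eq_one_iff.mp (congrArg Units.val this)).imp Units.ext Units.ext
  have hmem : ∀ a (ha : a ∈ H), a ∈ ψ.ker.map H.subtype ↔ ψ ⟨a, ha⟩ = 1 := fun a ha =>
    ⟨fun ⟨b, hb, e⟩ => by rwa [← show b = ⟨a, ha⟩ from Subtype.ext e], fun h1 => ⟨_, h1, rfl⟩⟩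
  have hne : (-1 : ℂˣ) ≠ 1 := by simp [Units.ext_iff]; norm_num
  have hK : CL.Even.IT z (ψ.ker.map H.subtype) := ⟨Subgroup.map_subtype_le _, fun a ha b hb => by
    rw [hmem a ha, hmem b hb, hmem _ (mul_mem ha hb),
      show ψ ⟨a * b, mul_mem ha hb⟩ = ψ ⟨a, ha⟩ * ψ ⟨b, hb⟩ from map_mul ψ ⟨a, ha⟩ ⟨b, hb⟩]
    rcases h2 ⟨a, ha⟩ with h3 | h3 <;> rcases h2 ⟨b, hb⟩ with h4 | h4 <;> simp [h3, h4, hne]⟩
  have hle := (CL.Even.xe_of_core hz hE hext hcent).eq_top_of_sq_ne_comm hres hK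
    fun a ha haK b hb d hd h3 => haK ((hmem a ha).mpr (by
      have h4 : (⟨a, ha⟩ : H) ^ 2 = ⁅(⟨b, hb⟩ : H), ⟨d, hd⟩⁆ := Subtype.ext ((pow_two a).trans h3)
      rw [hψ, pow_mul, ← map_pow φ _ 2, ← map_pow Abelianization.of, h4, map_commutatorElement,
        commutatorElement_eq_one_iff_mul_comm.mpr (mul_comm _ _), map_one, one_pow]))
  obtain ⟨a, rfl⟩ := QuotientGroup.mk_surjective γ
  have h3 := Nat.le_of_dvd (by omega) (orderOf_dvd_iff_pow_eq_one.mpr ((hmem a a.2).mp (hle a.2)))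
  change orderOf (φ (QuotientGroup.mk a)) ≤ _ at h3
  omega

end Cfsg.Agent.S3301
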