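import Cfsg.Statements.S3303
import Cfsg.Agent.S3305

set_option autoImplicit false
open Cfsg

namespace Cfsg.Agent.S3303

/-- Let G be a finite solvable group in which the intersection of any two distinct Sylow 2-subgroups is cyclic. Then G/O(G) has a normal Sylow 2-subgroup, where O(G) is the largest normal subgroup of odd order. -/
theorem result {G : Type*} [Group G] [Finite G] (hs : Group.IsSolvable G)
    (hC : ∀ S T : Sylow 2 G, S ≠ T → IsCyclic ↥((S : Subgroup G) ⊓ (T : Subgroup G))) :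
    ∃ P : Sylow 2 (G ⧸ Cfsg.oddCore G), (P : Subgroup (G ⧸ Cfsg.oddCore G)).Normal := by
  by_contra hn
  obtain ⟨S, T, hne⟩ := CL.Inv.exists_sylow_ne_of_not_normal hn
  haveI := Cfsg.Agent.S3305.result hC (Cfsg.oddCore G) S T hne
  have hle : pCore 2 (G ⧸ Cfsg.oddCore G) ≤ (S : Subgroup _) ⊓ T :=
    le_inf (CL.Grp.pCore_le_sylow S) (CL.Grp.pCore_le_sylow T)
  haveI : IsCyclic (pCore 2 (G ⧸ Cfsg.oddCore G)) :=
    isCyclic_of_injective _ (Subgroup.inclusion_injective hle)
  have hp := CL.Grp.pCore_isPGroup 2 (G ⧸ Cfsg.oddCore G)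
  exact hn (CL.Inv.exists_sylow_normal_of_isPGroup (CL.Inv.isPGroup_of_centralizer_le_of_aut hp
    (CL.Grp.centralizer_pCore_le_of_isSolvable (CL.Grp.pPrimeCore_quotient_pPrimeCore 2 G))
    (CL.Inv.isPGroup_mulAut_of_isCyclic hp)))

end Cfsg.Agent.S3303
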