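import Cfsg.Statements.S3742
import Cfsg.Agent.Base

set_option autoImplicit false
open Cfsg

namespace Cfsg.Agent.S3742

open QuaternionGroup Equiv

/-- the six elements of order four are labelled by the six four-cycles -/
def enc (q : QuaternionGroup 2) : Perm (Fin 4) :=
  if q = a 1 then swap 0 1 * swap 1 2 * swap 2 3
  else if q = a 3 then (swap 0 1 * swap 1 2 * swap 2 3)⁻¹
  else if q = xa 0 then swap 0 1 * swap 1 3 * swap 3 2
  else if q = xa 2 then (swap 0 1 * swap 1 3 * swap 3 2)⁻¹
  else if q = xa 1 then swap 0 2 * swap 2 1 * swap 1 3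
  else if q = xa 3 then (swap 0 2 * swap 2 1 * swap 1 3)⁻¹
  else 1

def dec (σ : Perm (Fin 4)) : QuaternionGroup 2 :=
  if σ 0 = 1 then (if σ 1 = 2 then a 1 else xa 0)
  else if σ 0 = 2 then (if σ 2 = 1 then xa 1 else xa 2)
  else (if σ 3 = 2 then a 3 else xa 3)

def act (σ : Perm (Fin 4)) (q : QuaternionGroup 2) : QuaternionGroup 2 :=
  if q = a 0 then q else if q = a 2 then q else dec (σ * enc q * σ⁻¹)

theorem act_mul : ∀ (σ : Perm (Fin 4)) (x y : QuaternionGroup 2),
    act σ (x * y) = act σ x * act σ y := by decide +kernel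

theorem act_one : ∀ x : QuaternionGroup 2, act 1 x = x := by decide +kernel

theorem mul_act : ∀ (σ τ : Perm (Fin 4)) (x : QuaternionGroup 2),
    act (σ * τ) x = act σ (act τ x) := by decide +kernel

theorem act_inj : ∀ (σ : Perm (Fin 4)), act σ (a 1) = a 1 → act σ (xa 0) = xa 0 → σ = 1 := by
  decide +kernel

theorem act_surj : ∀ x y : QuaternionGroup 2, x * y ≠ y * x →
    ∃ σ : Perm (Fin 4), act σ (a 1) = x ∧ act σ (xa 0) = y := by decide +kernel

theorem gen : ∀ q : QuaternionGroup 2, ∃ i : Fin 2, ∃ j : Fin 4,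
    q = xa 0 ^ (i : ℕ) * a 1 ^ (j : ℕ) := by decide +kernel

def toAut (σ : Perm (Fin 4)) : MulAut (QuaternionGroup 2) where
  toFun := act σ
  invFun := act σ⁻¹
  left_inv x := by rw [← mul_act, inv_mul_cancel, act_one]
  right_inv x := by rw [← mul_act, mul_inv_cancel, act_one]
  map_mul' := act_mul σ

def hom : Perm (Fin 4) →* MulAut (QuaternionGroup 2) :=
  MonoidHom.mk' toAut fun σ τ => by
    ext x
    exact mul_act σ τ x

/-- The automorphism group of the quaternion group of order 8 is isomorphic to the symmetric group of degree 4. -/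
theorem result : Nonempty (MulAut (QuaternionGroup 2) ≃* Equiv.Perm (Fin 4)) := by
  refine ⟨(MulEquiv.ofBijective hom ⟨?_, ?_⟩).symm⟩
  · rw [injective_iff_map_eq_one]
    intro σ h
    exact act_inj σ (DFunLike.congr_fun h (a 1)) (DFunLike.congr_fun h (xa 0))
  · intro α
    have hne : α (a 1) * α (xa 0) ≠ α (xa 0) * α (a 1) := by
      rw [← map_mul, ← map_mul]
      intro h
      exact absurd (α.injective h) (by decide)
    obtain ⟨σ, h1, h2⟩ := act_surj _ _ hne
    refine ⟨σ, ?_⟩
    ext q
    obtain ⟨i, j, rfl⟩ := gen q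
    rw [map_mul, map_mul, map_pow, map_pow, map_pow, map_pow, ← h1, ← h2]
    rfl

end Cfsg.Agent.S3742
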