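import Cfsg.Statements.S3304
import Cfsg.Agent.Inv.GL23
import Cfsg.Agent.S3742

set_option autoImplicit false
open Cfsg

namespace Cfsg.Agent.S3304

open Subgroup CL.Inv CL.Grp in
theorem aux {Q : Type*} [Group Q] [Finite Q] (hC : centralizer (pCore 2 Q : Set Q) ≤ pCore 2 Q)
    (h1 : PRankLE 2 1 (pCore 2 Q)) (hn : ¬ ∃ P : Sylow 2 Q, (P : Subgroup Q).Normal) :
    Nonempty (Q ≃* GL (Fin 2) (ZMod 3)) ∨
    (Nat.card Q = 48 ∧ Nat.card ↥(Subgroup.center Q) = 2 ∧
      Nonempty (Q ⧸ Subgroup.center Q ≃* Equiv.Perm (Fin 4)) ∧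
      ∀ P : Sylow 2 Q, Nonempty (↥(P : Subgroup Q) ≃* QuaternionGroup 4)) := by
  have hp := pCore_isPGroup 2 Q
  set R := pCore 2 Q with hR
  have hQ2 : ¬ IsPGroup 2 Q := fun h => hn (exists_sylow_normal_of_isPGroup h)
  obtain ⟨e⟩ := nonempty_quaternion_two_of_rank_le_one hp h1
    (fun h => hQ2 (isPGroup_of_centralizer_le_of_aut hp hC h))
  obtain ⟨a, b, hab, -, -⟩ := exists_dqsGen_of_quaternion (n := 2) le_rfl e
  have hR8 : Nat.card R = 8 := card_of_quaternion_two e
  let c : Q →* MulAut R := MulAut.conjNormal (H := R)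
  have hker : c.ker = centralizer (R : Set Q) := by
    ext g
    rw [MonoidHom.mem_ker, mem_centralizer_iff]
    constructor
    · intro h x hx
      have h2 := congrArg Subtype.val (DFunLike.congr_fun h ⟨x, hx⟩)
      simp only [c, MulAut.conjNormal_apply, MulAut.one_apply] at h2
      exact (mul_inv_eq_iff_eq_mul.mp h2).symm
    · intro h
      ext x
      simp only [c, MulAut.conjNormal_apply, MulAut.one_apply]
      rw [← h x x.2, mul_inv_cancel_right]
  have hZ : Nat.card (centralizer (R : Set Q)) = 2 := by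
    have := map_center_eq R
    rw [inf_eq_left.2 hC] at this
    rw [← this, card_map_of_injective R.subtype_injective, hab.card_center]
  have hcard : 2 * Nat.card c.range = Nat.card Q := by
    rw [← index_ker, ← hZ, ← hker, card_mul_index]
  have hdvd : Nat.card c.range ∣ 24 := by
    rw [← card_mulAut_of_quaternion e]
    exact card_subgroup_dvd_card _
  obtain ⟨P⟩ : Nonempty (Sylow 2 Q) := inferInstance
  have hP16 : ∀ P : Sylow 2 Q, 16 ∣ Nat.card (P : Subgroup Q) := by
    intro P
    obtain ⟨k, hk⟩ := P.isPGroup'.exists_card_eq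
    have hlt : R < P := lt_of_le_of_ne (pCore_le_sylow P) (fun h => hn ⟨P, h ▸ inferInstance⟩)
    have h2 := subgroup_card_lt_of_lt hlt
    rw [hR8, hk] at h2
    have h3 : 3 < k := (Nat.pow_lt_pow_iff_right (by norm_num)).1 (show 2 ^ 3 < 2 ^ k from h2)
    rw [hk]
    exact (pow_dvd_pow 2 (show 4 ≤ k by omega) : 2 ^ 4 ∣ 2 ^ k)
  have h16 : 16 ∣ Nat.card Q := (hP16 P).trans (card_subgroup_dvd_card _)
  have h24 : Nat.card c.range = 24 := by
    have h8 : 8 ∣ Nat.card c.range := by omega
    have hne : Nat.card c.range ≠ 8 := by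
      intro h
      exact hQ2 (IsPGroup.of_card (n := 4) (by omega))
    have hle := Nat.le_of_dvd (by norm_num) hdvd
    obtain ⟨j, hj⟩ := h8
    have hj3 : j ≤ 3 := by omega
    rw [hj] at hdvd
    interval_cases j <;> omega
  have h48 : Nat.card Q = 48 := by omega
  by_cases ht : ∃ t : Q, t * t = 1 ∧ t ∉ R
  · left
    obtain ⟨t, ht, htR⟩ := ht
    obtain ⟨u, hu1, hu, htu, -⟩ := invol_inverts_odd_of_not_mem ht
      (fun h => htR (le_pCore h (subset_normalClosure (Set.mem_singleton t))))
    exact nonempty_equiv_GL23 h48 R e hC hu hu1 ht htu htR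
  right
  push Not at ht
  have hcent : center Q = centralizer (R : Set Q) := by
    refine le_antisymm (center_le_centralizer _) ?_
    intro z hz
    rw [mem_center_iff]
    intro g
    by_cases hz1 : z = 1
    · simp [hz1]
    have hz' : g * z * g⁻¹ ∈ centralizer (R : Set Q) := Normal.conj_mem inferInstance z hz g
    have hz1' : g * z * g⁻¹ ≠ 1 := by simpa using hz1
    obtain ⟨y, -, hy⟩ := (Nat.card_eq_two_iff' (1 : centralizer (R : Set Q))).1 hZ
    have e1 := hy ⟨z, hz⟩ (fun h => hz1 (congrArg Subtype.val h))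
    have e2 := hy ⟨_, hz'⟩ (fun h => hz1' (congrArg Subtype.val h))
    exact mul_inv_eq_iff_eq_mul.1 (congrArg Subtype.val (e2.trans e1.symm))
  have hsurj : Function.Surjective c := by
    rw [← MonoidHom.range_eq_top, ← card_eq_iff_eq_top, h24, card_mulAut_of_quaternion e]
  obtain ⟨e4⟩ := Cfsg.Agent.S3742.result
  refine ⟨h48, hcent ▸ hZ, ⟨(QuotientGroup.quotientMulEquivOfEq (hcent.trans hker.symm)).trans
    ((QuotientGroup.quotientKerEquivOfSurjective c hsurj).trans ((MulAut.congr e).trans e4))⟩, ?_⟩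
  intro P
  have hPc : Nat.card (P : Subgroup Q) = 16 := by
    obtain ⟨k, hk⟩ := P.isPGroup'.exists_card_eq
    have d1 := hP16 P
    have d2 : Nat.card (P : Subgroup Q) ∣ 2 ^ 4 * 3 := by
      have := card_subgroup_dvd_card (P : Subgroup Q)
      rwa [h48] at this
    rw [hk] at d1 d2 ⊢
    have d3 := (Nat.Coprime.pow_left k (by norm_num : Nat.Coprime 2 3)).dvd_of_dvd_mul_right d2
    exact Nat.dvd_antisymm d3 d1
  rcases isCyclic_or_nonempty_quaternion_of_forall_ea P.isPGroup' (fun E hE hc => by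
    have hle : E.map (P : Subgroup Q).subtype ≤ R := by
      rintro _ ⟨x, hx, rfl⟩
      apply ht
      have := congrArg Subtype.val (hE.2 x hx)
      simpa [pow_two] using this
    haveI := hE.1
    have := h1 ((E.map (P : Subgroup Q).subtype).subgroupOf R) inferInstance (by
      rintro x ⟨y, hy, hyx⟩
      apply Subtype.ext
      have h3 : (x : Q) = y := hyx.symm
      have := congrArg Subtype.val (hE.2 y hy)
      simpa [h3] using this)
    rw [Nat.card_congr (subgroupOfEquivOfLe hle).toEquiv,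
      card_map_of_injective (Subgroup.subtype_injective _)] at this
    omega) with h | ⟨-, k, ⟨e'⟩⟩
  · exact absurd (isCyclic_of_injective _ (inclusion_injective (pCore_le_sylow P))) hab.not_isCyclic
  · have h2 := Nat.card_congr e'.toEquiv
    rw [hPc, Nat.card_eq_fintype_card, QuaternionGroup.card] at h2
    have h3 : 2 ^ (k + 1) = 4 := by omega
    rw [h3] at e'
    exact ⟨e'⟩

/-- Let G be a finite solvable group in which the intersection of any two distinct Sylow 2-subgroups has 2-rank at most 1 (contains no Klein four-group). Write Q = G/O(G), O(G) the largest normal subgroup of odd order. Then Q has a normal Sylow 2-subgroup; or Q is isomorphic to GL(2,3); or Q has order 48, centre of order 2 with central quotient isomorphic to the symmetric group of degree 4, and generalized quaternion Sylow 2-subgroups of order 16 (the binary octahedral group). The last two are the two representation groups of the symmetric group of degree 4. -/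
theorem result {G : Type*} [Group G] [Finite G] (hs : Group.IsSolvable G)
    (hI : ∀ S T : Sylow 2 G, S ≠ T → Cfsg.PRankLE 2 1 ↥((S : Subgroup G) ⊓ (T : Subgroup G))) :
    (∃ P : Sylow 2 (G ⧸ Cfsg.oddCore G), (P : Subgroup (G ⧸ Cfsg.oddCore G)).Normal) ∨
    Nonempty ((G ⧸ Cfsg.oddCore G) ≃* GL (Fin 2) (ZMod 3)) ∨
    (Nat.card (G ⧸ Cfsg.oddCore G) = 48 ∧ Nat.card ↥(Subgroup.center (G ⧸ Cfsg.oddCore G)) = 2 ∧
      Nonempty ((G ⧸ Cfsg.oddCore G) ⧸ Subgroup.center (G ⧸ Cfsg.oddCore G) ≃* Equiv.Perm (Fin 4)) ∧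
      ∀ P : Sylow 2 (G ⧸ Cfsg.oddCore G), Nonempty (↥(P : Subgroup (G ⧸ Cfsg.oddCore G)) ≃* QuaternionGroup 4)) := by
  by_cases hn : ∃ P : Sylow 2 (G ⧸ Cfsg.oddCore G), (P : Subgroup (G ⧸ Cfsg.oddCore G)).Normal
  · exact Or.inl hn
  right
  refine aux (CL.Grp.centralizer_pCore_le_of_isSolvable (CL.Grp.pPrimeCore_quotient_pPrimeCore 2 G))
    ?_ hn
  obtain ⟨S', T', hne⟩ := CL.Inv.exists_sylow_ne_of_not_normal hn
  obtain ⟨S, T, hS, hT, hST⟩ :=
    CL.Inv.exists_sylow_pair_lift (QuotientGroup.mk'_surjective (Cfsg.oddCore G)) S' T'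
  have h : S ≠ T := by
    rintro rfl
    exact hne (Sylow.ext (hS.symm.trans hT))
  obtain ⟨e⟩ := CL.Inv.nonempty_equiv_map_mk'_of_coprime (Cfsg.oddCore G)
    (CL.Grp.pPrimeCore_coprime 2 G) (S.isPGroup'.to_le (inf_le_left : (S : Subgroup G) ⊓ T ≤ S))
  rw [hST] at e
  have hle : pCore 2 (G ⧸ Cfsg.oddCore G) ≤ (S' : Subgroup _) ⊓ T' :=
    le_inf (CL.Grp.pCore_le_sylow S') (CL.Grp.pCore_le_sylow T')
  exact CL.Inv.prank_le_of_injective (e.symm.toMonoidHom.comp (Subgroup.inclusion hle))
    (e.symm.injective.comp (Subgroup.inclusion_injective hle)) (hI S T h)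

end Cfsg.Agent.S3304
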