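import Cfsg.Statements.S3309
import Cfsg.Agent.Inv.Misc2

set_option autoImplicit false
open Cfsg

namespace Cfsg.Agent.S3309

open Subgroup CL.Inv CL.Grp DihedralGroup

abbrev M := Multiplicative (ZMod 2) × DihedralGroup 4

def c : M := (Multiplicative.ofAdd 1, 1)
def ρ : M := (1, r 1)
def z : M := (1, r 2)
def t (j : ZMod 4) : M := (1, sr j)

/-- Central elements. -/
def Zc (m : M) : Prop := m = 1 ∨ m = c ∨ m = z ∨ m = c * z

instance decZc (m : M) : Decidable (Zc m) := by unfold Zc; infer_instance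

/-- The elementary abelian subgroups of order eight. -/
def InA (j : ZMod 4) (m : M) : Prop := Zc m ∨ Zc (m * t j)

instance decInA (j : ZMod 4) (m : M) : Decidable (InA j m) := by unfold InA; infer_instance

def chiFun (a b : ZMod 2) (m : M) : Multiplicative (ZMod 2) :=
  match m with
  | (i, r k) => i * Multiplicative.ofAdd ((k.val : ZMod 2) * (a + b))
  | (i, sr k) => i * Multiplicative.ofAdd (a + (k.val : ZMod 2) * (a + b))

theorem chi_mul : ∀ (a b : ZMod 2) (x y : M), chiFun a b (x * y) = chiFun a b x * chiFun a b y := by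
  decide +kernel

def chi (a b : ZMod 2) : M →* Multiplicative (ZMod 2) := MonoidHom.mk' (chiFun a b) (chi_mul a b)

theorem f_cent : ∀ m : M, Zc m ↔ ∀ x, x * m = m * x := by decide +kernel
theorem f_cases : ∀ m : M, Zc m ∨ Zc (m * ρ⁻¹) ∨ Zc (m * t 0) ∨ Zc (m * t 1) := by decide +kernel
theorem f_cases' : ∀ m : M, Zc m ∨ Zc (m * ρ⁻¹) ∨ Zc (m * t 1) ∨ Zc (m * t 0) := by decide +kernel
theorem f_sq : ∀ m : M, m * m = 1 ∨ (m * m = z ∧ Zc (ρ⁻¹ * m)) := by decide +kernel
theorem f_idx : ∀ x y : M, ¬ (Zc x ∨ Zc (ρ⁻¹ * x)) → ¬ (Zc y ∨ Zc (ρ⁻¹ * y)) →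
    (Zc (x⁻¹ * y) ∨ Zc (ρ⁻¹ * (x⁻¹ * y))) := by decide +kernel
theorem f_quot : ∀ x y : M, Zc (ρ⁻¹ * x) → Zc (ρ⁻¹ * y) → Zc (x * y⁻¹) := by decide +kernel
theorem f_nc : ∀ (j : ZMod 4) (y : M), InA j y → ¬ Zc y → y * z = ρ * y * ρ⁻¹ ∧
    (y = t j ∨ y = ρ * t j * ρ⁻¹ ∨ y = c * t j ∨ y = ρ * (c * t j) * ρ⁻¹) := by decide +kernel
theorem f_idxA : ∀ (j : ZMod 4) (x y : M), InA j x → InA j y → ¬ Zc x → ¬ Zc y → Zc (x⁻¹ * y) := by
  decide +kernel
theorem f_chi : ∀ (a b : ZMod 2), chi a b c ≠ 1 ∧ chi a b z = 1 ∧ chi a b (c * z) ≠ 1 ∧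
    (chi a b (t 0) = 1 ↔ a = 0) ∧ (chi a b (c * t 0) = 1 ↔ a ≠ 0) ∧
    (chi a b (t 1) = 1 ↔ b = 0) ∧ (chi a b (c * t 1) = 1 ↔ b ≠ 0) := by decide +kernel
theorem f_two : ∀ x y : Multiplicative (ZMod 2), (x = 1 ↔ y = 1) → x⁻¹ * y = 1 := by decide +kernel

section Aux
variable {G : Type*} [Group G] (ι : M →* G) (hι : Function.Injective ι)
include hι

theorem not_aut_of_rho {X : Subgroup G} (hX : X ≤ ι.range) (hZ : ∀ m, Zc m → ι m ∈ X) (hρ : ι ρ ∈ X) :
    ¬ HasCoprimeAut 2 X := by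
  rintro ⟨g, hgN, hgo, hgC⟩
  obtain ⟨α, hα, -, h1⟩ := exists_odd_aut_of_mem_normalizer hgN hgo
  apply hgC
  apply h1
  have hXp : IsPGroup 2 X := by
    have hM : IsPGroup 2 M := IsPGroup.of_card (n := 4) (by
      rw [Nat.card_prod, DihedralGroup.nat_card]; simp)
    exact (hM.to_subgroup ⊤).map ι |>.to_le (by rwa [← MonoidHom.range_eq_map])
  have hc := hZ c (by decide)
  have hz := hZ z (by decide)
  have pre : ∀ x : X, ∃ m, ι m = x := fun x => hX x.2
  have four : ∀ x : X, (x : G) * x ≠ 1 → ∃ m, ι m = α x ∧ m * m = z ∧ Zc (ρ⁻¹ * m) := by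
    intro x hx
    obtain ⟨m, hm⟩ := pre (α x)
    refine ⟨m, hm, (f_sq m).resolve_left fun h => hx ?_⟩
    have : α x * α x = 1 := Subtype.ext (by rw [coe_mul, ← hm, ← map_mul, h, map_one, coe_one])
    rw [← map_mul, map_eq_one_iff α α.injective] at this
    exact congrArg Subtype.val this
  obtain ⟨m₁, h₁, hm₁, hz₁⟩ := four ⟨_, hρ⟩ (by
    rw [← map_mul, Ne, map_eq_one_iff ι hι]; decide)
  obtain ⟨m₂, h₂, -, hz₂⟩ := four (⟨_, hc⟩ * ⟨_, hρ⟩) (by
    rw [coe_mul, ← map_mul, ← map_mul, Ne, map_eq_one_iff ι hι]; decide)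
  have hαz : α ⟨_, hz⟩ = ⟨_, hz⟩ := by
    have : (⟨_, hz⟩ : X) = ⟨_, hρ⟩ * ⟨_, hρ⟩ := Subtype.ext (by
      rw [coe_mul, ← map_mul]; exact congrArg ι (by decide))
    apply Subtype.ext
    conv_lhs => rw [this, map_mul, coe_mul, ← h₁, ← map_mul, hm₁]
  have hαc : α ⟨_, hc⟩ = ⟨_, hc⟩ := by
    have e : ((α ⟨_, hc⟩ : X) : G) = ι (m₂ * m₁⁻¹) := by
      rw [map_mul, map_inv, h₁, h₂, map_mul, coe_mul, mul_inv_cancel_right]
    rcases f_quot m₂ m₁ hz₂ hz₁ with h | h | h | h <;> rw [h] at e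
    · exfalso
      have : α ⟨_, hc⟩ = 1 := Subtype.ext (e.trans (map_one ι))
      rw [map_eq_one_iff α α.injective] at this
      exact absurd ((map_eq_one_iff ι hι).1 (congrArg Subtype.val this)) (by decide)
    · exact Subtype.ext e
    · exfalso
      have := α.injective ((Subtype.ext e : α ⟨_, hc⟩ = ⟨_, hz⟩).trans hαz.symm)
      exact absurd (hι (congrArg Subtype.val this)) (by decide)
    · exact aut_fix_of_mul hXp hα (Subtype.ext (e.trans (map_mul ι _ _))) hαz
  have hαZ : ∀ m (h : Zc m), α ⟨_, hZ m h⟩ = ⟨_, hZ m h⟩ := by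
    intro m h
    rcases h with rfl | rfl | rfl | rfl
    · simp only [map_one]; exact map_one α
    · exact hαc
    · exact hαz
    · simp only [map_mul]
      exact (map_mul α ⟨_, hc⟩ ⟨_, hz⟩).trans (by rw [hαc, hαz])
  have hαρ : α ⟨_, hρ⟩ = ⟨_, hρ⟩ :=
    aut_fix_of_mul hXp hα (Subtype.ext (by simp [h₁])) (hαZ _ hz₁)
  refine aut_eq_one_of_fix_index_le_two hXp hα (α.toMonoidHom.eqLocus (MonoidHom.id X)) ?_
    fun b hb => hb
  have good : ∀ (x : X) (m : M), ι m = x → (Zc m ∨ Zc (ρ⁻¹ * m)) → α x = x := by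
    rintro x m hm (h | h)
    · rw [show x = ⟨_, hZ m h⟩ from Subtype.ext hm.symm, hαZ m h]
    · rw [show x = ⟨_, hρ⟩ * ⟨_, hZ _ h⟩ from Subtype.ext (by simp [hm]), map_mul, hαρ, hαZ _ h]
  intro x y hx hy
  obtain ⟨m, hm⟩ := pre x
  obtain ⟨n, hn⟩ := pre y
  exact good _ (m⁻¹ * n) (by simp [hm, hn])
    (f_idx m n (fun h => hx (good x m hm h)) (fun h => hy (good y n hn h)))

theorem local_A (NF : ∀ u v, Zc u → Zc v → IsConj (ι u) (ι v) → u = v) (j : ZMod 4) {X : Subgroup G}
    (hX : ∀ x, x ∈ X ↔ ∃ m, InA j m ∧ ι m = x) (h : HasCoprimeAut 2 X) :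
    IsConj (ι (t j)) (ι z) ↔ ¬ IsConj (ι (c * t j)) (ι z) := by
  obtain ⟨g, hgN, hgo, hgC⟩ := h
  have hφ : ∀ m, InA j m → ∃ n, InA j n ∧ ι n = g * ι m * g⁻¹ :=
    fun m hm => (hX _).1 ((mem_normalizer_iff.1 hgN _).1 ((hX _).2 ⟨m, hm, rfl⟩))
  have cj : ∀ m n, ι n = g * ι m * g⁻¹ → IsConj (ι m) (ι n) := fun m n h => isConj_iff.2 ⟨g, h.symm⟩
  have cρ : ∀ m, IsConj (ι m) (ι (ρ * m * ρ⁻¹)) := fun m => ι.map_isConj (isConj_iff.2 ⟨ρ, rfl⟩)
  obtain ⟨y, hy, hyz⟩ := hφ z (Or.inl (by decide))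
  obtain ⟨u, hu, huc⟩ := hφ c (Or.inl (by decide))
  obtain ⟨v, hv, hvc⟩ := hφ (c * z) (Or.inl (by decide))
  have huv : v = u * y := hι (by rw [hvc, map_mul, map_mul, huc, hyz]; group)
  have hyne : y ≠ z := by
    rintro rfl
    have huc' : u = c := by
      by_cases hZ : Zc u
      · exact (NF _ _ (by decide) hZ (cj _ _ huc)).symm
      · exfalso
        have h1 := (cj _ _ huc).trans ((cρ u).trans (cj _ _ (by rw [← hvc, huv, (f_nc j u hu hZ).1])).symm)
        exact absurd (NF c (c * z) (by decide) (by decide) h1) (by decide)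
    subst huc'
    obtain ⟨α, hα, hαg, h1⟩ := exists_odd_aut_of_mem_normalizer hgN hgo
    apply hgC
    apply h1
    have hXp : IsPGroup 2 X := by
      have hM : IsPGroup 2 M := IsPGroup.of_card (n := 4) (by
        rw [Nat.card_prod, DihedralGroup.nat_card]; simp)
      refine (hM.to_subgroup ⊤).map ι |>.to_le fun x hx => ?_
      obtain ⟨m, -, rfl⟩ := (hX x).1 hx
      exact ⟨m, trivial, rfl⟩
    have good : ∀ (x : X) (m : M), ι m = x → Zc m → α x = x := by
      intro x m hm h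
      apply Subtype.ext
      rw [hαg, ← hm]
      rcases h with rfl | rfl | rfl | rfl
      · simp
      · exact huc.symm
      · exact hyz.symm
      · rw [← hvc, huv]
    refine aut_eq_one_of_fix_index_le_two hXp hα (α.toMonoidHom.eqLocus (MonoidHom.id X)) ?_
      fun b hb => hb
    intro x w hx hw
    obtain ⟨m, hm1, hm⟩ := (hX x).1 x.2
    obtain ⟨n, hn1, hn⟩ := (hX w).1 w.2
    exact good _ (m⁻¹ * n) (by simp [hm, hn])
      (f_idxA j m n hm1 hn1 (fun h => hx (good x m hm h)) (fun h => hw (good w n hn h)))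
  have hyZ : ¬ Zc y := fun hZ => hyne (NF _ _ (by decide) hZ (cj _ _ hyz)).symm
  have hy' := (cj _ _ hyz).symm
  constructor
  · intro h1 h2
    have all : ∀ m, InA j m → ¬ Zc m → IsConj (ι m) (ι z) := by
      intro m hm hZ
      rcases (f_nc j m hm hZ).2 with rfl | rfl | rfl | rfl
      · exact h1
      · exact (cρ _).symm.trans h1
      · exact h2
      · exact (cρ _).symm.trans h2
    have e1 : c = u := NF _ _ (by decide) (by
      by_contra hZ
      exact absurd (NF c z (by decide) (by decide) ((cj _ _ huc).trans (all u hu hZ))) (by decide))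
      (cj _ _ huc)
    have e2 : c * z = v := NF _ _ (by decide) (by
      by_contra hZ
      exact absurd (NF (c * z) z (by decide) (by decide) ((cj _ _ hvc).trans (all v hv hZ))) (by decide))
      (cj _ _ hvc)
    rw [huv, ← e1] at e2
    exact hyne (mul_left_cancel e2).symm
  · intro h2
    rcases (f_nc j y hy hyZ).2 with rfl | rfl | rfl | rfl
    · exact hy'
    · exact (cρ _).trans hy'
    · exact absurd hy' h2
    · exact absurd ((cρ _).trans hy') h2

end Aux

/-- A finite group whose Sylow 2-subgroups are isomorphic to the direct product of a group of order 2 and the dihedral group of order 8 is not a non-abelian simple group. -/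
theorem result {G : Type*} [Group G] [Finite G] (S : Sylow 2 G) (hS : Nonempty (↥(S : Subgroup G) ≃* Multiplicative (ZMod 2) × DihedralGroup 4))
    [IsSimpleGroup G] (hG : ¬ IsMulCommutative G) : False := by
  classical
  obtain ⟨e⟩ := hS
  let ι : M →* G := (S : Subgroup G).subtype.comp e.symm.toMonoidHom
  have hι : Function.Injective ι := (Subgroup.subtype_injective _).comp e.symm.injective
  have hr : ι.range = S := by
    ext x
    constructor
    · rintro ⟨m, rfl⟩; exact (e.symm m).2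
    · intro hx; exact ⟨e ⟨x, hx⟩, by simp [ι]⟩
  have hmem : ∀ m, ι m ∈ (S : Subgroup G) := fun m => (e.symm m).2
  have hcent : ∀ m, Zc m → ι m ∈ centralizer ((S : Subgroup G) : Set G) := by
    intro m hm x hx
    obtain ⟨n, rfl⟩ : x ∈ ι.range := hr.symm ▸ hx
    rw [← map_mul, ← map_mul, (f_cent m).1 hm]
  have NF : ∀ u v, Zc u → Zc v → IsConj (ι u) (ι v) → u = v := by
    intro u v hu hv h
    obtain ⟨g, hg⟩ := isConj_iff.1 h.symm
    have hg' : g⁻¹ * ι u * g = ι v := by rw [← hg]; group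
    obtain ⟨n, hn, h1⟩ := S.conj_eq_normalizer_conj_of_mem_centralizer (ι u) g (hcent u hu)
      (hg' ▸ hcent v hv)
    obtain ⟨k, hk⟩ := relIndex_centralizer_eq_pow_of_not
      (not_aut_of_rho ι hι hr.ge (fun m _ => hmem m) (hmem ρ))
    obtain ⟨a, ha, s, hs, rfl⟩ := (isSylowIn_of_le S le_normalizer).exists_mul_eq_of_relIndex_pow hk hn
    apply hι
    rw [← hg', h1]
    calc ι u = s⁻¹ * (s * ι u) := by group
      _ = s⁻¹ * (a⁻¹ * (ι u * a)) * s := by rw [hcent u hu s hs, ha _ (hmem u)]; group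
      _ = _ := by group
  let a : ZMod 2 := if IsConj (ι (t 0)) (ι z) then 0 else 1
  let b : ZMod 2 := if IsConj (ι (t 1)) (ι z) then 0 else 1
  have ha : a = 0 ↔ IsConj (ι (t 0)) (ι z) := by simp [a]
  have hb : b = 0 ↔ IsConj (ι (t 1)) (ι z) := by simp [b]
  obtain ⟨c1, c2, c3, c4, c5, c6, c7⟩ := f_chi a b
  have cρ : ∀ m, IsConj (ι (ρ * m * ρ⁻¹)) (ι z) ↔ IsConj (ι m) (ι z) := fun m =>
    have := ι.map_isConj (isConj_iff.2 ⟨ρ, rfl⟩ : IsConj m (ρ * m * ρ⁻¹))
    ⟨this.trans, this.symm.trans⟩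
  have cχ : ∀ s m, chi a b (s * m * s⁻¹) = chi a b m := by
    intro s m
    rw [map_mul, map_mul, mul_comm (chi a b s), map_inv, mul_inv_cancel_right]
  have hle := focal_le_of_local S ((chi a b).ker.map ι) (by
      intro s hs x hx
      obtain ⟨s, rfl⟩ : s ∈ ι.range := hr.symm ▸ hs
      obtain ⟨x, rfl⟩ : x ∈ ι.range := hr.symm ▸ hx
      exact ⟨x⁻¹ * (s * x * s⁻¹), by simp [cχ], by simp⟩) (by
      intro X hXS hC hA g hg x hx
      have hZ : ∀ m, Zc m → ι m ∈ X := fun m hm => hC ⟨hcent m hm |> centralizer_le hXS, hmem m⟩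
      have hρ : ι ρ ∉ X := fun h => not_aut_of_rho ι hι (hr.symm ▸ hXS) hZ h hA
      have hmul : ∀ m n, ι m ∈ X → Zc (m * n) → ι n ∈ X := by
        intro m n h1 h2
        have := hZ _ h2
        rwa [map_mul, mul_mem_cancel_left h1] at this
      have hA' : ∀ j k, ι (t j) ∈ X → ι (t k) ∉ X → (∀ m : M, Zc m ∨ Zc (m * ρ⁻¹) ∨ Zc (m * t j) ∨
          Zc (m * t k)) → ∀ x, x ∈ X ↔ ∃ m, InA j m ∧ ι m = x := by
        intro j k hj hk hall x
        constructor
        · intro hx
          obtain ⟨m, rfl⟩ : x ∈ ι.range := hr.symm ▸ hXS hx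
          refine ⟨m, ?_, rfl⟩
          rcases hall m with h | h | h | h
          · exact Or.inl h
          · exact absurd (by simpa using hmul _ _ hx h) hρ
          · exact Or.inr h
          · exact absurd (hmul _ _ hx h) hk
        · rintro ⟨m, h | h, rfl⟩
          · exact hZ m h
          · have := hZ _ h
            rwa [map_mul, mul_mem_cancel_right hj] at this
      have fin : ∀ j, (∀ x, x ∈ X ↔ ∃ m, InA j m ∧ ι m = x) →
          (chi a b (t j) = 1 ↔ IsConj (ι (t j)) (ι z)) →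
          (chi a b (c * t j) = 1 ↔ ¬ IsConj (ι (t j)) (ι z)) →
          x⁻¹ * (g * x * g⁻¹) ∈ (chi a b).ker.map ι := by
        intro j hX d1 d2
        have hloc := local_A ι hι NF j hX hA
        have key : ∀ m, InA j m → (chi a b m = 1 ↔ ι m = 1 ∨ IsConj (ι m) (ι z)) := by
          intro m hm
          by_cases hZm : Zc m
          · rw [map_eq_one_iff ι hι]
            rcases hZm with rfl | rfl | rfl | rfl
            · simp
            · exact iff_of_false c1 (by
                rintro (h | h)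
                · exact absurd h (by decide)
                · exact absurd (NF c z (by decide) (by decide) h) (by decide))
            · exact iff_of_true c2 (Or.inr (IsConj.refl _))
            · exact iff_of_false c3 (by
                rintro (h | h)
                · exact absurd h (by decide)
                · exact absurd (NF (c * z) z (by decide) (by decide) h) (by decide))
          · have h1 : ι m ≠ 1 := by
              rw [Ne, map_eq_one_iff ι hι]
              rintro rfl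
              exact hZm (Or.inl rfl)
            rw [or_iff_right h1]
            rcases (f_nc j m hm hZm).2 with rfl | rfl | rfl | rfl
            · exact d1
            · rw [cχ, cρ]; exact d1
            · rw [d2, hloc, not_not]
            · rw [cχ, cρ, d2, hloc, not_not]
        obtain ⟨m, hm, rfl⟩ := (hX x).1 hx
        obtain ⟨n, hn, hng⟩ := (hX _).1 ((mem_normalizer_iff.1 hg _).1 hx)
        refine ⟨m⁻¹ * n, ?_, by rw [map_mul, map_inv, hng]⟩
        rw [SetLike.mem_coe, MonoidHom.mem_ker, map_mul, map_inv]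
        apply f_two
        have h2 : IsConj (ι m) (ι n) := isConj_iff.2 ⟨g, hng.symm⟩
        rw [key m hm, key n hn]
        refine or_congr ?_ ⟨h2.symm.trans, h2.trans⟩
        rw [hng]; simp
      by_cases h0 : ι (t 0) ∈ X
      · have h1 : ι (t 1) ∉ X := fun h => hρ (by
          have := mul_mem h0 h
          rwa [← map_mul] at this)
        exact fin 0 (hA' 0 1 h0 h1 f_cases) (c4.trans ha) (c5.trans ha.not)
      by_cases h1 : ι (t 1) ∈ X
      · exact fin 1 (hA' 1 0 h1 h0 f_cases') (c6.trans hb)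
          (c7.trans hb.not)
      exfalso
      refine hρ (hC ⟨fun y hy => ?_, hmem ρ⟩)
      obtain ⟨m, rfl⟩ : y ∈ ι.range := hr.symm ▸ hXS hy
      rcases f_cases m with h | h | h | h
      · exact (hcent m h _ (hmem ρ)).symm
      · exact absurd (by simpa using hmul _ _ hy h) hρ
      · exact absurd (hmul _ _ hy h) h0
      · exact absurd (hmul _ _ hy h) h1)
  have hcomm : commutator G = ⊤ := by
    refine (IsSimpleGroup.eq_bot_or_eq_top_of_normal _ inferInstance).resolve_left fun h => hG ?_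
    rw [commutator_eq_bot_iff_center_eq_top] at h
    exact ⟨⟨fun x y => mem_center_iff.1 (h ▸ mem_top y : y ∈ center G) x⟩⟩
  rw [← commutator_inf_eq_focalSubgroup, hcomm, top_inf_eq] at hle
  obtain ⟨m, hm, h⟩ := hle (hmem c)
  exact c1 (hι h ▸ hm)

end Cfsg.Agent.S3309
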