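import Cfsg.Statements.S3315
import Cfsg.Agent.Inv.U3Aut

set_option autoImplicit false
open Cfsg

namespace Cfsg.Agent.S3315

/-- Let S be a Sylow 2-subgroup of SU₃(2ⁿ), n ≥ 2 (realised over the field with 4ⁿ elements). If a finite 2-group R contains a subgroup S' of index 2 isomorphic to S, then the centre of S' is contained in the centre of R. -/
theorem result {R : Type*} [Group R] [Finite R]
    (hR : IsPGroup 2 R) (n : ℕ) (hn : 2 ≤ n) {F : Type*} [Field F] [Fintype F] (hF : Fintype.card F = 4 ^ n)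
    (P : Sylow 2 ↥(Cfsg.SU 3 F (2 ^ n))) (S' : Subgroup R) (hS : Nonempty (↥S' ≃* ↥(P : Subgroup ↥(Cfsg.SU 3 F (2 ^ n)))))
    (hidx : S'.index = 2) :
    (Subgroup.center ↥S').map S'.subtype ≤ Subgroup.center R := by
  have hF' : Fintype.card F = (2 ^ n) ^ 2 := by rw [hF, ← pow_mul, mul_comm, pow_mul]; norm_num
  have : CharP F 2 := CL.Chev.U3.charP_two_of_card (n := n * 2) (by rw [hF', pow_mul])
  obtain ⟨e⟩ := hS
  obtain ⟨f⟩ := (CL.Chev.U3.modelSU hF').nonempty_sylow_equiv P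
  let g := f.trans e.symm
  have hN : S'.Normal := Subgroup.normal_of_index_eq_two hidx
  rintro _ ⟨z, hz, rfl⟩
  refine Subgroup.mem_center_iff.2 fun t => ?_
  obtain ⟨w, rfl⟩ := g.surjective z
  have hw : w.a = 0 := CL.Chev.U3.UF.Q.mem_center.1 ((MulEquivClass.apply_mem_center_iff g).1 hz)
  let α := MulAut.congr g.symm (MulAut.conjNormal (H := S') t)
  have h2 : α ^ 2 ∈ (CL.U3Aut.lin (CL.Chev.U3.modelSU hF').toUF).ker := by
    refine CL.U3Aut.mem_ker.2 fun u => ?_
    have ht : t ^ 2 ∈ S' := Subgroup.sq_mem_of_index_two hidx t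
    have : (α ^ 2) u = g.symm ⟨_, ht⟩ * u * (g.symm ⟨_, ht⟩)⁻¹ := by
      apply g.injective
      rw [← map_pow, ← map_pow]
      ext
      simp [-map_pow]
    rw [this, CL.Chev.U3.UF.Q.conj_a]
  have h3 := CL.U3Aut.fix_of_sq h2 hw
  have h4 : MulAut.conjNormal (H := S') t (g w) = g w := by simpa [α, MulEquiv.symm_apply_eq] using h3
  have h5 := congrArg Subtype.val h4
  rw [MulAut.conjNormal_apply] at h5
  exact mul_inv_eq_iff_eq_mul.1 h5

end Cfsg.Agent.S3315
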