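import Cfsg.Statements.S3324
import Cfsg.Agent.Hay.Sp4

set_option autoImplicit false
open Cfsg

namespace Cfsg.Agent.S3324

open Subgroup Multiplicative CL.Hay CL.Even CL.Grp in

/-- Let p be an odd prime and q = pⁿ with q ≡ 3 (mod 4), and let C₀ be the centralizer in PSp(4, q) of an element x of order p lying in the centre of a Sylow p-subgroup. Let G be a finite group with an element α of order p such that C_G(α) ≅ C₀, such that C_G(z) = C_G(α) for every nontrivial z in the centre of C_G(α), and in which not all elements of order p that are central in some Sylow p-subgroup are conjugate. Let P be a Sylow p-subgroup of G contained in C_G(α) (P has order q⁴) and M an elementary abelian subgroup of P of order q³. If N_G(M) does not have a normal Sylow p-subgroup, then M has a complement J in N_G(M) with J isomorphic to PGL(2, q) × C, C cyclic of order (q − 1)/2. -/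
theorem result
    {G : Type*} [Group G] [Finite G] {F : Type*} [Field F] [Fintype F] (p n : ℕ) [Fact p.Prime] (hp : p ≠ 2)
    (hn : 1 ≤ n) (hq4 : p ^ n % 4 = 3) (hF : Fintype.card F = p ^ n)
    (x : Cfsg.PSp 2 F) (hx : orderOf x = p) (Px : Sylow p (Cfsg.PSp 2 F)) (hxP : x ∈ (Px : Subgroup (Cfsg.PSp 2 F)))
    (hxc : ∀ y ∈ (Px : Subgroup (Cfsg.PSp 2 F)), y * x = x * y)
    (α : G) (hα : orderOf α = p)
    (e : ↥(Subgroup.centralizer ({α} : Set G)) ≃* ↥(Subgroup.centralizer ({x} : Set (Cfsg.PSp 2 F))))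
    (hb : ∀ z ∈ Subgroup.centralizer ({α} : Set G), z ≠ 1 → (∀ c ∈ Subgroup.centralizer ({α} : Set G), c * z = z * c) →
      Subgroup.centralizer ({z} : Set G) = Subgroup.centralizer ({α} : Set G))
    (hc : ∃ (u v : G) (Pu Pv : Sylow p G), orderOf u = p ∧ orderOf v = p ∧
      u ∈ (Pu : Subgroup G) ∧ (∀ y ∈ (Pu : Subgroup G), y * u = u * y) ∧
      v ∈ (Pv : Subgroup G) ∧ (∀ y ∈ (Pv : Subgroup G), y * v = v * y) ∧ ∀ g : G, g * u * g⁻¹ ≠ v)
    (P : Sylow p G) (hP : (P : Subgroup G) ≤ Subgroup.centralizer ({α} : Set G))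
    (M : Subgroup G) (hMP : M ≤ P) (hMc : IsMulCommutative ↥M) (hMe : ∀ m ∈ M, m ^ p = 1) (hMcard : Nat.card ↥M = p ^ (3 * n))
    (hnc : ∃ Q R : Sylow p ↥(Subgroup.normalizer (M : Set G)), Q ≠ R) :
    ∃ J : Subgroup G, J ≤ Subgroup.normalizer (M : Set G) ∧ M ⊔ J = Subgroup.normalizer (M : Set G) ∧ M ⊓ J = ⊥ ∧
      Nonempty (↥J ≃* (Matrix.ProjGenLinGroup (Fin 2) F × Multiplicative (ZMod ((p ^ n - 1) / 2)))) := by
  have hp' : p.Prime := Fact.out
  have : CharP F p := charP_of_card_eq_prime_pow hF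
  have h2 : (2 : F) ≠ 0 := fun e => hp ((Nat.prime_dvd_prime_iff_eq hp' Nat.prime_two).1
    ((CharP.cast_eq_zero_iff F p 2).1 (by exact_mod_cast e)))
  have hn1 : ¬ IsSquare (-1 : F) := by rw [FiniteField.isSquare_neg_one_iff, hF]; exact not_not.2 hq4
  have hF' : Nat.card F = p ^ n := Nat.card_eq_fintype_card.trans hF
  obtain ⟨g, a, hga⟩ := (model h2).exists_conj_Z h2 Px hxc
  let h₀ := (model h2).conj g⁻¹
  have hC : h₀.C = centralizer {x} := by
    ext c
    rw [mem_centralizer_singleton_iff, ← h₀.cent a ((model h2).ne_zero (fun e => hp'.one_lt.ne (by rw [← hx, e, orderOf_one])) hga),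
      show h₀.m (ofAdd (a, 0, 0)) = x from (congrArg (g⁻¹ * · * g⁻¹⁻¹) hga.symm).trans (by group)]
  let ι : h₀.C →* G := (Subgroup.subtype _).comp ((MulEquiv.subgroupCongr hC).trans e.symm).toMonoidHom
  have hι : Function.Injective ι := (subtype_injective _).comp (MulEquiv.injective _)
  have hr : ι.range = centralizer {α} := by
    rw [MonoidHom.range_comp, MonoidHom.range_eq_top_of_surjective _ (MulEquiv.surjective _),
      ← MonoidHom.range_eq_map, range_subtype]
  let h₁ : Mod F G := h₀.map ι hι fun b hb0 y hy => by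
    rw [hr, ← hb (ι ⟨_, h₀.mC (ofAdd (b, 0, 0))⟩) (hr.le ⟨_, rfl⟩) (fun e => hb0 ?_) fun c hc => ?_]
    · exact mem_centralizer_singleton_iff.2 hy
    · exact congrArg (·.toAdd.1) (h₀.inj ((congrArg Subtype.val (hι (e.trans ι.map_one.symm))).trans h₀.m.map_one.symm))
    · obtain ⟨c, rfl⟩ := hr.ge hc
      rw [← map_mul, ← map_mul]
      exact congrArg ι (Subtype.ext ((h₀.cent b hb0 c).2 c.2))
  obtain ⟨y, -, hy⟩ := (h₁.syl (p := p) h2).exists_conj_eq (isSylowIn_top_iff.2 ⟨P, rfl⟩)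
  have := hMc
  obtain rfl : M = (h₁.conj y).m.range := (h₁.conj y).eq_M h2 (hMP.trans ((h₁.conj_P y).trans hy).ge)
    (le_centralizer M) (by rw [hMcard, hF', ← pow_mul, mul_comm])
  rw [← hF']
  refine (h₁.conj y).main h2 hn1 (fun H => ?_) hnc
  obtain ⟨u, v, Pu, Pv, hu, hv, -, hu', -, hv', huv⟩ := hc
  obtain ⟨g₁, a₁, e₁⟩ := (h₁.conj y).exists_conj_Z h2 Pu hu'
  obtain ⟨g₂, a₂, e₂⟩ := (h₁.conj y).exists_conj_Z h2 Pv hv'
  obtain ⟨g₃, e₃⟩ := H a₁ (Mod.ne_zero _ (fun e => hp'.one_lt.ne (by rw [← hu, e, orderOf_one])) e₁) a₂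
    (Mod.ne_zero _ (fun e => hp'.one_lt.ne (by rw [← hv, e, orderOf_one])) e₂)
  rw [← e₁, ← e₂] at e₃
  exact huv (g₂⁻¹ * g₃ * g₁) (by rw [← inv_mul_cancel_left g₂ v, ← inv_mul_cancel_right (g₂ * v) g₂, ← e₃]; group)

end Cfsg.Agent.S3324
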