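import Cfsg.Statements.S3348
import Cfsg.Agent.Rec.Agl3
import Cfsg.Agent.Grp.NilpSub
import Cfsg.Agent.Grp.Primitive

set_option autoImplicit false
open Cfsg Subgroup CL.Agl CL.Loc CL.Grp

namespace Cfsg.Agent.S3348

section
variable {G : Type*} [Group G] [Finite G] {A B P Q : Subgroup G}

omit [Finite G] in
theorem side (A : Subgroup G) (e : A ⧸ pCore 3 A ≃* GL (Fin 2) (ZMod 3))
    (h : IsMulCommutative (pCore 3 A) ∧ (∀ x ∈ pCore 3 A, x ^ 3 = 1) ∧ Nat.card (pCore 3 A) = 9 ∧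
      centralizer ((pCore 3 A : Subgroup A) : Set A) = pCore 3 A) : Side A ((pCore 3 A).map A.subtype) := by
  have : Fact (Nat.Prime 3) := ⟨Nat.prime_three⟩
  refine ⟨map_subtype_le _, ?_, ea_map ⟨h.1, h.2.1⟩ _,
    (card_map_of_injective A.subtype_injective).trans h.2.2.1, fun g hg hc => ⟨⟨g, hg⟩, ?_, rfl⟩, ?_⟩
  · refine le_trans ?_ (le_normalizer_map A.subtype)
    rw [normalizer_eq_top, ← MonoidHom.range_eq_map, range_subtype]
  · rw [← h.2.2.2]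
    exact mem_centralizer_iff.2 fun p hp => Subtype.ext (mul_inv_eq_iff_eq_mul.1 (hc p ⟨p, hp, rfl⟩)).symm
  · rw [← (pCore 3 A).card_mul_index, h.2.2.1, index_eq_card, Nat.card_congr e.toEquiv, Matrix.card_GL_field]
    simp [Fin.prod_univ_two]

omit [Finite G] in
theorem exists_fix (hA : Side A P) (hB : Side B Q) (hQ : Q ≤ A) (hn : ¬ Q ≤ P) {t : G} (htA : t ∈ A) (htB : t ∈ B)
    (ht : ∀ p ∈ P, t * p * t⁻¹ = p⁻¹) : ∃ a ∈ Q, a ∉ P ∧ Commute t a := by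
  obtain ⟨q, hq, hqP⟩ := SetLike.not_le_iff_exists.1 hn
  have h1 := conj_mem_of_mem_normalizer (hB.norm htB) hq
  refine ⟨q * (t * q * t⁻¹), mul_mem hq h1, fun h => hqP ?_, ?_⟩
  · have h2 := conj_mem_of_mem_normalizer (hA.norm (hQ hq)) (hA.comm_mem htA ht (hQ hq))
    have h3 := mul_mem (inv_mem h2) h
    rw [show (q * (t * q * t⁻¹ * q⁻¹) * q⁻¹)⁻¹ * (q * (t * q * t⁻¹)) = q ^ 3 * q⁻¹ by group, ea_pow hB.ea hq, one_mul] at h3
    exact inv_mem_iff.1 h3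
  · have ti := inv_eq_of_mul_eq_one_right (hA.sq htA ht)
    rw [ea_mul_comm hB.ea hq h1]
    change t * _ = _ * t
    rw [← ea_mul_comm hB.ea hq h1]
    calc _ = t * q * t⁻¹ * ((t * t) * q * t⁻¹) := by group
      _ = _ := by rw [hA.sq htA ht, one_mul, ea_mul_comm hB.ea hq h1, ti, mul_assoc _ q t, ← mul_assoc]

theorem main (hAB : A ⊔ B = ⊤) (hA : Side A P) (hB : Side B Q) (hP : P ≤ B) (hQ : Q ≤ A) (hne : P ≠ Q) {Z : Subgroup G}
    (h0 : Z ≠ ⊥) (hZ' : Z ≤ P ⊓ Q) (hN : normalizer (Z : Set G) ≤ A ⊓ B) :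
    Spor.IsoM12 G ∨ Nonempty (G ≃* Matrix.ProjectiveSpecialLinearGroup (Fin 3) (ZMod 3)) := by
  have : Fact (Nat.Prime 3) := ⟨Nat.prime_three⟩
  have nPQ : ¬ P ≤ Q := fun h => hne (eq_of_le_of_card_ge h (by rw [hA.card, hB.card]))
  have nQP : ¬ Q ≤ P := fun h => hne (eq_of_le_of_card_ge h (by rw [hA.card, hB.card])).symm
  have hZ : ∀ z ∈ P ⊓ Q, z ≠ 1 → zpowers z = P ⊓ Q := fun z hz z1 => eq_of_le_of_card_ge (zpowers_le.2 hz) (by
    have h1 := card_dvd_of_le (inf_le_left : P ⊓ Q ≤ P)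
    have h2 : Nat.card ↥(P ⊓ Q) ≠ 9 := fun e =>
      nPQ (inf_eq_left.1 (eq_of_le_of_card_ge inf_le_left (by rw [e, hA.card])))
    rw [hA.card] at h1
    have h3 := Nat.le_of_dvd (by norm_num) h1
    rw [Nat.card_zpowers, ea_orderOf hA.ea hz.1 z1]
    by_contra h4
    interval_cases (Nat.card ↥(P ⊓ Q)) <;> omega)
  obtain ⟨⟨z₀, hz₀⟩, z1⟩ := ne_bot_iff_exists_ne_one.1 h0
  replace z1 : z₀ ≠ 1 := fun e => z1 (Subtype.ext e)
  obtain rfl : Z = P ⊓ Q := hZ'.antisymm (hZ _ (hZ' hz₀) z1 ▸ zpowers_le.2 hz₀)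
  obtain ⟨b₀, hb₀, b0⟩ := SetLike.not_le_iff_exists.1 nPQ
  obtain ⟨a₀, ha₀, a0⟩ := SetLike.not_le_iff_exists.1 nQP
  obtain ⟨t, htA, ht⟩ := hA.exists_inv hz₀.1 hb₀ z1 fun h => b0 (zpowers_le.2 hz₀.2 h)
  obtain ⟨v, hvB, hv⟩ := hB.exists_inv hz₀.2 ha₀ z1 fun h => a0 (zpowers_le.2 hz₀.1 h)
  have htB := (hN (mem_normalizer_fintype fun n hn => (ht n hn.1).symm ▸ (P ⊓ Q).inv_mem hn)).2
  have hvA := (hN (mem_normalizer_fintype fun n hn => (hv n hn.2).symm ▸ (P ⊓ Q).inv_mem hn)).1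
  have tt := hA.sq htA ht
  have ti := inv_eq_of_mul_eq_one_right tt
  have vi := inv_eq_of_mul_eq_one_right (hB.sq hvB hv)
  have c1 := hA.comm_mem htA ht hvA
  have c2 : t * v * t⁻¹ * v⁻¹ ∈ Q := inv_mem_iff.1 (by convert hB.comm_mem hvB hv htB using 1; group)
  set u := v * (t * v * t⁻¹ * v⁻¹) with hu
  have huA : u ∈ A := mul_mem hvA (hA.le c1)
  have huB : u ∈ B := mul_mem hvB (hB.le c2)
  have hu' : ∀ q ∈ Q, u * q * u⁻¹ = q⁻¹ := fun q hq => by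
    rw [← hv q hq, hu, mul_inv_rev, mul_assoc v _ q, ea_mul_comm hB.ea c2 hq]; group
  have tu : Commute t u := by
    have h1 := ea_pow hA.ea c1
    rw [ti, vi] at h1
    have h2 : t * u * (t * u) = 1 := by rw [← h1, hu, ti, vi, pow_three]; simp only [mul_assoc]
    change t * u = u * t
    rw [eq_inv_of_mul_eq_one_left h2, mul_inv_rev, ti, inv_eq_of_mul_eq_one_right (hB.sq huB hu')]
  obtain ⟨a, ha, aP, ta⟩ := exists_fix hA hB hQ nQP htA htB ht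
  obtain ⟨b, hb, bQ, ub⟩ := exists_fix hB hA hP nPQ huB huA hu'
  have hz : a * b * a⁻¹ * b⁻¹ ∈ P ⊓ Q := ⟨P.mul_mem (conj_mem_of_mem_normalizer (hA.norm (hQ ha)) hb) (P.inv_mem hb), by
    rw [mul_assoc, mul_assoc, ← mul_assoc b]
    exact Q.mul_mem ha (conj_mem_of_mem_normalizer (hB.norm (hP hb)) (Q.inv_mem ha))⟩
  have z2 : a * b * a⁻¹ * b⁻¹ ≠ 1 := fun e => by
    obtain ⟨ρ, E, c⟩ := hA.exists_co hz₀.1 hb z1 fun h => bQ (zpowers_le.2 hz₀.2 h)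
    have := c.le (K := centralizer {a}) (mem_centralizer_singleton_iff.2 (ea_mul_comm hB.ea hz₀.2 ha))
      (mem_centralizer_singleton_iff.2 (commutatorElement_eq_one_iff_commute.1 e).symm)
    exact aP (hA.cent a (hQ ha) fun p hp => by rw [← mem_centralizer_singleton_iff.1 (this hp), mul_inv_cancel_right])
  have hi : b * a * b⁻¹ * a⁻¹ = (a * b * a⁻¹ * b⁻¹)⁻¹ := by group
  obtain ⟨r, hr⟩ := hA.exists_ext (hQ ha) htA huA hb rfl z2 (fun h => bQ (zpowers_le.2 hz.2 h)) (ea_commute hB.ea ha hz.2) ht ta tu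
    (hu' _ hz.2) ub
  obtain ⟨s, hs⟩ := hB.exists_ext (hP hb) huB htB ha hi.symm (inv_ne_one.2 z2) (fun h => aP (zpowers_le.2 (P.inv_mem hz.1) h))
    (ea_commute hA.ea hb (P.inv_mem hz.1)) hu' ub tu.symm (ht _ (P.inv_mem hz.1)) ta
  refine recog hAB (ea_pow hB.ea ha) (ea_pow hA.ea hb) (fun e => aP (e ▸ one_mem _)) (ea_commute hB.ea ha hz.2)
    (ea_commute hA.ea hb hz.1) tt (fun e => z1 (hA.eq_one ht hz₀.1 (e ▸ Commute.one_left _))) (hB.sq huB hu') tu ta (ht b hb)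
    (hu' a ha) ub hr hs fun c hc => (hN ?_).2
  rw [← hZ _ hz z2]
  exact centralizer_le_normalizer _ (mem_centralizer_iff.2 fun _ ⟨k, e⟩ => e ▸ (hc.zpow_right k).symm)

end

/-- Let G be a finite group generated by isomorphic subgroups A and B such that C = A ∩ B contains a Sylow 3-subgroup of each of A and B and no non-trivial subgroup of C is normalized by both A and B. Suppose A/O₃(A) and B/O₃(B) are isomorphic to GL(2,3), that O₃(A) and O₃(B) are elementary abelian of order 9 and self-centralizing in A and B respectively (natural modules), and that for a Sylow 3-subgroup S of C the normalizer N_G(Z(S)) lies in A ∩ B. Then G is isomorphic to the Mathieu group M₁₂ or to PSL(3,3). -/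
theorem result {G : Type*} [Group G] [Finite G]
    (A B : Subgroup G) (eAB : Nonempty (A ≃* B)) (hgen : A ⊔ B = ⊤)
    (hSylA : ¬ 3 ∣ ((A ⊓ B).subgroupOf A).index) (hSylB : ¬ 3 ∣ ((A ⊓ B).subgroupOf B).index)
    (hcore : ∀ N : Subgroup G, N ≤ A ⊓ B → (∀ a ∈ A, N.map (MulAut.conj a).toMonoidHom = N) →
      (∀ b ∈ B, N.map (MulAut.conj b).toMonoidHom = N) → N = ⊥)
    (eA : A ⧸ Cfsg.pCore 3 A ≃* GL (Fin 2) (ZMod 3)) (eB : B ⧸ Cfsg.pCore 3 B ≃* GL (Fin 2) (ZMod 3))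
    (hOA : IsMulCommutative (Cfsg.pCore 3 A) ∧ (∀ x ∈ Cfsg.pCore 3 A, x ^ 3 = 1) ∧ Nat.card (Cfsg.pCore 3 A) = 9 ∧
      Subgroup.centralizer ((Cfsg.pCore 3 A : Subgroup A) : Set A) = Cfsg.pCore 3 A)
    (hOB : IsMulCommutative (Cfsg.pCore 3 B) ∧ (∀ x ∈ Cfsg.pCore 3 B, x ^ 3 = 1) ∧ Nat.card (Cfsg.pCore 3 B) = 9 ∧
      Subgroup.centralizer ((Cfsg.pCore 3 B : Subgroup B) : Set B) = Cfsg.pCore 3 B)
    (S : Sylow 3 ↥(A ⊓ B)) (Z : Subgroup G)
    (hZ : Z = ((S : Subgroup ↥(A ⊓ B)) ⊓ Subgroup.centralizer ((S : Subgroup ↥(A ⊓ B)) : Set ↥(A ⊓ B))).map (A ⊓ B).subtype)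
    (hNZ : Subgroup.normalizer (Z : Set G) ≤ A ⊓ B) :
    Cfsg.Spor.IsoM12 G ∨ Nonempty (G ≃* Matrix.ProjectiveSpecialLinearGroup (Fin 3) (ZMod 3)) := by
  have : Fact (Nat.Prime 3) := ⟨Nat.prime_three⟩
  have hA := side A eA hOA
  have hB := side B eB hOB
  have hS := isSylowIn_map_subtype S
  have h1 := (hS.of_not_dvd_relIndex inf_le_left hSylA).le_of_normalized (ea_isPGroup hA.ea) hA.le hA.norm
  have h2 := (hS.of_not_dvd_relIndex inf_le_right hSylB).le_of_normalized (ea_isPGroup hB.ea) hB.le hB.norm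
  have hne : (pCore 3 A).map A.subtype ≠ (pCore 3 B).map B.subtype := fun e => by
    have h3 := hcore _ (h1.trans hS.le) (fun a ha => conj_smul_eq_of_mem_normalizer (hA.norm ha))
      fun b hb => e ▸ conj_smul_eq_of_mem_normalizer (hB.norm hb)
    have h4 := hA.card
    rw [h3, card_bot] at h4
    exact absurd h4 (by decide)
  have h3 : ∀ z ∈ Z, z ∈ A ⊓ B ∧ ∀ p ∈ (S : Subgroup ↥(A ⊓ B)).map (A ⊓ B).subtype, z * p * z⁻¹ = p := by
    rw [hZ]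
    rintro _ ⟨z, hz, rfl⟩
    refine ⟨z.2, ?_⟩
    rintro _ ⟨p, hp, rfl⟩
    exact mul_inv_eq_iff_eq_mul.2 (congrArg Subtype.val (mem_centralizer_iff.1 hz.2 p hp)).symm
  refine main hgen hA hB ((h1.trans hS.le).trans inf_le_right) ((h2.trans hS.le).trans inf_le_left) hne ?_
    (fun z hz => ⟨hA.cent z (h3 z hz).1.1 fun p hp => (h3 z hz).2 p (h1 hp),
      hB.cent z (h3 z hz).1.2 fun p hp => (h3 z hz).2 p (h2 hp)⟩) hNZ
  rw [hZ, Ne, map_eq_bot_iff_of_injective _ (subtype_injective _)]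
  refine inf_centralizer_ne_bot_of_isPGroup S.2 le_normalizer ?_
  rw [← card_map_of_injective (subtype_injective (A ⊓ B))]
  exact (hA.card ▸ (by norm_num : 3 ∣ 9)).trans (card_dvd_of_le h1)

end Cfsg.Agent.S3348
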