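import Cfsg.Statements.S3349
import Cfsg.Agent.Grp.ExtraBasic
import Cfsg.Agent.Grp.PGroupCritical

set_option autoImplicit false
open Cfsg
open scoped commutatorElement

namespace Cfsg.Agent.S3349

/-- Let Q be a finite extraspecial p-group and α an automorphism of Q fixing every element of some maximal abelian subgroup of Q. Then the order of α is a power of p. -/
theorem result {Q : Type*} [Group Q] [Finite Q]
    (p : ℕ) [Fact p.Prime] (hQ : Cfsg.IsExtraspecial p Q) (α : MulAut Q)
    (A : Subgroup Q) (hA : IsMulCommutative A) (hmax : ∀ B : Subgroup Q, A ≤ B → IsMulCommutative B → B = A)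
    (hfix : ∀ a ∈ A, α a = a) :
    ∃ k : ℕ, orderOf α = p ^ k := by
  have hp : p.Prime := Fact.out
  have hC := CL.Grp.centralizer_eq_of_maximal_abelian hA hmax
  have hZ : Subgroup.center Q ≤ A := hC ▸ Subgroup.center_le_centralizer _
  obtain ⟨n, H, -⟩ := CL.Grp.extra_exists_heis hQ
  have key : ∀ x, x⁻¹ * α x ∈ A := fun x => by
    rw [← hC]
    intro a ha
    have h1 : ⁅α x, a⁆ = ⁅x, a⁆ := by
      conv_lhs => rw [← hfix a ha, ← map_commutatorElement]
      exact hfix _ (hZ (CL.Grp.extra_comm_mem_center hQ x a))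
    simp only [commutatorElement_def] at h1
    have h2 := mul_right_cancel h1
    calc a * (x⁻¹ * α x) = x⁻¹ * (x * a * x⁻¹) * α x := by group
      _ = _ := by rw [← h2]; group
  have h3 : α ^ (p ^ 2) = 1 := by
    ext x
    rw [CL.Grp.mulAut_pow_apply_of_fix (hfix _ (key x)) (mul_inv_cancel_left x (α x)).symm,
      H.pow_p_sq, mul_one, MulAut.one_apply]
  obtain ⟨k, -, hk⟩ := (Nat.dvd_prime_pow hp).mp (orderOf_dvd_of_pow_eq_one h3)
  exact ⟨k, hk⟩

end Cfsg.Agent.S3349
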