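import Cfsg.Statements.S3361
import Cfsg.Agent.Perm.Huppert3
import Cfsg.Agent.Perm.FCGroup
import Cfsg.Agent.Perm.PrimTwoMod4
import Cfsg.Agent.Perm.PrimCharSimple
import Cfsg.Agent.Transfer.SL23

set_option autoImplicit false
open Cfsg

namespace Cfsg.Agent.S3361

open CL.Perm

theorem index_two_of_surj {G H : Type*} [Group G] [Group H] (φ : G →* H) (hφ : Function.Surjective φ)
    (h : ∃ N : Subgroup H, N.index = 2) : ∃ N : Subgroup G, N.index = 2 :=
  let ⟨N, hN⟩ := h
  ⟨N.comap φ, by rw [N.index_comap_of_surjective hφ, hN]⟩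

theorem index_two_of_cyclic {H : Type*} [Group H] [Finite H] [IsCyclic H] (h : 2 ∣ Nat.card H) :
    ∃ N : Subgroup H, N.index = 2 := by
  let _ := IsCyclic.commGroup (α := H)
  exact ⟨(powMonoidHom 2).range, by rw [IsCyclic.index_powMonoidHom_range, Nat.gcd_eq_right h]⟩

theorem index_two_of_metacyclic {G : Type*} [Group G] [Finite G] (N : Subgroup G) [N.Normal]
    [IsCyclic N] [IsCyclic (G ⧸ N)] (h : 2 ∣ Nat.card G) : ∃ N : Subgroup G, N.index = 2 := by
  by_cases h2 : 2 ∣ Nat.card (G ⧸ N)
  · exact index_two_of_surj _ (QuotientGroup.mk'_surjective N) (index_two_of_cyclic h2)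
  let P : Sylow 2 G := default
  have hPN : (P : Subgroup G) ≤ N := fun x hx => by
    rw [← QuotientGroup.eq_one_iff, ← orderOf_eq_one_iff]
    obtain ⟨k, hk⟩ := P.2 ⟨x, hx⟩
    refine Nat.eq_one_of_dvd_coprimes
      (((Nat.Prime.coprime_iff_not_dvd Nat.prime_two).2 h2).pow_left k)
      (orderOf_dvd_of_pow_eq_one ?_) (orderOf_dvd_natCard _)
    rw [← QuotientGroup.mk_pow, show x ^ 2 ^ k = 1 from congrArg Subtype.val hk, QuotientGroup.mk_one]
  have hP : IsCyclic P := Subgroup.isCyclic_of_le hPN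
  have hmin : (Nat.card G).minFac = 2 := (Nat.minFac_eq_two_iff _).2 h
  have hc := hP.isComplement' hmin
  have : IsCyclic (G ⧸ (MonoidHom.transferSylow P (hP.normalizer_le_centralizer hmin)).ker) :=
    isCyclic_of_surjective _ hc.symm.QuotientMulEquiv.symm.surjective
  refine index_two_of_surj _ (QuotientGroup.mk'_surjective
    (MonoidHom.transferSylow P (hP.normalizer_le_centralizer hmin)).ker) (index_two_of_cyclic ?_)
  rw [← Subgroup.index, hc.symm.index_eq_card]
  exact P.dvd_card_of_dvd_card h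

theorem exists_SL23 {G : Type*} [Group G] [Finite G] (hG : IsFpf G) {A E : Subgroup G}
    (hE : HeisOver A E 2) (hC : Subgroup.centralizer (A : Set G) = ⊤)
    (hCE : Subgroup.centralizer (E : Set G) ≤ A) (h4 : A.relIndex E = 4) (h3 : E.index = 3)
    (hc : Nat.card A = 2 ∨ Nat.card A = 10) :
    ∃ H : Subgroup G, Nonempty (H ≃* Matrix.SpecialLinearGroup (Fin 2) (ZMod 3)) := by
  have := hE.normal
  have hcE := Subgroup.relIndex_mul_relIndex ⊥ A E bot_le hE.le
  simp only [Subgroup.relIndex_bot_left, h4] at hcE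
  have hcG := E.card_mul_index
  let P : Sylow 2 G := default
  have hP : Nat.card P = 8 := by
    rw [P.card_eq_multiplicity, ← hcG, ← hcE, h3]
    rcases hc with h | h <;> rw [h] <;> decide +kernel
  have hPE : (P : Subgroup G) ≤ E := fun x hx => by
    rw [← QuotientGroup.eq_one_iff, ← orderOf_eq_one_iff]
    refine Nat.eq_one_of_dvd_coprimes (by norm_num : Nat.Coprime 8 3)
      (orderOf_dvd_of_pow_eq_one ?_) (h3 ▸ orderOf_dvd_natCard _)
    rw [← QuotientGroup.mk_pow, orderOf_dvd_iff_pow_eq_one.1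
      (hP ▸ (P : Subgroup G).orderOf_dvd_natCard hx), QuotientGroup.mk_one]
  have hAc : ∀ a ∈ A, ∀ g, a * g = g * a := fun a ha g =>
    (hC ▸ Subgroup.mem_top g : g ∈ Subgroup.centralizer (A : Set G)) a ha
  have hPA : (P : Subgroup G) ⊔ A = E := by
    refine Subgroup.eq_of_le_of_card_ge (sup_le hPE hE.le) (Nat.le_of_dvd Nat.card_pos ?_)
    have h1 := hP ▸ Subgroup.card_dvd_of_le (le_sup_left : (P : Subgroup G) ≤ (P : Subgroup G) ⊔ A)
    have h2 := Subgroup.card_dvd_of_le (le_sup_right : A ≤ (P : Subgroup G) ⊔ A)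
    rw [← hcE]
    rcases hc with h | h <;> rw [h] at h2 ⊢ <;> omega
  have hPn : (P : Subgroup G).Normal := by
    rw [← Subgroup.normalizer_eq_top_iff, P.coe_coe, ← P.normalizer_sup_eq_top' hPE, eq_comm,
      sup_eq_left, ← hPA]
    exact sup_le Subgroup.le_normalizer fun a ha =>
      Subgroup.centralizer_le_normalizer _ fun g _ => (hAc a ha g).symm
  have hPC : Subgroup.centralizer (P : Set G) ≤ A := fun g hg => hCE (by
    rw [← Subgroup.zpowers_le, Subgroup.le_centralizer_iff, ← hPA]
    exact sup_le (Subgroup.le_centralizer_iff.1 ((Subgroup.zpowers_le).2 hg))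
      fun a ha x _ => (hAc a ha x).symm)
  obtain ⟨g, hg⟩ := exists_prime_orderOf_dvd_card' (G := G) 3 (by rw [← hcG, h3]; simp)
  rcases hG.subgroup_isCyclic_or_quaternion P.2 with h | ⟨-, k, ⟨e⟩⟩
  · have h1 := hP ▸ Subgroup.card_dvd_of_le ((P : Subgroup G).le_centralizer.trans hPC)
    omega
  have hk : k = 0 := by
    have h1 := Nat.card_congr e.toEquiv
    rw [hP, Nat.card_eq_fintype_card, QuaternionGroup.card, pow_succ] at h1
    exact (Nat.pow_eq_one.1 (by omega : 2 ^ k = 1)).resolve_left (by norm_num)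
  subst hk
  obtain ⟨f, hf, hker⟩ := CL.Transfer.exists_surjective_SL23_of_mem_normalizer (P : Subgroup G) e g
    (by rw [hg]; decide) (by rw [Subgroup.normalizer_eq_top]; trivial) fun h => by
      have h1 := hg ▸ A.orderOf_dvd_natCard (hPC h)
      omega
  rw [show g ^ 3 = 1 from hg ▸ pow_orderOf_eq_one g, Subgroup.zpowers_one_eq_bot, Subgroup.bot_subgroupOf,
    MonoidHom.ker_eq_bot_iff] at hker
  exact ⟨_, ⟨MulEquiv.ofBijective f ⟨hker, hf⟩⟩⟩

/-- Let q be a prime and V a non-trivial finite vector space over the field with q elements, and let G be a finite solvable group acting faithfully and linearly on V and regularly on the non-zero vectors (transitively, with only the identity fixing a non-zero vector). Then either V can be identified with the additive group of a finite field F so that every element of G acts as x ↦ a·σ(x) (a ∈ F, σ a field automorphism), or V has 5^2, 7^2, 11^2 or 23^2 elements. Moreover, if q ≠ 2 then G has a normal subgroup of index 2, except that when V has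 25 elements G may be isomorphic to SL(2,3) and when V has 121 elements G may be isomorphic to SL(2,3) × C₅. -/
theorem result
    (q : ℕ) [Fact q.Prime] {V : Type*} [AddCommGroup V] [Module (ZMod q) V] [Finite V] [Nontrivial V]
    {G : Type*} [Group G] [Finite G] (hsol : Group.IsSolvable G)
    (ρ : G →* (V ≃ₗ[ZMod q] V)) (hρ : Function.Injective ρ)
    (htrans : ∀ v w : V, v ≠ 0 → w ≠ 0 → ∃ g : G, ρ g v = w)
    (hreg : ∀ v : V, v ≠ 0 → ∀ g : G, ρ g v = v → g = 1) :
    ((∃ (F : Type) (_ : Field F) (_ : Fintype F) (e : V ≃+ F),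
        ∀ g : G, ∃ (a : F) (σ : F ≃+* F), ∀ v : V, e (ρ g v) = a * σ (e v)) ∨
      Nat.card V ∈ ({25, 49, 121, 529} : Set ℕ)) ∧
    (q ≠ 2 → (∃ N : Subgroup G, N.Normal ∧ N.index = 2) ∨
      (Nat.card V = 25 ∧ Nonempty (G ≃* Matrix.SpecialLinearGroup (Fin 2) (ZMod 3))) ∨
      (Nat.card V = 121 ∧ Nonempty (G ≃* Matrix.SpecialLinearGroup (Fin 2) (ZMod 3) × Multiplicative (ZMod 5)))) := by
  have hV := Module.natCard_eq_pow_finrank (K := ZMod q) (V := V)
  rw [Nat.card_zmod] at hV
  have hq : q.Prime := Fact.out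
  have hfpf : IsFpf G := isFpf_of_rep_finite (endOfLin ρ) fun g hg v hv => by
    by_contra h0
    exact hg (hreg v h0 g hv)
  have hcard : Nat.card G = Nat.card V - 1 := by
    obtain ⟨v, hv⟩ := exists_ne (0 : V)
    rw [← Set.ncard_singleton (0 : V), ← Set.ncard_compl, ← Nat.card_coe_set_eq]
    refine Nat.card_eq_of_bijective (fun g => ⟨ρ g v, by simpa using hv⟩) ⟨fun a b hab => ?_, ?_⟩
    · have h1 : ρ a v = ρ b v := congrArg Subtype.val hab
      refine (inv_mul_eq_one.1 (hreg v hv _ ?_)).symm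
      rw [map_mul, LinearEquiv.mul_apply, h1, ← LinearEquiv.mul_apply, ← map_mul, inv_mul_cancel,
        map_one, LinearEquiv.coe_one, id]
    · rintro ⟨w, hw⟩
      obtain ⟨g, hg⟩ := htrans v w hv hw
      exact ⟨g, Subtype.ext hg⟩
  have hnorm : (∃ N : Subgroup G, N.index = 2) → ∃ N : Subgroup G, N.Normal ∧ N.index = 2 :=
    fun ⟨N, hN⟩ => ⟨N, N.normal_of_index_eq_two hN, hN⟩
  rcases huppert_struct (endOfLin ρ) (endOfLin_injective hρ) htrans hV with
    ⟨A, hA, hc, hirr⟩ | ⟨hn, hq24, A, E, hA, hAc, hE, hC, hCE, h4, h2, hAq, h6⟩ | ⟨hn, hq3, h32⟩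
  · refine ⟨Or.inl (exists_gammaL_of_irreducible _ A hirr), fun hq2 => Or.inl (hnorm ?_)⟩
    obtain ⟨K, _, _, e, c, σ, h, hc0, -⟩ := exists_semilinear_of_irreducible (endOfLin ρ) A
      (fun s hs t ht => by rw [← map_mul, ← map_mul, setLike_mul_comm (s := A) hs ht]) hirr
    have hσ : ∀ (g : σ.ker) x, ρ g (e x) = e (c g * x) := fun g x => by
      rw [← endOfLin_apply, h, g.2]; rfl
    let ι : σ.ker →* K :=
      { toFun := fun t => c t
        map_one' := e.injective (by rw [← mul_one (c _), ← hσ]; simp)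
        map_mul' := fun s t => e.injective (by
          rw [← mul_one (c _), ← hσ, ← hσ, ← mul_one (c t), ← hσ]; simp) }
    have : IsCyclic σ.ker := isCyclic_of_injective_ringHom ι ((injective_iff_map_eq_one ι).2
      fun t ht => Subtype.ext (hreg (e 1) (by simp) _ (by rw [hσ, mul_one]; exact congrArg e ht)))
    have := CL.GLn.isCyclic_ringAut (F := K)
    have : IsCyclic (G ⧸ σ.ker) :=
      isCyclic_of_surjective _ (QuotientGroup.quotientKerEquivRange σ).symm.surjective
    refine index_two_of_metacyclic σ.ker ?_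
    rw [hcard, hV]
    exact (Nat.Odd.sub_odd (hq.odd_of_ne_two hq2).pow odd_one).two_dvd
  · have := hE.normal
    have hcE := Subgroup.relIndex_mul_relIndex ⊥ A E bot_le hE.le
    simp only [Subgroup.relIndex_bot_left, h4] at hcE
    have hcG := E.card_mul_index
    rw [hcard, hV, hn, ← hcE] at hcG
    have hE1 : E.index ≠ 1 := by
      intro h1
      rw [Subgroup.index_eq_one] at h1
      obtain ⟨x, -, hx⟩ : ∃ x ∈ E, x ∉ A := SetLike.not_le_iff_exists.1 fun h => by
        rw [Subgroup.relIndex_eq_one.2 h] at h4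
        exact absurd h4 (by norm_num)
      have := hA.normal
      have hAx : ∀ a ∈ A, ∀ g, a * g = g * a := fun a ha g =>
        (hC ▸ Subgroup.mem_top g : g ∈ Subgroup.centralizer (A : Set G)) a ha
      refine hx (hA.max (A ⊔ Subgroup.zpowers x) (Subgroup.Normal.of_commutator_le _ (le_trans
        (Subgroup.commutator_le.2 fun a _ b _ => hE.comm a (h1 ▸ trivial) b (h1 ▸ trivial))
        le_sup_left)) ?_ le_sup_left (Subgroup.mem_sup_right (Subgroup.mem_zpowers x)))
      rw [← Subgroup.le_centralizer_iff_isMulCommutative]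
      refine sup_le (fun a ha g _ => (hAx a ha g).symm) (Subgroup.le_centralizer_iff.1 (sup_le
        (fun a ha g _ => (hAx a ha g).symm) (Subgroup.zpowers x).le_centralizer))
    have h1 := Nat.le_of_dvd (by norm_num) hq24
    have h3 := h2.trans hAq
    have h5 : q ≤ 23 := by omega
    have hq' : q = 3 ∨ q = 5 ∨ q = 7 ∨ q = 11 ∨ q = 23 := by
      interval_cases q <;> simp_all (config := { decide := true })
    have hq3 : q ≠ 3 := by
      rintro rfl
      rw [Nat.dvd_antisymm hAq h2] at hcG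
      omega
    refine ⟨Or.inr (by rw [hV, hn]; rcases hq' with h | h | h | h | h <;> simp [h] at hq3 ⊢), fun _ => ?_⟩
    by_cases h7 : 2 ∣ E.index
    · obtain ⟨N, hN, hN', -⟩ := exists_subgroup_odd_of_not_four_dvd (Q := G ⧸ E)
        fun h => absurd (h.trans h6) (by norm_num)
      refine Or.inl (hnorm (index_two_of_surj _ (QuotientGroup.mk'_surjective E) ⟨N, ?_⟩))
      have h8 := N.card_mul_index
      have h9 := (Nat.Coprime.dvd_mul_left hN'.coprime_two_left).1 (h8.symm ▸ h7 : 2 ∣ _ * N.index)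
      have h10 := Nat.le_of_dvd (Nat.pos_of_ne_zero N.index_ne_zero_of_finite) h9
      omega
    have h8 : E.index = 3 := by
      have h9 := Nat.le_of_dvd (by norm_num) h6
      generalize E.index = i at *
      interval_cases i <;> simp_all
    rw [h8] at hcG
    have hSL := CL.Transfer.card_SL23
    rcases hq' with rfl | rfl | rfl | rfl | rfl
    · exact absurd rfl hq3
    · obtain ⟨H, ⟨e⟩⟩ := exists_SL23 hfpf hE hC hCE h4 h8 (by omega)
      have hH : H = ⊤ := Subgroup.eq_top_of_card_eq _ (by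
        rw [Nat.card_congr e.toEquiv, hSL, hcard, hV, hn]; rfl)
      exact Or.inr (Or.inl ⟨by rw [hV, hn]; rfl, ⟨(Subgroup.topEquiv.symm.trans
        (MulEquiv.subgroupCongr hH.symm)).trans e⟩⟩)
    · rw [show Nat.card A = 4 by omega] at hAq
      exact absurd hAq (by norm_num)
    · obtain ⟨H, ⟨e⟩⟩ := exists_SL23 hfpf hE hC hCE h4 h8 (by omega)
      have hH : Nat.card H = 24 := by rw [Nat.card_congr e.toEquiv, hSL]
      have : Fact (Nat.Prime 5) := ⟨by norm_num⟩
      obtain ⟨z, hz⟩ := exists_prime_orderOf_dvd_card' (G := A) 5 (by omega)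
      have hZ : Nat.card (Subgroup.zpowers (z : G)) = 5 := by
        rw [Nat.card_zpowers, Subgroup.orderOf_coe, hz]
      let e1 := prodEquivSup H (Subgroup.zpowers (z : G)) (fun a b =>
        ((hC ▸ Subgroup.mem_top a : (a : G) ∈ Subgroup.centralizer (A : Set G)) b
          ((Subgroup.zpowers_le).2 z.2 b.2)).symm)
        (Subgroup.disjoint_of_coprime_natCard (by rw [hH, hZ]; norm_num)).eq_bot
      have hT : H ⊔ Subgroup.zpowers (z : G) = ⊤ := Subgroup.eq_top_of_card_eq _ (by
        rw [← Nat.card_congr e1.toEquiv, Nat.card_prod, hH, hZ, hcard, hV, hn]; rfl)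
      refine Or.inr (Or.inr ⟨by rw [hV, hn]; rfl, ⟨((Subgroup.topEquiv.symm.trans
        (MulEquiv.subgroupCongr hT.symm)).trans e1.symm).trans (e.prodCongr
          (mulEquivOfCyclicCardEq (by rw [hZ]; simp)))⟩⟩)
    · rw [show Nat.card A = 44 by omega] at hAq
      exact absurd hAq (by norm_num)
  · rw [hcard, hV, hn, hq3] at h32
    exact absurd h32 (by norm_num)

end Cfsg.Agent.S3361
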