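import Cfsg.Statements.S3371
import Cfsg.Agent.Perm.HalfT
import Cfsg.Agent.S3784

set_option autoImplicit false
open Cfsg

namespace Cfsg.Agent.S3371

/-- Let q be a prime, V a non-trivial finite vector space over the field with q elements, and G a finite p-group (p prime) acting faithfully and linearly on V such that all G-orbits on the non-zero vectors have the same size. Then one of the following holds: G is cyclic or generalized quaternion and acts semiregularly on the non-zero vectors; or V has q² elements with q = 2^m − 1 and G is dihedral of order 2^(m+1) or semidihedral of order 2^(m+2); or V has q² elements with q = 2^m + 1 and, in suitable coordinates V = F_q², G is exactly the group of maps (x, y) ↦ (a x, ± a⁻¹ y) and (x, y) ↦ (± a⁻¹ y, a x) with a ≠ 0; or V has 81 elements (q = 3) and G is a 2-group. -/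
theorem result (q : ℕ) [Fact q.Prime] {V : Type*} [AddCommGroup V] [Module (ZMod q) V] [Finite V] [Nontrivial V]
    {G : Type*} [Group G] [Finite G] (p : ℕ) [Fact p.Prime] (hG : IsPGroup p G)
    (ρ : G →* (V ≃ₗ[ZMod q] V)) (hρ : Function.Injective ρ)
    (hhalf : ∀ v w : V, v ≠ 0 → w ≠ 0 → Nat.card {u : V | ∃ g : G, ρ g v = u} = Nat.card {u : V | ∃ g : G, ρ g w = u}) :
    ((IsCyclic G ∨ ∃ n : ℕ, Nonempty (G ≃* QuaternionGroup n)) ∧ ∀ v : V, v ≠ 0 → ∀ g : G, ρ g v = v → g = 1) ∨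
    (Nat.card V = q ^ 2 ∧ ∃ m : ℕ, q = 2 ^ m - 1 ∧
      (Nonempty (G ≃* DihedralGroup (2 ^ m)) ∨ (Cfsg.IsQuasiDihedral G ∧ Nat.card G = 2 ^ (m + 2)))) ∨
    (Nat.card V = q ^ 2 ∧ (∃ m : ℕ, q = 2 ^ m + 1) ∧
      ∃ e : V ≃ₗ[ZMod q] (Fin 2 → ZMod q), ∀ f : (Fin 2 → ZMod q) ≃ₗ[ZMod q] (Fin 2 → ZMod q),
        (∃ g : G, f = e.symm.trans ((ρ g).trans e)) ↔
        ∃ a s : ZMod q, a ≠ 0 ∧ (s = 1 ∨ s = -1) ∧
          ((∀ v, f v = ![a * v 0, s * a⁻¹ * v 1]) ∨ (∀ v, f v = ![s * a⁻¹ * v 1, a * v 0]))) ∨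
    (Nat.card V = 81 ∧ q = 3 ∧ p = 2) := by
  classical
  have hq : q.Prime := Fact.out
  letI : DistribMulAction G V := DistribMulAction.compHom V ρ
  have hs : ∀ (g : G) (v : V), g • v = ρ g v := fun _ _ => rfl
  haveI : FaithfulSMul G V := ⟨fun {g g'} h => hρ (LinearEquiv.ext h)⟩
  haveI : SMulCommClass G (ZMod q) V := ⟨fun g c v => map_smul (ρ g) c v⟩
  have hE : ∀ v : V, q • v = 0 := fun v => by rw [← Nat.cast_smul_eq_nsmul (ZMod q), ZMod.natCast_self, zero_smul]
  have hc : ∀ a b : V, a ≠ 0 → b ≠ 0 → Nat.card (MulAction.stabilizer G a) = Nat.card (MulAction.stabilizer G b) :=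
    fun a b ha hb => by
      have k : ∀ a : V, Nat.card (MulAction.stabilizer G a) * Nat.card {u : V | ∃ g : G, ρ g a = u} = Nat.card G :=
        fun a => by
          rw [← (MulAction.stabilizer G a).card_mul_index, MulAction.index_stabilizer, Nat.card_coe_set_eq]; rfl
      have h1 := k a
      rw [hhalf a b ha hb, ← k b] at h1
      refine Nat.eq_of_mul_eq_mul_right (Nat.pos_of_ne_zero fun e => ?_) h1
      exact Nat.card_pos.ne' ((k b).symm.trans (by rw [e, mul_zero]))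
  by_cases hsr : ∀ v : V, v ≠ 0 → ∀ g : G, ρ g v = v → g = 1
  · refine Or.inl ⟨?_, hsr⟩
    letI : MulDistribMulAction G (Multiplicative V) :=
      { smul := fun g v => Multiplicative.ofAdd (g • v.toAdd)
        one_smul := fun v => congrArg Multiplicative.ofAdd (one_smul G v.toAdd)
        mul_smul := fun g g' v => congrArg Multiplicative.ofAdd (mul_smul g g' v.toAdd)
        smul_mul := fun g v w => congrArg Multiplicative.ofAdd (smul_add g v.toAdd w.toAdd)
        smul_one := fun g => congrArg Multiplicative.ofAdd (smul_zero g) }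
    have h1 := CL.Grp.pqCyclic_of_fpf_action (A := G) (K := Multiplicative V) fun g hg v hv =>
      by_contra fun h => hg (hsr v.toAdd h g hv)
    exact (CL.Grp.isCyclic_or_nonempty_quaternion_of_unique hG (h1.eq_of_card_eq_prime hG)).imp_right
      fun ⟨_, k, e⟩ => ⟨_, e⟩
  obtain rfl : p = 2 := by_contra fun hp => hsr fun v hv g hg => by_contra fun h1 =>
    hv ((CL.Suz.cyclic_fpf_of_const_stabilizer hp hG hq hE hc).2 g h1 v hg)
  have hq2 : q ≠ 2 := by
    rintro rfl
    obtain ⟨e, he0⟩ := exists_ne (0 : V)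
    have h1 : 2 ∣ Nat.card V := addOrderOf_eq_prime (hE e) he0 ▸ addOrderOf_dvd_natCard e
    obtain ⟨a, ha, ha0⟩ := hG.exists_fixed_point_of_prime_dvd_card_of_fixed_point V h1 (a := 0) fun g => smul_zero g
    refine hsr fun _ _ g _ => eq_of_smul_eq_smul (α := V) fun v => ?_
    by_cases hv : v = 0
    · rw [hv, smul_zero, smul_zero]
    have h2 : MulAction.stabilizer G v = ⊤ := Subgroup.eq_top_of_card_eq _ (by
      rw [hc v a hv ha0.symm, (Subgroup.eq_top_iff' (MulAction.stabilizer G a)).2 fun x => ha x, Subgroup.card_top])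
    rw [one_smul]
    exact (h2 ▸ Subgroup.mem_top g : g ∈ MulAction.stabilizer G v)
  have h : CL.HalfT.HT G V := ⟨hG, hc, fun v hv => by
    have h1 := Nat.dvd_gcd (addOrderOf_dvd_of_nsmul_eq_zero ((two_nsmul v).trans hv))
      (addOrderOf_dvd_of_nsmul_eq_zero (hE v))
    rwa [(Nat.coprime_primes Nat.prime_two hq).2 hq2.symm, Nat.dvd_one, AddMonoid.addOrderOf_eq_one_iff] at h1, by
    push Not at hsr
    obtain ⟨v, hv, g, h1, h2⟩ := hsr
    exact ⟨v, hv, g, h2, h1⟩⟩
  have hV : ∀ c, c ∣ Nat.card V → c * c = Nat.card V → ∃ k, 1 ≤ k ∧ c = q ^ k := fun c h1 h2 => by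
    haveI : Module.Finite (ZMod q) V := Module.Finite.of_finite
    have h3 := Module.natCard_eq_pow_finrank (K := ZMod q) (V := V)
    rw [Nat.card_zmod] at h3
    obtain ⟨k, -, rfl⟩ := (Nat.dvd_prime_pow hq).1 (h3 ▸ h1)
    refine ⟨k, Nat.pos_of_ne_zero fun e => ?_, rfl⟩
    have := Finite.one_lt_card (α := V)
    rw [e, pow_zero] at h2
    omega
  by_cases hR : ∀ E : Subgroup G, E.Normal → IsElementaryAbelian 2 E → Nat.card E ≠ 2 ^ 2
  · rcases CL.Grp.isCyclic_or_dqsGen_of_forall_normal hG hR with h1 | ⟨-, n, a, b, d⟩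
    · exact absurd (fun t _ g => (IsCyclic.isMulCommutative (α := G)).1.1 g t) h.not_all_central
    have k : ∀ {K : Subgroup G} {m : ℕ}, K ≤ Subgroup.zpowers a →
        (∀ k ∈ Subgroup.zpowers a, k * b * (k * b) = 1 ↔ k ∈ K) → Nat.card K = 2 ^ m →
        Nat.card V = q ^ 2 ∧ q = 2 ^ m - 1 := fun {K m} h1 h2 h3 => by
      obtain ⟨c, c1, c2, c3⟩ := h.dqs d h1 h2
      obtain ⟨k, hk, rfl⟩ := hV c c1 c2
      rw [h3] at c3
      have hm : 1 ≤ m := Nat.pos_of_ne_zero fun e => by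
        have := Nat.pow_pos (n := k) hq.pos
        rw [e] at c3
        omega
      rcases Cfsg.Agent.S3784.result 2 q m k Nat.prime_two hq hm hk c3.symm with
        ⟨-, rfl, -, e⟩ | ⟨e, -⟩ | ⟨e, -⟩
      · exact ⟨by rw [← c2, pow_one, pow_two], by omega⟩
      · exact absurd e hq2
      · have : 2 ∣ 9 := e ▸ dvd_pow_self 2 (by omega)
        omega
    have k1 : ∀ {r : ℤ}, b * a * b⁻¹ = a ^ r → ∀ i : ℤ, a ^ i * b * (a ^ i * b) = a ^ (i * (r + 1)) * b ^ 2 :=
      fun {r} hr i => by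
        calc _ = a ^ i * (b * a * b⁻¹) ^ i * b ^ 2 := by rw [conj_zpow, pow_two]; group
          _ = _ := by rw [hr]; group
    rcases d.rel with ⟨h4, h5⟩ | ⟨h4, h5⟩ | ⟨h6, h4, h5⟩
    · obtain ⟨e1, e2⟩ := k (m := n) le_rfl (by
        rintro _ ⟨i, rfl⟩
        refine iff_of_true ?_ ⟨i, rfl⟩
        simpa [h4] using k1 (r := -1) (by simpa using h5) i) (by rw [Nat.card_zpowers, d.ord])
      exact Or.inr (Or.inl ⟨e1, n, e2, Or.inl (d.nonempty_dihedral h4 h5)⟩)
    · refine absurd (fun t tt g => ?_) h.not_all_central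
      obtain ⟨i, rfl | rfl⟩ := d.elt t
      · have n2 := d.two_le
        exact Subgroup.mem_center_iff.1 (d.center_eq ▸ CL.Grp.mem_zpowers_pow_of_pow_eq_one (m := n - 1) two_ne_zero
          (by rw [d.ord]; congr 1; omega) ⟨i, rfl⟩ (by rw [pow_two, tt])) g
      · have z1 : a ^ 2 ^ (n - 1) ≠ 1 := fun e => by simpa [e] using d.orderOf_z
        rw [k1 (r := -1) (by simpa using h5), h4] at tt
        exact absurd (by simpa using tt) z1
    · obtain ⟨e1, e2⟩ := k (K := Subgroup.zpowers (a ^ 2 ^ 1)) (m := n - 1)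
        (Subgroup.zpowers_le.2 (Subgroup.pow_mem _ (Subgroup.mem_zpowers a) _)) (by
          rintro _ ⟨i, rfl⟩
          have h7 : ((2 ^ (n - 1) - 1 : ℕ) : ℤ) + 1 = 2 ^ (n - 1) := by
            rw [Nat.cast_sub Nat.one_le_two_pow]; simp
          have h8 : (2 : ℤ) ^ n = 2 * 2 ^ (n - 1) := by rw [← pow_succ']; congr 1; omega
          show a ^ i * b * (a ^ i * b) = 1 ↔ a ^ i ∈ _
          rw [k1 (h5.trans (zpow_natCast a _).symm), h4, mul_one, h7, CL.Grp.zpow_eq_one_iff_of_orderOf d.ord]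
          push_cast
          rw [h8, mul_dvd_mul_iff_right (by positivity)]
          constructor
          · rintro ⟨j, rfl⟩
            exact ⟨j, by simp only [zpow_mul, zpow_two, pow_two]⟩
          · rintro ⟨j, hj⟩
            have h9 : a ^ (2 * j) = a ^ i := by rw [← hj]; simp only [zpow_mul, zpow_two, pow_one, pow_two]
            have := (CL.Grp.zpow_eq_zpow_iff_of_orderOf d.ord _ _).1 h9
            push_cast at this
            rw [h8] at this
            have h10 := dvd_of_mul_right_dvd this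
            omega)
        (by rw [Nat.card_zpowers, d.orderOf_pow_two_pow (by omega)])
      exact Or.inr (Or.inl ⟨e1, n - 1, e2, Or.inr ⟨d.isQuasiDihedral h6 h4 h5, by
        rw [d.card]; congr 1; omega⟩⟩)
  push Not at hR
  obtain ⟨R, hRn, hR, hRc⟩ := hR
  haveI := hG.isNilpotent
  have hR1 : R ≠ ⊥ := fun h => by
    rw [h, Subgroup.card_bot] at hRc
    omega
  obtain ⟨⟨z, hzR, hzc⟩, hz1⟩ := Subgroup.ne_bot_iff_exists_ne_one.1 (CL.Grp.inf_center_ne_bot hR1)
  have z1 : z ≠ 1 := fun e => hz1 (Subtype.ext e)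
  have sq : ∀ x ∈ R, x * x = 1 := fun x hx => by rw [← pow_two, hR.2 x hx]
  have hz := h.central z1 (sq z hzR) fun g => Subgroup.mem_center_iff.1 hzc g
  have five : ∀ {a x}, a ∈ R → x ∈ R → a ≠ 1 → a ≠ z → x = 1 ∨ x = z ∨ x = a ∨ x = z * a := fun {a x} ha hx a1 az => by
    by_contra! hne
    have h3 := Set.ncard_le_ncard (s := ([1, z, a, z * a, x].toFinset : Set G)) (t := R) (fun y hy => by
      simp only [List.coe_toFinset, List.mem_cons, List.not_mem_nil, or_false, Set.mem_setOf_eq] at hy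
      rcases hy with rfl | rfl | rfl | rfl | rfl
      exacts [R.one_mem, hzR, ha, R.mul_mem hzR ha, hx]) (Set.toFinite _)
    have h4 : 1 ≠ z * a := fun e => az (by rw [← one_mul a, ← sq z hzR, mul_assoc, ← e, mul_one])
    rw [Set.ncard_coe_finset, List.toFinset_card_of_nodup (by
      simp [a1, a1.symm, z1, z1.symm, az.symm, h4, hne.1.symm, hne.2.1.symm, hne.2.2.1.symm, hne.2.2.2.symm]),
      ← Nat.card_coe_set_eq, SetLike.coe_sort_coe, hRc] at h3
    simp at h3
  obtain ⟨a, ha, a1, az⟩ : ∃ a ∈ R, a ≠ 1 ∧ a ≠ z := by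
    by_contra! h1
    have h2 := (Set.ncard_le_ncard (s := (R : Set G)) (t := {1, z}) (fun x hx => or_iff_not_imp_left.2 (h1 x hx))
      (Set.toFinite _)).trans (Set.ncard_insert_le _ _)
    rw [Set.ncard_singleton, ← Nat.card_coe_set_eq, SetLike.coe_sort_coe, hRc] at h2
    omega
  have hca : ∀ g, Commute g a ∨ g * a * g⁻¹ = z * a := fun g => by
    rcases five ha (hRn.conj_mem a ha g) a1 az with e | e | e | e
    · exact absurd (by simpa using e) a1
    · refine absurd ?_ az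
      rw [mul_inv_eq_iff_eq_mul, ← Subgroup.mem_center_iff.1 hzc g] at e
      exact mul_left_cancel e
    · exact Or.inl (mul_inv_eq_iff_eq_mul.1 e)
    · exact Or.inr e
  obtain ⟨x, nx⟩ : ∃ x, ¬ Commute x a := by
    by_contra! h1
    exact az (eq_of_smul_eq_smul (α := V) fun v => (h.central a1 (sq a ha) h1 v).trans (hz v).symm)
  have c2 := h.card_Fx (sq a ha) hz ((hca x).resolve_left nx)
  obtain ⟨k, hk, c3⟩ := hV _ (AddSubgroup.card_addSubgroup_dvd_card _) c2
  haveI : Nontrivial (CL.HalfT.Fx V a) := Finite.one_lt_card_iff_nontrivial.1 (c3 ▸ Nat.one_lt_pow (by omega) hq.one_lt)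
  obtain ⟨⟨u, hu⟩, u0⟩ := exists_ne (0 : CL.HalfT.Fx V a)
  have u0' : u ≠ 0 := fun e => u0 (Subtype.ext e)
  obtain ⟨m, hm⟩ := h.card_imp hz hca nx hu u0'
  rw [c3] at hm c2
  have m1 : 1 ≤ m := Nat.pos_of_ne_zero fun e => hq2 ((Nat.prime_dvd_prime_iff_eq hq Nat.prime_two).1 (by
    rw [e] at hm
    exact (show q ^ k = 2 from hm) ▸ dvd_pow_self q (by omega)))
  rcases Cfsg.Agent.S3784.result q 2 k m hq Nat.prime_two hk m1 hm with ⟨e, -⟩ | ⟨-, rfl, -, e⟩ | ⟨e, -⟩
  · exact absurd e hq2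
  · have hV2 : Nat.card V = q ^ 2 := by rw [← c2, pow_one, pow_two]
    obtain ⟨ε, hε⟩ := h.dim_two (F := ZMod q) a1 hz hca hu (w := x • u)
      (by rw [CL.HalfT.HT.swap hz hca nx, show a • u = u from hu]) u0'
      (fun e => u0' ((smul_eq_zero_iff_eq _).1 e)) (by rwa [Nat.card_zmod])
    refine Or.inr (Or.inr (Or.inl ⟨hV2, ⟨m, e⟩, ε, fun f => Iff.trans ?_ (hε f)⟩))
    exact exists_congr fun g => ⟨fun e v => by rw [e]; rfl, fun e => LinearEquiv.ext e⟩
  · refine Or.inr (Or.inr (Or.inr ⟨by rw [← c2, e], ?_, rfl⟩))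
    have : q ∣ 3 ^ 2 := (show q ^ k = 3 ^ 2 from e) ▸ dvd_pow_self q (by omega)
    exact (Nat.prime_dvd_prime_iff_eq hq Nat.prime_three).1 (hq.dvd_of_dvd_pow this)

end Cfsg.Agent.S3371
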