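import Cfsg.Statements.S3376
import Cfsg.Agent.Odd.BG4d
import Cfsg.Agent.Known.AltAut
import Cfsg.Agent.Grp.Primitive
import Cfsg.Agent.Grp.Cores

set_option autoImplicit false
open Cfsg

namespace Cfsg.Agent.S3376

open Equiv.Perm in
theorem cyc_eq {σ : Equiv.Perm (Fin 9)} (h3 : σ ^ 3 = 1) (h : ∀ i, σ i ≠ i) : σ.cycleType = Multiset.replicate 3 3 := by
  have h1 := cycleType_of_pow_prime_eq_one h3
  have h2 := σ.sum_cycleType
  have h4 : σ.support = Finset.univ := Finset.eq_univ_of_forall fun i => mem_support.2 (h i)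
  rw [h4, h1, Multiset.sum_replicate] at h2
  simp only [smul_eq_mul, Finset.card_univ, Fintype.card_fin] at h2
  rw [h1, show σ.cycleType.card = 3 by omega]

/-- Let G be a group of order 162 = 3⁴·2 with Sylow 3-subgroup S and Sylow 2-subgroup T, having an elementary abelian normal subgroup J of order 27, such that Z = Z(S) has order 3, Z centralizes T, and C_S(T) ≠ S. Then G is isomorphic to the centralizer in Sym(9) of a product of three disjoint 3-cycles. -/
theorem result {G : Type*} [Group G] [Finite G] (hG : Nat.card G = 162)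
    (S : Sylow 3 G) (T : Sylow 2 G) (J : Subgroup G) [hJn : J.Normal] (hJcomm : IsMulCommutative J)
    (hJexp : ∀ a ∈ J, a ^ 3 = 1) (hJcard : Nat.card J = 27)
    (Z : Subgroup G) (hZ : Z = (S : Subgroup G) ⊓ Subgroup.centralizer ((S : Subgroup G) : Set G)) (hZcard : Nat.card Z = 3)
    (hZT : Z ≤ Subgroup.centralizer ((T : Subgroup G) : Set G))
    (hST : (S : Subgroup G) ⊓ Subgroup.centralizer ((T : Subgroup G) : Set G) ≠ S) :
    Nonempty (G ≃* Subgroup.centralizer ({Equiv.swap (0 : Fin 9) 1 * Equiv.swap 1 2 * Equiv.swap 3 4 * Equiv.swap 4 5 * Equiv.swap 6 7 * Equiv.swap 7 8} : Set (Equiv.Perm (Fin 9)))) := by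
  classical
  have hS : Nat.card S = 81 := by
    rw [S.card_eq_multiplicity, hG, show 162 = 3 ^ 4 * 2 by norm_num,
      Nat.factorization_mul (by norm_num) (by norm_num), Finsupp.add_apply, Nat.Prime.factorization_pow (by norm_num),
      Nat.factorization_eq_zero_of_not_dvd (by norm_num)]
    simp
  have hT : Nat.card T = 2 := by
    rw [T.card_eq_multiplicity, hG, show 162 = 2 * 81 by norm_num,
      Nat.factorization_mul (by norm_num) (by norm_num), Finsupp.add_apply, Nat.Prime.factorization_self (by norm_num),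
      Nat.factorization_eq_zero_of_not_dvd (by norm_num)]
    simp
  have hSi : (S : Subgroup G).index = 2 := by
    have := (S : Subgroup G).card_mul_index
    rw [hS, hG] at this
    omega
  have hTi : (T : Subgroup G).index = 81 := by
    have := (T : Subgroup G).card_mul_index
    rw [hT, hG] at this
    omega
  have hSn : (S : Subgroup G).Normal := Subgroup.normal_of_index_eq_two hSi
  have hST' : (S : Subgroup G) ⊔ T = ⊤ := by
    rw [← Subgroup.index_eq_one]
    exact Nat.eq_one_of_dvd_coprimes (show Nat.Coprime 2 81 by norm_num)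
      ((Subgroup.index_dvd_of_le le_sup_left).trans hSi.dvd)
      ((Subgroup.index_dvd_of_le le_sup_right).trans hTi.dvd)
  have hZc : Z ≤ Subgroup.center G := by
    rw [← Subgroup.centralizer_eq_top_iff_subset.trans SetLike.coe_subset_coe, eq_top_iff, ← hST', sup_le_iff]
    exact ⟨Subgroup.le_centralizer_iff.1 (hZ ▸ inf_le_right), Subgroup.le_centralizer_iff.1 hZT⟩
  have hZle : ∀ N : Subgroup G, N.Normal → N ≤ S → N ≠ ⊥ → Z ≤ N := by
    intro N hN hNS h1
    obtain ⟨k, hk⟩ := (S.isPGroup'.to_le hNS).exists_card_eq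
    have h2 := CL.Grp.inf_centralizer_ne_bot_of_isPGroup S.isPGroup' (K := N) Subgroup.le_normalizer_of_normal (by
      rw [hk]
      refine dvd_pow_self 3 ?_
      rintro rfl
      exact h1 (Subgroup.card_eq_one.1 hk))
    have h3 : N ⊓ Subgroup.centralizer ((S : Subgroup G) : Set G) ≤ Z := hZ ▸ inf_le_inf_right _ hNS
    have h4 := Subgroup.card_dvd_of_le h3
    rw [hZcard] at h4
    rcases (Nat.dvd_prime Nat.prime_three).1 h4 with h | h
    · exact absurd (Subgroup.card_eq_one.1 h) h2
    · rw [← Subgroup.eq_of_le_of_card_ge h3 (by rw [h, hZcard])]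
      exact inf_le_left
  have hJp : IsPGroup 3 J := IsPGroup.of_card (n := 3) hJcard
  have hZJ : Z ≤ J := hZle J hJn (hJp.le_sylow_of_normal S) (by rintro rfl; simp at hJcard)
  have hZn : Z.Normal := ⟨fun n hn g => by rwa [Subgroup.mem_center_iff.1 (hZc hn) g, mul_inv_cancel_right]⟩
  obtain ⟨W, hWJ, hTW, hZW, hZW'⟩ := CL.Odd.ea_exists_invariant_complement (p := 3) (A := T) ⟨hJcomm, hJexp⟩ hZJ
    Subgroup.le_normalizer_of_normal Subgroup.le_normalizer_of_normal (by rw [hT]; norm_num)
  have hW : Nat.card W = 9 := by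
    have := CL.Grp.card_sup_mul_card_inf_of_normal W Z
    rw [sup_comm, hZW', inf_comm, hZW, hJcard, hZcard, Subgroup.card_bot] at this
    omega
  set H : Subgroup G := T ⊔ W with hH
  have hHc : Nat.card H = 18 := by
    rw [hH, CL.Grp.card_sup_of_inf_eq_bot hTW (Subgroup.disjoint_of_coprime_natCard (by rw [hT, hW]; norm_num)).eq_bot, hT, hW]
  have hHi : H.index = 9 := by
    have := H.card_mul_index
    rw [hHc, hG] at this
    omega
  have hZH : ¬ Z ≤ H := fun h => by
    have := Subgroup.card_dvd_of_le (show J ≤ H from hZW' ▸ sup_le h le_sup_right)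
    rw [hJcard, hHc] at this
    omega
  have hcore : H.normalCore = ⊥ := by
    have h1 : H.normalCore ⊓ S = ⊥ := by
      by_contra h
      exact hZH ((hZle _ inferInstance inf_le_right h).trans (inf_le_left.trans H.normalCore_le))
    by_contra h2
    have h3 := CL.Grp.card_sup_mul_card_inf_of_normal H.normalCore (S : Subgroup G)
    rw [h1, Subgroup.card_bot, hS] at h3
    have h4 : Nat.card (H.normalCore ⊔ S : Subgroup G) ≤ 162 := hG ▸ Subgroup.card_le_card_group _
    have h5 : Nat.card H.normalCore ≠ 1 := fun h => h2 (Subgroup.card_eq_one.1 h)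
    have h6 : 0 < Nat.card H.normalCore := Nat.card_pos
    have h7 : Nat.card H.normalCore = 2 := by omega
    have h8 : H.normalCore = T := Subgroup.eq_of_le_of_card_ge
      ((IsPGroup.of_card (n := 1) h7).le_sylow_of_normal T) (by rw [h7, hT])
    refine hST (inf_eq_left.2 ?_)
    rw [← h8, ← Subgroup.commutator_eq_bot_iff_le_centralizer, eq_bot_iff, ← h1, inf_comm]
    exact Subgroup.commutator_le_inf _ _
  obtain ⟨z, hz, hz1⟩ : ∃ z ∈ Z, z ∉ H := by
    by_contra h
    push Not at h
    exact hZH h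
  let e : G ⧸ H ≃ Fin 9 := Finite.equivFinOfCardEq hHi
  let ψ : G →* Equiv.Perm (Fin 9) := (Equiv.permCongrHom e).toMonoidHom.comp (MulAction.toPermHom G (G ⧸ H))
  have hψ : Function.Injective ψ := (Equiv.permCongrHom e).injective.comp
    ((MonoidHom.ker_eq_bot_iff _).1 (H.normalCore_eq_ker ▸ hcore))
  have h1 : (ψ z).cycleType = Multiset.replicate 3 3 := by
    refine cyc_eq (by rw [← map_pow, hJexp z (hZJ hz), map_one]) fun i hi => hz1 ?_
    obtain ⟨x, rfl⟩ := e.surjective i
    obtain ⟨g, rfl⟩ := QuotientGroup.mk_surjective x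
    have h2 : ((z * g : G) : G ⧸ H) = g := e.injective (by simpa [ψ] using hi)
    rw [eq_comm, QuotientGroup.eq, ← Subgroup.mem_center_iff.1 (hZc hz) g, inv_mul_cancel_left] at h2
    exact h2
  set τ : Equiv.Perm (Fin 9) := Equiv.swap (0 : Fin 9) 1 * Equiv.swap 1 2 * Equiv.swap 3 4 * Equiv.swap 4 5 *
    Equiv.swap 6 7 * Equiv.swap 7 8 with hτ
  have h2 : τ.cycleType = Multiset.replicate 3 3 := cyc_eq (by rw [hτ]; decide) (by rw [hτ]; decide)
  obtain ⟨c, hc⟩ := isConj_iff.1 (Equiv.Perm.isConj_of_cycleType_eq (h1.trans h2.symm))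
  let χ : G →* Subgroup.centralizer ({τ} : Set (Equiv.Perm (Fin 9))) :=
    ((MulAut.conj c).toMonoidHom.comp ψ).codRestrict _ fun g => by
      rw [Subgroup.mem_centralizer_singleton_iff, ← hc]
      change MulAut.conj c (ψ g) * MulAut.conj c (ψ z) = MulAut.conj c (ψ z) * MulAut.conj c (ψ g)
      rw [← map_mul, ← map_mul, ← map_mul, ← map_mul, Subgroup.mem_center_iff.1 (hZc hz) g]
  refine ⟨MulEquiv.ofBijective χ ((Nat.bijective_iff_injective_and_card _).2 ⟨fun a b h => ?_, ?_⟩)⟩
  · exact hψ ((MulAut.conj c).injective (congrArg Subtype.val h))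
  · rw [hG, CL.Known.card_centralizer_of_replicate (by norm_num) h2]
    simp [Nat.factorial]

end Cfsg.Agent.S3376
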