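import Cfsg.Statements.S3389
import Cfsg.Agent.Perm.Derange2
import Cfsg.Agent.Perm.Suborbit

set_option autoImplicit false
open Cfsg

namespace Cfsg.Agent.S3389

/-- Let G be a finite group acting faithfully and transitively on a finite set Ω with fixity k ≥ 1: every non-identity element fixes at most k points and some non-identity element fixes exactly k points. Then |Z(G)| divides k; if k = 2 then |G| is even; and for every prime p > k dividing |G| and every point α, either p does not divide |G_α| or G_α contains a Sylow p-subgroup of G. -/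
theorem result {G : Type*} [Group G] [Finite G] {Ω : Type*} [Fintype Ω] [MulAction G Ω] [FaithfulSMul G Ω]
    (htr : MulAction.IsPretransitive G Ω) (k : ℕ) (hk : 1 ≤ k)
    (hfix : ∀ g : G, g ≠ 1 → Nat.card (MulAction.fixedBy Ω g) ≤ k) (hex : ∃ g : G, g ≠ 1 ∧ Nat.card (MulAction.fixedBy Ω g) = k) :
    Nat.card (Subgroup.center G) ∣ k ∧ (k = 2 → 2 ∣ Nat.card G) ∧
      ∀ (p : ℕ), p.Prime → k < p → p ∣ Nat.card G → ∀ α : Ω,
        ¬ p ∣ Nat.card (MulAction.stabilizer G α) ∨ ¬ p ∣ (MulAction.stabilizer G α).index := by
  classical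
  obtain ⟨g, hg1, hgk⟩ := hex
  refine ⟨?_, fun hk2 => ?_, fun p hp hkp _ α => ?_⟩
  · have := CL.Perm.index_dvd_ncard_of_stab_le (H := Subgroup.center G) ⊥ (MulAction.fixedBy Ω g)
      (Set.toFinite _) (fun z y hy => by
        change g • (z : G) • y = (z : G) • y
        rw [← mul_smul, Subgroup.mem_center_iff.mp z.2 g, mul_smul, hy]) (fun y _ z hz => by
        rw [Subgroup.mem_bot]
        apply Subtype.ext
        refine (faithfulSMul_iff (G := G) (α := Ω)).mp inferInstance _ fun b => ?_
        obtain ⟨x, rfl⟩ := MulAction.exists_smul_eq G y b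
        rw [← mul_smul, ← Subgroup.mem_center_iff.mp z.2 x, mul_smul]
        exact congrArg _ hz)
    rwa [Subgroup.index_bot, ← Nat.card_coe_set_eq, hgk] at this
  · subst hk2
    have := Fintype.ofFinite G
    obtain ⟨⟨a, ha⟩, ⟨b, hb⟩, hab, -⟩ := Nat.card_eq_two_iff.mp hgk
    have hab' : a ≠ b := fun h => hab (Subtype.ext h)
    obtain ⟨x, rfl⟩ := MulAction.exists_smul_eq G a b
    set H := MulAction.stabilizer G a with hH
    have hxa : x⁻¹ • a ≠ a := fun h => hab' (by rw [inv_smul_eq_iff] at h; exact h)
    have hmem : x⁻¹ • a ∈ MulAction.orbit H (x • a) := by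
      by_contra hc
      have n1 : Nonempty (MulAction.orbit H (x • a)) := ⟨⟨_, MulAction.mem_orbit_self _⟩⟩
      have n2 : Nonempty (MulAction.orbit H (x⁻¹ • a)) := ⟨⟨_, MulAction.mem_orbit_self _⟩⟩
      have s1 := CL.Perm.sum_card_fixedBy_of_transitive (G := H) (α := MulAction.orbit H (x • a))
      have s2 := CL.Perm.sum_card_fixedBy_of_transitive (G := H) (α := MulAction.orbit H (x⁻¹ • a))
      have hhalf : ∀ (y : Ω) (h : G), h ≠ 1 → h • a = a → h • y = y →
          2 * Nat.card (MulAction.orbit H y) ≤ Nat.card H := by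
        intro y h h1 h2 h3
        rw [Nat.card_coe_set_eq, ← MulAction.index_stabilizer,
          ← (MulAction.stabilizer H y).card_mul_index]
        refine Nat.mul_le_mul_right _ (Finite.one_lt_card_iff_nontrivial.mpr ?_)
        exact ⟨⟨⟨⟨h, h2⟩, h3⟩, 1, fun e => h1 (congrArg (fun z : MulAction.stabilizer H y =>
          ((z : H) : G)) e)⟩⟩
      have t1 := hhalf (x • a) g hg1 ha hb
      have t2 := hhalf (x⁻¹ • a) (x⁻¹ * g * x) (fun e => hg1 (by
          calc g = x * (x⁻¹ * g * x) * x⁻¹ := by group
            _ = 1 := by rw [e]; group))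
        (by rw [mul_smul, mul_smul, hb, inv_smul_smul])
        (by rw [mul_smul, mul_smul, smul_inv_smul, ha])
      have hterm : ∀ h ∈ (Finset.univ : Finset H).erase 1,
          Nat.card (MulAction.fixedBy (MulAction.orbit H (x • a)) h) +
          Nat.card (MulAction.fixedBy (MulAction.orbit H (x⁻¹ • a)) h) ≤ 1 := by
        intro h hh
        have h1 : (h : G) ≠ 1 := fun e => (Finset.mem_erase.mp hh).1 (Subtype.ext e)
        have hne : ∀ y : Ω, y ≠ a → ∀ z ∈ MulAction.orbit H y, z ≠ a := by
          rintro y hy _ ⟨s, rfl⟩ e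
          exact hy (smul_left_cancel (s : G) (e.trans s.2.symm))
        let f : Option (MulAction.fixedBy (MulAction.orbit H (x • a)) h ⊕
            MulAction.fixedBy (MulAction.orbit H (x⁻¹ • a)) h) → MulAction.fixedBy Ω (h : G) :=
          fun o => match o with
            | none => ⟨a, h.2⟩
            | some (Sum.inl y) => ⟨y.1.1, congrArg Subtype.val y.2⟩
            | some (Sum.inr y) => ⟨y.1.1, congrArg Subtype.val y.2⟩
        have hdis : ∀ z, z ∈ MulAction.orbit H (x • a) → z ∈ MulAction.orbit H (x⁻¹ • a) → False := by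
          intro z h1 h2
          apply hc
          rw [← MulAction.orbit_eq_iff.mpr h1, MulAction.orbit_eq_iff.mpr h2]
          exact MulAction.mem_orbit_self _
        have hf : Function.Injective f := by
          rintro (_ | y | y) (_ | z | z) e <;> have e' := congrArg Subtype.val e
          · rfl
          · exact absurd e'.symm (hne _ hab'.symm _ z.1.2)
          · exact absurd e'.symm (hne _ hxa _ z.1.2)
          · exact absurd e' (hne _ hab'.symm _ y.1.2)
          · rw [show y = z from Subtype.ext (Subtype.ext e')]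
          · exact (hdis _ y.1.2 (by rw [show y.1.1 = z.1.1 from e']; exact z.1.2)).elim
          · exact absurd e' (hne _ hxa _ y.1.2)
          · exact (hdis _ z.1.2 (by rw [← show y.1.1 = z.1.1 from e']; exact y.1.2)).elim
          · rw [show y = z from Subtype.ext (Subtype.ext e')]
        have h2 := (Nat.card_le_card_of_injective f hf).trans (hfix h h1)
        rw [Finite.card_option, Nat.card_sum] at h2
        omega
      have h3 := Finset.sum_le_sum hterm
      rw [Finset.sum_add_distrib, Finset.sum_const, Finset.card_erase_of_mem (Finset.mem_univ _),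
        Finset.card_univ, ← Nat.card_eq_fintype_card, smul_eq_mul, mul_one] at h3
      rw [← Finset.add_sum_erase _ _ (Finset.mem_univ 1), MulAction.fixedBy_one_eq_univ,
        Nat.card_univ] at s1 s2
      have : 0 < Nat.card H := Nat.card_pos
      omega
    obtain ⟨h, hh⟩ := hmem
    have e1 : (x * h) • a = x • a := by rw [mul_smul, h.2]
    have e2 : (x * h) • x • a = a := by
      rw [mul_smul]
      exact (congrArg (x • ·) hh).trans (smul_inv_smul x a)
    by_contra hodd
    have hper : Function.IsPeriodicPt ((x * h) • · : Ω → Ω) 2 a := by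
      change (x * h) • (x * h) • a = a
      rw [e1, e2]
    have hper' : Function.IsPeriodicPt ((x * h) • · : Ω → Ω) (Nat.card G) a := by
      rw [Function.IsPeriodicPt, Function.IsFixedPt, smul_iterate_apply, pow_card_eq_one', one_smul]
    have h1 := hper.gcd hper'
    rw [((Nat.Prime.coprime_iff_not_dvd Nat.prime_two).mpr hodd).gcd_eq_one, Function.IsPeriodicPt,
      Function.iterate_one] at h1
    exact hab' (h1.symm.trans e1)
  · by_contra hc
    rw [not_or, not_not, not_not] at hc
    have : Fact p.Prime := ⟨hp⟩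
    obtain ⟨x, hx⟩ := exists_prime_orderOf_dvd_card' p hc.1
    have hxo : orderOf (x : G) = p := by rw [Subgroup.orderOf_coe, hx]
    have hx1 : (x : G) ≠ 1 := fun e => by
      rw [e, orderOf_one] at hxo
      exact hp.one_lt.ne hxo
    have hP : IsPGroup p (Subgroup.zpowers (x : G)) :=
      IsPGroup.of_card (n := 1) (by rw [Nat.card_zpowers, hxo, pow_one])
    obtain ⟨S, hS⟩ := hP.exists_le_sylow
    have hxS : (x : G) ∈ S := hS (Subgroup.mem_zpowers _)
    set O := MulAction.orbit (S : Subgroup G) α with hO
    have h1 : p ∣ (O \ MulAction.fixedBy Ω (x : G)).ncard := by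
      have := CL.Perm.index_dvd_ncard_of_stab_le (H := Subgroup.zpowers (x : G)) ⊥
        (O \ MulAction.fixedBy Ω (x : G)) (Set.toFinite _) (by
          rintro z _ ⟨⟨s, rfl⟩, hy⟩
          refine ⟨⟨⟨z, hS z.2⟩ * s, mul_smul _ _ _⟩, fun h => hy ?_⟩
          obtain ⟨z, j, rfl⟩ := z
          have h' : (x : G) • (x : G) ^ j • (s : G) • α = (x : G) ^ j • (s : G) • α := h
          rw [← mul_smul, ← (Commute.self_zpow (x : G) j).symm.eq, mul_smul,
            smul_left_cancel_iff] at h'
          exact h') (by
          intro y hy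
          have : Fact (Nat.card (Subgroup.zpowers (x : G))).Prime :=
            ⟨by rw [Nat.card_zpowers, hxo]; exact hp⟩
          rcases (MulAction.stabilizer (Subgroup.zpowers (x : G)) y).eq_bot_or_eq_top_of_prime_card
            with h | h
          · exact h.le
          · have h2 : (⟨x, Subgroup.mem_zpowers _⟩ : Subgroup.zpowers (x : G)) ∈
              MulAction.stabilizer (Subgroup.zpowers (x : G)) y := h ▸ Subgroup.mem_top _
            exact absurd h2 hy.2)
      rwa [Subgroup.index_bot, Nat.card_zpowers, hxo] at this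
    have h2 := Set.ncard_inter_add_ncard_sdiff_eq_ncard O (MulAction.fixedBy Ω (x : G))
    have h3 : (O ∩ MulAction.fixedBy Ω (x : G)).ncard < p := by
      refine lt_of_le_of_lt (Set.ncard_le_ncard Set.inter_subset_right) (lt_of_le_of_lt ?_ hkp)
      rw [← Nat.card_coe_set_eq]
      exact hfix _ hx1
    have h4 : 0 < (O ∩ MulAction.fixedBy Ω (x : G)).ncard :=
      (Set.ncard_pos (Set.toFinite _)).mpr ⟨α, MulAction.mem_orbit_self _, x.2⟩
    have h5 : ¬ p ∣ O.ncard := by
      intro h
      rw [← h2] at h
      exact absurd (Nat.le_of_dvd h4 ((Nat.dvd_add_left h1).mp h)) (not_le.mpr h3)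
    rw [hO, ← MulAction.index_stabilizer] at h5
    obtain ⟨j, hj⟩ := S.isPGroup'.index (MulAction.stabilizer (S : Subgroup G) α)
    have hj0 : j = 0 := by
      by_contra h
      exact h5 (hj ▸ dvd_pow_self p h)
    rw [hj0, pow_zero, Subgroup.index_eq_one] at hj
    have h6 : (S : Subgroup G) ≤ MulAction.stabilizer G α := fun s hs => by
      have : (⟨s, hs⟩ : (S : Subgroup G)) ∈ MulAction.stabilizer (S : Subgroup G) α :=
        hj ▸ Subgroup.mem_top _
      exact this
    exact S.not_dvd_index (hc.2.trans (Subgroup.index_dvd_of_le h6))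

end Cfsg.Agent.S3389
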