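import Cfsg.Statements.S3391
import Cfsg.Agent.Chev.SzAct

set_option autoImplicit false
open Cfsg

namespace Cfsg.Agent.S3391

/-- Let q = 2^{2m+1} ≥ 8 and let G be isomorphic to the Suzuki group Sz(q). If G acts faithfully and transitively on a finite set Ω with fixity 2 (every non-identity element fixes at most two points, and some fixes exactly two), then either |Ω| = q² + 1 and the action is 2-transitive, or |Ω| = q²(q² + 1) and the point stabilizers have order q − 1. -/
theorem result {G : Type*} [Group G] [Finite G] (F : Type) [Field F] [Fintype F] (m : ℕ) (hm : 1 ≤ m) (hF : Fintype.card F = 2 ^ (2 * m + 1))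
    (e : G ≃* ↥(Cfsg.Lie.Sz F (2 ^ (m + 1)))) {Ω : Type*} [Fintype Ω] [MulAction G Ω] [FaithfulSMul G Ω] (htr : MulAction.IsPretransitive G Ω)
    (hfix : ∀ g : G, g ≠ 1 → Nat.card (MulAction.fixedBy Ω g) ≤ 2) (hex : ∃ g : G, g ≠ 1 ∧ Nat.card (MulAction.fixedBy Ω g) = 2) :
    (Fintype.card Ω = Fintype.card F ^ 2 + 1 ∧ MulAction.IsMultiplyPretransitive G Ω 2) ∨
    (Fintype.card Ω = Fintype.card F ^ 2 * (Fintype.card F ^ 2 + 1) ∧ ∀ α : Ω, Nat.card (MulAction.stabilizer G α) = Fintype.card F - 1) := by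
  have M := (CL.Chev.Sz.modelLie hm hF).ofEquiv e
  have hq : Nat.card F = 2 ^ (2 * m + 1) := Nat.card_eq_fintype_card.trans hF
  obtain ⟨g, hg, hg2⟩ := hex
  obtain ⟨⟨α, hα⟩, ⟨β, hβ⟩, hαβ, -⟩ := Nat.card_eq_two_iff.1 hg2
  have h0 : MulAction.stabilizer G α ≠ ⊥ := fun h => hg (Subgroup.mem_bot.1 (h ▸ hα))
  have h1 : MulAction.stabilizer G α ≠ ⊤ := fun h => by
    obtain ⟨k, hk⟩ := MulAction.exists_smul_eq G α β
    have : k ∈ MulAction.stabilizer G α := h ▸ Subgroup.mem_top k
    exact hαβ (Subtype.ext (this.symm.trans hk))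
  have hidx : ∀ γ : Ω, (MulAction.stabilizer G γ).index = Fintype.card Ω := fun γ => by
    rw [MulAction.index_stabilizer_of_transitive, Nat.card_eq_fintype_card]
  rw [← Nat.card_eq_fintype_card (α := F)]
  rcases M.stabilizer_cases hfix hm hq h0 h1 with ⟨k, hk⟩ | h
  · exact Or.inl ⟨by rw [← hidx α, hk, (M.conj k).index_B], (M.conj k).two_pretransitive_of_stabilizer_eq hk⟩
  · have h2 := (MulAction.stabilizer G α).index_mul_card
    have hpos : 0 < Nat.card F - 1 := h ▸ Nat.card_pos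
    rw [h, hidx, M.card_G] at h2
    refine Or.inr ⟨Nat.eq_of_mul_eq_mul_right hpos (by rw [h2]; ring), fun γ => ?_⟩
    have h3 := (MulAction.stabilizer G γ).index_mul_card
    rw [hidx, M.card_G, ← h2] at h3
    exact Nat.eq_of_mul_eq_mul_left (Fintype.card_pos_iff.2 ⟨γ⟩) h3

end Cfsg.Agent.S3391
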