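import Cfsg.Statements.S3399
import Cfsg.Agent.Pro9.ALT1
import Cfsg.Agent.Pro9.ALT3
import Cfsg.Agent.Pro9.BLK
import Cfsg.Agent.Pro9.BO1
import Cfsg.Agent.Pro9.BO2
import Cfsg.Agent.Pro9.BO3
import Cfsg.Agent.Pro9.BOC
import Cfsg.Agent.Pro9.CL1
import Cfsg.Agent.Pro9.CL2
import Cfsg.Agent.Pro9.CNT
import Cfsg.Agent.Pro9.EXT
import Cfsg.Agent.Pro9.FIN4
import Cfsg.Agent.Pro9.Fus
import Cfsg.Agent.Pro9.HS
import Cfsg.Agent.Pro9.IMP
import Cfsg.Agent.Pro9.INa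
import Cfsg.Agent.Pro9.INb
import Cfsg.Agent.Pro9.MAN
import Cfsg.Agent.Pro9.MO1
import Cfsg.Agent.Pro9.MO2
import Cfsg.Agent.Pro9.MO3
import Cfsg.Agent.Pro9.Main
import Cfsg.Agent.Pro9.P3
import Cfsg.Agent.Pro9.PAIR
import Cfsg.Agent.Pro9.PTH
import Cfsg.Agent.Pro9.RBF
import Cfsg.Agent.Pro9.RED
import Cfsg.Agent.Pro9.RK1
import Cfsg.Agent.Pro9.RK2
import Cfsg.Agent.Pro9.RK3
import Cfsg.Agent.Pro9.S2
import Cfsg.Agent.Pro9.S2a
import Cfsg.Agent.Pro9.S2b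
import Cfsg.Agent.Pro9.SUB
import Cfsg.Agent.Pro9.SYM
import Cfsg.Agent.Pro9.TOP
import Cfsg.Agent.Pro9.TP
import Cfsg.Agent.Pro9.TT
import Cfsg.Agent.Pro9.TWO

set_option autoImplicit false
open Cfsg CL.Pro9

namespace Cfsg.Agent.S3399

/-- Let G be a transitive permutation group of finite degree n and K a nontrivial subgroup of G that is pronormal in G (K and gKg⁻¹ are conjugate inside ⟨K, gKg⁻¹⟩ for every g ∈ G). If K fixes exactly f points, then f ≤ (n − 1)/2, that is, 2f + 1 ≤ n. -/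
theorem result (n : ℕ) (G : Subgroup (Equiv.Perm (Fin n)))
    (htrans : ∀ a b : Fin n, ∃ g ∈ G, g a = b)
    (K : Subgroup (Equiv.Perm (Fin n))) (hKG : K ≤ G) (hK : K ≠ ⊥)
    (hpro : ∀ g ∈ G, ∃ w ∈ K ⊔ K.map (MulAut.conj g).toMonoidHom,
      K.map (MulAut.conj w).toMonoidHom = K.map (MulAut.conj g).toMonoidHom) :
    2 * Nat.card {a : Fin n // ∀ k ∈ K, k a = a} + 1 ≤ n := by
  have hblk := blk fus
  have himp := imp hblk
  have hsub := sub fus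
  have hext := ext himp hsub dfc hs
  have halt := alt1 stb
  have hno := fun (G Ω : Type) [Group G] [Fintype G] [Finite Ω] [MulAction G Ω] [FaithfulSMul G Ω] (K : Subgroup G)
      (f : ℕ) (h : CX Ω K f) =>
    noCX (cl1 hblk) (cl2 stb) cl3 (p3 himp hext (two sym)) (rk1 hsub dfc hext man) (rk2 sym) (rk3 fun_)
      (rbf fun_ pth (mu pth)) (alt2 halt) (alt3 halt) cnt (boc supb (bo1 pair) (bo2 pair) (bo3 pair) nb)
      (s2 fun_ (s2a fun_ fuw) s2b) (tp supb) (tt stb) (fin4 (mo2 ina) (mo3 (mo1 inb)) nm) K f h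
  exact final (ih_all red (top stb himp hsub dfc hext) hno) n G htrans K hKG hK hpro

end Cfsg.Agent.S3399
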