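import Cfsg.Statements.S3410
import Cfsg.Agent.Perm.PGMain
import Cfsg.Agent.Loc.Bal2

set_option autoImplicit false
open Cfsg

namespace Cfsg.Agent.S3410

/-- Let a finite group G act faithfully and 2-transitively on a finite set X, and let N be an abelian normal subgroup of the stabilizer of a point x which is not semiregular on the remaining points (some non-identity element of N fixes a second point). Then the generalized Fitting subgroup of G is isomorphic to PSL_n(F) for some n ≥ 3 and some finite field F. -/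
theorem result {G X : Type*} [Group G] [Finite G] [Fintype X]
    [MulAction G X] [FaithfulSMul G X] (h2 : MulAction.IsMultiplyPretransitive G X 2) (x : X)
    (N : Subgroup G) (hNle : N ≤ MulAction.stabilizer G x)
    (hNnormal : ∀ g ∈ MulAction.stabilizer G x, ∀ n ∈ N, g * n * g⁻¹ ∈ N) (hNab : IsMulCommutative N)
    (hnsr : ∃ n ∈ N, n ≠ 1 ∧ ∃ y : X, y ≠ x ∧ n • y = y) :
    ∃ (F : Type) (_ : Field F) (_ : Fintype F) (n : ℕ), 3 ≤ n ∧
      Nonempty (↥(Cfsg.generalizedFittingSubgroup G) ≃* Matrix.ProjectiveSpecialLinearGroup (Fin n) F) := by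
  obtain ⟨F, _, _, n, h3, -, L, hL, ⟨e⟩, hC⟩ := CL.Perm.onan_abelian' h2 (N := N) (x := x) hNle hNnormal
    (fun a ha b hb => congrArg Subtype.val (hNab.is_comm.comm ⟨a, ha⟩ ⟨b, hb⟩)) hnsr
  refine ⟨F, inferInstance, inferInstance, n, h3, ?_⟩
  have := CL.SLn.isSimpleGroup_PSL_fin (F := F) n (by omega) (by omega)
  have : IsSimpleGroup L := e.isSimpleGroup
  rw [CL.Loc.fstar_eq_of_cent_eq_bot ⟨hL.isSubnormal, CL.Loc.isQuasisimple_of_isSimpleGroup fun h => ?_⟩ hC]
  · exact ⟨e⟩
  · exact (Subgroup.nontrivial_iff_ne_bot L).1 inferInstance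
      (eq_bot_iff.2 (hC ▸ Subgroup.le_centralizer L))

end Cfsg.Agent.S3410
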