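import Cfsg.Statements.S3413
import Cfsg.Agent.Spor.SelfCent
import Cfsg.Agent.Spor.M11Unique
import Cfsg.Agent.Known.MathieuIso

set_option autoImplicit false
open Cfsg

namespace Cfsg.Agent.S3413

theorem card_ne_one {K : Type*} [Group K] [Finite K] : Nat.card {h : K // h ≠ 1} + 1 = Nat.card K := by
  classical
  have := Fintype.ofFinite K
  rw [Nat.card_eq_fintype_card, Nat.card_eq_fintype_card, Fintype.card_subtype_compl, Fintype.card_subtype_eq]
  have := Fintype.card_pos (α := K)
  omega

theorem card_comm {K : Type*} [Group K] [Finite K] (x : K) :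
    Nat.card {y : {h : K // h ≠ 1} // x * y = y * x} + 1 = Nat.card (Subgroup.centralizer ({x} : Set K)) := by
  rw [← card_ne_one (K := Subgroup.centralizer ({x} : Set K))]
  congr 1
  exact Nat.card_congr
    { toFun := fun y => ⟨⟨y.1.1, Subgroup.mem_centralizer_singleton_iff.mpr y.2.symm⟩,
        fun h => y.1.2 (congrArg Subtype.val h)⟩
      invFun := fun y => ⟨⟨y.1.1, fun h => y.2 (Subtype.ext h)⟩,
        (Subgroup.mem_centralizer_singleton_iff.mp y.1.2).symm⟩
      left_inv := fun _ => rfl
      right_inv := fun _ => rfl }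

/-- Let H be a finite group whose commuting graph (vertices the non-identity elements, two joined when they commute) is isomorphic to that of the Mathieu group M_11: there is a bijection between the non-identity elements of H and of M_11 under which two elements commute exactly when their images do. Then H ≅ M_11. -/
theorem result {H : Type*} [Group H] [Finite H]
    (f : {h : H // h ≠ 1} ≃ {g : ↥Cfsg.Spor.M11 // g ≠ 1})
    (hf : ∀ x y : {h : H // h ≠ 1}, (x : H) * y = y * x ↔ ((f x) : ↥Cfsg.Spor.M11) * (f y) = (f y) * (f x)) :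
    Nonempty (H ≃* ↥Cfsg.Spor.M11) := by
  have := CL.Spor.M11_simple
  have hM := CL.Spor.card_M11
  have hH : Nat.card H = 7920 := by
    rw [← card_ne_one, Nat.card_congr f, card_ne_one, hM]
  obtain ⟨a, -, ha⟩ := CL.Spor.exists_mem_orderOf_prime (⊤ : Subgroup H) (p := 11) (by norm_num)
    (by rw [Subgroup.card_top, hH]; norm_num)
  have ha1 : a ≠ 1 := by rintro rfl; simp at ha
  have h1 : Nat.card (Subgroup.centralizer ({a} : Set H)) =
      Nat.card (Subgroup.centralizer ({(f ⟨a, ha1⟩ : Cfsg.Spor.M11)} : Set Cfsg.Spor.M11)) := by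
    rw [← card_comm, ← card_comm]
    congr 1
    exact Nat.card_congr (f.subtypeEquiv fun y => hf ⟨a, ha1⟩ y)
  have h2 : 11 ∣ Nat.card (Subgroup.centralizer ({a} : Set H)) :=
    ha ▸ CL.Spor.orderOf_dvd_card_of_mem (Subgroup.mem_centralizer_singleton_iff.mpr rfl)
  rw [h1] at h2
  obtain ⟨b, hb, hb11⟩ := CL.Spor.exists_mem_orderOf_prime _ (by norm_num) h2
  have h3 := CL.Spor.orderOf_dvd_card_of_mem (Subgroup.mem_centralizer_singleton_iff.mpr
    (Subgroup.mem_centralizer_singleton_iff.mp hb).symm)
  rw [(CL.Spor.m11_cent11 hM hb11).1] at h3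
  have h4 := ((Nat.dvd_prime (by norm_num)).mp h3).resolve_left
    fun h => (f ⟨a, ha1⟩).2 (orderOf_eq_one_iff.mp h)
  rw [(CL.Spor.m11_cent11 hM h4).1] at h1
  have hs : IsSimpleGroup H := CL.Spor.isSimpleGroup_of_selfcent (p := 11) (e := 5) (m := 720) (by norm_num)
    (by norm_num) hH (by norm_num) (by norm_num) (by decide +kernel) ha h1
    (CL.Spor.card_normalizer_of_selfcent (m := 720) (by norm_num) hH (by norm_num) (by norm_num) ha h1)
  exact CL.Spor.nonempty_mulEquiv_of_isM11 ⟨hs, hH⟩ ⟨this, hM⟩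

end Cfsg.Agent.S3413
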