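import Cfsg.Statements.S3488
import Cfsg.Agent.Perm.SpecASL2
import Cfsg.Agent.Perm.SpecAlt

set_option autoImplicit false
open Cfsg

namespace Cfsg.Agent.S3488

open CL.Perm CL.GL2 in
private def emb (F : Type*) [Field F] :
    Aff (slAct (Fin 2) F) →* Matrix.SpecialLinearGroup (Fin 3) F where
  toFun x := ⟨!![(x.g : M2 F) 0 0, (x.g : M2 F) 0 1, x.v 0; (x.g : M2 F) 1 0, (x.g : M2 F) 1 1, x.v 1; 0, 0, 1],
    by have h := det_SL x.g; rw [Matrix.det_fin_two] at h; simpa [Matrix.det_fin_three] using h⟩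
  map_one' := by
    ext i j
    fin_cases i <;> fin_cases j <;> simp
  map_mul' x y := by
    ext i j
    have h : ∀ k, (x * y).v k = x.v k + ((x.g : M2 F) k 0 * y.v 0 + (x.g : M2 F) k 1 * y.v 1) := by
      intro k
      change x.v k + ((x.g : M2 F).mulVec y.v) k = _
      simp [Matrix.mulVec, dotProduct]
    have h' : ∀ k l, ((x * y).g : M2 F) k l = (x.g : M2 F) k 0 * (y.g : M2 F) 0 l + (x.g : M2 F) k 1 * (y.g : M2 F) 1 l := by
      intro k l
      change ((x.g : M2 F) * (y.g : M2 F)) k l = _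
      simp [Matrix.mul_apply]
    change _ = ((_ : Matrix (Fin 3) (Fin 3) F) * (_ : Matrix (Fin 3) (Fin 3) F)) i j
    simp only [h, h']
    fin_cases i <;> fin_cases j <;> simp [Matrix.mul_apply, Fin.sum_univ_three] <;> ring

open CL.Perm CL.GL2 in
private theorem emb_inj (F : Type*) [Field F] : Function.Injective (emb F) := by
  intro x y h
  have h' : ∀ i j, (emb F x).1 i j = (emb F y).1 i j := fun i j => by rw [h]
  ext i
  · fin_cases i
    · exact h' 0 2
    · exact h' 1 2
  · rename_i j
    fin_cases i <;> fin_cases j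
    exacts [h' 0 0, h' 0 1, h' 1 0, h' 1 1]

open CL.Perm CL.GL2 in
private theorem emb_range (F : Type*) [Field F] : Subgroup.closure {M : Matrix.SpecialLinearGroup (Fin 3) F |
        (M : Matrix (Fin 3) (Fin 3) F) 2 0 = 0 ∧ (M : Matrix (Fin 3) (Fin 3) F) 2 1 = 0 ∧
          (M : Matrix (Fin 3) (Fin 3) F) 2 2 = 1} = (emb F).range := by
  rw [← Subgroup.closure_eq (emb F).range]
  congr 1
  ext M
  constructor
  · rintro ⟨h0, h1, h2⟩
    have hd := M.det_coe
    rw [Matrix.det_fin_three, h0, h1, h2] at hd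
    refine ⟨⟨![M.1 0 2, M.1 1 2], mkSL !![M.1 0 0, M.1 0 1; M.1 1 0, M.1 1 1] (by simpa using hd)⟩, ?_⟩
    ext i j
    fin_cases i <;> fin_cases j <;> first | rfl | exact h0.symm | exact h1.symm | exact h2.symm
  · rintro ⟨x, rfl⟩
    exact ⟨rfl, rfl, rfl⟩

/-- Let F be the field with four elements. The affine group F² ⋊ SL(2,F), realised as the subgroup of SL(3,F) of matrices with last row (0, 0, 1), has exactly the same set of element orders as the alternating group of degree 6 (namely {1, 2, 3, 4, 5}); so the alternating group of degree 6 is not determined by its element orders. -/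
theorem result {F : Type*} [Field F] [Fintype F] (hF : Fintype.card F = 4) :
    Set.range (orderOf : Subgroup.closure {M : Matrix.SpecialLinearGroup (Fin 3) F |
        (M : Matrix (Fin 3) (Fin 3) F) 2 0 = 0 ∧ (M : Matrix (Fin 3) (Fin 3) F) 2 1 = 0 ∧ (M : Matrix (Fin 3) (Fin 3) F) 2 2 = 1} → ℕ) =
      Set.range (orderOf : alternatingGroup (Fin 6) → ℕ) := by
  have : CharP F 2 := charP_of_card_eq_prime_pow (p := 2) (f := 2) hF
  rw [emb_range]
  refine (CL.Perm.spec_congr (MonoidHom.ofInjective (emb_inj F))).symm.trans ?_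
  rw [CL.Perm.spec_ASL2, hF]
  refine Eq.trans ?_ CL.Perm.spec_alt6.symm
  ext k
  exact CL.Perm.dvd_or_iff_mem_list (by decide) (by decide) (by decide) _ (by decide) (by decide) k

end Cfsg.Agent.S3488
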