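import Cfsg.Statements.S3493
import Cfsg.Agent.Perm.PrimExtreme2
import Cfsg.Agent.Perm.PrimExtreme3

set_option autoImplicit false
open Cfsg

namespace Cfsg.Agent.S3493

open MulAction CL.Grp CL.Perm
open scoped Pointwise

/-- Two commuting transitive subgroups, one non-abelian simple, permuted by the point stabiliser. -/
theorem false_of_two {G α : Type*} [Group G] [Finite G] [MulAction G α] [FaithfulSMul G α]
    [IsPreprimitive G α] (hE : IsExtPrim G α) {a : α} (ha : stabilizer G a ≠ ⊥) (S S' : Subgroup G)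
    [IsPretransitive S α] [IsPretransitive S' α] (hc : ∀ s ∈ S, ∀ s' ∈ S', s * s' = s' * s)
    [IsSimpleGroup S] (hS : ¬ IsMulCommutative S)
    (hH : ∀ h : G, h • a = a → (∀ s ∈ S, h * s * h⁻¹ ∈ S) ∨ ∀ s ∈ S, h * s * h⁻¹ ∈ S') : False := by
  have hreg := stabilizer_eq_bot_of_commute S' S (fun m hm n hn => (hc n hn m hm).symm) a
  let e : S ≃ α := Equiv.ofBijective (fun s => s • a) ⟨fun s t hst => by
    have h1 : t⁻¹ * s ∈ stabilizer S a := by
      rw [mem_stabilizer_iff, mul_smul, inv_smul_eq_iff]; exact hst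
    rw [hreg, Subgroup.mem_bot] at h1
    exact (inv_mul_eq_one.1 h1).symm, fun x => exists_smul_eq S a x⟩
  have he : ∀ s : S, e s = (s : G) • a := fun s => rfl
  let _ := e.mulAction (stabilizer G a)
  have hsm : ∀ (h : stabilizer G a) (s : S), ((h • s : S) : G) • a = (h : G) • (s : G) • a :=
    fun h s => e.apply_symm_apply _
  refine AntiMax.false (H := stabilizer G a) ⟨fun h => ?_, fun x => ?_, fun t ht X hX => ?_⟩ hS
  · have hi : (h : G)⁻¹ • a = a := inv_smul_eq_iff.2 h.2.symm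
    rcases hH h h.2 with h1 | h1
    · have h2 : ∀ s : S, h • s = ⟨h * s * (h : G)⁻¹, h1 s s.2⟩ := fun s => e.injective (by
        rw [he, he, hsm, mul_smul, mul_smul, hi])
      exact Or.inl fun x y => Subtype.ext (by simp [h2, mul_assoc])
    · refine Or.inr fun x y => e.injective ?_
      have h2 : (h : G) • (x : G) • a = (h * x * (h : G)⁻¹ : G) • a := by
        rw [mul_smul, mul_smul, hi]
      rw [he, he, hsm, Subgroup.coe_mul, Subgroup.coe_mul, mul_smul, mul_smul, hsm, h2, ← mul_smul,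
        ← mul_smul, ← mul_smul, hc _ (h • y).2 _ (h1 x x.2), mul_smul _ ((h • y : S) : G), hsm]
      simp [mul_smul]
  · obtain ⟨c, hc'⟩ := exists_smul_eq S' a ((x : G)⁻¹ • a)
    change (c : G) • a = _ at hc'
    refine ⟨⟨x * c, by rw [mem_stabilizer_iff, mul_smul, hc', smul_inv_smul]⟩,
      fun t => e.injective ?_⟩
    rw [he, he, hsm, ← mul_smul, mul_assoc, ← hc _ t.2 _ c.2]
    simp [mul_smul, hc']
  · have hb : (t : G) • a ≠ a := fun h => ht (e.injective (h.trans (one_smul G a).symm))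
    have h1 : stabilizer (stabilizer G a) t = stabilizer (stabilizer G a) ((t : G) • a) := by
      ext h
      rw [mem_stabilizer_iff, mem_stabilizer_iff, ← e.injective.eq_iff, he, he, hsm]
      rfl
    rw [h1] at hX ⊢
    exact ((hE.isCoatom_stabilizer hb ha).le_iff.1 hX).symm

theorem isMinNormal_conj {G : Type*} [Group G] {N S : Subgroup G} [N.Normal]
    (h : IsMinNormal (S.subgroupOf N)) (g : G) :
    IsMinNormal ((MulAut.conj g • S).subgroupOf N) := by
  convert h.map_equiv (MulAut.conjNormal g) using 1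
  ext x
  rw [Subgroup.mem_subgroupOf, mem_conj_smul_iff]
  refine Iff.trans ?_ (Subgroup.mem_map_equiv (f := MulAut.conjNormal g)).symm
  rw [Subgroup.mem_subgroupOf]
  simp

theorem commute_of_ne {G : Type*} [Group G] {N S S' : Subgroup G} (hS : S ≤ N) (hS' : S' ≤ N)
    (h : IsMinNormal (S.subgroupOf N)) (h' : IsMinNormal (S'.subgroupOf N)) (hne : S ≠ S') :
    (∀ x ∈ S, ∀ y ∈ S', x * y = y * x) ∧ ∀ x ∈ S, x ∈ S' → x = 1 := by
  have h1 := h.inf_eq_bot_of_ne h' fun e => hne (by
    rw [← Subgroup.map_subgroupOf_eq_of_le hS, e, Subgroup.map_subgroupOf_eq_of_le hS'])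
  refine ⟨fun x hx y hy => congrArg Subtype.val
    (commute_of_normal_of_inf_eq_bot h.normal h'.normal h1 (m := ⟨x, hS hx⟩) (n := ⟨y, hS' hy⟩) hx hy),
    fun x hx hx' => ?_⟩
  have h2 : (⟨x, hS hx⟩ : N) ∈ S.subgroupOf N ⊓ S'.subgroupOf N := ⟨hx, hx'⟩
  rw [h1, Subgroup.mem_bot] at h2
  exact congrArg Subtype.val h2

/-- A non-abelian minimal normal subgroup has no proper minimal normal subgroup. -/
theorem false_of_factor {G α : Type*} [Group G] [Finite G] [Finite α] [Nontrivial α] [MulAction G α]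
    [FaithfulSMul G α] [IsPreprimitive G α] (hE : IsExtPrim G α) {a : α} (ha : stabilizer G a ≠ ⊥)
    {N S : Subgroup G} (hN : IsMinNormal N) (hnc : ¬ IsMulCommutative N) (hSN : S ≤ N)
    (hS : IsMinNormal (S.subgroupOf N)) [IsSimpleGroup S] (hne : S ≠ N) : False := by
  have := hN.normal
  have := isPretransitive_of_normal_of_ne_bot (α := α) hN.ne_bot
  have hS0 : S ≠ ⊥ := fun e => hS.ne_bot (by rw [e, Subgroup.bot_subgroupOf])
  let F : G → Subgroup G := fun g => MulAut.conj g • S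
  have hF1 : F 1 = S := by simp [F]
  have hFN : ∀ g, F g ≤ N := fun g x hx => by
    simpa [mul_assoc] using hN.normal.conj_mem _ (hSN ((mem_conj_smul_iff g x S).1 hx)) g
  have hFn : ∀ g, ∀ n ∈ N, ∀ x ∈ F g, n * x * n⁻¹ ∈ F g := fun g n hn x hx =>
    (isMinNormal_conj hS g).normal.conj_mem ⟨x, hFN g hx⟩ hx ⟨n, hn⟩
  have hFc : ∀ g h, ∀ x ∈ F g, h * x * h⁻¹ ∈ F (h * g) := fun g h x hx => by
    have h1 := conj_mem_conj_smul h hx
    rwa [conj_smul_conj_smul] at h1
  have hdis := fun g g' (h : F g ≠ F g') => commute_of_ne (hFN g) (hFN g')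
    (isMinNormal_conj hS g) (isMinNormal_conj hS g') h
  obtain ⟨h₀, hh₀, hF₀⟩ : ∃ h : G, h • a = a ∧ F 1 ≠ F h := by
    by_contra hcon
    push Not at hcon
    refine hne ((hN.min S ⟨fun s hs g => ?_⟩ hSN).resolve_left hS0)
    obtain ⟨n, hn⟩ := exists_smul_eq N a (g • a)
    have h1 := hFc 1 ((n : G)⁻¹ * g) s (hF1.symm ▸ hs)
    rw [mul_one, ← hcon _ (by rw [mul_smul, ← hn]; exact inv_smul_smul _ _)] at h1
    simpa [mul_assoc, hF1] using hFn 1 n n.2 _ h1
  have hmove : ∀ h : G, ∃ n ∈ F h, n • a ≠ a := by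
    intro h
    by_contra hcon
    push Not at hcon
    refine (isMinNormal_conj hS h).ne_bot (eq_bot_iff.2 fun s hs => Subtype.ext ?_)
    refine FaithfulSMul.eq_of_smul_eq_smul (α := α) fun x => ?_
    obtain ⟨n, rfl⟩ := exists_smul_eq N a x
    have h1 := hcon _ (hFn h _ (inv_mem n.2) s hs)
    rw [inv_inv, mul_smul, mul_smul, inv_smul_eq_iff] at h1
    exact h1.trans (one_smul G _).symm
  obtain ⟨n, hn, hna⟩ := hmove 1
  have hn1 : n ≠ 1 := fun e => hna (by rw [e, one_smul])
  by_cases hD : stabilizer G a ⊓ N = ⊥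
  · have hreg : ∀ x ∈ N, x • a = a → x = 1 := fun x hx h =>
      Subgroup.mem_bot.1 (hD ▸ ⟨h, hx⟩ : x ∈ (⊥ : Subgroup G))
    have hfix : ∀ h : G, h • a = a → h • n • a = n • a → h * n * h⁻¹ = n := fun h hh e =>
      (inv_mul_eq_one.1 (hreg (n⁻¹ * (h * n * h⁻¹))
        (N.mul_mem (N.inv_mem (hFN 1 hn)) (hN.normal.conj_mem n (hFN 1 hn) h)) (by
          rw [mul_smul, mul_smul, mul_smul, inv_smul_eq_iff.2 hh.symm, e, inv_smul_smul]))).symm
    have hX : ∀ h : G, h • a = a → F h = S → h * n * h⁻¹ = n := by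
      rcases hE.eq_or_eq a (n • a) (X := stabilizer G a ⊓ Subgroup.normalizer (S : Set G))
        (fun h hh => Subgroup.mem_inf.2 ⟨hh.1, by
          rw [← conj_smul_eq_self_iff]
          by_contra hne
          have h1 := hFc 1 h n hn
          rw [hfix h hh.1 hh.2, mul_one] at h1
          exact hn1 ((hdis h 1 (hF1.symm ▸ hne)).2 n h1 hn)⟩) inf_le_left with h1 | h1
      · intro h hh e
        exact hfix h hh (h1 ▸ ⟨hh, (conj_smul_eq_self_iff h S).1 e⟩ :
          h ∈ stabilizer G a ⊓ stabilizer G (n • a)).2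
      · have h2 : h₀ ∈ stabilizer G a ⊓ Subgroup.normalizer (S : Set G) := h1.symm ▸ hh₀
        exact absurd (hF1.trans ((conj_smul_eq_self_iff h₀ S).2 h2.2).symm) hF₀
    let L := Subgroup.closure {x | ∃ h : G, h • a = a ∧ x = h * n * h⁻¹}
    have hLN : L ≤ N := (Subgroup.closure_le _).2 (by
      rintro _ ⟨h, -, rfl⟩
      exact hN.normal.conj_mem n (hFN 1 hn) h)
    have hLc : ∀ g : G, g • a = a → ∀ x ∈ L, g * x * g⁻¹ ∈ L := by
      intro g hg x hx
      have h1 : L ≤ L.comap (MulAut.conj g : G →* G) := (Subgroup.closure_le _).2 (by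
        rintro _ ⟨h, hh, rfl⟩
        exact Subgroup.subset_closure ⟨g * h, by rw [mul_smul, hh, hg], by simp [mul_assoc]⟩)
      exact h1 hx
    rcases eq_stabilizer_inf_or_eq N a L hLN (hD ▸ bot_le) (fun g hg => by
      rw [Subgroup.mem_normalizer_iff]
      refine fun l => ⟨hLc g hg l, fun h => ?_⟩
      simpa [mul_assoc] using hLc g⁻¹ (inv_smul_eq_iff.2 hg.symm) _ h) with h1 | h1
    · have h2 : n ∈ L := Subgroup.subset_closure ⟨1, one_smul _ _, by simp⟩
      exact hna (h1 ▸ h2 : n ∈ stabilizer G a ⊓ N).1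
    · refine hnc (h1 ▸ Subgroup.isMulCommutative_closure ?_)
      rintro _ ⟨h, hh, rfl⟩ _ ⟨k, hk, rfl⟩
      by_cases e : F h = F k
      · have h2 := hX (k⁻¹ * h) (by rw [mul_smul, hh, inv_smul_eq_iff, hk]) (by
          change MulAut.conj (k⁻¹ * h) • S = S
          rw [← conj_smul_conj_smul, show MulAut.conj h • S = MulAut.conj k • S from e,
            conj_smul_conj_smul, inv_mul_cancel]
          exact hF1)
        have h3 : h * n * h⁻¹ = k * n * k⁻¹ := by
          conv_rhs => rw [← h2]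
          group
        rw [h3]
      · exact (hdis h k e).1 _ (by simpa using hFc 1 h n hn) _ (by simpa using hFc 1 k n hn)
  · have hDn : ∀ g : G, g • a = a → ∀ k ∈ stabilizer G a ⊓ N, g * k * g⁻¹ ∈ stabilizer G a ⊓ N :=
      fun g hg k hk => Subgroup.mem_inf.2 ⟨mul_mem (mul_mem hg hk.1) (inv_mem hg),
        hN.normal.conj_mem k hk.2 g⟩
    have hkill : ∀ h u : G, u • a = a → (∀ y ∈ F h, u * y = y * u) → u = 1 := by
      intro h u hu huc
      obtain ⟨m, hm, hma⟩ := hmove h
      refine hE.eq_one_of_conj_fix hma hD inf_le_left hDn hu fun d hd => ?_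
      have h1 : d⁻¹ * u * d * m = m * (d⁻¹ * u * d) := by
        calc d⁻¹ * u * d * m = d⁻¹ * (u * (d * m * d⁻¹)) * d := by group
          _ = _ := by rw [huc _ (hFn h d hd.2 m hm)]; group
      rw [← mul_smul, h1, mul_smul, mul_smul, mul_smul, hd.1, hu, inv_smul_eq_iff.2 hd.1.symm]
    obtain ⟨d, hd, hdn⟩ := hE.trans hD inf_le_left hDn (n • a) hh₀
    have hs := hFn 1 d hd.2 n hn
    have hs' : h₀ * n * h₀⁻¹ ∈ F h₀ := by simpa using hFc 1 h₀ n hn
    have hss : (d * n * d⁻¹) • a = (h₀ * n * h₀⁻¹) • a := by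
      rw [mul_smul, mul_smul, mul_smul, mul_smul, inv_smul_eq_iff.2 hd.1.symm,
        inv_smul_eq_iff.2 hh₀.symm, hdn]
    have hsa : (d * n * d⁻¹) • a ≠ a := fun e => hna (by
      rwa [mul_smul, mul_smul, inv_smul_eq_iff.2 hd.1.symm, smul_eq_iff_eq_inv_smul,
        inv_smul_eq_iff.2 hd.1.symm] at e)
    generalize d * n * d⁻¹ = s at hs hss hsa
    generalize h₀ * n * h₀⁻¹ = s' at hs' hss
    have htwo : ∀ h, F h = F 1 ∨ F h = F h₀ := by
      intro h
      by_contra hcon
      push Not at hcon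
      have h1 := hkill h (s⁻¹ * s') (by rw [mul_smul, ← hss, inv_smul_smul]) fun y hy => by
        rw [mul_assoc, ← (hdis _ _ hcon.2).1 y hy s' hs', ← mul_assoc,
          ← (hdis _ _ hcon.1).1 y hy _ (inv_mem hs), mul_assoc]
      rw [inv_mul_eq_one] at h1
      exact hsa (by rw [(hdis _ _ hF₀).2 s hs (h1 ▸ hs'), one_smul])
    let Y : Subgroup G :=
      { carrier := {x | x ∈ N ∧ ∀ h : G, ∃ y ∈ F h, y • a = x • a}
        one_mem' := ⟨N.one_mem, fun h => ⟨1, one_mem _, rfl⟩⟩
        mul_mem' := by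
          rintro x x' ⟨hx, e⟩ ⟨hx', e'⟩
          refine ⟨mul_mem hx hx', fun h => ?_⟩
          obtain ⟨y, hy, e⟩ := e h
          obtain ⟨y', hy', e'⟩ := e' h
          refine ⟨x * y' * x⁻¹ * y, mul_mem (hFn h x hx y' hy') hy, ?_⟩
          rw [mul_smul, e, mul_smul, inv_smul_smul, mul_smul, e', mul_smul]
        inv_mem' := by
          rintro x ⟨hx, e⟩
          refine ⟨inv_mem hx, fun h => ?_⟩
          obtain ⟨y, hy, e⟩ := e h
          refine ⟨x⁻¹ * y⁻¹ * x⁻¹⁻¹, hFn h _ (inv_mem hx) _ (inv_mem hy), ?_⟩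
          rw [inv_inv, mul_smul, mul_smul, ← e, inv_smul_smul] }
    have hYc : ∀ g : G, g • a = a → ∀ x ∈ Y, g * x * g⁻¹ ∈ Y := by
      rintro g hg x ⟨hx, e⟩
      refine ⟨hN.normal.conj_mem x hx g, fun h => ?_⟩
      obtain ⟨y, hy, e⟩ := e (g⁻¹ * h)
      refine ⟨g * y * g⁻¹, by simpa using hFc _ g y hy, ?_⟩
      rw [mul_smul, mul_smul, mul_smul, mul_smul, inv_smul_eq_iff.2 hg.symm, e]
    rcases eq_stabilizer_inf_or_eq N a Y (fun x hx => hx.1)
      (fun x hx => ⟨hx.2, fun h => ⟨1, one_mem _, by rw [one_smul, hx.1]⟩⟩) (fun g hg => by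
      rw [Subgroup.mem_normalizer_iff]
      refine fun l => ⟨hYc g hg l, fun h => ?_⟩
      simpa [mul_assoc] using hYc g⁻¹ (inv_smul_eq_iff.2 hg.symm) _ h) with h1 | h1
    · have h2 : s ∈ Y := ⟨hFN 1 hs, fun h => (htwo h).elim (fun e => ⟨s, e ▸ hs, rfl⟩)
        fun e => ⟨s', e ▸ hs', hss.symm⟩⟩
      exact hsa (h1 ▸ h2 : s ∈ stabilizer G a ⊓ N).1
    have htr : ∀ h, IsPretransitive (F h) α := fun h => (isPretransitive_iff_base a).2 fun x => by
      obtain ⟨m, rfl⟩ := exists_smul_eq N a x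
      obtain ⟨y, hy, e⟩ := (h1.symm ▸ m.2 : (m : G) ∈ Y).2 h
      exact ⟨⟨y, hy⟩, e⟩
    have h2 := htr 1
    have h3 := htr h₀
    have h4 := hdis _ _ hF₀
    rw [hF1] at h2 h4 htwo
    refine false_of_two hE ha S (F h₀) h4.1 (fun hc => ?_) fun h hh => ?_
    · have h5 := mem_of_commute_of_transitive (α := α) S S (fun m hm n hn => setLike_mul_comm (s := S) hm hn)
        fun m hm => h4.1 m hm s' hs'
      exact hsa (by rw [hss, h4.2 s' h5 hs', one_smul])
    · have h5 : ∀ x ∈ S, h * x * h⁻¹ ∈ F h := fun x hx => conj_mem_conj_smul h hx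
      rcases htwo h with e | e
      · exact Or.inl (e ▸ h5)
      · exact Or.inr (e ▸ h5)

/-- An extremely primitive permutation group is of affine type or almost simple. Let a finite group G act faithfully and primitively on a finite set Ω with at least two points, in such a way that every point stabilizer acts primitively on each of its own orbits in Ω (an orbit of size one counts as primitive). Then either G has a non-trivial abelian normal subgroup whose elements other than the identity fix no point (affine type), or G has a non-abelian simple normal subgroup with trivial centralizer (almost simple). -/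
theorem result {G : Type*} [Group G] [Finite G] {Ω : Type*} [Fintype Ω] [MulAction G Ω] [FaithfulSMul G Ω] (hΩ : 2 ≤ Fintype.card Ω) (hprim : MulAction.IsPreprimitive G Ω) (hep : ∀ (α : Ω) (ω : Ω), MulAction.IsPreprimitive (MulAction.stabilizer G α) (MulAction.orbit (MulAction.stabilizer G α) ω)) :
    (∃ N : Subgroup G, N.Normal ∧ N ≠ ⊥ ∧ IsMulCommutative N ∧ ∀ ω : Ω, MulAction.stabilizer N ω = ⊥) ∨ (∃ T : Subgroup G, T.Normal ∧ IsSimpleGroup T ∧ ¬ IsMulCommutative T ∧ Subgroup.centralizer (T : Set G) = ⊥) := by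
  have hE : IsExtPrim G Ω := hep
  have : Nontrivial Ω := Fintype.one_lt_card_iff_nontrivial.1 hΩ
  obtain ⟨a, b, hab⟩ := exists_pair_ne Ω
  obtain ⟨g, hg⟩ := exists_smul_eq G a b
  have : Nontrivial G := ⟨g, 1, fun e => hab (by rw [← hg, e, one_smul])⟩
  obtain ⟨N, hN⟩ := exists_isMinNormal G
  have := hN.normal
  have := CL.Perm.isPretransitive_of_normal_of_ne_bot (α := Ω) hN.ne_bot
  by_cases hc : IsMulCommutative N
  · exact Or.inl ⟨N, hN.normal, hN.ne_bot, hc, stabilizer_eq_bot_of_isMulCommutative N⟩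
  have ha : stabilizer G a ≠ ⊥ := fun e => by
    have h1 := prime_card_of_isCoatom_bot
      (e ▸ IsPreprimitive.isCoatom_stabilizer_of_isPreprimitive G a)
    have := Fact.mk h1
    have : IsCyclic G := isCyclic_of_prime_card rfl
    exact hc inferInstance
  have := hN.nontrivial
  obtain ⟨S, hS⟩ := exists_isMinNormal N
  have hsim := isSimpleGroup_of_isMinNormal_of_charSimple
    (fun K _ => hN.eq_bot_or_top_of_characteristic K) hS
  have : IsSimpleGroup (S.map N.subtype) :=
    (S.equivMapOfInjective _ N.subtype_injective).symm.isSimpleGroup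
  have hSN : S.map N.subtype = N := by
    by_contra hne
    exact false_of_factor hE ha hN hc (Subgroup.map_subtype_le S)
      (by rwa [Subgroup.subgroupOf, Subgroup.comap_map_eq_self_of_injective N.subtype_injective]) hne
  rw [hSN] at this
  refine Or.inr ⟨N, hN.normal, this, hc, ?_⟩
  by_contra hC
  have := CL.Perm.isPretransitive_of_normal_of_ne_bot (α := Ω) hC
  exact false_of_two hE ha N (Subgroup.centralizer N) (fun s hs s' hs' => hs' s hs) hc
    fun h _ => Or.inl fun s hs => hN.normal.conj_mem s hs h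

end Cfsg.Agent.S3493
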