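import Cfsg.Statements.S3495
import Cfsg.Agent.Perm.PrimExtreme

set_option autoImplicit false
open Cfsg

namespace Cfsg.Agent.S3495

/-- Let a finite group G act faithfully and primitively on a finite set Ω with non-trivial point stabilizers, each acting primitively on every one of its orbits (an extremely primitive group), and suppose G has an elementary abelian normal p-subgroup N acting regularly on Ω (affine type). Then every non-trivial subgroup M of a point stabilizer G_α that is normal in G_α has the same orbits on Ω as G_α, and normalizes no subgroup of N other than 1 and N. -/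
theorem result {G : Type*} [Group G] [Finite G] {Ω : Type*} [Fintype Ω] [MulAction G Ω] [FaithfulSMul G Ω] (hprim : MulAction.IsPreprimitive G Ω) (hH : ∀ α : Ω, MulAction.stabilizer G α ≠ ⊥) (hep : ∀ (α : Ω) (ω : Ω), MulAction.IsPreprimitive (MulAction.stabilizer G α) (MulAction.orbit (MulAction.stabilizer G α) ω))
    (N : Subgroup G) [N.Normal] (hNc : IsMulCommutative N) (p : ℕ) (hp : p.Prime) (hNp : ∀ n ∈ N, n ^ p = 1)
    (hNtr : MulAction.IsPretransitive N Ω) (hNreg : ∀ ω : Ω, MulAction.stabilizer N ω = ⊥) (α : Ω) (M : Subgroup G) (hM : M ≠ ⊥) (hMle : M ≤ MulAction.stabilizer G α)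
    (hMn : MulAction.stabilizer G α ≤ Subgroup.normalizer (M : Set G)) :
    (∀ ω : Ω, MulAction.orbit M ω = MulAction.orbit (MulAction.stabilizer G α) ω) ∧
    (∀ L : Subgroup G, L ≤ N → M ≤ Subgroup.normalizer (L : Set G) → L = ⊥ ∨ L = N) := by
  have hMn' : ∀ g : G, g • α = α → ∀ k ∈ M, g * k * g⁻¹ ∈ M := fun g hg k hk =>
    (Subgroup.mem_normalizer_iff.1 (hMn hg) k).1 hk
  have htr := fun x g hg => CL.Perm.IsExtPrim.trans hep hM hMle hMn' x (g := g) hg
  refine ⟨fun ω => Set.Subset.antisymm ?_ ?_, fun L hL hML => ?_⟩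
  · rintro _ ⟨m, rfl⟩
    exact ⟨⟨m, hMle m.2⟩, rfl⟩
  · rintro _ ⟨g, rfl⟩
    obtain ⟨k, hk, e⟩ := htr ω g g.2
    exact ⟨⟨k, hk⟩, e⟩
  · have : Nontrivial Ω := CL.Perm.nontrivial_of_ne_bot (G := G) hM
    have hreg : ∀ n ∈ N, n • α = α → n = 1 := fun n hn h => by
      have h1 : (⟨n, hn⟩ : N) ∈ MulAction.stabilizer N α := h
      rw [hNreg, Subgroup.mem_bot] at h1
      exact congrArg Subtype.val h1
    have hbot : MulAction.stabilizer G α ⊓ N = ⊥ := eq_bot_iff.2 fun n hn => hreg n hn.2 hn.1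
    have key : ∀ g : G, g • α = α → ∀ l ∈ L, g * l * g⁻¹ ∈ L := by
      intro g hg l hl
      obtain ⟨k, hk, e⟩ := htr (l • α) g hg
      have hk' : k * l * k⁻¹ ∈ L := (Subgroup.mem_normalizer_iff.1 (hML hk) l).1 hl
      have h1 := hreg ((k * l * k⁻¹)⁻¹ * (g * l * g⁻¹))
        (N.mul_mem (N.inv_mem (hL hk')) (Subgroup.Normal.conj_mem inferInstance l (hL hl) g)) (by
          rw [mul_smul, inv_smul_eq_iff, mul_smul, mul_smul, mul_smul, mul_smul,
            inv_smul_eq_iff.2 hg.symm, inv_smul_eq_iff.2 (hMle hk).symm, e])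
      rwa [← inv_mul_eq_one.1 h1]
    rw [← hbot]
    refine CL.Perm.eq_stabilizer_inf_or_eq N α L hL (hbot ▸ bot_le) fun g hg => ?_
    rw [Subgroup.mem_normalizer_iff]
    refine fun l => ⟨key g hg l, fun h => ?_⟩
    simpa [mul_assoc] using key g⁻¹ (inv_smul_eq_iff.2 hg.symm) _ h

end Cfsg.Agent.S3495
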