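import Cfsg.Statements.S3496
import Cfsg.Agent.Perm.PrimExtreme2
import Cfsg.Agent.Perm.GammaL1
import Cfsg.Agent.Perm.PrimAffine

set_option autoImplicit false
open Cfsg

namespace Cfsg.Agent.S3496

/-- The soluble extremely primitive groups. Let a finite solvable group G act faithfully and primitively on a finite set Ω with p ^ d points (p prime), with non-trivial point stabilizers each acting primitively on every one of its orbits. Then there is a prime q such that every orbit of a point stabilizer G_α other than {α} has exactly q points, q divides p ^ d − 1 but no p ^ i − 1 with 0 < i < d, and G_α has a normal subgroup T of order q with G_α generated by T and one further element and the order of G_α dividing q·d (so G_α is cyclic of order q, or an extension of T by a cyclic group of order dividing d). -/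
theorem result {G : Type*} [Group G] [Finite G] {Ω : Type*} [Fintype Ω] [MulAction G Ω] [FaithfulSMul G Ω] [Group.IsSolvable G] (p d : ℕ) (hp : p.Prime) (hcard : Fintype.card Ω = p ^ d)
    (hprim : MulAction.IsPreprimitive G Ω) (hH : ∀ α : Ω, MulAction.stabilizer G α ≠ ⊥) (hep : ∀ (α : Ω) (ω : Ω), MulAction.IsPreprimitive (MulAction.stabilizer G α) (MulAction.orbit (MulAction.stabilizer G α) ω)) (α : Ω) :
    ∃ q : ℕ, q.Prime ∧ (∀ ω : Ω, ω ≠ α → Nat.card (MulAction.orbit (MulAction.stabilizer G α) ω) = q) ∧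
      q ∣ p ^ d - 1 ∧ (∀ i : ℕ, 0 < i → i < d → ¬ q ∣ p ^ i - 1) ∧
      ∃ T : Subgroup G, T ≤ MulAction.stabilizer G α ∧ MulAction.stabilizer G α ≤ Subgroup.normalizer (T : Set G) ∧ Nat.card T = q ∧
        (∃ h : G, MulAction.stabilizer G α = T ⊔ Subgroup.zpowers h) ∧ Nat.card (MulAction.stabilizer G α) ∣ q * d := by
  have hE : CL.Perm.IsExtPrim G Ω := hep
  have : Nontrivial Ω := CL.Perm.nontrivial_of_ne_bot (G := G) (hH α)
  obtain ⟨b, hb⟩ := exists_ne α
  have hco := hE.isCoatom_stabilizer hb (hH α)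
  have hcf := hE.normalCore_stabilizer hb
  have hHnt := (Subgroup.nontrivial_iff_ne_bot _).2 (hH α)
  have : Nontrivial G := (MulAction.stabilizer G α).subtype_injective.nontrivial
  obtain ⟨N, hN⟩ := CL.Grp.exists_isMinNormal G
  have := hN.normal
  have hNc := hN.isMulCommutative_of_isSolvable inferInstance
  have := CL.Perm.isPretransitive_of_normal_of_ne_bot (α := Ω) hN.ne_bot
  have hreg := CL.Grp.stabilizer_eq_bot_of_isMulCommutative N α
  have hcent : ∀ g : G, g • α = α → (∀ n ∈ N, g * n * g⁻¹ = n) → g = 1 := fun g hg h =>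
    CL.Perm.eq_one_of_commute_of_fix N (fun n hn => (mul_inv_eq_iff_eq_mul.1 (h n hn)).symm) hg
  obtain ⟨T, hT⟩ := CL.Grp.exists_isMinNormal (MulAction.stabilizer G α)
  have := hT.normal
  have hTc := hT.isMulCommutative_of_isSolvable inferInstance
  obtain ⟨q, hq, hTq⟩ := hT.exists_isElementaryAbelian inferInstance
  have hTn : ∀ g : G, g • α = α → ∀ k ∈ T.map (MulAction.stabilizer G α).subtype,
      g * k * g⁻¹ ∈ T.map (MulAction.stabilizer G α).subtype := by
    rintro g hg _ ⟨k, hk, rfl⟩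
    exact ⟨_, hT.normal.conj_mem k hk ⟨g, hg⟩, rfl⟩
  obtain ⟨K, _, _, e, c, σ, he, heN, headd, hK, hact, hc0, hσT, hirr⟩ :=
    CL.Perm.exists_gammaL_one hNc hN.ne_bot (H := MulAction.stabilizer G α)
      (le_top.trans (Subgroup.normalizer_eq_top N).ge) T hTc fun L hL hTL =>
      hE.eq_bot_or_eq_of_regular (fun n hn h => CL.Perm.eq_one_of_smul_eq_of_regular hreg hn h)
        (M := T.map (MulAction.stabilizer G α).subtype)
        (fun h => hT.ne_bot ((Subgroup.map_eq_bot_iff_of_injective _ (Subgroup.subtype_injective _)).1 h))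
        (Subgroup.map_subtype_le _) hTn hL (by rintro _ ⟨k, hk, rfl⟩; exact hTL k hk)
  rw [CL.Perm.card_eq_of_regular α hreg, Nat.card_eq_fintype_card, hcard] at hK
  have := Fact.mk hp
  have := Fact.mk hq
  have := CL.GLn.charP_of_card_eq hK
  have hcmul : ∀ g h, c (g * h) = c g * σ g (c h) := fun g h => he (by
    have h1 := hact (g * h) 1
    rw [map_one, mul_one] at h1
    have h2 := hact h 1
    rw [map_one, mul_one] at h2
    rw [← h1, ← hact, ← h2]
    simp [mul_assoc])
  have hone : ∀ g, σ g = 1 → c g = 1 → g = 1 := fun g h1 h2 => Subtype.ext (hcent g g.2 fun n hn => by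
    obtain ⟨x, rfl⟩ := (heN n).1 hn
    rw [hact, h1, h2, one_mul]; rfl)
  let ι : σ.ker →* K :=
    { toFun := fun t => c t
      map_one' := mul_left_cancel₀ (hc0 1) (by
        have h1 := hcmul 1 1
        rw [map_one, mul_one] at h1
        exact h1.symm.trans (mul_one _).symm)
      map_mul' := fun s t => by rw [Subgroup.coe_mul, hcmul, s.2]; rfl }
  have hι : Function.Injective ι :=
    (injective_iff_map_eq_one ι).2 fun t ht => Subtype.ext (hone t t.2 ht)
  have hker : σ.ker = T := by
    refine le_antisymm (fun g hg => ?_) hσT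
    rw [← CL.Grp.centralizer_eq_of_coreFree hco hcf hT.ne_bot, Subgroup.mem_centralizer_iff]
    intro t ht
    exact congrArg Subtype.val (hι (a₁ := ⟨t, hσT t ht⟩ * ⟨g, hg⟩) (a₂ := ⟨g, hg⟩ * ⟨t, hσT t ht⟩)
      (by rw [map_mul, map_mul, mul_comm]))
  have hcyc : IsCyclic σ.ker := isCyclic_of_injective_ringHom ι hι
  have hcq : ∀ t ∈ T, c t ^ q = 1 := fun t ht => by
    have h1 : (⟨t, hσT t ht⟩ : σ.ker) ^ q = 1 := Subtype.ext (hTq.2 t ht)
    exact (map_pow ι ⟨t, hσT t ht⟩ q).symm.trans (by rw [h1, map_one])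
  have hcardT : Nat.card T = q := by
    rw [hker] at hcyc
    have := hT.nontrivial
    have h1 : Nat.card T ∣ q := by
      rw [← IsCyclic.exponent_eq_card, Monoid.exponent_dvd_iff_forall_pow_eq_one]
      exact fun t => Subtype.ext (hTq.2 t t.2)
    exact ((Nat.dvd_prime hq).1 h1).resolve_left Finite.one_lt_card.ne'
  have hcyc' := CL.GLn.isCyclic_ringAut (F := K)
  obtain ⟨⟨_, h, rfl⟩, hgen⟩ := IsCyclic.exists_generator (α := σ.range)
  refine ⟨q, hq, fun ω hω => (hE.card_orbit_eq_of_comm hω hT.ne_bot).trans hcardT, ?_,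
    fun i hi hid hdvd => ?_, T.map (MulAction.stabilizer G α).subtype, Subgroup.map_subtype_le _,
    fun g hg => ?_, (Subgroup.card_map_of_injective (Subgroup.subtype_injective _)).trans hcardT,
    ⟨h, le_antisymm (fun g hg => ?_) (sup_le (Subgroup.map_subtype_le _)
      ((Subgroup.zpowers_le).2 h.2))⟩, ?_⟩
  · rw [← hcardT, ← hcard, ← Nat.card_eq_fintype_card]
    exact hE.card_dvd_of_comm T
  · let W : AddSubgroup K := (RingHom.eqLocus (iterateFrobenius K p i) (RingHom.id K)).toAddSubgroup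
    have hW : ∀ x, x ∈ W ↔ x ^ p ^ i = x := fun x => Iff.rfl
    have hpos : p ^ i = (p ^ i - 1) + 1 := (Nat.sub_add_cancel (Nat.one_le_pow _ _ hp.pos)).symm
    rcases hirr W (fun t ht x hx => by
      obtain ⟨m, hm⟩ := hdvd
      rw [hW] at hx ⊢
      rw [mul_pow, hx, hpos, hm, pow_succ, pow_mul, hcq t ht, one_pow, one_mul]) with h1 | h1
    · have h2 : (1 : K) ∈ W := (hW 1).2 (one_pow _)
      rw [h1, AddSubgroup.mem_bot] at h2
      exact one_ne_zero h2
    · have h2 : Fintype.card K - 1 ∣ p ^ i - 1 := by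
        rw [← FiniteField.forall_pow_eq_one_iff]
        intro x
        have h3 := (hW x).1 (h1 ▸ AddSubgroup.mem_top _)
        rw [hpos, pow_succ] at h3
        exact Units.ext (by simpa using h3)
      have h3 := Nat.pow_lt_pow_right hp.one_lt hid
      have h4 := Nat.one_lt_pow hi.ne' hp.one_lt
      have h5 := Nat.le_of_dvd (by omega) h2
      omega
  · rw [Subgroup.mem_normalizer_iff]
    refine fun l => ⟨hTn g hg l, fun h => ?_⟩
    simpa [mul_assoc] using hTn g⁻¹ (inv_smul_eq_iff.2 hg.symm) _ h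
  · obtain ⟨k, hk⟩ := hgen ⟨σ ⟨g, hg⟩, _, rfl⟩
    have h1 : σ (h ^ k) = σ ⟨g, hg⟩ := by simpa using congrArg Subtype.val hk
    have h2 : (⟨g, hg⟩ : MulAction.stabilizer G α) * (h ^ k)⁻¹ ∈ T := by
      rw [← hker, MonoidHom.mem_ker, map_mul, map_inv, h1, mul_inv_cancel]
    have h3 : g = (g * ((h : G) ^ k)⁻¹) * (h : G) ^ k := by simp
    rw [h3]
    exact Subgroup.mul_mem_sup ⟨_, h2, rfl⟩ ⟨k, rfl⟩
  · rw [← Subgroup.card_mul_index σ.ker, Subgroup.index_ker, hker, hcardT, ← CL.GLn.card_ringAut hK]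
    exact Nat.mul_dvd_mul_left _ (Subgroup.card_subgroup_dvd_card _)

end Cfsg.Agent.S3496
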