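import Cfsg.Statements.S3498
import Cfsg.Agent.Grp.Coprime

set_option autoImplicit false
open Cfsg

namespace Cfsg.Agent.S3498

/-- A maximal subgroup of a finite almost simple group does not have prime order. Here G is almost simple in the sense that it has a non-abelian simple normal subgroup T with trivial centralizer. -/
theorem result {G : Type*} [Group G] [Finite G] (T : Subgroup G) [T.Normal] (hT : IsSimpleGroup T) (hTc : ¬ IsMulCommutative T)
    (hC : Subgroup.centralizer (T : Set G) = ⊥) (H : Subgroup G) (hmax : IsCoatom H) : ¬ (Nat.card H).Prime := by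
  intro hp
  have := Fact.mk hp
  have hA : ∀ K : Subgroup G, K.Normal → K ≠ ⊥ → T ≤ K := by
    intro K hK hK0
    rcases (hK.subgroupOf T).eq_bot_or_eq_top with h | h
    · refine absurd (eq_bot_iff.2 fun k hk => hC ▸ fun t ht => ?_) hK0
      exact (Subgroup.commute_of_normal_of_disjoint T K inferInstance hK
        (Subgroup.subgroupOf_eq_bot.1 h).symm t k ht hk).eq
    · exact Subgroup.subgroupOf_eq_top.1 h
  have hB : ∀ (r : ℕ) (K : Subgroup G), r.Prime → IsPGroup r K → K.Normal → K = ⊥ := by
    intro r K hr hK hn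
    have := Fact.mk hr
    by_contra hK0
    have := (hK.to_le (hA K hn hK0)).isNilpotent
    exact hTc ⟨⟨IsSimpleGroup.comm_iff_isSolvable.2 inferInstance⟩⟩
  have hH : IsPGroup (Nat.card H) H := IsPGroup.of_card (pow_one _).symm
  have hH0 : H ≠ ⊥ := fun h => hp.ne_one (by rw [h, Subgroup.card_bot])
  have hN : Subgroup.normalizer (H : Set G) = H :=
    (hmax.le_iff.1 Subgroup.le_normalizer).resolve_left fun h =>
      hH0 (hB _ H hp hH (Subgroup.normalizer_eq_top_iff.1 h))
  obtain ⟨P, hP⟩ := hH.exists_le_sylow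
  have hPH : (P : Subgroup G) = H := by
    by_contra hne
    have h1 := CL.Grp.lt_inf_normalizer_of_isPGroup P.2 (lt_of_le_of_ne hP (Ne.symm hne))
    rw [hN] at h1
    exact h1.not_ge inf_le_right
  have hPC : Subgroup.normalizer (P : Set G) ≤ Subgroup.centralizer (P : Set G) := by
    rw [← P.coe_coe, hPH, hN]
    have : IsCyclic H := isCyclic_of_prime_card rfl
    exact H.le_centralizer
  have hK := MonoidHom.ker_transferSylow_isComplement' P hPC
  have hTK := hA (MonoidHom.transferSylow P hPC).ker inferInstance fun h => hmax.1 (by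
    have h1 := hK.sup_eq_top
    rwa [h, bot_sup_eq, hPH] at h1 : H = ⊤)
  have hcop : (Nat.card H).Coprime (Nat.card T) := (Nat.Prime.coprime_iff_not_dvd hp).2 fun h =>
    MonoidHom.not_dvd_card_ker_transferSylow P hPC (h.trans (Subgroup.card_dvd_of_le hTK))
  obtain ⟨r, hr, hrT⟩ := Nat.exists_prime_and_dvd (Finite.one_lt_card (α := T)).ne'
  have := Fact.mk hr
  have := hH.isNilpotent
  obtain ⟨S, hS, hHS⟩ := CL.Grp.exists_isSylowIn_le_normalizer r (A := H) (K := T)
    (le_top.trans (Subgroup.normalizer_eq_top T).ge) hcop (Or.inl inferInstance)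
  have hS0 : S = ⊥ := by
    rcases hmax.le_iff.1 hHS with h | h
    · exact hB r S hr hS.isPGroup (Subgroup.normalizer_eq_top_iff.1 h)
    · exact le_bot_iff.1 ((le_inf (h ▸ Subgroup.le_normalizer) hS.le).trans
        (Subgroup.disjoint_of_coprime_natCard hcop).le_bot)
  have h1 := hS.not_dvd
  rw [hS0, Subgroup.relIndex_bot_left] at h1
  exact h1 hrT

end Cfsg.Agent.S3498
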