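import Cfsg.Statements.S3504
import Cfsg.Agent.Perm.PrimeCycle

set_option autoImplicit false
open Cfsg

namespace Cfsg.Agent.S3504

/-- For n ≥ 5, the fixed-point-free permutations of prime order in the symmetric group of degree n form a single conjugacy class if and only if n is a prime power. -/
theorem result (n : ℕ) (hn : 5 ≤ n) :
    Nat.card {c : ConjClasses (Equiv.Perm (Fin n)) // ∃ g : Equiv.Perm (Fin n), ConjClasses.mk g = c ∧ (orderOf g).Prime ∧ ∀ i : Fin n, g i ≠ i} = 1 ↔ IsPrimePow n := by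
  classical
  rw [isPrimePow_iff_card_primeFactors_eq_one, ← Nat.card_eq_finsetCard]
  have hct : ∀ g : Equiv.Perm (Fin n), (orderOf g).Prime → (∀ i, g i ≠ i) →
      orderOf g ∣ n ∧ g.cycleType = Multiset.replicate (n / orderOf g) (orderOf g) := by
    intro g hg hd
    obtain ⟨j, hj⟩ := Equiv.Perm.cycleType_prime_order hg
    have h1 := CL.Perm.card_support_of_cycleType_replicate hj
    rw [Finset.eq_univ_iff_forall.mpr fun i => Equiv.Perm.mem_support.mpr (hd i), Finset.card_univ,
      Fintype.card_fin] at h1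
    refine ⟨Dvd.intro_left _ h1.symm, ?_⟩
    rw [hj]
    congr 1
    exact (Nat.div_eq_of_eq_mul_left hg.pos h1).symm
  have hex : ∀ p : n.primeFactors, ∃ g : Equiv.Perm (Fin n), orderOf g = p ∧ ∀ i, g i ≠ i := by
    rintro ⟨p, hp⟩
    have hpp := Nat.prime_of_mem_primeFactors hp
    have hpd := Nat.dvd_of_mem_primeFactors hp
    obtain ⟨g, hg⟩ := CL.Perm.exists_cycleType_replicate (α := Fin n) (j := n / p) hpp.two_le
      (by rw [Fintype.card_fin]; exact Nat.div_mul_le_self _ _)
    refine ⟨g, CL.Perm.orderOf_of_cycleType_replicate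
      (Nat.div_pos (Nat.le_of_dvd (by omega) hpd) hpp.pos) hg, fun i => ?_⟩
    have h1 := CL.Perm.card_support_of_cycleType_replicate hg
    rw [Nat.div_mul_cancel hpd] at h1
    have h2 : g.support = Finset.univ := Finset.eq_univ_of_card _ (by rw [h1, Fintype.card_fin])
    exact Equiv.Perm.mem_support.mp (h2 ▸ Finset.mem_univ i)
  choose F hF1 hF2 using hex
  have hFp : ∀ p, (orderOf (F p)).Prime := fun p => by
    rw [hF1]; exact Nat.prime_of_mem_primeFactors p.2
  rw [iff_eq_eq]
  congr 1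
  symm
  refine Nat.card_congr (Equiv.ofBijective
    (fun p => ⟨ConjClasses.mk (F p), F p, rfl, hFp p, hF2 p⟩) ⟨fun p q h => ?_, ?_⟩)
  · have h1 : IsConj (F p) (F q) := ConjClasses.mk_eq_mk_iff_isConj.mp (congrArg Subtype.val h)
    rw [Equiv.Perm.isConj_iff_cycleType_eq] at h1
    apply Subtype.ext
    rw [← hF1, ← hF1, ← Equiv.Perm.lcm_cycleType, h1, Equiv.Perm.lcm_cycleType]
  · rintro ⟨_, g, rfl, hg, hd⟩
    refine ⟨⟨orderOf g, Nat.mem_primeFactors.mpr ⟨hg, (hct g hg hd).1, by omega⟩⟩, Subtype.ext ?_⟩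
    apply ConjClasses.mk_eq_mk_iff_isConj.mpr
    rw [Equiv.Perm.isConj_iff_cycleType_eq, (hct _ (hFp _) (hF2 _)).2, hF1]
    exact (hct g hg hd).2.symm

end Cfsg.Agent.S3504
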