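import Cfsg.Statements.S3508
import Cfsg.Agent.Perm.PrimRegNormal
import Cfsg.Agent.Loc.ElemAb

set_option autoImplicit false
open Cfsg

namespace Cfsg.Agent.S3508

open CL.Loc

theorem unipotent_bound {p : ℕ} [Fact p.Prime] {W : Type*} [AddCommGroup W] [Module (ZMod p) W]
    [Finite W] [Nontrivial W] (T : Module.End (ZMod p) W) {r k : ℕ} (hT : T ^ p ^ r = 1)
    (hk : Module.finrank (ZMod p) W ≤ p ^ k) : T ^ p ^ k = 1 := by
  have : CharP (Module.End (ZMod p) W) p :=
    charP_of_injective_algebraMap (algebraMap (ZMod p) (Module.End (ZMod p) W)).injective p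
  have h1 : IsNilpotent (T - 1) :=
    ⟨p ^ r, by rw [sub_pow_char_pow_of_commute _ _ (Commute.one_right T), hT, one_pow, sub_self]⟩
  have h2 : (T - 1) ^ Module.finrank (ZMod p) W = 0 := by
    have := LinearMap.aeval_self_charpoly (T - 1)
    rwa [h1.charpoly_eq_X_pow_finrank, Polynomial.aeval_X_pow] at this
  have h3 : (T - 1) ^ p ^ k = 0 := pow_eq_zero_of_le hk h2
  rwa [sub_pow_char_pow_of_commute _ _ (Commute.one_right T), one_pow, sub_eq_zero] at h3

/-- Let a finite group G act faithfully on a set Ω with p ^ m points (p prime) and have an elementary abelian normal p-subgroup N acting regularly on Ω (so G is a group of affine transformations of an m-dimensional space over the field with p elements). If G contains an element of order p ^ r with r ≥ 1, then p ^ (r − 1) ≤ m. In particular an element of order p ^ m forces m ≤ 2, and m ≤ 1 when p is odd. -/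
theorem result {G : Type*} [Group G] [Finite G] {Ω : Type*} [Fintype Ω] [MulAction G Ω] [FaithfulSMul G Ω] (p m : ℕ) (hp : p.Prime) (hcard : Fintype.card Ω = p ^ m)
    (N : Subgroup G) [N.Normal] (hNc : IsMulCommutative N) (hNp : ∀ n ∈ N, n ^ p = 1)
    (hNtr : MulAction.IsPretransitive N Ω) (hNreg : ∀ ω : Ω, MulAction.stabilizer N ω = ⊥)
    (g : G) (r : ℕ) (hr : 1 ≤ r) (hg : orderOf g = p ^ r) :
    p ^ (r - 1) ≤ m ∧ (r = m → m ≤ 2 ∧ (2 < p → m ≤ 1)) := by
  have : Fact p.Prime := ⟨hp⟩
  have hmain : p ^ (r - 1) ≤ m := by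
    by_contra hlt
    have hne : Nonempty Ω := Fintype.card_pos_iff.mp (hcard ▸ pow_pos hp.pos m)
    obtain ⟨ω⟩ := hne
    obtain ⟨u, huN, hua, hu⟩ := CL.Perm.exists_unique_smul_of_regular N (hNreg ω)
    have hV : IsElementaryAbelian p N := ⟨hNc, hNp⟩
    have hfr : Module.finrank (ZMod p) (EAMod hV) = m := by
      have := EAMod.card_eq_pow_finrank hV
      rw [← Subgroup.index_bot, ← hNreg ω, MulAction.index_stabilizer_of_transitive,
        Nat.card_eq_fintype_card, hcard] at this
      exact (Nat.pow_right_injective hp.two_le this).symm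
    let A : G → EAMod hV →ₗ[ZMod p] EAMod hV := fun x =>
      (conjRep hV ⟨x, Subgroup.le_normalizer_of_normal (Subgroup.mem_top x)⟩).toLinearMap
    have hA : ∀ x v, (A x v).val = x * v.val * x⁻¹ := fun x v => rfl
    let b : G → EAMod hV := fun x => EAMod.mk hV (u (x • ω)) (huN _)
    have hb : ∀ x, (b x).val = u (x • ω) := fun x => rfl
    have hext : ∀ v w : EAMod hV, v.val = w.val → v = w := fun v w h => EAMod.val_injective hV h
    let ρ : G →* Module.End (ZMod p) (EAMod hV × ZMod p) :=
      { toFun := fun x => LinearMap.prod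
          ((A x).comp (LinearMap.fst _ _ _) + (LinearMap.snd _ _ _).smulRight (b x))
          (LinearMap.snd _ _ _)
        map_one' := by
          have e1 : ∀ v, A 1 v = v := fun v => hext _ _ (by rw [hA]; group)
          have e2 : b 1 = 0 := hext _ _ (by
            rw [hb]; exact hu 1 N.one_mem)
          refine LinearMap.ext fun v => Prod.ext ?_ rfl
          simp [e1, e2]
        map_mul' := by
          intro x y
          have e1 : ∀ v, A (x * y) v = A x (A y v) := fun v => hext _ _ (by
            rw [hA, hA, hA]; group)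
          have e2 : b (x * y) = A x (b y) + b x := hext _ _ (by
            rw [hb, EAMod.val_add, hA, hb, hb, ← hu (x * u (y • ω) * x⁻¹ * u (x • ω))
              (N.mul_mem (‹N.Normal›.conj_mem _ (huN _) _) (huN _))]
            rw [mul_smul (x * u (y • ω) * x⁻¹), hua, mul_smul, mul_smul, mul_smul, inv_smul_smul, hua])
          refine LinearMap.ext fun v => Prod.ext ?_ rfl
          simp [e1, e2, add_assoc] }
    have hρ : ∀ x, ρ x = 1 → x = 1 := by
      intro x hx
      have e1 : ∀ v, A x v = v := fun v => by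
        have := congrArg Prod.fst (LinearMap.congr_fun hx (v, 0))
        simpa [ρ] using this
      have e2 : b x = 0 := by
        have := congrArg Prod.fst (LinearMap.congr_fun hx (0, 1))
        simpa [ρ] using this
      have e3 : x • ω = ω := by
        rw [← hua (x • ω), ← hb, e2]
        exact one_smul _ _
      refine (faithfulSMul_iff (G := G) (α := Ω)).mp inferInstance _ fun y => ?_
      have e4 : x * u y * x⁻¹ = u y :=
        congrArg EAMod.val (e1 (EAMod.mk hV (u y) (huN y)))
      rw [mul_inv_eq_iff_eq_mul] at e4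
      rw [← hua y, ← mul_smul, e4, mul_smul, e3]
    have h1 : ρ g ^ p ^ r = 1 := by rw [← map_pow, ← hg, pow_orderOf_eq_one, map_one]
    have h2 := unipotent_bound (ρ g) h1 (k := r - 1) (by
      rw [Module.finrank_prod, hfr, Module.finrank_self]
      omega)
    rw [← map_pow] at h2
    have h3 := orderOf_dvd_of_pow_eq_one (hρ _ h2)
    rw [hg, Nat.pow_dvd_pow_iff_le_right hp.one_lt] at h3
    omega
  refine ⟨hmain, fun h => ?_⟩
  subst h
  have key : ∀ q k : ℕ, 2 ≤ q → k + 1 + 1 + 1 < q ^ (k + 1 + 1) := by
    intro q k hq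
    have h1 : k + 1 < 2 ^ (k + 1) := Nat.lt_two_pow_self
    have h2 : 2 ^ (k + 1 + 1) ≤ q ^ (k + 1 + 1) := Nat.pow_le_pow_left hq _
    rw [pow_succ] at h2
    omega
  have h2 : r ≤ 2 := by
    by_contra h
    obtain ⟨k, rfl⟩ : ∃ k, r = k + 1 + 1 + 1 := ⟨r - 3, by omega⟩
    have := key p k hp.two_le
    simp only [Nat.add_sub_cancel] at hmain
    omega
  refine ⟨h2, fun h3 => ?_⟩
  by_contra h
  obtain rfl : r = 2 := by omega
  simp at hmain
  omega

end Cfsg.Agent.S3508
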