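import Cfsg.Statements.S3511
import Cfsg.Agent.Base

set_option autoImplicit false
open Cfsg

namespace Cfsg.Agent.S3511

/-- Let a finite group G act faithfully on a set Ω. If every element of G of square-free order has a regular cycle (an orbit of the cyclic group it generates with trivial stabilizer), then every element of G has a regular cycle. -/
theorem result {G : Type*} [Group G] [Finite G] {Ω : Type*} [MulAction G Ω] [FaithfulSMul G Ω]
    (h : ∀ g : G, Squarefree (orderOf g) → ∃ ω : Ω, MulAction.stabilizer (Subgroup.zpowers g) ω = ⊥) (g : G) :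
    ∃ ω : Ω, MulAction.stabilizer (Subgroup.zpowers g) ω = ⊥ := by
  classical
  have hn : orderOf g ≠ 0 := (orderOf_pos g).ne'
  set r := ∏ p ∈ (orderOf g).primeFactors, p with hr
  have hrd : r ∣ orderOf g := Nat.prod_primeFactors_dvd _
  have hsq : Squarefree r := by
    rw [hr]
    refine Finset.squarefree_prod_of_pairwise_isCoprime ?_ ?_
    · intro a ha b hb hab
      have ha' := Nat.prime_of_mem_primeFactors ha
      have hb' := Nat.prime_of_mem_primeFactors hb
      exact Nat.coprime_iff_isRelPrime.mp ((Nat.coprime_primes ha' hb').mpr hab)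
    · intro a ha
      exact (Nat.prime_of_mem_primeFactors ha).prime.squarefree
  have hord : orderOf (g ^ (orderOf g / r)) = r := orderOf_pow_orderOf_div hn hrd
  obtain ⟨ω, hω⟩ := h (g ^ (orderOf g / r)) (by rw [hord]; exact hsq)
  refine ⟨ω, ?_⟩
  rw [eq_bot_iff]
  rintro ⟨x, hx⟩ hfix
  rw [Subgroup.mem_bot]
  by_contra hne
  have hx1 : x ≠ 1 := fun h => hne (Subtype.ext h)
  have hxo : orderOf x ≠ 1 := fun h => hx1 (orderOf_eq_one_iff.mp h)
  set q := (orderOf x).minFac with hq
  have hqp : q.Prime := Nat.minFac_prime hxo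
  have hqd : q ∣ orderOf x := Nat.minFac_dvd _
  set y := x ^ (orderOf x / q) with hy
  have hyo : orderOf y = q := orderOf_pow_orderOf_div (orderOf_pos x).ne' hqd
  have hyfix : y • ω = ω := by
    have : x ∈ MulAction.stabilizer G ω := hfix
    exact pow_mem this _
  have hyg : y ∈ Subgroup.zpowers g := pow_mem hx _
  obtain ⟨i, hi⟩ := (Submonoid.mem_powers_iff _ _).mp ((mem_powers_iff_mem_zpowers).mpr hyg)
  have hqn : q ∣ orderOf g := hqd.trans (orderOf_dvd_of_mem_zpowers hx)
  have h1 : orderOf g ∣ i * q := by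
    rw [orderOf_dvd_iff_pow_eq_one, pow_mul, hi, ← hyo, pow_orderOf_eq_one]
  have hqr : q ∣ r := Finset.dvd_prod_of_mem _ (Nat.mem_primeFactors.mpr ⟨hqp, hqn, hn⟩)
  have h2 : orderOf g / r ∣ i := by
    obtain ⟨s, hs⟩ := hqr
    obtain ⟨k, hk⟩ := hrd
    have hr0 : 0 < r := Nat.pos_of_ne_zero fun h => hn (by rw [hk, h, zero_mul])
    rw [hk, Nat.mul_div_cancel_left _ hr0]
    rw [hk, hs, show q * s * k = (s * k) * q by ring] at h1
    exact (Dvd.intro_left s rfl).trans (Nat.dvd_of_mul_dvd_mul_right hqp.pos h1)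
  obtain ⟨j, hj⟩ := h2
  have hyh : y ∈ Subgroup.zpowers (g ^ (orderOf g / r)) := by
    rw [← hi, hj, pow_mul]
    exact pow_mem (Subgroup.mem_zpowers _) _
  have : (⟨y, hyh⟩ : Subgroup.zpowers (g ^ (orderOf g / r))) ∈
      MulAction.stabilizer (Subgroup.zpowers (g ^ (orderOf g / r))) ω := hyfix
  rw [hω, Subgroup.mem_bot] at this
  have hy1 : y = 1 := congrArg Subtype.val this
  rw [hy1, orderOf_one] at hyo
  exact hqp.one_lt.ne hyo

end Cfsg.Agent.S3511
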