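import Cfsg.Statements.S3514
import Cfsg.Agent.Grp.Cores

set_option autoImplicit false
open Cfsg

namespace Cfsg.Agent.S3514

/-- Let p be a prime, V a finite vector space over the field with p elements, and H a group of linear transformations of V all of whose orbits on V have size coprime to p. (i) Every normal subgroup K of H has all its orbits on V of size coprime to p. (ii) If N is a group of linear transformations of V of order coprime to p that is normalized by H, then the group generated by N and H has all its orbits on V of size coprime to p. -/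
theorem result (p : ℕ) [Fact p.Prime] {V : Type*} [AddCommGroup V] [Module (ZMod p) V] [Finite V]
    (H : Subgroup (V ≃ₗ[ZMod p] V)) (hH : ∀ v : V, ¬ p ∣ Nat.card {u : V | ∃ h ∈ H, h v = u}) :
    (∀ K : Subgroup (V ≃ₗ[ZMod p] V), K ≤ H → H ≤ Subgroup.normalizer (K : Set (V ≃ₗ[ZMod p] V)) →
        ∀ v : V, ¬ p ∣ Nat.card {u : V | ∃ k ∈ K, k v = u}) ∧
    (∀ N : Subgroup (V ≃ₗ[ZMod p] V), ¬ p ∣ Nat.card N → H ≤ Subgroup.normalizer (N : Set (V ≃ₗ[ZMod p] V)) →
        ∀ v : V, ¬ p ∣ Nat.card {u : V | ∃ x ∈ N ⊔ H, x v = u}) := by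
  have horb : ∀ (X : Subgroup (V ≃ₗ[ZMod p] V)) (v : V), Nat.card {u : V | ∃ k ∈ X, k v = u} =
      (MulAction.stabilizer (V ≃ₗ[ZMod p] V) v).relIndex X := by
    intro X v
    have : {u : V | ∃ k ∈ X, k v = u} = MulAction.orbit X v := by
      ext u
      constructor
      · rintro ⟨k, hk, rfl⟩; exact ⟨⟨k, hk⟩, rfl⟩
      · rintro ⟨k, rfl⟩; exact ⟨k, k.2, rfl⟩
    rw [this, Nat.card_coe_set_eq, ← MulAction.index_stabilizer]
    rfl
  have hfin : Finite (V ≃ₗ[ZMod p] V) :=
    Finite.of_injective (fun e : V ≃ₗ[ZMod p] V => (e : V → V)) DFunLike.coe_injective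
  have key : ∀ A B : Subgroup (V ≃ₗ[ZMod p] V), A ≤ Subgroup.normalizer (B : Set (V ≃ₗ[ZMod p] V)) →
      A.relIndex (A ⊔ B) = A.relIndex B := by
    intro A B hAB
    have h1 := CL.Grp.card_sup_mul_card_inf hAB
    rw [← CL.Grp.card_mul_relIndex (le_sup_left : A ≤ A ⊔ B), ← CL.Grp.card_inf_mul_relIndex A B,
      mul_assoc] at h1
    have h2 := Nat.eq_of_mul_eq_mul_left Nat.card_pos h1
    rw [mul_comm] at h2
    exact Nat.eq_of_mul_eq_mul_left Nat.card_pos h2
  simp only [horb] at hH ⊢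
  refine ⟨fun K hKH hK v hd => hH v (hd.trans ?_), fun N hN hHN v hd => ?_⟩
  · set S := MulAction.stabilizer (V ≃ₗ[ZMod p] V) v
    have h1 := key (S ⊓ H) K (inf_le_right.trans hK)
    have h2 : (S ⊓ H).relIndex K = S.relIndex K := by
      rw [← Subgroup.inf_relIndex_right (S ⊓ H), inf_assoc, inf_eq_right.mpr hKH,
        Subgroup.inf_relIndex_right]
    rw [← h2, ← h1, ← Subgroup.inf_relIndex_right S H,
      ← Subgroup.relIndex_mul_relIndex (S ⊓ H) (S ⊓ H ⊔ K) H le_sup_left (sup_le inf_le_right hKH)]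
    exact Dvd.intro _ rfl
  · set S := MulAction.stabilizer (V ≃ₗ[ZMod p] V) v
    have h1 := key H N hHN
    have h2 := Subgroup.relIndex_mul_relIndex (S ⊓ H) H (H ⊔ N) inf_le_right le_sup_left
    rw [h1, Subgroup.inf_relIndex_right] at h2
    have h3 : S.relIndex (H ⊔ N) ∣ (S ⊓ H).relIndex (H ⊔ N) :=
      Subgroup.relIndex_dvd_of_le_left _ inf_le_left
    rw [sup_comm] at hd
    rw [← h2] at h3
    rcases (Fact.out : p.Prime).dvd_mul.mp (hd.trans h3) with h | h
    · exact hH v h
    · exact hN (h.trans (Subgroup.relIndex_dvd_card H N))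

end Cfsg.Agent.S3514
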