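import Cfsg.Statements.S3515
import Cfsg.Agent.Perm.Closure

set_option autoImplicit false
open Cfsg

namespace Cfsg.Agent.S3515

theorem plane_two_cases : ∀ x : Fin 2 → ZMod 2,
    x = 0 ∨ x = Pi.single 0 1 ∨ x = Pi.single 1 1 ∨ x = fun _ => 1 := by decide

theorem plane_two_ne : ((0 : Fin 2 → ZMod 2) ≠ fun _ => 1) ∧
    ((Pi.single 0 1 : Fin 2 → ZMod 2) ≠ fun _ => 1) ∧
    ((Pi.single 1 1 : Fin 2 → ZMod 2) ≠ fun _ => 1) := by decide

/-- Every primitive affine permutation group of degree p² is 3-closed. Let p be a prime and G a group of permutations of the plane V = F_p² consisting of affine maps x ↦ Ax + b, containing all translations, and acting primitively on V. Then any permutation σ of V that agrees on every triple of points with some element of G (σ preserves every G-orbit on ordered triples) already lies in G. -/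
theorem result (p : ℕ) [Fact p.Prime] (G : Subgroup (Equiv.Perm (Fin 2 → ZMod p)))
    (haff : (G : Set (Equiv.Perm (Fin 2 → ZMod p))) ⊆ {τ : Equiv.Perm (Fin 2 → ZMod p) | ∃ (A : (Fin 2 → ZMod p) ≃ₗ[ZMod p] (Fin 2 → ZMod p)) (b : Fin 2 → ZMod p), ∀ x, τ x = A x + b})
    (htrans : ∀ b : Fin 2 → ZMod p, ∃ g ∈ G, ∀ x, g x = x + b) (hprim : MulAction.IsPreprimitive G (Fin 2 → ZMod p))
    (σ : Equiv.Perm (Fin 2 → ZMod p)) (hσ : (∀ t : Fin 3 → (Fin 2 → ZMod p), ∃ g ∈ G, ∀ i, σ (t i) = g (t i))) : σ ∈ G := by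
  obtain ⟨g, hg, h0⟩ := hσ ![0, Pi.single 0 1, Pi.single 1 1]
  have a0 := h0 0
  have a1 := h0 1
  have a2 := h0 2
  simp only [Matrix.cons_val_zero, Matrix.cons_val_one, Matrix.cons_val] at a0 a1 a2
  suffices σ = g from this ▸ hg
  by_cases hp : p = 2
  · subst hp
    have hx := plane_two_cases
    ext1 x
    obtain ⟨y, hy⟩ := g.surjective (σ x)
    rcases hx x with rfl | rfl | rfl | rfl
    · exact a0
    · exact a1
    · exact a2
    · rcases hx y with rfl | rfl | rfl | rfl
      · rw [← a0] at hy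
        exact absurd (σ.injective hy) plane_two_ne.1
      · rw [← a1] at hy
        exact absurd (σ.injective hy) plane_two_ne.2.1
      · rw [← a2] at hy
        exact absurd (σ.injective hy) plane_two_ne.2.2
      · exact hy.symm
  · have h2 : (2 : ZMod p) ≠ 0 := by
      intro h
      have : ((2 : ℕ) : ZMod p) = 0 := by exact_mod_cast h
      rw [ZMod.natCast_eq_zero_iff] at this
      exact hp ((Nat.prime_dvd_prime_iff_eq Fact.out Nat.prime_two).mp this)
    obtain ⟨A, b, hA⟩ := CL.Perm.affine_of_triples h2 σ fun t => by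
      obtain ⟨g, hg, h1⟩ := hσ t
      obtain ⟨A, b, h3⟩ := haff hg
      exact ⟨A, b, fun i => by rw [h1, h3]⟩
    obtain ⟨B, c, hB⟩ := haff hg
    rw [hA, hB] at a0 a1 a2
    simp only [map_zero, zero_add] at a0
    subst a0
    rw [add_left_inj] at a1 a2
    have : (A : (Fin 2 → ZMod p) →ₗ[ZMod p] (Fin 2 → ZMod p)) = B := by
      apply (Pi.basisFun (ZMod p) (Fin 2)).ext
      intro i
      fin_cases i
      · simpa using a1
      · simpa using a2
    ext1 x
    rw [hA, hB]
    congr 1
    exact LinearMap.congr_fun this x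

end Cfsg.Agent.S3515
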