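import Cfsg.Statements.S3516
import Cfsg.Agent.Perm.Closure

set_option autoImplicit false
open Cfsg

namespace Cfsg.Agent.S3516

/-- Let p be an odd prime, d ≥ 3, and G a group of affine permutations x ↦ Ax + b of V = F_p^d containing all translations and all maps x ↦ Ax with A of determinant 1. Then the 3-closure of G is the full affine group: a permutation σ of V agrees on every triple of points with some element of G if and only if σ is an affine map. -/
theorem result (p : ℕ) [Fact p.Prime] (hp : p ≠ 2) (d : ℕ) (hd : 3 ≤ d) (G : Subgroup (Equiv.Perm (Fin d → ZMod p)))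
    (haff : (G : Set (Equiv.Perm (Fin d → ZMod p))) ⊆ {τ : Equiv.Perm (Fin d → ZMod p) | ∃ (A : (Fin d → ZMod p) ≃ₗ[ZMod p] (Fin d → ZMod p)) (b : Fin d → ZMod p), ∀ x, τ x = A x + b})
    (htrans : ∀ b : Fin d → ZMod p, ∃ g ∈ G, ∀ x, g x = x + b)
    (hsl : ∀ A : (Fin d → ZMod p) ≃ₗ[ZMod p] (Fin d → ZMod p), LinearMap.det (A : (Fin d → ZMod p) →ₗ[ZMod p] (Fin d → ZMod p)) = 1 → ∃ g ∈ G, ∀ x, g x = A x)
    (σ : Equiv.Perm (Fin d → ZMod p)) :
    (∀ t : Fin 3 → (Fin d → ZMod p), ∃ g ∈ G, ∀ i, σ (t i) = g (t i)) ↔ σ ∈ {τ : Equiv.Perm (Fin d → ZMod p) | ∃ (A : (Fin d → ZMod p) ≃ₗ[ZMod p] (Fin d → ZMod p)) (b : Fin d → ZMod p), ∀ x, τ x = A x + b} := by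
  have h2 : (2 : ZMod p) ≠ 0 := by
    intro h
    have : ((2 : ℕ) : ZMod p) = 0 := by exact_mod_cast h
    rw [ZMod.natCast_eq_zero_iff] at this
    exact hp ((Nat.prime_dvd_prime_iff_eq Fact.out Nat.prime_two).mp this)
  constructor
  · intro h
    refine CL.Perm.affine_of_triples h2 σ fun t => ?_
    obtain ⟨g, hg, h1⟩ := h t
    obtain ⟨A, b, h3⟩ := haff hg
    exact ⟨A, b, fun i => by rw [h1, h3]⟩
  · rintro ⟨A, b, hA⟩ t
    have hW : Submodule.span (ZMod p) (Set.range ![t 1 - t 0, t 2 - t 0]) ≠ ⊤ := by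
      intro h
      have h1 := finrank_range_le_card (R := ZMod p) ![t 1 - t 0, t 2 - t 0]
      rw [Set.finrank, h, finrank_top] at h1
      simp at h1
      omega
    obtain ⟨B, hB, hBW⟩ := CL.Perm.exists_linearEquiv_det_fixing _ hW (LinearEquiv.det A)⁻¹
    obtain ⟨g, hg, hgx⟩ := hsl (B.trans A) (by
      rw [LinearEquiv.coe_trans, LinearMap.det_comp, hB, ← LinearEquiv.coe_det, ← Units.val_mul,
        mul_inv_cancel, Units.val_one])
    obtain ⟨τ, hτ, hτx⟩ := htrans (A (t 0) + b - A (B (t 0)))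
    refine ⟨τ * g, G.mul_mem hτ hg, fun i => ?_⟩
    rw [Equiv.Perm.mul_apply, hτx, hgx, hA, LinearEquiv.trans_apply]
    have : B (t i - t 0) = t i - t 0 := by
      fin_cases i
      · simp
      · exact hBW _ (Submodule.subset_span ⟨0, rfl⟩)
      · exact hBW _ (Submodule.subset_span ⟨1, rfl⟩)
    rw [map_sub, sub_eq_iff_eq_add] at this
    rw [this, map_add, map_sub]
    abel

end Cfsg.Agent.S3516
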