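import Cfsg.Statements.S3517
import Cfsg.Agent.Perm.Closure

set_option autoImplicit false
open Cfsg

namespace Cfsg.Agent.S3517

/-- For d ≥ 3, the 3-closure of the affine group AGL_d(2) acting on F_2^d is the full symmetric group: every permutation of F_2^d agrees on every ordered triple of points with some affine map (AGL_d(2) is 3-transitive). -/
theorem result (d : ℕ) (hd : 3 ≤ d) (σ : Equiv.Perm (Fin d → ZMod 2)) (t : Fin 3 → (Fin d → ZMod 2)) :
    ∃ (A : (Fin d → ZMod 2) ≃ₗ[ZMod 2] (Fin d → ZMod 2)) (b : Fin d → ZMod 2), ∀ i, σ (t i) = A (t i) + b := by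
  have key : ∀ {V : Type} [AddCommGroup V] [Module (ZMod 2) V] (a b c : V) (k : Fin 2 → ZMod 2),
      (∑ i, k i • ![b - a, c - a] i = 0 ↔
        (k = ![0, 0] ∨ (k = ![1, 0] ∧ b = a) ∨ (k = ![0, 1] ∧ c = a) ∨ (k = ![1, 1] ∧ b = c))) := by
    intro V _ _ a b c k
    have hk : k = ![0, 0] ∨ k = ![1, 0] ∨ k = ![0, 1] ∨ k = ![1, 1] := by
      revert k; decide
    have h2 : ∀ x : V, x + x = 0 := fun x => by
      rw [← two_smul (ZMod 2) x, show (2 : ZMod 2) = 0 from rfl, zero_smul]
    have e1 : (![1, 0] : Fin 2 → ZMod 2) ≠ ![0, 0] := by decide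
    have e2 : (![1, 0] : Fin 2 → ZMod 2) ≠ ![0, 1] := by decide
    have e3 : (![1, 0] : Fin 2 → ZMod 2) ≠ ![1, 1] := by decide
    have e4 : (![0, 1] : Fin 2 → ZMod 2) ≠ ![0, 0] := by decide
    have e5 : (![0, 1] : Fin 2 → ZMod 2) ≠ ![1, 1] := by decide
    have e6 : (![1, 1] : Fin 2 → ZMod 2) ≠ ![0, 0] := by decide
    rcases hk with rfl | rfl | rfl | rfl
    · simp
    · simp [e1, e2, e3, sub_eq_zero]
    · simp [e4, e5, e2.symm, sub_eq_zero]
    · simp only [Fin.sum_univ_two, Matrix.cons_val_zero, Matrix.cons_val_one, one_smul, e6,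
        e3.symm, e5.symm, false_and, true_and, false_or]
      have : b - a + (c - a) = b - c := by
        have h3 := h2 c
        have h4 := h2 a
        calc b - a + (c - a) = b - c + (c + c) - (a + a) := by abel
          _ = b - c := by rw [h3, h4]; simp
      rw [this, sub_eq_zero]
  obtain ⟨A, hA⟩ := CL.Perm.exists_linearEquiv_of_same_relations (K := ZMod 2)
    ![t 1 - t 0, t 2 - t 0] ![σ (t 1) - σ (t 0), σ (t 2) - σ (t 0)] (fun k => by
      rw [key, key]
      simp only [σ.injective.eq_iff])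
  have h0 := hA 0
  have h1 := hA 1
  simp only [Matrix.cons_val_zero, Matrix.cons_val_one, map_sub] at h0 h1
  refine ⟨A, σ (t 0) - A (t 0), fun i => ?_⟩
  fin_cases i
  · simp
  · change σ (t 1) = A (t 1) + _
    rw [← sub_add_cancel (σ (t 1)) (σ (t 0)), ← h0]; abel
  · change σ (t 2) = A (t 2) + _
    rw [← sub_add_cancel (σ (t 2)) (σ (t 0)), ← h1]; abel

end Cfsg.Agent.S3517
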