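import Cfsg.Statements.S3518
import Cfsg.Agent.Perm.Closure

set_option autoImplicit false
open Cfsg

namespace Cfsg.Agent.S3518

/-- Closures of subgroups of the one-dimensional affine group. Let p be a prime and G a group of permutations of F_p lying in the affine group AGL₁(p) = {x ↦ ax + b, a ≠ 0} and containing all translations. (1) If G is a proper subgroup of AGL₁(p), then G is 2-closed: a permutation of F_p agreeing on every ordered pair of points with some element of G lies in G. (2) Every permutation of F_p agrees on every ordered pair with some element of AGL₁(p) (the 2-closure of AGL₁(p) is the symmetric group). (3) AGL₁(p) is 3-closed: a permutation agreeing on every ordered triple with some affine map is affine. -/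
theorem result (p : ℕ) [Fact p.Prime] (G : Subgroup (Equiv.Perm (ZMod p))) (hG : G ≤ Cfsg.affineGroup (ZMod p))
    (htrans : ∀ b : ZMod p, ∃ g ∈ G, ∀ x, g x = x + b) :
    (G ≠ Cfsg.affineGroup (ZMod p) → ∀ σ : Equiv.Perm (ZMod p), (∀ t : Fin 2 → ZMod p, ∃ g ∈ G, ∀ i, σ (t i) = g (t i)) → σ ∈ G) ∧
    (∀ σ : Equiv.Perm (ZMod p), (∀ t : Fin 2 → ZMod p, ∃ g ∈ Cfsg.affineGroup (ZMod p), ∀ i, σ (t i) = g (t i))) ∧
    (∀ σ : Equiv.Perm (ZMod p), (∀ t : Fin 3 → ZMod p, ∃ g ∈ Cfsg.affineGroup (ZMod p), ∀ i, σ (t i) = g (t i)) → σ ∈ Cfsg.affineGroup (ZMod p)) := by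
  classical
  have hbase : ∀ g ∈ Cfsg.affineGroup (ZMod p), (∀ i, g ((![0, 1] : Fin 2 → ZMod p) i)
      = (![0, 1] : Fin 2 → ZMod p) i) → g = 1 := by
    rintro g ⟨a, b, hg⟩ h
    have h0 := h 0
    have h1 := h 1
    simp only [Matrix.cons_val_zero, Matrix.cons_val_one, hg, mul_zero, zero_add, mul_one] at h0 h1
    rw [h0, add_zero] at h1
    ext x
    rw [hg, h0, h1]; simp
  refine ⟨fun hne σ hσ => ?_, fun σ t => ?_, fun σ hσ => ?_⟩
  · obtain ⟨τ, hτ, hτx⟩ := htrans 1
    have := CL.Perm.affine_or_two_transitive (G := CL.Perm.kClosure G 2) (e := Equiv.refl (ZMod p))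
      (σ := ⟨τ, CL.Perm.le_kClosure G 2 hτ⟩) (fun j => hτx j)
    rcases this with h | h
    · obtain ⟨a, b, hab⟩ := h ⟨σ, hσ⟩
      have hab' : ∀ j, σ j = a * j + b := hab
      obtain ⟨g, hg, h1⟩ := hσ ![0, 1]
      obtain ⟨c, d, hcd⟩ := hG hg
      have h0 := h1 0
      have h2 := h1 1
      simp only [Matrix.cons_val_zero, Matrix.cons_val_one, hab', hcd, mul_zero, zero_add,
        mul_one] at h0 h2
      rw [h0, add_left_inj] at h2
      have : σ = g := by
        ext x
        rw [hab', hcd, h0, h2]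
      exact this ▸ hg
    · exfalso
      apply hne
      refine le_antisymm hG fun s hs => ?_
      rw [MulAction.is_two_pretransitive_iff] at h
      obtain ⟨k, hk0, hk1⟩ := h (zero_ne_one : (0 : ZMod p) ≠ 1) (s.injective.ne zero_ne_one)
      obtain ⟨g, hg, h1⟩ := k.2 ![0, 1]
      have h2 : g⁻¹ * s = 1 := by
        refine hbase _ (mul_mem (inv_mem (hG hg)) hs) fun i => ?_
        rw [Equiv.Perm.mul_apply, Equiv.Perm.inv_eq_iff_eq, ← h1]
        fin_cases i
        · exact hk0.symm
        · exact hk1.symm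
      rw [← inv_mul_eq_one.mp h2]
      exact hg
  · by_cases h : t 0 = t 1
    · refine ⟨Equiv.addRight (σ (t 0) - t 0), ⟨1, σ (t 0) - t 0, fun x => by simp⟩, fun i => ?_⟩
      fin_cases i
      · simp
      · simp [h]
    · have h1 : t 1 - t 0 ≠ 0 := sub_ne_zero.mpr (Ne.symm h)
      have h2 : σ (t 1) - σ (t 0) ≠ 0 := sub_ne_zero.mpr (σ.injective.ne (Ne.symm h))
      have h3 : (σ (t 1) - σ (t 0)) / (t 1 - t 0) ≠ 0 := div_ne_zero h2 h1
      refine ⟨(Equiv.mulLeft₀ _ h3).trans
        (Equiv.addRight (σ (t 0) - (σ (t 1) - σ (t 0)) / (t 1 - t 0) * t 0)),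
        ⟨Units.mk0 _ h3, σ (t 0) - (σ (t 1) - σ (t 0)) / (t 1 - t 0) * t 0, fun x => by simp⟩,
        fun i => ?_⟩
      fin_cases i
      · simp
      · simp only [Fin.mk_one, Equiv.trans_apply, Equiv.mulLeft₀_apply, Equiv.coe_addRight]
        field_simp
        ring
  · exact CL.Perm.mem_of_base_of_approx _ 2 ![0, 1] hbase σ hσ

end Cfsg.Agent.S3518
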