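import Cfsg.Statements.S3532
import Cfsg.Agent.Perm.SpecFrobCyc
import Cfsg.Agent.Perm.SpecGL2

set_option autoImplicit false
open Cfsg

namespace Cfsg.Agent.S3532

/-- Let q ≥ 4 be a prime power and L = PSL(2,q). There is a finite solvable group with the same set of element orders as L × L (so L × L is not determined by its spectrum). -/
theorem result {F : Type*} [Field F] [Fintype F] (hF : 4 ≤ Fintype.card F) :
    ∃ (H : Type) (_ : Group H) (_ : Finite H), Group.IsSolvable H ∧
      Set.range (orderOf : H → ℕ) = Set.range (orderOf : Matrix.ProjectiveSpecialLinearGroup (Fin 2) F × Matrix.ProjectiveSpecialLinearGroup (Fin 2) F → ℕ) := by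
  obtain ⟨p, _, n, hp, hn⟩ := FiniteField.card' F
  have hq : p ∣ Fintype.card F := hn ▸ dvd_pow_self p n.ne_zero
  have ha : ¬ p ∣ (Fintype.card F - 1) / Nat.gcd 2 (Fintype.card F - 1) := by
    intro h
    have h3 := h.trans (Nat.div_dvd_of_dvd (Nat.gcd_dvd_right _ _))
    exact hp.one_lt.ne' (Nat.dvd_one.1 (by
      have := Nat.dvd_sub hq h3
      rwa [Nat.sub_sub_self (by omega)] at this))
  have hb : ¬ p ∣ (Fintype.card F + 1) / Nat.gcd 2 (Fintype.card F - 1) := by
    intro h
    have h4 : Nat.gcd 2 (Fintype.card F - 1) ∣ Fintype.card F + 1 := by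
      rw [show Fintype.card F + 1 = Fintype.card F - 1 + 2 by omega]
      exact dvd_add (Nat.gcd_dvd_right _ _) (Nat.gcd_dvd_left _ _)
    have h3 := h.trans (Nat.div_dvd_of_dvd h4)
    exact hp.one_lt.ne' (Nat.dvd_one.1 ((Nat.dvd_add_right hq).1 h3))
  obtain ⟨H, i1, i2, h1, -, h2⟩ := CL.Perm.exists_solvable_spec_sq hp ha hb
    (CL.Perm.spec_PSL2 (F := F) p)
  exact ⟨H, i1, i2, h1, h2⟩

end Cfsg.Agent.S3532
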