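import Cfsg.Statements.S3547
import Cfsg.Agent.Perm.Derange2

set_option autoImplicit false
open Cfsg

namespace Cfsg.Agent.S3547

/-- Let G act faithfully and transitively on a finite set Ω, let D be the subgroup generated by the derangements, and let r_G and r_D be the numbers of orbits of G and of D on ordered pairs of points (the permutation ranks). Then r_D − 1 = (r_G − 1)·[G : D]. -/
theorem result {G Ω : Type*} [Group G] [Finite G] [MulAction G Ω] [FaithfulSMul G Ω] [Finite Ω]
    (htrans : MulAction.IsPretransitive G Ω) :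
    Nat.card (MulAction.orbitRel.Quotient ↥(Subgroup.closure {g : G | ∀ ω : Ω, g • ω ≠ ω}) (Ω × Ω)) - 1 =
      (Nat.card (MulAction.orbitRel.Quotient G (Ω × Ω)) - 1) * (Subgroup.closure {g : G | ∀ ω : Ω, g • ω ≠ ω}).index := by
  classical
  change Nat.card (MulAction.orbitRel.Quotient (CL.Perm.derSub G Ω) (Ω × Ω)) - 1 =
    (Nat.card (MulAction.orbitRel.Quotient G (Ω × Ω)) - 1) * (CL.Perm.derSub G Ω).index
  set D := CL.Perm.derSub G Ω with hD
  rcases isEmpty_or_nonempty Ω with hΩ | hΩ
  · have e1 : IsEmpty (MulAction.orbitRel.Quotient D (Ω × Ω)) :=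
      ⟨fun x => Quotient.inductionOn x fun y => hΩ.elim y.1⟩
    have e2 : IsEmpty (MulAction.orbitRel.Quotient G (Ω × Ω)) :=
      ⟨fun x => Quotient.inductionOn x fun y => hΩ.elim y.1⟩
    simp
  have := Fintype.ofFinite G
  have h1 := CL.Perm.sum_card_fixedBy_eq (G := G) (α := Ω × Ω)
  have h2 : ∑ g ∈ Finset.univ.filter (· ∈ D), Nat.card (MulAction.fixedBy (Ω × Ω) g) =
      Nat.card (MulAction.orbitRel.Quotient D (Ω × Ω)) * Nat.card D := by
    rw [← CL.Perm.sum_card_fixedBy_eq, Finset.sum_subtype (p := (· ∈ D)) _ (by simp)]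
    rfl
  have h3 : (Finset.univ.filter (· ∈ D)).card = Nat.card D := by
    rw [Nat.card_eq_fintype_card, Fintype.card_subtype]
  have h4 : ∑ g ∈ Finset.univ.filter (· ∉ D), Nat.card (MulAction.fixedBy (Ω × Ω) g) =
      (Finset.univ.filter (· ∉ D)).card := by
    rw [Finset.card_eq_sum_ones]
    refine Finset.sum_congr rfl fun g hg => ?_
    rw [CL.Perm.card_fixedBy_prod,
      (CL.Perm.isPretransitive_and_card_fixedBy_of_derangements_le D
        (fun g hg => CL.Perm.mem_derSub hg)).2 g (Finset.mem_filter.mp hg).2, one_pow]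
  have h5 := Finset.sum_filter_add_sum_filter_not Finset.univ (· ∈ D)
    (fun g : G => Nat.card (MulAction.fixedBy (Ω × Ω) g))
  have h6 := Finset.card_filter_add_card_filter_not (s := Finset.univ) (fun g : G => g ∈ D)
  rw [h2, h4, h1] at h5
  rw [h3, Finset.card_univ, ← Nat.card_eq_fintype_card] at h6
  have h7 := D.index_mul_card
  have hne : Nonempty (MulAction.orbitRel.Quotient D (Ω × Ω)) :=
    (inferInstance : Nonempty (Ω × Ω)).map (Quotient.mk _)
  have hne' : Nonempty (MulAction.orbitRel.Quotient G (Ω × Ω)) :=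
    (inferInstance : Nonempty (Ω × Ω)).map (Quotient.mk _)
  obtain ⟨a, ha⟩ := Nat.exists_eq_add_one_of_ne_zero
    (Nat.card_pos (α := MulAction.orbitRel.Quotient D (Ω × Ω))).ne'
  obtain ⟨b, hb⟩ := Nat.exists_eq_add_one_of_ne_zero
    (Nat.card_pos (α := MulAction.orbitRel.Quotient G (Ω × Ω))).ne'
  rw [ha, hb] at h5 ⊢
  simp only [Nat.add_sub_cancel]
  apply Nat.eq_of_mul_eq_mul_right (Nat.card_pos (α := D))
  rw [mul_assoc, h7]
  nlinarith

end Cfsg.Agent.S3547
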