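import Cfsg.Statements.S3548
import Cfsg.Agent.Perm.Derange2

set_option autoImplicit false
open Cfsg

namespace Cfsg.Agent.S3548

/-- Let G act faithfully and transitively on a finite set with n ≥ 2 points and let D be the subgroup generated by the derangements. Then the index of D in G divides n − 1, and if it equals n − 1 then n is a prime power. -/
theorem result {G Ω : Type*} [Group G] [Finite G] [MulAction G Ω] [FaithfulSMul G Ω] [Finite Ω]
    (htrans : MulAction.IsPretransitive G Ω) (hΩ : 2 ≤ Nat.card Ω) :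
    (Subgroup.closure {g : G | ∀ ω : Ω, g • ω ≠ ω}).index ∣ Nat.card Ω - 1 ∧
    ((Subgroup.closure {g : G | ∀ ω : Ω, g • ω ≠ ω}).index = Nat.card Ω - 1 → IsPrimePow (Nat.card Ω)) := by
  classical
  change (CL.Perm.derSub G Ω).index ∣ _ ∧ ((CL.Perm.derSub G Ω).index = _ → _)
  set D := CL.Perm.derSub G Ω with hD
  have hDd : ∀ g : G, (∀ x : Ω, g • x ≠ x) → g ∈ D := fun g hg => CL.Perm.mem_derSub hg
  have hnt : Nontrivial Ω := Finite.one_lt_card_iff_nontrivial.mp hΩ
  refine ⟨CL.Perm.index_dvd_card_sub_one_of_derangements_le D hDd, fun hidx => ?_⟩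
  have hDt := (CL.Perm.isPretransitive_and_card_fixedBy_of_derangements_le D hDd).1
  obtain ⟨a⟩ : Nonempty Ω := inferInstance
  have horb : ∀ b : Ω, b ≠ a → MulAction.orbit (MulAction.stabilizer G a) b = {a}ᶜ := by
    intro b hb
    have hsub : MulAction.orbit (MulAction.stabilizer G a) b ⊆ {a}ᶜ := by
      rintro _ ⟨g, rfl⟩ h
      exact hb (smul_left_cancel (g : G) ((Set.mem_singleton_iff.mp h).trans g.2.symm))
    have h1 := CL.Perm.index_dvd_ncard_of_derangements_le D hDd a
      (MulAction.orbit (MulAction.stabilizer G a) b) (fun h => hsub h rfl) (by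
        rintro g hg _ ⟨k, rfl⟩
        exact ⟨⟨g, hg⟩ * k, mul_smul _ _ _⟩)
    refine Set.eq_of_subset_of_ncard_le hsub ?_
    rw [Set.ncard_compl, Set.ncard_singleton, ← hidx]
    exact Nat.le_of_dvd ((Set.ncard_pos (Set.toFinite _)).mpr ⟨b, MulAction.mem_orbit_self b⟩) h1
  have hreg : MulAction.stabilizer D a = ⊥ := by
    rw [eq_bot_iff]
    intro d hd
    rw [Subgroup.mem_bot]
    apply Subtype.ext
    refine (faithfulSMul_iff (G := G) (α := Ω)).mp inferInstance _ fun b => ?_
    by_cases hb : b = a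
    · rw [hb]; exact hd
    have h1 : MulAction.stabilizer (MulAction.stabilizer G a) b ≤
        D.subgroupOf (MulAction.stabilizer G a) := fun g hg =>
      CL.Perm.mem_of_fix_two_of_derangements_le D hDd (Ne.symm hb) g.2 hg
    have h2 : (MulAction.stabilizer (MulAction.stabilizer G a) b).index =
        (D.subgroupOf (MulAction.stabilizer G a)).index := by
      rw [MulAction.index_stabilizer, horb b hb, Set.ncard_compl, Set.ncard_singleton, ← hidx]
      exact (CL.Perm.relIndex_stabilizer_of_transitive D a).symm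
    have h3 : MulAction.stabilizer (MulAction.stabilizer G a) b =
        D.subgroupOf (MulAction.stabilizer G a) := by
      apply Subgroup.eq_of_le_of_card_ge h1
      have e1 := (MulAction.stabilizer (MulAction.stabilizer G a) b).index_mul_card
      have e2 := (D.subgroupOf (MulAction.stabilizer G a)).index_mul_card
      rw [h2, ← e2] at e1
      exact (Nat.eq_of_mul_eq_mul_left (Nat.pos_of_ne_zero Subgroup.index_ne_zero_of_finite) e1).ge
    have h4 : (⟨d, hd⟩ : MulAction.stabilizer G a) ∈ D.subgroupOf (MulAction.stabilizer G a) := d.2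
    rw [← h3] at h4
    exact h4
  have h2t : MulAction.IsMultiplyPretransitive G Ω 2 := by
    rw [MulAction.is_two_pretransitive_iff]
    intro x y z w hxy hzw
    obtain ⟨g, hg⟩ := MulAction.exists_smul_eq G x a
    obtain ⟨k, hk⟩ := MulAction.exists_smul_eq G z a
    have e1 : g • y ≠ a := fun h => hxy (smul_left_cancel g (hg.trans h.symm))
    have e2 : k • w ≠ a := fun h => hzw (smul_left_cancel k (hk.trans h.symm))
    have e3 : k • w ∈ MulAction.orbit (MulAction.stabilizer G a) (g • y) := by
      rw [horb _ e1]; exact e2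
    obtain ⟨s, hs⟩ := e3
    refine ⟨k⁻¹ * s * g, ?_, ?_⟩
    · rw [mul_smul, mul_smul, hg, s.2, inv_smul_eq_iff, hk]
    · rw [mul_smul, mul_smul, inv_smul_eq_iff]
      exact hs
  have hcard : Nat.card D = Nat.card Ω := by
    rw [← MulAction.index_stabilizer_of_transitive D a, hreg, Subgroup.index_bot]
  have hD0 : D ≠ ⊥ := by
    intro h
    rw [h, Subgroup.card_bot] at hcard
    omega
  obtain ⟨p, hp, hpn⟩ := CL.Perm.exists_isPGroup_of_regular_normal h2t hD0 hreg
  have : Fact p.Prime := ⟨hp⟩
  have hP : IsPGroup p D := fun d => ⟨1, by rw [pow_one]; exact Subtype.ext (hpn d d.2)⟩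
  obtain ⟨k, hk⟩ := IsPGroup.iff_card.mp hP
  rw [← hcard, hk]
  refine ⟨p, k, hp.prime, Nat.pos_of_ne_zero fun h => ?_, rfl⟩
  rw [h, pow_zero, hcard] at hk
  omega

end Cfsg.Agent.S3548
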