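import Cfsg.Statements.S3560
import Cfsg.Agent.Base

set_option autoImplicit false
open Cfsg

namespace Cfsg.Agent.S3560

open MulAction

/-- Adjacency in the Hamming graph. -/
def HAdj {ι α : Type*} (x y : ι → α) : Prop := ∃ i, x i ≠ y i ∧ ∀ j, j ≠ i → x j = y j

/-- The automorphism group of the Hamming graph, transported along `c`. -/
def HAut {ι α β : Type*} (c : β ≃ (ι → α)) : Subgroup (Equiv.Perm β) where
  carrier := {σ | ∀ x y, HAdj (c (σ x)) (c (σ y)) ↔ HAdj (c x) (c y)}
  mul_mem' {a b} ha hb x y := (ha _ _).trans (hb x y)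
  one_mem' _ _ := Iff.rfl
  inv_mem' {a} ha x y := by rw [← ha]; simp

theorem exists_mem {ι α β : Type*} (c : β ≃ (ι → α)) (π : Equiv.Perm ι) (τ : ι → Equiv.Perm α) :
    ∃ g : HAut c, ∀ x i, c (g • x) i = τ i (c x (π i)) := by
  let t : Equiv.Perm (ι → α) := (Equiv.arrowCongr π.symm (Equiv.refl α)).trans (Equiv.piCongrRight τ)
  refine ⟨⟨c.symm.permCongr t, fun x y => ?_⟩, fun x i => by simp [t, Subgroup.smul_def]⟩
  simp only [HAdj, t, Equiv.permCongr_apply, Equiv.apply_symm_apply, Equiv.symm_symm, Equiv.trans_apply,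
    Equiv.piCongrRight_apply, Pi.map_apply, Equiv.arrowCongr_apply, Equiv.coe_refl, Function.comp, id, ne_eq,
    EmbeddingLike.apply_eq_iff_eq]
  exact ⟨fun ⟨i, h, h'⟩ => ⟨π i, h, fun j hj => by simpa using h' (π.symm j) fun e => hj (by simp [← e])⟩,
    fun ⟨i, h, h'⟩ => ⟨π.symm i, by simpa using h, fun j hj => h' _ fun e => hj (by simp [← e])⟩⟩

theorem prim {ι β : Type*} [Finite ι] {m : ℕ} (hm : 3 ≤ m) (c : β ≃ (ι → Fin m)) : IsPreprimitive (HAut c) β := by
  classical
  have tr : IsPretransitive (HAut c) β := ⟨fun x y => by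
    obtain ⟨g, hg⟩ := exists_mem c 1 fun i => Equiv.swap (c x i) (c y i)
    exact ⟨g, c.injective (funext fun i => by simp [hg])⟩⟩
  refine ⟨fun {B} hB => or_iff_not_imp_left.2 fun h => ?_⟩
  obtain ⟨x, hx, y, hy, hxy⟩ := Set.not_subsingleton_iff.1 h
  have cl : ∀ (g : HAut c), ∀ u ∈ B, g • u ∈ B → ∀ v ∈ B, g • v ∈ B := fun g u hu hu' v hv =>
    hB.smul_eq_of_mem hu hu' ▸ Set.smul_mem_smul_set hv
  obtain ⟨i, hi⟩ := Function.ne_iff.1 (c.injective.ne hxy)
  obtain ⟨z, hz⟩ : ∃ z, z ∉ ({c x i, c y i} : Finset (Fin m)) :=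
    by_contra fun h => by
      have := Finset.card_le_two (a := c x i) (b := c y i)
      rw [Finset.eq_univ_of_forall (s := {c x i, c y i}) (by simpa only [not_exists, not_not] using h)] at this
      simp at this; omega
  simp only [Finset.mem_insert, Finset.mem_singleton, not_or] at hz
  obtain ⟨g, hg⟩ := exists_mem c 1 (Function.update 1 i (Equiv.swap (c y i) z))
  have hy' := cl g x hx (by
    convert hx
    refine c.injective (funext fun j => ?_)
    by_cases e : j = i
    · subst e; simp [hg, Equiv.swap_apply_of_ne_of_ne hi (Ne.symm hz.1)]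
    · simp [hg, e]) y hy
  have h1 : ∀ u ∈ B, ∀ v, HAdj (c u) (c v) → v ∈ B := fun u hu v ⟨j, h1, h2⟩ => by
    obtain ⟨k, hk⟩ := exists_mem c (Equiv.swap i j) fun l => if l = j then
      (Equiv.swap (c y i) (c u j)).trans (Equiv.swap (Equiv.swap (c y i) (c u j) z) (c v j))
      else Equiv.swap (c y (Equiv.swap i j l)) (c u l)
    have e1 : k • y = u := c.injective (funext fun l => by
      by_cases e : l = j
      · subst e
        simp only [hk, if_true, Equiv.swap_apply_right, Equiv.trans_apply, Equiv.swap_apply_left]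
        exact Equiv.swap_apply_of_ne_of_ne (fun e => hz.2 (by simpa using congrArg (Equiv.swap (c y i) (c u l)) e.symm)) h1
      · simp [hk, e])
    convert cl k y hy (e1 ▸ hu) _ hy'
    refine c.injective (funext fun l => ?_)
    by_cases e : l = j
    · subst e; simp [hk, hg]
    · have : Equiv.swap i j l ≠ i := fun e' => e (by simpa using congrArg (Equiv.swap i j) e')
      simp [hk, hg, e, this, h2 l e]
  have := Fintype.ofFinite ι
  have h2 : ∀ (s : Finset ι) (v : β), (∀ l ∉ s, c v l = c x l) → v ∈ B := fun s => by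
    refine s.induction_on (fun v hv => c.injective (funext fun l => hv l (by simp)) ▸ hx) fun a s ha ih v hv => ?_
    have h3 := ih (c.symm (Function.update (c v) a (c x a))) fun l hl => by
      by_cases e : l = a
      · simp [e]
      · simp [e, hv l (by simp [e, hl])]
    by_cases e : c x a = c v a
    · simpa [e] using h3
    · exact h1 _ h3 v ⟨a, by simpa using e, fun j hj => by simp [hj]⟩
  exact Set.eq_univ_of_forall fun v => h2 Finset.univ v (by simp)


/-- Let K be a finite group isomorphic to a direct product of r ≥ 2 groups all of the same order m ≥ 3. Then K is not a B-group: there is a primitive but not doubly transitive permutation group (on some finite set) containing a regular subgroup isomorphic to K. -/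
theorem result {K : Type*} [Group K] [Finite K] {ι : Type*} [Fintype ι] (F : ι → Type*) [∀ i, Group (F i)]
    (hr : 2 ≤ Fintype.card ι) (m : ℕ) (hm : 3 ≤ m) (hcard : ∀ i, Nat.card (F i) = m) (e : K ≃* (∀ i, F i)) :
    ∃ (n : ℕ) (G R : Subgroup (Equiv.Perm (Fin n))), R ≤ G ∧ Nonempty (↥R ≃* K) ∧
      MulAction.IsPretransitive ↥R (Fin n) ∧ (∀ a : Fin n, MulAction.stabilizer ↥R a = ⊥) ∧
      MulAction.IsPreprimitive ↥G (Fin n) ∧ ¬ MulAction.IsMultiplyPretransitive ↥G (Fin n) 2 := by
  classical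
  have hF : ∀ i, Finite (F i) := fun i => Nat.finite_of_card_ne_zero (by rw [hcard]; omega)
  let ε : ∀ i, F i ≃ Fin m := fun i => Finite.equivFinOfCardEq (hcard i)
  let b := Finite.equivFin K
  let c : Fin (Nat.card K) ≃ (ι → Fin m) := b.symm.trans (e.toEquiv.trans (Equiv.piCongrRight ε))
  let φ : K →* Equiv.Perm (Fin (Nat.card K)) := b.permCongrHom.toMonoidHom.comp (MulAction.toPermHom K K)
  have hφ : ∀ k x, φ k x = b (k * b.symm x) := fun _ _ => rfl
  have hi : Function.Injective φ := b.permCongrHom.injective.comp MulAction.toPerm_injective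
  refine ⟨_, HAut c, φ.range, ?_, ⟨(φ.ofInjective hi).symm⟩, ⟨fun x y => ⟨⟨φ (b.symm y * (b.symm x)⁻¹), _, rfl⟩, ?_⟩⟩,
    fun a => eq_bot_iff.2 ?_, prim hm c, fun h => ?_⟩
  · rintro _ ⟨k, rfl⟩ x y
    simp [HAdj, hφ, c]
  · exact (hφ _ _).trans (by simp)
  · rintro ⟨_, k, rfl⟩ hk
    have : b (k * b.symm a) = a := hk
    obtain rfl : k = 1 := by simpa using congrArg b.symm this
    exact Subtype.ext (map_one φ)
  · obtain ⟨i, j, hij⟩ := Fintype.one_lt_card_iff.1 hr
    have h0 : (⟨0, by omega⟩ : Fin m) ≠ ⟨1, by omega⟩ := by simp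
    have h' : ∀ {a b c' d : Fin (Nat.card K)}, a ≠ b → c' ≠ d → ∃ g : HAut c, g • a = c' ∧ g • b = d :=
      MulAction.is_two_pretransitive_iff.1 h
    obtain ⟨g, h1, h2⟩ := @h'
      (c.symm fun _ => ⟨0, by omega⟩) (c.symm (Function.update (fun _ => ⟨0, by omega⟩) i ⟨1, by omega⟩))
      (c.symm fun _ => ⟨0, by omega⟩) (c.symm fun _ => ⟨1, by omega⟩)
      (c.symm.injective.ne fun e => h0 (by simpa using congrFun e i)) (c.symm.injective.ne fun e => h0 (congrFun e i))
    have := (g.2 (c.symm fun _ => ⟨0, by omega⟩) (c.symm (Function.update (fun _ => ⟨0, by omega⟩) i ⟨1, by omega⟩))).2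
      ⟨i, by simp, fun j hj => by simp [hj]⟩
    change HAdj (c (g • _)) (c (g • _)) at this
    rw [h1, h2] at this
    obtain ⟨k, -, hk⟩ := this
    by_cases e : i = k
    · exact h0 (by simpa using hk j (e ▸ hij.symm))
    · exact h0 (by simpa using hk i e)

end Cfsg.Agent.S3560
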