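import Cfsg.Statements.S3571
import Cfsg.Agent.Perm.AltDer
import Cfsg.Agent.S2119

set_option autoImplicit false
open Cfsg

namespace Cfsg.Agent.S3571

open scoped Pointwise

/-- Let G be an almost simple group whose socle is an alternating group of degree m ≥ 5 (G has a normal subgroup T isomorphic to that alternating group with trivial centralizer), acting faithfully and primitively on a finite set Ω with at least two points, and let r be the largest prime divisor of the number of points. Then G contains an element of order r fixing no point. -/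
theorem result {G Ω : Type*} [Group G] [Finite G] [MulAction G Ω] [FaithfulSMul G Ω] [Finite Ω]
    (T : Subgroup G) (hT : T.Normal) (hTc : Subgroup.centralizer (T : Set G) = ⊥) (m : ℕ) (hm : 5 ≤ m)
    (eT : ↥T ≃* ↥(alternatingGroup (Fin m))) (hprim : MulAction.IsPreprimitive G Ω) (hΩ : 2 ≤ Nat.card Ω)
    (r : ℕ) (hr : r.Prime) (hrd : r ∣ Nat.card Ω) (hmax : ∀ s : ℕ, s.Prime → s ∣ Nat.card Ω → s ≤ r) :
    ∃ g : G, orderOf g = r ∧ ∀ ω : Ω, g • ω ≠ ω := by
  classical
  have : Nontrivial Ω := Finite.one_lt_card_iff_nontrivial.1 hΩ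
  obtain ⟨ω⟩ : Nonempty Ω := inferInstance
  have hm' : 5 ≤ Fintype.card (Fin m) := by simpa using hm
  have hA := alternatingGroup.isPretransitive_of_three_le_card (Fin m) (by simpa using le_trans (by norm_num) hm)
  let f : alternatingGroup (Fin m) →* G := T.subtype.comp eT.symm.toMonoidHom
  have hf : Function.Injective f := T.subtype_injective.comp eT.symm.injective
  have hTt : MulAction.IsPretransitive T Ω := MulAction.IsQuasiPreprimitive.isPretransitive_of_normal fun e => by
    have : Nontrivial (alternatingGroup (Fin m)) :=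
      alternatingGroup.nontrivial_of_three_le_card (by simpa using le_trans (by norm_num) hm)
    obtain ⟨x, hx⟩ := exists_ne (1 : alternatingGroup (Fin m))
    refine hx (hf (eq_of_smul_eq_smul (α := Ω) fun a => ?_))
    rw [map_one, one_smul]
    exact (e.ge (Set.mem_univ a)) (eT.symm x)
  set H := MulAction.stabilizer G ω with hH
  have hi : (H.comap f).index = Nat.card Ω := by
    rw [← Subgroup.comap_comap, Subgroup.index_comap_of_surjective _ eT.symm.surjective,
      ← MulAction.index_stabilizer_of_transitive T ω]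
    rfl
  have hK : H.comap f ≠ ⊤ := fun e => by
    rw [e, Subgroup.index_top] at hi
    omega
  obtain ⟨x, hx, h1⟩ := CL.Perm.AltDer.main hm' hK hr (hi ▸ hrd) (hi ▸ hmax) (by
    by_cases h6 : m = 6
    · exact Or.inl (by simpa using h6)
    right
    let c := MulEquiv.ofBijective _ (Cfsg.Agent.S2119.result m (by omega) h6)
    let φ : G →* Equiv.Perm (Fin m) :=
      (c.symm.toMonoidHom.comp (MulAut.congr eT).toMonoidHom).comp (MulAut.conjNormal (H := T))
    have hφ : ∀ x : alternatingGroup (Fin m), φ (f x) = x := fun x => c.symm_apply_eq.2 (MulEquiv.ext fun y => by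
      have e1 : MulAut.conjNormal (H := T) (f x) (eT.symm y) = eT.symm x * eT.symm y * (eT.symm x)⁻¹ := Subtype.ext rfl
      change eT (MulAut.conjNormal (H := T) (f x) (eT.symm y)) = _
      rw [e1, map_mul, map_mul, map_inv, eT.apply_symm_apply, eT.apply_symm_apply]
      rfl)
    have hinj : Function.Injective φ := (injective_iff_map_eq_one φ).2 fun g hg => by
      have e1 : MulAut.conjNormal (H := T) g = 1 :=
        (MulAut.congr eT).injective (c.symm.injective (by rw [map_one, map_one]; exact hg))
      refine Subgroup.mem_bot.1 (hTc.le (Subgroup.mem_centralizer_iff.2 fun t ht => ?_))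
      exact (mul_inv_eq_iff_eq_mul.1 (congrArg Subtype.val (MulEquiv.congr_fun e1 ⟨t, ht⟩))).symm
    by_cases h : MulAction.IsPretransitive (H.map φ) (Fin m)
    · refine Or.inl ⟨H.map φ, Subgroup.ext fun x => ?_, h⟩
      rw [Subgroup.mem_comap, Subgroup.mem_comap, Subgroup.subtype_apply, ← hφ, Subgroup.mem_map_iff_mem hinj]
    right
    let y : Fin m := ⟨0, by omega⟩
    obtain ⟨b, hb⟩ : ∃ b, b ∉ MulAction.orbit (H.map φ) y :=
      not_forall.1 fun e => h ((MulAction.isPretransitive_iff_base y).2 e)
    have hle : H ≤ (MulAction.stabilizer _ (MulAction.orbit (H.map φ) y).toFinset).comap φ := fun g hg => by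
      rw [Subgroup.mem_comap, MulAction.mem_stabilizer_iff, ← Finset.coe_inj, Finset.coe_smul_finset, Set.coe_toFinset]
      exact MulAction.smul_orbit (⟨φ g, Subgroup.mem_map_of_mem φ hg⟩ : H.map φ) y
    have heq := (((MulAction.isCoatom_stabilizer_iff_preprimitive G ω).2 hprim).le_iff.1 hle).resolve_left fun e => by
      obtain ⟨x, hx⟩ := hA.exists_smul_eq y b
      have e1 := MulAction.mem_stabilizer_iff.1 (Subgroup.mem_comap.1 (e.ge (Subgroup.mem_top (f x))))
      rw [hφ] at e1
      exact hb (Set.mem_toFinset.1 (e1 ▸ hx ▸ Finset.smul_mem_smul_finset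
        (Set.mem_toFinset.2 (MulAction.mem_orbit_self y))))
    refine ⟨(MulAction.orbit (H.map φ) y).toFinset, Subgroup.ext fun x => ?_⟩
    rw [Subgroup.mem_comap]
    conv_lhs => rw [hH, ← heq, Subgroup.mem_comap, hφ]
    rfl)
  refine ⟨f x, (orderOf_injective f hf x).trans hx, fun a ha => ?_⟩
  obtain ⟨t, rfl⟩ := hTt.exists_smul_eq ω a
  refine h1 (eT t)⁻¹ (MulAction.mem_stabilizer_iff.2 ?_)
  have e1 : f (eT t) = t := by simp [f]
  rw [inv_inv, map_mul, map_mul, map_inv, e1, mul_smul, mul_smul, inv_smul_eq_iff]
  exact ha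

end Cfsg.Agent.S3571
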