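import Cfsg.Statements.S3572
import Cfsg.Agent.Perm.SRingDih3

set_option autoImplicit false
open Cfsg

namespace Cfsg.Agent.S3572

open CL.Perm

/-- A finite primitive permutation group containing a dihedral subgroup that acts regularly (transitively with trivial point stabilizers) is doubly transitive. -/
theorem result {G Ω : Type*} [Group G] [Finite G] [MulAction G Ω] [FaithfulSMul G Ω] [Finite Ω]
    (hprim : MulAction.IsPreprimitive G Ω) (D : Subgroup G) (m : ℕ) (hD : Nonempty (↥D ≃* DihedralGroup m))
    (hDreg : MulAction.IsPretransitive ↥D Ω ∧ ∀ a : Ω, MulAction.stabilizer ↥D a = ⊥) :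
    MulAction.IsMultiplyPretransitive G Ω 2 := by
  rcases isEmpty_or_nonempty Ω with h | ⟨⟨ω⟩⟩
  · rw [MulAction.is_two_pretransitive_iff]
    intro a; exact isEmptyElim a
  obtain ⟨e⟩ := hD
  let ι : Multiplicative (ZMod m) →* DihedralGroup m :=
    { toFun := fun i => DihedralGroup.r i.toAdd
      map_one' := rfl
      map_mul' := fun _ _ => rfl }
  have hι : ∀ i, ι i = DihedralGroup.r i.toAdd := fun _ => rfl
  have h : IsGenDih ι (DihedralGroup.sr 0) :=
    { inj := fun i j h => Multiplicative.toAdd.injective (DihedralGroup.r.inj h)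
      inv := fun c => by simp [hι]
      sq := DihedralGroup.sr_mul_self 0
      cov := by
        rintro (i | i)
        · exact Or.inl ⟨.ofAdd i, rfl⟩
        · exact Or.inr ⟨.ofAdd (-i), by simp [hι]⟩
      ne := fun c h => by simp [hι] at h }
  exact h.two_transitive _ ω (bijective_of_regular D e hDreg ω)

end Cfsg.Agent.S3572
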