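import Cfsg.Statements.S3573
import Cfsg.Agent.Perm.PrimeCycle

set_option autoImplicit false
open Cfsg

namespace Cfsg.Agent.S3573

/-- Let 1 ≤ k with 2k < n and consider the symmetric group of degree n acting on the k-subsets of an n-set. Let r be a prime dividing the number C(n,k) of k-subsets. If r is odd, then every permutation of order r fixes some k-subset if and only if r ≤ k and the remainder of k modulo r is at most the remainder of n modulo r. If r = 2, then every involution fixes some k-subset if and only if k is even or n is odd. -/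
theorem result (n k : ℕ) (hk : 1 ≤ k) (hkn : 2 * k < n) (r : ℕ) (hr : r.Prime) (hrd : r ∣ Nat.choose n k) :
    (r ≠ 2 → ((∀ σ : Equiv.Perm (Fin n), orderOf σ = r → ∃ s : Finset (Fin n), s.card = k ∧ s.image σ = s) ↔
      (r ≤ k ∧ k % r ≤ n % r))) ∧
    (r = 2 → ((∀ σ : Equiv.Perm (Fin n), orderOf σ = 2 → ∃ s : Finset (Fin n), s.card = k ∧ s.image σ = s) ↔
      (Even k ∨ Odd n))) := by
  have : Fact r.Prime := ⟨hr⟩
  have hdf : ∀ a b : ℕ, b ≤ a → r ∣ a.choose b → r ≤ a := by
    intro a b hab h
    rw [← hr.dvd_factorial, ← Nat.choose_mul_factorial_mul_factorial hab, mul_assoc]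
    exact h.mul_right _
  have hrn : r ≤ n := hdf n k (by omega) hrd
  have key := CL.Perm.forall_prime_order_fix_subset_iff (α := Fin n) (k := k) hr
    (by rw [Fintype.card_fin]; exact hrn) (by rw [Fintype.card_fin]; omega)
  rw [Fintype.card_fin] at key
  refine ⟨fun _ => ?_, fun h2 => ?_⟩
  · rw [key]
    refine ⟨fun h => ⟨?_, h⟩, fun h => h.2⟩
    by_contra hlt
    have hlt' : k < r := not_le.mp hlt
    have h1 := Choose.choose_modEq_choose_mod_mul_choose_div_nat (n := n) (k := k) (p := r)
    rw [Nat.div_eq_of_lt hlt', Nat.choose_zero_right, mul_one] at h1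
    have h2 := hdf _ _ h ((h1.dvd_iff dvd_rfl).mp hrd)
    exact absurd (Nat.mod_lt n hr.pos) (not_lt.mpr h2)
  · subst h2
    rw [key, Nat.even_iff, Nat.odd_iff]
    omega

end Cfsg.Agent.S3573
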