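import Cfsg.Statements.S3575
import Cfsg.Agent.Base

set_option autoImplicit false
open Cfsg

namespace Cfsg.Agent.S3575

open Equiv Finset

theorem arith {a b r : ℕ} (ha : 2 ≤ a) (hb : 2 ≤ b) (hr : 2 ≤ r) (h : r ≤ a * b) :
    (∀ c, 1 ≤ c → c * r ≤ a * b → ∃ t, t * r ≤ b ∧ a * t ≤ c ∧ c ≤ a * t + (b - t * r) * (a / r)) ↔
      (r ≤ a ∧ (a % r = 0 ∨ (b % r = 0 ∧ a % r = 1) ∨
        (a % r ≠ 0 ∧ b % r ≠ 0 ∧ (b % r) * (a % r) < r ∧ (b < r ∨ (b % r + r) * (a % r) ≤ (b % r) * a + r)))) := by
  have e1 := Nat.div_add_mod a r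
  have e2 := Nat.div_add_mod b r
  have l1 := Nat.mod_lt a (show 0 < r by omega)
  have l2 := Nat.mod_lt b (show 0 < r by omega)
  generalize a / r = α, a % r = l, b / r = β, b % r = k at *
  have key : ∀ t, t * r ≤ b → t ≤ β ∧ a * t + (b - t * r) * α = b * α + t * l := fun t ht => by
    refine ⟨by by_contra! e; nlinarith, ?_⟩
    obtain ⟨d, rfl⟩ := Nat.exists_eq_add_of_le ht
    rw [Nat.add_sub_cancel_left, ← e1]; ring
  have e3 := Nat.div_add_mod (k * l) r
  have l3 := Nat.mod_lt (k * l) (show 0 < r by omega)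
  have e4 : a * b = (b * α + β * l) * r + k * l := by rw [← e1, ← e2]; ring
  trans k * l < r ∧ (β = 0 ∨ l ≤ k * α + 1)
  · refine ⟨fun H => ⟨?_, ?_⟩, fun ⟨h1, h2⟩ c c1 c2 => ?_⟩
    · obtain ⟨t, h1, -, h2⟩ := H (b * α + β * l + k * l / r) (by by_contra! e; nlinarith) (by rw [e4, add_mul _ (k * l / r), mul_comm (k * l / r)]; omega)
      obtain ⟨h3, h4⟩ := key t h1
      have : k * l / r = 0 := by nlinarith
      nlinarith
    · rcases β with _ | β
      · exact .inl rfl
      rcases l with _ | l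
      · omega
      obtain ⟨t, h1, h5, h2⟩ := H (b * α + β * (l + 1) + 1) (by omega) (by nlinarith)
      obtain ⟨h3, h4⟩ := key t h1
      obtain rfl : t = β + 1 := by by_contra! e; nlinarith [show t ≤ β by omega]
      right; nlinarith
    · have h3 : c ≤ b * α + β * l := by by_contra! e; nlinarith
      have h4 : ∃ t, c ≤ b * α + t * l := ⟨β, h3⟩
      have h5 := Nat.find_min' h4 h3
      have h6 := Nat.find_spec h4
      have h7 := @Nat.find_min _ _ h4
      generalize Nat.find h4 = t at *
      have h8 : t * r ≤ b := by nlinarith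
      refine ⟨t, h8, ?_, (key t h8).2 ▸ h6⟩
      rcases t with _ | t
      · simp
      have := h7 (Nat.lt_succ_self t)
      rcases h2 with h2 | h2
      · omega
      nlinarith [Nat.mul_le_mul_left (r * α) h5]
  · have e5 : (k + r) * l ≤ k * a + r ↔ l ≤ k * α + 1 := by
      rw [← e1]; constructor <;> intro e <;> nlinarith
    have e6 : b < r ↔ β = 0 := ⟨fun e => by nlinarith, fun e => by nlinarith⟩
    rw [e5, e6]
    refine ⟨fun ⟨h1, h2⟩ => ⟨?_, ?_⟩, ?_⟩
    · rcases α with _ | α
      · rcases h2 with rfl | h2 <;> nlinarith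
      · nlinarith
    · rcases k with _ | k
      · rcases h2 with rfl | h2 <;> omega
      by_cases h : l = 0
      exacts [.inl h, .inr (.inr ⟨h, by omega, h1, h2⟩)]
    · rintro ⟨-, rfl | ⟨rfl, rfl⟩ | ⟨-, -, h1, h2⟩⟩
      exacts [⟨by omega, .inr (by omega)⟩, ⟨by omega, .inr (by omega)⟩, ⟨h1, h2⟩]

theorem ctype {α : Type*} [Fintype α] [DecidableEq α] {r : ℕ} [Fact r.Prime] {σ : Perm α} (h : σ ^ r = 1) :
    ∃ c, σ.cycleType = Multiset.replicate c r ∧ #σ.support = c * r :=
  ⟨_, Perm.cycleType_of_pow_prime_eq_one h, by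
    rw [← Perm.sum_cycleType, Perm.cycleType_of_pow_prime_eq_one h]; simp⟩

theorem exists_perm {n r c : ℕ} [hr : Fact r.Prime] (h : c * r ≤ n) : ∃ σ : Perm (Fin n), σ ^ r = 1 ∧ #σ.support = c * r := by
  obtain ⟨σ, hσ⟩ := (Perm.exists_with_cycleType_iff (Fin n) (m := Multiset.replicate c r)).2
    ⟨by simpa, fun x hx => Multiset.eq_of_mem_replicate hx ▸ hr.out.two_le⟩
  exact ⟨σ, Perm.pow_prime_eq_one_iff.2 fun x hx => Multiset.eq_of_mem_replicate (hσ ▸ hx),
    by rw [← Perm.sum_cycleType, hσ]; simp⟩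

theorem exists_fun {ι : Type*} [DecidableEq ι] (S : Finset ι) (m : ℕ) :
    ∀ s ≤ #S * m, ∃ c : ι → ℕ, (∀ j, c j ≤ m) ∧ ∑ j ∈ S, c j = s := by
  induction S using Finset.induction_on with
  | empty => exact fun s hs => ⟨0, by simp, by simpa [eq_comm] using hs⟩
  | insert i S hi ih =>
    intro s hs
    rw [card_insert_of_notMem hi, add_mul] at hs
    obtain ⟨c, h1, h2⟩ := ih (s - m) (by omega)
    refine ⟨Function.update c i (min s m), fun j => ?_, ?_⟩
    · by_cases e : j = i <;> simp [e, h1]
    · rw [sum_insert hi, sum_update_of_notMem hi, h2, Function.update_self]; omega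


/-- Let a, b ≥ 2 and consider the symmetric group of degree a·b acting on the partitions of an (a·b)-set into b parts of size a (encoded as maps onto a b-element set all of whose fibres have a elements; a permutation fixes such a partition when it permutes the fibres). Let r be a prime dividing the number (ab)!/((a!)^b·b!) of such partitions, and let ℓ and k be the remainders of a and b modulo r. Then every permutation of order r fixes some such partition if and only if r ≤ a and one of the following holds: ℓ = 0; or k = 0 and ℓ = 1; or ℓ and k are non-zero, k·ℓ < r, and either b < r or (k + r)·ℓ ≤ k·a + r. -/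
theorem result (a b : ℕ) (ha : 2 ≤ a) (hb : 2 ≤ b) (r : ℕ) (hr : r.Prime)
    (hrd : r ∣ (a * b).factorial / (a.factorial ^ b * b.factorial)) :
    (∀ σ : Equiv.Perm (Fin (a * b)), orderOf σ = r →
        ∃ f : Fin (a * b) → Fin b, (∀ j : Fin b, Nat.card {x : Fin (a * b) // f x = j} = a) ∧
          ∃ π : Equiv.Perm (Fin b), ∀ x : Fin (a * b), f (σ x) = π (f x)) ↔
      (r ≤ a ∧ (a % r = 0 ∨ (b % r = 0 ∧ a % r = 1) ∨
        (a % r ≠ 0 ∧ b % r ≠ 0 ∧ (b % r) * (a % r) < r ∧ (b < r ∨ (b % r + r) * (a % r) ≤ (b % r) * a + r)))) := by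
  have := Fact.mk hr
  have hab : r ≤ a * b := (hr.dvd_factorial).1 (hrd.trans (Nat.div_dvd_of_dvd (by
    rw [mul_comm a b, ← Nat.uniformBell_mul_eq b (n := a) (by omega), mul_assoc]
    exact dvd_mul_left _ _)))
  rw [← arith ha hb hr.two_le hab]
  constructor
  · intro H c c1 c2
    obtain ⟨σ, h1, h2⟩ := exists_perm c2
    obtain ⟨f, hf, π, hπ⟩ := H σ (orderOf_eq_prime h1 fun e => by
      rw [e, Perm.support_one, card_empty] at h2; nlinarith [hr.two_le])
    have hk : ∀ k x, f ((σ ^ k) x) = (π ^ k) (f x) := fun k x => by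
      induction k with
      | zero => rfl
      | succ k ih => rw [pow_succ', pow_succ', Perm.mul_apply, Perm.mul_apply, hπ, ih]
    have hf' : ∀ j, #{x | f x = j} = a := fun j =>
      (by rw [Nat.card_eq_fintype_card, Fintype.card_subtype] : _ = Nat.card {x // f x = j}).trans (hf j)
    obtain ⟨t, -, ht⟩ := ctype (σ := π) (r := r) (Equiv.ext fun j => by
      obtain ⟨x, hx⟩ := card_pos.1 (show 0 < #{x | f x = j} by rw [hf']; omega)
      rw [← (mem_filter.1 hx).2, ← hk, h1]; rfl)
    have h3 : c * r = a * t * r + ∑ j ∈ π.supportᶜ, #{x ∈ σ.support | f x = j} := by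
      rw [← h2, card_eq_sum_card_fiberwise (f := f) (t := univ) (by simp), ← sum_add_sum_compl π.support, mul_assoc, ← ht,
        mul_comm a #_]
      refine congrArg (· + _) (sum_const_nat fun j hj => Eq.trans (congrArg _ (Finset.ext fun x => ?_)) (hf' j))
      simp only [mem_filter, mem_univ, true_and, and_iff_right_iff_imp, Perm.mem_support] at hj ⊢
      exact fun e e' => hj (by rw [← e, ← hπ, e'])
    have h4 : ∑ j ∈ π.supportᶜ, #{x ∈ σ.support | f x = j} ≤ (b - t * r) * (a / r * r) := by
      rw [← ht, show b - #π.support = #π.supportᶜ by simp [card_compl]]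
      refine sum_le_card_nsmul _ _ _ fun j hj => ?_
      rw [mem_compl, Perm.notMem_support] at hj
      obtain ⟨d, -, hd⟩ := ctype (σ := σ.subtypePerm (p := fun x => f x = j) fun x => by
        rw [hπ, ← π.injective.eq_iff (a := f x), hj]) (r := r)
        (by rw [Perm.subtypePerm_pow]; ext; simp [h1])
      have h5 : #{x ∈ σ.support | f x = j} = d * r := by
        rw [← hd, ← card_map (Function.Embedding.subtype _)]
        exact congrArg _ (Finset.ext fun x => by simp [Subtype.ext_iff, and_comm])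
      have h6 : #{x ∈ σ.support | f x = j} ≤ a := (card_le_card (filter_subset_filter _ (subset_univ _))).trans_eq (hf' j)
      exact h5 ▸ Nat.mul_le_mul_right _ ((Nat.le_div_iff_mul_le hr.pos).2 (h5 ▸ h6))
    refine ⟨t, ht ▸ by simpa using card_le_univ π.support, Nat.le_of_mul_le_mul_right (by omega) hr.pos,
      Nat.le_of_mul_le_mul_right (by rw [add_mul, mul_assoc (b - _)]; omega) hr.pos⟩
  · intro H σ hσ
    obtain ⟨c, h1, h2⟩ := ctype (σ := σ) (r := r) (hσ ▸ pow_orderOf_eq_one σ)
    obtain ⟨t, t1, t2, t3⟩ := H c (Nat.pos_of_ne_zero fun e => by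
      rw [e, zero_mul, card_eq_zero, Perm.support_eq_empty_iff] at h2
      exact hr.ne_one (by rw [← hσ, h2, orderOf_one])) (h2 ▸ by simpa using card_le_univ σ.support)
    obtain ⟨π, p1, p2⟩ := exists_perm t1
    obtain ⟨d, d1, d2⟩ := exists_fun π.supportᶜ (a / r) (c - a * t) (by rw [card_compl, p2]; simp; omega)
    choose ρ r1 r2 using fun j => exists_perm (n := a) ((Nat.le_div_iff_mul_le hr.pos).1 (d1 j))
    let τ : Perm (Fin b × Fin a) := prodShear π fun j => if π j = j then ρ j else 1
    have hk : ∀ k j i, (τ ^ k) (j, i) = ((π ^ k) j, if π j = j then (ρ j ^ k) i else i) := fun k j i => by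
      induction k with
      | zero => simp
      | succ k ih =>
        rw [pow_succ', pow_succ', pow_succ', Perm.mul_apply, ih]
        by_cases e : π j = j
        · simp [τ, e, Perm.pow_apply_eq_self_of_apply_eq_self e]
        · have : π ((π ^ k) j) ≠ (π ^ k) j := by rwa [← Perm.mul_apply, ← pow_succ', pow_succ, Perm.mul_apply, Ne, Equiv.apply_eq_iff_eq]
          simp [τ, e, this]
    let e : Fin b × Fin a ≃ Fin (a * b) := (prodComm _ _).trans finProdFinEquiv
    obtain ⟨c', h3, h4⟩ := ctype (σ := e.permCongr τ) (r := r) (by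
      rw [← permCongrHom_coe, ← map_pow, show τ ^ r = 1 from Equiv.ext fun ⟨j, i⟩ => by simp [hk, p1, r1], map_one])
    have h5 : #(e.permCongr τ).support = c * r := by
      rw [← card_map e.symm.toEmbedding, show (e.permCongr τ).support.map e.symm.toEmbedding = τ.support by
        ext x; simp, Perm.support, card_filter, Fintype.sum_prod_type, ← sum_add_sum_compl π.support,
        ← Nat.add_sub_cancel' t2, add_mul, mul_assoc, ← p2, ← d2, sum_mul, mul_comm, ← smul_eq_mul, ← sum_const]
      congr 1 <;> refine sum_congr rfl fun j hj => ?_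
      · simp [τ, Perm.mem_support.1 hj]
      · rw [← r2, Perm.support, card_filter]
        simp [τ, Perm.notMem_support.1 (mem_compl.1 hj)]
    obtain rfl : c' = c := Nat.eq_of_mul_eq_mul_right hr.pos (h4.symm.trans h5)
    obtain ⟨g, rfl⟩ := isConj_iff.1 (Perm.isConj_iff_cycleType_eq.2 (h3.trans h1.symm))
    refine ⟨fun x => (e.symm (g⁻¹ x)).1, fun j => ?_, π, fun x => by simp [τ]⟩
    have := Nat.card_congr (((Equiv.trans g⁻¹ e.symm).subtypeEquiv (q := fun y => y.1 = j) fun _ => Iff.rfl).trans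
      (prodSubtypeFstEquivSubtypeProd (p := (· = j))))
    exact this.trans (by simp)

end Cfsg.Agent.S3575
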