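import Cfsg.Statements.S4181
import Cfsg.Agent.Base

set_option autoImplicit false
set_option linter.unusedSectionVars false
open Cfsg

namespace Cfsg.Agent.S4181

section Helpers
open MulAction Finset
open scoped Pointwise Classical

variable {G : Type*} [Group G] [Finite G] {p : ℕ} [hp : Fact p.Prime]

section Orb
variable {Ω : Type*} [Fintype Ω] [DecidableEq Ω] [MulAction G Ω]

/-- the orbit of a subgroup, as a finite set -/
noncomputable def orb (X : Subgroup G) (a : Ω) : Finset Ω := univ.filter fun b => ∃ g ∈ X, g • a = b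

theorem mem_orb {X : Subgroup G} {a b : Ω} : b ∈ orb X a ↔ ∃ g ∈ X, g • a = b := by simp [orb]

theorem self_mem (X : Subgroup G) (a : Ω) : a ∈ orb X a := mem_orb.2 ⟨1, one_mem _, one_smul _ _⟩

theorem orb_pos (X : Subgroup G) (a : Ω) : 0 < #(orb X a) := card_pos.2 ⟨a, self_mem X a⟩

theorem smul_mem_orb {X : Subgroup G} {a b : Ω} {g : G} (hg : g ∈ X) (h : b ∈ orb X a) : g • b ∈ orb X a := by
  obtain ⟨k, hk, rfl⟩ := mem_orb.1 h
  exact mem_orb.2 ⟨g * k, mul_mem hg hk, mul_smul _ _ _⟩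

theorem orb_sub {X : Subgroup G} {T : Finset Ω} (hT : ∀ g ∈ X, ∀ a ∈ T, g • a ∈ T) {a : Ω} (ha : a ∈ T) :
    orb X a ⊆ T := fun b hb => by
  obtain ⟨k, hk, rfl⟩ := mem_orb.1 hb
  exact hT k hk a ha

theorem orb_eq {X : Subgroup G} {a b : Ω} (h : b ∈ orb X a) : orb X b = orb X a := by
  refine Subset.antisymm (orb_sub (fun g hg a => smul_mem_orb hg) h) (orb_sub (fun g hg a => smul_mem_orb hg) ?_)
  obtain ⟨k, hk, rfl⟩ := mem_orb.1 h
  exact mem_orb.2 ⟨k⁻¹, inv_mem hk, inv_smul_smul _ _⟩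

theorem card_orb (X : Subgroup G) (a : Ω) : #(orb X a) = (stabilizer G a).relIndex X := by
  have : (stabilizer G a).subgroupOf X = stabilizer X a := by ext; rfl
  rw [Subgroup.relIndex, this, index_stabilizer, ← Set.ncard_coe_finset]
  congr 1
  ext b
  simp only [mem_coe, mem_orb, mem_orbit_iff]
  exact ⟨fun ⟨g, hg, e⟩ => ⟨⟨g, hg⟩, e⟩, fun ⟨g, e⟩ => ⟨g, g.2, e⟩⟩

theorem sdiff_inv {X : Subgroup G} {T : Finset Ω} (hT : ∀ g ∈ X, ∀ a ∈ T, g • a ∈ T) (a : Ω) :
    ∀ g ∈ X, ∀ b ∈ T \ orb X a, g • b ∈ T \ orb X a := fun g hg b hb =>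
  mem_sdiff.2 ⟨hT g hg b (mem_sdiff.1 hb).1, fun h => (mem_sdiff.1 hb).2 (by
    simpa using smul_mem_orb (inv_mem hg) h)⟩

/-- sums over invariant sets are sums over orbits -/
theorem orb_ind (X : Subgroup G) (w : Ω → ℤ) (pr : ℤ → Prop) (h0 : pr 0) (hadd : ∀ a b, pr a → pr b → pr (a + b))
    (T : Finset Ω) : (∀ g ∈ X, ∀ a ∈ T, g • a ∈ T) → (∀ a ∈ T, pr (∑ b ∈ orb X a, w b)) → pr (∑ b ∈ T, w b) := by
  induction T using Finset.strongInduction with
  | H T ih =>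
    intro hT h
    rcases T.eq_empty_or_nonempty with rfl | ⟨a, ha⟩
    · simpa using h0
    rw [← sum_sdiff (orb_sub hT ha)]
    exact hadd _ _ (ih _ (sdiff_ssubset (orb_sub hT ha) ⟨a, self_mem X a⟩) (sdiff_inv hT a)
      fun b hb => h b (mem_sdiff.1 hb).1) (h a ha)

theorem dvd_card (X : Subgroup G) (k : ℕ) {T : Finset Ω} (hT : ∀ g ∈ X, ∀ a ∈ T, g • a ∈ T)
    (h : ∀ a ∈ T, k ∣ #(orb X a)) : k ∣ #T := by
  have := orb_ind X (fun _ => 1) (fun z => (k : ℤ) ∣ z) (dvd_zero _) (fun _ _ => dvd_add) T hT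
    fun a ha => by simpa using Int.natCast_dvd_natCast.2 (h a ha)
  exact Int.natCast_dvd_natCast.1 (by simpa using this)

end Orb

noncomputable local instance : Fintype (Sylow p G) := Fintype.ofFinite _

/-- the Sylow subgroups of `G` inside `H` -/
noncomputable def syl (p : ℕ) [Fact p.Prime] (H : Subgroup G) : Finset (Sylow p G) :=
  univ.filter fun Q => (Q : Subgroup G) ≤ H

theorem mem_syl {H : Subgroup G} {Q : Sylow p G} : Q ∈ syl p H ↔ (Q : Subgroup G) ≤ H := by simp [syl]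

theorem syl_inf (H K : Subgroup G) : syl p (H ⊓ K) = syl p H ∩ syl p K := by ext; simp [mem_syl]

theorem smul_mem_syl {H : Subgroup G} {g : G} (hg : g ∈ H) {Q : Sylow p G} (h : Q ∈ syl p H) : g • Q ∈ syl p H :=
  mem_syl.2 (Sylow.smul_le (mem_syl.1 h) ⟨g, hg⟩)

theorem smul_syl {H : Subgroup G} {g : G} (hg : g ∈ H) : g • syl p H = syl p H := by
  ext Q
  rw [← inv_smul_mem_iff]
  exact ⟨fun h => by simpa using smul_mem_syl hg h, smul_mem_syl (inv_mem hg)⟩

theorem conj_syl {H : Subgroup G} {P Q : Sylow p G} (hP : P ∈ syl p H) (hQ : Q ∈ syl p H) : ∃ g ∈ H, g • P = Q := by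
  obtain ⟨g, hg⟩ := exists_smul_eq H (P.subtype (mem_syl.1 hP)) (Q.subtype (mem_syl.1 hQ))
  rw [Sylow.smul_subtype] at hg
  exact ⟨g, g.2, Sylow.subtype_injective hg⟩

/-- the sets of Sylow subgroups that consist of all Sylow subgroups of their stabiliser -/
def Pt (s : Finset (Sylow p G)) : Prop := syl p (stabilizer G s) = s

theorem pt_syl {H : Subgroup G} (h : (syl p H).Nonempty) : Pt (syl p H) := by
  have hle : H ≤ stabilizer G (syl p H) := fun g hg => smul_syl hg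
  refine Subset.antisymm (fun Q hQ => ?_) fun Q hQ => mem_syl.2 ((mem_syl.1 hQ).trans hle)
  obtain ⟨P, hP⟩ := h
  obtain ⟨g, hg, rfl⟩ := conj_syl (mem_syl.2 ((mem_syl.1 hP).trans hle)) hQ
  exact (show g • syl p H = syl p H from hg) ▸ smul_mem_smul_finset hP

theorem Pt.nonempty {s : Finset (Sylow p G)} (h : Pt s) : s.Nonempty := by
  rcases s.eq_empty_or_nonempty with rfl | h'
  · obtain ⟨P⟩ : Nonempty (Sylow p G) := inferInstance
    exact ⟨P, h ▸ mem_syl.2 fun g _ => by simp⟩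
  · exact h'

theorem Pt.smul {s : Finset (Sylow p G)} (h : Pt s) (g : G) : Pt (g • s) := by
  ext Q
  have k : g⁻¹ • Q ∈ s ↔ _ := (Finset.ext_iff.1 h _).symm.trans mem_syl
  rw [← inv_smul_mem_iff, k, mem_syl, stabilizer_smul_eq_stabilizer_map_conj, Sylow.coe_subgroup_smul, map_inv,
    ← Subgroup.subset_pointwise_smul_iff]
  rfl

theorem inter_lt {s t : Finset (Sylow p G)} (h : ¬ s ⊆ t) : s ∩ t ⊂ s :=
  Finset.ssubset_iff_subset_ne.2 ⟨inter_subset_left, fun e => h (inter_eq_left.1 e)⟩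

theorem Pt.orb {s t : Finset (Sylow p G)} (h : Pt s) {X : Subgroup G} (ht : t ∈ orb X s) : Pt t ∧ #t = #s := by
  obtain ⟨g, -, rfl⟩ := mem_orb.1 ht
  exact ⟨h.smul g, card_smul_finset g s⟩

theorem Pt.inter {s : Finset (Sylow p G)} (h : Pt s) (X : Subgroup G) :
    syl p (X ⊓ stabilizer G s) = syl p X ∩ s := by rw [syl_inf, h]

/-- the weight of a set of points -/
noncomputable def wt (P : Sylow p G) (T : Finset (Finset (Sylow p G))) : ℤ :=
  ∑ s ∈ T, if P ∈ s then -(p : ℤ) else p - 1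

/-- the defect in the inequality -/
noncomputable def df (Y : Subgroup G) (s : Finset (Sylow p G)) : ℤ :=
  (p - 1) * #(syl p Y) - (2 * p - 1) * #(syl p Y ∩ s)

theorem df_orb {Y : Subgroup G} {s t : Finset (Sylow p G)} (h : t ∈ orb Y s) : df Y t = df Y s := by
  obtain ⟨g, hg, rfl⟩ := mem_orb.1 h
  rw [df, df, ← card_smul_finset g (syl p Y ∩ s), smul_finset_inter, smul_syl hg]

theorem df_inter (Y : Subgroup G) (s : Finset (Sylow p G)) : df Y (syl p Y ∩ s) = df Y s := by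
  rw [df, df, inter_left_idem]

theorem wt_eq (P : Sylow p G) (T : Finset (Finset (Sylow p G))) :
    wt P T = (p - 1) * #(T.filter (P ∉ ·)) - p * #(T.filter (P ∈ ·)) := by
  rw [wt, sum_ite, sum_const, sum_const]
  simp only [nsmul_eq_mul]
  ring

theorem dc {Y : Subgroup G} {P : Sylow p G} (hP : P ∈ syl p Y) (s : Finset (Sylow p G)) :
    #(syl p Y) * wt P (orb Y s) = #(orb Y s) * df Y s := by
  have h1 : ∀ Q ∈ syl p Y, wt Q (orb Y s) = wt P (orb Y s) := fun Q hQ => by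
    obtain ⟨g, hg, rfl⟩ := conj_syl hP hQ
    refine sum_nbij' (g⁻¹ • ·) (g • ·) (fun t => smul_mem_orb (inv_mem hg)) (fun t => smul_mem_orb hg)
      (by simp) (by simp) fun t _ => by simp only [mem_inv_smul_finset_iff]
  have h2 : ∀ t ∈ orb Y s, (∑ Q ∈ syl p Y, if Q ∈ t then -(p : ℤ) else p - 1) = df Y s := fun t ht => by
    have := card_filter_add_card_filter_not (s := syl p Y) (· ∈ t)
    rw [← df_orb ht, df, sum_ite, sum_const, sum_const, ← this, filter_mem_eq_inter]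
    simp only [nsmul_eq_mul, Nat.cast_add]
    ring
  rw [← nsmul_eq_mul, ← nsmul_eq_mul, ← sum_const, ← sum_const, ← sum_congr rfl h1, ← sum_congr rfl h2]
  exact sum_comm

theorem p1 : (1 : ℤ) < p := by exact_mod_cast hp.out.one_lt

theorem moved {P : Sylow p G} {t : Finset (Sylow p G)} (ht : Pt t) (h : P ∉ t) :
    ∃ k, #(orb (P : Subgroup G) t) = p ^ (k + 1) := by
  obtain ⟨k, hk⟩ := P.isPGroup'.index ((stabilizer G t).subgroupOf P)
  rw [card_orb]
  cases k with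
  | zero => exact absurd (ht ▸ mem_syl.2 (Subgroup.relIndex_eq_one.1 hk)) h
  | succ k => exact ⟨k, hk⟩

theorem mv_inv {P : Sylow p G} {X : Subgroup G} (hP : P ∈ syl p X) (s : Finset (Sylow p G)) :
    ∀ g ∈ (P : Subgroup G), ∀ t ∈ (orb X s).filter (P ∉ ·), g • t ∈ (orb X s).filter (P ∉ ·) := fun g hg t ht => by
  rw [mem_filter] at ht ⊢
  refine ⟨smul_mem_orb (mem_syl.1 hP hg) ht.1, fun h => ht.2 ?_⟩
  rwa [← inv_smul_mem_iff, Sylow.smul_eq_iff_mem_normalizer.2 (Subgroup.le_normalizer (inv_mem hg))] at h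

/-- the inequality inside `Y` -/
def Main (p : ℕ) [Fact p.Prime] (Y : Subgroup G) : Prop := ∀ s : Finset (Sylow p G), Pt s → s ⊂ syl p Y → 0 ≤ df Y s

/-- the inequality for families without a common Sylow subgroup -/
def Fam (p : ℕ) [Fact p.Prime] (Y : Subgroup G) : Prop :=
  ∀ J : Finset (Finset (Sylow p G)), (∀ s ∈ J, Pt s ∧ s ⊂ syl p Y) → (∀ Q ∈ syl p Y, ¬ ∀ s ∈ J, Q ∈ s) →
    (syl p Y).Nonempty → ∃ s ∈ J, #(syl p Y) * (p * (p - #J) : ℤ) ≤ #(orb Y s) * df Y s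

theorem Main.gen {Y : Subgroup G} (h : Main p Y) {t : Finset (Sylow p G)} (ht : Pt t) (hn : ¬ syl p Y ⊆ t) :
    0 ≤ df Y t := by
  rcases (syl p Y ∩ t).eq_empty_or_nonempty with e | e
  · have := p1 (p := p)
    rw [df, e]
    simp only [card_empty, Nat.cast_zero, mul_zero, sub_zero]
    exact mul_nonneg (by omega) (by positivity)
  · rw [← df_inter]
    exact h _ (ht.inter Y ▸ pt_syl (ht.inter Y ▸ e)) (inter_lt hn)

theorem step {Y : Subgroup G} {x s t : Finset (Sylow p G)} (hx : Pt x) (hxY : x ⊆ syl p Y)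
    (h : Main p (Y ⊓ stabilizer G x)) (hs : Pt s) (hc : #s ≤ #x) {P : Sylow p G} (hP : P ∈ x) (ht : t ∈ orb Y s)
    (htx : t ≠ x) : 0 ≤ wt P (orb (Y ⊓ stabilizer G x) t) ∧
      wt P (orb (Y ⊓ stabilizer G x) t) - p ≤ wt P (orb Y s) := by
  have e : syl p (Y ⊓ stabilizer G x) = x := by rw [hx.inter, inter_eq_right.2 hxY]
  have k : ∀ u ∈ (orb Y s).erase x, 0 ≤ wt P (orb (Y ⊓ stabilizer G x) u) := fun u hu => by
    obtain ⟨h1, h2⟩ := hs.orb (mem_of_mem_erase hu)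
    have h3 := h.gen h1 fun h4 => ne_of_mem_erase hu (eq_of_subset_of_card_le (e ▸ h4) (h2.trans_le hc)).symm
    have h4 := dc (e.symm ▸ hP) u
    have h5 : (0 : ℤ) < #(syl p (Y ⊓ stabilizer G x)) := by rw [e]; exact_mod_cast hx.nonempty.card_pos
    exact nonneg_of_mul_nonneg_right (h4 ▸ mul_nonneg (by positivity) h3) h5
  have hT : ∀ g ∈ Y ⊓ stabilizer G x, ∀ u ∈ (orb Y s).erase x, g • u ∈ (orb Y s).erase x := fun g hg u hu =>
    mem_erase.2 ⟨fun e' => ne_of_mem_erase hu ((smul_left_cancel_iff g).1 (e'.trans hg.2.symm)),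
      smul_mem_orb hg.1 (mem_of_mem_erase hu)⟩
  have ht' := mem_erase.2 ⟨htx, ht⟩
  refine ⟨k t ht', ?_⟩
  have h1 : 0 ≤ wt P ((orb Y s).erase x \ orb (Y ⊓ stabilizer G x) t) :=
    orb_ind _ _ (0 ≤ ·) le_rfl (fun _ _ => add_nonneg) _ (sdiff_inv hT t) fun u hu => k u (mem_sdiff.1 hu).1
  have h2 : wt P _ + wt P _ = wt P _ := sum_sdiff (orb_sub hT ht')
  by_cases hm : x ∈ orb Y s
  · have h3 : _ + wt P _ = wt P _ := add_sum_erase _ _ hm
    rw [if_pos hP] at h3
    omega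
  · have := p1 (p := p)
    have h3 : wt P ((orb Y s).erase x) = wt P (orb Y s) := by rw [erase_eq_of_notMem hm]
    omega

theorem fam {Y : Subgroup G}
    (ih : ∀ x, Pt x → x ⊂ syl p Y → Main p (Y ⊓ stabilizer G x) ∧ Fam p (Y ⊓ stabilizer G x)) : Fam p Y := by
  rintro J hJ hn ⟨P₀, hP₀⟩
  obtain ⟨x, hxJ, hmax⟩ := J.exists_max_image card (nonempty_iff_ne_empty.2 fun e => hn P₀ hP₀ (by simp [e]))
  obtain ⟨hx, hxY⟩ := hJ x hxJ
  obtain ⟨h1, h2⟩ := ih x hx hxY
  obtain ⟨P, hP⟩ := hx.nonempty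
  have e : syl p (Y ⊓ stabilizer G x) = x := by rw [hx.inter, inter_eq_right.2 hxY.subset]
  have hp1 := p1 (p := p)
  suffices H : ∃ s ∈ J.erase x, (p * (p - #J + 1) : ℤ) ≤ wt P (orb (Y ⊓ stabilizer G x) s) by
    obtain ⟨s, hs, H⟩ := H
    have hs' := mem_of_mem_erase hs
    have := (step hx hxY.subset h1 (hJ s hs').1 (hmax s hs') hP (self_mem Y s) (ne_of_mem_erase hs)).2
    refine ⟨s, hs', dc (hxY.subset hP) s ▸ mul_le_mul_of_nonneg_left (by linarith) (by positivity)⟩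
  by_cases hd : ∃ s ∈ J, x ∩ s = ∅
  · obtain ⟨s, hs, hd⟩ := hd
    have hsx : s ≠ x := fun e' => by simp [e', hx.nonempty.ne_empty] at hd
    have hno : ∀ t ∈ orb (Y ⊓ stabilizer G x) s, P ∉ t := fun t ht h => by
      obtain ⟨g, hg, rfl⟩ := mem_orb.1 ht
      have : g⁻¹ • P ∈ x ∩ s := mem_inter.2 ⟨e ▸ smul_mem_syl (inv_mem hg) (e.symm ▸ hP), inv_smul_mem_iff.2 h⟩
      simp [hd] at this
    have h3 := dvd_card (P : Subgroup G) p (mv_inv (e.symm ▸ hP) s) fun t ht => by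
      obtain ⟨k, hk⟩ := moved ((hJ s hs).1.orb (mem_filter.1 ht).1).1 (mem_filter.1 ht).2
      exact hk ▸ dvd_pow_self p k.succ_ne_zero
    have h4 : (2 : ℤ) ≤ #J := by exact_mod_cast one_lt_card.2 ⟨s, hs, x, hxJ, hsx⟩
    refine ⟨s, mem_erase.2 ⟨hsx, hs⟩, ?_⟩
    rw [filter_true_of_mem hno] at h3
    have h5 : (p : ℤ) ≤ #(orb (Y ⊓ stabilizer G x) s) := by exact_mod_cast Nat.le_of_dvd (orb_pos _ _) h3
    rw [wt_eq, filter_true_of_mem hno, filter_false_of_mem hno]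
    simp only [card_empty, Nat.cast_zero]
    nlinarith
  push Not at hd
  have hnx : ∀ s ∈ J.erase x, ¬ syl p (Y ⊓ stabilizer G x) ⊆ s := fun s hs h =>
    ne_of_mem_erase hs (eq_of_subset_of_card_le (e ▸ h) (hmax s (mem_of_mem_erase hs))).symm
  obtain ⟨_, hs', H⟩ := h2 ((J.erase x).image (syl p (Y ⊓ stabilizer G x) ∩ ·)) (fun u hu => by
      obtain ⟨s, hs, rfl⟩ := mem_image.1 hu
      have hs' := mem_of_mem_erase hs
      exact ⟨(hJ s hs').1.inter _ ▸ pt_syl ((hJ s hs').1.inter _ ▸ e.symm ▸ hd s hs'),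
        inter_lt (hnx s hs)⟩)
    (fun Q hQ h => hn Q (hxY.subset (e ▸ hQ)) fun s hs => by
      by_cases e' : s = x
      · exact e' ▸ e ▸ hQ
      · exact (mem_inter.1 (h _ (mem_image_of_mem _ (mem_erase.2 ⟨e', hs⟩)))).2) (e.symm ▸ hx.nonempty)
  obtain ⟨s, hs, rfl⟩ := mem_image.1 hs'
  refine ⟨s, hs, ?_⟩
  have h3 : #(orb (Y ⊓ stabilizer G x) (syl p (Y ⊓ stabilizer G x) ∩ s)) ≤ #(orb (Y ⊓ stabilizer G x) s) := by
    refine (card_le_card fun t ht => ?_).trans (card_image_le (f := (syl p (Y ⊓ stabilizer G x) ∩ ·)))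
    obtain ⟨g, hg, rfl⟩ := mem_orb.1 ht
    exact mem_image.2 ⟨g • s, smul_mem_orb hg (self_mem _ _), by rw [smul_finset_inter, smul_syl hg]⟩
  have h4 : (#((J.erase x).image (syl p (Y ⊓ stabilizer G x) ∩ ·)) : ℤ) + 1 ≤ #J := by
    exact_mod_cast (Nat.succ_le_succ card_image_le).trans (card_erase_add_one hxJ).le
  have h5 := h1.gen (hJ s (mem_of_mem_erase hs)).1 (hnx s hs)
  have h6 : (0 : ℤ) < #(syl p (Y ⊓ stabilizer G x)) := by rw [e]; exact_mod_cast hx.nonempty.card_pos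
  rw [df_inter] at H
  have h7 := le_of_mul_le_mul_left ((H.trans (mul_le_mul_of_nonneg_right (by exact_mod_cast h3) h5)).trans_eq
    (dc (e.symm ▸ hP) s).symm) h6
  nlinarith

theorem main {Y : Subgroup G} (hF : Fam p Y) (ih : ∀ x, Pt x → x ⊂ syl p Y → Main p (Y ⊓ stabilizer G x)) :
    Main p Y := fun s hs hsY => by
  obtain ⟨P, hP⟩ := hs.nonempty
  have hPY := hsY.subset hP
  have hp1 := p1 (p := p)
  have pos : ∀ t : Finset (Sylow p G), (0 : ℤ) < #(orb Y t) := fun t => by exact_mod_cast orb_pos Y t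
  by_cases hc : ∃ t ∈ orb Y s, #(orb (P : Subgroup G) t) = p
  · obtain ⟨t, ht, hc⟩ := hc
    have hsub : orb (P : Subgroup G) t ⊆ orb Y s := orb_sub (fun g hg a => smul_mem_orb (mem_syl.1 hPY hg)) ht
    have k := hF (orb (P : Subgroup G) t) (fun u hu => ⟨(hs.orb (hsub hu)).1, by
        obtain ⟨g, hg, rfl⟩ := mem_orb.1 (hsub hu)
        rw [← smul_syl (p := p) hg]
        exact Finset.ssubset_iff_subset_ne.2 ⟨smul_finset_subset_smul_finset hsY.subset,
          fun e => hsY.ne ((smul_left_cancel_iff g).1 e)⟩⟩)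
    suffices H : ∀ Q ∈ syl p Y, ¬ ∀ s ∈ orb (P : Subgroup G) t, Q ∈ s by
      obtain ⟨u, hu, H⟩ := k H ⟨P, hPY⟩
      rw [hc, sub_self, mul_zero, mul_zero, df_orb (hsub hu)] at H
      exact nonneg_of_mul_nonneg_right H (pos u)
    intro Q _ hQ
    have st : ∀ g : G, (∀ u ∈ orb (P : Subgroup G) t, g • u ∈ orb (P : Subgroup G) t) →
        g ∈ stabilizer G (orb (P : Subgroup G) t) := fun g hg =>
      eq_of_subset_of_card_le (smul_finset_subset_iff.2 fun _ h => mem_inv_smul_finset_iff.2 (hg _ h)) (card_smul_finset _ _).ge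
    obtain ⟨g, hg, e⟩ := conj_syl (H := stabilizer G (orb (P : Subgroup G) t)) (P := Q) (Q := P)
      (mem_syl.2 fun g hg => st g fun u hu => by
        rwa [show g • u = u from mem_syl.1 ((hs.orb (hsub hu)).1.symm ▸ hQ u hu) hg])
      (mem_syl.2 fun g hg => st g fun u => smul_mem_orb hg)
    have h1 : P ∈ t := by
      have := hQ (g⁻¹ • t) (by rw [← show g⁻¹ • _ = _ from inv_mem hg]; exact smul_mem_smul_finset (self_mem _ t))
      rwa [mem_inv_smul_finset_iff, e] at this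
    rw [card_orb, Subgroup.relIndex_eq_one.2 (mem_syl.1 ((hs.orb ht).1.symm ▸ h1))] at hc
    exact hp.out.one_lt.ne hc
  push Not at hc
  obtain ⟨t, ht, hts⟩ : ∃ t ∈ orb Y s, t ≠ s := by
    by_contra! h
    exact hsY.not_subset fun Q hQ => hs ▸ mem_syl.2 fun g hg => h _ (mem_orb.2 ⟨g, mem_syl.1 hQ hg, rfl⟩)
  obtain ⟨h1, h2⟩ := step hs hsY.subset (ih s hs hsY) hs le_rfl hP ht hts
  have hPX : P ∈ syl p (Y ⊓ stabilizer G s) := by rw [hs.inter]; exact mem_inter.2 ⟨hPY, hP⟩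
  have hsub : orb (Y ⊓ stabilizer G s) t ⊆ orb Y s := fun u hu => by
    obtain ⟨g, hg, rfl⟩ := mem_orb.1 hu
    exact smul_mem_orb hg.1 ht
  obtain ⟨c, h3⟩ := dvd_card (P : Subgroup G) (p * p) (mv_inv hPX t) fun u hu => by
    have hu' := hsub (mem_filter.1 hu).1
    obtain ⟨k, hk⟩ := moved (hs.orb hu').1 (mem_filter.1 hu).2
    cases k with
    | zero => exact absurd (hk.trans (pow_one p)) (hc u hu')
    | succ k => exact ⟨p ^ k, hk.trans (by ring)⟩
  have h4 := card_filter_add_card_filter_not (s := orb (Y ⊓ stabilizer G s) t) (P ∈ ·)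
  have h5 : (p - 1) * (p * c) ≠ (#((orb (Y ⊓ stabilizer G s) t).filter (P ∈ ·)) : ℤ) := fun e => by
    rcases ((orb (Y ⊓ stabilizer G s) t).filter (P ∈ ·)).eq_empty_or_nonempty with e' | ⟨u, hu⟩
    · have := orb_pos (Y ⊓ stabilizer G s) t
      rw [e'] at e h4
      have hc0 : c = 0 := by
        have : (p : ℤ) * c = 0 := (mul_eq_zero.1 e).resolve_left (by omega)
        exact_mod_cast (mul_eq_zero.1 this).resolve_left (by omega)
      rw [h3, hc0] at h4
      simp at h4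
      omega
    · have hu' := mem_filter.1 hu
      refine P.not_dvd_index (Dvd.dvd.trans ?_ ((Subgroup.relIndex_dvd_of_le_left _
        (mem_syl.1 ((hs.orb (hsub hu'.1)).1.symm ▸ hu'.2))).trans (Subgroup.relIndex_dvd_index_of_le (mem_syl.1 hPX))))
      rw [← card_orb, orb_eq hu'.1, ← h4, h3]
      exact dvd_add (Int.natCast_dvd_natCast.1 (e ▸ ⟨(p - 1) * c, by ring⟩)) ⟨p * c, by ring⟩
  rw [wt_eq, h3] at h1 h2
  push_cast at h1 h2
  have h6 : 0 ≤ (p - 1) * (p * c) - (#((orb (Y ⊓ stabilizer G s) t).filter (P ∈ ·)) : ℤ) :=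
    nonneg_of_mul_nonneg_right (b := _) (a := (p : ℤ)) (by linarith) (by omega)
  have h7 : 0 ≤ wt P (orb Y s) := by nlinarith [lt_of_le_of_ne h6 (sub_ne_zero.2 h5).symm]
  exact nonneg_of_mul_nonneg_right (dc hPY s ▸ mul_nonneg (by positivity) h7) (pos s)

theorem all (Y : Subgroup G) : Main p Y ∧ Fam p Y := by
  induction Y using WellFoundedLT.induction with
  | ind Y ih =>
    have ih' : ∀ x, Pt x → x ⊂ syl p Y → Main p (Y ⊓ stabilizer G x) ∧ Fam p (Y ⊓ stabilizer G x) := fun x hx h =>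
      ih _ (lt_of_le_of_ne inf_le_left fun e => h.not_subset (by rw [← e, hx.inter]; exact inter_subset_right))
    exact ⟨main (fam ih') fun x hx h => (ih' x hx h).1, fam ih'⟩

end Helpers

/-- Let p be a prime and G a finite group generated by its elements of p-power order, and let H be a proper subgroup of G containing a Sylow p-subgroup of G. Then 2p − 1 times the number of Sylow p-subgroups of H is at most p − 1 times the number of Sylow p-subgroups of G. -/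
theorem result {G : Type*} [Group G] [Finite G] (p : ℕ) [Fact p.Prime] (hgen : Subgroup.closure {g : G | ∃ k : ℕ, orderOf g = p ^ k} = ⊤)
    (H : Subgroup G) (hH : H ≠ ⊤) (P : Sylow p G) (hP : (P : Subgroup G) ≤ H) :
    (2 * p - 1) * Nat.card (Sylow p ↥H) ≤ (p - 1) * Nat.card (Sylow p G) := by
  classical
  have hs : syl p H ⊆ syl p ⊤ := fun Q _ => mem_syl.2 le_top
  have h1 := (all ⊤).1 (syl p H) (pt_syl ⟨P, mem_syl.2 hP⟩) (Finset.ssubset_iff_subset_ne.2 ⟨hs, fun e => hH ?_⟩)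
  · have h2 : Nat.card (Sylow p H) ≤ (syl p H).card := by
      rw [← Nat.card_eq_finsetCard]
      refine Nat.card_le_card_of_surjective (fun Q => Q.1.subtype (mem_syl.1 Q.2)) fun R => ?_
      obtain ⟨g, hg⟩ := MulAction.exists_smul_eq H (P.subtype hP) R
      exact ⟨⟨g • P, mem_syl.2 (Sylow.smul_le hP g)⟩, (Sylow.smul_subtype hP g).symm.trans hg⟩
    have h3 : (syl p (⊤ : Subgroup G)).card ≤ Nat.card (Sylow p G) := by
      rw [← Nat.card_eq_finsetCard]
      exact Nat.card_le_card_of_injective _ Subtype.val_injective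
    have h4 := (Fact.out : p.Prime).one_lt
    rw [df, Finset.inter_eq_right.2 hs] at h1
    refine (Nat.mul_le_mul_left _ h2).trans (le_trans ?_ (Nat.mul_le_mul_left _ h3))
    zify [h4.le, show 1 ≤ 2 * p by omega]
    linarith
  · refine eq_top_iff.2 (hgen.symm.le.trans ((Subgroup.closure_le _).2 ?_))
    rintro g ⟨k, hk⟩
    obtain ⟨Q, hQ⟩ := (IsPGroup.of_card (G := Subgroup.zpowers g) (by rw [Nat.card_zpowers, hk])).exists_le_sylow
    exact mem_syl.1 (e.symm ▸ mem_syl.2 le_top) (hQ (Subgroup.mem_zpowers g))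

end Cfsg.Agent.S4181
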