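import Cfsg.Statements.S3580
import Cfsg.Agent.S4181

set_option autoImplicit false
open Cfsg

namespace Cfsg.Agent.S3580

section Helpers
open MulAction Finset Cfsg.Agent.S4181
open scoped Pointwise Classical

variable {G Ω : Type*} [Group G] [Finite G] [MulAction G Ω] [Fintype Ω] {p : ℕ} [hp : Fact p.Prime]

theorem smul_le_stab (Q : Sylow p G) (g : G) (ω : Ω) :
    ((g • Q : Sylow p G) : Subgroup G) ≤ stabilizer G (g • ω) ↔ (Q : Subgroup G) ≤ stabilizer G ω := by
  rw [stabilizer_smul_eq_stabilizer_map_conj, Sylow.coe_subgroup_smul]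
  exact Subgroup.pointwise_smul_le_pointwise_smul_iff

/-- the proportion of the fixed points of a Sylow subgroup -/
theorem fix_le [FaithfulSMul G Ω] (htrans : IsPretransitive G Ω) (hpG : p ∣ Nat.card G) (P : Sylow p G) :
    (2 * p - 1 : ℤ) * #(univ.filter fun ω : Ω => (P : Subgroup G) ≤ stabilizer G ω) ≤ (p - 1) * Fintype.card Ω := by
  have hp1 := p1 (p := p)
  have h1 : ∀ ω : Ω, (2 * p - 1 : ℤ) * #(syl p (stabilizer G ω)) ≤ (p - 1) * #(syl p (⊤ : Subgroup G)) := fun ω => by
    rcases (syl p (stabilizer G ω)).eq_empty_or_nonempty with e | e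
    · rw [e]
      simp only [card_empty, Nat.cast_zero, mul_zero]
      exact mul_nonneg (by omega) (by positivity)
    have hs : syl p (stabilizer G ω) ⊆ syl p ⊤ := fun Q _ => mem_syl.2 le_top
    have h := (all ⊤).1 _ (pt_syl e) (Finset.ssubset_iff_subset_ne.2 ⟨hs, fun e' => P.ne_bot_of_dvd_card hpG ?_⟩)
    · rw [df, inter_eq_right.2 hs] at h
      linarith
    · refine eq_bot_iff.2 fun x hx => eq_of_smul_eq_smul (α := Ω) fun a => ?_
      obtain ⟨g, rfl⟩ := exists_smul_eq G a ω
      rw [one_smul]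
      exact (smul_le_stab P g a).1 (mem_syl.1 (e'.symm ▸ mem_syl.2 le_top)) hx
  have h2 : ∀ Q ∈ syl p (⊤ : Subgroup G), #(univ.filter fun ω : Ω => (Q : Subgroup G) ≤ stabilizer G ω) =
      #(univ.filter fun ω : Ω => (P : Subgroup G) ≤ stabilizer G ω) := fun Q _ => by
    obtain ⟨g, rfl⟩ := exists_smul_eq G P Q
    refine (card_bij (fun ω _ => g • ω) (fun ω h => ?_) (fun a _ b _ h => (smul_left_cancel_iff g).1 h)
      fun ω h => ⟨g⁻¹ • ω, ?_, smul_inv_smul g ω⟩).symm
    · exact mem_filter.2 ⟨mem_univ _, (smul_le_stab P g ω).2 (mem_filter.1 h).2⟩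
    · exact mem_filter.2 ⟨mem_univ _, (smul_le_stab P g _).1 (by rw [smul_inv_smul]; exact (mem_filter.1 h).2)⟩
  have h3 : #(syl p (⊤ : Subgroup G)) * #(univ.filter fun ω : Ω => (P : Subgroup G) ≤ stabilizer G ω) =
      ∑ ω : Ω, #(syl p (stabilizer G ω)) := by
    rw [← smul_eq_mul, ← sum_const, ← sum_congr rfl h2]
    refine (sum_card_bipartiteAbove_eq_sum_card_bipartiteBelow
      (fun (Q : Sylow p G) (ω : Ω) => (Q : Subgroup G) ≤ stabilizer G ω)).trans (sum_congr rfl fun ω _ => ?_)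
    congr 1
    ext Q
    simp [mem_syl]
  have h4 : (0 : ℤ) < #(syl p (⊤ : Subgroup G)) := by exact_mod_cast card_pos.2 ⟨P, mem_syl.2 le_top⟩
  have h5 := sum_le_sum fun ω (_ : ω ∈ (univ : Finset Ω)) => h1 ω
  rw [← mul_sum, ← Nat.cast_sum, ← h3, sum_const, card_univ, nsmul_eq_mul] at h5
  push_cast at h5
  nlinarith

/-- the number of orbits of a `p`-group -/
theorem orb_le (P : Sylow p G) : p * Nat.card (orbitRel.Quotient (P : Subgroup G) Ω) ≤
    Fintype.card Ω + (p - 1) * #(univ.filter fun ω : Ω => (P : Subgroup G) ≤ stabilizer G ω) := by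
  have := Fintype.ofFinite (orbitRel.Quotient (P : Subgroup G) Ω)
  have hp1 := hp.out.one_lt
  have h1 := sum_fiberwise (univ : Finset Ω) (fun a => (Quotient.mk _ a : orbitRel.Quotient (P : Subgroup G) Ω))
    fun ω => 1 + (p - 1) * if (P : Subgroup G) ≤ stabilizer G ω then 1 else 0
  rw [sum_add_distrib, ← mul_sum, ← card_filter, sum_const, card_univ, smul_eq_mul, mul_one] at h1
  rw [← h1, Nat.card_eq_fintype_card, mul_comm, ← card_univ, ← smul_eq_mul]
  refine card_nsmul_le_sum _ _ _ fun o _ => ?_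
  obtain ⟨a, rfl⟩ := Quotient.exists_rep o
  by_cases h : (P : Subgroup G) ≤ stabilizer G a
  · refine le_trans ?_ (single_le_sum (fun _ _ => Nat.zero_le _) (mem_filter.2 ⟨mem_univ a, rfl⟩))
    rw [if_pos h]; omega
  · obtain ⟨k, hk⟩ := P.isPGroup'.index ((stabilizer G a).subgroupOf P)
    have h2 : p ≤ #(orb (P : Subgroup G) a) := by
      rw [card_orb]
      cases k with
      | zero => exact absurd (Subgroup.relIndex_eq_one.1 hk) h
      | succ k => exact (Nat.le_self_pow k.succ_ne_zero p).trans hk.ge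
    refine h2.trans ((card_le_card fun b hb => ?_).trans ((card_eq_sum_ones _).le.trans
      (sum_le_sum fun _ _ => Nat.le_add_right _ _)))
    obtain ⟨g, hg, rfl⟩ := mem_orb.1 hb
    exact mem_filter.2 ⟨mem_univ _, Quotient.sound ⟨⟨g, hg⟩, rfl⟩⟩

end Helpers

/-- Let G act faithfully and transitively on a finite set Ω, let p be an odd prime dividing the order of G and P a Sylow p-subgroup of G. Then the number of orbits of P on Ω is at most (p/(2p − 1))·(number of points). -/
theorem result {G Ω : Type*} [Group G] [Finite G] [MulAction G Ω] [FaithfulSMul G Ω] [Finite Ω]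
    (htrans : MulAction.IsPretransitive G Ω) (p : ℕ) [Fact p.Prime] (hp2 : p ≠ 2) (hpG : p ∣ Nat.card G)
    (P : Sylow p G) :
    (2 * p - 1) * Nat.card (MulAction.orbitRel.Quotient ↥(P : Subgroup G) Ω) ≤ p * Nat.card Ω := by
  have := Fintype.ofFinite Ω
  have h1 := fix_le htrans hpG P
  have h2 := orb_le (Ω := Ω) P
  have h4 := (Fact.out : p.Prime).one_lt
  rw [Nat.card_eq_fintype_card (α := Ω)]
  zify [h4.le, show 1 ≤ 2 * p by omega] at h2 ⊢
  have h5 : (1 : ℤ) < p := by exact_mod_cast h4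
  refine le_of_mul_le_mul_left ?_ (show (0 : ℤ) < p by omega)
  nlinarith [mul_le_mul_of_nonneg_left h2 (show (0 : ℤ) ≤ 2 * p - 1 by omega),
    mul_le_mul_of_nonneg_left h1 (show (0 : ℤ) ≤ p - 1 by omega)]

end Cfsg.Agent.S3580
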