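import Cfsg.Statements.S3592
import Cfsg.Agent.Spor.SelfCent
import Cfsg.Agent.Spor.M11Unique
import Cfsg.Agent.Known.MathieuIso

set_option autoImplicit false
open Cfsg

namespace Cfsg.Agent.S3592


/-- Let M be the Mathieu group M₁₁ (order 7920). If a finite group G has the same order as M and the same set of values of the function 'number of elements of order n' (taken over the element orders n that occur), then G is isomorphic to M. -/
theorem result {G : Type*} [Group G] [Finite G]
    (hcard : Nat.card G = Nat.card ↥Cfsg.Spor.M11)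
    (hnse : {c : ℕ | 0 < c ∧ ∃ n : ℕ, c = Nat.card {g : G // orderOf g = n}} =
      {c : ℕ | 0 < c ∧ ∃ n : ℕ, c = Nat.card {g : ↥Cfsg.Spor.M11 // orderOf g = n}}) :
    Nonempty (G ≃* ↥Cfsg.Spor.M11) := by
  have := CL.Spor.M11_simple
  have hs : IsSimpleGroup G := CL.Spor.isSimpleGroup_of_nse (M := Cfsg.Spor.M11) (p := 11) (e := 5) (m := 720)
    (q := 2) (by norm_num) (by norm_num) (by norm_num) CL.Spor.card_M11 (by norm_num) (by norm_num) (by norm_num)
    (by norm_num) (by norm_num) (by norm_num) (by decide +kernel)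
    (fun a ha => (CL.Spor.m11_cent11 CL.Spor.card_M11 ha).1) hcard hnse
  exact CL.Spor.nonempty_mulEquiv_of_isM11 ⟨hs, hcard.trans CL.Spor.card_M11⟩ ⟨this, CL.Spor.card_M11⟩

end Cfsg.Agent.S3592
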