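import Cfsg.Statements.S3597
import Cfsg.Agent.SP2.Asm
import Cfsg.Agent.SP2.Ch
import Cfsg.Agent.SP2.L0
import Cfsg.Agent.SP2.L1
import Cfsg.Agent.SP2.L2
import Cfsg.Agent.SP2.B1
import Cfsg.Agent.SP2.B2
import Cfsg.Agent.SP2.Blk
import Cfsg.Agent.SP2.Two
import Cfsg.Agent.SP2.G1
import Cfsg.Agent.SP2.Tc
import Cfsg.Agent.SP2.T1
import Cfsg.Agent.SP2.T2
import Cfsg.Agent.SP2.T3

set_option autoImplicit false
open Cfsg

namespace Cfsg.Agent.S3597

/-- Let p > 5 be a prime and F a field with p² elements. If a finite group G has the same order as PSL(2,F), has an irreducible complex character of degree p², and has no irreducible complex character whose degree is divisible by 2p, then G is isomorphic to PSL(2,F). -/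
theorem result {F : Type*} [Field F] [Fintype F] (p : ℕ) (hp : p.Prime)
    (h5 : 5 < p) (hF : Fintype.card F = p ^ 2) {G : Type*} [Group G] [Finite G]
    (hcard : Nat.card G = Nat.card (Matrix.ProjectiveSpecialLinearGroup (Fin 2) F))
    (hdeg : ∃ χ : Cfsg.IrrCharacter G, (χ : G → ℂ) 1 = (p ^ 2 : ℕ))
    (hno : ∀ χ : Cfsg.IrrCharacter G, ∀ d : ℕ, (χ : G → ℂ) 1 = (d : ℂ) → ¬ 2 * p ∣ d) :
    Nonempty (G ≃* Matrix.ProjectiveSpecialLinearGroup (Fin 2) F) :=
  open CL.SP2 in fin_of ch (con_of l0 ev l1 l2 b1 b2 loc blk two sy2 g1 g17 tc t0 t1 t2 t3 t4) p hp h5 hF hcard hdeg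

end Cfsg.Agent.S3597
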