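import Cfsg.Statements.S3599
import Cfsg.Agent.Fgs.CritSpec
-- import your own Cfsg.Agent.* helpers here

set_option autoImplicit false
open Cfsg

namespace Cfsg.Agent.S3599

/-- A finite group is critical with respect to a set Ω of natural numbers when its set of element orders is Ω while no proper section H/N (H a subgroup, N normal in H, (H, N) ≠ (whole group, 1)) has Ω as its set of element orders. Let s ≥ 1 and let p(j,0), p(j,1) (j < s) be 2s pairwise distinct primes, and let Ω be the set of all products c(0)·…·c(s−1) with each c(j) ∈ {1, p(j,0), p(j,1)}. Then there are 2^s pairwise non-isomorphic finite groups critical with respect to Ω. -/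
theorem result (s : ℕ) (hs : 1 ≤ s) (p : Fin s → Fin 2 → ℕ)
    (hp : ∀ j i, (p j i).Prime) (hinj : ∀ j i j' i', p j i = p j' i' → j = j' ∧ i = i') :
    ∃ (G : Fin (2 ^ s) → Type) (_ : ∀ a, Group (G a)) (_ : ∀ a, Fintype (G a)),
      (∀ a b, a ≠ b → ¬ Nonempty (G a ≃* G b)) ∧
      ∀ a, Set.range (orderOf : (G a) → ℕ) = {m : ℕ | ∃ c : Fin s → ℕ, (∀ j, c j = 1 ∨ c j = p j 0 ∨ c j = p j 1) ∧ m = ∏ j, c j} ∧
      ∀ (H : Subgroup (G a)) (N : Subgroup ↥H) [N.Normal], (H ≠ ⊤ ∨ N ≠ ⊥) → Set.range (orderOf : (↥H ⧸ N) → ℕ) ≠ {m : ℕ | ∃ c : Fin s → ℕ, (∀ j, c j = 1 ∨ c j = p j 0 ∨ c j = p j 1) ∧ m = ∏ j, c j} := by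
  open CL.Fgs.CritSpec in
  classical
  have hne : ∀ j (i : Fin 2), p j i ≠ p j i.rev := fun j i e => absurd (hinj _ _ _ _ e).2 ((by decide : ∀ i : Fin 2, i ≠ i.rev) i)
  choose X iX fX hX using fun (j : Fin s) (i : Fin 2) => exists_good (hp j i) (hp j i.rev) (hne j i)
  let a : Fin (2 ^ s) → Fin s → Fin 2 := finFunctionFinEquiv.symm
  have hc : ∀ (b : Fin s → Fin 2) j k, j ≠ k → (p j (b j) * p j (b j).rev).Coprime (p k (b k) * p k (b k).rev) :=
    fun b j k hjk => by
      have : ∀ i i', (p j i).Coprime (p k i') := fun i i' =>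
        (Nat.coprime_primes (hp _ _) (hp _ _)).2 fun e => hjk (hinj _ _ _ _ e).1
      exact Nat.Coprime.mul_left ((this _ _).mul_right (this _ _)) ((this _ _).mul_right (this _ _))
  have hset : ∀ b : Fin s → Fin 2, {m | ∃ c : Fin s → ℕ, (∀ j, c j = 1 ∨ c j = p j (b j) ∨ c j = p j (b j).rev) ∧
      m = ∏ j, c j} = {m : ℕ | ∃ c : Fin s → ℕ, (∀ j, c j = 1 ∨ c j = p j 0 ∨ c j = p j 1) ∧ m = ∏ j, c j} :=
    fun b => by
      have : ∀ j (i : Fin 2) (c : ℕ), (c = 1 ∨ c = p j i ∨ c = p j i.rev) ↔ (c = 1 ∨ c = p j 0 ∨ c = p j 1) :=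
        fun j i c => by
          fin_cases i
          · rfl
          · exact or_congr_right or_comm
      simp only [this]
  refine ⟨fun b => ∀ j, X j (a b j), fun _ => inferInstance, fun _ => Fintype.ofFinite _,
    fun b b' hb ⟨e⟩ => ?_, fun b => ⟨(range_orderOf (fun j => hX j (a b j)) (hc _)).trans (hset _),
    fun H N _ h1 h2 => ?_⟩⟩
  · obtain ⟨j, hj⟩ := Function.ne_iff.1 (finFunctionFinEquiv.symm.injective.ne hb)
    have h1 : (a b' j).rev = a b j := by
      change a b j ≠ a b' j at hj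
      revert hj; generalize a b j = x; generalize a b' j = y; revert x y; decide
    obtain ⟨x, y, hx, hy, hxy⟩ := (hX j (a b' j)).ncl
    rw [h1] at hx hy hxy
    have key : ∀ u v : ∀ j, X j (a b j), u ^ p j (a b j) = 1 → v ^ p j (a b j) = 1 → (u * v) ^ p j (a b j) = 1 :=
      fun u v hu hv => by
        rw [eq_mulSingle (fun j => hX j (a b j)) (hc _) (g := u) (j := j) (by rw [pow_mul, hu, one_pow]),
          eq_mulSingle (fun j => hX j (a b j)) (hc _) (g := v) (j := j) (by rw [pow_mul, hv, one_pow]),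
          ← Pi.mulSingle_mul, ← Pi.mulSingle_pow, (hX j _).cl _ _ (congrFun hu j) (congrFun hv j), Pi.mulSingle_one]
    have := key (e.symm (Pi.mulSingle j x)) (e.symm (Pi.mulSingle j y))
      (by rw [← map_pow, ← Pi.mulSingle_pow, hx, Pi.mulSingle_one, map_one])
      (by rw [← map_pow, ← Pi.mulSingle_pow, hy, Pi.mulSingle_one, map_one])
    rw [← map_mul, ← map_pow, map_eq_one_iff _ e.symm.injective, ← Pi.mulSingle_mul, ← Pi.mulSingle_pow] at this
    exact hxy (by simpa using congrFun this j)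
  · have h3 : ∀ j i, ∃ x : H ⧸ N, orderOf x = p j i := fun j i => by
      refine h2.ge (show p j i ∈ _ from ⟨Pi.mulSingle j (p j i), fun k => ?_, by simp⟩)
      by_cases hk : k = j
      · subst hk
        rw [Pi.mulSingle_eq_same]
        fin_cases i <;> simp
      · exact Or.inl (Pi.mulSingle_eq_of_ne hk _)
    have := critical (fun j => hX j (a b j)) (fun j => hp _ _) (fun j => hp _ _) (hc _) H N fun j => ⟨h3 _ _, h3 _ _⟩
    exact h1.elim (fun h => h this.1) fun h => h this.2


end Cfsg.Agent.S3599
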