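import Cfsg.Statements.S3619
import Cfsg.Agent.Perm.JordanQuasi

set_option autoImplicit false
open Cfsg

namespace Cfsg.Agent.S3619

/-- Let G act faithfully on a finite set in such a way that every non-trivial normal subgroup of G is transitive (G is quasiprimitive). Let Γ be a subset with more than one point and not the whole set, such that the pointwise stabilizer of the complement of Γ acts transitively on Γ (a Jordan set). If that pointwise stabilizer acts primitively on Γ, then G is k-fold transitive where k is one more than the number of points outside Γ (the Jordan set is a trivial one). -/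
theorem result {G Ω : Type*} [Group G] [Finite G] [MulAction G Ω] [FaithfulSMul G Ω] [Finite Ω]
    (hqp : ∀ N : Subgroup G, N.Normal → N ≠ ⊥ → MulAction.IsPretransitive ↥N Ω)
    (Γ : Set Ω) (hΓ1 : 1 < Γ.ncard) (hΓ2 : Γ.ncard < Nat.card Ω)
    (hJ : MulAction.IsPretransitive ↥(fixingSubgroup G Γᶜ) ↥(SubMulAction.ofFixingSubgroup G Γᶜ))
    (hJp : MulAction.IsPreprimitive ↥(fixingSubgroup G Γᶜ) ↥(SubMulAction.ofFixingSubgroup G Γᶜ)) :
    MulAction.IsMultiplyPretransitive G Ω (Nat.card Ω - Γ.ncard + 1) := by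
  have h3 := Set.ncard_add_ncard_compl Γ
  have hs := CL.Perm.JC.iff_isPretransitive.mpr hJ
  have hprim : MulAction.IsPreprimitive G Ω := by
    obtain ⟨γ, γ', hγ, hγ', hne⟩ := (Set.one_lt_ncard_iff).mp hΓ1
    have hγ1 : γ ∉ Γᶜ := not_not.mpr hγ
    have hγ2 : γ' ∉ Γᶜ := not_not.mpr hγ'
    have : Nontrivial Ω := ⟨⟨γ, γ', hne⟩⟩
    have : MulAction.IsPretransitive G Ω := by
      obtain ⟨g, -, e⟩ := hs γ γ' hγ1 hγ2
      exact CL.Perm.isPretransitive_of_quasiprimitive hqp (g := g) fun h =>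
        hne (by rw [← e, h, one_smul])
    by_contra hnp
    obtain ⟨M, π, hπ, -, hf, hfib⟩ := CL.Perm.exists_block_quotient hqp hnp
    have hsurj : Function.Surjective π := fun x => by
      obtain ⟨g, rfl⟩ := MulAction.exists_smul_eq G (π γ) x
      exact ⟨g • γ, hπ g γ⟩
    obtain ⟨⟨δ, hδ, hδγ⟩, hsep⟩ := hs.fibre π hπ hf hsurj hγ1 hγ2 hne
    have hB : MulAction.IsBlock (fixingSubgroup G Γᶜ)
        {x : SubMulAction.ofFixingSubgroup G Γᶜ | π x = π γ} := by
      rw [MulAction.isBlock_iff_smul_eq_of_mem]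
      intro g a ha hga
      have e1 : (g : G) • π γ = π γ := by
        have e2 : π ((g : G) • (a : Ω)) = π γ := hga
        rwa [hπ, show π a = π γ from ha] at e2
      ext x
      rw [Set.mem_smul_set_iff_inv_smul_mem]
      change π ((g : G)⁻¹ • (x : Ω)) = π γ ↔ π x = π γ
      rw [hπ, inv_smul_eq_iff, e1]
    rcases hJp.isTrivialBlock_of_isBlock hB with h | h
    · obtain ⟨ω, hω, hωγ⟩ := hfib γ
      have hω' : ω ∉ Γᶜ := fun h' => hsep γ hγ1 ω h' hωγ.symm
      exact hω (congrArg Subtype.val (h (x := ⟨ω, hω'⟩) hωγ (y := ⟨γ, hγ1⟩) rfl))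
    · have : (⟨δ, hδ⟩ : SubMulAction.ofFixingSubgroup G Γᶜ) ∈
          {x : SubMulAction.ofFixingSubgroup G Γᶜ | π x = π γ} := h ▸ Set.mem_univ _
      exact hδγ this
  have := (hprim.isMultiplyPreprimitive (s := Γᶜ) (n := Γᶜ.ncard - 1) (by omega) (by omega)
    hJp).isMultiplyPretransitive
  rwa [show Γᶜ.ncard - 1 + 2 = Nat.card Ω - Γ.ncard + 1 by omega] at this

end Cfsg.Agent.S3619
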