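import Cfsg.Statements.S3620
import Cfsg.Agent.Perm.JordanQuasi

set_option autoImplicit false
open Cfsg

namespace Cfsg.Agent.S3620

/-- Let G act faithfully on a finite set in such a way that every non-trivial normal subgroup of G is transitive (G is quasiprimitive). Let Γ be a subset with more than one point and fewer than half of the points, such that the pointwise stabilizer of the complement of Γ acts transitively on Γ. Then G induces every even permutation of the set (G is the alternating or the symmetric group). -/
theorem result {G Ω : Type*} [Group G] [Finite G] [MulAction G Ω] [FaithfulSMul G Ω] [Fintype Ω] [DecidableEq Ω]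
    (hqp : ∀ N : Subgroup G, N.Normal → N ≠ ⊥ → MulAction.IsPretransitive ↥N Ω)
    (Γ : Set Ω) (hΓ1 : 1 < Γ.ncard) (hΓ2 : 2 * Γ.ncard < Fintype.card Ω)
    (hJ : MulAction.IsPretransitive ↥(fixingSubgroup G Γᶜ) ↥(SubMulAction.ofFixingSubgroup G Γᶜ)) :
    ∀ σ : Equiv.Perm Ω, Equiv.Perm.sign σ = 1 → ∃ x : G, (MulAction.toPerm x : Equiv.Perm Ω) = σ := by
  have h3 := Set.ncard_add_ncard_compl Γ
  rw [← Nat.card_eq_fintype_card] at hΓ2
  have hs := CL.Perm.JC.iff_isPretransitive.mpr hJ
  have hprim := CL.Perm.isPreprimitive_of_quasiprimitive_of_half hqp hs (by rwa [compl_compl])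
    (by rwa [compl_compl])
  exact CL.Perm.exists_toPerm_eq_of_isMultiplyPretransitive (hs.marggraff hprim (by omega) (by omega))

end Cfsg.Agent.S3620
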