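import Cfsg.Statements.S3621
import Cfsg.Agent.Fgs.TcMain
import Cfsg.Agent.Fgs.TcAdd
import Cfsg.Agent.Fgs.TcAddR
import Cfsg.Agent.Fgs.TcAff
import Cfsg.Agent.Fgs.TcCfG
import Cfsg.Agent.Fgs.TcEn
import Cfsg.Agent.Fgs.TcImp
import Cfsg.Agent.Fgs.TcJ
import Cfsg.Agent.Fgs.TcP
import Cfsg.Agent.Fgs.TcRec
import Cfsg.Agent.Fgs.TcSet2
import Cfsg.Agent.Fgs.TcSetH
import Cfsg.Agent.Fgs.TcSetO
import Cfsg.Agent.Fgs.TcUn
import Cfsg.Agent.Fgs.TcInv
import Cfsg.Agent.Fgs.TcCfV
import Cfsg.Agent.Fgs.TcGl3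

set_option autoImplicit false
open Cfsg

namespace Cfsg.Agent.S3621

/-- Let G be a solvable group of permutations of a finite set. Then every group H of permutations of the set with the property that for each h in H and each three points a, b, c there is an element of G agreeing with h at a, b and c (that is, every subgroup of the 3-closure of G) is solvable. -/
theorem result {Ω : Type*} [Finite Ω] (G : Subgroup (Equiv.Perm Ω)) (hG : Group.IsSolvable ↥G)
    (H : Subgroup (Equiv.Perm Ω))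
    (hH : ∀ h ∈ H, ∀ a b c : Ω, ∃ g ∈ G, g a = h a ∧ g b = h b ∧ g c = h c) :
    Group.IsSolvable ↥H := by
  open CL.SL.Tc in
  exact final (pThm_of (pStep (addThm addR) affThm2) (fun H V _ _ _ _ _ _ G p U E hf hs hm hi e2 h Z hZ =>
    stepB recThm set4 setO set2 gl3Thm cfX cfG cfV (setH invThm unThm jThm enThm H V G p U E hf hs hm hi e2 h) hs e2 hZ)
    impThm) G hG H hH

end Cfsg.Agent.S3621
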