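import Cfsg.Statements.S3627
import Cfsg.Agent.Known.SpecJ1
import Cfsg.Agent.Perm.SpecAlt
import Cfsg.Agent.Perm.SpecFrobCyc

set_option autoImplicit false
open Cfsg

namespace Cfsg.Agent.S3627

open CL.Perm in
theorem frob (r : ℕ) (hr : r.Prime) (h2 : r ≠ 2) : ∃ (H : Type) (_ : Group H) (_ : Finite H),
    Group.IsSolvable H ∧ Nontrivial H ∧ Spec H = {k | k ∈ [1, 2, r]} := by
  obtain ⟨H, _, _, h1, h3, h4⟩ := exists_solvable_spec_eq (n := r) Nat.prime_two fun h =>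
    h2 ((Nat.prime_dvd_prime_iff_eq Nat.prime_two hr).1 h).symm
  refine ⟨H, _, inferInstance, h1, h3, h4.trans ?_⟩
  ext k
  simp only [Set.mem_setOf_eq, Nat.dvd_prime Nat.prime_two, Nat.dvd_prime hr, List.mem_cons,
    List.not_mem_nil]
  tauto

/-- Let J be the first Janko group. Then there are finite groups of arbitrarily large order with exactly the same set of element orders as J × J × J × J. -/
theorem result (N : ℕ) : ∃ (H : Type) (_ : Group H) (_ : Fintype H), N < Fintype.card H ∧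
      Set.range (orderOf : H → ℕ) = Set.range (orderOf : ↥Cfsg.Spor.J1 × ↥Cfsg.Spor.J1 × ↥Cfsg.Spor.J1 × ↥Cfsg.Spor.J1 → ℕ) := by
  obtain ⟨A, _, _, a1, a2, a3⟩ := frob 3 (by norm_num) (by norm_num)
  obtain ⟨B, _, _, b1, -, b3⟩ := frob 5 (by norm_num) (by norm_num)
  obtain ⟨C, _, _, c1, -, c3⟩ := frob 7 (by norm_num) (by norm_num)
  obtain ⟨D, _, _, d1, -, d3⟩ := frob 11 (by norm_num) (by norm_num)
  obtain ⟨E, _, _, e1, -, e3⟩ := frob 19 (by norm_num) (by norm_num)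
  have h1 := CL.Perm.spec_prod_eq_of d3 e3 [1, 2, 11, 19, 22, 38, 209] (by decide +kernel) (by decide +kernel)
  have h2 := CL.Perm.spec_prod_eq_of c3 h1 [1, 2, 7, 11, 14, 19, 22, 38, 77, 133, 154, 209, 266, 418, 1463] (by decide +kernel) (by decide +kernel)
  have h3 := CL.Perm.spec_prod_eq_of b3 h2 [1, 2, 5, 7, 10, 11, 14, 19, 22, 35, 38, 55, 70, 77, 95, 110, 133, 154, 190, 209, 266, 385, 418, 665, 770, 1045, 1330, 1463, 2090, 2926, 7315] (by decide +kernel) (by decide +kernel)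
  have h4 := CL.Perm.spec_prod_eq_of a3 h3 [1, 2, 3, 5, 6, 7, 10, 11, 14, 15, 19, 21, 22, 30, 33, 35, 38, 42, 55, 57, 66, 70, 77, 95, 105, 110, 114, 133, 154, 165, 190, 209, 210, 231, 266, 285, 330, 385, 399, 418, 462, 570, 627, 665, 770, 798, 1045, 1155, 1254, 1330, 1463, 1995, 2090, 2310, 2926, 3135, 3990, 4389, 6270, 7315, 8778, 14630, 21945] (by decide +kernel) (by decide +kernel)
  have j2 := CL.Perm.spec_prod_eq_of CL.Spec.spec_J1 CL.Spec.spec_J1 [1, 2, 3, 5, 6, 7, 10, 11, 14, 15, 19, 21, 22, 30, 33, 35, 38, 42, 55, 57, 66, 70, 77, 95, 105, 110, 114, 133, 165, 190, 209, 285] (by decide +kernel) (by decide +kernel)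
  have j3 := CL.Perm.spec_prod_eq_of CL.Spec.spec_J1 j2 [1, 2, 3, 5, 6, 7, 10, 11, 14, 15, 19, 21, 22, 30, 33, 35, 38, 42, 55, 57, 66, 70, 77, 95, 105, 110, 114, 133, 154, 165, 190, 209, 210, 231, 266, 285, 330, 385, 399, 418, 462, 570, 627, 665, 770, 798, 1045, 1155, 1254, 1330, 1463, 1995, 2090, 3135] (by decide +kernel) (by decide +kernel)
  have j4 := CL.Perm.spec_prod_eq_of CL.Spec.spec_J1 j3 [1, 2, 3, 5, 6, 7, 10, 11, 14, 15, 19, 21, 22, 30, 33, 35, 38, 42, 55, 57, 66, 70, 77, 95, 105, 110, 114, 133, 154, 165, 190, 209, 210, 231, 266, 285, 330, 385, 399, 418, 462, 570, 627, 665, 770, 798, 1045, 1155, 1254, 1330, 1463, 1995, 2090, 2310, 2926, 3135, 3990, 4389, 6270, 7315, 8778, 14630, 21945] (by decide +kernel) (by decide +kernel)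
  exact CL.Perm.exists_large_spec_of_eq (G := A × B × C × D × E) ⊤ top_ne_bot inferInstance
    (h4.trans j4.symm) N

end Cfsg.Agent.S3627
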