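import Cfsg.Statements.S3633
import Cfsg.Agent.Perm.SpecThree

set_option autoImplicit false
open Cfsg

namespace Cfsg.Agent.S3633

/-- Let G be a finite group and ρ a set of at least three prime divisors of the order of G that are pairwise non-adjacent in the prime graph (no element of order rs for distinct r, s ∈ ρ). Then at most one prime of ρ divides the order of any given solvable normal subgroup of G; in particular G is not solvable. -/
theorem result {G : Type*} [Group G] [Finite G] (ρ : Finset ℕ) (hρ : 3 ≤ ρ.card) (hc : ((∀ r ∈ ρ, r.Prime ∧ r ∣ Nat.card G) ∧ (∀ r ∈ ρ, ∀ s ∈ ρ, r ≠ s → ¬ ∃ x : G, orderOf x = r * s)))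
    (K : Subgroup G) [K.Normal] (hK : Group.IsSolvable ↥K) :
    (∀ r ∈ ρ, ∀ s ∈ ρ, r ∣ Nat.card ↥K → s ∣ Nat.card ↥K → r = s) ∧ ¬ Group.IsSolvable G := by
  have third : ∀ r s : ℕ, ∃ t ∈ ρ, r ≠ t ∧ s ≠ t := by
    intro r s
    by_contra h
    push Not at h
    have h1 : ρ ⊆ {r, s} := fun t ht => by
      by_cases h2 : r = t
      · simp [h2]
      · simp [h t ht h2]
    have := (Finset.card_le_card h1).trans Finset.card_le_two
    omega
  have key : ∀ (L : Subgroup G) [L.Normal], Group.IsSolvable L →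
      ∀ r ∈ ρ, ∀ s ∈ ρ, r ∣ Nat.card L → s ∣ Nat.card L → r = s := by
    intro L _ hL r hr s hs h1 h2
    by_contra hrs
    obtain ⟨t, ht, h3, h4⟩ := third r s
    rcases CL.Perm.three_primes_solvable L hL (hc.1 r hr).1 (hc.1 s hs).1 (hc.1 t ht).1 hrs h3 h4 h1 h2
      (hc.1 t ht).2 with h | h | h
    exacts [hc.2 r hr s hs hrs h, hc.2 r hr t ht h3 h, hc.2 s hs t ht h4 h]
  refine ⟨key K hK, fun hG => ?_⟩
  obtain ⟨r, hr, -, -⟩ := third 0 0
  obtain ⟨s, hs, h, -⟩ := third r r
  exact h (key ⊤ inferInstance r hr s hs (by rw [Subgroup.card_top]; exact (hc.1 r hr).2)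
    (by rw [Subgroup.card_top]; exact (hc.1 s hs).2))

end Cfsg.Agent.S3633
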