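import Cfsg.Statements.S3641
import Cfsg.Agent.Inv.NS17

set_option autoImplicit false
open Cfsg

namespace Cfsg.Agent.S3641

/-- Let G be a finite group with trivial centre whose set of Sylow numbers (numbers of Sylow r-subgroups, r over the prime divisors of its order) is exactly {18, 136, 153}. Then G is isomorphic to PSL(2, 17) or to PGL(2, 17). -/
theorem result {G : Type*} [Group G] [Finite G] (hZ : Subgroup.center G = ⊥) (hNS : {c : ℕ | ∃ r : ℕ, r.Prime ∧ r ∣ Nat.card G ∧ c = Nat.card (Sylow r G)} = ({18, 136, 153} : Set ℕ))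
    {F : Type*} [Field F] [Fintype F] (hF : Fintype.card F = 17) :
    Nonempty (G ≃* Matrix.ProjectiveSpecialLinearGroup (Fin 2) F) ∨ Nonempty (G ≃* (GL (Fin 2) F ⧸ Subgroup.center (GL (Fin 2) F))) := by
  have h17 : Fact (Nat.Prime 17) := ⟨by norm_num⟩
  have hmem : ∀ r : ℕ, r.Prime → r ∣ Nat.card G → Nat.card (Sylow r G) = 18 ∨
      Nat.card (Sylow r G) = 136 ∨ Nat.card (Sylow r G) = 153 := fun r hr hd =>
    (hNS ▸ ⟨r, hr, hd, rfl⟩ : Nat.card (Sylow r G) ∈ ({18, 136, 153} : Set ℕ))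
  have hmod : ∀ r : ℕ, r.Prime → r ∣ Nat.card (Sylow r G) - 1 := fun r hr => by
    have := Fact.mk hr
    exact (Nat.modEq_iff_dvd' Nat.card_pos).1 (card_sylow_modEq_one r G).symm
  obtain ⟨hd17, hn⟩ : 17 ∣ Nat.card G ∧ Nat.card (Sylow 17 G) = 18 := by
    obtain ⟨r, hr, hd, e⟩ : 18 ∈ {c : ℕ | ∃ r : ℕ, r.Prime ∧ r ∣ Nat.card G ∧ c = Nat.card (Sylow r G)} :=
      hNS ▸ Or.inl rfl
    have h1 := hmod r hr
    rw [← e] at h1
    obtain rfl := (Nat.prime_dvd_prime_iff_eq hr h17.out).1 h1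
    exact ⟨hd, e.symm⟩
  set φ := MulAction.toPermHom G (Sylow 17 G)
  have hK : ∀ P : Sylow 17 G, φ.ker ≤ Subgroup.normalizer ((P : Subgroup G) : Set G) := fun P g hg =>
    Sylow.smul_eq_iff_mem_normalizer.1 (congrFun (congrArg DFunLike.coe hg) P)
  have hinj := QuotientGroup.kerLift_injective φ
  have hiso : CL.Inv.IsoP 17 (G ⧸ φ.ker) := fun g hg => hinj (by
    rw [map_pow, map_one]
    exact CL.Inv.isoP_perm h17.out hn (by norm_num) _ (by rwa [orderOf_injective _ hinj]))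
  obtain ⟨P⟩ : Nonempty (Sylow 17 G) := inferInstance
  have hn' := (CL.Fgs.card_sylow_quotient_of_le_normalizer φ.ker P (hK P)).trans hn
  have hP : ∀ Q : Sylow 17 (G ⧸ φ.ker), Nat.card Q = 17 ^ 1 := fun Q => by
    obtain ⟨k, hk⟩ := Q.isPGroup'.exists_card_eq
    have h1 := hiso.card_dvd Q
    rw [hn', hk] at h1
    obtain ⟨j, hj, e⟩ := (Nat.dvd_prime_pow h17.out (m := 1)).1 h1
    rw [hk, e]
    obtain rfl | rfl : j = 0 ∨ j = 1 := by omega
    · exfalso
      have h2 := Q.card_eq_index_normalizer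
      rw [show (Q : Set (G ⧸ φ.ker)) = ((⊥ : Subgroup (G ⧸ φ.ker)) : Set (G ⧸ φ.ker)) from
        congrArg SetLike.coe (Subgroup.card_eq_one.1 (hk.trans e)), Subgroup.normalizer_eq_top,
        Subgroup.index_top] at h2
      omega
    · rfl
  obtain ⟨h1, h2, h3, h4⟩ := CL.Inv.zass_eighteen hiso hP hn' hF
  have hq : ∀ r : ℕ, r.Prime → 0 < Nat.card (Sylow r G) →
      Nat.card (Sylow r (G ⧸ φ.ker)) = Nat.card (Sylow r G) →
      ∀ R : Sylow r G, φ.ker ≤ Subgroup.normalizer ((R : Subgroup G) : Set G) := fun r hr h0 e R => by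
    have := Fact.mk hr
    have e1 := CL.Fgs.card_sylow_eq_quotient_mul φ.ker R
    rw [e] at e1
    exact Subgroup.relIndex_eq_one.1 (Nat.eq_of_mul_eq_mul_left h0 (e1.symm.trans (mul_one _).symm))
  have hbot : φ.ker = ⊥ := CL.Inv.eq_bot_of_le_normalizer_sylow hZ _ fun r hr hd => by
    have := Fact.mk hr
    have h5 := hmod r hr
    have h6 := hmem r hr hd
    by_cases e2 : r = 2
    · subst e2
      exact hq 2 hr (by omega) (by omega)
    by_cases e3 : r = 3
    · subst e3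
      exact hq 3 hr (by omega) (by omega)
    by_cases e17 : r = 17
    · subst e17
      exact hK
    exfalso
    have h7 : r = 5 ∨ r = 19 := by
      rcases h6 with e | e | e <;> rw [e] at h5
      · exact absurd ((Nat.prime_dvd_prime_iff_eq hr h17.out).1 h5) e17
      · rcases (Nat.Prime.dvd_mul hr).1 (show r ∣ 3 ^ 3 * 5 from h5) with e1 | e1
        · exact absurd ((Nat.prime_dvd_prime_iff_eq hr Nat.prime_three).1 (hr.dvd_of_dvd_pow e1)) e3
        · exact Or.inl ((Nat.prime_dvd_prime_iff_eq hr Nat.prime_five).1 e1)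
      · rcases (Nat.Prime.dvd_mul hr).1 (show r ∣ 2 ^ 3 * 19 from h5) with e1 | e1
        · exact absurd ((Nat.prime_dvd_prime_iff_eq hr Nat.prime_two).1 (hr.dvd_of_dvd_pow e1)) e2
        · exact Or.inr ((Nat.prime_dvd_prime_iff_eq hr (by norm_num)).1 e1)
    refine CL.Inv.not_dvd_card_sylow_of_le (p := 17) (r := r) φ.ker hK (fun e => ?_) ?_ e17 ?_ ?_
    · have := e.trans h2
      rcases h7 with rfl | rfl <;> omega
    · rcases h7 with rfl | rfl <;> omega
    · omega
    · rcases h7 with rfl | rfl <;> omega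
  have e : G ≃* G ⧸ φ.ker := ((QuotientGroup.quotientMulEquivOfEq hbot).trans QuotientGroup.quotientBot).symm
  exact h1.imp (fun ⟨f⟩ => ⟨e.trans f⟩) fun ⟨f⟩ => ⟨e.trans f⟩

end Cfsg.Agent.S3641
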