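import Cfsg.Statements.S3648
import Cfsg.Agent.Inv.IsoP4

set_option autoImplicit false
open Cfsg

namespace Cfsg.Agent.S3648

/-- For a finite group X let nse(X) be the set of values of the function 'number of elements of order k' over the element orders k that occur. Let F be a finite field of odd order q > 3 and P = PGL(2, F) = GL(2, F) modulo its centre. If G is a finite group with the same order as P and nse(G) = nse(P), then G is isomorphic to P. -/
theorem result {F : Type*} [Field F] [Fintype F] (hodd : Odd (Fintype.card F)) (h3 : 3 < Fintype.card F)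
    {G : Type*} [Group G] [Finite G] (hcard : Nat.card G = Nat.card (GL (Fin 2) F ⧸ Subgroup.center (GL (Fin 2) F)))
    (hnse : {c : ℕ | 0 < c ∧ ∃ n : ℕ, c = Nat.card {g : G // orderOf g = n}} = {c : ℕ | 0 < c ∧ ∃ n : ℕ, c = Nat.card {g : (GL (Fin 2) F ⧸ Subgroup.center (GL (Fin 2) F)) // orderOf g = n}}) :
    Nonempty (G ≃* (GL (Fin 2) F ⧸ Subgroup.center (GL (Fin 2) F))) := by
  obtain ⟨p, hchar, ⟨n, hn⟩, hp, hq⟩ := FiniteField.card' F
  have := Fact.mk hp
  change Nonempty (G ≃* Matrix.ProjGenLinGroup (Fin 2) F)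
  change Nat.card G = Nat.card (Matrix.ProjGenLinGroup (Fin 2) F) at hcard
  change _ = {c : ℕ | 0 < c ∧ ∃ n : ℕ, c = Nat.card {g : Matrix.ProjGenLinGroup (Fin 2) F // orderOf g = n}}
    at hnse
  have hp2 : p ≠ 2 := by
    rintro rfl
    exact (Nat.not_even_iff_odd.2 hodd) (hq ▸ Nat.even_pow.2 ⟨even_two, hn.ne'⟩)
  have hq : Fintype.card F = p ^ n := hq
  have hP := CL.SL2.card_pgl (F := F)
  obtain ⟨m, hm⟩ : ∃ m, m + 1 = (p ^ n) ^ 2 := ⟨(p ^ n) ^ 2 - 1, by
    have : 0 < (p ^ n) ^ 2 := pow_pos (pow_pos hp.pos n) 2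
    omega⟩
  have hP' : Nat.card (Matrix.ProjGenLinGroup (Fin 2) F) = p ^ n * m := by
    rw [hP, hq, ← hm, Nat.add_sub_cancel]
  have hfin : Finite (Matrix.ProjGenLinGroup (Fin 2) F) := Nat.finite_of_card_ne_zero (by
    rw [← hcard]; exact Nat.card_pos.ne')
  have hiP := CL.Inv.isoP_pgl (F := F) (p := p)
  have hodd2 : Odd (Fintype.card F ^ 2) := hodd.pow
  have hi : Nat.card {t : G // orderOf t = 2} = Fintype.card F ^ 2 := by
    obtain ⟨-, k, hk⟩ : Fintype.card F ^ 2 ∈ {c : ℕ | 0 < c ∧ ∃ n : ℕ, c = Nat.card {g : G // orderOf g = n}} :=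
      hnse ▸ ⟨by positivity, 2, (CL.Inv.card_invol_pgl hodd).symm⟩
    obtain rfl | rfl | rfl | h : k = 0 ∨ k = 1 ∨ k = 2 ∨ 2 < k := by omega
    · rw [CL.Inv.card_orderOf_zero] at hk
      exact absurd hk (by positivity)
    · rw [CL.Inv.card_orderOf_zero_one] at hk
      nlinarith
    · exact hk.symm
    · exact absurd (hk ▸ CL.Inv.even_card_orderOf h) (Nat.not_even_iff_odd.2 hodd2)
  refine (CL.Inv.isoP_of_nse (hcard.trans hP') hn.ne' hm fun k hk1 => ?_).pgl_odd hq hp2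
    (hcard.trans hP) hi
  rcases Nat.eq_zero_or_pos (Nat.card {g : G // orderOf g = k}) with h0 | h0
  · exact Or.inr (h0 ▸ dvd_zero _)
  obtain ⟨-, j, hj⟩ : Nat.card {g : G // orderOf g = k} ∈ {c : ℕ | 0 < c ∧ ∃ n : ℕ,
      c = Nat.card {g : Matrix.ProjGenLinGroup (Fin 2) F // orderOf g = n}} := hnse ▸ ⟨h0, k, rfl⟩
  by_cases hj1 : j = 1
  · exfalso
    rw [hj1, CL.Inv.card_orderOf_zero_one] at hj
    obtain rfl | rfl | h : k = 0 ∨ k = 2 ∨ 2 < k := by omega
    · rw [CL.Inv.card_orderOf_zero] at hj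
      omega
    · rw [hi] at hj
      nlinarith
    · exact absurd (hj ▸ CL.Inv.even_card_orderOf h) (by norm_num)
  by_cases hjp : j = p
  · have := hiP.card_orderOf_prime (d := 1) hP' hn.ne' (by rw [one_mul, hm]) hp.one_lt
    rw [hjp] at hj
    exact Or.inl (by omega)
  · obtain ⟨P⟩ : Nonempty (Sylow p (Matrix.ProjGenLinGroup (Fin 2) F)) := inferInstance
    rw [hj, ← CL.Inv.card_sylow_of_eq hP'
      (CL.Inv.not_dvd_of_mul_add_one (d := 1) hn.ne' (by rw [one_mul, hm])) P]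
    exact Or.inr (hiP.card_dvd_card_orderOf P hj1 hjp)

end Cfsg.Agent.S3648
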