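import Cfsg.Statements.S3669
import Cfsg.Agent.S4713
import Cfsg.Agent.Loc.PSolv
import Cfsg.Agent.Known.SL2Irr2
import Cfsg.Agent.Cls.SmallIso
import Cfsg.Agent.Perm.SL25Pres
import Cfsg.Agent.Grp.Hall
import Cfsg.Agent.Grp.Cores

set_option autoImplicit false
open Cfsg

namespace Cfsg.Agent.S3669

/-- The character degree graph of a finite group has as vertices the primes dividing some irreducible complex character degree, two distinct primes being joined when their product divides some irreducible character degree; two groups have the same character degree graph when they have the same vertices and the same joined pairs. A finite group of order 60 with the same character degree graph as the alternating group A₅ (whose character degrees are 1, 3, 4, 5, so the graph has vertices 2, 3, 5 and no edges) is isomorphic to A₅. -/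
theorem result {G : Type*} [Group G] [Finite G] (hcard : Nat.card G = 60)
    (hΓ : Cfsg.degreePrimes G = Cfsg.degreePrimes (alternatingGroup (Fin 5)) ∧ Cfsg.degreeGraph G = Cfsg.degreeGraph (alternatingGroup (Fin 5))) : Nonempty (G ≃* alternatingGroup (Fin 5)) := by
  classical
  by_contra hne
  have hs : Group.IsSolvable G := by
    by_contra h
    exact hne (CL.Perm.nonempty_alt_five_of_not_isSolvable hcard h)
  have : Fact (Nat.Prime 5) := ⟨by norm_num⟩
  obtain ⟨e⟩ := CL.Cls.nonempty_PSL2_five (F := ZMod 5) (ZMod.card 5)
  have h5 : 5 ∈ Cfsg.degreePrimes G := by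
    rw [hΓ.1]
    refine ⟨by norm_num, 5, ?_, dvd_rfl⟩
    rw [← CL.GL2.charDegrees_congr e]
    have := CL.GL2.card_mem_charDegrees_PSL2 (F := ZMod 5)
    rwa [ZMod.card] at this
  obtain ⟨-, d, ⟨χ, rfl⟩, hd⟩ := h5
  obtain ⟨H, hH⟩ := CL.Grp.exists_piHall_of_solvable {p | ¬ p ∣ 4} G
  have hH15 : Nat.card H = 15 := (CL.Grp.isPiHall_iff_card_eq (m := 15) (n := 4) hcard (by norm_num)).1 hH
  obtain ⟨Q⟩ : Nonempty (Sylow 5 H) := inferInstance
  have hf : ∀ n : ℕ, n ≠ 0 → ¬ 5 ∣ n → (5 * n).factorization 5 = 1 := by
    intro n h0 h
    rw [Nat.factorization_mul (by norm_num) h0, Finsupp.add_apply, Nat.Prime.factorization_self (by norm_num),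
      Nat.factorization_eq_zero_of_not_dvd h]
  have hQ : Nat.card Q = 5 := by rw [Q.card_eq_multiplicity, hH15, hf 3 (by norm_num) (by norm_num), pow_one]
  have hQn : (Q : Subgroup H).Normal := by
    have h1 := card_sylow_modEq_one 5 H
    have h2 := Q.card_dvd_index
    have h3 : (Q : Subgroup H).index = 3 := by
      have := (Q : Subgroup H).card_mul_index
      rw [hQ, hH15] at this
      omega
    rw [h3] at h2
    have h4 : Nat.card (Sylow 5 H) = 1 := by
      rcases (Nat.dvd_prime Nat.prime_three).1 h2 with h | h
      · exact h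
      · rw [h] at h1; exact absurd h1 (by decide)
    rw [← Subgroup.normalizer_eq_top_iff, ← Subgroup.index_eq_one]
    exact Q.card_eq_index_normalizer.symm.trans h4
  have hP5 : Nat.card ((Q : Subgroup H).map H.subtype) = 5 := by rw [CL.Grp.card_map_subtype, hQ]
  let P : Sylow 5 G := Sylow.ofCard ((Q : Subgroup H).map H.subtype)
    (by rw [hP5, hcard, hf 12 (by norm_num) (by norm_num), pow_one])
  have hPn : (P : Subgroup G).Normal := by
    have h1 := card_sylow_modEq_one 5 G
    have h2 := Subgroup.index_dvd_of_le (CL.Grp.le_normalizer_map_subtype (Q : Subgroup H))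
    have h3 : H.index = 4 := by
      have := H.card_mul_index
      rw [hcard, hH15] at this
      omega
    rw [P.card_eq_index_normalizer] at h1
    rw [← Subgroup.normalizer_eq_top_iff, ← Subgroup.index_eq_one]
    rw [h3] at h2
    change (Subgroup.normalizer ((P : Subgroup G) : Set G)).index ∣ 4 at h2
    change (Subgroup.normalizer ((P : Subgroup G) : Set G)).index ≡ 1 [MOD 5] at h1
    have h4 := Nat.le_of_dvd (by norm_num) h2
    generalize (Subgroup.normalizer ((P : Subgroup G) : Set G)).index = k at *
    interval_cases k <;> simp_all [Nat.ModEq]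
  have hPc : IsMulCommutative P := by
    have : IsCyclic P := isCyclic_of_prime_card (p := 5) hP5
    exact IsCyclic.isMulCommutative
  exact (Cfsg.Agent.S4713.result 5 (CL.Loc.isPSolvable_of_isSolvable hs) P).1 ⟨hPn, hPc⟩ χ hd

end Cfsg.Agent.S3669
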