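import Cfsg.Statements.S3670
import Cfsg.Agent.Known.U33Cls
import Cfsg.Agent.Spor.MOBase
import Cfsg.Agent.Spor.M11Classes
import Cfsg.Agent.Char.DegThompson
import Cfsg.Agent.Char.DegTaketa
import Cfsg.Agent.Char.Congruence
import Cfsg.Agent.Perm.SpecAffine

set_option autoImplicit false
open Cfsg

namespace Cfsg.Agent.S3670

open Subgroup Finset CL.Char CL.Spor CL.Perm CL.PG CL.U33C

/-- The affine group of a finite ring with a primitive additive character has the degree `#Rˣ`. -/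
theorem exists_aff (R : Type) [CommRing R] [Finite R] (ψ : AddChar R ℂ) (h : ∀ a, (∀ r, ψ (a * r) = 1) → a = 0) :
    ∃ (H : Type) (_ : Group H) (_ : Fintype H), Group.IsSolvable H ∧ Nat.card H = Nat.card R * Nat.card Rˣ ∧
      Nat.card Rˣ ∈ charDegrees H := by
  let ρ : Rˣ →* AddMonoid.End R := DistribMulAction.toAddMonoidEnd Rˣ R
  have hρ : ∀ u r, ρ u r = u * r := fun _ _ => rfl
  let _ := Fintype.ofFinite (Aff ρ)
  let _ := Fintype.ofFinite (Aff.proj ρ).ker
  have h1 : IsIrrCharacter (Aff.proj ρ).ker fun n => ψ n.1.v := isIrrCharacter_of_map_mul (by simp) fun a b => by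
    have : a.1.g = 1 := a.2
    simp [this, AddChar.map_add_eq_mul]
  have h2 := isIrrCharacter_indFun_of_inertia_le h1 fun g hg => Units.ext (sub_eq_zero.1 (h _ fun r => by
    have := mem_inertia.1 hg ⟨⟨r, 1⟩, rfl⟩
    simp only [Aff.mul_v, Aff.mul_g, Aff.inv_v, hρ, mul_one, mul_neg, Units.mul_inv_cancel_left] at this
    rw [add_comm, neg_add_cancel_left] at this
    rw [Aff.proj_apply, sub_mul, AddChar.map_sub_eq_div, this, Units.val_one, one_mul, div_self]
    exact (ψ.val_isUnit r).ne_zero))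
  refine ⟨Aff ρ, inferInstance, inferInstance, Aff.isSolvable, Aff.card_eq ρ, ⟨_, h2⟩, ?_⟩
  rw [charDegree_indFun h1.isCharacter, h1.isCharacter.charDegree_eq_one_iff.2 (by simp), mul_one, index_ker,
    MonoidHom.range_eq_top.2 Aff.proj_surjective, card_top]

theorem exists_solv : ∃ (H : Type) (_ : Group H) (_ : Fintype H), Group.IsSolvable H ∧ Nat.card H = 6048 ∧
    42 ∈ charDegrees H := by
  have h1 := AddChar.FiniteField.primitiveChar_to_Complex_isPrimitive (GaloisField 2 3)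
  have h2 := ZMod.isPrimitive_stdAddChar 9
  have h3 := ZMod.isPrimitive_stdAddChar 2
  have key : ∀ {R : Type} [CommRing R] {ψ : AddChar R ℂ}, ψ.IsPrimitive → ∀ a, (∀ r, ψ (a * r) = 1) → a = 0 :=
    fun h a e => by_contra fun k => h k (AddChar.ext _ _ e)
  have := exists_aff (GaloisField 2 3 × ZMod 9 × ZMod 2)
    ((AddChar.FiniteField.primitiveChar_to_Complex _).compAddMonoidHom (AddMonoidHom.fst _ _) *
      (((ZMod.stdAddChar (N := 9)).compAddMonoidHom (AddMonoidHom.fst _ (ZMod 2)) * (ZMod.stdAddChar (N := 2)).compAddMonoidHom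
        (AddMonoidHom.snd (ZMod 9) _)).compAddMonoidHom (AddMonoidHom.snd _ _)))
    fun a e => Prod.ext (key h1 _ fun r => by simpa using e (r, 0, 0))
      (Prod.ext (key h2 _ fun r => by simpa using e (0, r, 0)) (key h3 _ fun r => by simpa using e (0, 0, r)))
  have hF : Nat.card (GaloisField 2 3) = 8 := GaloisField.card 2 3 (by norm_num)
  have hU : Nat.card (GaloisField 2 3 × ZMod 9 × ZMod 2)ˣ = 42 := by
    rw [Nat.card_congr MulEquiv.prodUnits.toEquiv, Nat.card_prod, Nat.card_congr MulEquiv.prodUnits.toEquiv,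
      Nat.card_prod, Nat.card_units, hF, Nat.card_eq_fintype_card, Nat.card_eq_fintype_card, ZMod.card_units_eq_totient,
      ZMod.card_units_eq_totient]
    decide
  simpa [hU, hF] using this

variable {G : Type*} [Group G] [Finite G]

theorem card_le {p k : ℕ} (hp : p.Prime) {g : G} (hg : g ^ p ^ k = 1) :
    (univ.filter fun χ : IrrCharacter G => ¬ p ∣ charDegree (χ : G → ℂ)).card ≤
      Nat.card (centralizer ({g} : Set G)) := by
  let _ := Fintype.ofFinite G
  have h1 := card_le_sum_irr_norm_sq (univ.filter fun χ : IrrCharacter G => ¬ p ∣ charDegree (χ : G → ℂ))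
    (fun σ χ h => by
      rw [mem_filter] at h ⊢
      refine ⟨mem_univ _, ?_⟩
      rw [charDegree_eq_of_eq (n := charDegree (χ : G → ℂ)) (by rw [galIrr_apply, ← χ.2.cast_charDegree, map_natCast])]
      exact h.2) g
    fun χ h e => (mem_filter.1 h).2 (dvd_degree_of_apply_eq_zero χ.2.isGeneralizedCharacter hp hg e
      χ.2.cast_charDegree.symm)
  have h2 := h1.trans (sum_le_sum_of_subset_of_nonneg (subset_univ _) fun _ _ _ => by positivity)
  rw [sum_irr_norm_sq] at h2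
  exact_mod_cast h2

theorem degrees (hG : Nat.card G = 6048) (hp : commutator G = ⊤) (hk : 14 ≤ Nat.card (ConjClasses G)) {x y z : G}
    (hx : orderOf x = 7) (cx : Nat.card (centralizer ({x} : Set G)) = 7) (hy : y ^ 2 ^ 3 = 1)
    (cy : Nat.card (centralizer ({y} : Set G)) = 8) (hz : z ^ 3 ^ 1 = 1) (cz : Nat.card (centralizer ({z} : Set G)) = 9) :
    (∃ d ∈ charDegrees G, 2 * 3 ∣ d) ∧ (∃ d ∈ charDegrees G, 2 * 7 ∣ d) ∧ ∃ d ∈ charDegrees G, 3 * 7 ∣ d := by
  classical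
  have p7 : Nat.Prime 7 := by norm_num
  obtain ⟨B, hB⟩ := exists_PB_out p7 hx (by rw [hG]; norm_num)
  obtain ⟨n, v, h1, h2, h3, h4⟩ := B.exists_card p7 hx (by rw [hG]; norm_num)
  obtain rfl : v = 1 := by omega
  have he : B.e = 3 := by
    have h5 := Nat.le_of_dvd (by norm_num) B.e_dvd
    have := B.e_dvd
    generalize B.e = e at *
    interval_cases e <;> omega
  have hY := B.card_Y
  have hX := B.card_X
  rw [he] at hY hX h3 h4
  have key : ∀ {p k : ℕ} {g : G}, p.Prime → p ≠ 7 → g ^ p ^ k = 1 → Nat.card (centralizer ({g} : Set G)) ≤ 9 →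
      ∃ d ∈ charDegrees G, p * 7 ∣ d := fun {p k g} hp h7 hg cg => by
    by_contra! h
    have h5 : (univ : Finset (IrrCharacter G)) ⊆ (B.X.erase (irrOne G) ∪ B.Y) ∪
        univ.filter fun χ : IrrCharacter G => ¬ p ∣ charDegree (χ : G → ℂ) := fun χ _ => by
      by_contra! k
      simp only [mem_union, mem_erase, mem_filter, mem_univ, true_and, not_or, not_not, not_and] at k
      have h1 : χ ≠ irrOne G := fun e => hp.one_lt.ne' (by simpa [e, charDegree_irrOne] using k.2)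
      exact h _ ⟨χ, rfl⟩ (((Nat.coprime_primes hp p7).2 h7).mul_dvd_of_dvd_of_dvd k.2
        (dvd_degree_of_apply_eq_zero χ.2.isGeneralizedCharacter p7 (k := 1) (by rw [pow_one, ← hx, pow_orderOf_eq_one])
          (hB cx χ (k.1.1 h1) k.1.2 x hx.symm.dvd) χ.2.cast_charDegree.symm))
    have h6 := (card_le_card h5).trans ((card_union_le _ _).trans (Nat.add_le_add (card_union_le _ _) (card_le hp hg)))
    rw [card_erase_of_mem B.one_mem, card_univ, ← Nat.card_eq_fintype_card, card_irr_eq_card_conjClasses] at h6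
    omega
  refine ⟨?_, key Nat.prime_two (by norm_num) hy (by omega), key Nat.prime_three (by norm_num) hz cz.le⟩
  by_contra! h
  have hi : (centralizer ({x} : Set G)).index = 864 := by omega
  obtain ⟨μ, hμ⟩ := B.Y_nonempty p7
  have h5 := B.deg_rel p7
  rw [← add_sum_erase _ _ B.one_mem, B.s_one, charDegree_irrOne] at h5
  have h6 := sum_mem_sumsL [8, -27] (fun χ => B.s χ * (charDegree (χ : G → ℂ) : ℤ)) (B.X.erase (irrOne G))
    fun χ hχ => by
      rw [mem_erase] at hχ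
      have := (by decide +kernel : ∀ d ∈ Nat.divisors 864, ¬ 2 * 3 ∣ d → d ≠ 1 → (d % 7 = 1 → d = 8) ∧ (d % 7 = 6 → d = 27))
        _ (Nat.mem_divisors.2 ⟨hi ▸ B.X_dvd hx hχ.2, by norm_num⟩) (h _ ⟨χ, rfl⟩)
        fun e => hχ.1 (eq_irrOne_of_degree_one hp e)
      rcases mod_eq_of_sign (by norm_num) (B.hs χ hχ.2) (B.deg_X χ hχ.2) with e | e
      · simp [e.1, this.1 e.2]
      · simp [e.1, this.2 e.2]
  rw [card_erase_of_mem B.one_mem, hX] at h6
  have h7 := (by decide +kernel : ∀ s ∈ sumsL [8, -27] (3 - 1), s = 16 ∨ s = -19 ∨ s = -54) _ h6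
  have h8 := h _ ⟨μ, B.deg_Y μ hμ⟩
  have h9 := hi ▸ B.f_dvd p7 hx
  have h10 : B.f = 17 ∨ B.f = 18 ∨ B.f = 53 := by rcases B.hε with e | e <;> rw [e] at h5 <;> omega
  rcases h10 with e | e | e <;> rw [e] at h8 h9 <;> omega

omit [Finite G] in
theorem cent_eq {gs : List G} {w : List ℕ} :
    centralizer ({wordG gs w} : Set G) = centralizer (subW gs [w] : Set G) := by
  ext g
  rw [centralizer_subW, mem_centralizer_singleton_iff]
  simp

theorem psu {F : Type*} [Field F] [Fintype F] (hF : Fintype.card F = 9) : Nat.card (PSU 3 F 3) = 6048 ∧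
    (∃ d ∈ charDegrees (PSU 3 F 3), 2 * 3 ∣ d) ∧ (∃ d ∈ charDegrees (PSU 3 F 3), 2 * 7 ∣ d) ∧
      ∃ d ∈ charDegrees (PSU 3 F 3), 3 * 7 ∣ d := by
  obtain ⟨_, gs, t⟩ := xtop (Γ := PSU 3 F 3) (CL.Std.U33.iso hF)
  obtain ⟨e⟩ := CL.Std.U33.iso hF
  have := t.finite
  have := CL.Std.U33.simple
  have : IsSimpleGroup (PSU 3 F 3) := e.symm.isSimpleGroup
  have c := t.c
  have nc : ∀ {v w}, (∀ g ∈ subW gs [[0], [2]], ¬ XS gs g [(v, w)]) → ¬ IsConj (wordG gs v) (wordG gs w) :=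
    fun h k => by
      obtain ⟨g, hg⟩ := isConj_iff.1 k
      exact h g (t.top ▸ mem_top g) (by simpa [XS] using mul_inv_eq_iff_eq_mul.1 hg)
  have inv : ∀ k, orderOf (wordG gs [2 * k + 1]) = orderOf (wordG gs [2 * k]) := fun k => by
    simp [letG, Nat.mul_add_div, Nat.add_mod]
  refine ⟨t.card, degrees t.card (CL.Inv.commutator_eq_top_of_simple (CL.Inv.not_isMulCommutative_of_not_prime
    (by rw [t.card]; norm_num))) ?_ (xo7_7 c) ?_ (y := wordG gs [26]) ?_ ?_ (z := wordG gs [14]) ?_ ?_⟩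
  · refine le_of_eq_of_le (by rfl) (length_le_card_conjClasses
      (([[], [12], [14], [16], [18], [20], [21], [22], [24], [25], [26], [27], [28], [29]] : List (List ℕ)).map
        (wordG gs)) ?_)
    have no : ∀ {x y : PSU 3 F 3}, orderOf x ≠ orderOf y → ¬ IsConj x y := fun h ⟨a, k⟩ => h (k.orderOf_eq _)
    have i4 : orderOf (wordG gs [21]) = 4 := (inv 10).trans (xo4_96 c)
    have i7 : orderOf (wordG gs [25]) = 7 := (inv 12).trans (xo7_7 c)
    have i8 : orderOf (wordG gs [27]) = 8 := (inv 13).trans (xo8_8 c)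
    have i12 : orderOf (wordG gs [29]) = 12 := (inv 14).trans (xo12_12 c)
    have i1 : orderOf (wordG gs []) = 1 := orderOf_one
    simp only [List.map, List.pairwise_cons, List.forall_mem_cons, List.not_mem_nil, false_imp_iff, implies_true,
      List.Pairwise.nil, and_true, nc (xn3 c (t.ub _)), nc (xn4a c (t.ub _)), nc (xn4b c (t.ub _)),
      nc (xn4c c (t.ub _)), nc (xn7 c (t.ub _)), nc (xn8 c (t.ub _)), nc (xn12 c (t.ub _)), not_false_eq_true, true_and]
    and_intros <;> refine no ?_ <;>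
      simp only [i1, i4, i7, i8, i12, xo2_96 c, xo3_9 c, xo3_108 c, xo4_16 c, xo4_96 c, xo6_12 c, xo7_7 c, xo8_8 c,
        xo12_12 c] <;> norm_num
  · rw [cent_eq, t.top_inf (xc7_7 c (t.ub _)), xK7_7_card c]
  · exact (xo8_8 c ▸ pow_orderOf_eq_one _ :)
  · rw [cent_eq, t.top_inf (xc8_8 c (t.ub _)), xK8_8_card c]
  · exact (xo3_9 c ▸ pow_orderOf_eq_one _ :)
  · rw [cent_eq, t.top_inf (xc3_9 c (t.ub _)), xK3_9_card c]

theorem graph (hG : Nat.card G = 6048) (h : (∃ d ∈ charDegrees G, 2 * 3 ∣ d) ∧ (∃ d ∈ charDegrees G, 2 * 7 ∣ d) ∧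
    ∃ d ∈ charDegrees G, 3 * 7 ∣ d) : degreePrimes G = {2, 3, 7} ∧
      ∀ p q, (degreeGraph G).Adj p q ↔ p ≠ q ∧ p ∈ ({2, 3, 7} : Set ℕ) ∧ q ∈ ({2, 3, 7} : Set ℕ) := by
  have key : ∀ p, p.Prime → ∀ d ∈ charDegrees G, p ∣ d → p ∈ ({2, 3, 7} : Set ℕ) := by
    rintro p hp _ ⟨χ, rfl⟩ hd
    have h1 := hd.trans χ.2.charDegree_dvd_card
    rw [hG, show 6048 = 2 ^ 5 * (3 ^ 3 * 7) from rfl, hp.dvd_mul, hp.dvd_mul] at h1
    exact h1.imp (fun e => (Nat.prime_dvd_prime_iff_eq hp Nat.prime_two).1 (hp.dvd_of_dvd_pow e))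
      (Or.imp (fun e => (Nat.prime_dvd_prime_iff_eq hp Nat.prime_three).1 (hp.dvd_of_dvd_pow e))
        (Nat.prime_dvd_prime_iff_eq hp (by norm_num)).1)
  obtain ⟨⟨a, ha, ha'⟩, ⟨b, hb, hb'⟩, c, hc, hc'⟩ := h
  refine ⟨Set.ext fun p => ⟨fun ⟨hp, d, hd, e⟩ => key p hp d hd e, ?_⟩, fun p q => ⟨fun ⟨h1, hp, hq, d, hd, e⟩ =>
    ⟨h1, key p hp d hd (dvd_of_mul_right_dvd e), key q hq d hd (dvd_of_mul_left_dvd e)⟩, ?_⟩⟩
  · rintro (rfl | rfl | rfl)
    exacts [⟨by norm_num, a, ha, by omega⟩, ⟨by norm_num, a, ha, by omega⟩, ⟨by norm_num, b, hb, by omega⟩]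
  · rintro ⟨h1, rfl | rfl | rfl, rfl | rfl | rfl⟩ <;> refine ⟨h1, by norm_num, by norm_num, ?_⟩
    exacts [absurd rfl h1, ⟨a, ha, ha'⟩, ⟨b, hb, hb'⟩, ⟨a, ha, ha'⟩, absurd rfl h1, ⟨c, hc, hc'⟩, ⟨b, hb, hb'⟩,
      ⟨c, hc, hc'⟩, absurd rfl h1]

/-- There is a finite solvable group of order 6048 with the same character degree graph as `PSU(3,3)`. -/
theorem result {F : Type*} [Field F] [Fintype F] (hF : Fintype.card F = 9) :
    ∃ (H : Type) (_ : Group H) (_ : Fintype H), Group.IsSolvable H ∧ Nat.card H = 6048 ∧ Cfsg.degreePrimes H = Cfsg.degreePrimes (Cfsg.PSU 3 F 3) ∧ Cfsg.degreeGraph H = Cfsg.degreeGraph (Cfsg.PSU 3 F 3) := by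
  obtain ⟨H, _, _, h1, h2, h3⟩ := exists_solv
  obtain ⟨h4, h5⟩ := psu hF
  have : Finite (PSU 3 F 3) := Nat.finite_of_card_ne_zero (by omega)
  have a := graph h2 ⟨⟨_, h3, by norm_num⟩, ⟨_, h3, by norm_num⟩, _, h3, by norm_num⟩
  have b := graph h4 h5
  exact ⟨H, _, inferInstance, h1, h2, a.1.trans b.1.symm, SimpleGraph.ext (funext₂ fun p q =>
    propext ((a.2 p q).trans (b.2 p q).symm))⟩

end Cfsg.Agent.S3670
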