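import Cfsg.Statements.S3674
import Cfsg.Agent.NCG.C

set_option autoImplicit false
open Cfsg

namespace Cfsg.Agent.S3674

/-- The non-commuting graph of a finite non-abelian group has the non-central elements as vertices, two of them joined when they do not commute. Let F be the field with 3 elements, n ≥ 5 odd, and M = PΩ⁺(2n,F). If the non-commuting graph of a finite group G is isomorphic to that of M (a bijection between the non-central elements of G and of M under which two elements commute exactly when their images do), then G is isomorphic to M. -/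
theorem result {F : Type*} [Field F] [Fintype F] (hF : Fintype.card F = 3)
    {n : ℕ} (hn : 5 ≤ n) (hodd : Odd n) {G : Type*} [Group G] [Finite G]
    (φ : {g : G // g ∉ Subgroup.center G} ≃ {m : Cfsg.POmega F (Cfsg.quadFormPlus n F) // m ∉ Subgroup.center (Cfsg.POmega F (Cfsg.quadFormPlus n F))})
    (hφ : ∀ x y : {g : G // g ∉ Subgroup.center G}, Commute x.1 y.1 ↔ Commute (φ x).1 (φ y).1) :
    Nonempty (G ≃* Cfsg.POmega F (Cfsg.quadFormPlus n F)) := by
  classical
  have h2 : (2 : F) ≠ 0 := CL.Cls.two_ne_zero_of_odd_card (by rw [hF]; decide)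
  have hd : Module.finrank F (Fin n ⊕ Fin n → F) = n + n := by simp
  have c : CL.NCG.Ctx (CL.Cls.qfPlus n F) :=
    { nd := CL.Cls.nondeg_qfPlus
      h3 := fun x => by
        have h := FiniteField.pow_card x
        rw [hF] at h
        have : x * ((x - 1) * (x + 1)) = 0 := by linear_combination h
        rcases mul_eq_zero.1 this with r | r
        · exact Or.inl r
        rcases mul_eq_zero.1 r with r | r
        · exact Or.inr (Or.inl (sub_eq_zero.1 r))
        · exact Or.inr (Or.inr (eq_neg_of_add_eq_zero_left r))
      h2 := h2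
      dim := by omega
      ev := by rw [hd]; exact ⟨n, rfl⟩
      neg := by
        rw [CL.Cls.negOG_mem_commutator_qfPlus h2, hF, CL.Cls.pow_mod_four_of_three rfl,
          if_neg (Nat.not_even_iff_odd.2 hodd)]
        decide }
  have hZ := CL.Cls.center_commutator_eq_bot c.nd (by omega) (Or.inr c.neg)
  let e : Cfsg.POmega F (Cfsg.quadFormPlus n F) ≃* commutator (CL.Cls.OG (CL.Cls.qfPlus n F)) :=
    (CL.Cls.pomegaEquiv (CL.Cls.qfPlus n F)).trans
      ((QuotientGroup.quotientMulEquivOfEq hZ).trans QuotientGroup.quotientBot)
  have he : ∀ m, m ∉ Subgroup.center (Cfsg.POmega F (Cfsg.quadFormPlus n F)) ↔ e m ∉ Subgroup.center _ :=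
    fun m => not_congr (by
      rw [Subgroup.mem_center_iff, Subgroup.mem_center_iff]
      refine ⟨fun h g => ?_, fun h g => e.injective (by rw [map_mul, map_mul, h])⟩
      obtain ⟨g, rfl⟩ := e.surjective g
      rw [← map_mul, ← map_mul, h])
  obtain ⟨k⟩ := c.main (φ.trans (e.toEquiv.subtypeEquiv he)) fun x y => by
    rw [hφ]
    exact ⟨fun h => h.map e, fun h => Commute.of_map e.injective h⟩
  exact ⟨k.trans e.symm⟩

end Cfsg.Agent.S3674
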