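import Cfsg.Statements.S3678
import Cfsg.Agent.Perm.SpecASL2

set_option autoImplicit false
open Cfsg

namespace Cfsg.Agent.S3678

/-- The prime graph of a finite group has the prime divisors of its order as vertices, two distinct primes p, q being joined when the group has an element of order pq; two groups have the same prime graph when they have the same prime divisors and the same joined pairs. Let F be the field with 7 elements. There are finite groups of arbitrarily large order with the same prime graph as PSL(2,F) (the graph on {2, 3, 7} with no edges, which is also the prime graph of PSL(2,8)). -/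
theorem result {F : Type*} [Field F] [Fintype F] (hF : Fintype.card F = 7) (N : ℕ) :
    ∃ (H : Type) (_ : Group H) (_ : Finite H), N < Nat.card H ∧
      ((∀ p : ℕ, p.Prime → (p ∣ Nat.card (Matrix.ProjectiveSpecialLinearGroup (Fin 2) F) ↔ p ∣ Nat.card H)) ∧
      (∀ p q : ℕ, p.Prime → q.Prime → p ≠ q → ((∃ g : (Matrix.ProjectiveSpecialLinearGroup (Fin 2) F), orderOf g = p * q) ↔ (∃ g : H, orderOf g = p * q)))) := by
  let K := GaloisField 2 3
  let _ : Fintype K := Fintype.ofFinite K
  have hK : Fintype.card K = 8 := by
    rw [← Nat.card_eq_fintype_card]; exact GaloisField.card 2 3 three_ne_zero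
  have : CharP F 7 := charP_of_card_eq_prime (p := 7) (hp := ⟨by norm_num⟩) hF
  refine CL.Perm.Aff.exists_large_samePG_aff' (ρ := CL.Perm.slAct (Fin 2) K) ?_ N
  refine CL.Perm.samePG_of_lists [1, 2, 3, 4, 7] [1, 2, 3, 4, 7, 9] (fun k => ?_) (fun k => ?_)
    (by decide) (by decide)
  · rw [CL.Perm.spec_PSL2 7, hF]
    exact CL.Perm.dvd_or_iff_mem_list (by decide) (by decide) (by decide) _ (by decide) (by decide) k
  · rw [CL.Perm.spec_ASL2, hK]
    exact CL.Perm.dvd_or_iff_mem_list (by decide) (by decide) (by decide) _ (by decide) (by decide) k

end Cfsg.Agent.S3678
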