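import Cfsg.Statements.S3680
import Cfsg.Agent.Perm.PrimONS

set_option autoImplicit false
open Cfsg

namespace Cfsg.Agent.S3680

/-- `T ^ m × T ^ n ≃* T ^ (m + n)`. -/
def prodPiAdd (T : Type*) [Group T] (m n : ℕ) : (Fin m → T) × (Fin n → T) ≃* (Fin (m + n) → T) where
  toEquiv := Fin.appendEquiv m n
  map_mul' x y := by
    ext i
    refine Fin.addCases (fun j => ?_) (fun j => ?_) i <;> simp [Fin.appendEquiv]

/-- The socle of a finite primitive permutation group. Let a finite group G act faithfully and primitively on a set Ω, and let N be the subgroup generated by the minimal normal subgroups of G. Then either N is an elementary abelian p-group for some prime p and acts regularly on Ω (transitively with trivial point stabilizers), or N is isomorphic to a direct product of m ≥ 1 copies of a non-abelian simple group. -/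
theorem result {G Ω : Type*} [Group G] [Finite G] [MulAction G Ω] [FaithfulSMul G Ω] [Finite Ω]
    (hprim : MulAction.IsPreprimitive G Ω) (N : Subgroup G)
    (hN : N = sSup {V : Subgroup G | V.Normal ∧ V ≠ ⊥ ∧ ∀ M : Subgroup G, M.Normal → M ≤ V → M = ⊥ ∨ M = V}) :
    (∃ p : ℕ, p.Prime ∧ IsMulCommutative N ∧ (∀ x : N, x ^ p = 1) ∧
      MulAction.IsPretransitive N Ω ∧ ∀ ω : Ω, MulAction.stabilizer N ω = ⊥) ∨
    (∃ (T : Type) (_ : Group T) (m : ℕ), 1 ≤ m ∧ IsSimpleGroup T ∧ ¬ IsMulCommutative T ∧ Nonempty (N ≃* (Fin m → T))) := by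
  have hmem : ∀ V : Subgroup G, V ∈ {V : Subgroup G | V.Normal ∧ V ≠ ⊥ ∧
      ∀ M : Subgroup G, M.Normal → M ≤ V → M = ⊥ ∨ M = V} ↔ CL.Grp.IsMinNormal V :=
    fun V => ⟨fun h => ⟨h.1, h.2.1, h.2.2⟩, fun h => ⟨h.normal, h.ne_bot, h.min⟩⟩
  rcases subsingleton_or_nontrivial G with hG | hG
  · left
    refine ⟨2, Nat.prime_two, ⟨⟨fun a b => Subsingleton.elim _ _⟩⟩, fun x => Subsingleton.elim _ _,
      ⟨fun a b => ?_⟩, fun ω => Subsingleton.elim _ _⟩
    obtain ⟨g, hg⟩ := MulAction.exists_smul_eq G a b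
    exact ⟨1, by rw [← hg, Subsingleton.elim g 1, one_smul, one_smul]⟩
  obtain ⟨M, hM⟩ := CL.Grp.exists_isMinNormal G
  have := hM.normal
  have hMt : MulAction.IsPretransitive M Ω := CL.Perm.isPretransitive_of_normal_of_ne_bot hM.ne_bot
  have hcomm : ∀ L : Subgroup G, CL.Grp.IsMinNormal L → L ≠ M → ∀ m ∈ M, ∀ l ∈ L, m * l = l * m :=
    fun L hL hne m hm l hl => CL.Perm.commute_of_normal_of_inf_eq_bot hM.normal hL.normal
      (hM.inf_eq_bot_of_ne hL hne.symm) hm hl
  by_cases huniq : ∀ L : Subgroup G, CL.Grp.IsMinNormal L → L = M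
  · have hNM : N = M := by
      rw [hN]
      apply le_antisymm
      · exact sSup_le fun L hL => (huniq L ((hmem L).1 hL)).le
      · exact le_sSup ((hmem M).2 hM)
    subst hNM
    by_cases hab : IsMulCommutative N
    · left
      obtain ⟨p, hp, h⟩ := CL.Perm.exists_prime_pow_eq_one_of_minimal_normal_comm N hM.ne_bot
        hM.min hab
      exact ⟨p, hp, hab, fun x => Subtype.ext (h x x.2), hMt,
        CL.Perm.stabilizer_eq_bot_of_commute N N fun m hm n hn => setLike_mul_comm (s := N) hm hn⟩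
    · right
      obtain ⟨T, _, m, hT, hTc, -, hm, he⟩ := CL.Perm.exists_simple_pi_of_isMinNormal hM hab
      exact ⟨T, inferInstance, m, hm, hT, hTc, he⟩
  · right
    push Not at huniq
    obtain ⟨L, hL, hLM⟩ := huniq
    have := hL.normal
    have hLt : MulAction.IsPretransitive L Ω := CL.Perm.isPretransitive_of_normal_of_ne_bot hL.ne_bot
    have hinf := hM.inf_eq_bot_of_ne hL hLM.symm
    have hNM : N = M ⊔ L := by
      rw [hN]
      apply le_antisymm
      · refine sSup_le fun V hV => ?_
        by_cases hVM : V = M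
        · rw [hVM]; exact le_sup_left
        · refine le_trans (fun v hv => ?_) le_sup_right
          exact CL.Perm.mem_of_commute_of_transitive (α := Ω) M L (hcomm L hL hLM)
            fun m hm => hcomm V ((hmem V).1 hV) hVM m hm v hv
      · exact sup_le (le_sSup ((hmem M).2 hM)) (le_sSup ((hmem L).2 hL))
    subst hNM
    have hab : ¬ IsMulCommutative M := by
      intro hab
      have hle : M ≤ L := fun l hl =>
        CL.Perm.mem_of_commute_of_transitive (α := Ω) M L (hcomm L hL hLM) fun m hm =>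
          setLike_mul_comm (s := M) hm hl
      rw [inf_eq_left.2 hle] at hinf
      exact hM.ne_bot hinf
    have : Nontrivial Ω := CL.Perm.nontrivial_of_ne_bot hM.ne_bot
    obtain ⟨f⟩ := CL.Perm.nonempty_mulEquiv_of_commute (α := Ω) M L (hcomm L hL hLM)
    obtain ⟨T, _, m, hT, hTc, -, hm, ⟨e⟩⟩ := CL.Perm.exists_simple_pi_of_isMinNormal hM hab
    exact ⟨T, inferInstance, m + m, by omega, hT, hTc,
      ⟨(CL.Perm.prodEquivSup M L (fun a b => hcomm L hL hLM a a.2 b b.2) hinf).symm.trans
        ((e.prodCongr (f.symm.trans e)).trans (prodPiAdd T m m))⟩⟩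

end Cfsg.Agent.S3680
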