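import Cfsg.Statements.S3683
import Cfsg.Agent.Perm.Suborbit

set_option autoImplicit false
open Cfsg

namespace Cfsg.Agent.S3683

/-- Let a finite group G act faithfully and primitively on a set Ω, and suppose the stabilizer of a point a fixes a second point b ≠ a (a suborbit of length 1 other than {a}). Then the stabilizer of a is trivial and G is cyclic of prime order. -/
theorem result {G Ω : Type*} [Group G] [Finite G] [MulAction G Ω] [FaithfulSMul G Ω] [Finite Ω]
    (hprim : MulAction.IsPreprimitive G Ω) (a b : Ω) (hab : a ≠ b) (hfix : ∀ g : G, g • a = a → g • b = b) :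
    MulAction.stabilizer G a = ⊥ ∧ IsCyclic G ∧ (Nat.card G).Prime := by
  have h1 : MulAction.stabilizer G a = ⊥ := CL.Perm.stabilizer_eq_bot_of_le hab fun g hg => hfix g hg
  have : Nontrivial Ω := ⟨⟨a, b, hab⟩⟩
  have hc := MulAction.IsPreprimitive.isCoatom_stabilizer_of_isPreprimitive G a
  rw [h1] at hc
  exact ⟨h1, CL.Perm.isCyclic_and_prime_of_isCoatom_bot hc⟩

end Cfsg.Agent.S3683
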