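import Cfsg.Statements.S3684
import Cfsg.Agent.Perm.Suborbit
import Cfsg.Agent.S0206

set_option autoImplicit false
open Cfsg

namespace Cfsg.Agent.S3684

/-- Let a finite group G act faithfully and primitively on a set Ω, and suppose the stabilizer of a point a has an orbit of length 2. Then the stabilizer of a has order 2 and G is isomorphic to the dihedral group of order 2p for some prime p. -/
theorem result {G Ω : Type*} [Group G] [Finite G] [MulAction G Ω] [FaithfulSMul G Ω] [Finite Ω]
    (hprim : MulAction.IsPreprimitive G Ω) (a b : Ω) (h2 : Nat.card (MulAction.orbit (MulAction.stabilizer G a) b) = 2) :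
    Nat.card (MulAction.stabilizer G a) = 2 ∧ ∃ p : ℕ, p.Prime ∧ Nonempty (G ≃* DihedralGroup p) := by
  classical
  have hab : a ≠ b := by
    rintro rfl
    have : MulAction.orbit (MulAction.stabilizer G a) a = {a} := by
      ext x
      constructor
      · rintro ⟨g, rfl⟩; exact g.2
      · rintro rfl; exact MulAction.mem_orbit_self _
    rw [this] at h2
    simp at h2
  set K := MulAction.stabilizer G a ⊓ MulAction.stabilizer G b with hK
  have hi1 : K.relIndex (MulAction.stabilizer G a) = 2 := by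
    rw [hK, Subgroup.inf_relIndex_left, ← h2, Nat.card_coe_set_eq, ← MulAction.index_stabilizer]
    rfl
  have hca := CL.Perm.card_stabilizer_eq_of_transitive (G := G) a b
  have hc1 : Nat.card K * 2 = Nat.card (MulAction.stabilizer G a) := by
    have := (K.subgroupOf (MulAction.stabilizer G a)).card_mul_index
    rw [Nat.card_congr (Subgroup.subgroupOfEquivOfLe inf_le_left).toEquiv] at this
    rw [← hi1]
    exact this
  have hi2 : K.relIndex (MulAction.stabilizer G b) = 2 := by
    have := (K.subgroupOf (MulAction.stabilizer G b)).card_mul_index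
    rw [Nat.card_congr (Subgroup.subgroupOfEquivOfLe inf_le_right).toEquiv, ← hca, ← hc1] at this
    exact Nat.eq_of_mul_eq_mul_left Nat.card_pos this
  have hb0 : MulAction.stabilizer G b ≠ ⊥ := by
    intro h
    rw [hca, h, Subgroup.card_bot] at hc1
    omega
  have hsup := CL.Perm.stabilizer_sup_stabilizer hab hb0
  have hKn : K.Normal := by
    rw [← Subgroup.normalizer_eq_top_iff, eq_top_iff, ← hsup, sup_le_iff]
    exact ⟨(Subgroup.normal_subgroupOf_iff_le_normalizer inf_le_left).mp
      (Subgroup.normal_of_index_eq_two hi1),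
      (Subgroup.normal_subgroupOf_iff_le_normalizer inf_le_right).mp
      (Subgroup.normal_of_index_eq_two hi2)⟩
  have hK0 : K = ⊥ := CL.Perm.eq_bot_of_normal_of_le_stabilizer (a := a) inf_le_left
  rw [hK0, Subgroup.card_bot, one_mul] at hc1
  refine ⟨hc1.symm, ?_⟩
  have gen : ∀ H : Subgroup G, Nat.card H = 2 → ∃ s : G, orderOf s = 2 ∧ H = Subgroup.zpowers s := by
    intro H hH
    obtain ⟨x, hx⟩ := exists_prime_orderOf_dvd_card' (G := H) 2 (hH ▸ dvd_rfl)
    refine ⟨x, by rw [Subgroup.orderOf_coe, hx], ?_⟩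
    symm
    apply Subgroup.eq_of_le_of_card_ge (Subgroup.zpowers_le.mpr x.2)
    rw [Nat.card_zpowers, Subgroup.orderOf_coe, hx, hH]
  obtain ⟨s, hs, hsa⟩ := gen _ hc1.symm
  obtain ⟨t, ht, htb⟩ := gen _ (hca ▸ hc1.symm)
  have hst : s ≠ t := by
    rintro rfl
    rw [hK, hsa, htb, inf_idem, Subgroup.zpowers_eq_bot] at hK0
    rw [hK0, orderOf_one] at hs
    omega
  have htop : Subgroup.closure ({s, t} : Set G) = ⊤ := by
    rw [eq_top_iff, ← hsup, hsa, htb, sup_le_iff, Subgroup.zpowers_le, Subgroup.zpowers_le]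
    exact ⟨Subgroup.subset_closure (by simp), Subgroup.subset_closure (by simp)⟩
  obtain ⟨e⟩ := Cfsg.Agent.S0206.result s t hs ht hst
  rw [htop] at e
  refine ⟨orderOf (s * t), ?_, ⟨Subgroup.topEquiv.symm.trans e⟩⟩
  have hs2 := CL.Inv.mul_self_of_orderOf_two hs
  have ht2 := CL.Inv.mul_self_of_orderOf_two ht
  have hn1 : orderOf (s * t) ≠ 1 := by
    intro h
    rw [orderOf_eq_one_iff] at h
    exact hst (mul_right_cancel (h.trans ht2.symm))
  set r := s * t with hr
  set p := (orderOf r).minFac with hp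
  have hpp : p.Prime := Nat.minFac_prime hn1
  have hpd : p ∣ orderOf r := Nat.minFac_dvd _
  set u := r ^ (orderOf r / p) with hu
  have huo : orderOf u = p := orderOf_pow_orderOf_div (orderOf_pos r).ne' hpd
  have hinv : s * u * s⁻¹ = u⁻¹ := CL.Inv.conj_pow_of_inverts (CL.Inv.left_inverts_mul hs2 ht2) _
  have hsr : s ∉ Subgroup.zpowers r := CL.Inv.not_mem_zpowers_mul hs2 ht2
    (CL.Inv.ne_one_of_orderOf_two hs) (CL.Inv.ne_one_of_orderOf_two ht)
  have hur : Subgroup.zpowers u ≤ Subgroup.zpowers r :=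
    Subgroup.zpowers_le.mpr (pow_mem (Subgroup.mem_zpowers r) _)
  have : Nontrivial Ω := ⟨⟨a, b, hab⟩⟩
  have hc := MulAction.IsPreprimitive.isCoatom_stabilizer_of_isPreprimitive G a
  have h3 : Subgroup.closure ({s, u} : Set G) = ⊤ := by
    refine hc.2 _ (lt_of_le_of_ne ?_ fun h => ?_)
    · rw [hsa, Subgroup.zpowers_le]
      exact Subgroup.subset_closure (by simp)
    · have h4 : u ∈ Subgroup.zpowers s := by
        rw [← hsa, h]; exact Subgroup.subset_closure (by simp)
      have h5 : Subgroup.zpowers u = Subgroup.zpowers s := by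
        apply Subgroup.eq_of_le_of_card_ge (Subgroup.zpowers_le.mpr h4)
        rw [Nat.card_zpowers, Nat.card_zpowers, hs, huo]
        exact hpp.two_le
      exact hsr (hur (h5 ▸ Subgroup.mem_zpowers s))
  obtain ⟨k, hk | hk⟩ := (CL.Inv.mem_closure_inverts_iff hs2 hinv r).mp (h3 ▸ Subgroup.mem_top r)
  · have : orderOf r ∣ p := by
      rw [← huo]
      exact orderOf_dvd_of_mem_zpowers ⟨k, hk.symm⟩
    rw [Nat.dvd_antisymm this hpd]
    exact hpp
  · exfalso
    apply hsr
    have : s = r * (u ^ k)⁻¹ := by rw [hk]; group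
    rw [this]
    exact mul_mem (Subgroup.mem_zpowers r) (inv_mem (hur ⟨k, rfl⟩))

end Cfsg.Agent.S3684
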