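import Cfsg.Statements.S3687
import Cfsg.Agent.Perm.KnappB

set_option autoImplicit false
open Cfsg
open scoped Pointwise

namespace Cfsg.Agent.S3687

/-- Let a finite group G act faithfully and primitively on a set Ω, let a and b be points such that the orbit Δ of b under the stabilizer H of a has d ≥ 6 elements, and suppose that the permutation group induced by H on Δ contains the alternating group of Δ (the image of H in the symmetric group of Δ has index at most 2) while H does not act faithfully on Δ. Then either H induces exactly the alternating group of Δ and H is isomorphic to the direct product of the alternating groups of degrees d and d - 1; or H induces the full symmetric group of Δ and H is isomorphic to one of: the direct product of the symmetric groups of degrees d and d - 1, the direct product of the symmetric group of degree d with the alternating group of degree d - 1, or the subgroup of the direct product of the symmetric groups of degrees d and d - 1 consisting of the pairs of permutations with equal signs. -/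
theorem result {G Ω : Type*} [Group G] [Finite G] [MulAction G Ω] [FaithfulSMul G Ω] [Finite Ω]
    (hprim : MulAction.IsPreprimitive G Ω) (a b : Ω) (d : ℕ) (hd : Nat.card (MulAction.orbit (MulAction.stabilizer G a) b) = d) (h6 : 6 ≤ d)
    (halt : (MulAction.toPermHom (MulAction.stabilizer G a) (MulAction.orbit (MulAction.stabilizer G a) b)).range.index ≤ 2)
    (hunf : ¬ Function.Injective (MulAction.toPermHom (MulAction.stabilizer G a) (MulAction.orbit (MulAction.stabilizer G a) b))) :
    ((MulAction.toPermHom (MulAction.stabilizer G a) (MulAction.orbit (MulAction.stabilizer G a) b)).range.index = 2 ∧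
      Nonempty (MulAction.stabilizer G a ≃* alternatingGroup (Fin d) × alternatingGroup (Fin (d - 1)))) ∨
    ((MulAction.toPermHom (MulAction.stabilizer G a) (MulAction.orbit (MulAction.stabilizer G a) b)).range = ⊤ ∧
      (Nonempty (MulAction.stabilizer G a ≃* Equiv.Perm (Fin d) × Equiv.Perm (Fin (d - 1))) ∨
       Nonempty (MulAction.stabilizer G a ≃* Equiv.Perm (Fin d) × alternatingGroup (Fin (d - 1))) ∨
       Nonempty (MulAction.stabilizer G a ≃* ((Equiv.Perm.sign.comp (MonoidHom.fst (Equiv.Perm (Fin d)) (Equiv.Perm (Fin (d - 1))))) *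
         (Equiv.Perm.sign.comp (MonoidHom.snd (Equiv.Perm (Fin d)) (Equiv.Perm (Fin (d - 1)))))).ker))) := by
  classical
  open CL.Knapp CL.TW MulAction Subgroup in
  have h := pair_stabilizer hprim (a := a) (b := b) (by omega)
  obtain ⟨φ₁, ψ₁, k₁, l₁, hA₁, hB₁, -, i₁, t₁⟩ := exists_homs hd h6 halt
  have H₁ := hyp_of hd h6 k₁ l₁ hA₁ hB₁ t₁
  have hd' : Nat.card (orbit (stabilizer G b) a) = d := by
    rw [← relIndex_stabilizer, h.relIndex_eq, relIndex_stabilizer, hd]
  have : Nontrivial (Fin d) := Fin.nontrivial_iff_two_le.mpr (by omega)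
  have h2 := two_mul_nat_card_alternatingGroup (α := Fin d)
  rw [Nat.card_perm, Nat.card_fin] at h2
  have halt' : (toPermHom (stabilizer G b) (orbit (stabilizer G b) a)).range.index ≤ 2 := by
    have h1 := le_relIndex_cor h H₁.top
    have h3 := (toPermHom (stabilizer G b) (orbit (stabilizer G b) a)).range.card_mul_index
    rw [← index_ker, ker_eq_cor, Nat.card_perm, hd', ← h2] at h3
    change (cor _ _).relIndex _ * _ = _ at h3
    by_contra hh
    have h4 : 0 < Nat.card (alternatingGroup (Fin d)) := Nat.card_pos
    nlinarith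
  obtain ⟨φ₂, ψ₂, k₂, l₂, hA₂, hB₂, s₂, -, t₂⟩ := exists_homs hd' h6 halt'
  have H₂ := hyp_of hd' h6 k₂ l₂ hA₂ hB₂ t₂
  have hK : cor (stabilizer G a) (stabilizer G b) ≠ ⊥ := fun e => hunf (by
    rw [← MonoidHom.ker_eq_bot_iff, ker_eq_cor, e, bot_subgroupOf])
  obtain ⟨χ, c1, c2, c3, c4⟩ := Hyp.main h φ₁ ψ₂ H₁ H₂ k₁ l₂ hA₁ hB₂ (fun e => by
    obtain ⟨g, hg, hg'⟩ := H₁.exists_cj h H₂
    have h3 : Nat.card φ₂.range = Nat.card φ₁.range := by
      rw [← index_ker, ← index_ker, k₁, k₂]
      change (cor _ _).relIndex _ = (cor _ _).relIndex _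
      rw [← relIndex_cj g (cor (stabilizer G a) (stabilizer G b)), hg, hg']
    have h4 := eq_of_le_of_card_ge hA₂ (h3.le.trans (card_le_of_le e))
    rintro _ ⟨x, rfl⟩
    rw [Equiv.Perm.mem_alternatingGroup, s₂]
    exact h4.ge ⟨_, rfl⟩) hK
  rcases final φ₁ χ c1 c2 c3 c4 with ⟨e, r⟩ | ⟨e, r⟩
  · exact Or.inl ⟨by rw [← i₁, e, alternatingGroup.index_eq_two], r⟩
  · exact Or.inr ⟨by rw [← index_eq_one, ← i₁, e, index_top], r⟩

end Cfsg.Agent.S3687
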