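import Cfsg.Statements.S3693
import Cfsg.Agent.Loc.TW

set_option autoImplicit false
open Cfsg

namespace Cfsg.Agent.S3693

open Subgroup CL.TW CL.Even CL.Grp CL.Loc MulAction

/-- Let a finite group G act faithfully and primitively on a set Ω, let a and b be points such that the orbit Δ of b under the stabilizer H of a has length d ≥ 2, and consider the permutation group induced on Δ by the elements of H fixing b. If that induced group has trivial Fitting subgroup (no non-trivial nilpotent normal subgroup), then the two-point stabilizer of a and b has trivial Fitting subgroup and the order of H divides d! · ((d - 1)!)^d. -/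
theorem result {G Ω : Type*} [Group G] [Finite G] [MulAction G Ω] [FaithfulSMul G Ω] [Finite Ω]
    (hprim : MulAction.IsPreprimitive G Ω) (a b : Ω) (d : ℕ) (hd : Nat.card (MulAction.orbit (MulAction.stabilizer G a) b) = d) (h2 : 2 ≤ d)
    (hF : Cfsg.fittingSubgroup ↥(((MulAction.stabilizer G b).subgroupOf (MulAction.stabilizer G a)).map (MulAction.toPermHom (MulAction.stabilizer G a) (MulAction.orbit (MulAction.stabilizer G a) b))) = ⊥) :
    Cfsg.fittingSubgroup ↥(MulAction.stabilizer G a ⊓ MulAction.stabilizer G b) = ⊥ ∧
      Nat.card (MulAction.stabilizer G a) ∣ Nat.factorial d * (Nat.factorial (d - 1)) ^ d := by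
  subst hd
  have h := pair_stabilizer hprim h2
  have h1 : fittingOf (stabilizer G a ⊓ stabilizer G b) ≤ cor (stabilizer G a) (stabilizer G b) := by
    set f := toPermHom (stabilizer G a) (orbit (stabilizer G a) b)
    set F := fittingOf (stabilizer G a ⊓ stabilizer G b)
    have hle : F ≤ stabilizer G a := (fittingOf_le _).trans inf_le_left
    have h3 : (F.subgroupOf (stabilizer G a)).map f ≤
        fittingOf (((stabilizer G b).subgroupOf (stabilizer G a)).map f) := by
      refine le_fittingOf (map_mono (comap_mono ((fittingOf_le _).trans inf_le_right))) ?_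
        (isNilpotent_map (isNilpotent_subgroupOf (fittingOf_isNilpotent _) _) _)
      refine le_trans (map_mono ?_) (le_normalizer_map f)
      rw [← inf_subgroupOf_left]
      exact (comap_mono (le_normalizer_fittingOf _)).trans (le_normalizer_comap _)
    rw [fittingOf_def, hF, Subgroup.map_bot, le_bot_iff, Subgroup.map_eq_bot_iff, ker_eq_cor] at h3
    exact fun x hx => h3 (x := ⟨x, hle hx⟩) hx
  have h3 := h.fitting_inf_eq_bot h1
  refine ⟨(map_eq_bot_iff_of_injective _ (subtype_injective _)).mp h3, ?_⟩
  rw [← relIndex_stabilizer]
  exact h.card_dvd (h.cor₂_eq_bot h3)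

end Cfsg.Agent.S3693
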