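import Cfsg.Statements.S3696
import Cfsg.Agent.Known.AltAbelian

set_option autoImplicit false
open Cfsg

namespace Cfsg.Agent.S3696

open Equiv MulAction

universe u

theorem amgm (m n j k : ℕ) (hj : j ≠ 0) : m ^ j * n ^ k * (j + k) ^ (j + k) ≤ (m + n) ^ (j + k) * (j ^ j * k ^ k) := by
  rcases Nat.eq_zero_or_pos k with rfl | hk
  · simp only [pow_zero, mul_one, add_zero]
    exact Nat.mul_le_mul_right _ (Nat.pow_le_pow_left (by omega) _)
  have hj' : (0 : ℝ) < j := by exact_mod_cast Nat.pos_of_ne_zero hj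
  have hk' : (0 : ℝ) < k := by exact_mod_cast hk
  have h1 := Real.geom_mean_le_arith_mean2_weighted (w₁ := j / (j + k)) (w₂ := k / (j + k)) (p₁ := m / j) (p₂ := n / k)
    (by positivity) (by positivity) (by positivity) (by positivity) (by field_simp)
  have h2 := pow_le_pow_left₀ (by positivity) h1 (j + k)
  rw [mul_pow, ← Real.rpow_natCast, ← Real.rpow_natCast ((n / k : ℝ) ^ _), ← Real.rpow_mul (by positivity),
    ← Real.rpow_mul (by positivity)] at h2
  have e1 : (j / (j + k) : ℝ) * ((j + k : ℕ) : ℝ) = j := by push_cast; field_simp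
  have e2 : (k / (j + k) : ℝ) * ((j + k : ℕ) : ℝ) = k := by push_cast; field_simp
  have e3 : (j / (j + k) : ℝ) * (m / j) + k / (j + k) * (n / k) = (m + n) / (j + k) := by field_simp
  rw [e1, e2, e3, Real.rpow_natCast, Real.rpow_natCast, div_pow, div_pow, div_pow, div_mul_div_comm,
    div_le_div_iff₀ (by positivity) (by positivity)] at h2
  exact_mod_cast h2

/-- the elements of order dividing `p` of an abelian subgroup -/
def om {G : Type*} [Group G] (p : ℕ) (A : Subgroup G) (hA : IsMulCommutative A) : Subgroup G where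
  carrier := {x | x ∈ A ∧ x ^ p = 1}
  one_mem' := ⟨A.one_mem, one_pow p⟩
  mul_mem' := by
    rintro a b ⟨ha, ha'⟩ ⟨hb, hb'⟩
    have : Commute a b := congrArg Subtype.val (hA.is_comm.comm ⟨a, ha⟩ ⟨b, hb⟩)
    exact ⟨A.mul_mem ha hb, by rw [this.mul_pow, ha', hb', mul_one]⟩
  inv_mem' := by
    rintro a ⟨ha, ha'⟩
    exact ⟨A.inv_mem ha, by rw [inv_pow, ha', inv_one]⟩

theorem card_om {G : Type*} [Group G] (p : ℕ) (A : Subgroup G) (hA : IsMulCommutative A) :
    Nat.card (om p A hA) = Nat.card {x : A // x ^ p = 1} :=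
  Nat.card_congr
    { toFun := fun x => ⟨⟨x.1, x.2.1⟩, Subtype.ext x.2.2⟩
      invFun := fun x => ⟨x.1.1, x.1.2, congrArg Subtype.val x.2⟩
      left_inv := fun _ => rfl
      right_inv := fun _ => rfl }

theorem card_stab {Ω : Type u} (A : Subgroup (Perm Ω)) (x : Ω) :
    Nat.card (stabilizer A x) = Nat.card (A ⊓ stabilizer (Perm Ω) x : Subgroup (Perm Ω)) :=
  Nat.card_congr
    { toFun := fun g => ⟨g.1.1, g.1.2, g.2⟩
      invFun := fun g => ⟨⟨g.1, g.2.1⟩, g.2.2⟩
      left_inv := fun _ => rfl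
      right_inv := fun _ => rfl }

theorem main (p : ℕ) (hp : p.Prime) (n : ℕ) : ∀ (Ω : Type u) [Finite Ω], Nat.card Ω = n →
    ∀ (A : Subgroup (Perm Ω)), IsPGroup p A → IsMulCommutative A →
    ∀ k, Nat.card {x : A // x ^ p = 1} = p ^ k → Nat.card A * k ^ k ≤ n ^ k := by
  haveI := Fact.mk hp
  induction n using Nat.strong_induction_on with
  | _ n ih =>
  intro Ω _ hn A hA hab k hk
  classical
  by_cases hb : A = ⊥
  · subst hb
    have h1 : p ^ k = 1 := by
      rw [← hk]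
      exact Nat.card_eq_one_iff_unique.2 ⟨inferInstance, ⟨⟨1, one_pow p⟩⟩⟩
    have h2 : k = 0 := by simpa [hp.ne_one] using h1
    simp [h2]
  obtain ⟨g, hg⟩ := exists_prime_orderOf_dvd_card' (G := A) p (by
    obtain ⟨j, hj⟩ := IsPGroup.iff_card.1 hA
    rw [hj]
    refine dvd_pow_self p ?_
    rintro rfl
    exact hb (Subgroup.card_eq_one.1 hj))
  obtain ⟨x, hx⟩ : ∃ x, (g : Perm Ω) x ≠ x := by
    by_contra h
    push Not at h
    have : g = 1 := Subtype.ext (Equiv.ext h)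
    rw [this, orderOf_one] at hg
    exact hp.ne_one hg.symm
  let K : Subgroup (Perm Ω) := A ⊓ stabilizer (Perm Ω) x
  have hKc : IsMulCommutative K := ⟨⟨fun a b =>
    Subtype.ext (congrArg Subtype.val (hab.is_comm.comm ⟨a.1, a.2.1⟩ ⟨b.1, b.2.1⟩) :)⟩⟩
  have hK : IsPGroup p K := hA.to_le inf_le_left
  have hinv := ((CL.Known.pinv_orbit A x).mono (inf_le_left : K ≤ A)).not
  have hinj : Function.Injective (CL.Known.presHom hinv) := by
    rw [injective_iff_map_eq_one]
    intro a ha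
    refine Subtype.ext (Equiv.ext fun y => ?_)
    by_cases hy : y ∈ orbit A x
    · obtain ⟨b, rfl⟩ := hy
      have h1 := congrArg (fun s : A => (s : Perm Ω) x) (hab.is_comm.comm ⟨a.1, a.2.1⟩ b)
      have h2 : a.1 x = x := a.2.2
      change a.1 (b.1 x) = b.1 (a.1 x) at h1
      rw [h2] at h1
      exact h1
    · have := CL.Known.presHom_apply hinv a ⟨y, hy⟩
      rw [ha] at this
      exact this.symm
  let e : K ≃* CL.Known.pres hinv := MonoidHom.ofInjective hinj
  obtain ⟨k', hk'⟩ := IsPGroup.iff_card.1 (hK.to_le (H := om p K hKc) fun _ h => h.1)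
  have hk'' : Nat.card {y : CL.Known.pres hinv // y ^ p = 1} = p ^ k' := by
    rw [← hk', card_om]
    exact Nat.card_congr (e.toEquiv.subtypeEquiv fun y => by
      change _ ↔ e y ^ p = 1
      rw [← map_pow, map_eq_one_iff _ e.injective]).symm
  have hlt : Nat.card {y // ¬ y ∈ orbit A x} < n :=
    hn ▸ CL.Known.card_subtype_lt (y := x) (by simp [mem_orbit_self])
  have h1 := ih _ hlt _ rfl _ (hK.of_equiv e) (CL.Known.pres_isMulCommutative _ hKc) k' hk''
  rw [← Nat.card_congr e.toEquiv] at h1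
  have h2 := CL.Known.card_orbit_mul_card_stabilizer (G := A) x
  rw [card_stab] at h2
  have h3 := CL.Known.card_orbit_mul_card_stabilizer (G := om p A hab) x
  have e3 : om p A hab ⊓ stabilizer (Perm Ω) x = om p K hKc := by
    ext y
    exact ⟨fun h => ⟨⟨h.1.1, h.2⟩, h.1.2⟩, fun h => ⟨⟨h.1.1, h.2⟩, h.1.2⟩⟩
  rw [card_stab, e3, hk', card_om, hk] at h3
  have h4 : Nat.card (orbit (om p A hab) x) ≤ Nat.card (orbit A x) :=
    Nat.card_mono (Set.toFinite _) (by rintro _ ⟨a, rfl⟩; exact ⟨⟨a.1, a.2.1⟩, rfl⟩)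
  have h5 : 1 < Nat.card (orbit (om p A hab) x) := by
    rw [Finite.one_lt_card_iff_nontrivial]
    refine ⟨⟨_, ⟨⟨g.1, g.2, ?_⟩, rfl⟩⟩, ⟨x, mem_orbit_self x⟩, fun h => hx (congrArg Subtype.val h)⟩
    rw [← hg, ← Subgroup.coe_pow, pow_orderOf_eq_one, Subgroup.coe_one]
  have h6 : k' < k := by
    rw [← Nat.pow_lt_pow_iff_right hp.one_lt, ← h3]
    exact lt_mul_of_one_lt_left (pow_pos hp.pos _) h5
  obtain ⟨j, rfl⟩ : ∃ j, k = j + 1 + k' := ⟨k - k' - 1, by omega⟩
  have h7 : Nat.card (orbit (om p A hab) x) = p ^ (j + 1) := by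
    rw [pow_add] at h3
    exact Nat.eq_of_mul_eq_mul_right (pow_pos hp.pos _) h3
  have h8 : Nat.card (orbit A x) * (j + 1) ^ (j + 1) ≤ Nat.card (orbit A x) ^ (j + 1) := by
    rw [pow_succ' (Nat.card (orbit A x))]
    refine Nat.mul_le_mul_left _ ?_
    calc (j + 1) ^ (j + 1) ≤ (2 ^ j) ^ (j + 1) := Nat.pow_le_pow_left Nat.lt_two_pow_self _
      _ = (2 ^ (j + 1)) ^ j := by rw [← pow_mul, ← pow_mul, mul_comm]
      _ ≤ _ := Nat.pow_le_pow_left ((Nat.pow_le_pow_left hp.two_le _).trans (h7 ▸ h4)) _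
  have h9 := amgm (Nat.card (orbit A x)) (Nat.card {y // ¬ y ∈ orbit A x}) (j + 1) k' (by omega)
  have h10 : Nat.card (orbit A x) + Nat.card {y // ¬ y ∈ orbit A x} = n :=
    hn ▸ CL.Known.card_add_card_not fun y => y ∈ orbit A x
  rw [h10] at h9
  refine Nat.le_of_mul_le_mul_right (le_trans ?_ h9) (c := (j + 1) ^ (j + 1) * k' ^ k')
    (Nat.mul_pos (by positivity) (by rcases k' with _ | k' <;> positivity))
  rw [← h2]
  calc _ = (Nat.card (orbit A x) * (j + 1) ^ (j + 1)) * (Nat.card K * k' ^ k') * (j + 1 + k') ^ (j + 1 + k') := by ring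
    _ ≤ _ := Nat.mul_le_mul_right _ (Nat.mul_le_mul h8 h1)


/-- Let p be a prime, Ω a finite set with n ≥ p elements, and A an abelian p-subgroup of the symmetric group on Ω whose elements of order dividing p number p^k (so k is the rank of A). Then |A| · k^k ≤ n^k, that is, |A| ≤ (n/k)^k. -/
theorem result {Ω : Type*} [Fintype Ω] [DecidableEq Ω]
    (p : ℕ) (hp : p.Prime) (hn : p ≤ Fintype.card Ω) (A : Subgroup (Equiv.Perm Ω)) (hA : IsPGroup p A) (hab : IsMulCommutative A)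
    (k : ℕ) (hk : Nat.card {x : A // x ^ p = 1} = p ^ k) :
    Nat.card A * k ^ k ≤ Fintype.card Ω ^ k := by
  exact main p hp _ Ω (Nat.card_eq_fintype_card) A hA hab k hk

end Cfsg.Agent.S3696
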