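import Cfsg.Statements.S3701
import Cfsg.Agent.Perm.Exc27

set_option autoImplicit false
open Cfsg

namespace Cfsg.Agent.S3701

open Subgroup CL.Grp CL.Perm in
theorem aux {G : Type*} [Group G] [Finite G] (H T : Subgroup G) (a b c ta tb : G)
    (hH : H = closure {a, b, c, ta * tb, tb})
    (oa : orderOf a = 3) (ob : orderOf b = 3) (oc : orderOf c = 3)
    (ab : Commute a b) (ac : Commute a c) (bc : Commute b c)
    (ta2 : ta * ta = 1) (tb2 : tb * tb = 1) (tab : tb * ta = ta * tb)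
    (aa : ta * a * ta⁻¹ = a) (ab' : ta * b * ta⁻¹ = b⁻¹) (ac' : ta * c * ta⁻¹ = c⁻¹)
    (ba : tb * a * tb⁻¹ = a⁻¹) (bb : tb * b * tb⁻¹ = b) (bc' : tb * c * tb⁻¹ = c⁻¹)
    (Ka : ∃ K : Subgroup G, a ∉ K ∧ b ∈ K ∧ c ∈ K ∧ ta ∈ K)
    (Kb : ∃ K : Subgroup G, b ∉ K ∧ a ∈ K ∧ c ∈ K ∧ tb ∈ K)
    (hTH : T ≤ H) (hT : Nat.card T = 27) (hN : normalizer (T : Set G) = H)
    (hC : ∀ t ∈ T, t ≠ 1 → centralizer ({t} : Set G) ≤ H) : H = ⊤ := by
  have : Fact (Nat.Prime 3) := ⟨Nat.prime_three⟩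
  let T₀ : Subgroup G :=
    { carrier := {w | ∃ i j k : ℤ, w = a ^ i * b ^ j * c ^ k}
      one_mem' := ⟨0, 0, 0, by simp⟩
      mul_mem' := by
        rintro _ _ ⟨i, j, k, rfl⟩ ⟨i', j', k', rfl⟩
        refine ⟨i + i', j + j', k + k', ?_⟩
        have h1 := ((ab.zpow_zpow i' j).mul_right (ac.zpow_zpow i' k)).eq
        have h2 := (bc.zpow_zpow j' k).eq
        calc a ^ i * b ^ j * c ^ k * (a ^ i' * b ^ j' * c ^ k') =
            a ^ i * (b ^ j * c ^ k * a ^ i') * b ^ j' * c ^ k' := by group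
          _ = a ^ i * a ^ i' * b ^ j * (c ^ k * b ^ j') * c ^ k' := by rw [← h1]; group
          _ = _ := by rw [← h2]; group
      inv_mem' := by
        rintro _ ⟨i, j, k, rfl⟩
        refine ⟨-i, -j, -k, ?_⟩
        rw [← (((ac.zpow_zpow i k).mul_left (bc.zpow_zpow j k)).symm).eq, ← (ab.zpow_zpow i j).symm.eq]
        group }
  have haT : a ∈ T₀ := ⟨1, 0, 0, by simp⟩
  have hbT : b ∈ T₀ := ⟨0, 1, 0, by simp⟩
  have hcT : c ∈ T₀ := ⟨0, 0, 1, by simp⟩
  have hconj : ∀ t : G, t * a * t⁻¹ ∈ T₀ → t * b * t⁻¹ ∈ T₀ → t * c * t⁻¹ ∈ T₀ →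
      ∀ w ∈ T₀, t * w * t⁻¹ ∈ T₀ := by
    rintro t h1 h2 h3 _ ⟨i, j, k, rfl⟩
    have : t * (a ^ i * b ^ j * c ^ k) * t⁻¹ =
        (t * a * t⁻¹) ^ i * (t * b * t⁻¹) ^ j * (t * c * t⁻¹) ^ k := by simp only [conj_zpow]; group
    rw [this]
    exact mul_mem (mul_mem (zpow_mem h1 i) (zpow_mem h2 j)) (zpow_mem h3 k)
  have ca := hconj ta (aa.symm ▸ haT) (ab'.symm ▸ inv_mem hbT) (ac'.symm ▸ inv_mem hcT)
  have cb := hconj tb (ba.symm ▸ inv_mem haT) (bb.symm ▸ hbT) (bc'.symm ▸ inv_mem hcT)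
  have ia := inv_eq_of_mul_eq_one_right ta2
  have ib := inv_eq_of_mul_eq_one_right tb2
  let P : G → Prop := fun h => ∃ w ∈ T₀, h = w ∨ h = w * ta ∨ h = w * tb ∨ h = w * (ta * tb)
  have pT : ∀ u ∈ T₀, ∀ h, P h → P (u * h) := by
    rintro u hu h ⟨w, hw, h1⟩
    refine ⟨u * w, mul_mem hu hw, ?_⟩
    rcases h1 with rfl | rfl | rfl | rfl <;> simp [mul_assoc]
  have pa : ∀ h, P h → P (ta * h) := by
    rintro h ⟨w, hw, h1⟩
    refine ⟨_, ca w hw, ?_⟩
    rcases h1 with rfl | rfl | rfl | rfl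
    · right; left; group
    · left; rw [ia]; group
    · right; right; right; group
    · right; right; left; rw [ia]; group
  have pb : ∀ h, P h → P (tb * h) := by
    rintro h ⟨w, hw, h1⟩
    refine ⟨_, cb w hw, ?_⟩
    rcases h1 with rfl | rfl | rfl | rfl
    · right; right; left; group
    · right; right; right; rw [← tab]; group
    · left; rw [ib]; group
    · right; left; rw [← tab, ib]; group
  have memH : ∀ h ∈ H, P h := by
    intro h hh
    rw [hH] at hh
    induction hh using closure_induction_left with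
    | one => exact ⟨1, one_mem _, Or.inl rfl⟩
    | mul_left x hx y _ ih =>
      rcases hx with rfl | rfl | rfl | rfl | rfl
      · exact pT _ haT _ ih
      · exact pT _ hbT _ ih
      · exact pT _ hcT _ ih
      · rw [mul_assoc]; exact pa _ (pb _ ih)
      · exact pb _ ih
    | inv_mul_cancel x hx y _ ih =>
      rcases hx with rfl | rfl | rfl | rfl | rfl
      · exact pT _ (inv_mem haT) _ ih
      · exact pT _ (inv_mem hbT) _ ih
      · exact pT _ (inv_mem hcT) _ ih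
      · rw [mul_inv_rev, ia, ib, mul_assoc]; exact pb _ (pa _ ih)
      · rw [ib]; exact pb _ ih
  have hTT : T ≤ T₀ := by
    intro h hh
    have h27 : h ^ 27 = 1 := by
      have := pow_card_eq_one' (G := T) (x := ⟨h, hh⟩)
      rw [hT] at this; exact congrArg Subtype.val this
    have hsq : h * h ∈ T₀ := by
      obtain ⟨w, hw, h1 | h1 | h1 | h1⟩ := memH h (hTH hh) <;> rw [h1]
      · exact mul_mem hw hw
      · have := mul_mem hw (ca w hw); rw [ia] at this; simpa [mul_assoc] using this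
      · have := mul_mem hw (cb w hw); rw [ib] at this; simpa [mul_assoc] using this
      · have := mul_mem hw (ca _ (cb w hw)); rw [ia, ib, mul_assoc, mul_assoc, mul_assoc, tab] at this
        simpa [mul_assoc] using this
    have : h = ((h * h) ^ 13)⁻¹ := by
      rw [eq_inv_iff_mul_eq_one, ← pow_two, ← pow_mul, ← pow_succ', h27]
    rw [this]; exact inv_mem (pow_mem hsq 13)
  have hcard : Nat.card T₀ ≤ 27 := by
    have h1 : Nat.card (zpowers a × zpowers b × zpowers c) = 27 := by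
      simp only [Nat.card_prod, Nat.card_zpowers, oa, ob, oc]
    rw [← h1]
    refine Nat.card_le_card_of_surjective (fun p => (⟨p.1 * p.2.1 * p.2.2, mul_mem (mul_mem
      (zpowers_le.2 haT p.1.2) (zpowers_le.2 hbT p.2.1.2)) (zpowers_le.2 hcT p.2.2.2)⟩ : T₀)) ?_
    rintro ⟨_, i, j, k, rfl⟩
    exact ⟨(⟨_, i, rfl⟩, ⟨_, j, rfl⟩, ⟨_, k, rfl⟩), rfl⟩
  have hTe : T = T₀ := eq_of_le_of_card_ge hTT (by rw [hT]; exact hcard)
  have htb : tb ∈ H := hH ▸ subset_closure (by simp)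
  have hta : ta ∈ H := by
    have : ta * tb ∈ H := hH ▸ subset_closure (by simp)
    simpa using mul_mem this (inv_mem htb)
  exact D27.eq_top (T := T) (a := a) (b := b) (c := c) (ta := ta) (tb := tb) (tc := ta * tb)
    ⟨oa, ob, oc, hTe ▸ haT, hTe ▸ hbT, hTe ▸ hcT, ab, ac, bc, fun w hw => hTT hw, hTH, hta, htb,
      fun h hh => hTe ▸ memH h hh, ta2, tb2, rfl, tab, aa, ab', ac', ba, bb, bc', Ka, Kb,
      IsPGroup.of_card (n := 3) (by rw [hT]; norm_num), hN, hC⟩

open Subgroup in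

/-- Let H₀ ≤ Sym(9) be generated by the 3-cycles (1 2 3), (4 5 6), (7 8 9) and the involutions (1 2)(4 5), (1 2)(7 8) (a group of order 108, elementary abelian of order 27 extended by a four-group). Let G be a finite group with a subgroup H ≅ H₀, and T ≤ H of order 27 (a Sylow 3-subgroup of H) with N_G(T) = H and C_G(t) ≤ H for every t ≠ 1 in T. Then G = H. -/
theorem result {G : Type*} [Group G] [Finite G] (H : Subgroup G)
    (hH : Nonempty (↥H ≃* ↥(Subgroup.closure ({Equiv.swap (0 : Fin 9) 1 * Equiv.swap 1 2, Equiv.swap (3 : Fin 9) 4 * Equiv.swap 4 5, Equiv.swap (6 : Fin 9) 7 * Equiv.swap 7 8,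
        Equiv.swap (0 : Fin 9) 1 * Equiv.swap 3 4, Equiv.swap (0 : Fin 9) 1 * Equiv.swap 6 7} : Set (Equiv.Perm (Fin 9))))))
    (T : Subgroup G) (hTH : T ≤ H) (hT : Nat.card T = 27) (hN : Subgroup.normalizer (T : Set G) = H)
    (hC : ∀ t ∈ T, t ≠ 1 → Subgroup.centralizer ({t} : Set G) ≤ H) : H = ⊤ := by
  obtain ⟨e⟩ := hH
  have : Fact (Nat.Prime 3) := ⟨Nat.prime_three⟩
  set A : Equiv.Perm (Fin 9) := Equiv.swap 0 1 * Equiv.swap 1 2 with hA
  set B : Equiv.Perm (Fin 9) := Equiv.swap 3 4 * Equiv.swap 4 5 with hB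
  set C : Equiv.Perm (Fin 9) := Equiv.swap 6 7 * Equiv.swap 7 8 with hCdef
  set S : Equiv.Perm (Fin 9) := Equiv.swap 0 1 * Equiv.swap 3 4 with hS
  set U : Equiv.Perm (Fin 9) := Equiv.swap 0 1 * Equiv.swap 6 7 with hU
  set H₀ := closure ({A, B, C, S, U} : Set (Equiv.Perm (Fin 9))) with hH₀
  let f : H₀ →* G := H.subtype.comp e.symm.toMonoidHom
  have hf : Function.Injective f := H.subtype_injective.comp e.symm.injective
  let a : H₀ := ⟨A, subset_closure (by simp)⟩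
  let b : H₀ := ⟨B, subset_closure (by simp)⟩
  let c : H₀ := ⟨C, subset_closure (by simp)⟩
  let s : H₀ := ⟨S, subset_closure (by simp)⟩
  let u : H₀ := ⟨U, subset_closure (by simp)⟩
  have key : ∀ x y : H₀, (x : Equiv.Perm (Fin 9)) = y → f x = f y := fun x y h => by rw [Subtype.ext h]
  have ho : ∀ x : H₀, (x : Equiv.Perm (Fin 9)) ^ 3 = 1 → (x : Equiv.Perm (Fin 9)) ≠ 1 →
      orderOf (f x) = 3 := fun x h1 h2 => by
    rw [orderOf_injective f hf, ← orderOf_coe, orderOf_eq_prime h1 h2]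
  have hK : ∀ (i : Fin 9) (x : H₀), f x ∈ ((MulAction.stabilizer (Equiv.Perm (Fin 9)) i).subgroupOf H₀).map f ↔
      (x : Equiv.Perm (Fin 9)) i = i := fun i x => by
    rw [mem_map_iff_mem hf, mem_subgroupOf, MulAction.mem_stabilizer_iff]; rfl
  have hsu : f (s * u) * f u = f s := by
    rw [← map_mul]; exact key _ _ (by show S * U * U = S; decide)
  refine aux H T (f a) (f b) (f c) (f (s * u)) (f u) ?_ (ho _ (by show A ^ 3 = 1; decide) (by show A ≠ 1; decide))
    (ho _ (by show B ^ 3 = 1; decide) (by show B ≠ 1; decide))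
    (ho _ (by show C ^ 3 = 1; decide) (by show C ≠ 1; decide)) ?_ ?_ ?_ ?_ ?_ ?_ ?_ ?_ ?_ ?_ ?_ ?_
    ⟨_, fun h => absurd ((hK 0 _).1 h) (by show A 0 ≠ 0; decide), (hK 0 _).2 (by show B 0 = 0; decide),
      (hK 0 _).2 (by show C 0 = 0; decide), (hK 0 _).2 (by show (S * U) 0 = 0; decide)⟩
    ⟨_, fun h => absurd ((hK 3 _).1 h) (by show B 3 ≠ 3; decide), (hK 3 _).2 (by show A 3 = 3; decide),
      (hK 3 _).2 (by show C 3 = 3; decide), (hK 3 _).2 (by show U 3 = 3; decide)⟩ hTH hT hN hC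
  · have h1 : closure ({a, b, c, s, u} : Set H₀) = ⊤ := by
      apply map_injective H₀.subtype_injective
      rw [MonoidHom.map_closure, ← MonoidHom.range_eq_map, range_subtype]
      simp only [Set.image_insert_eq, Set.image_singleton]
      rfl
    have h2 : f.range = H := by
      ext g
      exact ⟨fun ⟨x, hx⟩ => hx ▸ (e.symm x).2, fun hg => ⟨e ⟨g, hg⟩, by simp [f]⟩⟩
    rw [hsu, ← h2, MonoidHom.range_eq_map, ← h1, MonoidHom.map_closure]
    simp only [Set.image_insert_eq, Set.image_singleton]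
  all_goals
    simp only [Commute, SemiconjBy, ← map_mul, ← map_inv]
    first
      | exact key _ _ (by decide)
      | (rw [← map_one f]; exact key _ _ (by decide))

end Cfsg.Agent.S3701
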