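import Cfsg.Statements.S3713
import Cfsg.Agent.Perm.SpAmalg3

set_option autoImplicit false
open Cfsg

namespace Cfsg.Agent.S3713

open CL.Chev CL.Chev.TypeC CL.Chev.PM CL.Sp

/-- The graph of a homomorphism on a subgroup. -/
def gr {G H : Type*} [Group G] [Group H] {K : Subgroup G} (f : K →* H) : Subgroup (H × G) := (f.prod K.subtype).range

theorem inj_of {G H V : Type*} [Group G] [Group H] [Group V] {π : G →* V} (hπ : Function.Injective π) {K K' : Subgroup G}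
    {f : K →* H} {f' : K' →* H} (h : ∃ Ψ : ↥(K ⊔ K') →* H, (∀ g (hg : g ∈ K), Ψ ⟨g, Subgroup.mem_sup_left hg⟩ = f ⟨g, hg⟩) ∧
      ∀ g (hg : g ∈ K'), Ψ ⟨g, Subgroup.mem_sup_right hg⟩ = f' ⟨g, hg⟩) :
    InjSub (π.comp (MonoidHom.snd H G)) (gr f ⊔ gr f') := by
  obtain ⟨Ψ, h1, h2⟩ := h
  refine InjSub.mono (D := gr Ψ) ?_ (sup_le ?_ ?_)
  · rintro _ ⟨g, rfl⟩ e
    rw [show g = 1 from Subtype.ext ((injective_iff_map_eq_one π).1 hπ _ e), map_one]
  · rintro _ ⟨g, rfl⟩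
    exact ⟨⟨g, Subgroup.mem_sup_left g.2⟩, Prod.ext (h1 g g.2) rfl⟩
  · rintro _ ⟨g, rfl⟩
    exact ⟨⟨g, Subgroup.mem_sup_right g.2⟩, Prod.ext (h2 g g.2) rfl⟩

theorem map_gr {F H : Type*} [Field F] [Group H] {n : ℕ} {K : Subgroup (Matrix.symplecticGroup (Fin n) F)} (f : K →* H)
    {I : Set (Fin n ⊕ Fin n)} {s : Set (Matrix.symplecticGroup (Fin n) F)} (hK : K = Subgroup.closure s)
    (hs : ∀ g, g ∈ s ↔ ∀ c ∈ I, spLin (Fin n) F g (Pi.single c 1) = Pi.single c 1) :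
    (gr f).map ((spLin (Fin n) F).comp (MonoidHom.snd H _)) = FI F I := by
  have : s = (FI F I).comap (spLin (Fin n) F) := Set.ext fun g => (hs g).trans
    ⟨fun h => mem_FI.2 ⟨spLin_mem g, h⟩, fun h => (mem_FI.1 h).2⟩
  rw [this, Subgroup.closure_eq] at hK
  ext g
  refine ⟨by rintro ⟨_, ⟨g, rfl⟩, rfl⟩; exact hK.le g.2, fun h => ?_⟩
  obtain ⟨g, rfl⟩ := exists_spLin_eq h.1
  exact ⟨_, ⟨⟨g, hK.ge h⟩, rfl⟩, rfl⟩


/-- A presentation of the symplectic group as the universal completion of an amalgam of small subgroups. Let F be a field with more than two elements, n ≥ 2, and Sp the group of 2n × 2n matrices over F preserving the standard alternating form, acting on column vectors; write e_k, f_k for the standard basis vectors of the two halves (a hyperbolic basis). For each k let S_k be the subgroup of Sp fixing e_l and f_l for all l ≠ k (a copy of SL(2, F) on the plane of e_k, f_k), and for each i with i +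 1 < n let M_i be the subgroup fixing every e_l and fixing f_l for all l other than i, i+1 (an abelian group isomorphic to the additive group of F³). Then Sp is the universal completion of the amalgam formed by the S_k, the M_i and the subgroups generated by two of them: for every group H and homomorphisms σ_k : S_k → H, μ_i : M_i → H such that for each pair of these subgroups some homomorphism on the subgroup they generate restricts to the given ones, there is exactly one homomorphism Sp → H restricting to every σ_k and μ_i. -/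
theorem result
    (F : Type*) [Field F] (hF : ∃ a : F, a ≠ 0 ∧ a ≠ 1) (n : ℕ) (hn : 2 ≤ n)
    (S M : Fin n → Subgroup ↥(Matrix.symplecticGroup (Fin n) F))
    (hS : ∀ j : Fin n, S j = Subgroup.closure {A : ↥(Matrix.symplecticGroup (Fin n) F) | ∀ k : Fin n, k ≠ j →
      ((A : ↥(Matrix.symplecticGroup (Fin n) F)) : Matrix (Fin n ⊕ Fin n) (Fin n ⊕ Fin n) F).mulVec (Pi.single (Sum.inl k) (1 : F)) = (Pi.single (Sum.inl k) (1 : F)) ∧ ((A : ↥(Matrix.symplecticGroup (Fin n) F)) : Matrix (Fin n ⊕ Fin n) (Fin n ⊕ Fin n) F).mulVec (Pi.single (Sum.inr k) (1 : F)) = (Pi.single (Sum.inr k) (1 : F))})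
    (hM : ∀ i : Fin n, (i : ℕ) + 1 < n → M i = Subgroup.closure {A : ↥(Matrix.symplecticGroup (Fin n) F) |
      (∀ k : Fin n, ((A : ↥(Matrix.symplecticGroup (Fin n) F)) : Matrix (Fin n ⊕ Fin n) (Fin n ⊕ Fin n) F).mulVec (Pi.single (Sum.inl k) (1 : F)) = (Pi.single (Sum.inl k) (1 : F))) ∧
        ∀ k : Fin n, (k : ℕ) ≠ i → (k : ℕ) ≠ (i : ℕ) + 1 → ((A : ↥(Matrix.symplecticGroup (Fin n) F)) : Matrix (Fin n ⊕ Fin n) (Fin n ⊕ Fin n) F).mulVec (Pi.single (Sum.inr k) (1 : F)) = (Pi.single (Sum.inr k) (1 : F))})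
    {H : Type*} [Group H] (σ : ∀ j : Fin n, ↥(S j) →* H) (μ : ∀ i : Fin n, ↥(M i) →* H)
    (hSS : ∀ j l : Fin n, j ≠ l → ∃ Ψ : ↥(S j ⊔ S l) →* H,
      (∀ (g : ↥(Matrix.symplecticGroup (Fin n) F)) (hg : g ∈ S j), Ψ ⟨g, Subgroup.mem_sup_left hg⟩ = σ j ⟨g, hg⟩) ∧
        (∀ (g : ↥(Matrix.symplecticGroup (Fin n) F)) (hg : g ∈ S l), Ψ ⟨g, Subgroup.mem_sup_right hg⟩ = σ l ⟨g, hg⟩))
    (hMM : ∀ i i' : Fin n, i ≠ i' → (i : ℕ) + 1 < n → (i' : ℕ) + 1 < n → ∃ Ψ : ↥(M i ⊔ M i') →* H,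
      (∀ (g : ↥(Matrix.symplecticGroup (Fin n) F)) (hg : g ∈ M i), Ψ ⟨g, Subgroup.mem_sup_left hg⟩ = μ i ⟨g, hg⟩) ∧
        (∀ (g : ↥(Matrix.symplecticGroup (Fin n) F)) (hg : g ∈ M i'), Ψ ⟨g, Subgroup.mem_sup_right hg⟩ = μ i' ⟨g, hg⟩))
    (hMS : ∀ i j : Fin n, (i : ℕ) + 1 < n → ∃ Ψ : ↥(M i ⊔ S j) →* H,
      (∀ (g : ↥(Matrix.symplecticGroup (Fin n) F)) (hg : g ∈ M i), Ψ ⟨g, Subgroup.mem_sup_left hg⟩ = μ i ⟨g, hg⟩) ∧
        (∀ (g : ↥(Matrix.symplecticGroup (Fin n) F)) (hg : g ∈ S j), Ψ ⟨g, Subgroup.mem_sup_right hg⟩ = σ j ⟨g, hg⟩)) :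
    ∃! Φ : ↥(Matrix.symplecticGroup (Fin n) F) →* H,
      (∀ (j : Fin n) (g : ↥(Matrix.symplecticGroup (Fin n) F)) (hg : g ∈ S j), Φ g = σ j ⟨g, hg⟩) ∧
        (∀ (i : Fin n), (i : ℕ) + 1 < n → ∀ (g : ↥(Matrix.symplecticGroup (Fin n) F)) (hg : g ∈ M i), Φ g = μ i ⟨g, hg⟩) := by
  have lt : ∀ p q : Fin n, Adj p q → ((min p q : Fin n) : ℕ) + 1 < n := fun p q h => by
    have := p.2
    have := q.2
    unfold Adj at h
    rw [Fin.coe_min]; omega
  have h : Amalg ((spLin (Fin n) F).comp (MonoidHom.snd H _)) (fun k => gr (σ k)) fun p q => gr (μ (min p q)) :=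
    ⟨fun k => map_gr _ (hS k) fun g => ⟨fun h => by rintro (c | c) hc; exacts [(h c hc).1, (h c hc).2],
        fun h c hc => ⟨h (.inl c) hc, h (.inr c) hc⟩⟩,
      fun p q => by rw [_root_.min_comm], fun p q h => map_gr _ (hM _ (lt p q h)) fun g => by
        have e : ∀ k : Fin n, k ∉ ({p, q} : Set (Fin n)) ↔ (k : ℕ) ≠ (min p q : Fin n) ∧ (k : ℕ) ≠ (min p q : Fin n) + 1 :=
          fun k => by
            unfold Adj at h
            simp only [Set.mem_insert_iff, Set.mem_singleton_iff, Fin.ext_iff, Fin.coe_min]; omega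
        refine ⟨fun h' => ?_, fun h' => ⟨fun k => h' _ (Or.inr ⟨k, rfl⟩), fun k a b => h' (.inr k) (Or.inl ((e k).2 ⟨a, b⟩))⟩⟩
        rintro (c | c) hc
        · exact h'.1 c
        · have := (e c).1 (hc.resolve_right (by simp))
          exact h'.2 c this.1 this.2,
      fun p q h => inj_of spLin_injective (hSS p q h), fun p q h k => inj_of spLin_injective (hMS _ k (lt p q h)),
      fun p q p' q' h h' => by
        by_cases e : min p q = min p' q'
        · rw [e, sup_idem]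
          exact (inj_of spLin_injective (hMS _ p (lt _ _ h'))).mono le_sup_left
        · exact inj_of spLin_injective (hMM _ _ e (lt p q h) (lt _ _ h'))⟩
  obtain ⟨Γ, h1, h2, h3, h4, h5⟩ := h.exists_injSub hF hn
  have hb : Function.Bijective ((MonoidHom.snd H _).comp Γ.subtype) := ⟨(injective_iff_map_eq_one _).2 fun z hz =>
    Subtype.ext (h1 z z.2 ((congrArg (spLin (Fin n) F) hz).trans (map_one _))), fun g => by
      obtain ⟨z, hz, e⟩ := h4 (spLin_mem g)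
      exact ⟨⟨z, hz⟩, spLin_injective e⟩⟩
  let Φ := ((MonoidHom.fst H _).comp Γ.subtype).comp (MulEquiv.ofBijective _ hb).symm.toMonoidHom
  have hΦ : ∀ z ∈ Γ, Φ z.2 = z.1 := fun z hz =>
    congrArg (fun x : Γ => x.1.1) ((MulEquiv.ofBijective _ hb).symm_apply_apply ⟨z, hz⟩)
  have mn : ∀ (i : Fin n) (hi : (i : ℕ) + 1 < n), min i ⟨i + 1, hi⟩ = i := fun i hi => min_eq_left (Fin.le_def.2 (by simp))
  refine ⟨Φ, ⟨fun j g hg => hΦ (_, g) (h2 j ⟨⟨g, hg⟩, rfl⟩), fun i hi g hg => hΦ (_, g) (h3 i ⟨i + 1, hi⟩ (Or.inl rfl) ?_)⟩,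
    fun Ψ hΨ => MonoidHom.ext fun g => ?_⟩
  · rw [mn i hi]
    exact ⟨⟨g, hg⟩, rfl⟩
  · obtain ⟨z, rfl⟩ := hb.2 g
    refine (h5 ((Ψ.comp (MonoidHom.snd H _)).eqLocus (MonoidHom.fst H _)) ?_ ?_ z.2).trans (hΦ z z.2).symm
    · rintro k _ ⟨g, rfl⟩
      exact hΨ.1 k g g.2
    · rintro p q h _ ⟨g, rfl⟩
      exact hΨ.2 _ (lt p q h) g g.2

end Cfsg.Agent.S3713
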