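import Cfsg.Statements.S3726
import Cfsg.Agent.Perm.HksInv

set_option autoImplicit false
open Cfsg

namespace Cfsg.Agent.S3726

/-- Let a finite group G act faithfully and 2-transitively on a finite set Ω, and suppose there is an involution t of G, fixing exactly i points, such that every non-identity element of the centralizer of t also fixes exactly i points. Then G is isomorphic to PSL₂(q) for some finite field of order q, or to a Suzuki group Sz(q) (q = 2^(2m+1) ≥ 8), or G has a normal subgroup acting regularly on Ω. -/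
theorem result {G Ω : Type*} [Group G] [Finite G] [Fintype Ω] [MulAction G Ω] [FaithfulSMul G Ω]
    (h2 : MulAction.IsMultiplyPretransitive G Ω 2) (i : ℕ) (t : G) (ht : orderOf t = 2)
    (hti : Nat.card {x : Ω // t • x = x} = i)
    (hC : ∀ g : G, Commute g t → g ≠ 1 → Nat.card {x : Ω // g • x = x} = i) :
    (∃ (F : Type) (_ : Field F) (_ : Fintype F), Nonempty (G ≃* Matrix.ProjectiveSpecialLinearGroup (Fin 2) F)) ∨
    Cfsg.Lie.IsoSuzuki G ∨
    (∃ R : Subgroup G, R.Normal ∧ (∀ x y : Ω, ∃ r ∈ R, r • x = y) ∧ ∀ x : Ω, ∀ r ∈ R, r • x = x → r = 1) := by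
  obtain ⟨h3, h4⟩ := CL.Perm.orderOf_eq_two_iff'.1 ht
  exact CL.Perm.ConstFix.main (t := t) (i := i) ⟨MulAction.is_two_pretransitive_iff.1 h2,
    fun g hg => eq_of_smul_eq_smul fun x : Ω => (hg x).trans (one_smul _ _).symm, h3, h4,
    fun g hg hg1 => hC g hg hg1⟩

end Cfsg.Agent.S3726
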