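import Cfsg.Statements.S3755
import Cfsg.Agent.Even.S4FMB

set_option autoImplicit false
open Cfsg

namespace Cfsg.Agent.S3755

open CL.Even CL.Grp Subgroup

/-- Let M and V be subgroups of a finite group with V an elementary abelian 2-group, M normalizing V and acting faithfully on it (M ∩ C(V) = 1), and C_M(O_{2'}(M)) ≤ O_{2'}(M). If some elementary abelian 2-subgroup A of M satisfies |V : C_V(A)| < |A|², then M has a section isomorphic to the symmetric group of degree 3. -/
theorem result {X : Type*} [Group X] [Finite X] (M V : Subgroup X) (hV : Cfsg.IsElementaryAbelian 2 V) (hMV : M ≤ Subgroup.normalizer (V : Set X)) (hfaith : M ⊓ Subgroup.centralizer (V : Set X) = ⊥) (hcon : Subgroup.centralizer (Cfsg.pPrimeCore 2 ↥M : Set ↥M) ≤ Cfsg.pPrimeCore 2 ↥M) (A : Subgroup X) (hAM : A ≤ M) (hA : Cfsg.IsElementaryAbelian 2 A) (hsmall : (V ⊓ Subgroup.centralizer (A : Set X)).relIndex V < Nat.card A ^ 2) : Cfsg.Involves (Equiv.Perm (Fin 3)) ↥M := by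
  have := Fact.mk Nat.prime_two
  by_contra hb
  have hDT : DT M := fun B hB hne => by
    refine dtc_of_odd hb hB (Y := pPrimeCore 2 M) (le_top.trans (normalizer_eq_top _).ge) (pPrimeCore_coprime 2 M) fun h => hne ?_
    exact eq_bot_of_isPGroup_of_coprime (ea_isP hB) (coprime_of_le_pPrimeCore (h.trans hcon))
  have hD : DTm M 𝒞(V) := dtm_of_hom (MonoidHom.id M) Function.surjective_id
    (by rw [MonoidHom.ker_id, eq_comm, subgroupOf_eq_bot, disjoint_iff, inf_comm, hfaith]) hDT
  have hsq : ∀ a ∈ A, a * a ∈ 𝒞(V) := fun a ha => by rw [ea_mul_self hA ha]; exact one_mem _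
  have hi : 𝒞(V).relIndex A = Nat.card A := by
    rw [← inf_relIndex_left, le_bot_iff.1 ((inf_le_inf_right _ hAM).trans hfaith.le), relIndex_bot_left]
  have h1 := hD.mb1 (ea_isP hV) hMV A hAM (ea_isP hA) hsq
  rw [hi] at h1
  rw [inf_relIndex_left] at hsmall
  omega

end Cfsg.Agent.S3755
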