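import Cfsg.Statements.S3802
import Cfsg.Agent.Grp.Zipper

set_option autoImplicit false
open Cfsg

namespace Cfsg.Agent.S3802

/-- Let G be a finite group, M a maximal subgroup of G and N a subnormal subgroup of G contained in M. Then N is contained in every conjugate of M, that is, N lies in the core of M in G. -/
theorem result {G : Type*} [Group G] [Finite G] (M N : Subgroup G) (hM : IsCoatom M) (hN : N.IsSubnormal) (hNM : N ≤ M) :
    N ≤ Subgroup.normalCore M := by
  set S : Set (Subgroup G) := {U | U.IsSubnormal ∧ U ≤ M} with hS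
  have hW : (sSup S).IsSubnormal := CL.Grp.isSubnormal_sSup fun U hU => hU.1
  have hWM : sSup S ≤ M := sSup_le fun U hU => hU.2
  have hMN : M ≤ Subgroup.normalizer ((sSup S : Subgroup G) : Set G) := by
    apply CL.Grp.le_normalizer_sSup_of_conj_mem
    intro U hU g hg
    exact ⟨CL.Grp.subnIn_top_iff.1 ((CL.Grp.subnIn_top_iff.2 hU.1).conj (Subgroup.mem_top g)),
      CL.Grp.conj_smul_le_of_mem hU.2 hg⟩
  have hNW : N ≤ sSup S := le_sSup ⟨hN, hNM⟩
  have htop : Subgroup.normalizer ((sSup S : Subgroup G) : Set G) = ⊤ := by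
    by_contra hne
    have hEq : Subgroup.normalizer ((sSup S : Subgroup G) : Set G) = M := by
      by_contra h
      exact hne (hM.2 _ (lt_of_le_of_ne hMN (Ne.symm h)))
    obtain ⟨L, hL1, hL2, hL3⟩ := (CL.Grp.subnIn_top_iff.2 hW).exists_lt
      (fun h => hM.1 (eq_top_iff.2 (h ▸ hWM)))
    exact hL1.not_ge (le_sSup ⟨CL.Grp.subnIn_top_iff.1 hL3, hEq ▸ hL2⟩)
  haveI : (sSup S).Normal := Subgroup.normalizer_eq_top_iff.1 htop
  exact hNW.trans (Subgroup.normal_le_normalCore.2 hWM)

end Cfsg.Agent.S3802
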