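import Cfsg.Statements.S3803
import Cfsg.Agent.Grp.PGroupCritical
import Cfsg.Agent.Grp.Coprime2

set_option autoImplicit false
open Cfsg

namespace Cfsg.Agent.S3803

open CL.Grp Subgroup
open scoped commutatorElement

theorem cent_of_max {X : Type*} [Group X] [Finite X] {H A : Subgroup X} (hH : IsPGroup 2 H)
    (hA : Odd (Nat.card A)) (hAH : A ≤ normalizer (H : Set X))
    (h : ∀ M : Subgroup X, M ≤ H → Nat.card H = 2 * Nat.card M → A ≤ normalizer (M : Set X)) :
    A ≤ centralizer (H : Set X) := by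
  obtain ⟨j, hj⟩ := IsPGroup.iff_card.1 (hH.to_subgroup (frattini H))
  refine le_centralizer_of_commutator_le_frattini hAH
    (hj ▸ Nat.Coprime.pow_right j (Nat.coprime_two_right.2 hA)) (commutator_le.2 fun x hx a ha => ?_)
  have h1 : a * x⁻¹ * a⁻¹ ∈ H := (mem_normalizer_iff.1 (hAH ha) _).1 (H.inv_mem hx)
  refine ⟨⟨x, hx⟩ * ⟨_, h1⟩, mem_frattini_iff.2 fun M hM => ?_, by simp [commutatorElement_def, mul_assoc]⟩
  have h2 := index_eq_of_isCoatom_pGroup hH hM
  have h3 := h (M.map H.subtype) (map_subtype_le M) (by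
    rw [card_map_of_injective H.subtype_injective, ← M.index_mul_card, h2])
  refine (mul_mem_iff_of_index_two h2).2 ?_
  rw [← mem_map_iff_mem H.subtype_injective, ← mem_map_iff_mem H.subtype_injective]
  exact (inv_mem_iff (x := x)).symm.trans (mem_normalizer_iff.1 (h3 ha) x⁻¹)

theorem cent_of_cyclic {X : Type*} [Group X] [Finite X] {H A : Subgroup X} (hH : IsPGroup 2 H)
    (hA : Odd (Nat.card A)) (hAH : A ≤ normalizer (H : Set X)) (hc : IsCyclic H) :
    A ≤ centralizer (H : Set X) := by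
  refine cent_of_max hH hA hAH fun M hM _ g hg => ?_
  obtain ⟨a, rfl⟩ := (Subgroup.isCyclic_iff_exists_zpowers_eq_top H).1 hc
  have key : ∀ g ∈ A, ∀ x ∈ M, g * x * g⁻¹ ∈ M := by
    intro g hg x hx
    obtain ⟨k, rfl⟩ := mem_zpowers_iff.1 (hM hx)
    obtain ⟨r, hr⟩ := mem_zpowers_iff.1 ((mem_normalizer_iff.1 (hAH hg) a).1 (mem_zpowers a))
    rw [← conj_zpow, ← hr, ← zpow_mul, mul_comm, zpow_mul]
    exact M.zpow_mem hx r
  refine mem_normalizer_iff.2 fun x => ⟨key g hg x, fun hx => ?_⟩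
  simpa [mul_assoc] using key _ (A.inv_mem hg) _ hx

theorem exists_between {X : Type*} [Group X] [Finite X] {P U : Subgroup X} {i k : ℕ} (hUP : U ≤ P)
    (hU : Nat.card U = 2 ^ i) (hik : i ≤ k) (hk : 2 ^ k ∣ Nat.card P) :
    ∃ M : Subgroup X, U ≤ M ∧ M ≤ P ∧ Nat.card M = 2 ^ k := by
  obtain ⟨K, hK, hK'⟩ := Sylow.exists_subgroup_card_pow_prime_le (G := P) 2 hk (U.subgroupOf P)
    (by rw [Nat.card_congr (subgroupOfEquivOfLe hUP).toEquiv, hU]) hik
  refine ⟨K.map P.subtype, ?_, map_subtype_le K, by rw [card_map_of_injective P.subtype_injective, hK]⟩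
  exact fun x hx => ⟨⟨x, hUP hx⟩, hK' hx, rfl⟩


/-- Let P be a 2-subgroup and A a subgroup of odd order of a finite group, with A normalizing P. Let D ≤ P with 1 < |D| < |P|. If every subgroup of P of order |D|, and also every subgroup of P of order 4 in case |D| = 2, is normalized by A, then A centralizes P. -/
theorem result {X : Type*} [Group X] [Finite X] (P A D : Subgroup X) (hP : IsPGroup 2 P) (hA : Odd (Nat.card A))
    (hAP : A ≤ Subgroup.normalizer (P : Set X)) (hDP : D ≤ P) (hD1 : 1 < Nat.card D) (hD2 : Nat.card D < Nat.card P)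
    (hinv : ∀ E : Subgroup X, E ≤ P → (Nat.card E = Nat.card D ∨ (Nat.card D = 2 ∧ Nat.card E = 4)) → A ≤ Subgroup.normalizer (E : Set X)) :
    A ≤ Subgroup.centralizer (P : Set X) := by
  obtain ⟨m, hm⟩ := IsPGroup.iff_card.1 hP
  obtain ⟨k, hk⟩ := IsPGroup.iff_card.1 (hP.to_le hDP)
  rw [hk] at hD1 hD2 hinv
  rw [hm] at hD2
  have hk1 : 1 ≤ k := by
    by_contra h
    rw [show k = 0 by omega] at hD1
    omega
  have hkm : k + 1 ≤ m := (Nat.pow_lt_pow_iff_right one_lt_two).1 hD2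
  have key : ∀ x ∈ P, x ^ 4 = 1 → ∀ a ∈ A, x * a = a * x := by
    intro x hx hx4
    obtain ⟨i, hi2, hi⟩ := (Nat.dvd_prime_pow Nat.prime_two (m := 2)).1 (orderOf_dvd_of_pow_eq_one hx4)
    have hxP : zpowers x ≤ P := zpowers_le_of_mem hx
    rw [← Nat.card_zpowers] at hi
    suffices h : ∃ H : Subgroup X, x ∈ H ∧ A ≤ centralizer (H : Set X) by
      obtain ⟨H, hxH, h⟩ := h
      exact fun a ha => h ha x hxH
    by_cases hik : i ≤ k
    · obtain ⟨M, hxM, hMP, hM⟩ := exists_between hxP hi hik (hm ▸ pow_dvd_pow 2 (by omega))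
      have hAM := hinv M hMP (Or.inl hM)
      obtain ⟨H, hMH, hHP, hH⟩ := exists_between hMP hM (Nat.le_succ k) (hm ▸ pow_dvd_pow 2 hkm)
      by_cases hc : IsCyclic H
      · exact ⟨M, hxM (mem_zpowers x), cent_of_cyclic (hP.to_le hMP) hA hAM (isCyclic_of_le hMH)⟩
      have hall : ∀ M : Subgroup X, M ≤ H → Nat.card H = 2 * Nat.card M → A ≤ normalizer (M : Set X) :=
        fun M hM h => hinv M (hM.trans hHP) (Or.inl (by rw [hH, pow_succ] at h; omega))
      refine ⟨H, hMH (hxM (mem_zpowers x)), cent_of_max (hP.to_le hHP) hA ?_ hall⟩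
      obtain ⟨L, hL, hLM⟩ := exists_ne_index_eq_of_not_isCyclic (hP.to_le hHP) hc (M.subgroupOf H)
      have hMi : (M.subgroupOf H).index = 2 := by
        have := (M.subgroupOf H).index_mul_card
        rw [Nat.card_congr (subgroupOfEquivOfLe hMH).toEquiv, hM, hH, pow_succ'] at this
        exact Nat.eq_of_mul_eq_mul_right (Nat.two_pow_pos k) this
      have h1 : L ⊔ M.subgroupOf H = ⊤ :=
        (isCoatom_of_index_prime (hL ▸ Nat.prime_two)).sup_eq_top_of_ne
          (isCoatom_of_index_prime (hMi ▸ Nat.prime_two)) hLM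
      have h2 : L.map H.subtype ⊔ M = H := by
        rw [← map_subgroupOf_eq_of_le hMH, ← Subgroup.map_sup, h1, top_map_subtype]
      rw [← h2]
      refine le_normalizer_sup' (hall _ (map_subtype_le L) ?_) hAM
      rw [card_map_of_injective H.subtype_injective, ← L.index_mul_card, hL]
    · obtain rfl : i = 2 := by omega
      obtain rfl : k = 1 := by omega
      exact ⟨_, mem_zpowers x, cent_of_cyclic (hP.to_le hxP) hA (hinv _ hxP (Or.inr ⟨rfl, hi⟩)) inferInstance⟩
  intro a ha y hy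
  have h1 : normalizerMonoidHom P ⟨a, hAP ha⟩ = 1 := by
    refine mulAut_eq_one_of_fix_omega hP ?_ fun x hx => Subtype.ext ?_
    · refine Nat.Coprime.coprime_dvd_left ?_ (Nat.coprime_two_right.2 hA)
      refine (orderOf_map_dvd _ _).trans ?_
      rw [Subgroup.orderOf_mk]
      exact Subgroup.orderOf_dvd_natCard A ha
    · have hx4 : (x : X) ^ 4 = 1 := by
        rcases hx with hx | ⟨-, hx⟩
        · rw [show 4 = 2 * 2 by norm_num, pow_mul, ← Subgroup.coe_pow, hx]; simp
        · rw [← Subgroup.coe_pow, hx]; simp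
      change a * x * a⁻¹ = x
      rw [← key x x.2 hx4 a ha, mul_inv_cancel_right]
  have h2 : a * y * a⁻¹ = y := congrArg Subtype.val (MulEquiv.congr_fun h1 ⟨y, hy⟩)
  exact (mul_inv_eq_iff_eq_mul.1 h2).symm

end Cfsg.Agent.S3803
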