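import Cfsg.Statements.S3814
import Cfsg.Agent.Suz.Four3

set_option autoImplicit false
open Cfsg

namespace Cfsg.Agent.S3814

/-- A criterion for nonsolvability from element orders: let G be a finite group and σ a set of at least four primes such that for all distinct p, q ∈ σ the product pq is the order of some element of G, while for all pairwise distinct p, q, r ∈ σ no element of G has order pqr. Then G is not solvable. -/
theorem result {G : Type*} [Group G] [Finite G]
    (σ : Finset ℕ) (hσ : 4 ≤ σ.card) (hprime : ∀ p ∈ σ, p.Prime)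
    (h2 : ∀ p ∈ σ, ∀ q ∈ σ, p ≠ q → ∃ g : G, orderOf g = p * q)
    (h3 : ∀ p ∈ σ, ∀ q ∈ σ, ∀ r ∈ σ, p ≠ q → q ≠ r → p ≠ r → ∀ g : G, orderOf g ≠ p * q * r) :
    ¬ Group.IsSolvable G := by
  obtain ⟨τ, hτ, hc⟩ := Finset.exists_subset_card_eq hσ
  obtain ⟨p, q, r, s, pq, pr, ps, qr, qs, rs, rfl⟩ := Finset.card_eq_four.1 hc
  have hp : p ∈ σ := hτ (by simp)
  have hq : q ∈ σ := hτ (by simp)
  have hr : r ∈ σ := hτ (by simp)
  have hs : s ∈ σ := hτ (by simp)
  have pair : ∀ a ∈ σ, ∀ b ∈ σ, a ≠ b → CL.Four.Pair (⊤ : Subgroup G) a b := fun a ha b hb hab => by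
    obtain ⟨x, y, e1, e2, e3⟩ := (CL.Perm.exists_orderOf_mul_iff
      ((Nat.coprime_primes (hprime a ha) (hprime b hb)).2 hab)).1 (h2 a ha b hb hab)
    exact ⟨x, trivial, y, trivial, e1, e2, e3⟩
  have t3 : ∀ a ∈ σ, ∀ b ∈ σ, ∀ c ∈ σ, a ≠ b → b ≠ c → a ≠ c → CL.Four.T3 G a b c := by
    intro a ha b hb c hc hab hbc hac x y z hxy hxz hyz e1 e2 e3
    have c1 := (Nat.coprime_primes (hprime a ha) (hprime b hb)).2 hab
    have c2 := (Nat.coprime_primes (hprime b hb) (hprime c hc)).2 hbc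
    have c3 := (Nat.coprime_primes (hprime a ha) (hprime c hc)).2 hac
    have o1 := orderOf_pow_orderOf_div (orderOf_pos x).ne' e1
    have o2 := orderOf_pow_orderOf_div (orderOf_pos y).ne' e2
    have o3 := orderOf_pow_orderOf_div (orderOf_pos z).ne' e3
    have o4 := (hxy.pow_pow (orderOf x / a) (orderOf y / b)).orderOf_mul_eq_mul_orderOf_of_coprime
      (by rw [o1, o2]; exact c1)
    rw [o1, o2] at o4
    have o5 := ((hxz.pow_pow (orderOf x / a) (orderOf z / c)).mul_left
      (hyz.pow_pow (orderOf y / b) (orderOf z / c))).orderOf_mul_eq_mul_orderOf_of_coprime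
      (by rw [o4, o3]; exact Nat.Coprime.mul_left c3 c2)
    rw [o4, o3] at o5
    exact h3 a ha b hb c hc hab hbc hac _ o5
  intro hG
  exact CL.Four.Six.not_isSolvable (H := (⊤ : Subgroup G))
    ⟨pair p hp q hq pq, pair p hp r hr pr, pair p hp s hs ps, pair q hq r hr qr, pair q hq s hs qs, pair r hr s hs rs⟩
    ⟨hprime p hp, hprime q hq, hprime r hr, hprime s hs, pq, pr, ps, qr, qs, rs, t3 p hp q hq r hr pq qr pr,
      t3 p hp q hq s hs pq qs ps, t3 p hp r hr s hs pr rs ps, t3 q hq r hr s hs qr rs qs⟩ inferInstance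

end Cfsg.Agent.S3814
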