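import Cfsg.Statements.S3815
import Cfsg.Agent.Grp.CoresPi

set_option autoImplicit false
open Cfsg
open scoped Pointwise

namespace Cfsg.Agent.S3815

/-- Let G be a finite group, p a prime and d ∈ G an element of order prime to p. If dg has order prime to p for every element g ∈ G of order prime to p, then d ∈ O_{p'}(G). -/
theorem result {G : Type*} [Group G] [Finite G] {p : ℕ} [Fact p.Prime]
    (d : G) (hd : (orderOf d).Coprime p)
    (h : ∀ g : G, (orderOf g).Coprime p → (orderOf (d * g)).Coprime p) :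
    d ∈ Cfsg.pPrimeCore p G := by
  let D : Submonoid G :=
    { carrier := {d | (orderOf d).Coprime p ∧
        ∀ g : G, (orderOf g).Coprime p → (orderOf (d * g)).Coprime p}
      one_mem' := ⟨by simp, fun g hg => by simpa using hg⟩
      mul_mem' := by
        rintro a b ⟨-, ha⟩ ⟨hb1, hb⟩
        exact ⟨ha b hb1, fun g hg => by rw [mul_assoc]; exact ha _ (hb g hg)⟩ }
  let K : Subgroup G :=
    { D with
      inv_mem' := by
        intro a ha
        have h1 : a⁻¹ = a ^ (orderOf a - 1) := by
          rw [eq_comm, ← mul_eq_one_iff_eq_inv, ← pow_succ, Nat.sub_add_cancel (orderOf_pos a),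
            pow_orderOf_eq_one]
        rw [h1]
        exact D.pow_mem ha _ }
  have hconj : ∀ a g : G, orderOf (g * a * g⁻¹) = orderOf a := fun a g => (MulAut.conj g).orderOf_eq a
  haveI : K.Normal := ⟨by
    rintro a ⟨ha1, ha⟩ g
    refine ⟨by rw [hconj]; exact ha1, fun y hy => ?_⟩
    have e : g * a * g⁻¹ * y = g * (a * (g⁻¹ * y * g⁻¹⁻¹)) * g⁻¹ := by group
    rw [e, hconj]
    exact ha _ (by rw [hconj]; exact hy)⟩
  have hK : ¬ p ∣ Nat.card K := by
    intro hp
    obtain ⟨y, hy⟩ := exists_prime_orderOf_dvd_card' p hp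
    have h1 : (orderOf (y : G)).Coprime p := y.2.1
    rw [Subgroup.orderOf_coe, hy, Nat.coprime_self] at h1
    exact (Fact.out : p.Prime).ne_one h1
  exact CL.Grp.le_pPrimeCore_of_not_dvd hK (⟨hd, h⟩ : d ∈ K)

end Cfsg.Agent.S3815
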