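import Cfsg.Statements.S3816
import Cfsg.Agent.Fgs.Flv2

set_option autoImplicit false
open Cfsg

namespace Cfsg.Agent.S3816

open CL.Odd CL.Flv SemidirectProduct in
/-- Let p be an odd prime, H a finite solvable group of order prime to p, and x an automorphism of H of order p (so P = ⟨x⟩ has prime order p > 2 and acts coprimely on H). For h ∈ H let [h, P] be the subgroup generated by the commutators h⁻¹·xⁱ(h), and let [H, P] be the subgroup generated by all of these. Then the fixed points of x in [H, P] are generated by the fixed points of x in the subgroups [h, P], h ∈ H. -/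
theorem result {H : Type*} [Group H] [Finite H]
    [Group.IsSolvable H] {p : ℕ} [Fact p.Prime] (hp : p ≠ 2) (hcop : (Nat.card H).Coprime p)
    (x : MulAut H) (hx : orderOf x = p) :
    Subgroup.closure {c : H | ∃ h : H, ∃ i : ℕ, c = h⁻¹ * (x ^ i) h} ⊓ (x : H →* H).eqLocus (MonoidHom.id H) =
      ⨆ h : H, Subgroup.closure {c : H | ∃ i : ℕ, c = h⁻¹ * (x ^ i) h} ⊓ (x : H →* H).eqLocus (MonoidHom.id H) := by
  refine le_antisymm (fun c hc => ?_) (iSup_le fun h => inf_le_inf_right _
    (Subgroup.closure_mono fun c ⟨i, e⟩ => ⟨h, i, e⟩))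
  let X := H ⋊[MonoidHom.id (MulAut H)] MulAut H
  haveI : Finite X := Finite.of_equiv _ SemidirectProduct.equivProd.symm
  let ι : H →* X := inl
  let t : X := inr x
  have hι : Function.Injective ι := inl_injective
  have k : ∀ (i : ℕ) (h : H), ι ((x ^ i) h) = t ^ i * ι h * (t ^ i)⁻¹ := fun i h => by
    have := inl_aut (φ := MonoidHom.id (MulAut H)) (x ^ i) h
    rw [map_inv, map_pow inr] at this
    exact this
  have pw : ∀ a ∈ Subgroup.zpowers t, ∃ i : ℕ, t ^ i = a := fun a ha => mem_powers_iff_mem_zpowers.2 ha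
  have fx : ∀ h : H, ι h ∈ C[Subgroup.zpowers t] ↔ x h = h := fun h => by
    have := k 1 h
    rw [pow_one, pow_one] at this
    rw [centralizer_zpowers, mem_c1_comm, mem_c1_iff_conj, ← this, hι.eq_iff]
  have hP : Nat.card (Subgroup.zpowers t) = p := by
    rw [Nat.card_zpowers, ← hx]
    exact orderOf_injective inr inr_injective x
  have e := (MonoidHom.ofInjective hι)
  have hm := main (G := ι.range) Fact.out hp hP (le_norm_iff.2 fun a ha _ ⟨h, eh⟩ => by
      obtain ⟨i, rfl⟩ := pw a ha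
      exact ⟨_, eh ▸ k i h⟩) (by rw [hP, ← Nat.card_congr e.toEquiv]; exact hcop.symm)
    (Group.isSolvable_of_surjective (f := e.toMonoidHom) e.surjective)
  have h1 : ι c ∈ Sg ι.range (Subgroup.zpowers t) := by
    rw [← hm]
    refine ⟨(Subgroup.closure_le (Subgroup.comap ι ⁅ι.range, Subgroup.zpowers t⁆)).2 ?_ hc.1, (fx c).2 hc.2⟩
    rintro _ ⟨h, i, rfl⟩
    have := D_le_comm (H := ι.range) ⟨h, rfl⟩ (gen_mem (pow_mem (Subgroup.mem_zpowers t) i) (ι h))
    rw [← k, ← map_inv, ← map_mul] at this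
    exact this
  refine (Subgroup.mem_map_iff_mem hι).1 (Sg_le_iff.2 ?_ h1)
  rintro _ ⟨h, rfl⟩ y hy
  obtain ⟨d, hd, rfl⟩ := (D_le_iff (H := (Subgroup.closure {c : H | ∃ i : ℕ, c = h⁻¹ * (x ^ i) h}).map ι)).2
    (fun a ha => by
      obtain ⟨i, rfl⟩ := pw a ha
      exact ⟨_, Subgroup.subset_closure ⟨i, rfl⟩, by rw [map_mul, map_inv, k]⟩) hy.1
  exact ⟨d, Subgroup.mem_iSup_of_mem h ⟨hd, (fx d).1 hy.2⟩, rfl⟩

end Cfsg.Agent.S3816
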