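import Cfsg.Statements.S3817
import Cfsg.Agent.F2C.Fin
import Cfsg.Agent.F2C.Main
import Cfsg.Agent.F2C.Solv1
import Cfsg.Agent.F2C.Solv2
import Cfsg.Agent.F2C.Gen
import Cfsg.Agent.F2C.StepI
import Cfsg.Agent.F2C.TI
import Cfsg.Agent.F2C.LZ
import Cfsg.Agent.F2C.Line
import Cfsg.Agent.F2C.WP

set_option autoImplicit false
open Cfsg

namespace Cfsg.Agent.S3817

/-- Let G be a finite group and write F₂(X) for the second term of the upper Fitting chain of a finite group X: the preimage in X of the Fitting subgroup of X/F(X). Then an element x of G lies in F₂(G) if and only if x lies in F₂(⟨x, y⟩) for every y ∈ G. -/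
theorem result {G : Type*} [Group G] [Finite G]
    [hF : (Cfsg.fittingSubgroup G).Normal]
    (hK : ∀ K : Subgroup G, (Cfsg.fittingSubgroup ↥K).Normal) (x : G) :
    x ∈ (Cfsg.fittingSubgroup (G ⧸ Cfsg.fittingSubgroup G)).comap (QuotientGroup.mk' (Cfsg.fittingSubgroup G)) ↔
      ∀ y : G, ∀ hx : x ∈ Subgroup.closure ({x, y} : Set G),
        haveI := hK (Subgroup.closure ({x, y} : Set G));
        (⟨x, hx⟩ : ↥(Subgroup.closure ({x, y} : Set G))) ∈
          (Cfsg.fittingSubgroup (↥(Subgroup.closure ({x, y} : Set G)) ⧸ Cfsg.fittingSubgroup ↥(Subgroup.closure ({x, y} : Set G)))).comap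
            (QuotientGroup.mk' (Cfsg.fittingSubgroup ↥(Subgroup.closure ({x, y} : Set G)))) := by
  exact CL.F2C.fin (CL.F2C.main (CL.F2C.solv2 CL.F2C.solv1) (CL.F2C.core CL.F2C.stepI CL.F2C.ti
    (CL.F2C.k2e CL.F2C.gen) CL.F2C.k2a CL.F2C.stepE (CL.F2C.line CL.F2C.lz) CL.F2C.wp)) G hK x

end Cfsg.Agent.S3817
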