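import Cfsg.Statements.S3818
import Cfsg.Agent.Fgs.FixDimB

set_option autoImplicit false
open Cfsg

namespace Cfsg.Agent.S3818


/-- Let G be a finite solvable group and P a subgroup of G of prime order p > 3 whose conjugates generate G. Let V be a faithful irreducible representation of G over a field of positive characteristic, finite-dimensional. Then the subspace of V fixed by P has dimension less than half the dimension of V. -/
theorem result {G : Type*} [Group G] [Finite G] [Group.IsSolvable G]
    {p : ℕ} [Fact p.Prime] (hp : 3 < p) (P : Subgroup G) (hP : Nat.card P = p) (hgen : Subgroup.normalClosure (P : Set G) = ⊤)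
    {k : Type*} [Field k] (ℓ : ℕ) [Fact ℓ.Prime] [CharP k ℓ]
    {V : Type*} [AddCommGroup V] [Module k V] [FiniteDimensional k V]
    (ρ : Representation k G V) [ρ.IsIrreducible] (hfaith : Function.Injective ρ) :
    2 * Module.finrank k ↥(⨅ g : ↥P, LinearMap.ker (ρ (g : G) - LinearMap.id)) < Module.finrank k V := by
  have hp' : p.Prime := Fact.out
  haveI : IsCyclic P := isCyclic_of_prime_card hP
  obtain ⟨x, hx⟩ := IsCyclic.exists_generator (α := P)
  have ho : orderOf x = p := (orderOf_eq_card_of_forall_mem_zpowers hx).trans hP
  have hI : CL.Fgs.FD.Irr ρ := fun U hU => by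
    rcases eq_bot_or_eq_top (⟨U, fun g _ hv => hU g _ hv⟩ : Subrepresentation ρ) with e | e
    · exact .inl (congrArg Subrepresentation.toSubmodule e)
    · exact .inr (congrArg Subrepresentation.toSubmodule e)
  haveI : Nontrivial V := by
    by_contra hn
    haveI := not_nontrivial_iff_subsingleton.1 hn
    exact bot_ne_top (α := Subrepresentation ρ) (Subrepresentation.toSubmodule_injective (Subsingleton.elim _ _))
  have h5 : 5 ≤ p := by
    by_contra h
    obtain rfl : p = 4 := by omega
    exact absurd hp' (by norm_num)
  have := CL.Fgs.FD.fixdim ℓ hI hfaith (x := (x : G)) hp' h5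
    (by rw [← ho, ← Subgroup.orderOf_coe]; exact pow_orderOf_eq_one _)
    (fun e => by
      rw [show x = 1 from Subtype.ext e, orderOf_one] at ho
      omega)
    (top_le_iff.1 (hgen ▸ Subgroup.normalClosure_le_normal fun g hg => by
      obtain ⟨i, hi⟩ := hx ⟨g, hg⟩
      have e : (x : G) ^ i = g := by simpa using congrArg Subtype.val hi
      exact e ▸ Subgroup.zpow_mem _ (Subgroup.subset_normalClosure (Set.mem_singleton _)) i))
  exact lt_of_le_of_lt (Nat.mul_le_mul_left 2 (Submodule.finrank_mono (iInf_le _ x))) this

end Cfsg.Agent.S3818
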