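import Cfsg.Statements.S3819
import Cfsg.Agent.Loc.PGen
import Cfsg.Agent.Loc.PConstr
import Cfsg.Agent.Grp.Coprime
import Cfsg.Agent.Grp.MinNormal

set_option autoImplicit false
open Cfsg

namespace Cfsg.Agent.S3819

open Cfsg Subgroup CL.Grp CL.Loc
open scoped commutatorElement

theorem core {G : Type*} [Group G] [Finite G] {q : ℕ} [Fact q.Prime] {H K D P Z X R : Subgroup G}
    [K.Normal] (hK : Group.IsSolvable K) (hKH : K ⊔ D = H) (hH : pPrimeCoreOf q H = ⊥)
    (hXP : ⁅X, P⁆ ≤ K) (hZ : IsPGroup q Z) (hX : (Nat.card X).Coprime q) (hXZ : X ≤ centralizer (Z : Set G))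
    (hn : H ⊓ centralizer (Z : Set G) ≤ normalizer (X : Set G)) (hP : P ≤ normalizer (X : Set G))
    (hR : (Nat.card R).Coprime q) (hRD : R ≤ D) (hD : D ≤ normalizer (R : Set G)) :
    X ⊓ R = ⊥ ∧ ⁅X, P⁆ = ⊥ := by
  have hKH' : K ≤ H := hKH ▸ le_sup_left
  set Q := pCoreOf q K with hQ
  haveI : Q.Normal := normalizer_eq_top_iff.1 (eq_top_iff.2
    ((normalizer_eq_top K).symm.le.trans (normalizer_le_normalizer_pCoreOf q K)))
  have hQp : IsPGroup q Q := pCoreOf_isPGroup q K
  have h0 : pPrimeCore q K = ⊥ := by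
    rw [← map_eq_bot_iff_of_injective _ K.subtype_injective, eq_bot_iff, ← hH]
    exact pPrimeCoreOf_le_of_le_normalizer hKH' le_normalizer_of_normal
  have hC : K ⊓ centralizer (Q : Set G) ≤ Q := by
    rintro k ⟨h1, h2⟩
    refine ⟨⟨k, h1⟩, centralizer_pCore_le_of_isPSolvable (isPSolvable_of_isSolvable hK) h0 fun y hy =>
      Subtype.ext (h2 y ⟨y, hy, rfl⟩), rfl⟩
  have hXQ : X ≤ centralizer (Q : Set G) :=
    Cfsg.Agent.S0028.result q Z X Q hZ hX hQp (le_centralizer_iff.1 hXZ) le_normalizer_of_normal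
      le_normalizer_of_normal (le_centralizer_of_normalizes_of_coprime hQp.to_inf_left hX
        ((inf_le_inf_right _ ((pCoreOf_le q K).trans hKH')).trans hn)
        (le_normalizer_inf le_normalizer_of_normal
          (le_normalizer_centralizer' (hXZ.trans (centralizer_le_normalizer _)))))
  refine ⟨?_, ?_⟩
  · have h1 : K ≤ normalizer ((R ⊓ centralizer (Q : Set G) : Subgroup G) : Set G) := by
      refine le_normalizer_of_le_centralizer fun k hk r hr => ?_
      have hc : ⁅k, r⁆ ∈ Q := hC ⟨commutator_le_left K ⊤ (commutator_mem_commutator hk (mem_top r)),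
        commutator_le_right ⊤ _ (commutator_mem_commutator (mem_top k) hr.2)⟩
      have h2 : Commute ⁅k, r⁆ r := hr.2 _ hc
      have h3 : ⁅k, r⁆ ^ orderOf r = 1 := by
        have : (⁅k, r⁆ * r) ^ orderOf r = 1 := by
          rw [commutatorElement_def, inv_mul_cancel_right, conj_pow, pow_orderOf_eq_one]; group
        rwa [h2.mul_pow, pow_orderOf_eq_one, mul_one] at this
      obtain ⟨n, hn⟩ := hQp ⟨_, hc⟩
      have h4 : ⁅k, r⁆ ^ q ^ n = 1 := congrArg Subtype.val hn
      have h5 : (orderOf r).Coprime (q ^ n) :=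
        (Nat.Coprime.coprime_dvd_left (orderOf_dvd_natCard R hr.1) hR).pow_right n
      have h6 := pow_gcd_eq_one.2 ⟨h3, h4⟩
      rw [h5, pow_one, commutatorElement_eq_one_iff_mul_comm] at h6
      exact h6.symm
    rw [eq_bot_iff, ← hH]
    refine le_trans (le_inf inf_le_right (inf_le_left.trans hXQ)) (le_pPrimeCoreOf
      (inf_le_left.trans (hRD.trans (hKH ▸ le_sup_right))) ?_
      (Nat.Coprime.coprime_dvd_left (card_dvd_of_le inf_le_left) hR))
    rw [← hKH]
    exact sup_le h1 (le_normalizer_inf hD le_normalizer_of_normal)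
  · rw [eq_bot_iff, ← inf_eq_bot_of_isPGroup_of_coprime hQp hX]
    exact le_inf (le_trans (le_inf hXP ((commutator_mono hXQ le_top).trans (commutator_le_left _ _))) hC)
      (le_normalizer_iff_commutator_le_left.1 hP)

/-- Let G be a finite group with Sylow p-subgroup P and H = O_{p'}(G), and suppose G = PH and the commutator subgroup [H, P] is solvable. Let q be a prime and z an element of q-power order of C_H(P). Then (O_{q'}(C_H(z)) ∩ O_{q'}(C_H(P))) · [O_{q'}(C_H(z)), P] ≤ O_{q'}(H). -/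
theorem result {G : Type*} [Group G] [Finite G] {p : ℕ} [Fact p.Prime]
    (P : Sylow p G) (hPH : Cfsg.pPrimeCore p G ⊔ (P : Subgroup G) = ⊤)
    (hsol : Group.IsSolvable ↥⁅Cfsg.pPrimeCore p G, (P : Subgroup G)⁆)
    {q : ℕ} [Fact q.Prime] (z : G) (hzH : z ∈ Cfsg.pPrimeCore p G) (hzP : z ∈ Subgroup.centralizer ((P : Subgroup G) : Set G))
    (hz : ∃ k : ℕ, orderOf z = q ^ k) :
    ((Cfsg.pPrimeCore q ↥(Cfsg.pPrimeCore p G ⊓ Subgroup.centralizer ({z} : Set G))).map
        (Cfsg.pPrimeCore p G ⊓ Subgroup.centralizer ({z} : Set G)).subtype ⊓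
      (Cfsg.pPrimeCore q ↥(Cfsg.pPrimeCore p G ⊓ Subgroup.centralizer ((P : Subgroup G) : Set G))).map
        (Cfsg.pPrimeCore p G ⊓ Subgroup.centralizer ((P : Subgroup G) : Set G)).subtype) ⊔
    ⁅(Cfsg.pPrimeCore q ↥(Cfsg.pPrimeCore p G ⊓ Subgroup.centralizer ({z} : Set G))).map
        (Cfsg.pPrimeCore p G ⊓ Subgroup.centralizer ({z} : Set G)).subtype, (P : Subgroup G)⁆ ≤
    (Cfsg.pPrimeCore q ↥(Cfsg.pPrimeCore p G)).map (Cfsg.pPrimeCore p G).subtype := by
  set H := pPrimeCore p G with hH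
  change pPrimeCoreOf q (H ⊓ _) ⊓ pPrimeCoreOf q (H ⊓ _) ⊔ ⁅pPrimeCoreOf q (H ⊓ _), _⁆ ≤ pPrimeCoreOf q H
  set N := pPrimeCoreOf q H with hN
  haveI : N.Normal := normalizer_eq_top_iff.1 (eq_top_iff.2
    ((normalizer_eq_top H).symm.le.trans (normalizer_le_normalizer_pPrimeCoreOf q H)))
  set f := QuotientGroup.mk' N
  have hf : Function.Surjective f := QuotientGroup.mk'_surjective N
  have hk : f.ker = N := QuotientGroup.ker_mk' N
  have hNH : N ≤ H := pPrimeCoreOf_le q H
  have hNq : (Nat.card N).Coprime q := pPrimeCoreOf_coprime q H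
  haveI : (⁅H, (P : Subgroup G)⁆).Normal := by
    refine normal_of_sup_le_normalizer hPH ?_ ?_
    · exact normalizer_commutator_ge_left _ _
    · exact normalizer_commutator_ge_right _ _
  haveI := (inferInstance : (⁅H, (P : Subgroup G)⁆).Normal).map f hf
  obtain ⟨n, hn⟩ := P.isPGroup'.exists_card_eq
  have hdec := commutator_sup_centralizer_eq (A := (P : Subgroup G)) (K := H) le_normalizer_of_normal
    (by rw [hn]; exact (pPrimeCore_coprime p G).symm.pow_left n)
    (Or.inl (haveI := P.isPGroup'.isNilpotent; inferInstance))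
  obtain ⟨k, hk'⟩ := hz
  have hZ : IsPGroup q (zpowers z) := IsPGroup.of_card (n := k) (by rw [Nat.card_zpowers, hk'])
  have hcz : centralizer ((zpowers z : Subgroup G) : Set G) = centralizer {z} := by
    rw [zpowers_eq_closure, centralizer_closure]
  have hc := map_centralizer_eq_of_coprime_ker hf (by rwa [hk]) hZ
  rw [hcz] at hc
  obtain ⟨a, b⟩ := core (q := q) (H := H.map f) (K := (⁅H, (P : Subgroup G)⁆).map f)
    (D := (H ⊓ centralizer ((P : Subgroup G) : Set G)).map f) (P := (P : Subgroup G).map f)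
    (Z := (zpowers z).map f) (X := (pPrimeCoreOf q (H ⊓ centralizer {z})).map f)
    (R := (pPrimeCoreOf q (H ⊓ centralizer ((P : Subgroup G) : Set G))).map f) (isSolvable_map _ _)
    (by rw [← Subgroup.map_sup, hdec])
    (by
      rw [← map_pPrimeCoreOf_of_coprime (by rw [hk, inf_eq_right.2 hNH]; exact hNq),
        Subgroup.map_eq_bot_iff, hk])
    (by rw [← map_commutator]; exact map_mono (commutator_mono ((pPrimeCoreOf_le _ _).trans inf_le_left) le_rfl))
    (hZ.map f) (Nat.Coprime.coprime_dvd_left (card_map_dvd _ f) (pPrimeCoreOf_coprime q _))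
    (by rw [← hc]; exact map_mono ((pPrimeCoreOf_le _ _).trans inf_le_right))
    (by
      rw [← hc]
      rintro _ ⟨⟨h, hh, rfl⟩, c, hc, e⟩
      rw [← e]
      refine le_normalizer_map f ⟨c, le_normalizer_pPrimeCoreOf q _ ⟨?_, hc⟩, rfl⟩
      have : h⁻¹ * c ∈ N := QuotientGroup.eq.1 e.symm
      simpa using mul_mem hh (hNH this))
    ((map_mono (le_trans (le_normalizer_inf le_normalizer_of_normal (hcz ▸ le_normalizer_centralizer'
      (le_trans (le_centralizer_iff.1 ((zpowers_le).2 hzP)) (centralizer_le_normalizer _))))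
      (normalizer_le_normalizer_pPrimeCoreOf q _))).trans (le_normalizer_map f))
    (Nat.Coprime.coprime_dvd_left (card_map_dvd _ f) (pPrimeCoreOf_coprime q _))
    (map_mono (pPrimeCoreOf_le _ _))
    ((map_mono (le_normalizer_pPrimeCoreOf q _)).trans (le_normalizer_map f))
  rw [← hk]
  refine sup_le ((Subgroup.map_eq_bot_iff _).1 (eq_bot_iff.2 (a ▸ map_inf_le _ _ _))) ((Subgroup.map_eq_bot_iff _).1 ?_)
  rw [map_commutator, b]

end Cfsg.Agent.S3819
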