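import Cfsg.Statements.S3821
import Cfsg.Agent.Grp.Subnormal
import Cfsg.Agent.Grp.SylowIn

set_option autoImplicit false
open Cfsg
open scoped Pointwise

namespace Cfsg.Agent.S3821

theorem map_conj_subtype {G : Type*} [Group G] {A : Subgroup G} (K : Subgroup A) (a : A) :
    (K.map (MulAut.conj a).toMonoidHom).map A.subtype =
      (K.map A.subtype).map (MulAut.conj (a : G)).toMonoidHom := by
  rw [Subgroup.map_map, Subgroup.map_map]
  rfl

theorem pronormal_subgroupOf_iff {G : Type*} [Group G] {A H : Subgroup G} (hHA : H ≤ A) :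
    Cfsg.IsPronormal (H.subgroupOf A) ↔ ∀ g ∈ A, ∃ x ∈ H ⊔ H.map (MulAut.conj g).toMonoidHom,
      H.map (MulAut.conj g).toMonoidHom = H.map (MulAut.conj x).toMonoidHom := by
  have e : (H.subgroupOf A).map A.subtype = H := Subgroup.map_subgroupOf_eq_of_le hHA
  constructor
  · intro h g hg
    obtain ⟨x, hx, hgx⟩ := h ⟨g, hg⟩
    refine ⟨x, ?_, ?_⟩
    · have := Subgroup.mem_map_of_mem A.subtype hx
      rwa [Subgroup.map_sup, map_conj_subtype, e] at this
    · have := congrArg (Subgroup.map A.subtype) hgx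
      rwa [map_conj_subtype, map_conj_subtype, e] at this
  · intro h g
    obtain ⟨x, hx, hgx⟩ := h g g.2
    have hx' : x ∈ (H.subgroupOf A ⊔ (H.subgroupOf A).map (MulAut.conj g).toMonoidHom).map A.subtype := by
      rwa [Subgroup.map_sup, map_conj_subtype, e]
    obtain ⟨y, hy, rfl⟩ := hx'
    refine ⟨y, hy, Subgroup.map_injective A.subtype_injective ?_⟩
    rw [map_conj_subtype, map_conj_subtype, e]
    exact hgx

/-- Let A be a normal subgroup of the finite group G and H a subgroup of A. Then H is pronormal in G (H and gHg⁻¹ conjugate inside ⟨H, gHg⁻¹⟩ for every g ∈ G) if and only if H is pronormal in A and G = A · N_G(H). -/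
theorem result {G : Type*} [Group G] [Finite G] (A H : Subgroup G) [A.Normal] (hHA : H ≤ A) :
    Cfsg.IsPronormal H ↔ (Cfsg.IsPronormal (H.subgroupOf A) ∧ A ⊔ Subgroup.normalizer (H : Set G) = ⊤) := by
  rw [pronormal_subgroupOf_iff hHA]
  unfold Cfsg.IsPronormal
  simp only [← CL.Grp.conj_smul_eq_map]
  constructor
  · intro h
    refine ⟨fun g _ => h g, ?_⟩
    rw [eq_top_iff]
    intro g _
    obtain ⟨w, hw, hgw⟩ := h g
    have hwA : w ∈ A := (sup_le hHA (CL.Grp.conj_smul_le_of_mem_normalizer hHA (by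
      rw [Subgroup.normalizer_eq_top]; trivial))) hw
    have hn : w⁻¹ * g ∈ Subgroup.normalizer (H : Set G) := by
      rw [← CL.Grp.conj_smul_eq_self_iff, ← CL.Grp.conj_smul_conj_smul, hgw, CL.Grp.conj_smul_conj_smul]
      simp
    simpa using Subgroup.mul_mem _ (Subgroup.mem_sup_left hwA) (Subgroup.mem_sup_right hn)
  · rintro ⟨h, htop⟩ g
    have hg : g ∈ A ⊔ Subgroup.normalizer (H : Set G) := htop ▸ Subgroup.mem_top g
    obtain ⟨a, ha, n, hn, rfl⟩ := Subgroup.mem_sup_of_normal_left.1 hg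
    rw [← CL.Grp.conj_smul_conj_smul, (CL.Grp.conj_smul_eq_self_iff n H).2 hn]
    exact h a ha

end Cfsg.Agent.S3821
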