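import Cfsg.Statements.S3822
import Cfsg.Agent.Fgs.FlavGen

set_option autoImplicit false
open Cfsg

namespace Cfsg.Agent.S3822


/-- Let G be a finite group and P a subgroup of prime order p > 3. Consider the solvable subgroups A of G of the form A = ⟨P, aPa⁻¹⟩ for some a ∈ A, and let A be maximal under inclusion among them. Then for every nilpotent subgroup V of G normalized by A, the subgroup F(A)V generated by the Fitting subgroup of A and V is nilpotent. -/
theorem result {G : Type*} [Group G] [Finite G]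
    {p : ℕ} [Fact p.Prime] (hp : 3 < p) (P : Subgroup G) (hP : Nat.card P = p) (A : Subgroup G)
    (hA : Group.IsSolvable ↥A ∧ ∃ a ∈ A, A = P ⊔ P.map (MulAut.conj a).toMonoidHom)
    (hmax : ∀ B : Subgroup G, A ≤ B → Group.IsSolvable ↥B → (∃ b ∈ B, B = P ⊔ P.map (MulAut.conj b).toMonoidHom) → B = A)
    (V : Subgroup G) (hV : Group.IsNilpotent ↥V) (hAV : A ≤ Subgroup.normalizer (V : Set G)) :
    Group.IsNilpotent ↥((Cfsg.fittingSubgroup ↥A).map A.subtype ⊔ V) := by
  have hp' : p.Prime := Fact.out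
  have : IsCyclic P := isCyclic_of_prime_card hP
  obtain ⟨x, rfl⟩ := (Subgroup.isCyclic_iff_exists_zpowers_eq_top P).1 this
  have ho : orderOf x = p := (Nat.card_zpowers x).symm.trans hP
  have h5 : 5 ≤ p := by
    by_contra h
    obtain rfl : p = 4 := by omega
    exact absurd hp' (by norm_num)
  obtain ⟨hs, a, ha, hg⟩ := hA
  simp only [MonoidHom.map_zpowers] at hg hmax
  exact CL.Fgs.FD.isNilpotent_fittingOf_sup hV hAV fun q r _ _ hqr =>
    CL.Fgs.FD.le_cent_of_max hs hqr (CL.Grp.pCoreOf_isPGroup r V) (CL.Grp.pCoreOf_isPGroup q A)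
      (CL.Grp.pCoreOf_le q A) (CL.Grp.le_normalizer_pCoreOf q A)
      (hAV.trans (CL.Grp.normalizer_le_normalizer_pCoreOf r V)) hp' h5 (ho ▸ pow_orderOf_eq_one x) ha hg
      fun B h1 h2 b hb h3 => hmax B h1 h2 ⟨b, hb, h3⟩

end Cfsg.Agent.S3822
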