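import Cfsg.Statements.S3825
import Cfsg.Agent.Base

set_option autoImplicit false
open Cfsg

namespace Cfsg.Agent.S3825

open scoped commutatorElement

/-- Let U be a subgroup of a finite group H and w an involution of H normalizing U and commuting with exactly two elements of U, the identity and y. If V is a non-cyclic elementary abelian 2-subgroup of U containing y which is normal in U and invariant under w, then V is a Sylow 2-subgroup of U, V has order 4, and U/V is abelian. -/
theorem result {H : Type*} [Group H] [Finite H] (U : Subgroup H) (w : H) (hw : orderOf w = 2)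
    (hwU : w ∈ Subgroup.normalizer (U : Set H)) (y : H) (hy : y ≠ 1) (hyU : y ∈ U)
    (hfix : ∀ u ∈ U, w * u * w⁻¹ = u ↔ (u = 1 ∨ u = y))
    (V : Subgroup H) (hVU : V ≤ U) (hVn : (V.subgroupOf U).Normal) (hVw : ∀ v ∈ V, w * v * w⁻¹ ∈ V)
    (hVe : Cfsg.IsElementaryAbelian 2 V) (hVc : ¬ IsCyclic ↥V) (hyV : y ∈ V) :
    ¬ 2 ∣ V.relIndex U ∧ Nat.card ↥V = 4 ∧ ⁅U, U⁆ ≤ V := by
  classical
  have hw2 : w * w = 1 := by rw [← sq, ← hw, pow_orderOf_eq_one]
  have hwi : w⁻¹ = w := inv_eq_of_mul_eq_one_right hw2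
  have hcomm : ∀ a ∈ V, ∀ b ∈ V, a * b = b * a := fun a ha b hb =>
    congrArg Subtype.val (hVe.1.is_comm.comm (⟨a, ha⟩ : V) ⟨b, hb⟩)
  have hsq : ∀ a ∈ V, a * a = 1 := fun a ha => by rw [← sq]; exact hVe.2 a ha
  have hww : ∀ x : H, w * (w * x * w⁻¹) * w⁻¹ = x := by
    intro x
    calc w * (w * x * w⁻¹) * w⁻¹ = (w * w) * x * (w * w)⁻¹ := by group
      _ = x := by rw [hw2]; group
  have hconj : ∀ a b : H, w * (a * b) * w⁻¹ = (w * a * w⁻¹) * (w * b * w⁻¹) := by
    intro a b; group
  have hN : ∀ x ∈ V, x * (w * x * w⁻¹) = 1 ∨ x * (w * x * w⁻¹) = y := by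
    intro x hx
    rw [← hfix _ (hVU (V.mul_mem hx (hVw x hx))), hconj, hww]
    exact hcomm _ (hVw x hx) _ hx
  have hN1 : ∀ x ∈ V, x * (w * x * w⁻¹) = 1 → x = 1 ∨ x = y := by
    intro x hx h
    rw [← hfix _ (hVU hx)]
    rw [← hsq x hx] at h
    exact mul_left_cancel h
  obtain ⟨v, hv, hv1, hvy⟩ : ∃ v ∈ V, v ≠ 1 ∧ v ≠ y := by
    by_contra hcon
    push Not at hcon
    apply hVc
    refine ⟨⟨⟨y, hyV⟩, ?_⟩⟩
    rintro ⟨x, hx⟩
    by_cases h1 : x = 1
    · exact ⟨0, Subtype.ext (by simp [h1])⟩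
    · exact ⟨1, Subtype.ext (by simp [hcon x hx h1])⟩
  have hvN : v * (w * v * w⁻¹) = y := by
    rcases hN v hv with h | h
    · rcases hN1 v hv h with h | h
      · exact absurd h hv1
      · exact absurd h hvy
    · exact h
  have hVset : (V : Set H) = {1, y, v, y * v} := by
    ext x
    simp only [SetLike.mem_coe, Set.mem_insert_iff, Set.mem_singleton_iff]
    constructor
    · intro hx
      rcases hN x hx with h | h
      · rcases hN1 x hx h with h | h
        · exact Or.inl h
        · exact Or.inr (Or.inl h)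
      · have h2 : x * v * (w * (x * v) * w⁻¹) = 1 := by
          rw [hconj, mul_assoc x v, ← mul_assoc v, hcomm v hv _ (hVw x hx), mul_assoc _ v, hvN,
            ← mul_assoc, h, hsq y hyV]
        rcases hN1 _ (V.mul_mem hx hv) h2 with h3 | h3
        · right; right; left
          rw [← hsq v hv] at h3
          exact mul_right_cancel h3
        · right; right; right
          rw [← h3, mul_assoc, hsq v hv, mul_one]
    · rintro (rfl | rfl | rfl | rfl)
      exacts [V.one_mem, hyV, hv, V.mul_mem hyV hv]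
  have hcard : Nat.card V = 4 := by
    change Nat.card (V : Set H) = 4
    rw [Nat.card_coe_set_eq, hVset]
    have h1 : y * v ≠ 1 := by
      intro h
      rw [← hsq y hyV] at h
      exact hvy (mul_left_cancel h)
    have h2 : y * v ≠ y := by simpa using hv1
    have h3 : y * v ≠ v := by simpa using hy
    rw [Set.ncard_insert_of_notMem, Set.ncard_insert_of_notMem, Set.ncard_pair h3.symm]
    · simp [hvy.symm, h2.symm]
    · simp [hy.symm, hv1.symm, h1.symm]
  -- the action on `U / V`
  have hm : ∀ u : U, w * u * w⁻¹ ∈ U := fun u => (Subgroup.mem_normalizer_iff.1 hwU u).1 u.2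
  let φ0 : U →* U := MonoidHom.mk' (fun u => ⟨w * u * w⁻¹, hm u⟩) (by
    intro a b
    apply Subtype.ext
    exact hconj a b)
  let φ : U ⧸ V.subgroupOf U →* U ⧸ V.subgroupOf U :=
    QuotientGroup.map _ _ φ0 (fun u hu => hVw u hu)
  have hinv : Function.Involutive φ := by
    intro x
    obtain ⟨u, rfl⟩ := QuotientGroup.mk_surjective x
    change ((φ0 (φ0 u) : U) : U ⧸ V.subgroupOf U) = _
    congr 1
    exact Subtype.ext (hww u)
  have hfpf : MonoidHom.FixedPointFree φ := by
    intro x hx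
    obtain ⟨u, rfl⟩ := QuotientGroup.mk_surjective x
    rw [QuotientGroup.eq_one_iff, Subgroup.mem_subgroupOf]
    have h1 : ((φ0 u : U) : U ⧸ V.subgroupOf U) = u := hx
    rw [eq_comm, QuotientGroup.eq, Subgroup.mem_subgroupOf] at h1
    change (u : H)⁻¹ * (w * u * w⁻¹) ∈ V at h1
    have hsub : ∀ x ∈ U, w * x * w⁻¹ = x → x ∈ V := by
      intro x hx h
      rcases (hfix x hx).1 h with h | h
      · rw [h]; exact V.one_mem
      · rw [h]; exact hyV
    have h2 : w * ((u : H)⁻¹ * (w * u * w⁻¹)) * w⁻¹ = (u : H)⁻¹ * (w * u * w⁻¹) := by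
      have h3 := hsq _ h1
      rw [hconj, hww]
      rw [← eq_inv_iff_mul_eq_one] at h3
      rw [h3]; group
    rcases (hfix _ (hVU h1)).1 h2 with h | h
    · apply hsub _ u.2
      rw [inv_mul_eq_one] at h
      exact h.symm
    · have h4 : (u : H) * v ∈ V := by
        apply hsub _ (U.mul_mem u.2 (hVU hv))
        rw [inv_mul_eq_iff_eq_mul] at h
        rw [hconj, h, ← hvN, mul_assoc, mul_assoc, hsq _ (hVw v hv), mul_one]
      simpa using V.mul_mem h4 (V.inv_mem hv)
  refine ⟨?_, hcard, ?_⟩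
  · have := hfpf.odd_card_of_involutive hinv
    rw [Subgroup.relIndex, Subgroup.index_eq_card, ← even_iff_two_dvd, Nat.not_even_iff_odd]
    exact this
  · rw [Subgroup.commutator_le]
    intro a ha b hb
    have := hfpf.commute_all_of_involutive hinv ((⟨a, ha⟩ : U) : U ⧸ V.subgroupOf U)
      ((⟨b, hb⟩ : U) : U ⧸ V.subgroupOf U)
    rw [← commutatorElement_eq_one_iff_commute] at this
    have h2 : ((⁅(⟨a, ha⟩ : U), (⟨b, hb⟩ : U)⁆ : U) : U ⧸ V.subgroupOf U) = 1 := by
      rw [← this]; rfl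
    rw [QuotientGroup.eq_one_iff, Subgroup.mem_subgroupOf] at h2
    exact h2

end Cfsg.Agent.S3825
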