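import Cfsg.Statements.S3838
import Cfsg.Agent.Fgs.NCompl
import Cfsg.Agent.Transfer.Tate

set_option autoImplicit false
open Cfsg

namespace Cfsg.Agent.S3838

open CL.Grp CL.Odd in
theorem aux {G : Type*} [Group G] [Finite G] {p : ℕ} [Fact p.Prime] {P Q : Subgroup G}
    (hP : IsSylowIn p P ⊤) (hN : PNilp p N[P]) (h1 : ⁅P, P⁆ ≤ Q) (h2 : Q ≤ P) :
    PNilp p (quo Q N[Q]) := by
  have hp : p.Prime := Fact.out
  have hn : P ≤ N[Q] := le_norm_of_der_le h1 h2
  refine Burnside_normal_complement hp (sylow_quo hp (hP.of_le hn le_top) le_rfl) ?_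
  rw [← quo_norm_eq ⟨h2, hn⟩, quo_le_cent_iff inf_le_left hn]
  have hs := hN.sdp hp (hP.of_le (le_norm_self P) le_top)
  have hc : piCoreOf {p}ᶜ N[P] ≤ C[P] := hN.le_cent hp hP.isPGroup (le_norm_self P) (Hall.pi hN)
    (piCoreOf_le _ _) (piCoreOf_le _ _)
  refine Subgroup.commutator_le.2 fun g hg x hx => ?_
  obtain ⟨b, hb, a, ha, rfl⟩ := hs.exists_mul' hg.2
  rw [commutatorElement_def, show b * a * x * (b * a)⁻¹ * x⁻¹ = b * (a * x) * a⁻¹ * b⁻¹ * x⁻¹ by group,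
    ← mem_cent.1 (hc ha) x hx, show b * (x * a) * a⁻¹ * b⁻¹ * x⁻¹ = b * x * b⁻¹ * x⁻¹ by group]
  exact h1 (Subgroup.commutator_mem_commutator hb hx)

/-- Let G be a finite group with Sylow p-subgroup P such that N_G(P) has a normal p-complement. Then N_G(Q) has a normal p-complement for every subgroup Q with [P, P] ≤ Q ≤ Φ(P). -/
theorem result {G : Type*} [Group G] [Finite G] {p : ℕ} [Fact p.Prime] (P : Sylow p G) (hN : Cfsg.HasNormalPComplement p ↥(Subgroup.normalizer ((P : Subgroup G) : Set G))) (Q : Subgroup G) (h1 : (commutator ↥(P : Subgroup G)).map (P : Subgroup G).subtype ≤ Q) (h2 : Q ≤ (frattini ↥(P : Subgroup G)).map (P : Subgroup G).subtype) : Cfsg.HasNormalPComplement p ↥(Subgroup.normalizer (Q : Set G)) := by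
  have hp : p.Prime := Fact.out
  rw [CL.Odd.map_subtype_commutator'] at h1
  have hQP : Q ≤ P := h2.trans (Subgroup.map_subtype_le _)
  have h3 := (CL.Odd.pnilp_iff hp).1 (aux (CL.Grp.isSylowIn_top P) ((CL.Odd.pnilp_iff hp).2 hN) h1 hQP)
  have hn : (P : Subgroup G) ≤ Subgroup.normalizer (Q : Set G) := CL.Odd.le_norm_of_der_le h1 hQP
  have hS := CL.Grp.isSylowIn_of_le P hn
  refine CL.Transfer.hasNormalPComplement_of_inf_pResidual_le_frattini hS.toSylow fun x hx => ?_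
  have h4 : CL.Odd.quoHom le_rfl x = 1 := by
    refine CL.Grp.eq_one_of_coprime_of_mem (P := (hS.toSylow : Subgroup _).map (CL.Odd.quoHom le_rfl))
      (hS.toSylow.isPGroup'.map _) ⟨x, hx.1, rfl⟩ ?_
    exact CL.Grp.hasNormalPComplement_iff_forall_mem.1 h3 _ (CL.Grp.map_pResidual_le _ ⟨x, hx.2, rfl⟩)
  rw [← MonoidHom.mem_ker, CL.Odd.ker_quoHom, Subgroup.mem_subgroupOf] at h4
  obtain ⟨y, hy, e⟩ := h2 h4
  have h5 := CL.Grp.map_frattini_le_pGroup hS.toSylow.isPGroup'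
    (Subgroup.subgroupOfEquivOfLe hn).symm.toMonoidHom ⟨y, hy, rfl⟩
  exact ⟨_, h5, Subtype.ext e⟩

end Cfsg.Agent.S3838
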