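import Cfsg.Statements.S3839
import Cfsg.Agent.Grp.PNilpFrob
import Cfsg.Agent.Grp.PGroupBasic
import Cfsg.Agent.Grp.SylowIn

set_option autoImplicit false
open Cfsg

namespace Cfsg.Agent.S3839

open Subgroup CL.Grp

theorem key {G : Type*} [Group G] [Finite G] {p : ℕ} [hp : Fact p.Prime] {E U : Subgroup G} [hE : E.Normal]
    [hU : U.Normal] (hpE : IsPGroup p E) (hUE : U ≤ E)
    (h : ∀ Q : Subgroup G, IsPGroup p Q → E < Q → HasNormalPComplement p (normalizer (Q : Set G)))
    {c : G} (hc : IsPGroup p (zpowers c)) (h1 : c ∉ E) (h2 : c ∈ centralizer (U : Set G))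
    (h3 : ∀ e ∈ E, c * e * c⁻¹ * e⁻¹ ∈ U) : HasNormalPComplement p G := by
  have hq : HasNormalPComplement p (G ⧸ E) := hasNormalPComplement_iff_local.2 fun Q hQ h0 => by
    have h4 := HasNormalPComplement.map (h (Q.comap (QuotientGroup.mk' E)) (hQ.comap_of_ker_isPGroup _ (by rwa [QuotientGroup.ker_mk']))
      (lt_of_le_of_ne (QuotientGroup.le_comap_mk' E Q) fun e => h0 (by
        rw [← map_comap_eq_self_of_surjective (QuotientGroup.mk'_surjective E) Q, ← e, QuotientGroup.map_mk'_self])))
      (QuotientGroup.mk' E)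
    rwa [← comap_normalizer_eq_of_surjective _ (QuotientGroup.mk'_surjective E),
      map_comap_eq_self_of_surjective (QuotientGroup.mk'_surjective E)] at h4
  let A : Subgroup G :=
    { carrier := {g | g ∈ centralizer (U : Set G) ∧ ∀ e ∈ E, g * e * g⁻¹ * e⁻¹ ∈ U}
      one_mem' := ⟨one_mem _, fun e _ => by simp⟩
      mul_mem' := fun {a b} ha hb => ⟨mul_mem ha.1 hb.1, fun e he => by
        convert mul_mem (hU.conj_mem _ (hb.2 e he) a) (ha.2 e he) using 1; group⟩
      inv_mem' := fun {a} ha => ⟨inv_mem ha.1, fun e he => by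
        convert inv_mem (ha.2 _ (hE.conj_mem' e he a)) using 1; group⟩ }
  have hA : A.Normal := ⟨fun a ha g => ⟨(normal_centralizer (H := U)).conj_mem a ha.1 g, fun e he => by
    convert hU.conj_mem _ (ha.2 _ (hE.conj_mem' e he g)) g using 1; group⟩⟩
  have h4 : HasNormalPComplement p (centralizer (E : Set G)) :=
    hasNormalPComplement_of_ker_le_center ((QuotientGroup.mk' E).comp (Subgroup.subtype _)) (fun x hx =>
      mem_center_iff.2 fun g => Subtype.ext (g.2 x ((QuotientGroup.eq_one_iff _).1 hx)).symm) hq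
  have h5 : HasNormalPComplement p A := by
    refine hasNormalPComplement_of_pResidual_le (H := (centralizer (E : Set G)).subgroupOf A)
      (pResidual_le_iff.2 fun g hg e he => ?_) (HasNormalPComplement.of_injective h4
        ((A.subtype.comp ((centralizer (E : Set G)).subgroupOf A).subtype).codRestrict _ fun x => x.2)
        fun x y e => Subtype.ext (Subtype.ext (congrArg (fun z : centralizer (E : Set G) => (z : G)) e)))
    have h6 : ∀ n : ℕ, (g : G) ^ n * e * ((g : G) ^ n)⁻¹ = (g * e * (g : G)⁻¹ * e⁻¹) ^ n * e := fun n => by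
      induction n with
      | zero => simp
      | succ n ih =>
        have := g.2.1 _ (pow_mem (g.2.2 e he) n)
        calc (g : G) ^ (n + 1) * e * ((g : G) ^ (n + 1))⁻¹ = g * (g ^ n * e * ((g : G) ^ n)⁻¹) * (g : G)⁻¹ := by group
          _ = _ := by rw [ih, ← mul_assoc, ← this, pow_succ]; group
    have h7 := h6 (orderOf g)
    rw [← coe_pow, pow_orderOf_eq_one, coe_one, one_mul, inv_one, mul_one, eq_comm, mul_eq_right] at h7
    have h8 := eq_one_of_coprime_of_mem hpE (hUE (g.2.2 e he)) (hg.coprime_dvd_left (orderOf_dvd_of_pow_eq_one h7))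
    rw [mul_inv_eq_one, mul_inv_eq_iff_eq_mul] at h8
    exact h8.symm
  obtain ⟨P, hP⟩ := (hc.comap_of_injective A.subtype (subtype_injective _)).exists_le_sylow
  have h6 := h (P.map A.subtype ⊔ E) (.to_sup_of_normal_right (P.2.map _) hpE)
    (lt_of_le_of_ne le_sup_right fun e => h1 (e ▸ mem_sup_left ⟨⟨c, h2, h3⟩, hP (mem_zpowers c), rfl⟩))
  refine hasNormalPComplement_of_quotient_coprime (N := (pResidual p A).map A.subtype)
    (by rw [card_subtype]; exact hasNormalPComplement_iff_coprime_pResidual.1 h5)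
    (HasNormalPComplement.of_surjective h6 ((QuotientGroup.mk' _).comp (Subgroup.subtype _)) fun x => ?_)
  obtain ⟨g, rfl⟩ := QuotientGroup.mk_surjective x
  obtain ⟨n, hn, a, ha, rfl⟩ := mem_sup_of_normal_right.1 (P.normalizer_sup_eq_top.ge (mem_top g))
  obtain ⟨r, hr, b, hb, e⟩ := exists_pResidual_mul_sylow P ⟨a, ha⟩
  refine ⟨⟨n * b, mul_mem (normalizer_inf_normalizer_le_normalizer_sup _ _ ⟨hn, le_normalizer_of_normal (mem_top n)⟩)
    (le_normalizer (mem_sup_left (mem_map_of_mem _ hb)))⟩, QuotientGroup.eq.2 ⟨b⁻¹ * r * b, Normal.conj_mem' inferInstance _ hr b, ?_⟩⟩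
  simp [show a = r * b from congrArg Subtype.val e, mul_assoc]

theorem step {G : Type*} [Group G] [Finite G] {p : ℕ} [Fact p.Prime] (S : Sylow p G) {D : Subgroup G}
    (hD : IsStronglyClosed D (S : Subgroup G))
    (h : ∀ U : Subgroup G, U ≤ D → D ⊓ centralizer (U : Set G) ≤ U → HasNormalPComplement p (normalizer (U : Set G)))
    {E : Subgroup G} (hE : E ≤ S)
    (ih : ∀ Q : Subgroup G, IsPGroup p Q → E < Q → HasNormalPComplement p (normalizer (Q : Set G))) :
    HasNormalPComplement p (normalizer (E : Set G)) := by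
  have h1 : normalizer (E : Set G) ≤ normalizer ((E ⊓ D : Subgroup G) : Set G) := le_normalizer_iff.2 fun g hg u hu =>
    ⟨(hg u).1 hu.1, hD.2 u hu.2 g (hE ((hg u).1 hu.1))⟩
  by_cases h2 : D ⊓ centralizer ((E ⊓ D : Subgroup G) : Set G) ≤ E
  · exact HasNormalPComplement.of_le (h _ inf_le_right (le_inf h2 inf_le_left)) h1
  have h3 : ∀ s ∈ (S : Subgroup G), ∀ d ∈ D, s * d * s⁻¹ ∈ D := fun s hs d hd =>
    hD.2 d hd s (mul_mem (mul_mem hs (hD.1 hd)) (inv_mem hs))
  obtain ⟨x, ⟨hx, hx'⟩, hxE⟩ := SetLike.exists_of_lt (lt_inf_normalizer_pGroup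
    (S.2.to_le (sup_le (inf_le_left.trans hD.1) hE)) (right_lt_sup.2 h2))
  obtain ⟨c, hc, e, he, rfl⟩ := (coe_mul_of_right_le_normalizer_left (D ⊓ centralizer ((E ⊓ D : Subgroup G) : Set G)) E (le_normalizer_iff.2 fun e he c hc =>
    ⟨h3 e (hE he) c hc.1, fun u hu => by
      have := hc.2 _ ((mem_normalizer_iff''.1 (h1 (le_normalizer he)) u).1 hu)
      calc u * (e * c * e⁻¹) = e * (e⁻¹ * u * e * c) * e⁻¹ := by group
        _ = _ := by rw [this]; group⟩)).le hx
  have h4 : c ∈ normalizer (E : Set G) := (mul_mem_cancel_right (le_normalizer he)).1 hx'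
  have := (normal_subgroupOf_iff_le_normalizer (inf_le_left.trans le_normalizer)).2 h1
  refine key (E := E.subgroupOf _) (U := (E ⊓ D).subgroupOf _) (c := ⟨c, h4⟩) (S.2.to_le hE).comap_subtype
    (comap_mono inf_le_left) (fun Q hQ hlt => ?_) ?_ (fun e' => hxE (mul_mem e' he))
    (fun u hu => Subtype.ext (hc.2 u hu)) fun y hy => ⟨E.mul_mem ((h4 y).1 hy) (E.inv_mem hy), ?_⟩
  · exact HasNormalPComplement.of_equiv (HasNormalPComplement.of_le (ih _ (hQ.map _) (by
      simpa [map_subgroupOf_eq_of_le le_normalizer] using map_subtype_lt_map_subtype.2 hlt)) (le_normalizer_map _))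
      (equivMapOfInjective _ _ (subtype_injective _)).symm
  · exact (S.2.comap_subtype).to_le (zpowers_le.2 (hD.1 hc.1))
  · simpa [mul_assoc] using mul_mem hc.1 (h3 y (hE hy) _ (inv_mem hc.1))

/-- A Frobenius normal p-complement criterion relative to a strongly closed subgroup. Let G be a finite group, S a Sylow p-subgroup and D a subgroup of S strongly closed in S with respect to G. Then G has a normal p-complement if and only if N_G(U) has a normal p-complement for every subgroup U of D with C_D(U) ≤ U. -/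
theorem result {G : Type*} [Group G] [Finite G] {p : ℕ} [Fact p.Prime] (S : Sylow p G) (D : Subgroup G) (hD : Cfsg.IsStronglyClosed D (S : Subgroup G)) : Cfsg.HasNormalPComplement p G ↔ ∀ U : Subgroup G, U ≤ D → D ⊓ Subgroup.centralizer (U : Set G) ≤ U → Cfsg.HasNormalPComplement p ↥(Subgroup.normalizer (U : Set G)) := by
  refine ⟨fun h U _ _ => CL.Grp.HasNormalPComplement.subgroup h _, fun h => ?_⟩
  have main : ∀ n, ∀ E : Subgroup G, E.index = n → IsPGroup p E → HasNormalPComplement p (normalizer (E : Set G)) := by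
    intro n
    induction n using Nat.strong_induction_on with
    | _ n ih =>
      rintro E rfl hE
      obtain ⟨g, hg⟩ := exists_conj_le_sylow S hE
      have h1 := step S hD h hg fun Q hQ hlt => ih _ ((index_strictAnti hlt).trans_eq
        (index_map_of_bijective (MulAut.conj g).bijective E)) Q rfl hQ
      exact HasNormalPComplement.of_equiv (HasNormalPComplement.of_le h1 (le_normalizer_map _))
        (equivMapOfInjective _ _ (MulAut.conj g).injective).symm
  exact hasNormalPComplement_iff_local.2 fun Q hQ _ => main _ Q rfl hQ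

end Cfsg.Agent.S3839
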