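import Cfsg.Statements.S3857
import Cfsg.Agent.Fgs.TwoFrob

set_option autoImplicit false
open Cfsg

namespace Cfsg.Agent.S3857

open scoped Pointwise
open CL.Grp CL.Odd CL.Fgs CL.Perm

/-- A finite solvable group whose prime graph (prime divisors of the order, two distinct primes joined when there is an element of order their product) is disconnected is a Frobenius group or a 2-Frobenius group (it has normal subgroups H < K with K a Frobenius group with kernel H and G/H a Frobenius group with kernel K/H). -/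
theorem result {G : Type*} [Group G] [Finite G] (hsol : Group.IsSolvable G)
    (hdisc : (∃ A : Set ℕ, (∃ a ∈ A, a.Prime ∧ a ∣ Nat.card G) ∧ (∃ b ∉ A, b.Prime ∧ b ∣ Nat.card G) ∧
      ∀ a ∈ A, ∀ b ∉ A, a.Prime → b.Prime → a ∣ Nat.card G → b ∣ Nat.card G → ¬ ∃ g : G, orderOf g = a * b)) :
    (∃ C : Subgroup G, Cfsg.IsFrobeniusComplement C) ∨
    (∃ (H K : Subgroup G) (_ : H.Normal), K.Normal ∧ H < K ∧
      (∃ C : Subgroup ↥K, Cfsg.IsFrobeniusComplement C ∧ Cfsg.frobeniusKernel C = (H.subgroupOf K : Set ↥K)) ∧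
      (∃ C : Subgroup (G ⧸ H), Cfsg.IsFrobeniusComplement C ∧ Cfsg.frobeniusKernel C = (K.map (QuotientGroup.mk' H) : Set (G ⧸ H)))) := by
  obtain ⟨A, ⟨a, haA, ha, haG⟩, ⟨b, hbA, hb, hbG⟩, hA⟩ := hdisc
  have hsep : PiSep A G := fun a b ha hb h1 h2 h3 =>
    hA a h1 b h2 ha hb ((dvd_mul_right a b).trans (dvd_card_of_mem_spec h3))
      ((dvd_mul_left b a).trans (dvd_card_of_mem_spec h3)) h3
  have hne : ∀ (π : Set ℕ) (c : ℕ), c.Prime → c ∣ Nat.card G → c ∉ π → piCore π G ≠ ⊤ := fun π c hc h1 h2 e =>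
    h2 (piCore_isPiSubgroup π G c hc (by rwa [e, Subgroup.card_top]))
  obtain ⟨π, h0, h1, h2⟩ : ∃ π : Set ℕ, PiSep π G ∧ piCore π G ≠ ⊥ ∧ piCore π G ≠ ⊤ := by
    by_cases h : piCore A G = ⊥
    · refine ⟨Aᶜ, hsep.compl, fun e => ?_, hne _ a ha haG (not_not.2 haA)⟩
      have h3 := fittingSubgroup_le_piCore_sup_piCore (G := G) A
      rw [e, h, bot_sup_eq, le_bot_iff] at h3
      have h4 := centralizer_fittingSubgroup_le G
      rw [h3, cent_bot, le_bot_iff] at h4
      rw [← Subgroup.card_top, h4, Subgroup.card_bot] at haG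
      exact ha.one_lt.ne' (Nat.dvd_one.1 haG)
    · exact ⟨A, hsep, h, hne _ b hb hbG hbA⟩
  rcases h0.frob_or_two_frob hsol h1 h2 with ⟨B, hB⟩ | ⟨K, B, hKn, hB, C, hC⟩
  · exact Or.inl ⟨B, frob_top_isFrobeniusComplement hB⟩
  · exact Or.inr ⟨_, K, inferInstance, hKn, hB.ker_lt,
      ⟨_, frob_top_isFrobeniusComplement hB.top, frob_top_kernel hB.top⟩,
      ⟨C, frob_top_isFrobeniusComplement hC, frob_top_kernel hC⟩⟩

end Cfsg.Agent.S3857
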