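import Cfsg.Statements.S3859
import Cfsg.Agent.Grp.SylowIn

set_option autoImplicit false
open Cfsg
open scoped Pointwise

namespace Cfsg.Agent.S3859

theorem not_isPGroup {G : Type*} [Group G] [Finite G] (hT : IsSimpleGroup G) (hna : ¬ IsMulCommutative G)
    {r : ℕ} [Fact r.Prime] : ¬ IsPGroup r G := by
  intro h
  haveI := h.isNilpotent
  exact hna ⟨⟨IsSimpleGroup.comm_iff_isSolvable.2 inferInstance⟩⟩

theorem normalizer_ne_top {G : Type*} [Group G] [Finite G] (T : Subgroup G) (hT : IsSimpleGroup T)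
    (hna : ¬ IsMulCommutative T) {r : ℕ} [Fact r.Prime] {R : Subgroup G} (hR : IsPGroup r R)
    (hR0 : R ⊓ T ≠ ⊥) : Subgroup.normalizer (R : Set G) ≠ ⊤ := by
  intro h
  haveI := Subgroup.normalizer_eq_top_iff.1 h
  rcases (inferInstance : (R.subgroupOf T).Normal).eq_bot_or_eq_top with h1 | h1
  · exact hR0 (disjoint_iff.1 (Subgroup.subgroupOf_eq_bot.1 h1))
  · exact not_isPGroup hT hna (hR.to_le (Subgroup.subgroupOf_eq_top.1 h1))

/-- Let G be a finite group with a normal non-abelian simple subgroup T whose centralizer is trivial (G almost simple with socle T), r a prime and R a Sylow r-subgroup of G meeting T nontrivially. If R lies in exactly one maximal subgroup of G, then G/T is an r-group. -/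
theorem result {G : Type*} [Group G] [Finite G] (T : Subgroup G) [T.Normal] (hT : IsSimpleGroup T) (hna : ¬ IsMulCommutative T)
    (hC : Subgroup.centralizer (T : Set G) = ⊥) {r : ℕ} [Fact r.Prime] (R : Sylow r G) (hR0 : (R : Subgroup G) ⊓ T ≠ ⊥)
    (huniq : ∃! M : Subgroup G, IsCoatom M ∧ (R : Subgroup G) ≤ M) : IsPGroup r (G ⧸ T) := by
  obtain ⟨M, ⟨hM, -⟩, huniq⟩ := huniq
  have hle : ∀ K : Subgroup G, (R : Subgroup G) ≤ K → K ≠ ⊤ → K ≤ M := by
    intro K hRK hK
    obtain ⟨N, hN, hKN⟩ := (eq_top_or_exists_le_coatom _).resolve_left hK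
    exact huniq N ⟨hN, hRK.trans hKN⟩ ▸ hKN
  have htop : (R : Subgroup G) ⊔ T = ⊤ := by
    by_contra hne
    have h1 : T ≤ M := le_sup_right.trans (hle _ le_sup_left hne)
    have h2 : Subgroup.normalizer (((R : Subgroup G) ⊓ T : Subgroup G) : Set G) ≤ M := by
      apply hle
      · intro g hg
        rw [← CL.Grp.conj_smul_eq_self_iff, Subgroup.smul_inf,
          (CL.Grp.conj_smul_eq_self_iff g _).2 (Subgroup.le_normalizer hg),
          (CL.Grp.conj_smul_eq_self_iff g T).2 (by rw [Subgroup.normalizer_eq_top]; trivial)]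
      · exact normalizer_ne_top T hT hna (R.2.to_inf_left) (by rwa [inf_assoc, inf_idem])
    apply hM.1
    rw [eq_top_iff]
    intro g _
    obtain ⟨n, hn, hng⟩ := (CL.Grp.isSylowIn_inf_normal R T).frattini (H := ⊤)
      (by rw [Subgroup.normalizer_eq_top]) (Subgroup.mem_top g)
    simpa using M.mul_mem (M.inv_mem (h1 hn)) (h2 hng)
  have h1 : (R : Subgroup G).map (QuotientGroup.mk' T) = ⊤ := by
    apply Subgroup.comap_injective (QuotientGroup.mk'_surjective T)
    rw [Subgroup.comap_map_eq, QuotientGroup.ker_mk', htop, Subgroup.comap_top]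
  have h2 : IsPGroup r ((R : Subgroup G).map (QuotientGroup.mk' T)) := R.2.map _
  rw [h1] at h2
  exact h2.of_equiv Subgroup.topEquiv

end Cfsg.Agent.S3859
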