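import Cfsg.Statements.S3858
import Cfsg.Agent.Fgs.SylTI
import Cfsg.Agent.S3859

set_option autoImplicit false
open Cfsg
open scoped Pointwise

namespace Cfsg.Agent.S3858

/-- Let G be a finite group with a normal non-abelian simple subgroup T whose centralizer is trivial (G almost simple with socle T), r a prime and R a Sylow r-subgroup of G meeting T nontrivially. Then R lies in exactly one maximal subgroup of G if and only if G has exactly one conjugacy class of maximal subgroups whose index is prime to r. -/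
theorem result {G : Type*} [Group G] [Finite G] (T : Subgroup G) [T.Normal] (hT : IsSimpleGroup T) (hna : ¬ IsMulCommutative T)
    (hC : Subgroup.centralizer (T : Set G) = ⊥) {r : ℕ} [Fact r.Prime] (R : Sylow r G) (hR0 : (R : Subgroup G) ⊓ T ≠ ⊥) :
    (∃! M : Subgroup G, IsCoatom M ∧ (R : Subgroup G) ≤ M) ↔
      ((∃ M : Subgroup G, IsCoatom M ∧ ¬ r ∣ M.index) ∧
        ∀ M₁ M₂ : Subgroup G, IsCoatom M₁ → ¬ r ∣ M₁.index → IsCoatom M₂ → ¬ r ∣ M₂.index → ∃ g : G, M₂ = M₁.map (MulAut.conj g).toMonoidHom) := by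
  simp only [← CL.Grp.conj_smul_eq_map]
  have hco : ∀ (M : Subgroup G) (g : G), IsCoatom M → IsCoatom (MulAut.conj g • M) := fun M g hM =>
    ((MulAut.conj g).mapSubgroup.isCoatom_iff M).2 hM
  have h1 : ∀ M : Subgroup G, (R : Subgroup G) ≤ M → ¬ r ∣ M.index := fun M hM h =>
    R.not_dvd_index (h.trans (Subgroup.index_dvd_of_le hM))
  have h2 : ∀ M : Subgroup G, ¬ r ∣ M.index → ∃ g : G, (R : Subgroup G) ≤ MulAut.conj g • M := by
    intro M hM
    obtain ⟨S, hS⟩ := CL.Grp.exists_isSylowIn r M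
    have hS' : CL.Grp.IsSylowIn r S ⊤ := by
      refine ⟨le_top, hS.isPGroup, ?_⟩
      rw [Subgroup.relIndex_top_right, ← Subgroup.relIndex_mul_index hS.le]
      intro h
      rcases (Nat.Prime.dvd_mul Fact.out).1 h with h | h
      · exact hS.not_dvd h
      · exact hM h
    obtain ⟨g, -, hg⟩ := hS'.exists_conj_eq (CL.Grp.isSylowIn_top R)
    exact ⟨g, hg ▸ Subgroup.pointwise_smul_le_pointwise_smul_iff.2 hS.le⟩
  constructor
  · rintro ⟨M, ⟨hM, hRM⟩, huniq⟩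
    refine ⟨⟨M, hM, h1 M hRM⟩, fun M₁ M₂ hM₁ hr₁ hM₂ hr₂ => ?_⟩
    obtain ⟨a, ha⟩ := h2 M₁ hr₁
    obtain ⟨b, hb⟩ := h2 M₂ hr₂
    refine ⟨b⁻¹ * a, ?_⟩
    rw [← CL.Grp.conj_smul_conj_smul, huniq _ ⟨hco _ a hM₁, ha⟩, ← huniq _ ⟨hco _ b hM₂, hb⟩,
      CL.Grp.conj_smul_conj_smul]
    simp
  · rintro ⟨-, hconj⟩
    obtain ⟨M, hM, hNM⟩ := (eq_top_or_exists_le_coatom _).resolve_left
      (Cfsg.Agent.S3859.normalizer_ne_top T hT hna R.2 hR0)
    have hRM : (R : Subgroup G) ≤ M := Subgroup.le_normalizer.trans hNM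
    refine ⟨M, ⟨hM, hRM⟩, ?_⟩
    rintro M' ⟨hM', hRM'⟩
    obtain ⟨g, rfl⟩ := hconj M M' hM (h1 M hRM) hM' (h1 M' hRM')
    have h3 : ((g⁻¹ • R : Sylow r G) : Subgroup G) ≤ M := by
      rw [CL.Fgs.coe_sylow_smul, map_inv, ← Subgroup.subset_pointwise_smul_iff]
      exact hRM'
    obtain ⟨m, hm, hmR⟩ := (CL.Grp.isSylowIn_of_le R hRM).exists_conj_eq (CL.Grp.isSylowIn_of_le _ h3)
    have h4 : g * m ∈ M := by
      apply hNM
      rw [← CL.Grp.conj_smul_eq_self_iff, ← CL.Grp.conj_smul_conj_smul, hmR, CL.Fgs.coe_sylow_smul,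
        CL.Grp.conj_smul_conj_smul]
      simp
    exact CL.Grp.conj_smul_eq_of_mem (by simpa using M.mul_mem h4 (M.inv_mem hm))

end Cfsg.Agent.S3858
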