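import Cfsg.Statements.S3864
import Cfsg.Agent.Inv.DihFusion
import Cfsg.Agent.Grp.PNilp

set_option autoImplicit false
open Cfsg

namespace Cfsg.Agent.S3864

section Helpers
open Subgroup CL.Grp CL.Inv

variable {G : Type*} [Group G] [Finite G] {S : Sylow 2 G} {m : ℕ} (D : MC (S : Subgroup G) m 0 0)

theorem card_classes : Nat.card {C : ConjClasses G // ∃ g : G, ConjClasses.mk g = C ∧ orderOf g = 2} =
    ({ConjClasses.mk (D.a (2 * zq m)), ConjClasses.mk (D.b 0), ConjClasses.mk (D.b 1)} :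
      Set (ConjClasses G)).ncard := by
  rw [← Nat.card_coe_set_eq]
  refine Nat.card_congr (Equiv.subtypeEquivRight fun C => ⟨?_, ?_⟩)
  · rintro ⟨g, rfl, hg⟩
    obtain ⟨x, hx⟩ := exists_conj_le_sylow S (U := zpowers g) (IsPGroup.of_card (n := 1) (by simp [hg]))
    have h1 := hx (conj_mem_conj_smul x (mem_zpowers g))
    have h2 : IsConj g (x * g * x⁻¹) := isConj_iff.2 ⟨x, rfl⟩
    simp only [Set.mem_insert_iff, Set.mem_singleton_iff, ConjClasses.mk_eq_mk_iff_isConj]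
    exact (D.dih_involution_conj h1 (by rw [← hg]; exact (MulAut.conj x).orderOf_eq g)).imp h2.trans
      (Or.imp h2.trans h2.trans)
  · rintro (rfl | rfl | rfl)
    exacts [⟨_, rfl, D.orderOf_z⟩, ⟨_, rfl, D.dih_orderOf_b 0⟩, ⟨_, rfl, D.dih_orderOf_b 1⟩]

omit [Finite G] in
theorem isConj_z {i : ZMod (2 ^ m)} (h : HasCoprimeAut 2 (D.sub (2 * zq m) i)) :
    ConjClasses.mk (D.a (2 * zq m)) = ConjClasses.mk (D.b i) :=
  ConjClasses.mk_eq_mk_iff_isConj.2 (kleinFour_isConj_of_hasCoprimeAut (D.dih_isKleinFour i) h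
    (D.a_mem_sub_self _ _) (D.b_mem_sub_self _ _) (fun e => D.h2 (D.a_eq_one_iff.1 e)) (D.b_ne_one i))

theorem case_two {i j : ZMod (2 ^ m)} (h : HasCoprimeAut 2 (D.sub (2 * zq m) i))
    (hle : (S : Subgroup G) ⊓ pResidual 2 G ≤ D.sub 2 i) (hj : ∀ r, j ≠ i + 2 * r) :
    ConjClasses.mk (D.b i) ≠ ConjClasses.mk (D.b j) ∧
      (∃ N : Subgroup G, N.Normal ∧ N.index = 2) ∧ ∀ N : Subgroup G, N.Normal → N.index ≠ 4 := by
  have hn := CL.Transfer.pResidual_normal (G := G) 2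
  have h1 : D.b i ∈ pResidual 2 G :=
    kleinFour_le_pResidual (D.dih_isKleinFour i) h (D.b_mem_sub_self _ _)
  have h2 : (S : Subgroup G) ⊓ pResidual 2 G = D.sub 2 i := le_antisymm hle
    (le_inf (D.sub_le _ _) (D.sub_two_le_of_conj (fun s _ g hg => hn.conj_mem g hg s) h1))
  have h3 : (pResidual 2 G).index = 2 := by rw [index_pResidual_eq S, h2, D.relIndex_sub_two]
  refine ⟨fun e => ?_, ⟨_, hn, h3⟩, fun N _ hN => ?_⟩
  · obtain ⟨g, hg⟩ := isConj_iff.1 (ConjClasses.mk_eq_mk_iff_isConj.1 e)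
    obtain ⟨r, hr⟩ := (D.b_mem_sub ⟨_, rfl⟩ i j).1 (hle ⟨D.b_mem j, hg ▸ hn.conj_mem _ h1 g⟩)
    exact hj r hr
  · have := index_dvd_of_le (pResidual_le_of_index_eq_pow (p := 2) (k := 2) hN)
    rw [hN, h3] at this
    exact absurd this (by decide)

end Helpers

/-- Let G be a finite group whose Sylow 2-subgroups are dihedral of order 2 ^ n with n ≥ 3, and count the conjugacy classes of involutions of G. Then exactly one of the following holds: there is one class of involutions and no normal subgroup of index 2; there are two classes of involutions, a normal subgroup of index 2 and none of index 4; there are three classes of involutions and G has a normal 2-complement. -/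
theorem result {G : Type*} [Group G] [Finite G] (P : Sylow 2 G) (n : ℕ) (hn : 3 ≤ n) (hdih : Nonempty (↥(P : Subgroup G) ≃* DihedralGroup (2 ^ (n - 1)))) : (Nat.card {C : ConjClasses G // ∃ g : G, ConjClasses.mk g = C ∧ orderOf g = 2} = 1 ∧ ∀ N : Subgroup G, N.Normal → N.index ≠ 2) ∨ (Nat.card {C : ConjClasses G // ∃ g : G, ConjClasses.mk g = C ∧ orderOf g = 2} = 2 ∧ (∃ N : Subgroup G, N.Normal ∧ N.index = 2) ∧ ∀ N : Subgroup G, N.Normal → N.index ≠ 4) ∨ (Nat.card {C : ConjClasses G // ∃ g : G, ConjClasses.mk g = C ∧ orderOf g = 2} = 3 ∧ Cfsg.HasNormalPComplement 2 G) := by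
  obtain ⟨e⟩ := hdih
  obtain ⟨D⟩ := CL.Inv.nonempty_MC_of_dihedral (by omega) e
  have h1 : 1 ≤ n - 1 := by omega
  have o1 : ∀ r : ZMod (2 ^ (n - 1)), 1 ≠ 0 + 2 * r := fun r h =>
    CL.Inv.zm_even_ne_odd h1 r 0 (by linear_combination -h)
  have o2 : ∀ r : ZMod (2 ^ (n - 1)), 0 ≠ 1 + 2 * r := fun r h =>
    CL.Inv.zm_even_ne_odd h1 0 r (by linear_combination h)
  rw [card_classes D]
  by_cases h0 : CL.Inv.HasCoprimeAut 2 (D.sub (2 * CL.Inv.zq (n - 1)) 0) <;>
    by_cases h1 : CL.Inv.HasCoprimeAut 2 (D.sub (2 * CL.Inv.zq (n - 1)) 1)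
  · left
    refine ⟨by rw [← isConj_z D h0, ← isConj_z D h1]; simp, fun N _ =>
      CL.Inv.index_ne_two_of_pResidual_eq_top (CL.Inv.pResidual_eq_top_of_sylow_le P ?_) N⟩
    have a0 := CL.Inv.kleinFour_le_pResidual (D.dih_isKleinFour 0) h0 (D.b_mem_sub_self _ _)
    have a1 := CL.Inv.kleinFour_le_pResidual (D.dih_isKleinFour 1) h1 (D.b_mem_sub_self _ _)
    have a2 := mul_mem a1 (inv_mem a0)
    rw [D.b_mul_b_inv, sub_zero] at a2
    rw [← D.sub_one 0]
    exact D.sub_le_iff.2 ⟨a2, a0⟩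
  · obtain ⟨a, b⟩ := case_two D h0 (D.dih_inf_le_of_not_one h1) o1
    refine Or.inr (Or.inl ⟨?_, b⟩)
    rw [isConj_z D h0, Set.insert_eq_of_mem (by simp), Set.ncard_pair a]
  · obtain ⟨a, b⟩ := case_two D h1 (D.dih_inf_le_of_not_zero h0) o2
    refine Or.inr (Or.inl ⟨?_, b⟩)
    rw [isConj_z D h1, Set.insert_eq_of_mem (by simp), Set.ncard_pair a.symm]
  · have hno : ∀ X : Subgroup G, X ≤ P → Subgroup.centralizer (X : Set G) ⊓ P ≤ X →
        ¬ CL.Inv.HasCoprimeAut 2 X := fun X hX _ h =>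
      (D.dih_coprimeAut_cases hX h).elim (fun h => h0 h.1) fun h => h1 h.1
    have hf : ∀ x ∈ (P : Subgroup G), ∀ y ∈ (P : Subgroup G), ConjClasses.mk x = ConjClasses.mk y →
        ∃ s ∈ (P : Subgroup G), s * x * s⁻¹ = y := fun x hx y hy e => by
      obtain ⟨g, rfl⟩ := isConj_iff.1 (ConjClasses.mk_eq_mk_iff_isConj.1 e)
      exact CL.Inv.controls_fusion_of_no_coprimeAut P hno hx hy
    have hz : ∀ i, ConjClasses.mk (D.a (2 * CL.Inv.zq (n - 1))) ≠ ConjClasses.mk (D.b i) :=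
      fun i e => by
        obtain ⟨s, hs, h⟩ := hf _ (D.a_mem _) _ (D.b_mem _) e
        exact D.a_ne_b _ _ ((D.z_comm hs).symm.trans h)
    refine Or.inr (Or.inr ⟨Set.ncard_eq_three.2 ⟨_, _, _, hz 0, hz 1, fun e => ?_, rfl⟩,
      CL.Inv.hasNormalPComplement_of_no_coprimeAut P hno⟩)
    obtain ⟨s, hs, h⟩ := hf _ (D.b_mem _) _ (D.b_mem _) e
    have := D.inv_mul_conj_mem hs (D.b_mem 0)
    rw [h, D.b_inv, D.b_mul_b, D.a_mem_zpowers_a] at this
    obtain ⟨r, hr⟩ := this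
    exact o2 r (by linear_combination hr)

end Cfsg.Agent.S3864
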