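import Cfsg.Statements.S3865
import Cfsg.Agent.Fgs.MaxClSyl

set_option autoImplicit false
open Cfsg

namespace Cfsg.Agent.S3865

/-- Let G be a finite group whose Sylow p-subgroup P has order p ^ n with n ≥ 2 and nilpotency class n - 1 (maximal class), whose largest normal subgroup of order prime to p is trivial, and which has no proper normal subgroup of index prime to p. Then either some x ∈ P has a centralizer in G whose order has p-part p ^ 2, or G is quasisimple with centre of order at most p. -/
theorem result {G : Type*} [Group G] [Finite G] (p : ℕ) [Fact p.Prime] (P : Sylow p G) (n : ℕ) (hP : Nat.card P = p ^ n) (hn : 2 ≤ n) (hmax : Group.nilpotencyClass ↥(P : Subgroup G) = n - 1) (hcore : Cfsg.pPrimeCore p G = ⊥) (hres : ∀ N : Subgroup G, N.Normal → (N.index).Coprime p → N = ⊤) : (∃ x ∈ (P : Subgroup G), (Nat.card (Subgroup.centralizer ({x} : Set G))).factorization p = 2) ∨ (Cfsg.IsQuasisimple G ∧ Nat.card (Subgroup.center G) ≤ p) := by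
  classical
  have hp : p.Prime := Fact.out
  rcases hn.eq_or_lt with rfl | hn
  · refine .inl ⟨1, one_mem _, ?_⟩
    rw [show Subgroup.centralizer ({1} : Set G) = ⊤ from eq_top_iff.2 fun g _ =>
      Subgroup.mem_centralizer_singleton_iff.2 (by simp), Subgroup.card_top]
    exact Nat.pow_right_injective hp.two_le (P.card_eq_multiplicity.symm.trans hP)
  have h : CL.Fgs.MaxCl p n P := ⟨hP, hn, hmax⟩
  refine or_iff_not_imp_left.2 fun c => ?_
  have hN := fun (N : Subgroup G) [N.Normal] h1 => (CL.Fgs.MCS.cases h hres hcore (N := N) h1).resolve_left c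
  have hZ : Subgroup.center G ≠ ⊤ := fun e => by
    have : Subgroup.center P = ⊤ := eq_top_iff.2 fun x _ => Subgroup.mem_center_iff.2 fun y =>
      Subtype.ext (Subgroup.mem_center_iff.1 (e.ge (Subgroup.mem_top x.1)) y)
    have t := h.card_center
    rw [this, Subgroup.card_top, hP] at t
    exact (Nat.pow_right_injective hp.two_le (t.trans (pow_one p).symm)).not_gt (by omega)
  refine ⟨⟨Group.isPerfect_def.2 (by_contra fun e => c (CL.Fgs.MCS.caseB h hres e ?_)), ?_⟩, (hN _ hZ).2⟩
  · exact Subgroup.commutator_le.2 fun a _ b _ => Subgroup.mem_subgroupOf.2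
      (Subgroup.commutator_mem_commutator (Subgroup.mem_top a.1) (Subgroup.mem_top b.1))
  · have : Nontrivial (G ⧸ Subgroup.center G) := QuotientGroup.nontrivial_iff.2 hZ
    refine ⟨fun K hK => or_iff_not_imp_right.2 fun e => ?_⟩
    have := (hN (K.comap (QuotientGroup.mk' _)) fun t => e (Subgroup.comap_injective (QuotientGroup.mk'_surjective _)
      (t.trans (Subgroup.comap_top _).symm))).1
    refine eq_bot_iff.2 fun k hk => ?_
    obtain ⟨g, rfl⟩ := QuotientGroup.mk'_surjective _ k
    exact (QuotientGroup.eq_one_iff g).2 (this hk)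

end Cfsg.Agent.S3865
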