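import Cfsg.Statements.S3867
import Cfsg.Agent.Fgs.SylNum

set_option autoImplicit false
open Cfsg
open scoped Pointwise

namespace Cfsg.Agent.S3867

/-- Let M and N be nontrivial normal subgroups of the finite group G with M ⊓ N trivial, and let p be a prime. Writing n(X) for the number of Sylow p-subgroups of a group X, one has n(G) · n(G/MN) = n(G/M) · n(G/N). -/
theorem result {G : Type*} [Group G] [Finite G] (p : ℕ) [Fact p.Prime] (M N : Subgroup G) [M.Normal] [N.Normal] (hM : M ≠ ⊥) (hN : N ≠ ⊥) (hMN : M ⊓ N = ⊥) : Nat.card (Sylow p G) * Nat.card (Sylow p (G ⧸ (M ⊔ N))) = Nat.card (Sylow p (G ⧸ M)) * Nat.card (Sylow p (G ⧸ N)) := by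
  obtain ⟨P⟩ : Nonempty (Sylow p G) := inferInstance
  rw [CL.Fgs.card_sylow_quotient M P, CL.Fgs.card_sylow_quotient N P,
    CL.Fgs.card_sylow_quotient (M ⊔ N) P, Sylow.card_eq_index_normalizer P, ← Sylow.coe_coe]
  set L := Subgroup.normalizer ((P : Subgroup G) : Set G) with hL
  have hK : IsPGroup p (((P : Subgroup G) ⊔ M) ⊓ ((P : Subgroup G) ⊔ N) : Subgroup G) := by
    rintro ⟨x, hx1, hx2⟩
    have key : ∀ (K : Subgroup G) [K.Normal], x ∈ (P : Subgroup G) ⊔ K → ∃ k, x ^ p ^ k ∈ K := by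
      intro K _ hx
      have h1 : IsPGroup p ((P : Subgroup G).map (QuotientGroup.mk' K)) := P.2.map _
      have h2 : (QuotientGroup.mk' K x) ∈ (P : Subgroup G).map (QuotientGroup.mk' K) := by
        rw [← Subgroup.mem_comap, Subgroup.comap_map_eq, QuotientGroup.ker_mk']
        exact hx
      obtain ⟨k, hk⟩ := h1 ⟨_, h2⟩
      refine ⟨k, ?_⟩
      have h3 := congrArg Subtype.val hk
      simp only [SubgroupClass.coe_pow, OneMemClass.coe_one] at h3
      rwa [← map_pow, QuotientGroup.mk'_apply, QuotientGroup.eq_one_iff] at h3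
    obtain ⟨a, ha⟩ := key M hx1
    obtain ⟨b, hb⟩ := key N hx2
    refine ⟨a + b, Subtype.ext ?_⟩
    have : x ^ p ^ (a + b) ∈ M ⊓ N := by
      constructor
      · rw [pow_add, pow_mul]; exact M.pow_mem ha _
      · rw [add_comm, pow_add, pow_mul]; exact N.pow_mem hb _
    rw [hMN] at this
    simpa using this
  have hKP : ((P : Subgroup G) ⊔ M) ⊓ ((P : Subgroup G) ⊔ N) = P :=
    P.3 hK (le_inf le_sup_left le_sup_left)
  have hinf : (L ⊔ M) ⊓ N = L ⊓ N := by
    apply le_antisymm _ (inf_le_inf_right N le_sup_left)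
    rintro x ⟨hx1, hx2⟩
    refine ⟨?_, hx2⟩
    have e1 : x ∈ Subgroup.normalizer (((P : Subgroup G) ⊔ M : Subgroup G) : Set G) := by
      rw [CL.Fgs.normalizer_sup_eq_of_isSylowIn (CL.Grp.isSylowIn_of_le P le_sup_left)]
      exact hx1
    have e2 : x ∈ Subgroup.normalizer (((P : Subgroup G) ⊔ N : Subgroup G) : Set G) :=
      Subgroup.le_normalizer (Subgroup.mem_sup_right hx2)
    rw [← CL.Grp.conj_smul_eq_self_iff] at e1 e2
    apply (CL.Grp.conj_smul_eq_self_iff x _).1
    rw [← hKP, Subgroup.smul_inf, e1, e2]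
  have h1 : L.relIndex N = (L ⊔ M).relIndex N := by
    rw [← Subgroup.inf_relIndex_right, ← hinf, Subgroup.inf_relIndex_right]
  rw [← Subgroup.relIndex_mul_index (le_sup_left : L ≤ L ⊔ N),
    ← Subgroup.relIndex_mul_index (le_sup_left : L ⊔ M ≤ (L ⊔ M) ⊔ N),
    CL.Fgs.relIndex_sup_normal, CL.Fgs.relIndex_sup_normal, h1, sup_assoc]
  ring

end Cfsg.Agent.S3867
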