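import Cfsg.Statements.S3878
import Cfsg.Agent.Fgs.TIBase
import Cfsg.Agent.Grp.HallWielandt

set_option autoImplicit false
open Cfsg

namespace Cfsg.Agent.S3878

open scoped Pointwise
open CL.Grp CL.Odd CL.Fgs Equiv Equiv.Perm MulAction

theorem exists_cycle_mem {π : Set ℕ} {n p : ℕ} {H : Subgroup (Perm (Fin n))} (hH : IsPiHall π H) (hp : p.Prime)
    (hπ : p ∈ π) (hpn : p ≤ n) : ∃ σ ∈ H, σ.IsCycle ∧ σ.support.card = p := by
  have h2 := hp.two_le
  have : NeZero n := ⟨by omega⟩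
  have h0 : (⟨p - 1, by omega⟩ : Fin n) ≠ 0 := fun e => by
    have := congrArg Fin.val e
    simp at this
    omega
  have hc := Fin.isCycle_cycleRange h0
  have hs : (Fin.cycleRange (⟨p - 1, by omega⟩ : Fin n)).support.card = p := by
    rw [← sum_cycleType, Fin.cycleType_cycleRange h0]
    simp
    omega
  obtain ⟨g, -, hg⟩ := hall_exists_mem_cj (Hall.top_iff.2 hH) hp hπ trivial (hc.orderOf.trans hs)
  refine ⟨_, mem_cj.1 hg, ?_, ?_⟩
  · simpa using hc.conj (g := g⁻¹)
  · simpa [hs] using card_support_conj (σ := g⁻¹) (τ := Fin.cycleRange (⟨p - 1, by omega⟩ : Fin n))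

theorem isPreprimitive_of_hall {π : Set ℕ} {q : ℕ} {H : Subgroup (Perm (Fin q))} (hH : IsPiHall π H) (hq : q.Prime)
    (hπ : q ∈ π) : IsPreprimitive H (Fin q) := by
  obtain ⟨σ, hσ, hc, hs⟩ := exists_cycle_mem hH hq hπ le_rfl
  have h1 : ∀ x, σ x ≠ x := fun x => by
    rw [← mem_support, Finset.eq_univ_of_card σ.support (by simpa using hs)]
    exact Finset.mem_univ x
  have : IsPretransitive H (Fin q) := ⟨fun x y => by
    obtain ⟨i, hi⟩ := hc.exists_pow_eq (h1 x) (h1 y)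
    exact ⟨⟨σ ^ i, H.pow_mem hσ i⟩, hi⟩⟩
  exact IsPreprimitive.of_prime_card (by simpa using hq)

theorem two_mem_of_hall {π : Set ℕ} {p q : ℕ} {H : Subgroup (Perm (Fin q))} (hH : IsPiHall π H) (hp : p.Prime)
    (hq : q.Prime) (hpq : p < q) (hpπ : p ∈ π) (hπ : q ∈ π) : 2 ∈ π := by
  obtain ⟨σ, hσ, hc, hs⟩ := exists_cycle_mem hH hp hpπ hpq.le
  have h2 := hp.two_le
  have hsc : Set.ncard ((σ.support)ᶜ : Set (Fin q)) = (q - p - 1) + 1 := by
    have := Set.ncard_add_ncard_compl (σ.support : Set (Fin q))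
    rw [Set.ncard_coe_finset, hs, Nat.card_eq_fintype_card, Fintype.card_fin] at this
    omega
  have h3 := (isPreprimitive_of_hall hH hq hπ).is_two_pretransitive hsc
    (by rw [Nat.card_eq_fintype_card, Fintype.card_fin]; omega) (isPretransitive_of_isCycle_mem hc hσ)
  obtain ⟨a, ha, -⟩ := hc
  obtain ⟨g, h4, h5⟩ := is_two_pretransitive_iff.1 h3 ha ha.symm
  refine hH.1 2 Nat.prime_two (even_iff_two_dvd.1 (Nat.not_odd_iff_even.1 fun ho => ?_))
  obtain ⟨k, hk⟩ := ho
  have h6 : ∀ j : ℕ, (g ^ (2 * j)) • a = a := fun j => by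
    induction j with
    | zero => simp
    | succ j ih => rw [mul_add, mul_one, pow_add, mul_smul, pow_two, mul_smul, h5, h4, ih]
  have h7 := pow_card_eq_one' (x := g)
  rw [hk, pow_succ'] at h7
  have := congrArg (· • a) h7
  simp only [mul_smul, h6, one_smul, h5] at this
  exact ha this

theorem not_forall_E {π : Set ℕ} {p q r : ℕ} (hp : p.Prime) (hq : q.Prime) (hr : r.Prime) (hpq : p < q)
    (hpπ : p ∈ π) (hqπ : q ∈ π) (hrπ : r ∉ π) : ¬ ∀ (G : Type) [Group G] [Finite G], IsEPiGroup π G := by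
  intro h
  have h2 : 2 ∈ π := by
    obtain ⟨H, hH⟩ := h (Perm (Fin q))
    exact two_mem_of_hall hH hp hq hpq hpπ hqπ
  have h3 : ∀ s t : ℕ, s.Prime → t.Prime → s ∈ π → t ≤ s → t ∈ π := fun s t hs ht hsπ hts => by
    obtain ⟨H, hH⟩ := h (Perm (Fin s))
    obtain ⟨σ, hσ, -, h4⟩ := exists_cycle_mem hH Nat.prime_two h2 hs.two_le
    have := subgroup_eq_top_of_isPreprimitive_of_isSwap_mem (isPreprimitive_of_hall hH hs hsπ) σ
      (card_support_eq_two.1 h4) hσ
    refine hH.1 t ht ?_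
    rw [this, Subgroup.card_top, Nat.card_perm, Nat.card_eq_fintype_card, Fintype.card_fin]
    exact (Nat.Prime.dvd_factorial ht).2 hts
  classical
  have hex : ∃ r : ℕ, r.Prime ∧ r ∉ π := ⟨r, hr, hrπ⟩
  obtain ⟨hs, hsπ⟩ := Nat.find_spec hex
  have hmin : ∀ t : ℕ, t.Prime → t ∉ π → Nat.find hex ≤ t := fun t ht htπ => Nat.find_min' hex ⟨ht, htπ⟩
  generalize Nat.find hex = s at hs hsπ hmin
  have hqs : q < s := lt_of_not_ge fun hle => hsπ (h3 q s hq hs hqπ hle)
  have hp2 := hp.two_le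
  have hs5 : 5 ≤ s := hs.five_le_of_ne_two_of_ne_three (by omega) (by omega)
  have hns : ¬ (s + 1).Prime := fun h4 => by
    rcases hs.eq_two_or_odd' with h5 | h5
    · omega
    · have := h4.even_iff.1 h5.add_one
      omega
  obtain ⟨H, hH⟩ := h (Perm (Fin (s + 1)))
  have hcard : Nat.card (Perm (Fin (s + 1))) = (s + 1).factorial := by
    rw [Nat.card_perm, Nat.card_eq_fintype_card, Fintype.card_fin]
  have hidx : H.index ∣ (s + 1).factorial := hcard ▸ H.index_dvd_card
  have := Fact.mk hs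
  obtain ⟨k, hk⟩ : ∃ k, H.index = s ^ k := by
    refine ⟨_, Nat.eq_prime_pow_of_unique_prime_dvd H.index_ne_zero_of_finite fun {t} ht hd => ?_⟩
    have h5 := hmin t ht fun htπ => hH.2 t ht htπ hd
    have h6 := (Nat.Prime.dvd_factorial ht).1 (hd.trans hidx)
    rcases Nat.eq_or_lt_of_le h6 with e | e
    · exact absurd (e ▸ ht) hns
    · omega
  have hk1 : k ≤ 1 := by
    by_contra hlt
    have h5 : s * s ∣ (s + 1) * (s * (s - 1).factorial) := by
      rw [Nat.mul_factorial_pred hs.ne_zero, ← Nat.factorial_succ, ← pow_two]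
      exact (pow_dvd_pow s (by omega)).trans (hk ▸ hidx)
    rw [mul_left_comm, Nat.mul_dvd_mul_iff_left hs.pos, hs.dvd_mul, hs.dvd_factorial] at h5
    rcases h5 with h5 | h5
    · exact hs.one_lt.ne' (Nat.dvd_one.1 ((Nat.dvd_add_right dvd_rfl).1 h5))
    · omega
  have hk0 : k ≠ 0 := by
    rintro rfl
    rw [pow_zero, Subgroup.index_eq_one] at hk
    exact hsπ (hH.1 s hs (by rw [hk, Subgroup.card_top, hcard]; exact hs.dvd_factorial.2 (Nat.le_succ s)))
  obtain rfl : k = 1 := by omega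
  rw [pow_one] at hk
  have hcore : H.normalCore ≠ ⊥ := fun e => by
    have h5 : H.normalCore.index ∣ s.factorial := by
      rw [H.normalCore_eq_ker, Subgroup.index_ker]
      refine (Subgroup.card_subgroup_dvd_card _).trans ?_
      rw [Nat.card_perm, ← Subgroup.index_eq_card, hk]
    rw [e, Subgroup.index_bot, hcard] at h5
    exact absurd (Nat.le_of_dvd (Nat.factorial_pos s) h5) (not_le.2 ((Nat.factorial_lt hs.pos).2 (Nat.lt_succ_self s)))
  have h7 := alternatingGroup_le_of_normal (α := Fin (s + 1))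
    (by rw [Nat.card_eq_fintype_card, Fintype.card_fin]; omega) ((Subgroup.nontrivial_iff_ne_bot _).2 hcore)
  have h8 := Subgroup.index_dvd_of_le (h7.trans H.normalCore_le)
  have : Nontrivial (Fin (s + 1)) := Fin.nontrivial_iff_two_le.2 (by omega)
  rw [alternatingGroup.index_eq_two, hk] at h8
  have := Nat.le_of_dvd two_pos h8
  omega

/-- For a set of primes π the following are equivalent: every finite group has a Hall π-subgroup; in every finite group the maximal π-subgroups are pairwise conjugate; π contains at most one prime or contains every prime. -/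
theorem result (π : Set ℕ) :
    ((∀ (G : Type) [Group G] [Finite G], Cfsg.IsEPiGroup π G) ↔
      ((∀ p q : ℕ, p.Prime → q.Prime → p ∈ π → q ∈ π → p = q) ∨ ∀ p : ℕ, p.Prime → p ∈ π)) ∧
    ((∀ (G : Type) [Group G] [Finite G], Cfsg.IsDPiGroup π G) ↔
      ((∀ p q : ℕ, p.Prime → q.Prime → p ∈ π → q ∈ π → p = q) ∨ ∀ p : ℕ, p.Prime → p ∈ π)) := by
  have h1 : (∀ (G : Type) [Group G] [Finite G], Cfsg.IsEPiGroup π G) →
      ((∀ p q : ℕ, p.Prime → q.Prime → p ∈ π → q ∈ π → p = q) ∨ ∀ p : ℕ, p.Prime → p ∈ π) := fun h => by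
    by_contra hcon
    push Not at hcon
    obtain ⟨⟨p, q, hp, hq, hpπ, hqπ, hne⟩, r, hr, hrπ⟩ := hcon
    rcases lt_or_gt_of_ne hne with e | e
    · exact not_forall_E hp hq hr e hpπ hqπ hrπ h
    · exact not_forall_E hq hp hr e hqπ hpπ hrπ h
  have h2 : ((∀ p q : ℕ, p.Prime → q.Prime → p ∈ π → q ∈ π → p = q) ∨ ∀ p : ℕ, p.Prime → p ∈ π) →
      ∀ (G : Type) [Group G] [Finite G], HallD π G := fun h G _ _ => by
    rcases h with h | h
    · by_cases hex : ∃ p : ℕ, p.Prime ∧ p ∈ π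
      · obtain ⟨p, hp, hpπ⟩ := hex
        have := Fact.mk hp
        exact hallD_congr (fun q hq _ => ⟨fun e => (show q = p from e) ▸ hpπ, fun e => h q p hq hp e hpπ⟩)
          (hallD_singleton p)
      · exact hallD_congr (fun q hq _ => ⟨fun e => absurd e (Set.notMem_empty q), fun e => absurd ⟨q, hq, e⟩ hex⟩)
          (hallD_empty G)
    · refine ⟨⊤, ⟨fun p hp _ => h p hp, fun p hp _ hd => hp.one_lt.ne' ?_⟩, fun K _ => ⟨1, by simp⟩⟩
      rwa [Subgroup.index_top, Nat.dvd_one] at hd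
  exact ⟨⟨h1, fun h G _ _ => (h2 h G).imp fun _ => And.left⟩,
    ⟨fun h => h1 fun G _ _ => (hallD_of_isDPiGroup (h G)).imp fun _ => And.left,
      fun h G _ _ => hallD_iff_isDPiGroup.1 (h2 h G)⟩⟩

end Cfsg.Agent.S3878
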