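import Cfsg.Statements.S3881
import Cfsg.Agent.Fgs.Metacyclic

set_option autoImplicit false
open Cfsg

namespace Cfsg.Agent.S3881

/-- Let p be an odd prime and G a finite metacyclic p-group (G has a cyclic normal subgroup with cyclic quotient). Suppose G is non-abelian with |G'| = p^n. Then for 1 ≤ i ≤ n the number of elements of G whose conjugacy class has exactly p^i elements is |Z(G)| · (p^(2i) − p^(2i−2)). -/
theorem result {G : Type*} [Group G] [Finite G] {p : ℕ} [Fact p.Prime] (hp : p ≠ 2) (hG : IsPGroup p G) (hmc : Cfsg.IsMetacyclic G) (n : ℕ) (hn : n ≠ 0) (hGn : Nat.card ↥(commutator G) = p ^ n) (i : ℕ) (hi : 1 ≤ i) (hin : i ≤ n) :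
    Nat.card {g : G // (Subgroup.centralizer ({g} : Set G)).index = p ^ i} =
      Nat.card ↥(Subgroup.center G) * (p ^ (2 * i) - p ^ (2 * i - 2)) := by
  have h := CL.Fgs.MC.mk hp hG hmc
  have hp1 : 1 < p := (Fact.out : p.Prime).one_lt
  have e : {g : G | (Subgroup.centralizer ({g} : Set G)).index = p ^ i}
      = (powerClosure p (n - i) (⊤ : Subgroup G) : Set G) \ (powerClosure p (n - i + 1) (⊤ : Subgroup G) : Set G) := by
    ext g
    simp only [Set.mem_ofPred_eq, Set.mem_sdiff, SetLike.mem_coe]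
    rw [h.mem_mho_iff_cs hGn (by omega), h.mem_mho_iff_cs hGn (by omega)]
    obtain ⟨k, hk⟩ := hG.index (Subgroup.centralizer ({g} : Set G))
    rw [hk, Nat.pow_le_pow_iff_right hp1, Nat.pow_le_pow_iff_right hp1, (Nat.pow_right_injective hp1).eq_iff]
    omega
  change Nat.card {g : G | (Subgroup.centralizer ({g} : Set G)).index = p ^ i} = _
  rw [Nat.card_coe_set_eq, e, Set.ncard_sdiff (CL.Fgs.powerClosure_anti (Nat.le_succ _) ⊤),
    ← Nat.card_coe_set_eq, ← Nat.card_coe_set_eq]
  simp only [SetLike.coe_sort_coe]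
  rw [h.card_mho hGn (by omega), h.card_mho hGn (by omega), Nat.mul_sub (Nat.card _),
    show 2 * (n - (n - i)) = 2 * i by omega, show 2 * (n - (n - i).succ) = 2 * i - 2 by omega]

end Cfsg.Agent.S3881
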