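import Cfsg.Statements.S3883
import Cfsg.Agent.Fgs.Metacyclic

set_option autoImplicit false
open Cfsg

namespace Cfsg.Agent.S3883

/-- Let p be an odd prime and G a finite metacyclic p-group (G has a cyclic normal subgroup with cyclic quotient). Suppose G is non-abelian. Then an element g of G lies outside the Frattini subgroup if and only if its centralizer C_G(g) is abelian. -/
theorem result {G : Type*} [Group G] [Finite G] {p : ℕ} [Fact p.Prime] (hp : p ≠ 2) (hG : IsPGroup p G) (hmc : Cfsg.IsMetacyclic G) (hna : ¬ IsMulCommutative G) (g : G) :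
    g ∉ frattini G ↔ IsMulCommutative ↥(Subgroup.centralizer ({g} : Set G)) := by
  have h := CL.Fgs.MC.mk hp hG hmc
  have hp1 : 1 < p := (Fact.out : p.Prime).one_lt
  obtain ⟨n, hn⟩ := IsPGroup.iff_card.1 (hG.to_subgroup (commutator G))
  have hn1 : 1 ≤ n := by
    rcases n with _ | n
    · exact absurd ((commutator_eq_bot_iff _).1 (Subgroup.card_eq_one.1 hn)) hna
    · omega
  have h1 := (commutator G).card_mul_index
  have h2 := (Subgroup.centralizer ({g} : Set G)).card_mul_index
  obtain ⟨k, hk⟩ := hG.index (Subgroup.centralizer ({g} : Set G))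
  have h0 : 0 < (commutator G).index := Nat.pos_of_ne_zero Subgroup.index_ne_zero_of_finite
  rw [h.isMulCommutative_iff, h.frattini_eq, h.mem_mho_iff_cs hn hn1, hk, Nat.pow_le_pow_iff_right hp1]
  rw [hn] at h1
  rw [hk, ← h1] at h2
  constructor
  · intro h3
    obtain ⟨j, rfl⟩ : ∃ j, k = n + j := ⟨k - n, by omega⟩
    rw [pow_add, mul_comm, mul_assoc] at h2
    rw [← Nat.eq_of_mul_eq_mul_left (pow_pos (by omega) n) h2]
    exact Nat.le_mul_of_pos_left _ (pow_pos (by omega) j)
  · intro h3 h4
    have h5 : p ^ k < p ^ n := Nat.pow_lt_pow_right hp1 (by omega)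
    nlinarith

end Cfsg.Agent.S3883
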