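import Cfsg.Statements.S3887
import Cfsg.Agent.Fgs.Metacyclic

set_option autoImplicit false
open Cfsg

namespace Cfsg.Agent.S3887

/-- Let p be an odd prime and G a finite metacyclic p-group (G has a cyclic normal subgroup with cyclic quotient). Then a subgroup R of G maximizes |R| · |C_G(R)| over all subgroups of G if and only if R contains the center of G. -/
theorem result {G : Type*} [Group G] [Finite G] {p : ℕ} [Fact p.Prime] (hp : p ≠ 2) (hG : IsPGroup p G) (hmc : Cfsg.IsMetacyclic G) (R : Subgroup G) : Cfsg.IsCentralizerLarge R ↔ Subgroup.center G ≤ R := by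
  have h := CL.Fgs.MC.mk hp hG hmc
  have h1 : Cfsg.maxCentralizerProduct G = Nat.card G * Nat.card (Subgroup.center G) := by
    refine IsGreatest.csSup_eq ⟨⟨⊤, h.card_mul_card_centralizer le_top⟩, ?_⟩
    rintro _ ⟨R, rfl⟩
    exact h.card_mul_card_centralizer_le R
  unfold Cfsg.IsCentralizerLarge
  rw [h1]
  refine ⟨fun hR => ?_, h.card_mul_card_centralizer⟩
  have h2 := h.card_mul_card_centralizer (R := R ⊔ Subgroup.center G) le_sup_right
  have h3 : Subgroup.centralizer ((R ⊔ Subgroup.center G : Subgroup G) : Set G) = Subgroup.centralizer (R : Set G) := by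
    refine le_antisymm (Subgroup.centralizer_le (SetLike.coe_subset_coe.2 le_sup_left)) ?_
    rw [Subgroup.le_centralizer_iff]
    exact sup_le (Subgroup.le_centralizer_iff.1 le_rfl) (Subgroup.center_le_centralizer _)
  rw [h3, ← hR] at h2
  rw [Subgroup.eq_of_le_of_card_ge (le_sup_left : R ≤ R ⊔ Subgroup.center G)
    (Nat.eq_of_mul_eq_mul_right Nat.card_pos h2).le]
  exact le_sup_right

end Cfsg.Agent.S3887
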