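import Cfsg.Statements.S3898
import Cfsg.Agent.Fgs.ClassFusion2

set_option autoImplicit false
open Cfsg

namespace Cfsg.Agent.S3898

open CL.Fgs Subgroup


/-- Let π be a finite set of primes containing 2 and G a finite group. Write k_π(G) for the number of conjugacy classes of G consisting of π-elements (elements all of whose order's prime divisors lie in π) and |G|_π for the π-part of the order of G. If k_π(G) > |G|_π/2, then G has a normal π-complement (a normal subgroup of order prime to π whose index is a π-number) and an abelian Hall subgroup for the set of odd primes in π. -/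
theorem result {G : Type*} [Group G] [Finite G] (π : Finset ℕ) (hπ : ∀ r ∈ π, r.Prime) (h2 : 2 ∈ π)
    (hk : π.prod (fun r => r ^ (Nat.card G).factorization r) < 2 * Nat.card {c : ConjClasses G // ∀ x ∈ c.carrier, ∀ r : ℕ, r.Prime → r ∣ orderOf x → r ∈ π}) :
    (∃ N : Subgroup G, N.Normal ∧ (∀ r : ℕ, r.Prime → r ∣ Nat.card ↥N → r ∉ π) ∧ ∀ r : ℕ, r.Prime → r ∣ N.index → r ∈ π) ∧ ∃ H : Subgroup G, Cfsg.IsPiHall ((↑π : Set ℕ) \ {2}) H ∧ IsMulCommutative ↥H := by
  have hk' : π.prod (fun r => r ^ (Nat.card G).factorization r) < 2 * kPi (π : Set ℕ) G := by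
    rw [kPi_eq₂]; exact hk
  have key : ∀ (r : ℕ) [Fact r.Prime], r ∈ π → ∀ R : Sylow r G,
      Nat.card (R : Subgroup G) < 2 * kPi {r} G := fun r _ hr R => by
    have h5 := kPi_mul_card_sylow_le hπ hr R
    set n := π.prod (fun r => r ^ (Nat.card G).factorization r)
    have hR : 0 < Nat.card (R : Subgroup G) := Nat.card_pos
    refine Nat.lt_of_mul_lt_mul_right (a := n) ?_
    calc _ = n * Nat.card (R : Subgroup G) := mul_comm _ _
      _ < 2 * kPi (π : Set ℕ) G * Nat.card (R : Subgroup G) :=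
        Nat.mul_lt_mul_of_lt_of_le hk' le_rfl hR
      _ ≤ _ := by rw [mul_assoc, mul_assoc]; exact Nat.mul_le_mul_left _ h5
  obtain ⟨P⟩ : Nonempty (Sylow 2 G) := inferInstance
  have h1 := CL.Grp.hasNormalPComplement_iff_not_dvd_pResidual.1
    (hasNormalPComplement_two_of_kPi P (key 2 h2 P))
  obtain ⟨k, hk⟩ := CL.Grp.index_pResidual 2 G
  set K := pResidual 2 G
  obtain ⟨⟨N, h3, h4, h5⟩, H, h6, h7⟩ := exists_normal_pi_complement_abelian_hall (G := K)
    ((π : Set ℕ) \ {2}) fun r hr hrπ R => normalizer_le_centralizer_of_odd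
      (by rwa [← Nat.not_even_iff_odd, even_iff_two_dvd]) R (by
      obtain ⟨Q, hQ⟩ := (R.isPGroup'.map K.subtype).exists_le_sylow
      refine ((CL.Grp.card_map_subtype (R : Subgroup K)).ge.trans (card_le_of_le hQ)).trans_lt
        ((key r hrπ.1 Q).trans_le (Nat.mul_le_mul_left _ (kPi_le_of_forall_conj_mem fun x hx => ⟨1, ?_⟩)))
      rw [one_mul, inv_one, mul_one]
      exact CL.Grp.mem_pResidual_of_coprime ((isPiElt_compl_singleton_iff_coprime Nat.prime_two).1
        (hx.mono (by simpa using Ne.symm hrπ.2))))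
  refine ⟨⟨N.map K.subtype, inferInstance, fun r hr hd hrπ => ?_, fun r hr hd => ?_⟩,
    H.map K.subtype, ⟨fun r hr hd => ?_, fun r hr hrπ hd => ?_⟩, inferInstance⟩
  · rw [CL.Grp.card_map_subtype] at hd
    refine h4 r hr hd ⟨hrπ, ?_⟩
    rintro rfl
    exact h1 (hd.trans (card_subgroup_dvd_card N))
  · rw [index_map_subtype, hk] at hd
    rcases (Nat.Prime.dvd_mul hr).1 hd with h | h
    · exact (h5 r hr h).1
    · rwa [(Nat.prime_dvd_prime_iff_eq hr Nat.prime_two).1 (hr.dvd_of_dvd_pow h)]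
  · rw [CL.Grp.card_map_subtype] at hd
    exact h6.1 r hr hd
  · rw [index_map_subtype, hk] at hd
    rcases (Nat.Prime.dvd_mul hr).1 hd with h | h
    · exact h6.2 r hr hrπ h
    · exact hrπ.2 ((Nat.prime_dvd_prime_iff_eq hr Nat.prime_two).1 (hr.dvd_of_dvd_pow h))

end Cfsg.Agent.S3898
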