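import Cfsg.Statements.S3899
import Cfsg.Agent.Fgs.ClassFusion

set_option autoImplicit false
open Cfsg

namespace Cfsg.Agent.S3899

open CL.Fgs


/-- Let π be a finite non-empty set of odd primes with smallest member p and G a finite group. Write k_π(G) for the number of conjugacy classes of G consisting of π-elements (elements all of whose order's prime divisors lie in π) and |G|_π for the π-part of the order of G. If k_π(G) > (p + 1)|G|_π/(2p), then G has a normal π-complement (a normal subgroup of order prime to π whose index is a π-number) and an abelian Hall π-subgroup. -/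
theorem result {G : Type*} [Group G] [Finite G] (π : Finset ℕ) (hπ : ∀ r ∈ π, r.Prime) (h2 : 2 ∉ π) (p : ℕ) (hp : p ∈ π)
    (hmin : ∀ r ∈ π, p ≤ r) (hk : (p + 1) * π.prod (fun r => r ^ (Nat.card G).factorization r) < 2 * p * Nat.card {c : ConjClasses G // ∀ x ∈ c.carrier, ∀ r : ℕ, r.Prime → r ∣ orderOf x → r ∈ π}) :
    (∃ N : Subgroup G, N.Normal ∧ (∀ r : ℕ, r.Prime → r ∣ Nat.card ↥N → r ∉ π) ∧ ∀ r : ℕ, r.Prime → r ∣ N.index → r ∈ π) ∧ ∃ H : Subgroup G, Cfsg.IsPiHall (↑π : Set ℕ) H ∧ IsMulCommutative ↥H := by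
  have hk' : (p + 1) * π.prod (fun r => r ^ (Nat.card G).factorization r) <
      2 * p * kPi (π : Set ℕ) G := by rw [kPi_eq₂]; exact hk
  obtain ⟨⟨N, h1, h3, h4⟩, H⟩ := exists_normal_pi_complement_abelian_hall (G := G) (π : Set ℕ)
    (fun r _ hr R => normalizer_le_centralizer_of_kPi R (by
      have h5 := kPi_mul_card_sylow_le hπ hr R
      have h6 := hmin r hr
      set n := π.prod (fun r => r ^ (Nat.card G).factorization r)
      have hn : 0 < n := Finset.prod_pos fun r hr => pow_pos (hπ r hr).pos _
      have hp0 := (hπ p hp).pos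
      have hR : 0 < Nat.card (R : Subgroup G) := Nat.card_pos
      have h7 : (p + 1) * Nat.card (R : Subgroup G) < 2 * p * kPi {r} G := by
        refine Nat.lt_of_mul_lt_mul_right (a := n) ?_
        calc _ = (p + 1) * n * Nat.card (R : Subgroup G) := by ring
          _ < 2 * p * kPi (π : Set ℕ) G * Nat.card (R : Subgroup G) :=
            Nat.mul_lt_mul_of_lt_of_le hk' le_rfl hR
          _ = 2 * p * (kPi (π : Set ℕ) G * Nat.card (R : Subgroup G)) := by ring
          _ ≤ 2 * p * (kPi {r} G * n) := Nat.mul_le_mul_left _ h5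
          _ = _ := by ring
      refine Nat.lt_of_mul_lt_mul_left (a := p) ?_
      calc p * ((r + 1) * Nat.card (R : Subgroup G))
          ≤ r * ((p + 1) * Nat.card (R : Subgroup G)) := by
            rw [← mul_assoc, ← mul_assoc]; exact Nat.mul_le_mul_right _ (by nlinarith)
        _ < r * (2 * p * kPi {r} G) := (Nat.mul_lt_mul_left (by omega)).2 h7
        _ = _ := by ring))
  exact ⟨⟨N, inferInstance, h3, h4⟩, H⟩

end Cfsg.Agent.S3899
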