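import Cfsg.Statements.S3900
import Cfsg.Agent.S0056
import Cfsg.Agent.Grp.PNilpFrob
import Cfsg.Agent.Loc.FStar
import Cfsg.Agent.Inv.BaerSuzuki
import Cfsg.Agent.Cit.FrobSys

set_option autoImplicit false
set_option linter.style.haveILetI false
open Cfsg

namespace Cfsg.Agent.S3900

section Helpers
open Subgroup CL.Grp CL.Loc
open scoped commutatorElement

variable {G G' : Type*} [Group G] [Group G'] {k p : ℕ} {x y g : G}

/-- the left-normed commutators of length `k + 1` -/
inductive Vl {G : Type*} [Group G] : ℕ → G → Prop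
  | zero (a : G) : Vl 0 a
  | succ {k : ℕ} {x : G} (y : G) : Vl k x → Vl (k + 1) ⁅x, y⁆

theorem Vl.comm (h : Vl k x) (y : G) : Vl k ⁅x, y⁆ := by
  induction h generalizing y with
  | zero a => exact .zero _
  | succ z _ ih => exact .succ y (ih z)

theorem Vl.map (f : G →* G') (h : Vl k x) : Vl k (f x) := by
  induction h with
  | zero a => exact .zero _
  | succ z _ ih => rw [map_commutatorElement]; exact .succ _ ih

theorem Vl.conj (h : Vl k x) (g : G) : Vl k (g * x * g⁻¹) := h.map (MulAut.conj g).toMonoidHom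

theorem Vl.lift {f : G →* G'} (hf : Function.Surjective f) {w : G'} (h : Vl k w) : ∃ x, Vl k x ∧ f x = w := by
  induction h with
  | zero a => exact (hf a).imp fun x e => ⟨.zero x, e⟩
  | succ z _ ih =>
    obtain ⟨x, h1, rfl⟩ := ih
    obtain ⟨z, rfl⟩ := hf z
    exact ⟨_, .succ z h1, map_commutatorElement f x z⟩

theorem Vl.mem (h : Vl k x) : x ∈ (⊤ : Subgroup G).lowerCentralSeries k := by
  induction h with
  | zero a => trivial
  | succ z _ ih => exact commutator_mem_commutator ih (mem_top z)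

theorem vl_iter (y g : G) (k : ℕ) : Vl k ((⁅·, g⁆)^[k] y) := by
  induction k with
  | zero => exact .zero _
  | succ k ih => rw [Function.iterate_succ_apply']; exact .succ _ ih

theorem vl_iff : Vl k x ↔ ∃ f : Fin (k + 1) → G,
    x = ((List.ofFn f).tail).foldl (fun a b => a * b * a⁻¹ * b⁻¹) (f 0) := by
  constructor
  · intro h
    induction h with
    | zero a => exact ⟨fun _ => a, rfl⟩
    | succ z _ ih =>
      obtain ⟨f, rfl⟩ := ih
      refine ⟨Fin.snoc f z, ?_⟩
      rw [List.ofFn_succ_last (f := Fin.snoc f z), List.tail_append_of_ne_nil (by simp), List.foldl_concat]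
      simp only [Fin.snoc_castSucc, Fin.snoc_last, Fin.snoc_apply_zero, commutatorElement_def]
  · rintro ⟨f, rfl⟩
    induction k with
    | zero => exact .zero _
    | succ k ih =>
      rw [List.ofFn_succ_last, List.tail_append_of_ne_nil (by simp), List.foldl_concat]
      exact .succ _ (ih fun i => f i.castSucc)

theorem lcs_eq_bot (h : ∀ x : G, Vl k x → x = 1) : (⊤ : Subgroup G).lowerCentralSeries k = ⊥ := by
  have key : ∀ i j, i + j = k → ∀ x : G, Vl j x → x ∈ Subgroup.upperCentralSeries G i := fun i => by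
    induction i with
    | zero => exact fun j e x hx => h x (by simpa [← e] using hx)
    | succ i ih => exact fun j e x hx => Subgroup.mem_upperCentralSeries_succ_iff.2 fun y => ih (j + 1) (by omega) _ (.succ y hx)
  have e : Subgroup.upperCentralSeries G k = ⊤ := eq_top_iff.2 fun x _ => key k 0 rfl x (.zero x)
  haveI : Group.IsNilpotent G := ⟨k, e⟩
  exact Subgroup.lowerCentralSeries_eq_bot_iff_nilpotencyClass_le.2
    (Subgroup.upperCentralSeries_eq_top_iff_nilpotencyClass_le.1 e)

/-- the consequence of the hypothesis that is used -/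
def Star (G : Type*) [Group G] (k : ℕ) : Prop :=
  ∀ x : G, Vl k x → ∀ y : G, (orderOf ⁅x, y⁆).Coprime (orderOf x) → ⁅x, y⁆ = 1

theorem Star.sub (h : Star G k) (H : Subgroup G) : Star H k := fun x hx y e => Subtype.ext (by
  rw [← Subgroup.orderOf_coe, ← Subgroup.orderOf_coe x] at e
  exact h _ (hx.map H.subtype) y e)

theorem iter_mem {Q : Subgroup G} (hg : g ∈ normalizer (Q : Set G)) (hy : y ∈ Q) (k : ℕ) : (⁅·, g⁆)^[k] y ∈ Q := by
  induction k with
  | zero => exact hy
  | succ k ih =>
    rw [Function.iterate_succ_apply', commutatorElement_def, mul_assoc, mul_assoc, ← mul_assoc g]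
    exact Q.mul_mem ih ((mem_normalizer_iff.1 hg _).1 (Q.inv_mem ih))

theorem map_iter (f : G →* G') (y g : G) (k : ℕ) : f ((⁅·, g⁆)^[k] y) = (⁅·, f g⁆)^[k] (f y) := by
  induction k with
  | zero => rfl
  | succ k ih => rw [Function.iterate_succ_apply', Function.iterate_succ_apply', map_commutatorElement, ih]

theorem engel {Q : Subgroup G} (hQ : IsPGroup p Q) (hg : g ∈ normalizer (Q : Set G)) (ho : (orderOf g).Coprime p)
    (hy : y ∈ Q) (e : (⁅·, g⁆)^[k + 1] y = 1) : ⁅y, g⁆ = 1 := by
  induction k generalizing y with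
  | zero => exact e
  | succ k ih =>
    have h1 := iter_mem hg hy 1
    have h2 : Commute ⁅y, g⁆ g := commutatorElement_eq_one_iff_commute.1 (ih h1 e)
    have h3 : ⁅y, g⁆ ^ orderOf g = 1 := by
      have := h2.mul_pow (orderOf g)
      rwa [commutatorElement_def, inv_mul_cancel_right, conj_pow, pow_orderOf_eq_one, mul_one, mul_inv_cancel, mul_one,
        eq_comm] at this
    exact eq_one_of_coprime_of_mem hQ h1 (ho.coprime_dvd_left (orderOf_dvd_of_pow_eq_one h3))

variable [Finite G]

theorem exists_lift [Fact p.Prime] {f : G →* G'} (hf : Function.Surjective f) {R : Subgroup G'} (hR : IsPGroup p R)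
    {w : G'} (hw : w ∈ normalizer (R : Set G')) :
    ∃ Q : Subgroup G, IsPGroup p Q ∧ Q.map f = R ∧ ∃ n ∈ normalizer (Q : Set G), f n = w := by
  obtain ⟨g, rfl⟩ := hf w
  let P : Sylow p (R.comap f) := default
  have h1 : ((P : Subgroup (R.comap f)).map (R.comap f).subtype).map f = R := by
    have hs : Function.Surjective (f.subgroupComap R) := MonoidHom.subgroupComap_surjective_of_surjective f R hf
    haveI : Finite R := Finite.of_surjective _ hs
    have := (P.mapSurjective hs).3 (hR.to_subgroup ⊤) le_top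
    rw [map_map, show f.comp (R.comap f).subtype = R.subtype.comp (f.subgroupComap R) from rfl, ← map_map]
    exact (congrArg (map R.subtype) this.symm).trans (by rw [← MonoidHom.range_eq_map, range_subtype])
  refine ⟨_, P.2.map _, h1, ?_⟩
  have hg : ∀ x ∈ R.comap f, g * x * g⁻¹ ∈ R.comap f := fun x hx => by
    simpa using (mem_normalizer_iff.1 hw _).1 hx
  let φ : R.comap f →* R.comap f := ((MulAut.conj g).toMonoidHom.comp (R.comap f).subtype).codRestrict _ fun x => hg x x.2
  have hφ : Function.Injective φ := fun a b e => Subtype.ext ((MulAut.conj g).injective (congrArg Subtype.val e))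
  obtain ⟨h, hh⟩ := MulAction.exists_smul_eq (R.comap f) (P.mapSurjective (Finite.surjective_of_injective hφ)) P
  obtain ⟨_, ⟨y, hy, rfl⟩, e⟩ := h1.ge h.2
  refine ⟨(y : G)⁻¹ * (h * g), mul_mem (inv_mem (le_normalizer (mem_map_of_mem _ hy))) ?_, by
    rw [map_mul, map_mul, map_inv, ← e]; simp⟩
  refine mem_normalizer_fintype ?_
  rintro _ ⟨z, hz, rfl⟩
  refine ⟨h * φ z * h⁻¹, ?_, by simp [φ, mul_assoc]⟩
  rw [← hh]
  exact ⟨φ z, mem_map_of_mem φ hz, rfl⟩

theorem exists_frob [Fact p.Prime] [Finite G'] {f : G →* G'} (hf : Function.Surjective f)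
    (h : ¬ HasNormalPComplement p G') : ∃ Q : Subgroup G, IsPGroup p Q ∧ ∃ n ∈ normalizer (Q : Set G),
      (orderOf (f n)).Coprime p ∧ f n ∈ normalizer (Q.map f : Set G') ∧ ∃ y ∈ Q, ∀ k, f ((⁅·, n⁆)^[k] y) ≠ 1 := by
  obtain ⟨R, hR, q, j, w, hq, hqp, ho, hw, hc⟩ := exists_primePow_not_mem_centralizer default h
  have hR' := (default : Sylow p G').2.to_le hR
  obtain ⟨Q, hQ, rfl, n, hn, rfl⟩ := exists_lift hf hR' hw
  have ho' : (orderOf (f n)).Coprime p := ho ▸ ((Nat.coprime_primes hq Fact.out).2 hqp).pow_left j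
  refine ⟨Q, hQ, n, hn, ho', hw, ?_⟩
  by_contra h1
  push Not at h1
  refine hc ?_
  rintro _ ⟨y, hy, rfl⟩
  obtain ⟨k, e⟩ := h1 y hy
  exact commutatorElement_eq_one_iff_mul_comm.1 (engel (k := k) hR' hw ho' (mem_map_of_mem f hy) (by
    rw [Function.iterate_succ_apply', ← map_iter, e, commutatorElement_one_left]))

theorem mem_of_vl [Fact p.Prime] {N : Subgroup G} [N.Normal] (h : ∀ Q : Subgroup G, IsPGroup p Q → ∀ x ∈ Q, Vl k x → x ∈ N)
    {Q : Subgroup G} (hQ : IsPGroup p Q) (hle : Q ≤ (⊤ : Subgroup G).lowerCentralSeries k) : Q ≤ N := by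
  have h1 : HasNormalPComplement p (G ⧸ N) := by
    by_contra h1
    obtain ⟨Q, hQ, n, hn, -, -, y, hy, e⟩ := exists_frob (QuotientGroup.mk'_surjective N) h1
    exact e k ((QuotientGroup.eq_one_iff _).2 (h Q hQ _ (iter_mem hn hy k) (vl_iter y n k)))
  let f := (QuotientGroup.mk' (pResidual p (G ⧸ N))).comp (QuotientGroup.mk' N)
  have hf : Function.Surjective f := (QuotientGroup.mk'_surjective _).comp (QuotientGroup.mk'_surjective N)
  obtain ⟨P, hP, e, -⟩ := exists_lift hf ((isPGroup_quotient_pResidual p (G ⧸ N)).to_subgroup ⊤) (one_mem _)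
  have h2 := lcs_eq_bot (k := k) fun w hw => by
    obtain ⟨x, hx, rfl⟩ := hw.lift (f := f.comp P.subtype) fun w => by
      obtain ⟨x, hx, rfl⟩ := e.ge (mem_top w)
      exact ⟨⟨x, hx⟩, rfl⟩
    exact congrArg _ ((QuotientGroup.eq_one_iff _).2 (h P hP _ x.2 (hx.map P.subtype)))
  intro x hx
  have h3 := mem_map_of_mem f (hle hx)
  rw [map_lowerCentralSeries, map_top_of_surjective f hf, h2] at h3
  exact (QuotientGroup.eq_one_iff _).1 (eq_one_of_coprime_of_mem (hQ.map (QuotientGroup.mk' N)) (mem_map_of_mem _ hx)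
    (hasNormalPComplement_iff_forall_mem.1 h1 _ ((QuotientGroup.eq_one_iff _).1 h3)))

theorem exists_invol [Finite G'] {f : G →* G'} (hf : Function.Surjective f) (h : ¬ HasNormalPComplement 2 G') (k : ℕ) :
    ∃ Q : Subgroup G, IsPGroup 2 Q ∧ ∃ a ∈ Q, Vl k a ∧ f a ≠ 1 ∧ f a * f a = 1 := by
  obtain ⟨Q, hQ, n, hn, ho, hw, y, hy, hy'⟩ := exists_frob hf h
  refine ⟨Q, hQ, ?_⟩
  by_contra h1
  push Not at h1
  have hc : ∀ a ∈ Q, Vl k a → ∀ y ∈ Q, f ⁅a, y⁆ = 1 := by
    obtain ⟨m, hm⟩ := (isNilpotent_iff_lowerCentralSeries Q).1 hQ.isNilpotent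
    have key : ∀ i j, m ≤ i + j → ∀ a ∈ Q.lowerCentralSeries j, a ∈ Q → Vl k a → ∀ y ∈ Q, f ⁅a, y⁆ = 1 := fun i => by
      induction i with
      | zero =>
        intro j e a ha _ _ y _
        rw [mem_bot.1 (hm.le (Q.lowerCentralSeries_antitone (by simpa using e) ha))]; simp
      | succ i ih =>
        intro j e a ha ha' hv y hy
        have hm : ∀ {y}, y ∈ Q → ⁅a, y⁆ ∈ Q := fun hy => mul_mem (mul_mem (mul_mem ha' hy) (inv_mem ha')) (inv_mem hy)
        have h2 : ∀ r : ℕ, f ⁅a, y ^ r⁆ = f ⁅a, y⁆ ^ r := fun r => by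
          induction r with
          | zero => simp
          | succ r ih' =>
            have := ih (j + 1) (by omega) _ (commutator_mem_commutator ha (pow_mem hy r)) (hm (pow_mem hy r)) (hv.comm _) y hy
            rw [map_commutatorElement, commutatorElement_eq_one_iff_mul_comm] at this
            rw [pow_succ' y, pow_succ', ← ih', show ⁅a, y * y ^ r⁆ = ⁅a, y⁆ * (y * ⁅a, y ^ r⁆ * y⁻¹) by
              simp only [commutatorElement_def]; group, map_mul, map_mul, map_mul, ← this, map_inv, mul_inv_cancel_right]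
        obtain ⟨r, hr⟩ := hQ ⟨y, hy⟩
        have h3 : f ⁅a, y ^ 2 ^ r⁆ = 1 := by rw [show y ^ 2 ^ r = 1 from congrArg Subtype.val hr]; simp
        clear hr
        induction r with
        | zero => simpa using h3
        | succ r ih' =>
          refine ih' (by_contra fun h4 => h1 _ (hm (pow_mem hy _)) (hv.comm _) h4 ?_)
          rw [h2, ← pow_add, ← two_mul, ← pow_succ', ← h2, h3]
    exact fun a ha => key m 0 le_rfl a ha ha
  let W : Subgroup G' := Q.map f ⊓ centralizer (Q.map f : Set G')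
  have hW : f n ∈ normalizer (W : Set G') := CL.Grp.le_normalizer_inf' (A := zpowers (f n)) (zpowers_le.2 hw)
    (CL.Grp.le_normalizer_centralizer' (zpowers_le.2 hw)) (mem_zpowers _)
  have hW' : IsPGroup 2 W := (hQ.map f).to_le inf_le_left
  haveI : IsMulCommutative W := ⟨⟨fun a b => Subtype.ext (b.2.2 a a.2.1)⟩⟩
  obtain ⟨j, hj⟩ := IsPGroup.iff_card.1 hW'
  have := Cfsg.Agent.S0056.result (zpowers (f n)) W (zpowers_le.2 hW) (by
    rw [Nat.card_zpowers, hj]; exact ho.pow_right j) (fun v hv hp a ha => by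
      obtain ⟨⟨w, hw', rfl⟩, -⟩ := id hv
      have h2 : ∀ i, (⁅·, f n⁆)^[i] (f w) * (⁅·, f n⁆)^[i] (f w) = 1 := fun i => by
        induction i with
        | zero =>
          rw [← sq, ← (Nat.prime_dvd_prime_iff_eq hp Nat.prime_two).1 (hp.dvd_of_dvd_pow (hj ▸ W.orderOf_dvd_natCard hv))]
          exact pow_orderOf_eq_one _
        | succ i ih =>
          have h3 := iter_mem hW hv i
          rw [Function.iterate_succ_apply']
          generalize (⁅·, f n⁆)^[i] (f w) = t at ih h3
          have h4 : Commute t (f n * t⁻¹ * (f n)⁻¹) := ((mem_normalizer_iff.1 hW _).1 (inv_mem h3)).2 t h3.1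
          rw [← sq, commutatorElement_def, mul_assoc, mul_assoc, ← mul_assoc (f n), h4.mul_pow, conj_pow, inv_pow, sq, ih]
          simp
      have h3 : ⁅f w, f n⁆ = 1 := engel (k := k) hW' hW ho hv (by
        rw [Function.iterate_succ_apply', ← map_iter, by_contra fun h4 =>
          h1 _ (iter_mem hn hw' k) (vl_iter w n k) h4 (map_iter f w n k ▸ h2 k), commutatorElement_one_left])
      obtain ⟨i, rfl⟩ := ha
      exact (commutatorElement_eq_one_iff_commute.1 h3).symm.zpow_left i) (mem_zpowers _)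
  refine hy' (k + 1) ?_
  rw [Function.iterate_succ_apply', map_commutatorElement, commutatorElement_eq_one_iff_mul_comm]
  refine this _ ⟨mem_map_of_mem f (iter_mem hn hy k), ?_⟩
  rintro _ ⟨z, hz, rfl⟩
  exact (commutatorElement_eq_one_iff_mul_comm.1 (map_commutatorElement f _ z ▸ hc _ (iter_mem hn hy k) (vl_iter y n k) z hz)).symm

theorem Star.not_qs (h : Star G k) : ¬ IsQuasisimple G := fun hq => by
  haveI := hq.2
  haveI := hq.1
  let f := QuotientGroup.mk' (center G)
  have hf : Function.Surjective f := QuotientGroup.mk'_surjective _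
  have hs : ¬ Group.IsSolvable (G ⧸ center G) := Group.IsPerfect.not_isSolvable _
  obtain ⟨Q, hQ, a, ha, hv, a1, a2⟩ := exists_invol hf (fun e => hs (CL.Cit.isSolvable_of_npc e)) k
  obtain ⟨w, w1, w2, w3, -⟩ := CL.Inv.invol_inverts_odd_of_not_mem a2 fun e => by
    rcases (inferInstance : (normalClosure {f a}).Normal).eq_bot_or_eq_top with e1 | e1
    · exact a1 (mem_bot.1 (e1 ▸ subset_normalClosure rfl))
    · haveI := (e1 ▸ e : IsPGroup 2 (⊤ : Subgroup (G ⧸ center G))).of_equiv topEquiv |>.isNilpotent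
      exact hs inferInstance
  obtain ⟨t, rfl⟩ := hf w
  obtain ⟨b, -, c, -, ⟨j, hj⟩, hc, rfl, hbc⟩ := exists_pPart_mul_pPrimePart Nat.prime_two t
  have b1 : f b = 1 := by
    have e := (hbc.map f).orderOf_mul_eq_mul_orderOf_of_coprime (((hj ▸ (hc.symm.pow_left j) :
      (orderOf b).Coprime (orderOf c)).coprime_dvd_left (orderOf_map_dvd f b)).coprime_dvd_right (orderOf_map_dvd f c))
    rw [← map_mul] at e
    exact orderOf_eq_one_iff.1 (Nat.eq_one_of_dvd_coprimes ((Nat.coprime_two_left.2 w2).pow_left j)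
      (hj ▸ orderOf_map_dvd f b) (e ▸ dvd_mul_right _ _))
  rw [map_mul, b1, one_mul] at w1 w2 w3
  have hz : c * (a * c * a⁻¹) ∈ center G := (QuotientGroup.eq_one_iff _).1 (show f _ = 1 by simp [w3])
  have h1 : Commute c (a * c * a⁻¹) := (mul_right_inj c).1 (by
    rw [mem_center_iff.1 hz c, mul_assoc])
  have h2 : ⁅a, c⁆ ^ orderOf c = 1 := by
    rw [commutatorElement_def, h1.symm.inv_right.mul_pow, conj_pow, inv_pow, pow_orderOf_eq_one]; simp
  obtain ⟨i, hi⟩ := (IsPGroup.iff_orderOf.1 hQ) ⟨a, ha⟩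
  have h3 := congrArg f (h a hv c ((hc.coprime_dvd_left (orderOf_dvd_of_pow_eq_one h2)).pow_right i |> fun e => by
    rwa [← hi, ← Subgroup.orderOf_coe] at e))
  rw [map_commutatorElement, commutatorElement_def, w3, map_one, ← mul_inv_rev, inv_eq_one, ← sq] at h3
  exact w1 (orderOf_eq_one_iff.1 (Nat.eq_one_of_dvd_coprimes (Nat.coprime_two_right.2 w2) dvd_rfl
    (orderOf_dvd_of_pow_eq_one h3)))

theorem Star.nilp (h : Star G k) : Group.IsNilpotent ((⊤ : Subgroup G).lowerCentralSeries k) := by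
  set Γ := (⊤ : Subgroup G).lowerCentralSeries k
  have hF := centralizer_fitting_le_iff.2 (layer_eq_bot_iff.2 fun L hL => (h.sub L).not_qs hL.2)
  have h1 : ∀ (p : ℕ) [Fact p.Prime] (Q : Subgroup G), IsPGroup p Q → Q ≤ Γ → Q ≤ centralizer (pPrimeCore p G : Set G) :=
    fun p _ Q hQ => mem_of_vl (fun Q hQ x hx hv y hy => by
      obtain ⟨i, hi⟩ := (IsPGroup.iff_orderOf.1 hQ) ⟨x, hx⟩
      rw [← Subgroup.orderOf_coe] at hi
      refine (commutatorElement_eq_one_iff_mul_comm.1 (h x hv y (hi ▸ Nat.Coprime.pow_right i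
        ((pPrimeCore_coprime p G).coprime_dvd_left (Subgroup.orderOf_dvd_natCard _ ?_))))).symm
      exact mul_mem (Normal.conj_mem inferInstance y hy x) (inv_mem hy)) hQ
  refine isNilpotent_of_le_fittingSubgroup (le_of_forall_isPGroup_le fun p hp P hP hP' => ?_)
  let K := Γ ⊓ centralizer (pPrimeCore p G : Set G)
  refine (le_inf hP (h1 p P hP' hP)).trans (le_fittingSubgroup (N := K) ?_)
  haveI : Group.IsNilpotent (K ⧸ center K) := IsPGroup.isNilpotent (p := p) fun w => by
    obtain ⟨w, rfl⟩ := QuotientGroup.mk_surjective w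
    obtain ⟨j, hj⟩ := exists_pow_orderOf_coprime hp.out w
    refine ⟨j, (QuotientGroup.eq_one_iff _).2 (le_of_forall_isPGroup_le (K := zpowers (w ^ p ^ j))
      (fun r hr R hR hR' y hy => mem_center_iff.2 fun z => Subtype.ext ?_) (mem_zpowers _))⟩
    by_cases e : p = r
    · subst e
      rw [eq_one_of_coprime_of_mem hR' hy (hj.coprime_dvd_left (orderOf_dvd_of_mem_zpowers (hR hy)))]; simp
    have e' := (Nat.coprime_primes hp.out hr.out).2 e
    have h2 : R.map K.subtype ≤ pCore r G := le_pCore_of_le_fittingSubgroup (hR'.map _) (le_trans (le_centralizer_iff.1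
      ((fittingSubgroup_le_pCore_sup_pPrimeCore r).trans (sup_le ((pCore_le_pPrimeCore e').trans (le_centralizer_iff.1
        ((map_subtype_le R).trans inf_le_right))) (le_centralizer_iff.1 (h1 r _ (hR'.map _)
          ((map_subtype_le R).trans inf_le_left)))))) hF)
    exact (z.2.2 y (pCore_le_pPrimeCore e' (h2 (mem_map_of_mem _ hy)))).symm
  exact Group.of_quotient_center_nilpotent this

end Helpers

/-- A criterion of Baumslag–Wiegold type for a term of the lower central series. Let G be a finite group and k ≥ 0; call an element a left-normed commutator value of length k + 1 when it has the form [[…[x₀, x₁], …], x_k] with k + 1 entries (for k = 0, any element), where [a, b] = aba⁻¹b⁻¹. Then the (k+1)-st term γ_{k+1}(G) of the lower central series (γ₁(G) = G) is nilpotent if and only if for every two such values x, y of coprime orders, either every prime dividing o(x)·o(y) divides o(xy), or o(x)·o(y) ≤ o(xy). -/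
theorem result {G : Type*} [Group G] [Finite G] (k : ℕ) :
    Group.IsNilpotent ↥((⊤ : Subgroup G).lowerCentralSeries k) ↔
      ∀ x y : G, (∃ f : Fin (k + 1) → G, x = ((List.ofFn f).tail).foldl (fun a b => a * b * a⁻¹ * b⁻¹) (f 0)) → (∃ f : Fin (k + 1) → G, y = ((List.ofFn f).tail).foldl (fun a b => a * b * a⁻¹ * b⁻¹) (f 0)) → (orderOf x).Coprime (orderOf y) →
        (∀ r : ℕ, r.Prime → r ∣ orderOf x * orderOf y → r ∣ orderOf (x * y)) ∨ orderOf x * orderOf y ≤ orderOf (x * y) := by
  simp only [← vl_iff]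
  refine ⟨fun h x y hx hy hc => Or.inr ?_, fun h => Star.nilp fun x hx y hc => ?_⟩
  · have := CL.Grp.commute_of_coprime_orderOf_of_isNilpotent (G := (⊤ : Subgroup G).lowerCentralSeries k)
      (x := ⟨x, hx.mem⟩) (y := ⟨y, hy.mem⟩) (by rwa [← Subgroup.orderOf_coe, ← Subgroup.orderOf_coe (⟨y, _⟩ : _)])
    exact (Commute.orderOf_mul_eq_mul_orderOf_of_coprime (congrArg Subtype.val this) hc).ge
  · have e : orderOf (y * x * y⁻¹) = orderOf x := SemiconjBy.orderOf_eq y⁻¹ (by simp [SemiconjBy, mul_assoc])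
    have := h _ _ (hx.comm y) (hx.conj y) (e ▸ hc)
    rw [e, show _ * (y * x * y⁻¹) = x by simp [commutatorElement_def, mul_assoc]] at this
    refine orderOf_eq_one_iff.1 (this.elim (fun h1 => by_contra fun h2 => ?_) fun h1 => ?_)
    · obtain ⟨r, hr, hd⟩ := Nat.exists_prime_and_dvd h2
      exact hr.one_lt.ne' (Nat.eq_one_of_dvd_coprimes hc hd (h1 r hr (hd.mul_right _)))
    · exact le_antisymm (Nat.le_of_mul_le_mul_right (h1.trans_eq (one_mul _).symm) (orderOf_pos x)) (orderOf_pos _)

end Cfsg.Agent.S3900
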