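import Cfsg.Statements.S3908
import Cfsg.Agent.Fgs.EqConj

set_option autoImplicit false
open Cfsg

namespace Cfsg.Agent.S3908

open CL.Fgs

/-- Let G be a finite group in which any two abelian subgroups of the same order are conjugate. Then a Sylow 2-subgroup of G is cyclic, elementary abelian or generalized quaternion, and for an odd prime p a Sylow p-subgroup of G is cyclic or has exponent dividing p. -/
theorem result {G : Type*} [Group G] [Finite G] (hB : ∀ A B : Subgroup G, IsMulCommutative ↥A → IsMulCommutative ↥B → Nat.card ↥A = Nat.card ↥B → ∃ g : G, B = A.map (MulAut.conj g).toMonoidHom) :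
    (∀ P : Sylow 2 G, IsCyclic ↥(P : Subgroup G) ∨ Cfsg.IsElementaryAbelian 2 (P : Subgroup G) ∨ ∃ k : ℕ, Nonempty (↥(P : Subgroup G) ≃* QuaternionGroup (2 ^ k))) ∧
    ∀ (p : ℕ) [Fact p.Prime], p ≠ 2 → ∀ P : Sylow p G, IsCyclic ↥(P : Subgroup G) ∨ ∀ x ∈ (P : Subgroup G), x ^ p = 1 := by
  have hA : ∀ p : ℕ, AbPConj p G := fun p A B hA hB' _ _ h => hB A B hA hB' h
  refine ⟨fun P => ?_, fun p _ hp P => ?_⟩
  · rcases (hA 2).cases P.2 with h | ⟨-, n, a, b, h, h1, h2⟩ | h
    · exact Or.inl h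
    · exact Or.inr (Or.inr ⟨_, h.nonempty_quaternion h1 h2⟩)
    · exact Or.inr (Or.inl ⟨isMulCommutative_of_sq_eq_one h, h⟩)
  · rcases (hA p).cases P.2 with h | ⟨h, -⟩ | h
    · exact Or.inl h
    · exact absurd h hp
    · exact Or.inr h

end Cfsg.Agent.S3908
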