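import Cfsg.Statements.S3909
import Cfsg.Agent.Fgs.EqConj

set_option autoImplicit false
open Cfsg

namespace Cfsg.Agent.S3909

open CL.Fgs Subgroup

/-- Let G be a finite group in which any two abelian subgroups of the same order are conjugate. Let M be a normal subgroup of G. If M contains an element of the same order as a ∈ G, then a ∈ M; and if M is elementary abelian of order p^t with p prime and t ≥ 2, then M is the unique Sylow p-subgroup of G. -/
theorem result {G : Type*} [Group G] [Finite G] (hB : ∀ A B : Subgroup G, IsMulCommutative ↥A → IsMulCommutative ↥B → Nat.card ↥A = Nat.card ↥B → ∃ g : G, B = A.map (MulAut.conj g).toMonoidHom) (M : Subgroup G) [M.Normal] :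
    (∀ a : G, (∃ m ∈ M, orderOf m = orderOf a) → a ∈ M) ∧
    ∀ (p t : ℕ) [Fact p.Prime], 2 ≤ t → Nat.card ↥M = p ^ t → Cfsg.IsElementaryAbelian p M → ∀ P : Sylow p G, (P : Subgroup G) = M := by
  have h1 : ∀ a : G, (∃ m ∈ M, orderOf m = orderOf a) → a ∈ M := by
    rintro a ⟨m, hm, hma⟩
    obtain ⟨g, hg⟩ := hB (zpowers m) (zpowers a) inferInstance inferInstance
      (by rw [Nat.card_zpowers, Nat.card_zpowers, hma])
    have h2 := (zpowers_le_of_mem hm) (mem_map_conj_iff.1 (hg ▸ mem_zpowers a))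
    have h3 := (inferInstance : M.Normal).conj_mem _ h2 g
    simpa [mul_assoc] using h3
  refine ⟨h1, fun p t hp ht hc hE P => ?_⟩
  have hA : AbPConj p G := fun A B hA hB' _ _ h => hB A B hA hB' h
  have hM : IsPGroup p M := IsPGroup.of_card hc
  refine le_antisymm (fun x hx => ?_) (hM.le_sylow_of_normal P)
  obtain ⟨E, hE2⟩ := Sylow.exists_subgroup_card_pow_prime (G := M) p (n := 2) (hc ▸ pow_dvd_pow p ht)
  have hE1 : IsElementaryAbelian p (E.map M.subtype) := by
    haveI := hE.1
    refine ⟨⟨⟨fun a b => Subtype.ext ?_⟩⟩, fun a ha => hE.2 a (map_subtype_le E ha)⟩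
    exact setLike_mul_comm (s := M) (map_subtype_le E a.2) (map_subtype_le E b.2)
  obtain ⟨k, hk⟩ := (IsPGroup.iff_orderOf.1 P.2) ⟨x, hx⟩
  have hxp : x ^ p = 1 := hA.pow_eq_one hp.out hE1
    (by rw [card_map_of_injective M.subtype_injective, hE2]) (k := k) (by rw [← hk, Subgroup.orderOf_mk])
  by_cases hx1 : x = 1
  · exact hx1 ▸ M.one_mem
  · obtain ⟨m, hm⟩ := exists_prime_orderOf_dvd_card' (G := M) p (hc ▸ dvd_pow_self p (by omega))
    exact h1 x ⟨m, m.2, by rw [Subgroup.orderOf_coe, hm, orderOf_eq_prime hxp hx1]⟩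

end Cfsg.Agent.S3909
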