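import Cfsg.Statements.S3910
import Cfsg.Agent.Fgs.EqConj
import Cfsg.Agent.Grp.PGroupMaxClass

set_option autoImplicit false
open Cfsg

namespace Cfsg.Agent.S3910

open CL.Fgs CL.Grp Subgroup

/-- A finite nilpotent group in which any two abelian subgroups of the same order are conjugate is cyclic. -/
theorem result {G : Type*} [Group G] [Finite G] (hB : ∀ A B : Subgroup G, IsMulCommutative ↥A → IsMulCommutative ↥B → Nat.card ↥A = Nat.card ↥B → ∃ g : G, B = A.map (MulAut.conj g).toMonoidHom) (hnil : Group.IsNilpotent G) : IsCyclic G := by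
  haveI : IsZGroup G := by
    refine ⟨fun p hp P => ?_⟩
    haveI := Fact.mk hp
    have hA : AbPConj p G := fun A B hA hB' _ _ h => hB A B hA hB' h
    -- conjugate elements of `P` are conjugate in `P`
    have key : ∀ (x y : P) (k : ℕ), orderOf x = p ^ k → orderOf y = p ^ k → (zpowers y).Normal →
        x ∈ zpowers y := by
      intro x y k hx hy hn
      obtain ⟨g, hg⟩ := exists_conj_mem_of_orderOf_eq hA (x := (x : G)) (y := (y : G)) (k := k)
        (by rw [Subgroup.orderOf_coe, hx]) (by rw [Subgroup.orderOf_coe, hy])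
      obtain ⟨u, hu, c, hc, -, rfl⟩ := exists_sylow_mul_centralizer P g
      have h1 : (u * c)⁻¹ * x * (u * c) = u⁻¹ * x * u := by
        have := hc _ ((P : Subgroup G).mul_mem ((P : Subgroup G).mul_mem ((P : Subgroup G).inv_mem hu) x.2) hu)
        rw [mul_inv_rev, mul_assoc c⁻¹, mul_assoc c⁻¹, ← mul_assoc _ u c, this]; group
      rw [h1] at hg
      obtain ⟨i, hi⟩ := mem_zpowers_iff.1 hg
      have h2 : (⟨u, hu⟩ : P)⁻¹ * x * ⟨u, hu⟩ ∈ zpowers y :=
        mem_zpowers_iff.2 ⟨i, Subtype.ext (by simpa using hi)⟩
      simpa [mul_assoc] using hn.conj_mem _ h2 ⟨u, hu⟩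
    by_cases hP : Nontrivial P
    swap
    · rw [not_nontrivial_iff_subsingleton] at hP; exact isCyclic_of_subsingleton
    haveI : Group.IsNilpotent P := P.2.isNilpotent
    obtain ⟨z, hz⟩ := exists_prime_orderOf_dvd_card' (G := center P) p (dvd_card_center P.2)
    have hzn : (zpowers (z : P)).Normal := by
      refine normal_of_commutator_mem fun x hx g => ?_
      have : x ∈ center P := zpowers_le_of_mem z.2 hx
      rw [commutatorElement_eq_one_iff_mul_comm.2 (mem_center_iff.1 this g).symm]
      exact one_mem _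
    have hz' : orderOf (z : P) = p ^ 1 := by rw [Subgroup.orderOf_coe, hz, pow_one]
    rcases hA.cases P.2 with h | ⟨rfl, n, a, b, h, h1, h2⟩ | h
    · exact h
    · exfalso
      have hn := h.two_le
      have hb : orderOf b = 2 ^ 2 := by
        apply orderOf_eq_prime_pow
        · rw [pow_one, h1]
          intro h3
          have := h.orderOf_z
          rw [h3, orderOf_one] at this
          exact absurd this (by norm_num)
        · rw [show 2 ^ (1 + 1) = 2 * 2 by norm_num, pow_mul, h1]
          exact orderOf_dvd_iff_pow_eq_one.1 h.orderOf_z.dvd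
      have ha : orderOf (a ^ 2 ^ (n - 2)) = 2 ^ 2 := by
        rw [h.orderOf_pow_two_pow (by omega)]; congr 1; omega
      haveI := h.normal
      have := key b _ 2 hb ha (normal_zpowers_of_mem (pow_mem (mem_zpowers a) _))
      exact h.notMem (zpowers_le_of_mem (pow_mem (mem_zpowers a) _) this)
    · refine ⟨⟨z, fun x => ?_⟩⟩
      by_cases hx : x = 1
      · exact hx ▸ one_mem (zpowers (z : P))
      · refine key x z 1 ?_ hz' hzn
        rw [pow_one]
        exact orderOf_eq_prime (Subtype.ext (h x x.2)) hx
  infer_instance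

end Cfsg.Agent.S3910
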