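import Cfsg.Statements.S3917
import Cfsg.Agent.Fgs.EqConj

set_option autoImplicit false
open Cfsg

namespace Cfsg.Agent.S3917

open CL.Fgs CL.Grp Subgroup

/-- Say that a group has self-centralizing non-cyclic subgroups when every non-cyclic subgroup H satisfies C_G(H) ≤ H. A finite abelian group with self-centralizing non-cyclic subgroups is cyclic or elementary abelian of order p² for a prime p. -/
theorem result {G : Type*} [CommGroup G] [Finite G] (hX : (∀ H : Subgroup G, ¬ IsCyclic ↥H → Subgroup.centralizer (H : Set G) ≤ H)) :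
    IsCyclic G ∨ ∃ p : ℕ, p.Prime ∧ Nat.card G = p ^ 2 ∧ Monoid.exponent G = p := by
  by_cases hZ : IsZGroup G
  · exact Or.inl inferInstance
  right
  rw [isZGroup_iff] at hZ
  push Not at hZ
  obtain ⟨p, hp, P, hP⟩ := hZ
  haveI := Fact.mk hp
  have h1 : ∃ E : Subgroup P, IsElementaryAbelian p E ∧ Nat.card E = p ^ 2 := by
    by_contra h
    push Not at h
    rcases isCyclic_or_quaternion_of_forall_ea P.2 h with h2 | ⟨-, n, a, b, h2, -⟩
    · exact hP h2
    · exact h2.not_commute (mul_comm a b)
  obtain ⟨E, hE, hc⟩ := h1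
  have hE' := isElementaryAbelian_map_subtype hE
  have hc' : Nat.card (E.map (P : Subgroup G).subtype) = p ^ 2 := by
    rw [card_map_of_injective (P : Subgroup G).subtype_injective, hc]
  generalize E.map (P : Subgroup G).subtype = F at hE' hc'
  have hlt : p < p ^ 2 := by have := hp.two_le; nlinarith
  have hF : ¬ IsCyclic F := fun hF => by
    obtain ⟨g, hg⟩ := hF.exists_ofOrder_eq_natCard
    have h2 : g ^ p = 1 := Subtype.ext (hE'.2 g g.2)
    have := Nat.le_of_dvd hp.pos (orderOf_dvd_of_pow_eq_one h2)
    omega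
  have hT : F = ⊤ := eq_top_iff.2 fun x _ => hX F hF fun y _ => mul_comm y x
  subst hT
  rw [card_top] at hc'
  refine ⟨p, hp, hc', ?_⟩
  haveI : Nontrivial G := Finite.one_lt_card_iff_nontrivial.1 (by have := hp.two_le; omega)
  exact (Monoid.exponent_eq_prime_iff hp).2 fun g hg => orderOf_eq_prime (hE'.2 g (mem_top g)) hg

end Cfsg.Agent.S3917
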