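import Cfsg.Statements.S3918
import Cfsg.Agent.Fgs.Metacyclic
import Cfsg.Agent.Grp.PGroupSCN
import Cfsg.Agent.Grp.PGroupCyc
import Cfsg.Agent.Grp.PGroupMaxClass

set_option autoImplicit false
open Cfsg

namespace Cfsg.Agent.S3918

open Subgroup
open scoped commutatorElement

/-- Say that a group has self-centralizing non-cyclic subgroups when every non-cyclic subgroup H satisfies C_G(H) ≤ H. For an odd prime p, a finite non-abelian p-group has self-centralizing non-cyclic subgroups if and only if it has order p³. -/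
theorem result {G : Type*} [Group G] [Finite G] {p : ℕ} [Fact p.Prime] (hp : p ≠ 2) (hG : IsPGroup p G) (hna : ¬ IsMulCommutative G) :
    (∀ H : Subgroup G, ¬ IsCyclic ↥H → Subgroup.centralizer (H : Set G) ≤ H) ↔ Nat.card G = p ^ 3 := by
  have hp' : p.Prime := Fact.out
  constructor
  · intro h
    obtain ⟨A, hA, hE, hc⟩ := CL.Grp.exists_normal_elementary_sq_of_odd hp hG (fun _ => hna inferInstance)
    have hnc : ¬ IsCyclic A := fun hcy => by
      have := CL.Fgs.card_dvd_of_isCyclic_of_pow hcy (n := p) fun x => Subtype.ext (hE.2 x x.2)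
      rw [hc] at this
      have := Nat.le_of_dvd hp'.pos this
      nlinarith [hp'.two_le]
    have h1 := CL.Grp.card_le_pow_of_selfCentralizing hG A (h A hnc) hc
    obtain ⟨k, hk⟩ := IsPGroup.iff_card.1 hG
    rw [hk] at h1 ⊢
    have h2 := (Nat.pow_le_pow_iff_right hp'.one_lt).1 h1
    have h3 : ¬ k ≤ 2 := fun h3 => hna (CL.Grp.isMulCommutative_of_card_dvd_prime_sq (p := p) (hk ▸ pow_dvd_pow p h3))
    congr 1
    omega
  · intro hc H hH
    by_contra hne
    obtain ⟨x, hx, hxH⟩ := SetLike.not_le_iff_exists.1 hne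
    have hlt : H < H ⊔ zpowers x := left_lt_sup.2 fun h => hxH (zpowers_le.1 h)
    have hH2 : Nat.card H ∣ p ^ 2 := by
      have := (CL.Grp.mul_card_dvd_card_of_lt hG hlt).trans (card_subgroup_dvd_card _)
      rw [hc, pow_succ'] at this
      exact Nat.dvd_of_mul_dvd_mul_left hp'.pos this
    have hHc := CL.Grp.isMulCommutative_of_card_dvd_prime_sq hH2
    have h2 : p ^ 2 ≤ Nat.card H := by
      obtain ⟨k, hk, hk'⟩ := (Nat.dvd_prime_pow hp').1 hH2
      rw [hk']
      refine Nat.pow_le_pow_right hp'.pos ?_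
      by_contra h
      refine hH (isCyclic_of_card_dvd_prime (p := p) ?_)
      rw [hk']
      exact (pow_dvd_pow p (show k ≤ 1 by omega)).trans (by simp)
    have h3 : H ⊔ zpowers x = ⊤ := by
      refine eq_top_of_le_card _ ?_
      rw [hc, pow_succ']
      exact (Nat.mul_le_mul_left p h2).trans (Nat.le_of_dvd Nat.card_pos (CL.Grp.mul_card_dvd_card_of_lt hG hlt))
    have h4 := CL.Grp.isMulCommutative_sup hHc (inferInstance : IsMulCommutative (zpowers x))
      (le_centralizer_iff.1 (zpowers_le.2 hx))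
    rw [h3] at h4
    exact hna ⟨⟨fun a b => congrArg Subtype.val (h4.1.1 ⟨a, mem_top a⟩ ⟨b, mem_top b⟩)⟩⟩

end Cfsg.Agent.S3918
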