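import Cfsg.Statements.S3919
import Cfsg.Agent.Fgs.EqConj
import Cfsg.Agent.Grp.PGroupMaxClass

set_option autoImplicit false
open Cfsg

namespace Cfsg.Agent.S3919

open CL.Fgs CL.Grp Subgroup

/-- Say that a group has self-centralizing non-cyclic subgroups when every non-cyclic subgroup H satisfies C_G(H) ≤ H. A finite non-abelian 2-group G of order 2^n has self-centralizing non-cyclic subgroups if and only if G has nilpotency class n − 1 (that is, G is dihedral, semidihedral or generalized quaternion). -/
theorem result {G : Type*} [Group G] [Finite G] (hna : ¬ IsMulCommutative G) (n : ℕ) (hG : Nat.card G = 2 ^ n) :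
    (∀ H : Subgroup G, ¬ IsCyclic ↥H → Subgroup.centralizer (H : Set G) ≤ H) ↔ (⊤ : Subgroup G).lowerCentralSeries (n - 2) ≠ ⊥ := by
  have hP : IsPGroup 2 G := IsPGroup.of_card hG
  haveI : Group.IsNilpotent G := hP.isNilpotent
  have hn : 3 ≤ n := by
    by_contra h
    exact hna (isMulCommutative_of_card_dvd_prime_sq (p := 2) (hG ▸ pow_dvd_pow 2 (by omega)))
  have hcl : (⊤ : Subgroup G).lowerCentralSeries (n - 2) ≠ ⊥ ↔ Group.nilpotencyClass G = n - 1 := by
    have h1 := nilpotencyClass_le_of_card_dvd_pow (p := 2) (n - 2) G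
      (by rw [hG, show n - 2 + 2 = n by omega])
    rw [Ne, Subgroup.lowerCentralSeries_eq_bot_iff_nilpotencyClass_le]
    omega
  rw [hcl]
  constructor
  · intro h
    by_cases hE : ∀ E : Subgroup G, IsElementaryAbelian 2 E → Nat.card E ≠ 2 ^ 2
    · rcases isCyclic_or_quaternion_of_forall_ea hP hE with h1 | ⟨-, m, a, b, h1, -⟩
      · exact (hna inferInstance).elim
      · have h2 := h1.card
        rw [hG] at h2
        have := Nat.pow_right_injective le_rfl h2
        rw [h1.nilpotencyClass_eq]; omega
    · push Not at hE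
      obtain ⟨E, hE, hc⟩ := hE
      have hF : ¬ IsCyclic E := fun hF => by
        obtain ⟨g, hg⟩ := hF.exists_ofOrder_eq_natCard
        have h2 : g ^ 2 = 1 := Subtype.ext (hE.2 g g.2)
        have := Nat.le_of_dvd two_pos (orderOf_dvd_of_pow_eq_one h2)
        omega
      haveI := hE.1
      obtain ⟨x, hx⟩ := exists_centralizer_eq_of_selfCentralizing_sq hP E hc
        (le_antisymm (h E hF) (le_centralizer E))
      have := nilpotencyClass_eq_of_card_centralizer_le (p := 2) (n - 2) G
        (by rw [hG, show n - 2 + 2 = n by omega]) x (by rw [hx, hc])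
      omega
  · intro h H hH c hc
    obtain ⟨a, b, hab⟩ := exists_dqsGen_of_maxClass hG hn h
    set m := n - 1 with hm
    have hm2 := hab.two_le
    obtain ⟨y, hyH, hy⟩ : ∃ y ∈ H, y ∉ zpowers a := by
      by_contra h1
      push Not at h1
      exact hH (isCyclic_of_le (H' := zpowers a) h1)
    -- the central involution lies in `H`
    have hz : a ^ 2 ^ (m - 1) ∈ H := by
      have h1 : H ⊓ zpowers a ≠ ⊥ := by
        intro h1
        have h2 : (zpowers a).relIndex H ∣ 2 := hab.index ▸ haveI := hab.normal; relIndex_dvd_index_of_normal _ _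
        rw [← inf_relIndex_left, h1, relIndex_bot_left] at h2
        exact hH (isCyclic_of_card_dvd_prime h2)
      obtain ⟨p, x, hp, hx, hxp⟩ := exists_mem_orderOf_prime h1
      obtain ⟨k, hk⟩ := IsPGroup.iff_orderOf.1 hP x
      have hp2 : p = 2 := (Nat.prime_dvd_prime_iff_eq hp Nat.prime_two).1
        (hp.dvd_of_dvd_pow (n := k) (by rw [← hk, hxp]))
      subst hp2
      have h3 := mem_zpowers_pow_of_pow_eq_one (m := m - 1) two_ne_zero
        (by rw [hab.ord]; congr 1; omega) hx.2 (hxp ▸ pow_orderOf_eq_one x)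
      have h4 : zpowers x = zpowers (a ^ 2 ^ (m - 1)) :=
        eq_of_le_of_card_ge (zpowers_le_of_mem h3) (by rw [Nat.card_zpowers, Nat.card_zpowers, hxp, hab.orderOf_z])
      exact zpowers_le_of_mem hx.1 (h4 ▸ mem_zpowers _)
    have key : ∀ j : ℤ, Commute (a ^ j) y → a ^ j ∈ H := by
      intro j hj
      obtain ⟨i, rfl | rfl⟩ := hab.elt y
      · exact absurd (zpow_mem_zpowers a i) hy
      have h1 : Commute (a ^ j) b := by
        have := ((Commute.zpow_zpow_self a j i).inv_right).mul_right hj
        simpa using this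
      obtain ⟨t, rfl⟩ := (hab.zpow_commute_iff j).1 h1
      rw [zpow_mul]
      refine H.zpow_mem ?_ t
      rw [← zpow_natCast] at hz
      exact_mod_cast hz
    have hcy : Commute c y := (hc y hyH).symm
    by_cases hca : c ∈ zpowers a
    · obtain ⟨j, rfl⟩ := mem_zpowers_iff.1 hca
      exact key j hcy
    · have h1 : c * y⁻¹ ∈ zpowers a :=
        (mul_mem_iff_of_index_two hab.index).2 (by simp [hca, hy])
      obtain ⟨j, hj⟩ := mem_zpowers_iff.1 h1
      have h2 := key j (hj ▸ hcy.mul_left (Commute.refl y).inv_left)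
      rw [hj] at h2
      simpa using H.mul_mem h2 hyH

end Cfsg.Agent.S3919
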