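import Cfsg.Statements.S3920
import Cfsg.Agent.Fgs.Dihedral

set_option autoImplicit false
open Cfsg

namespace Cfsg.Agent.S3920

open DihedralGroup CL.Fgs

/-- Say that a group has self-centralizing non-cyclic subgroups when every non-cyclic subgroup H satisfies C_G(H) ≤ H. For n ≥ 3, the dihedral group of order 2n has self-centralizing non-cyclic subgroups if and only if n is odd or a power of 2. -/
theorem result (n : ℕ) (hn : 3 ≤ n) : (∀ H : Subgroup (DihedralGroup n), ¬ IsCyclic ↥H → Subgroup.centralizer (H : Set (DihedralGroup n)) ≤ H) ↔ (Odd n ∨ ∃ k : ℕ, n = 2 ^ k) := by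
  have : NeZero n := ⟨by omega⟩
  constructor
  · intro h
    by_contra hcon
    push Not at hcon
    obtain ⟨hodd, hpow⟩ := hcon
    rw [Nat.not_odd_iff_even] at hodd
    obtain ⟨m, hm⟩ := hodd
    obtain ⟨p, hp, hpn, hp2⟩ : ∃ p, p.Prime ∧ p ∣ n ∧ p ≠ 2 := by
      by_contra h1
      push Not at h1
      exact hpow _ (Nat.eq_prime_pow_of_unique_prime_dvd (by omega) (fun hd hdn => h1 _ hd hdn))
    obtain ⟨q, hq⟩ := hpn
    let A : AddSubgroup (ZMod n) := (AddMonoidHom.mulLeft (p : ZMod n)).ker
    have hA : ∀ i, i ∈ A ↔ (p : ZMod n) * i = 0 := fun i => Iff.rfl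
    have hodd : Odd p := hp.odd_of_ne_two hp2
    have key : ∀ i : ZMod n, i ∈ A → i + i = 0 → i = 0 := by
      intro i hi h2
      obtain ⟨k, hk⟩ := hodd
      rw [hA, hk] at hi
      push_cast at hi
      linear_combination hi - (k : ZMod n) * h2
    have hq0 : (q : ZMod n) ≠ 0 := by
      rw [Ne, ZMod.natCast_eq_zero_iff]
      intro hd
      have hq1 : 0 < q := Nat.pos_of_ne_zero (by rintro rfl; omega)
      have := Nat.le_of_dvd hq1 hd
      have := hp.two_le
      nlinarith
    have hqA : (q : ZMod n) ∈ A := by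
      rw [hA, ← Nat.cast_mul, ← hq, ZMod.natCast_self]
    have hnc : ¬ IsCyclic (dihSub A) := by
      intro hc
      let _ : CommGroup (dihSub A) := IsCyclic.commGroup
      have h1 := congrArg Subtype.val (mul_comm (⟨r q, r_mem_dihSub.2 hqA⟩ : dihSub A)
        ⟨sr 0, sr_mem_dihSub.2 A.zero_mem⟩)
      change r (q : ZMod n) * sr 0 = sr 0 * r q at h1
      simp only [r_mul_sr, sr_mul_r, sr.injEq] at h1
      exact hq0 (key _ hqA (by linear_combination -h1))
    have hmm : (m : ZMod n) + m = 0 := by rw [← Nat.cast_add, ← hm, ZMod.natCast_self]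
    have hm0 : (m : ZMod n) ≠ 0 := by
      rw [Ne, ZMod.natCast_eq_zero_iff]
      intro hd
      have := Nat.le_of_dvd (by omega) hd
      omega
    have hc : r (m : ZMod n) ∈ Subgroup.centralizer (dihSub A : Set (DihedralGroup n)) := by
      rw [Subgroup.mem_centralizer_iff]
      rintro (i | i) -
      · simp [add_comm]
      · simp only [r_mul_sr, sr_mul_r, sr.injEq]
        linear_combination hmm
    exact hm0 (key _ (r_mem_dihSub.1 (h _ hnc hc)) hmm)
  · intro h H hH
    obtain ⟨j, hj, i, hi0, hi⟩ := dih_exists_of_not_isCyclic H hH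
    have key : ∀ k : ZMod n, k + k = 0 → r k ∈ H := by
      intro k hk
      by_cases hk0 : k = 0
      · rw [hk0]; exact H.one_mem
      rcases h with h | ⟨a, ha⟩
      · exact absurd (zmod_eq_zero_of_odd h hk) hk0
      · have h1 : ∀ b : ℕ, ∀ i : ZMod n, i ≠ 0 → r i ∈ H → 2 ^ b * i = 0 → r k ∈ H := by
          intro b
          induction b with
          | zero => intro i hi0 _ h; exact absurd (by simpa using h) hi0
          | succ b ih =>
            intro i hi0 hi h
            by_cases h2 : i + i = 0
            · rw [zmod_eq_of_add_self_eq_zero hk hk0 h2 hi0]; exact hi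
            · exact ih (i + i) h2 (H.mul_mem hi hi) (by linear_combination h)
        refine h1 a i hi0 hi ?_
        have : ((n : ℕ) : ZMod n) = 0 := ZMod.natCast_self n
        rw [show (2 : ZMod n) ^ a = ((2 ^ a : ℕ) : ZMod n) by push_cast; rfl, ← ha, this, zero_mul]
    rintro (k | k) hk
    · have h1 := Subgroup.mem_centralizer_iff.1 hk _ hj
      simp only [r_mul_sr, sr_mul_r, sr.injEq] at h1
      exact key k (by linear_combination h1)
    · have h1 := Subgroup.mem_centralizer_iff.1 hk _ hj
      simp only [sr_mul_sr, r.injEq] at h1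
      have h2 := H.mul_mem hj (key (k - j) (by linear_combination h1))
      simpa using h2

end Cfsg.Agent.S3920
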