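import Cfsg.Statements.S3928
import Cfsg.Agent.Fgs.InvOdd

set_option autoImplicit false
open Cfsg

namespace Cfsg.Agent.S3928

/-- There is a function f such that for every non-trivial finite group G and every automorphism α of G of order 2 with [G, α] = G (the elements g·α(g)⁻¹ generate G), the order of G is at most f(m), where m is the number of elements of odd order inverted by α. -/
theorem result : ∃ f : ℕ → ℕ, ∀ (G : Type) [Group G] [Finite G] [Nontrivial G] (α : MulAut G), orderOf α = 2 →
    Subgroup.closure (Set.range (fun c : G => c * (α c)⁻¹)) = ⊤ →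
      Nat.card G ≤ f (Nat.card {g : G // Odd (orderOf g) ∧ α g = g⁻¹}) := by
  choose f hf using CL.Fgs.card_le_of_invOdd.{0}
  refine ⟨f, fun G _ _ _ α hα hG => ?_⟩
  have h2 : ∀ x, α (α x) = x := fun x => by
    have := pow_orderOf_eq_one α
    rw [hα, sq] at this
    exact congrArg (fun f : MulAut G => f x) this
  exact hf _ G α h2 (CL.Fgs.closure_invOdd α h2 hG) (le_of_eq (Nat.card_coe_set_eq _).symm)

end Cfsg.Agent.S3928
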