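import Cfsg.Statements.S3929
import Cfsg.Agent.IO2.N0a
import Cfsg.Agent.IO2.N0
import Cfsg.Agent.IO2.Cen
import Cfsg.Agent.IO2.Cnt
import Cfsg.Agent.IO2.Mod
import Cfsg.Agent.IO2.Sq
import Cfsg.Agent.IO2.Two
import Cfsg.Agent.IO2.MM
import Cfsg.Agent.IO2.ZL
import Cfsg.Agent.IO2.Fin

set_option autoImplicit false
open Cfsg

namespace Cfsg.Agent.S3929

/-- Let G be a non-trivial finite group and α an automorphism of G of order 2 with [G, α] = G (the elements g·α(g)⁻¹ generate G), and let m be the number of elements of odd order inverted by α. Then the index of the Fitting subgroup of G is less than (m!)⁴. -/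
theorem result {G : Type*} [Group G] [Finite G] [Nontrivial G] (α : MulAut G) (hα : orderOf α = 2)
    (hG : Subgroup.closure (Set.range (fun c : G => c * (α c)⁻¹)) = ⊤) :
    (Cfsg.fittingSubgroup G).index < (Nat.card {g : G // Odd (orderOf g) ∧ α g = g⁻¹}).factorial ^ 4 := by
  have h2 : ∀ x, α (α x) = x := fun x => by
    have := pow_orderOf_eq_one α
    rw [hα, sq] at this
    exact congrArg (fun f : MulAut G => f x) this
  open CL.IO2 in
  exact fin (zl (mm (cen (n0 n0a)) cnt (two mod sq cq)) cdf) _ G α rfl h2 (CL.Fgs.closure_invOdd α h2 hG)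

end Cfsg.Agent.S3929
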