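import Cfsg.Statements.S3937
import Cfsg.Agent.Grp.Zipper
import Cfsg.Agent.Grp.Fitting

set_option autoImplicit false
open Cfsg

namespace Cfsg.Agent.S3937

section Helpers
open Subgroup CL.Grp
open scoped Pointwise

variable {G : Type*} [Group G]

/-- iterated commutator -/
def eng (g x : G) (n : ℕ) : G := (fun a => a * g * a⁻¹ * g⁻¹)^[n] x

theorem foldl_eq (g x : G) (n : ℕ) :
    (List.replicate n g).foldl (fun a b => a * b * a⁻¹ * b⁻¹) x = eng g x n := by
  induction n generalizing x with
  | zero => rfl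
  | succ n ih => rw [List.replicate_succ, List.foldl_cons, ih]; rfl

theorem eng_succ (g x : G) (n : ℕ) : eng g x (n + 1) = eng g x n * g * (eng g x n)⁻¹ * g⁻¹ :=
  Function.iterate_succ_apply' _ _ _

theorem subnIn_of_engel [Finite G] {g : G} (h : ∀ x : G, ∃ n, eng g x n = 1) (K : Subgroup G) :
    g ∈ K → SubnIn (zpowers g) K := by
  induction K using WellFoundedLT.induction with
  | ind K ih =>
  intro hg
  by_contra hc
  obtain ⟨M, hM1, hM2, hM3⟩ := zipper_lemma_in (zpowers_le.2 hg)
    (fun V hV hVK => ih V hVK (zpowers_le.1 hV)) hc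
  have hgM : g ∈ M := zpowers_le.1 hM1
  have key : ∀ x ∈ K, x * g * x⁻¹ * g⁻¹ ∈ M → x ∈ M := by
    intro x hx hxM
    have h1 : x * g * x⁻¹ ∈ M := by simpa using M.mul_mem hxM hgM
    have h2 : MulAut.conj x⁻¹ • M ≤ M := by
      refine hM3 _ (zpowers_le.2 ?_) (lt_of_le_of_ne (conj_smul_le_of_mem hM2.le (K.inv_mem hx)) ?_)
      · rw [Subgroup.mem_pointwise_smul_iff_inv_smul_mem]; simpa using h1
      · intro h3
        have h4 : MulAut.conj x • MulAut.conj x⁻¹ • M = K := by rw [h3, conj_smul_eq_of_mem hx]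
        rw [smul_smul, ← map_mul, mul_inv_cancel, map_one, one_smul] at h4
        exact hM2.ne h4
    have h3 : x ∈ normalizer (M : Set G) := by
      rw [← inv_mem_iff, mem_normalizer_iff_conj_smul_eq]
      exact Subgroup.eq_of_le_of_card_ge h2 (Nat.card_congr (Subgroup.equivSMul _ M).toEquiv).le
    by_cases h4 : K ⊓ normalizer (M : Set G) = K
    · exact absurd ((ih M hM2 hgM).trans (SubnIn.of_le_normalizer hM2.le (inf_eq_left.1 h4))) hc
    · exact hM3 _ (hM1.trans (le_inf hM2.le le_normalizer)) (lt_of_le_of_ne inf_le_left h4) ⟨hx, h3⟩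
  obtain ⟨x, hxK, hxM⟩ := SetLike.exists_of_lt hM2
  have h5 : ∀ n, eng g x n ∈ K ∧ eng g x n ∉ M := by
    intro n
    induction n with
    | zero => exact ⟨hxK, hxM⟩
    | succ n ihn =>
      rw [eng_succ]
      exact ⟨K.mul_mem (K.mul_mem (K.mul_mem ihn.1 hg) (K.inv_mem ihn.1)) (K.inv_mem hg),
        fun h6 => ihn.2 (key _ ihn.1 h6)⟩
  obtain ⟨n, hn⟩ := h x
  exact (h5 n).2 (hn ▸ M.one_mem)

end Helpers

/-- Baer's characterization of the Fitting subgroup: in a finite group G, an element g lies in the Fitting subgroup if and only if g is a left Engel element, that is, for every x there is n with [x, g, g, …, g] = 1 (n entries g, [a, b] = aba⁻¹b⁻¹). -/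
theorem result {G : Type*} [Group G] [Finite G] (g : G) :
    g ∈ Cfsg.fittingSubgroup G ↔ ∀ x : G, ∃ n : ℕ, (List.replicate n g).foldl (fun a b => a * b * a⁻¹ * b⁻¹) x = 1 := by
  simp only [foldl_eq]
  constructor
  · intro hg x
    have hF := CL.Grp.fittingSubgroup_isNilpotent G
    obtain ⟨n, hn⟩ := (Subgroup.isNilpotent_iff_lowerCentralSeries _).1 hF
    have h1 : ∀ k, eng g x (k + 1) ∈ (Cfsg.fittingSubgroup G).lowerCentralSeries k := by
      intro k
      induction k with
      | zero =>
        rw [eng_succ]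
        exact mul_mem ((CL.Grp.fittingSubgroup_normal G).conj_mem g hg _) (inv_mem hg)
      | succ k ih =>
        rw [eng_succ]
        exact Subgroup.commutator_mem_commutator ih hg
    have h3 := h1 n
    rw [hn, Subgroup.mem_bot] at h3
    exact ⟨n + 1, h3⟩
  · intro h
    have := CL.Grp.subnIn_top_iff.1 (subnIn_of_engel h ⊤ (Subgroup.mem_top g))
    exact CL.Grp.le_fittingSubgroup_of_isSubnormal this
      (CL.Grp.isNilpotent_of_isMulCommutative inferInstance) (Subgroup.mem_zpowers g)

end Cfsg.Agent.S3937
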