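import Cfsg.Statements.S3939
import Cfsg.Agent.Grp.NilpSub

set_option autoImplicit false
open Cfsg

namespace Cfsg.Agent.S3939

section Helpers
open Subgroup CL.Grp
open scoped Pointwise

universe u

theorem nil_of_mem (n : ℕ) : ∀ (G : Type u) [Group G] (g : G), g ∈ Subgroup.upperCentralSeries G n →
    ∀ x : G, Group.IsNilpotent (closure ({x, g} : Set G)) := by
  induction n with
  | zero =>
    intro G _ g hg x
    rw [Subgroup.upperCentralSeries_zero, mem_bot] at hg
    have : closure ({x, g} : Set G) ≤ zpowers x := by
      rw [closure_le]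
      rintro y (rfl | rfl)
      · exact mem_zpowers _
      · rw [hg]; exact one_mem _
    exact isNilpotent_of_le (isNilpotent_of_isMulCommutative inferInstance) this
  | succ n ih =>
    intro G _ g hg x
    rw [← Subgroup.comap_upperCentralSeries_quotient_center] at hg
    have h1 := ih (G ⧸ center G) _ hg (QuotientGroup.mk' _ x)
    have h2 : (closure ({x, g} : Set G)).map (QuotientGroup.mk' (center G)) =
        Subgroup.closure {QuotientGroup.mk' _ x, QuotientGroup.mk' _ g} := by
      rw [MonoidHom.map_closure, Set.image_pair]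
    rw [← h2] at h1
    refine Subgroup.isNilpotent_of_ker_le_center ((QuotientGroup.mk' (center G)).subgroupMap _) ?_
    intro y hy
    have h3 : (y : G) ∈ center G := (QuotientGroup.eq_one_iff _).1 (congrArg Subtype.val hy)
    rw [mem_center_iff] at h3 ⊢
    exact fun z => Subtype.ext (h3 z)

theorem center_ne_bot {G : Type*} [Group G] [Finite G] {g : G} (hg : g ≠ 1)
    (h : ∀ x : G, Group.IsNilpotent (closure ({x, g} : Set G))) : center G ≠ ⊥ := by
  obtain ⟨p, k, hp, hk⟩ := exists_pow_orderOf_prime hg
  haveI := Fact.mk hp
  let N : Subgroup G := closure {y : G | p.Coprime (orderOf y)}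
  have hNn : N.Normal := by
    refine ⟨fun y hy a => ?_⟩
    refine closure_induction (p := fun y _ => a * y * a⁻¹ ∈ N) (fun y hy => subset_closure ?_)
      (by simp) (fun y z _ _ h1 h2 => ?_) (fun y _ h1 => ?_) hy
    · have : orderOf (a * y * a⁻¹) = orderOf y :=
        (MulAut.conj a).orderOf_eq y
      simpa [this] using hy
    · simpa [mul_assoc] using N.mul_mem h1 h2
    · simpa [mul_assoc] using N.inv_mem h1
  obtain ⟨P, hP⟩ := (isPGroup_zpowers_of_orderOf_eq hk).exists_le_sylow
  have hz : g ^ k ∈ centralizer (N : Set G) := by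
    rw [centralizer_closure]
    intro y hy
    refine commute_of_mem_isNilpotent (h y) (subset_closure (by simp))
      (pow_mem (subset_closure (by simp)) k) ?_
    rw [hk]; exact Nat.Coprime.symm hy
  obtain ⟨w, hw, hw1, hwP⟩ := exists_central_of_isNilpotent (K := P) (N := centralizer (N : Set G) ⊓ P)
    P.isPGroup'.isNilpotent inf_le_right
    (le_trans (le_inf (by rw [normalizer_eq_top]; exact le_top) le_normalizer) inf_normalizer_le_normalizer_inf)
    (fun h0 => ne_one_of_orderOf_prime hp hk (by
      have : g ^ k ∈ centralizer (N : Set G) ⊓ P := ⟨hz, hP (mem_zpowers _)⟩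
      rwa [h0, mem_bot] at this))
  have htop : centralizer ({w} : Set G) = ⊤ := by
    refine eq_top_of_forall_sylow_le fun q _ => ?_
    by_cases hq : q = p
    · subst hq; exact ⟨P, hwP⟩
    · refine ⟨default, fun y hy => ?_⟩
      refine le_centralizer_singleton_iff.2 hw.1 (subset_closure ?_)
      exact (orderOf_coprime_of_mem_isPGroup (default : Sylow q G).isPGroup' hy
        ((Nat.coprime_primes Fact.out hp).2 hq)).symm
  intro h0
  have : w ∈ center G := mem_center_iff.2 fun y =>
    mem_centralizer_singleton_iff.1 (htop ▸ mem_top y : y ∈ centralizer ({w} : Set G))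
  exact hw1 (by rwa [h0, mem_bot] at this)

theorem mem_of_nil (m : ℕ) : ∀ (G : Type u) [Group G] [Finite G] (g : G), Nat.card G ≤ m →
    (∀ x : G, Group.IsNilpotent (closure ({x, g} : Set G))) → ∃ n, g ∈ Subgroup.upperCentralSeries G n := by
  induction m with
  | zero => intro G _ _ g hG; exact absurd hG (Nat.card_pos.not_ge)
  | succ m ih =>
    intro G _ _ g hG h
    by_cases hg : g = 1
    · exact ⟨0, hg ▸ one_mem _⟩
    have h1 := center_ne_bot hg h
    have h2 : Nat.card (G ⧸ center G) ≤ m := by
      have h3 := (center G).index_mul_card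
      have h4 := (center G).one_lt_card_iff_ne_bot.2 h1
      have h5 : 0 < (center G).index := Nat.pos_of_ne_zero (center G).index_ne_zero_of_finite
      rw [← index_eq_card]
      nlinarith
    obtain ⟨n, hn⟩ := ih (G ⧸ center G) (QuotientGroup.mk' _ g) h2 fun x => by
      obtain ⟨x, rfl⟩ := QuotientGroup.mk'_surjective _ x
      have := isNilpotent_map (h x) (QuotientGroup.mk' (center G))
      rwa [MonoidHom.map_closure, Set.image_pair] at this
    exact ⟨n + 1, by rwa [← Subgroup.comap_upperCentralSeries_quotient_center]⟩

end Helpers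

/-- In a finite group G the set of elements g such that the subgroup generated by g and x is nilpotent for every x ∈ G is exactly the hypercenter of G (the last term of the upper central series). -/
theorem result {G : Type*} [Group G] [Finite G] (g : G) :
    (∀ x : G, Group.IsNilpotent ↥(Subgroup.closure ({x, g} : Set G))) ↔ g ∈ ⨆ n : ℕ, Subgroup.upperCentralSeries G n := by
  rw [Subgroup.mem_iSup_of_directed (Subgroup.upperCentralSeries_mono G).directed_le]
  exact ⟨mem_of_nil _ G g le_rfl, fun ⟨n, hn⟩ => nil_of_mem n G g hn⟩

end Cfsg.Agent.S3939
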