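import Cfsg.Statements.S3941
import Cfsg.Agent.Base

set_option autoImplicit false
open Cfsg
open scoped Pointwise

namespace Cfsg.Agent.S3941

theorem not_isPClosed (m p : ℕ) (hm : 4 ≤ m) [Fact p.Prime] (hp : p ≠ 2) (hpm : p ≤ m) :
    p ∣ Nat.card (alternatingGroup (Fin m)) ∧ ¬ Cfsg.IsPClosed p (alternatingGroup (Fin m)) := by
  have hcard : Nat.card (alternatingGroup (Fin m)) * 2 = m.factorial := by
    haveI : Nontrivial (Fin m) := Fin.nontrivial_iff_two_le.2 (by omega)
    rw [mul_comm, two_mul_nat_card_alternatingGroup, Nat.card_perm]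
    simp
  have hpd : p ∣ Nat.card (alternatingGroup (Fin m)) := by
    have h1 : p ∣ Nat.card (alternatingGroup (Fin m)) * 2 := by
      rw [hcard]; exact (Fact.out : p.Prime).dvd_factorial.2 hpm
    exact ((Nat.coprime_primes Fact.out Nat.prime_two).2 hp).dvd_of_dvd_mul_right h1
  refine ⟨hpd, fun h => ?_⟩
  by_cases h5 : 5 ≤ m
  · haveI : IsSimpleGroup (alternatingGroup (Fin m)) := alternatingGroup.isSimpleGroup (by simpa)
    obtain ⟨P⟩ : Nonempty (Sylow p (alternatingGroup (Fin m))) := inferInstance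
    rcases (h P).eq_bot_or_eq_top with h1 | h1
    · exact P.ne_bot_of_dvd_card hpd h1
    · obtain ⟨k, hk⟩ := IsPGroup.iff_card.1 P.2
      rw [h1, Subgroup.card_top] at hk
      have h2 : 2 * 2 ∣ Nat.card (alternatingGroup (Fin m)) * 2 := by
        rw [hcard]; exact Nat.dvd_factorial (by norm_num) hm
      have h3 : 2 ∣ p ^ k := hk ▸ Nat.dvd_of_mul_dvd_mul_right (by norm_num) h2
      exact hp ((Nat.prime_dvd_prime_iff_eq Nat.prime_two Fact.out).1
        (Nat.prime_two.dvd_of_dvd_pow h3)).symm
  · obtain rfl : m = 4 := by omega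
    obtain rfl : p = 3 := by
      have := (Fact.out : p.Prime).two_le
      interval_cases p
      · exact absurd rfl hp
      · rfl
      · exact absurd (Fact.out : Nat.Prime 4) (by norm_num)
    let c : alternatingGroup (Fin 4) := ⟨Equiv.swap 0 1 * Equiv.swap 0 2, Equiv.Perm.mem_alternatingGroup.2 (by decide)⟩
    let d : alternatingGroup (Fin 4) := ⟨Equiv.swap 0 1 * Equiv.swap 0 3, Equiv.Perm.mem_alternatingGroup.2 (by decide)⟩
    have key : ∀ x : alternatingGroup (Fin 4), x ^ 3 = 1 → ∀ P : Sylow 3 (alternatingGroup (Fin 4)),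
        x ∈ P := by
      intro x hx P
      have h1 : IsPGroup 3 (Subgroup.zpowers x) := by
        rintro ⟨_, k, rfl⟩
        refine ⟨1, Subtype.ext ?_⟩
        simp only [pow_one, SubgroupClass.coe_pow, OneMemClass.coe_one]
        rw [← zpow_natCast, ← zpow_mul, mul_comm, zpow_mul, zpow_natCast, hx, one_zpow]
      obtain ⟨Q, hQ⟩ := h1.exists_le_sylow
      haveI := h Q
      haveI := Sylow.unique_of_normal Q (h Q)
      rw [Subsingleton.elim P Q]
      exact hQ (Subgroup.mem_zpowers x)
    obtain ⟨P⟩ : Nonempty (Sylow 3 (alternatingGroup (Fin 4))) := inferInstance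
    have h1 : c * d ∈ (P : Subgroup _) := Subgroup.mul_mem _ (key c (by decide) P) (key d (by decide) P)
    obtain ⟨k, hk⟩ := P.2 ⟨_, h1⟩
    have h2 : (c * d) ^ 3 ^ k = 1 := congrArg Subtype.val hk
    have h3 : (c * d) ^ 2 = 1 := by decide
    have h4 : c * d = 1 := by
      have := pow_gcd_eq_one.2 ⟨h2, h3⟩
      rwa [Nat.Coprime.gcd_eq_one (Nat.Coprime.pow_left k (by norm_num)), pow_one] at this
    exact absurd h4 (by decide)

/-- Let n ≥ 5 and p an odd prime with p ≤ n, and suppose that every proper subgroup of the alternating group of degree n whose order is divisible by p has a normal Sylow p-subgroup. Then n = p. -/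
theorem result (n p : ℕ) (hn : 5 ≤ n) [Fact p.Prime] (hp : p ≠ 2) (hpn : p ≤ n)
    (h : ∀ H : Subgroup ↥(alternatingGroup (Fin n)), H ≠ ⊤ → p ∣ Nat.card ↥H → Cfsg.IsPClosed p ↥H) : n = p := by
  by_contra hne
  obtain ⟨m, rfl⟩ : ∃ m, n = m + 1 := ⟨n - 1, by omega⟩
  obtain ⟨h1, h2⟩ := not_isPClosed m p (by omega) hp (by omega)
  let ι : Fin m ↪ Fin (m + 1) := Fin.castSuccEmb
  let f : alternatingGroup (Fin m) →* alternatingGroup (Fin (m + 1)) :=
    ((Equiv.Perm.viaEmbeddingHom ι).comp (alternatingGroup (Fin m)).subtype).codRestrict _ fun g => by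
      rw [Equiv.Perm.mem_alternatingGroup]
      classical
      have := Equiv.Perm.sign_extendDomain (g : Equiv.Perm (Fin m)) (Equiv.ofInjective ι.1 ι.2)
      rw [Equiv.Perm.mem_alternatingGroup.1 g.2] at this
      convert this
      ext x
      simp only [MonoidHom.comp_apply, Subgroup.coe_subtype, Equiv.Perm.viaEmbeddingHom_apply,
        Equiv.Perm.viaEmbedding]
      congr
  have hf : Function.Injective f := fun a b hab =>
    Subtype.ext (Equiv.Perm.viaEmbeddingHom_injective ι (congrArg Subtype.val hab))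
  let e := MonoidHom.ofInjective hf
  have h3 := h f.range (by
    intro htop
    have h4 := Nat.card_congr e.toEquiv
    rw [htop, Subgroup.card_top] at h4
    haveI : Nontrivial (Fin m) := Fin.nontrivial_iff_two_le.2 (by omega)
    haveI : Nontrivial (Fin (m + 1)) := Fin.nontrivial_iff_two_le.2 (by omega)
    have h5 := two_mul_nat_card_alternatingGroup (α := Fin m)
    have h6 := two_mul_nat_card_alternatingGroup (α := Fin (m + 1))
    rw [← h4, h5, Nat.card_perm, Nat.card_perm] at h6
    simp only [Nat.card_eq_fintype_card, Fintype.card_fin, Nat.factorial_succ] at h6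
    have := Nat.factorial_pos m
    nlinarith) (by rwa [← Nat.card_congr e.toEquiv])
  apply h2
  intro P
  obtain ⟨Q, rfl⟩ := Sylow.mapSurjective_surjective (f := e.symm.toMonoidHom) e.symm.surjective p P
  exact (h3 Q).map _ e.symm.surjective

end Cfsg.Agent.S3941
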