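import Cfsg.Statements.S3946
import Cfsg.Agent.Fgs.Kegel

set_option autoImplicit false
open Cfsg

namespace Cfsg.Agent.S3946

/-- Call an automorphism α of order n of a group G splitting when x · α(x) · α²(x) ⋯ α^(n−1)(x) = 1 for every x ∈ G. A finite group admitting a splitting automorphism of prime order is nilpotent (this contains the case of a fixed-point-free automorphism of prime order). -/
theorem result {G : Type*} [Group G] [Finite G] (α : MulAut G) (hp : (orderOf α).Prime)
    (hsplit : ∀ x : G, (((List.range (orderOf α)).map (fun i : ℕ => (α ^ i) x)).prod = 1)) : Group.IsNilpotent G := by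
  let φ : Subgroup.zpowers α →* MulAut G := (Subgroup.zpowers α).subtype
  let a : Subgroup.zpowers α := ⟨α, Subgroup.mem_zpowers α⟩
  have : Finite (G ⋊[φ] Subgroup.zpowers α) := Finite.of_equiv _ SemidirectProduct.equivProd.symm
  have key : ∀ (x : G) (n : ℕ),
      ((SemidirectProduct.inl x * SemidirectProduct.inr a : G ⋊[φ] Subgroup.zpowers α) ^ n) =
      ⟨((List.range n).map (fun i : ℕ => (α ^ i) x)).prod, a ^ n⟩ := by
    intro x n
    induction n with
    | zero => rfl
    | succ n ih =>
      rw [pow_succ, ih, List.range_succ, List.map_append, List.prod_append]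
      ext <;> simp [φ, a, pow_succ]
  have hn : (SemidirectProduct.inl : G →* G ⋊[φ] Subgroup.zpowers α).range.Normal := by
    rw [SemidirectProduct.range_inl_eq_ker_rightHom]; infer_instance
  have h := CL.Fgs.isNilpotent_of_coset_pow_eq_one hp
    (H := (SemidirectProduct.inl : G →* G ⋊[φ] Subgroup.zpowers α).range)
    (g := SemidirectProduct.inr a) (by
      rw [SemidirectProduct.range_inl_eq_ker_rightHom, MonoidHom.mem_ker,
        SemidirectProduct.rightHom_inr]
      intro e
      exact hp.ne_one (orderOf_eq_one_iff.2 (congrArg Subtype.val e))) (by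
      rintro _ ⟨x, rfl⟩
      rw [key, hsplit x]
      ext
      · rfl
      · simp [a, pow_orderOf_eq_one])
  exact Group.nilpotent_of_mulEquiv
    (MonoidHom.ofInjective (SemidirectProduct.inl_injective (φ := φ))).symm


end Cfsg.Agent.S3946
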