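import Cfsg.Statements.S3949
import Cfsg.Agent.Base

set_option autoImplicit false
open Cfsg

namespace Cfsg.Agent.S3949

/-- Let G be a finite group and α an automorphism of G of order 2 such that the elements g·α(g)⁻¹ generate G. Let j be a positive integer such that 2^j divides the order of no element inverted by α. Then the set of values of the j-th iterate of the map c ↦ c·α(c)⁻¹ is exactly the set of elements of odd order inverted by α. -/
theorem result {G : Type*} [Group G] [Finite G] (α : MulAut G) (hα : orderOf α = 2) (hG : Subgroup.closure (Set.range (fun c : G => c * (α c)⁻¹)) = ⊤)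
    (j : ℕ) (hj : ∀ g : G, α g = g⁻¹ → ¬ 2 ^ j ∣ orderOf g) :
    Set.range ((fun c : G => c * (α c)⁻¹)^[j]) = {g : G | Odd (orderOf g) ∧ α g = g⁻¹} := by
  have h2 : ∀ c, α (α c) = c := fun c => by
    have : α ^ 2 = 1 := hα ▸ pow_orderOf_eq_one α
    rw [← MulAut.mul_apply, ← pow_two, this, MulAut.one_apply]
  have hit : ∀ (i : ℕ) (g : G), α g = g⁻¹ → (fun c : G => c * (α c)⁻¹)^[i] g = g ^ 2 ^ i := fun i => by
    induction i with
    | zero => intro g _; simp
    | succ i ih =>
      intro g hg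
      rw [Function.iterate_succ_apply', ih g hg, map_pow, hg, inv_pow, inv_inv, ← pow_add, pow_succ, mul_two]
  obtain ⟨i, rfl⟩ : ∃ i, j = i + 1 := Nat.exists_eq_add_one_of_ne_zero (by
    rintro rfl
    exact hj 1 (by simp) (by simp))
  ext g
  constructor
  · rintro ⟨c, rfl⟩
    have h3 : α (c * (α c)⁻¹) = (c * (α c)⁻¹)⁻¹ := by rw [map_mul, map_inv, h2, mul_inv_rev, inv_inv]
    rw [Function.iterate_succ_apply, hit i _ h3]
    refine ⟨Nat.not_even_iff_odd.1 fun he => hj _ h3 ?_, by rw [map_pow, h3, inv_pow]⟩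
    rw [orderOf_pow, even_iff_two_dvd, Nat.dvd_div_iff_mul_dvd (Nat.gcd_dvd_left _ _)] at he
    obtain ⟨k, hk, e⟩ := (Nat.dvd_prime_pow Nat.prime_two).1 (Nat.gcd_dvd_right (orderOf (c * (α c)⁻¹)) (2 ^ i))
    rw [e, ← pow_succ] at he
    rcases Nat.eq_or_lt_of_le hk with rfl | hlt
    · exact he
    · have h4 := Nat.dvd_gcd he (pow_dvd_pow 2 hlt)
      rw [e, Nat.pow_dvd_pow_iff_le_right one_lt_two] at h4
      omega
  · rintro ⟨ho, hg⟩
    obtain ⟨m, hm⟩ := exists_pow_eq_self_of_coprime (x := g) (n := 2 ^ (i + 1))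
      ((Nat.coprime_two_left.2 ho).pow_left _)
    refine ⟨g ^ m, ?_⟩
    rw [hit _ _ (by rw [map_pow, hg, inv_pow]), ← pow_mul, mul_comm, pow_mul, hm]

end Cfsg.Agent.S3949
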