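import Cfsg.Statements.S3982
import Cfsg.Agent.Fgs.SylTI
import Cfsg.Agent.Grp.Coprime

set_option autoImplicit false
open Cfsg
open scoped Pointwise

namespace Cfsg.Agent.S3982

/-- Let p be an odd prime and G a finite group of even order divisible by p in which the centralizer of every non-identity p-element has odd order. If some nontrivial p-subgroup of G has a normalizer of even order, then the normalizer of every Sylow p-subgroup of G has even order. -/
theorem result {G : Type*} [Group G] [Finite G] (p : ℕ) [Fact p.Prime] (hp2 : p ≠ 2) (hpG : p ∣ Nat.card G) (h2G : 2 ∣ Nat.card G) (hC : ∀ g : G, g ≠ 1 → (∃ k : ℕ, orderOf g = p ^ k) → Odd (Nat.card ↥(Subgroup.centralizer ({g} : Set G)))) (Q : Subgroup G) (hQ : IsPGroup p ↥Q) (hQ1 : Q ≠ ⊥) (hev : Even (Nat.card ↥(Subgroup.normalizer (Q : Set G)))) (P : Sylow p G) : Even (Nat.card ↥(Subgroup.normalizer ((P : Subgroup G) : Set G))) := by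
  obtain ⟨⟨y, hyQ⟩, hy⟩ := exists_prime_orderOf_dvd_card' (G := Subgroup.normalizer (Q : Set G)) 2
    (even_iff_two_dvd.1 hev)
  rw [Subgroup.orderOf_mk] at hy
  have hy2 : y * y = 1 := by rw [← pow_two, ← hy, pow_orderOf_eq_one]
  have hyi : y⁻¹ = y := inv_eq_of_mul_eq_one_right hy2
  have hnc : ∀ g : G, (∃ k : ℕ, orderOf g = p ^ k) → y * g = g * y → g = 1 := by
    intro g hg hyg
    by_contra hg1
    have h1 : y ∈ Subgroup.centralizer ({g} : Set G) := Subgroup.mem_centralizer_singleton_iff.2 hyg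
    have h2 := Subgroup.orderOf_dvd_natCard _ h1
    rw [hy] at h2
    exact (Nat.not_even_iff_odd.2 (hC g hg1 hg)) (even_iff_two_dvd.2 h2)
  obtain ⟨R, ⟨hR, hQR, hyR⟩, hmax⟩ := (wellFounded_gt (α := Subgroup G)).has_min
    {R | IsPGroup p R ∧ Q ≤ R ∧ y ∈ Subgroup.normalizer (R : Set G)} ⟨Q, hQ, le_rfl, hyQ⟩
  have hinv : ∀ r ∈ R, y * r * y⁻¹ = r⁻¹ := by
    let φ : MulAut R := R.normalizerMonoidHom ⟨y, hyR⟩
    have hφ : MonoidHom.FixedPointFree φ := by
      intro r hr
      apply Subtype.ext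
      apply hnc _ (CL.Fgs.exists_orderOf_eq_pow_of_mem hR r.2)
      have : y * r * y⁻¹ = r := congrArg Subtype.val hr
      exact mul_inv_eq_iff_eq_mul.1 this
    have hφ2 : Function.Involutive φ := by
      intro r
      apply Subtype.ext
      change y * (y * r * y⁻¹) * y⁻¹ = r
      rw [hyi]
      calc y * (y * r * y) * y = (y * y) * r * (y * y) := by group
        _ = r := by rw [hy2]; simp
    intro r hr
    exact congrArg Subtype.val (congrFun (hφ.coe_eq_inv_of_involutive hφ2) ⟨r, hr⟩)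
  set K := Subgroup.centralizer (R : Set G) with hK
  have hRK : R ≤ K := by
    intro a ha b hb
    have h1 := hinv _ (R.mul_mem ha hb)
    have h2 : y * (a * b) * y⁻¹ = (y * a * y⁻¹) * (y * b * y⁻¹) := by group
    rw [h2, hinv a ha, hinv b hb, ← mul_inv_rev, inv_inj] at h1
    exact h1
  have hKodd : Odd (Nat.card K) := by
    obtain ⟨q, hq, hq1⟩ := (Subgroup.bot_or_exists_ne_one Q).resolve_left hQ1
    exact (hC q hq1 (CL.Fgs.exists_orderOf_eq_pow_of_mem hQ hq)).of_dvd_nat
      (Subgroup.card_dvd_of_le (Subgroup.centralizer_le (Set.singleton_subset_iff.2 (hQR hq))))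
  have hNK : Subgroup.normalizer (R : Set G) ≤ Subgroup.normalizer (K : Set G) :=
    CL.Grp.le_normalizer_centralizer' le_rfl
  have hYR : Subgroup.zpowers y ≤ Subgroup.normalizer (R : Set G) := Subgroup.zpowers_le.2 hyR
  have hcop : (Nat.card (Subgroup.zpowers y)).Coprime (Nat.card K) := by
    rw [Nat.card_zpowers, hy]
    exact Nat.coprime_two_left.2 hKodd
  have hsolv : Group.IsSolvable (Subgroup.zpowers y) := inferInstance
  obtain ⟨S, hS, hRS, hyS⟩ := CL.Grp.exists_isSylowIn_ge_le_normalizer (hYR.trans hNK) hcop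
    (Or.inl hsolv) hRK hR hYR
  have hSR : S = R := by
    by_contra hne
    exact hmax S ⟨hS.isPGroup, hQR.trans hRS, hyS (Subgroup.mem_zpowers y)⟩
      (lt_of_le_of_ne hRS (Ne.symm hne))
  subst hSR
  -- every `p`-element of the normalizer centralizes `S`
  have hkey : ∀ t ∈ Subgroup.normalizer (S : Set G), (∃ k : ℕ, orderOf t = p ^ k) → t ∈ K := by
    rintro t ht ⟨k, hk⟩
    -- the left coset `t K` is fixed by `y` acting by conjugation on `N / K`
    have h1 : t⁻¹ * (y * t * y⁻¹) ∈ K := by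
      intro r hr
      have h2 := hinv _ ((Subgroup.mem_normalizer_iff.1 ht r).1 hr)
      have h3 := hinv _ (S.inv_mem hr)
      rw [hyi] at h2 h3 ⊢
      have h4 : y * r * y = r⁻¹ := by
        have := hinv r hr
        rwa [hyi] at this
      calc r * (t⁻¹ * (y * t * y)) = t⁻¹ * (t * r⁻¹ * t⁻¹)⁻¹ * (y * t * y) := by group
        _ = t⁻¹ * (y * (t * r⁻¹ * t⁻¹) * y) * (y * t * y) := by
            have := hinv _ ((Subgroup.mem_normalizer_iff.1 ht r⁻¹).1 (S.inv_mem hr))
            rw [hyi] at this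
            rw [this]
        _ = t⁻¹ * y * t * r⁻¹ * t⁻¹ * (y * y) * t * y := by group
        _ = t⁻¹ * y * t * r⁻¹ * y := by rw [hy2]; group
        _ = t⁻¹ * y * t * (y * r * y) * y := by rw [h4]
        _ = t⁻¹ * (y * t * y) * r * (y * y) := by group
        _ = _ := by rw [hy2, mul_one]
    -- find `c ∈ t K` centralizing `y`
    obtain ⟨m, hm⟩ : ∃ m ∈ K, y * (t * m) = t * m * y := by
      set v := t⁻¹ * (y * t * y⁻¹) with hv
      have hvinv : y * v * y⁻¹ = v⁻¹ := by
        rw [hv, hyi]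
        calc y * (t⁻¹ * (y * t * y)) * y = y * t⁻¹ * y * t * (y * y) := by group
          _ = y⁻¹ * t⁻¹ * y⁻¹ * t := by rw [hy2, hyi, mul_one]
          _ = _ := by group
      obtain ⟨j, hj⟩ : Odd (orderOf v) := hKodd.of_dvd_nat (Subgroup.orderOf_dvd_natCard _ h1)
      refine ⟨v ^ (j + 1), K.pow_mem h1 _, ?_⟩
      have h5 : y * v ^ (j + 1) * y⁻¹ = (v ^ (j + 1))⁻¹ := by rw [← conj_pow, hvinv, inv_pow]
      have h6 : v * (v ^ (j + 1))⁻¹ = v ^ (j + 1) := by
        rw [mul_inv_eq_iff_eq_mul, ← pow_add]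
        have : j + 1 + (j + 1) = orderOf v + 1 := by omega
        rw [this, pow_succ, pow_orderOf_eq_one, one_mul]
      calc y * (t * v ^ (j + 1)) = t * (t⁻¹ * (y * t * y⁻¹)) * (y * v ^ (j + 1) * y⁻¹) * y := by group
        _ = t * (v * (v ^ (j + 1))⁻¹) * y := by rw [h5, ← hv]; group
        _ = _ := by rw [h6]
    obtain ⟨hmK, hm⟩ := hm
    set c := t * m with hc
    have hcN : c ∈ Subgroup.normalizer (S : Set G) :=
      Subgroup.mul_mem _ ht (Subgroup.centralizer_le_normalizer _ hmK)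
    have hcp : (orderOf c).Coprime p := by
      rw [Nat.coprime_comm, (Fact.out : p.Prime).coprime_iff_not_dvd]
      intro hd
      have h7 : orderOf (c ^ (orderOf c / p)) = p ^ 1 := by
        rw [pow_one]; exact orderOf_pow_orderOf_div (orderOf_pos c).ne' hd
      have h8 := hnc _ ⟨1, h7⟩ (Commute.pow_right hm _)
      rw [h8, orderOf_one, pow_one] at h7
      exact (Fact.out : p.Prime).ne_one h7.symm
    haveI : (K.subgroupOf (Subgroup.normalizer (S : Set G))).Normal :=
      CL.Grp.normal_subgroupOf_of_le_normalizer' hNK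
    let π := QuotientGroup.mk' (K.subgroupOf (Subgroup.normalizer (S : Set G)))
    have e1 : π ⟨t, ht⟩ = π ⟨c, hcN⟩ := by
      apply QuotientGroup.eq.2
      rw [Subgroup.mem_subgroupOf]
      simpa [hc] using hmK
    have e2 : orderOf (π ⟨t, ht⟩) ∣ p ^ k := by
      rw [← hk, ← Subgroup.orderOf_mk t ht]
      exact orderOf_map_dvd _ _
    have e3 : orderOf (π ⟨t, ht⟩) ∣ orderOf c := by
      rw [e1, ← Subgroup.orderOf_mk c hcN]
      exact orderOf_map_dvd _ _
    have e4 : π ⟨t, ht⟩ = 1 := orderOf_eq_one_iff.1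
      (Nat.eq_one_of_dvd_coprimes (hcp.pow_right k) e3 e2)
    exact Subgroup.mem_subgroupOf.1 ((QuotientGroup.eq_one_iff _).1 e4)
  obtain ⟨T, hT⟩ := hR.exists_le_sylow
  have hST : S = T := by
    by_contra hne
    have h1 := CL.Grp.lt_inf_normalizer_of_isPGroup T.2 (lt_of_le_of_ne hT hne)
    exact h1.ne' (hS.eq_of_le T.2.to_inf_left h1.le fun t ht =>
      hkey t ht.2 (CL.Fgs.exists_orderOf_eq_pow_of_mem T.2 ht.1))
  obtain ⟨g, rfl⟩ := MulAction.exists_smul_eq G T P
  rw [CL.Fgs.coe_sylow_smul, CL.Grp.normalizer_conj_smul, CL.Grp.card_conj_smul, ← hST,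
    even_iff_two_dvd, ← hy]
  exact Subgroup.orderOf_dvd_natCard _ hyR

end Cfsg.Agent.S3982
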