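import Cfsg.Statements.S3984
import Cfsg.Agent.Fgs.SylTI
import Cfsg.Agent.Grp.CoresPi

set_option autoImplicit false
open scoped Pointwise
open Cfsg

namespace Cfsg.Agent.S3984

/-- Let P be a Sylow p-subgroup of the finite group G that meets each conjugate g P g⁻¹ with g outside N_G(P) trivially, and let N be a normal subgroup of G of order prime to p. Then every Sylow p-subgroup Q of G ⧸ N meets each conjugate x Q x⁻¹ with x outside its normalizer trivially. -/
theorem result {G : Type*} [Group G] [Finite G] (p : ℕ) [Fact p.Prime] (P : Sylow p G) (hTI : ∀ g : G, g ∉ Subgroup.normalizer ((P : Subgroup G) : Set G) → (P : Subgroup G) ⊓ (MulAut.conj g • (P : Subgroup G)) = ⊥) (N : Subgroup G) [N.Normal] (hN : (Nat.card ↥N).Coprime p) (Q : Sylow p (G ⧸ N)) : ∀ x : G ⧸ N, x ∉ Subgroup.normalizer ((Q : Subgroup (G ⧸ N)) : Set (G ⧸ N)) → (Q : Subgroup (G ⧸ N)) ⊓ (MulAut.conj x • (Q : Subgroup (G ⧸ N))) = ⊥ := by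
  rw [CL.Fgs.sylow_TI_iff] at hTI ⊢
  intro S T hST
  obtain ⟨S, rfl⟩ := Sylow.mapSurjective_surjective (QuotientGroup.mk'_surjective N) p S
  obtain ⟨T, rfl⟩ := Sylow.mapSurjective_surjective (QuotientGroup.mk'_surjective N) p T
  rw [eq_bot_iff]
  rintro z ⟨⟨s, hs, rfl⟩, t, ht, hts⟩
  by_contra hz
  apply hST
  have hs1 : s ≠ 1 := by
    rintro rfl
    exact hz (by simp)
  have key : ∀ U : Subgroup G, IsPGroup p U → CL.Grp.IsSylowIn p U (U ⊔ N) := by
    intro U hU
    refine ⟨le_sup_left, hU, ?_⟩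
    rw [CL.Fgs.relIndex_sup_normal]
    intro h
    have h1 : p ∣ Nat.card N := h.trans (Subgroup.relIndex_dvd_card U N)
    exact (Fact.out : p.Prime).ne_one (Nat.eq_one_of_dvd_coprimes hN h1 dvd_rfl)
  have hsup : Subgroup.zpowers t ⊔ N = Subgroup.zpowers s ⊔ N := by
    have : ∀ y : G, Subgroup.zpowers y ⊔ N =
        (Subgroup.zpowers (QuotientGroup.mk' N y)).comap (QuotientGroup.mk' N) := by
      intro y
      rw [← MonoidHom.map_zpowers, Subgroup.comap_map_eq, QuotientGroup.ker_mk']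
    rw [this, this, hts]
  have h1 := key (Subgroup.zpowers s) (S.2.to_le (Subgroup.zpowers_le.2 hs))
  have h2 := key (Subgroup.zpowers t) (T.2.to_le (Subgroup.zpowers_le.2 ht))
  rw [hsup] at h2
  obtain ⟨m, hm, hmt⟩ := h2.exists_conj_eq h1
  have h3 : S = m • T := by
    by_contra hne
    have h4 : s ∈ (S : Subgroup G) ⊓ (m • T : Sylow p G) := by
      refine ⟨hs, ?_⟩
      have : Subgroup.zpowers s ≤ MulAut.conj m • (T : Subgroup G) := by
        rw [← hmt]
        exact Subgroup.pointwise_smul_le_pointwise_smul_iff.2 (Subgroup.zpowers_le.2 ht)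
      exact this (Subgroup.mem_zpowers s)
    rw [hTI _ _ hne] at h4
    exact hs1 h4
  have hm' : m ∈ Subgroup.normalizer (((T : Subgroup G) ⊔ N : Subgroup G) : Set G) := by
    apply Subgroup.le_normalizer
    rw [← hsup] at hm
    exact (sup_le_sup_right (Subgroup.zpowers_le.2 ht) N) hm
  apply Sylow.ext
  apply Subgroup.comap_injective (QuotientGroup.mk'_surjective N)
  rw [Sylow.coe_mapSurjective, Sylow.coe_mapSurjective, Subgroup.comap_map_eq, Subgroup.comap_map_eq,
    QuotientGroup.ker_mk', h3, CL.Fgs.coe_sylow_smul, ← (CL.Grp.conj_smul_eq_self_iff m _).2 hm',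
    Subgroup.smul_sup, (CL.Grp.conj_smul_eq_self_iff m N).2 (by
      rw [Subgroup.normalizer_eq_top]; trivial)]

end Cfsg.Agent.S3984
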