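import Cfsg.Statements.S3985
import Cfsg.Agent.Fgs.SylTI

set_option autoImplicit false
open scoped Pointwise
open Cfsg

namespace Cfsg.Agent.S3985

/-- Let P be a cyclic Sylow p-subgroup of the finite group G. Then P meets each conjugate g P g⁻¹ with g outside N_G(P) trivially if and only if P is weakly self-centralizing: C_G(x) = C_G(P) for every non-identity x ∈ P. -/
theorem result {G : Type*} [Group G] [Finite G] (p : ℕ) [Fact p.Prime] (P : Sylow p G) (hcyc : IsCyclic ↥(P : Subgroup G)) : (∀ g : G, g ∉ Subgroup.normalizer ((P : Subgroup G) : Set G) → (P : Subgroup G) ⊓ (MulAut.conj g • (P : Subgroup G)) = ⊥) ↔ ∀ x : G, x ∈ (P : Subgroup G) → x ≠ 1 → Subgroup.centralizer ({x} : Set G) = Subgroup.centralizer ((P : Subgroup G) : Set G) := by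
  constructor
  · intro hTI x hx hx1
    apply le_antisymm _ (Subgroup.centralizer_le (Set.singleton_subset_iff.2 hx))
    intro c hc
    have hcx : x * c = c * x := Subgroup.mem_centralizer_iff.1 hc x rfl
    have hcN : c ∈ Subgroup.normalizer ((P : Subgroup G) : Set G) := by
      by_contra h
      have : x ∈ (P : Subgroup G) ⊓ MulAut.conj c • (P : Subgroup G) := by
        refine ⟨hx, (CL.Grp.mem_conj_smul_iff c x _).2 ?_⟩
        rw [mul_assoc, hcx, inv_mul_cancel_left]
        exact hx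
      rw [hTI c h] at this
      exact hx1 this
    obtain ⟨⟨a, ha⟩, hgen⟩ := IsCyclic.exists_monoid_generator (α := (P : Subgroup G))
    have hgen' : ∀ y ∈ (P : Subgroup G), ∃ n : ℕ, a ^ n = y := fun y hy => by
      obtain ⟨n, hn⟩ := hgen ⟨y, hy⟩
      exact ⟨n, congrArg Subtype.val hn⟩
    obtain ⟨k, hk⟩ := hgen' (c * a * c⁻¹) ((Subgroup.mem_normalizer_iff.1 hcN a).1 ha)
    obtain ⟨e, he⟩ := CL.Fgs.exists_orderOf_eq_pow_of_mem P.2 ha
    obtain ⟨j, rfl⟩ := hgen' x hx
    set m := (P : Subgroup G).relIndex (Subgroup.normalizer ((P : Subgroup G) : Set G)) with hm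
    have hpm : ¬ p ∣ m := (CL.Grp.isSylowIn_of_le P Subgroup.le_normalizer).not_dvd
    have hcm : c ^ m ∈ (P : Subgroup G) :=
      Subgroup.mem_subgroupOf.1 (((P : Subgroup G).subgroupOf
        (Subgroup.normalizer ((P : Subgroup G) : Set G))).pow_index_mem ⟨c, hcN⟩)
    have hpow : ∀ i : ℕ, c ^ i * a * (c ^ i)⁻¹ = a ^ k ^ i := by
      intro i
      induction i with
      | zero => simp
      | succ i ih =>
        have : c ^ (i + 1) * a * (c ^ (i + 1))⁻¹ = c * (c ^ i * a * (c ^ i)⁻¹) * c⁻¹ := by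
          rw [pow_succ']; group
        rw [this, ih, ← conj_pow, ← hk, ← pow_mul, pow_succ']
    have h1 : k ^ m ≡ 1 [MOD p ^ e] := by
      rw [← he, ← pow_eq_pow_iff_modEq, ← hpow, pow_one]
      obtain ⟨n, hn⟩ := hgen' _ hcm
      rw [← hn]
      group
    have h2 : k * j ≡ j [MOD p ^ e] := by
      rw [← he, ← pow_eq_pow_iff_modEq, pow_mul, hk, conj_pow, ← hcx, mul_inv_cancel_right]
    have h3 : ¬ p ^ e ∣ j := by
      rw [← he, orderOf_dvd_iff_pow_eq_one]
      exact hx1
    have hp : Prime (p : ℤ) := Nat.prime_iff_prime_int.1 Fact.out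
    have h4 : (p : ℤ) ∣ (k : ℤ) - 1 := by
      by_contra h
      apply h3
      have h5 : (p : ℤ) ^ e ∣ ((k : ℤ) - 1) * j := by
        have := (Nat.modEq_iff_dvd.1 h2.symm)
        push_cast at this
        convert this using 1
        ring
      have h6 : (p : ℤ) ^ e ∣ (j : ℤ) :=
        (IsCoprime.pow_left ((hp.irreducible.coprime_iff_not_dvd).2 h)).dvd_of_dvd_mul_left h5
      exact_mod_cast h6
    have h5 : ¬ (p : ℤ) ∣ ∑ i ∈ Finset.range m, (k : ℤ) ^ i := by
      intro h
      apply hpm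
      have h6 : (p : ℤ) ∣ (∑ i ∈ Finset.range m, (k : ℤ) ^ i) - m := by
        have : (∑ i ∈ Finset.range m, (k : ℤ) ^ i) - m = ∑ i ∈ Finset.range m, ((k : ℤ) ^ i - 1) := by
          simp [Finset.sum_sub_distrib]
        rw [this]
        exact Finset.dvd_sum fun i _ => h4.trans (by simpa using sub_dvd_pow_sub_pow (k : ℤ) 1 i)
      have h7 : (p : ℤ) ∣ (m : ℤ) := by simpa using dvd_sub h h6
      exact_mod_cast h7
    have h6 : k ≡ 1 [MOD p ^ e] := by
      have h7 := (Nat.modEq_iff_dvd.1 h1.symm)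
      push_cast at h7
      rw [← geom_sum_mul] at h7
      have h8 := (IsCoprime.pow_left ((hp.irreducible.coprime_iff_not_dvd).2 h5)).dvd_of_dvd_mul_left h7
      apply Nat.ModEq.symm
      rw [Nat.modEq_iff_dvd]
      exact_mod_cast h8
    rw [← he, ← pow_eq_pow_iff_modEq, pow_one, hk, mul_inv_eq_iff_eq_mul] at h6
    intro y hy
    obtain ⟨n, rfl⟩ := hgen' y hy
    exact (Commute.pow_right h6 n).symm
  · intro h g hg
    by_contra hne
    obtain ⟨x, ⟨hx1, hx2⟩, hx⟩ := (Subgroup.bot_or_exists_ne_one _).resolve_left hne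
    apply hg
    rw [← CL.Fgs.sylow_smul_eq_iff]
    apply CL.Fgs.sylow_eq_of_le
    apply CL.Fgs.le_sylow_of_le_normalizer (g • P).2
    refine le_trans ?_ (Subgroup.centralizer_le_normalizer _)
    rw [← h x hx1 hx]
    intro y hy
    rw [Subgroup.mem_centralizer_singleton_iff]
    have hy' := (CL.Grp.mem_conj_smul_iff g y _).1 hy
    have hx' := (CL.Grp.mem_conj_smul_iff g x _).1 hx2
    have h1 := congrArg Subtype.val (hcyc.isMulCommutative.is_comm.comm
      (⟨_, hy'⟩ : (P : Subgroup G)) ⟨_, hx'⟩)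
    simp only [Subgroup.coe_mul] at h1
    calc y * x = g * (g⁻¹ * y * g * (g⁻¹ * x * g)) * g⁻¹ := by group
      _ = g * (g⁻¹ * x * g * (g⁻¹ * y * g)) * g⁻¹ := by rw [h1]
      _ = x * y := by group

end Cfsg.Agent.S3985
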