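import Cfsg.Statements.S3986
import Cfsg.Agent.Fgs.ClassReal

set_option autoImplicit false
open Cfsg

namespace Cfsg.Agent.S3986

open CL.Fgs Subgroup


/-- Let p be a prime and G a finite group. Then some Sylow p-subgroup of G is a direct factor of G (it is normal and has a normal complement) if and only if every element of p-power order commutes with every element whose order is a power of a prime other than p. -/
theorem result {G : Type*} [Group G] [Finite G] (p : ℕ) [Fact p.Prime] : (∃ (P : Sylow p G) (K : Subgroup G), (P : Subgroup G).Normal ∧ K.Normal ∧ (P : Subgroup G) ⊓ K = ⊥ ∧ (P : Subgroup G) ⊔ K = ⊤) ↔ ∀ x y : G, (∃ a : ℕ, orderOf x = p ^ a) → (∃ q b : ℕ, q.Prime ∧ q ≠ p ∧ orderOf y = q ^ b) → x * y = y * x := by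
  have hp : p.Prime := Fact.out
  constructor
  · rintro ⟨P, K, _, _, h1, h2⟩ x y hx ⟨q, b, hq, hqp, hy⟩
    exact (commute_of_direct_factor P h1 h2 ((isPiElt_singleton_iff hp).2 hx)
      (((isPiElt_singleton_iff hq).2 ⟨b, hy⟩).mono (by simpa using hqp.symm))).2.2
  · intro h
    obtain ⟨P⟩ : Nonempty (Sylow p G) := inferInstance
    obtain ⟨h1, K, h2, -, h3, h4, -⟩ := sylow_direct_factor_of_commute P fun q y hq hqp hy x hx => by
      obtain ⟨b, hb⟩ := (isPiElt_singleton_iff hq).1 hy
      exact h x y ((isPiElt_singleton_iff hp).1 (isPiElt_singleton_of_mem P.isPGroup' hx))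
        ⟨q, b, hq, hqp, hb⟩
    exact ⟨P, K, h1, h2, h3, h4⟩

end Cfsg.Agent.S3986
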