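import Cfsg.Statements.S3987
import Cfsg.Agent.Fgs.ClassReal

set_option autoImplicit false
open Cfsg

namespace Cfsg.Agent.S3987

open CL.Fgs Subgroup

theorem commute_of_cs_mul {G : Type*} [Group G] [Finite G] {x y : G}
    (h : cs(x * y) = cs(x) * cs(y)) : Commute x y := by
  let f : {z // IsConj x z} × {z // IsConj y z} → G := fun a => a.1.1 * a.2.1
  have h1 : {z | IsConj (x * y) z} ⊆ Set.range f := by
    intro z hz
    obtain ⟨g, rfl⟩ := isConj_iff.1 hz
    exact ⟨(⟨_, isConj_iff.2 ⟨g, rfl⟩⟩, ⟨_, isConj_iff.2 ⟨g, rfl⟩⟩), by simp [f, mul_assoc]⟩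
  have h2 := Set.ncard_le_ncard h1 (Set.toFinite _)
  rw [ncard_isConj, h, ← card_isConj, ← card_isConj, ← Nat.card_prod, ← Set.image_univ,
    ← Set.ncard_univ] at h2
  have h3 : Set.InjOn f Set.univ :=
    Set.injOn_of_ncard_image_eq (le_antisymm (Set.ncard_image_le (Set.toFinite _)) h2)
  have h4 := h3 (Set.mem_univ (⟨_, isConj_iff.2 ⟨x * y, rfl⟩⟩, ⟨_, isConj_iff.2 ⟨x * y, rfl⟩⟩))
    (Set.mem_univ (⟨x, IsConj.refl x⟩, ⟨y, IsConj.refl y⟩)) (by simp only [f]; group)
  have h5 : x * y * x * (x * y)⁻¹ = x := congrArg (fun a => a.1.1) h4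
  rw [mul_inv_eq_iff_eq_mul, mul_assoc] at h5
  exact (mul_left_cancel h5).symm


/-- Let p be a prime and G a finite group. Then some Sylow p-subgroup of G is a direct factor of G (normal with a normal complement) if and only if for every element x of p-power order and every element y whose order is a power of a prime other than p, the conjugacy class of x y has as many elements as the product of the sizes of the classes of x and of y. -/
theorem result {G : Type*} [Group G] [Finite G] (p : ℕ) [Fact p.Prime] : (∃ (P : Sylow p G) (K : Subgroup G), (P : Subgroup G).Normal ∧ K.Normal ∧ (P : Subgroup G) ⊓ K = ⊥ ∧ (P : Subgroup G) ⊔ K = ⊤) ↔ ∀ x y : G, (∃ a : ℕ, orderOf x = p ^ a) → (∃ q b : ℕ, q.Prime ∧ q ≠ p ∧ orderOf y = q ^ b) → (Subgroup.centralizer ({x * y} : Set G)).index = (Subgroup.centralizer ({x} : Set G)).index * (Subgroup.centralizer ({y} : Set G)).index := by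
  have hp : p.Prime := Fact.out
  constructor
  · rintro ⟨P, K, _, _, h1, h2⟩ x y hx ⟨q, b, hq, hqp, hy⟩
    have hx' := (isPiElt_singleton_iff hp).2 hx
    have hy' : IsPiElt {p}ᶜ y :=
      ((isPiElt_singleton_iff hq).2 ⟨b, hy⟩).mono (by simpa using hqp.symm)
    obtain ⟨h3, h4, h5⟩ := commute_of_direct_factor P h1 h2 hx' hy'
    rw [cent_mul_of_coprime h5 (hx'.coprime hy'), index_inf_of_coprime]
    have hc := CL.Grp.isComplement'_of_normal h1 h2
    have h6 : K ≤ cent(x) := fun z hz => mem_cent'.2 (commute_of_normal_of_disjoint _ _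
      inferInstance inferInstance hc.disjoint x z h3 hz)
    have h7 : (P : Subgroup G) ≤ cent(y) := fun z hz => mem_cent.2 (commute_of_normal_of_disjoint _ _
      inferInstance inferInstance hc.disjoint z y hz h4)
    refine Nat.Coprime.of_dvd (index_dvd_of_le h6) (index_dvd_of_le h7) ?_
    rw [hc.index_eq_card]
    exact P.card_coprime_index
  · intro h
    obtain ⟨P⟩ : Nonempty (Sylow p G) := inferInstance
    obtain ⟨h1, K, h2, -, h3, h4, -⟩ := sylow_direct_factor_of_commute P fun q y hq hqp hy x hx => by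
      obtain ⟨b, hb⟩ := (isPiElt_singleton_iff hq).1 hy
      exact commute_of_cs_mul (h x y ((isPiElt_singleton_iff hp).1
        (isPiElt_singleton_of_mem P.isPGroup' hx)) ⟨q, b, hq, hqp, hb⟩)
    exact ⟨P, K, h1, h2, h3, h4⟩

end Cfsg.Agent.S3987
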