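import Cfsg.Statements.S3989
import Cfsg.Agent.Grp.PNilpFrob
import Cfsg.Agent.Loc.PSolv
import Cfsg.Agent.Grp.MinNormal

set_option autoImplicit false
open Cfsg

namespace Cfsg.Agent.S3989

open Subgroup CL.Grp CL.Loc

theorem lift {G G' : Type*} [Group G] [Group G'] [Finite G] {f : G →* G'} (hf : Function.Surjective f)
    {q : ℕ} (hq : q.Prime) {y : G'} {k : ℕ} (hy : orderOf y = q ^ k) :
    ∃ x : G, (∃ j : ℕ, orderOf x = q ^ j) ∧ f x = y := by
  obtain ⟨x, rfl⟩ := hf y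
  obtain ⟨a, ha, b, hb, hao, hbo, e, hc⟩ := exists_pPart_mul_pPrimePart hq x
  refine ⟨a, hao, ?_⟩
  have h1 : orderOf (f b) ∣ q ^ k := hy ▸ orderOf_dvd_of_mem_zpowers (by
    obtain ⟨m, rfl⟩ := hb
    exact ⟨m, (map_zpow f x m).symm⟩)
  have h2 : orderOf (f b) = 1 :=
    Nat.eq_one_of_dvd_coprimes (hbo.pow_right k) (orderOf_map_dvd f b) h1
  rw [e, map_mul, orderOf_eq_one_iff.1 h2, mul_one]

theorem aux (p : ℕ) [hp : Fact p.Prime] (G : Type*) [Group G] [Finite G] :
    (∀ x y : G, (∃ a : ℕ, orderOf x = p ^ a) → (∃ q b : ℕ, q.Prime ∧ q ≠ p ∧ orderOf y = q ^ b) →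
      ∀ a b : G, IsConj (x * y) (a * x * a⁻¹ * (b * y * b⁻¹))) → IsPSolvable p G := by
  refine induction_on_card (P := fun G _ _ => (∀ x y : G, (∃ a : ℕ, orderOf x = p ^ a) →
    (∃ q b : ℕ, q.Prime ∧ q ≠ p ∧ orderOf y = q ^ b) →
      ∀ a b : G, IsConj (x * y) (a * x * a⁻¹ * (b * y * b⁻¹))) → IsPSolvable p G)
    (fun G _ _ ih h => ?_) G
  rcases subsingleton_or_nontrivial G with h1 | h1
  · exact isPSolvable_of_subsingleton
  obtain ⟨N, hN⟩ := exists_isMinNormal G
  have := hN.normal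
  have hs := QuotientGroup.mk'_surjective N
  refine isPSolvable_of_quotient_of_card N ?_ (ih _ (card_quotient_lt hN.ne_bot) ?_)
  swap
  · rintro x y ⟨k, hx⟩ ⟨q, l, hq, hqp, hy⟩ a b
    obtain ⟨x, hx', rfl⟩ := lift hs hp.out hx
    obtain ⟨y, ⟨j, hy'⟩, rfl⟩ := lift hs hq hy
    obtain ⟨a, rfl⟩ := hs a
    obtain ⟨b, rfl⟩ := hs b
    simpa only [map_mul, map_inv] using
      (QuotientGroup.mk' N).map_isConj (h x y hx' ⟨q, j, hq, hqp, hy'⟩ a b)
  by_cases hc : HasNormalPComplement p N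
  · rcases hN.eq_bot_or_top_of_characteristic (pResidual p N) with e | e
    · exact Or.inl (IsPGroup.iff_card.1 (pResidual_eq_bot_iff.1 e))
    · rw [hasNormalPComplement_iff_coprime_pResidual, e, card_top] at hc
      exact Or.inr hc
  exfalso
  obtain ⟨Q, hQ, q, k, y, hq, hqp, hy, hyn, hyc⟩ :=
    exists_primePow_not_mem_centralizer (default : Sylow p N) hc
  obtain ⟨u, hu, huy⟩ : ∃ u ∈ Q, u * y ≠ y * u := by
    by_contra! e
    exact hyc (mem_centralizer_iff.2 e)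
  have hx : u * (y * u⁻¹ * y⁻¹) ∈ Q := mul_mem hu ((mem_normalizer_iff.1 hyn _).1 (inv_mem hu))
  have x1 : u * (y * u⁻¹ * y⁻¹) ≠ 1 := fun e => huy (by
    rw [← mul_inv_eq_one, ← e]; group)
  have hxy : u * (y * u⁻¹ * y⁻¹) * y = u * y * u⁻¹ := by group
  generalize u * (y * u⁻¹ * y⁻¹) = x at hx x1 hxy
  obtain ⟨j, hj⟩ := (IsPGroup.iff_orderOf.1 ((default : Sylow p N).2.to_le hQ)) ⟨x, hx⟩
  rw [orderOf_mk] at hj
  have key : ∀ a b : G, IsConj (y : G) (a * x * a⁻¹ * (b * y * b⁻¹)) := fun a b =>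
    (isConj_iff.2 ⟨u, (congrArg Subtype.val hxy).symm⟩ : IsConj (y : G) (x * y)).trans
      (h x y ⟨j, by rwa [orderOf_coe]⟩ ⟨q, k, hq, hqp, by rwa [orderOf_coe]⟩ a b)
  have h2 : ∀ g ∈ Submonoid.closure (Group.conjugatesOfSet ({(x : G)} : Set G)), ∀ z : G,
      IsConj (y : G) z → IsConj (y : G) (g * z) := by
    intro g hg
    induction hg using Submonoid.closure_induction with
    | mem g hg =>
      obtain ⟨_, rfl, hg⟩ := Group.mem_conjugatesOfSet_iff.1 hg
      obtain ⟨a, rfl⟩ := isConj_iff.1 hg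
      intro z hz
      obtain ⟨b, rfl⟩ := isConj_iff.1 hz
      exact key a b
    | one => intro z hz; rwa [one_mul]
    | mul a b _ _ ha hb => intro z hz; rw [mul_assoc]; exact ha _ (hb z hz)
  have h3 : normalClosure ({(x : G)} : Set G) = N := hN.eq_of_le
    (fun e => x1 (Subtype.ext (mem_bot.1 (e ▸ subset_normalClosure rfl))))
    (normalClosure_le_normal (Set.singleton_subset_iff.2 x.2))
  have h4 := h2 (y : G)⁻¹ (by
    rw [← closure_toSubmonoid_of_finite]
    exact h3.ge (inv_mem y.2)) y (IsConj.refl _)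
  rw [inv_mul_cancel, isConj_one_left] at h4
  exact hyc ((Subtype.ext h4 : y = 1) ▸ one_mem _)

/-- Let p be a prime and G a finite group such that for every element x of p-power order and every element y whose order is a power of a prime other than p, the conjugacy class of x y is the set of all products of a conjugate of x with a conjugate of y. Then G is p-solvable. -/
theorem result {G : Type*} [Group G] [Finite G] (p : ℕ) [Fact p.Prime] (h : ∀ x y : G, (∃ a : ℕ, orderOf x = p ^ a) → (∃ q b : ℕ, q.Prime ∧ q ≠ p ∧ orderOf y = q ^ b) → ∀ z : G, IsConj (x * y) z ↔ ∃ a b : G, z = a * x * a⁻¹ * (b * y * b⁻¹)) : Cfsg.IsPSolvable p G := by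
  exact aux p G fun x y hx hy a b => (h x y hx hy _).2 ⟨a, b, rfl⟩

end Cfsg.Agent.S3989
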