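import Cfsg.Statements.S4249
import Cfsg.Agent.Fgs.Kegel

set_option autoImplicit false
open Cfsg

namespace Cfsg.Agent.S4249

/-- Let G be a finite group and p a prime such that G is not a p-group, and suppose the Hughes subgroup H_p(G), generated by all elements g with g^p ≠ 1, is a proper subgroup. Then H_p(G) is nilpotent and has index p in G. -/
theorem result {G : Type*} [Group G] [Finite G] (p : ℕ) (hp : p.Prime) (hG : ¬ IsPGroup p G)
    (hH : Subgroup.closure {g : G | g ^ p ≠ 1} ≠ ⊤) :
    Group.IsNilpotent (Subgroup.closure {g : G | g ^ p ≠ 1}) ∧ (Subgroup.closure {g : G | g ^ p ≠ 1}).index = p := by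
  have hn : (Subgroup.closure {g : G | g ^ p ≠ 1}).Normal := by
    refine ⟨fun x hx g => ?_⟩
    induction hx using Subgroup.closure_induction with
    | mem x hx =>
      refine Subgroup.subset_closure fun e => hx ?_
      rw [conj_pow] at e
      simpa using e
    | one => simp
    | mul x y _ _ hx hy =>
      have := Subgroup.mul_mem _ hx hy
      simpa [mul_assoc] using this
    | inv x _ hx =>
      have := Subgroup.inv_mem _ hx
      simpa [mul_assoc] using this
  have h : ∀ g : G, g ∉ Subgroup.closure {g : G | g ^ p ≠ 1} → g ^ p = 1 := fun g hg => by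
    by_contra hne
    exact hg (Subgroup.subset_closure hne)
  exact ⟨CL.Fgs.isNilpotent_of_forall_notMem_pow_eq_one hp hH h,
    CL.Fgs.index_eq_of_forall_notMem_pow_eq_one hp hH h hG⟩


end Cfsg.Agent.S4249
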