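import Cfsg.Statements.S4004
import Cfsg.Agent.S3995
import Cfsg.Agent.S4249
import Cfsg.Agent.S0041
import Cfsg.Agent.Char.Burnside
import Cfsg.Agent.Grp.MinNormal
import Cfsg.Agent.Grp.PNilp

set_option autoImplicit false
open Cfsg

namespace Cfsg.Agent.S4004


section Helpers
open Subgroup CL.Grp Cfsg.Agent.S3995
open scoped Pointwise

variable {G : Type*} [Group G] [Finite G] {p q r a b : ℕ}

theorem l2 (hp : p.Prime) (t : ℕ) : t.Coprime p → t * p ∣ Nat.card G → (S G t : ZMod p) + S G (t * p) = 0 := by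
  induction t using Nat.strong_induction_on with
  | _ t ih =>
  intro hc hd
  have t0 : t ≠ 0 := fun e => Nat.card_pos.ne' (by rw [e, zero_mul] at hd; exact zero_dvd_iff.1 hd)
  have h1 := (ZMod.natCast_eq_zero_iff _ p).2 ((Dvd.intro_left _ rfl).trans (frob hd))
  rw [sum_div_mul hc, ← Nat.cons_self_properDivisors t0, Finset.sum_cons, hp.sum_divisors, Nat.cast_add, Nat.cast_sum,
    Finset.sum_eq_zero (fun i hi => ?_), mul_one, add_zero, Nat.cast_add, add_comm] at h1
  · exact h1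
  obtain ⟨h2, h3⟩ := Nat.mem_properDivisors.1 hi
  rw [hp.sum_divisors, mul_one, Nat.cast_add, add_comm]
  exact ih i h3 (hc.coprime_dvd_left h2) ((Nat.mul_dvd_mul_right h2 p).trans hd)

theorem l1 (hp : p.Prime) (hd : p ∣ Nat.card G) : (S G p : ZMod p) = -1 := by
  have := l2 (G := G) hp 1 (by simp) (by simpa using hd)
  rw [S_one, one_mul] at this
  linear_combination this

theorem l3 (hp : p.Prime) : (S G (p ^ 2) : ZMod p) = 0 := by
  have : (p ^ 2).totient ∣ S G (p ^ 2) := ⟨_, CL.Fgs.ncard_orderOf_eq _⟩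
  rw [Nat.totient_prime_pow_succ hp, pow_one] at this
  exact (ZMod.natCast_eq_zero_iff _ p).2 (dvd_of_mul_right_dvd this)

omit [Group G] [Finite G] in
theorem two_ne (ho : Odd (Nat.card G)) (hp : p.Prime) (hd : p ∣ Nat.card G) : (2 : ZMod p) ≠ 0 ∧ (1 : ZMod p) ≠ 0 := by
  have := Fact.mk hp
  refine ⟨fun e => ?_, one_ne_zero⟩
  obtain rfl := (Nat.prime_dvd_prime_iff_eq hp Nat.prime_two).1 ((ZMod.natCast_eq_zero_iff 2 p).1 e)
  exact (Nat.not_even_iff_odd.2 ho) (even_iff_two_dvd.2 hd)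

omit [Finite G] in
theorem no_ord {m : ℕ} [Finite G] (h : S G m = 0) (g : G) : ¬ m ∣ orderOf g := fun e => by
  obtain ⟨x, hx⟩ := exists_ord e
  exact ((Set.ncard_pos (Set.toFinite _)).2 ⟨x, hx⟩).ne' h

/-- at most the values `a`, `b` -/
def H (G : Type*) [Group G] (a b : ℕ) : Prop := ∀ m, 1 < m → S G m = 0 ∨ S G m = a ∨ S G m = b

omit [Finite G] in
theorem H.symm (h : H G a b) : H G b a := fun m hm => (h m hm).imp_right Or.symm

theorem H.val (h : H G a b) (ho : Odd (Nat.card G)) (hp : p.Prime) (hd : p ∣ Nat.card G) : S G p = a ∨ S G p = b :=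
  (h p hp.one_lt).resolve_left fun e => (two_ne ho hp hd).2 (by
    have := l1 hp hd
    rw [e] at this
    linear_combination this)

theorem cop (hp : p.Prime) (hq : q.Prime) (n : q ≠ p) : q.Coprime p := (Nat.coprime_primes hq hp).2 n

theorem H.pm (h : H G a b) (ho : Odd (Nat.card G)) (hp : p.Prime) (hd : p ∣ Nat.card G) {t : ℕ} (hc : t.Coprime p)
    (ht : t ∣ Nat.card G) (h1 : 1 < t) {u : ZMod p} (hu : u = 1 ∨ u = -1) (ha : (a : ZMod p) = u) (e : S G t = a) :
    S G (t * p) = b ∧ (b : ZMod p) = -u := by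
  obtain ⟨h2, h3⟩ := two_ne ho hp hd
  have h4 := l2 hp t hc (hc.mul_dvd_of_dvd_of_dvd ht hd)
  rw [e, ha] at h4
  rcases h (t * p) (by have := hp.one_lt; nlinarith) with e1 | e1 | e1 <;> rw [e1] at h4
  · rcases hu with rfl | rfl
    exacts [absurd (by linear_combination h4) h3, absurd (by linear_combination -h4) h3]
  · rw [ha] at h4
    rcases hu with rfl | rfl
    exacts [absurd (by linear_combination h4) h2, absurd (by linear_combination -h4) h2]
  · exact ⟨e1, by linear_combination h4⟩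

theorem H.ne (h : H G a b) (ho : Odd (Nat.card G)) (hp : p.Prime) (hd : p ∣ Nat.card G) (hq : q.Prime)
    (hd' : q ∣ Nat.card G) (n : q ≠ p) (e : S G p = a) (e' : S G q = a) : False := by
  have k1 : ∀ {p q}, p.Prime → p ∣ Nat.card G → q.Prime → q ∣ Nat.card G → q ≠ p → S G p = a → S G q = a →
      S G (q * p) = b ∧ (b : ZMod p) = 1 := fun hp hd hq hd' n e e' => by
    simpa using h.pm ho hp hd (cop hp hq n) hd' hq.one_lt (Or.inr rfl) (e ▸ l1 hp hd) e'
  obtain ⟨a1, a2⟩ := k1 hp hd hq hd' n e e'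
  have a3 := (k1 hq hd' hp hd n.symm e' e).2
  have k2 : ∀ r, r.Prime → r ∣ Nat.card G → S G r = a := fun r hr hd'' => by
    by_cases c : r = p
    · rwa [c]
    by_cases c' : r = q
    · rwa [c']
    refine (h.val ho hr hd'').resolve_right fun e2 => ?_
    have b1 := (h.symm.pm ho hq hd' (cop hq hr c') hd'' hr.one_lt (Or.inl rfl) a3 e2).1
    have b2 := (h.pm ho hp hd ((cop hp hr c).mul_left (cop hp hq n)) ((cop hq hr c').mul_dvd_of_dvd_of_dvd hd'' hd')
      (by have := hr.one_lt; have := hq.one_lt; nlinarith) (Or.inr rfl) (e ▸ l1 hp hd) b1).1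
    have b3 := (h.symm.pm ho hr hd'' ((cop hr hq (Ne.symm c')).mul_left (cop hr hp (Ne.symm c)))
      ((cop hp hq n).mul_dvd_of_dvd_of_dvd hd' hd) (by have := hp.one_lt; have := hq.one_lt; nlinarith)
      (Or.inr rfl) (e2 ▸ l1 hr hd'') a1)
    rw [show q * p * r = r * q * p by ring, b2] at b3
    have b4 := l1 hp hd
    rw [e, ← b3.1, a2] at b4
    exact (two_ne ho hp hd).1 (by linear_combination b4)
  have k3 : ∀ r, r.Prime → r ∣ Nat.card G → S G (r ^ 2) = 0 := fun r hr hd'' => by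
    have b1 : (b : ZMod r) = 1 := by
      by_cases c : r = p
      · exact c ▸ a2
      · exact (k1 hr hd'' hp hd (Ne.symm c) (k2 r hr hd'') e).2
    have b2 := l1 hr hd''
    have b3 := l3 (G := G) hr
    rw [k2 r hr hd''] at b2
    rcases h (r ^ 2) (Nat.one_lt_pow two_ne_zero hr.one_lt) with c | c | c
    · exact c
    · rw [c, b2] at b3; exact absurd (by linear_combination -b3) (two_ne ho hr hd'').2
    · rw [c, b1] at b3; exact absurd b3 (two_ne ho hr hd'').2
  have h1 : Nat.card G ∣ 1 + a := (Nat.dvd_iff_prime_pow_dvd_dvd _ _).2 fun r k hr hk => by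
    rcases k with _ | k
    · simp
    have c := (dvd_pow_self r k.succ_ne_zero).trans hk
    have := frob hk
    rwa [Nat.sum_divisors_prime_pow hr, Finset.sum_range_succ', Finset.sum_range_succ', Finset.sum_eq_zero fun i _ =>
      (S_eq_zero_or _).resolve_right fun ⟨g, hg⟩ => no_ord (k3 r hr c) g (hg ▸ pow_dvd_pow r (by omega)), zero_add,
      zero_add, pow_one, pow_zero, S_one, k2 r hr c, add_comm a] at this
  have := Fact.mk hq
  obtain ⟨y, hy⟩ := exists_prime_orderOf_dvd_card' q hd'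
  have h2 := Set.ncard_le_card (insert 1 (insert y {x : G | orderOf x = p}))
  rw [Set.ncard_insert_of_notMem (by simp [hp.one_lt.ne, show (1 : G) ≠ y from fun c => hq.one_lt.ne (by simpa [← c] using hy)]),
    Set.ncard_insert_of_notMem (by simpa [hy] using n)] at h2
  have h3 := Nat.le_of_dvd (by omega) h1
  rw [← e, S] at h3
  omega

theorem pq_ne (ho : Odd (Nat.card G)) (hp : p.Prime) (hd : p ∣ Nat.card G) (hq : q.Prime) (hd' : q ∣ Nat.card G)
    (n : q ≠ p) : S G (q * p) ≠ S G p := fun e => by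
  classical
  have := Fact.mk hp
  have := Fintype.ofFinite G
  have h1 := l2 hp q (cop hp hq n) ((cop hp hq n).mul_dvd_of_dvd_of_dvd hd' hd)
  have h2 := l1 hp hd
  rw [e, h2] at h1
  have h3 : ¬ p ∣ Fintype.card {w : G // orderOf w = q} := fun c => (two_ne ho hp hd).2 (by
    rw [← Nat.card_eq_fintype_card] at c
    have := (ZMod.natCast_eq_zero_iff (S G q) p).2 c
    linear_combination this - h1)
  have k : ∀ y : {y : G // orderOf y = p}, ∃ w : G, orderOf w = q ∧ Commute w y := fun y => by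
    obtain ⟨w, hw⟩ := Equiv.Perm.exists_fixed_point_of_prime (n := 1) h3
      (σ := Equiv.Perm.subtypePerm (MulAut.conj (y : G)).toEquiv fun x => by
        rw [← (MulAut.conj (y : G)).orderOf_eq x]; rfl) (by
        rw [Equiv.Perm.subtypePerm_pow]
        ext x
        have h4 : (y : G) ^ p = 1 := by simpa only [y.2] using pow_orderOf_eq_one (y : G)
        have := map_pow ((MulAut.toPerm G).comp MulAut.conj) (y : G) p
        rw [h4, map_one] at this
        rw [Equiv.Perm.subtypePerm_apply, pow_one]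
        exact (DFunLike.congr_fun this (x : G)).symm)
    exact ⟨w, w.2, (mul_inv_eq_iff_eq_mul.1 (congrArg Subtype.val hw)).symm⟩
  choose w hw using k
  have k2 : ∀ y e, orderOf (cond e (w y) (w y)⁻¹) = q ∧ Commute (cond e (w y) (w y)⁻¹) y := fun y e => by
    cases e
    exacts [⟨by simp [(hw y).1], (hw y).2.inv_left⟩, hw y]
  have h4 := Nat.card_le_card_of_injective (fun x : {y : G // orderOf y = p} × Bool =>
    (⟨cond x.2 (w x.1) (w x.1)⁻¹ * x.1, by
      rw [(k2 _ _).2.orderOf_mul_eq_mul_orderOf_of_coprime (by rw [(k2 _ _).1, x.1.2]; exact cop hp hq n), (k2 _ _).1,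
        x.1.2]⟩ : {x : G // orderOf x = q * p})) (by
    rintro ⟨y, e⟩ ⟨y', e'⟩ c
    have c1 : cond e (w y) (w y)⁻¹ * y = cond e' (w y') (w y')⁻¹ * y' := congrArg Subtype.val c
    have c2 := congrArg (· ^ q) c1
    simp only [(k2 _ _).2.mul_pow, show ∀ y e, cond e (w y) (w y)⁻¹ ^ q = 1 from fun y e =>
      (k2 y e).1 ▸ pow_orderOf_eq_one _, one_mul] at c2
    obtain ⟨m, -, hm⟩ := Nat.exists_mul_mod_eq_one_of_coprime (cop hp hq n) hp.one_lt
    have c3 : ∀ y : {y : G // orderOf y = p}, ((y : G) ^ q) ^ m = y := fun y => by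
      rw [← pow_mul, ← pow_mod_orderOf, y.2, hm, pow_one]
    obtain rfl : y = y' := Subtype.ext (by rw [← c3 y, c2, c3])
    have c4 := mul_right_cancel c1
    have c5 : w y ≠ (w y)⁻¹ := fun c => (two_ne ho hq hd').1 ((ZMod.natCast_eq_zero_iff 2 q).2
      ((hw y).1 ▸ orderOf_dvd_of_pow_eq_one (by rw [sq]; exact mul_eq_one_iff_eq_inv.2 c)))
    cases e <;> cases e'
    exacts [rfl, absurd c4.symm c5, absurd c4 c5, rfl])
  rw [Nat.card_prod, Nat.card_eq_fintype_card (α := Bool), Fintype.card_bool] at h4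
  change S G p * 2 ≤ S G (q * p) at h4
  have h5 : S G p = 0 := by omega
  rw [h5] at h2
  exact (two_ne ho hp hd).2 (by linear_combination h2)

theorem H.sq (h : H G a b) (ho : Odd (Nat.card G)) (hp : p.Prime) (hd : p ∣ Nat.card G) (hq : q.Prime)
    (hd' : q ∣ Nat.card G) (n : q ≠ p) (e : S G p = a) (e' : S G q = b) (h0 : S G (q * p) = 0) : S G (q ^ 2) = 0 := by
  refine (S_eq_zero_or _).resolve_right fun ⟨g, hg⟩ => ?_
  have c := (cop hp hq n).pow_left 2
  have h1 := l2 hp _ c (c.mul_dvd_of_dvd_of_dvd (hg ▸ orderOf_dvd_natCard g) hd)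
  rw [(S_eq_zero_or (q ^ 2 * p)).resolve_right fun ⟨x, hx⟩ => no_ord h0 x (hx ▸ ⟨q, by ring⟩)] at h1
  have h2 := l3 (G := G) hq
  rcases h (q ^ 2) (Nat.one_lt_pow two_ne_zero hq.one_lt) with c | c | c
  · exact no_ord c g hg.symm.dvd
  · rw [c, ← e, l1 hp hd] at h1; exact (two_ne ho hp hd).2 (by linear_combination -h1)
  · rw [c, ← e', l1 hq hd'] at h2; exact (two_ne ho hq hd').2 (by linear_combination -h2)

theorem frobC (hp : p.Prime) (hq : q.Prime) (hd' : q ∣ Nat.card G) (n : q ≠ p)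
    (h0 : ∀ g : G, g = 1 ∨ orderOf g = p ∨ orderOf g = q) {V : Subgroup G} [V.Normal] (hV : V ≠ ⊥)
    (he : IsElementaryAbelian p V) : ∃ C : Subgroup G, IsFrobeniusComplement C ∧ (Nat.card C).Prime := by
  have := Fact.mk hq
  have := Fact.mk hp
  have := he.1
  have k1 : ∀ v w : G, orderOf v = p → orderOf w = q → ¬ Commute v w := fun v w hv hw c => by
    have h1 := c.orderOf_mul_eq_mul_orderOf_of_coprime (by rw [hv, hw]; exact (cop hp hq n).symm)
    rw [hv, hw] at h1
    have := hp.one_lt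
    have := hq.one_lt
    rcases h0 (v * w) with e | e | e
    · rw [e, orderOf_one] at h1; nlinarith
    · nlinarith
    · nlinarith
  have k2 : ∀ v ∈ V, ∀ w : G, orderOf w = q → Commute v w → v = 1 := fun v hv w hw c =>
    by_contra fun e => k1 v w (orderOf_eq_prime (he.2 v hv) e) hw c
  have h1 : ¬ q ^ 2 ∣ Nat.card G := fun c => by
    obtain ⟨A, hA⟩ := Sylow.exists_subgroup_card_pow_prime q c
    obtain ⟨x, hx⟩ := (S0041.result A V hV le_normalizer_of_normal (fun a ha a1 => eq_bot_iff.2 fun v hv =>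
      k2 v hv.1 a (((h0 a).resolve_left a1).resolve_left fun e => n ((Nat.prime_dvd_prime_iff_eq hp hq).1
        (hp.dvd_of_dvd_pow (hA ▸ e ▸ orderOf_dvd_natCard A ha))).symm) (mem_centralizer_singleton_iff.1 hv.2))
      (Or.inr ⟨q, q, hq, hq, by rw [hA, sq]⟩)).exists_ofOrder_eq_natCard
    rw [hA, ← orderOf_coe] at hx
    have := hq.one_lt
    rcases h0 x with e | e | e
    · rw [e, orderOf_one] at hx; nlinarith
    · exact n ((Nat.prime_dvd_prime_iff_eq hp hq).1 (hp.dvd_of_dvd_pow (e.symm.trans hx).dvd)).symm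
    · nlinarith
  obtain ⟨w, hw⟩ := exists_prime_orderOf_dvd_card' q hd'
  obtain ⟨v, hv, v1⟩ := (bot_or_exists_ne_one V).resolve_left hV
  have cQ : Nat.card (zpowers w) = q := by rw [Nat.card_zpowers, hw]
  have k3 : ∀ x ∈ V, x ∈ zpowers w → x = 1 := fun x hx ⟨k, e⟩ => k2 x hx w hw (e ▸ (Commute.refl w).zpow_left k)
  have k4 : ∀ x ∈ V, x * w * x⁻¹ * w⁻¹ ∈ V := fun x hx => by
    rw [mul_assoc, mul_assoc, ← mul_assoc w]; exact mul_mem hx (Normal.conj_mem inferInstance _ (inv_mem hx) w)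
  have h2 : normalizer (zpowers w : Set G) ≤ zpowers w := fun x hx => by_contra fun c => by
    let K := V ⊔ normalizer (zpowers w : Set G)
    have wK : w ∈ K := mem_sup_right (le_normalizer (mem_zpowers w))
    have vK : v ∈ K := mem_sup_left hv
    have hM : ((V ⊔ zpowers w).subgroupOf K).Normal := normal_subgroupOf_of_le_normalizer (sup_le
      (le_sup_left.trans le_normalizer) fun y hy => mem_normalizer_iff.2 fun z => by
        have k : ∀ y ∈ normalizer (zpowers w : Set G), ∀ z ∈ V ⊔ zpowers w, y * z * y⁻¹ ∈ V ⊔ zpowers w :=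
          fun y hy z hz => by
          obtain ⟨a, ha, b, hb, rfl⟩ := mem_sup_of_normal_left.1 hz
          rw [← conj_mul]
          exact mul_mem_sup (Normal.conj_mem inferInstance _ ha y) ((mem_normalizer_iff.1 hy b).1 hb)
        exact ⟨k y hy z, fun e => by simpa [mul_assoc] using k _ (inv_mem hy) _ e⟩)
    have hi : ((V ⊔ zpowers w).subgroupOf K).index.Coprime q := ((Nat.Prime.coprime_iff_not_dvd hq).2 fun e => h1 (by
      refine dvd_trans ?_ (card_subgroup_dvd_card K)
      rw [← ((V ⊔ zpowers w).subgroupOf K).index_mul_card, sq]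
      exact Nat.mul_dvd_mul e (by
        have := orderOf_dvd_natCard ((V ⊔ zpowers w).subgroupOf K) (x := ⟨w, wK⟩) (mem_sup_right (mem_zpowers w))
        rwa [← orderOf_coe, hw] at this))).symm
    have k5 : ∀ g : K, orderOf (g : G) = q → g ^ p ≠ 1 := fun g hg e => n ((Nat.prime_dvd_prime_iff_eq hq hp).1
      (hg ▸ orderOf_dvd_of_pow_eq_one (congrArg Subtype.val e)))
    have h3 : closure {g : K | g ^ p ≠ 1} ≤ (V ⊔ zpowers w).subgroupOf K := (closure_le _).2 fun g hg => by
      have e : orderOf g = q := by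
        rw [← orderOf_coe]
        rcases h0 g with e | e | e
        · exact absurd (by rw [show g = 1 from Subtype.ext e, one_pow]) hg
        · exact absurd (by rw [← e, orderOf_coe, pow_orderOf_eq_one]) hg
        · exact e
      obtain ⟨m, hm⟩ := exists_pow_eq_self_of_coprime (x := g) (e ▸ hi)
      exact hm ▸ pow_mem (pow_index_mem _ g) m
    have h4 := (S4249.result (G := K) p hp (fun e => by
      obtain ⟨k, hk⟩ := e ⟨w, wK⟩
      exact n ((Nat.prime_dvd_prime_iff_eq hq hp).1 (hq.dvd_of_dvd_pow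
        (hw ▸ orderOf_dvd_of_pow_eq_one (congrArg Subtype.val hk))))) fun e => by
      obtain ⟨a, ha, b, hb, rfl⟩ := mem_sup_of_normal_left.1 (h3 (e.ge (mem_top ⟨x, mem_sup_right hx⟩)))
      have c1 := (mul_mem_cancel_right (le_normalizer hb)).1 hx
      have c2 := k3 _ (k4 a ha) (mul_mem ((mem_normalizer_iff.1 c1 w).1 (mem_zpowers w)) (inv_mem (mem_zpowers w)))
      exact c (by rwa [k2 a ha w hw (commutatorElement_eq_one_iff_commute.1 c2), one_mul])).1
    have m1 : (⟨w, wK⟩ : K) ∈ closure {g : K | g ^ p ≠ 1} := subset_closure (k5 _ hw)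
    have m2 : (⟨v, vK⟩ * ⟨w, wK⟩ * ⟨v, vK⟩⁻¹ : K) ∈ closure {g : K | g ^ p ≠ 1} :=
      subset_closure (k5 _ (((MulAut.conj v).orderOf_eq w).trans hw))
    have c1 : v * w * v⁻¹ * w⁻¹ ≠ 1 := fun e => v1 (k2 v hv w hw (commutatorElement_eq_one_iff_commute.1 e))
    have c2 := commute_of_coprime_orderOf_of_isNilpotent (x := (⟨_, mul_mem m2 (inv_mem m1)⟩ : closure {g : K | g ^ p ≠ 1}))
      (y := ⟨_, m1⟩) (by
        rw [← orderOf_coe, ← orderOf_coe, ← orderOf_coe (a := (⟨_, m1⟩ : closure {g : K | g ^ p ≠ 1})), ← orderOf_coe]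
        change (orderOf (v * w * v⁻¹ * w⁻¹)).Coprime (orderOf w)
        rw [orderOf_eq_prime (he.2 _ (k4 v hv)) c1, hw]; exact (cop hp hq n).symm)
    exact c1 (k2 _ (k4 v hv) w hw (congrArg Subtype.val (congrArg Subtype.val c2.eq)))
  refine ⟨zpowers w, ⟨fun e => hq.one_lt.ne' (by rw [← cQ, e, card_bot]), fun e => v1 (k3 v hv (e.ge (mem_top v))),
    fun g hg => ?_⟩, cQ ▸ hq⟩
  have h3 := card_dvd_of_le (inf_le_left : zpowers w ⊓ MulAut.conj g • zpowers w ≤ _)
  rw [cQ] at h3
  refine ((Nat.dvd_prime hq).1 h3).elim card_eq_one.1 fun e => absurd (h2 ?_) hg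
  have h4 := eq_of_le_of_card_ge (inf_le_left : zpowers w ⊓ MulAut.conj g • zpowers w ≤ _) (by rw [e, cQ])
  have h5 : MulAut.conj g • zpowers w = zpowers w := (eq_of_le_of_card_ge (h4.ge.trans inf_le_right) (by
    exact (Nat.card_congr ((zpowers w).equivMapOfInjective _ (MulAut.conj g).injective).toEquiv).ge)).symm
  exact mem_normalizer_iff_map_conj_eq.2 h5

end Helpers

/-- Let G be a finite group of odd order in which the numbers of elements of each order that occurs (the numbers #{g : o(g) = m}, m ranging over the element orders of G) take exactly three different values. Then the order of G has at most two prime divisors; and if it has exactly two, then every Sylow subgroup of G for a prime dividing its order has prime exponent, G is a Frobenius group, and some Frobenius complement of G has prime order. -/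
theorem result {G : Type*} [Group G] [Finite G] (hodd : Odd (Nat.card G)) (h : (((fun m : ℕ => Nat.card {g : G // orderOf g = m}) '' Set.range (orderOf : G → ℕ))).ncard = 3) :
    (Nat.card G).primeFactors.card ≤ 2 ∧
      ((Nat.card G).primeFactors.card = 2 →
        (∀ (p : ℕ) [Fact p.Prime] (P : Sylow p G), p ∣ Nat.card G → Monoid.exponent ↥(P : Subgroup G) = p) ∧
        ∃ C : Subgroup G, Cfsg.IsFrobeniusComplement C ∧ (Nat.card ↥C).Prime) := by
  obtain ⟨a, b, hS⟩ : ∃ a b, H G a b := by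
    obtain ⟨x, y, z, -, -, -, e⟩ := Set.ncard_eq_three.1 h
    have k : ∀ g : G, S3995.S G (orderOf g) ∈ ({x, y, z} : Set ℕ) := fun g => e ▸ ⟨_, ⟨g, rfl⟩, rfl⟩
    have k1 : ∀ g : G, 1 < orderOf g → S3995.S G (orderOf g) ≠ 1 := fun g hg e => by
      have h1 : (orderOf g).totient ∣ S3995.S G (orderOf g) := ⟨_, CL.Fgs.ncard_orderOf_eq _⟩
      obtain ⟨k, hk⟩ := hodd.of_dvd_nat (orderOf_dvd_natCard g)
      have := (Nat.totient_even (by omega : 2 < orderOf g)).two_dvd.trans h1
      omega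
    have k2 : ∀ a b, (∀ t ∈ ({x, y, z} : Set ℕ), t ≠ 1 → t = a ∨ t = b) → H G a b := fun a b c m hm =>
      (S3995.S_eq_zero_or m).imp_right fun ⟨g, hg⟩ => hg ▸ c _ (k g) (k1 g (hg ▸ hm))
    have k3 := k 1
    rw [orderOf_one, S3995.S_one] at k3
    rcases k3 with rfl | rfl | rfl
    exacts [⟨y, z, k2 _ _ (by simp)⟩, ⟨x, z, k2 _ _ (by simp +contextual)⟩, ⟨x, y, k2 _ _ (by simp +contextual)⟩]
  have k1 : ∀ {p q : ℕ}, p.Prime → p ∣ Nat.card G → q.Prime → q ∣ Nat.card G → q ≠ p → S3995.S G p ≠ S3995.S G q :=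
    fun hp hd hq hd' n e => (hS.val hodd hp hd).elim (fun c => hS.ne hodd hp hd hq hd' n c (e ▸ c))
      fun c => hS.symm.ne hodd hp hd hq hd' n c (e ▸ c)
  refine ⟨by_contra fun c => ?_, fun c => ?_⟩
  · obtain ⟨p, q, r, hp, hq, hr, n1, n2, n3⟩ := Finset.two_lt_card_iff.1 (not_le.1 c)
    simp only [Nat.mem_primeFactors] at hp hq hr
    have := k1 hp.1 hp.2.1 hq.1 hq.2.1 n1.symm
    have := k1 hp.1 hp.2.1 hr.1 hr.2.1 n2.symm
    have := k1 hq.1 hq.2.1 hr.1 hr.2.1 n3.symm
    have := hS.val hodd hp.1 hp.2.1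
    have := hS.val hodd hq.1 hq.2.1
    have := hS.val hodd hr.1 hr.2.1
    omega
  obtain ⟨p, q, n, e⟩ := Finset.card_eq_two.1 c
  have k2 : ∀ r, r.Prime ∧ r ∣ Nat.card G ↔ r = p ∨ r = q := fun r => by
    have := Finset.ext_iff.1 e r
    simpa [Nat.card_pos.ne'] using this
  obtain ⟨hp, hd⟩ := (k2 p).2 (Or.inl rfl)
  obtain ⟨hq, hd'⟩ := (k2 q).2 (Or.inr rfl)
  have h1 := k1 hp hd hq hd' n.symm
  have h2 : H G (S3995.S G p) (S3995.S G q) := fun m hm => by
    have := hS m hm
    have := hS.val hodd hp hd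
    have := hS.val hodd hq hd'
    omega
  have h3 : S3995.S G (q * p) = 0 := (h2 _ (by have := hp.one_lt; have := hq.one_lt; nlinarith)).resolve_right fun c =>
    c.elim (pq_ne hodd hp hd hq hd' n.symm) (mul_comm p q ▸ pq_ne hodd hq hd' hp hd n)
  have h4 := h2.sq hodd hp hd hq hd' n.symm rfl rfl h3
  have h5 := h2.symm.sq hodd hq hd' hp hd n rfl rfl (mul_comm p q ▸ h3)
  have h6 : ∀ g : G, g = 1 ∨ orderOf g = p ∨ orderOf g = q := fun g => or_iff_not_imp_left.2 fun g1 => by
    obtain ⟨r, hr, m, hm⟩ := Nat.exists_prime_and_dvd (mt orderOf_eq_one_iff.1 g1)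
    have c1 := (k2 r).1 ⟨hr, (Dvd.intro _ hm.symm).trans (orderOf_dvd_natCard g)⟩
    by_cases c2 : m = 1
    · rwa [hm, c2, mul_one]
    obtain ⟨s, hs, t, rfl⟩ := Nat.exists_prime_and_dvd c2
    have c3 : r * s ∣ orderOf g := ⟨t, by rw [hm, mul_assoc]⟩
    rcases c1 with rfl | rfl <;>
      rcases (k2 s).1 ⟨hs, ((Dvd.intro_left _ rfl).trans c3).trans (orderOf_dvd_natCard g)⟩ with rfl | rfl
    exacts [absurd (by rwa [sq]) (no_ord h5 g), absurd (by rwa [mul_comm]) (no_ord h3 g), absurd c3 (no_ord h3 g),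
      absurd (by rwa [sq]) (no_ord h4 g)]
  refine ⟨fun r hr P hd'' => ?_, ?_⟩
  · have : Nontrivial (P : Subgroup G) := (Subgroup.nontrivial_iff_ne_bot _).2 (P.ne_bot_of_dvd_card hd'')
    refine S3995.exponent_eq hr.out P.isPGroup' fun g c => ?_
    rw [← Subgroup.orderOf_coe] at c
    rcases (k2 r).1 ⟨hr.out, hd''⟩ with rfl | rfl
    exacts [no_ord h5 _ c.symm.dvd, no_ord h4 _ c.symm.dvd]
  have := CL.Char.isSolvable_of_two_primes hp hq fun r hr c => (k2 r).1 ⟨hr, c⟩
  have : Nontrivial G := Finite.one_lt_card_iff_nontrivial.1 (hp.one_lt.trans_le (Nat.le_of_dvd Nat.card_pos hd))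
  obtain ⟨V, r, hr, hV, he⟩ := CL.Grp.exists_isMinNormal_isElementaryAbelian G
  have := hV.normal
  obtain ⟨v, hv, v1⟩ := (Subgroup.bot_or_exists_ne_one V).resolve_left hV.ne_bot
  have := Fact.mk hr
  rcases (k2 r).1 ⟨hr, orderOf_eq_prime (he.2 v hv) v1 ▸ orderOf_dvd_natCard v⟩ with rfl | rfl
  exacts [frobC hp hq hd' n.symm h6 hV.ne_bot he, frobC hq hp hd n (fun g => (h6 g).imp_right Or.symm) hV.ne_bot he]

end Cfsg.Agent.S4004
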