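import Cfsg.Statements.S4010
import Cfsg.Agent.Sw.LinDer

set_option autoImplicit false
open Cfsg

namespace Cfsg.Agent.S4010
open scoped Pointwise commutatorElement

/-- Let F be a field, n ≥ 1, and P a finite p-group (p a prime) admitting an injective homomorphism into the general linear group of degree n over F. Then the derived length of P is at most ⌊log₂ n⌋ + 1: that term of the derived series of P is trivial. -/
theorem result {P : Type*} [Group P] [Finite P] (p : ℕ) [Fact p.Prime] (hP : IsPGroup p P) (F : Type*) [Field F] (n : ℕ) (hn : 1 ≤ n) (ρ : P →* Matrix.GeneralLinearGroup (Fin n) F) (hρ : Function.Injective ρ) : derivedSeries P (Nat.log 2 n + 1) = ⊥ := by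
  have hp : p.Prime := Fact.out
  have h1 := Nat.lt_pow_succ_log_self one_lt_two n
  rw [eq_bot_iff]
  intro g hg
  refine hρ ((CL.Sw.glRep_eq_one ?_).trans (map_one ρ).symm)
  by_cases h : (p : F) = 0
  · have : CharP F p := (CharP.charP_iff_prime_eq_zero hp).2 h
    exact CL.Sw.der_trivial_char hP _ (by simpa using h1.le) g hg
  · refine CL.Sw.der_trivial h (e := 1) (fun _ => le_rfl) ?_ n (Fin n → F) (by simp) P hP _ _ ?_ g hg
    · intro W _ _ _ hW T j _
      have : Subsingleton W := Module.finrank_zero_iff.1 (Nat.lt_one_iff.1 hW)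
      exact Subsingleton.elim _ _
    · rw [one_mul]; exact h1.trans_le (Nat.pow_le_pow_left hp.two_le _)

end Cfsg.Agent.S4010
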