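import Cfsg.Statements.S4013
import Cfsg.Agent.Fgs.ClassFusion

set_option autoImplicit false
open Cfsg

namespace Cfsg.Agent.S4013

open CL.Fgs Subgroup


/-- Let G be a finite p-group (p prime) and N < M normal subgroups of G such that for some g ∈ M ∖ N the conjugacy class of g is exactly M ∖ N. Then p = 2 and N has index 2 in M. -/
theorem result {G : Type*} [Group G] [Finite G] (p : ℕ) [Fact p.Prime] (hG : IsPGroup p G) (N M : Subgroup G) [N.Normal] [M.Normal] (hNM : N < M) (g : G) (hgM : g ∈ M) (hgN : g ∉ N) (hcl : {h : G | IsConj g h} = (M : Set G) \ (N : Set G)) : p = 2 ∧ N.relIndex M = 2 := by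
  have hp : p.Prime := Fact.out
  have h1 := ncard_diff_add_card_inf M N
  rw [← hcl, ncard_isConj, inf_eq_right.2 hNM.le, ← CL.Grp.card_mul_relIndex hNM.le] at h1
  obtain ⟨a, ha⟩ := hG.index cent(g)
  obtain ⟨b, hb⟩ := (hG.to_subgroup M).index (N.subgroupOf M)
  change N.relIndex M = p ^ b at hb
  have hb0 : b ≠ 0 := by
    rintro rfl
    exact hNM.not_ge (relIndex_eq_one.1 hb)
  obtain ⟨j, hj⟩ : ∃ j, N.relIndex M = j + 1 := ⟨N.relIndex M - 1, by
    have := pow_pos hp.pos b; omega⟩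
  rw [hj, mul_add, mul_one, Nat.add_right_cancel_iff, ha] at h1
  obtain ⟨c, -, hc⟩ := (Nat.dvd_prime_pow hp).1 (Dvd.intro_left _ h1.symm)
  have hc0 : c = 0 := by
    by_contra h0
    have h2 : p ∣ j + 1 := by rw [← hj, hb]; exact dvd_pow_self p hb0
    have h3 : p ∣ j := by rw [hc]; exact dvd_pow_self p h0
    exact hp.one_lt.ne' (Nat.dvd_one.1 ((Nat.dvd_add_right h3).1 h2))
  rw [hc0, pow_zero] at hc
  rw [hc] at hj
  refine ⟨(Nat.prime_dvd_prime_iff_eq hp Nat.prime_two).1 ?_, hj⟩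
  exact (dvd_pow_self p hb0).trans (dvd_of_eq (hb.symm.trans hj))

end Cfsg.Agent.S4013
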