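import Cfsg.Statements.S4015
import Cfsg.Agent.Sw.LinDer

set_option autoImplicit false
open Cfsg

namespace Cfsg.Agent.S4015
open scoped Pointwise commutatorElement

universe u

/-- the regular wreath product inside the full one -/
def toW (D C : Type*) [Group D] [Group C] : RegularWreathProduct D C →* CL.Wr.W D C where
  toFun x := ⟨x.left, MulAction.toPermHom C C x.right⟩
  map_one' := by ext <;> simp
  map_mul' x y := by
    ext i
    · rw [CL.Wr.mul_left_apply]; simp
    · simp [mul_assoc]

theorem toW_injective (D C : Type*) [Group D] [Group C] : Function.Injective (toW D C) := by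
  intro x y h
  have h1 : x.left = y.left := congrArg SemidirectProduct.left h
  have h2 : MulAction.toPermHom C C x.right = MulAction.toPermHom C C y.right := congrArg SemidirectProduct.right h
  exact RegularWreathProduct.ext h1 (MulAction.toPerm_injective h2)

theorem exists_rep (p : ℕ) [hp : Fact p.Prime] (F : Type u) [Field F] [Fintype F] (hq : ¬ p ∣ Fintype.card F)
    (k : ℕ) : ∃ (Q : Type u) (_ : Group Q) (_ : Finite Q) (V : Type u) (_ : AddCommGroup V) (_ : Module F V)
      (_ : FiniteDimensional F V) (ρ : Q →* (V ≃ₗ[F] V)), IsPGroup p Q ∧ derivedSeries Q k ≠ ⊥ ∧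
      Function.Injective ρ ∧ Module.finrank F V = orderOf (Fintype.card F : ZMod p) * p ^ k := by
  have h0 : 0 < orderOf (Fintype.card F : ZMod p) :=
    (isOfFinOrder_iff_pow_eq_one.2 ⟨p - 1, by have := hp.out.two_le; omega, ZMod.pow_card_sub_one_eq_one
      (by rwa [Ne, ZMod.natCast_eq_zero_iff])⟩).orderOf_pos
  induction k with
  | zero =>
    have hd : p ∣ Nat.card (GL (Fin (orderOf (Fintype.card F : ZMod p))) F) := by
      rw [Matrix.card_GL_field]
      refine Dvd.dvd.trans ?_ (Finset.dvd_prod_of_mem _ (Finset.mem_univ ⟨0, h0⟩))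
      rw [← ZMod.natCast_eq_zero_iff, Nat.cast_sub (Nat.pow_le_pow_right Fintype.card_pos (Nat.zero_le _))]
      simp [pow_orderOf_eq_one]
    obtain ⟨g, hg⟩ := exists_prime_orderOf_dvd_card' p hd
    refine ⟨Subgroup.zpowers g, inferInstance, inferInstance, Fin (orderOf (Fintype.card F : ZMod p)) → F,
      inferInstance, inferInstance, inferInstance,
      ((Matrix.GeneralLinearGroup.toLin.trans (LinearMap.GeneralLinearGroup.generalLinearEquiv F _)).toMonoidHom).comp
        (Subgroup.zpowers g).subtype, IsPGroup.of_card (n := 1) (by rw [Nat.card_zpowers, hg, pow_one]), ?_,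
      fun a b h => Subtype.ext ((Matrix.GeneralLinearGroup.toLin.trans
        (LinearMap.GeneralLinearGroup.generalLinearEquiv F _)).injective h), by simp⟩
    have : Nontrivial (Subgroup.zpowers g) := Finite.one_lt_card_iff_nontrivial.1 (by
      rw [Nat.card_zpowers, hg]; exact hp.out.one_lt)
    exact top_ne_bot
  | succ k ih =>
    obtain ⟨Q, _, _, V, _, _, _, ρ, hQ, hd, hρ, hV⟩ := ih
    have : Nontrivial V := Module.nontrivial_of_finrank_pos (R := F) (by
      rw [hV]; exact Nat.mul_pos h0 (pow_pos hp.out.pos _))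
    refine ⟨RegularWreathProduct Q (Multiplicative (ZMod p)), inferInstance, inferInstance,
      Multiplicative (ZMod p) → V, inferInstance, inferInstance, inferInstance,
      (CL.Wr.wrRep ρ _).comp (toW _ _), ?_, CL.Known.derivedSeries_wreath_ne_bot hd,
      (CL.Wr.wrRep_injective hρ).comp (toW_injective _ _), ?_⟩
    · obtain ⟨m, hm⟩ := IsPGroup.iff_card.1 hQ
      refine IsPGroup.of_card (n := m * p + 1) ?_
      rw [RegularWreathProduct.card, hm]
      simp [pow_succ, pow_mul]
    · rw [Module.finrank_pi_fintype, Finset.sum_const, hV]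
      simp [pow_succ]; ring


/-- Let p be an odd prime, F a finite field with q elements where p does not divide q, and e the multiplicative order of q modulo p. Let n ≥ e and write w = ⌊n/e⌋ and k = ⌊log_p w⌋. Then a Sylow p-subgroup of GL(n, F) has derived length exactly k + 1: its (k+1)-st derived subgroup is trivial and its k-th is not. -/
theorem result (p : ℕ) [Fact p.Prime] (hp : p ≠ 2) (F : Type*) [Field F] [Fintype F] (q : ℕ) (hq : Fintype.card F = q) (hpq : ¬ p ∣ q) (n : ℕ) (hn : orderOf (q : ZMod p) ≤ n) (P : Sylow p (Matrix.GeneralLinearGroup (Fin n) F)) : derivedSeries ↥(P : Subgroup (Matrix.GeneralLinearGroup (Fin n) F)) (Nat.log p (n / orderOf (q : ZMod p)) + 1) = ⊥ ∧ derivedSeries ↥(P : Subgroup (Matrix.GeneralLinearGroup (Fin n) F)) (Nat.log p (n / orderOf (q : ZMod p))) ≠ ⊥ := by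
  subst hq
  have hpp : p.Prime := Fact.out
  have h0 : 0 < orderOf (Fintype.card F : ZMod p) :=
    (isOfFinOrder_iff_pow_eq_one.2 ⟨p - 1, by have := hpp.two_le; omega, ZMod.pow_card_sub_one_eq_one
      (by rwa [Ne, ZMod.natCast_eq_zero_iff])⟩).orderOf_pos
  refine ⟨CL.Sw.der_gl_finite hpq ?_ _ P.2, ?_⟩
  · have h1 := Nat.lt_pow_succ_log_self hpp.one_lt (n / orderOf (Fintype.card F : ZMod p))
    rw [mul_comm]
    exact (Nat.div_lt_iff_lt_mul h0).1 h1
  · set k := Nat.log p (n / orderOf (Fintype.card F : ZMod p))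
    obtain ⟨Q, _, _, V, _, _, _, ρ, hQ, hd, hρ, hV⟩ := exists_rep p F hpq k
    have hle : orderOf (Fintype.card F : ZMod p) * p ^ k ≤ n := by
      rw [mul_comm]
      exact (Nat.le_div_iff_mul_le h0).1 (Nat.pow_log_le_self p (Nat.div_pos hn h0).ne')
    obtain ⟨φ, hφ⟩ := CL.Wr.exists_gl_embedding (n := n) (CL.Wr.prodRep ρ
      (1 : Unit →* ((Fin (n - Module.finrank F V) → F) ≃ₗ[F] (Fin (n - Module.finrank F V) → F))))
      (CL.Wr.prodRep_injective hρ (Function.injective_of_subsingleton _)) (by
        rw [Module.finrank_prod, Module.finrank_fin_fun]; omega)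
    have hψ : Function.Injective (φ.comp (MonoidHom.inl Q Unit)) :=
      hφ.comp (fun a b h => (Prod.ext_iff.1 h).1)
    obtain ⟨P', hP'⟩ := (hQ.of_surjective _ (φ.comp (MonoidHom.inl Q Unit)).rangeRestrict_surjective).exists_le_sylow
    refine CL.Known.derivedSeries_ne_bot_of_injective ((Sylow.equiv P' P).toMonoidHom.comp
      ((Subgroup.inclusion hP').comp (φ.comp (MonoidHom.inl Q Unit)).rangeRestrict)) ?_ hd
    intro a b h
    exact hψ (congrArg Subtype.val (Subgroup.inclusion_injective hP' ((Sylow.equiv P' P).injective h)))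

end Cfsg.Agent.S4015
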