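import Cfsg.Statements.S4027
import Cfsg.Agent.Fgs.NCompl

set_option autoImplicit false
open Cfsg

namespace Cfsg.Agent.S4027

/-- Let G be a finite group in which every element x of odd order satisfies N_G(⟨x⟩) = C_G(x). Then the Sylow 2-subgroups of G are normal. -/
theorem result {G : Type*} [Group G] [Finite G]
    (hirr : ∀ x : G, (∀ r : ℕ, r.Prime → r ∣ orderOf x → r ≠ 2) →
      Subgroup.normalizer ((Subgroup.zpowers x : Subgroup G) : Set G) ≤ Subgroup.centralizer {x}) (P : Sylow 2 G) :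
    (P : Subgroup G).Normal := by
  by_contra hP
  obtain ⟨h, u, h1, h2, e⟩ := CL.Fgs.nc_exists_inverted P hP
  have h3 : u ∈ Subgroup.normalizer ((Subgroup.zpowers h : Subgroup G) : Set G) := by
    rw [← CL.Odd.cj_eq_self_iff, CL.Odd.cj_zpowers, e, Subgroup.zpowers_inv]
  have h4 := CL.Odd.mem_c1_iff_conj.1 (hirr h (fun r _ hr e => h2 (e ▸ hr)) h3)
  exact h1 (CL.Fgs.nc_eq_one_of_inv h2 (h4.symm.trans e))

end Cfsg.Agent.S4027
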