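import Cfsg.Statements.S4028
import Cfsg.Agent.Fgs.NCompl

set_option autoImplicit false
open Cfsg

namespace Cfsg.Agent.S4028

open CL.Grp CL.Odd in
theorem sub {G : Type*} [Group G] {P : Subgroup G} (y : P) :
    (N[Subgroup.zpowers y] ≤ C1[y]) ↔ P ⊓ N[Subgroup.zpowers (y : G)] ≤ C1[(y : G)] := by
  have e : Subgroup.zpowers y = (Subgroup.zpowers (y : G)).subgroupOf P := by
    rw [← show (Subgroup.zpowers y).map P.subtype = Subgroup.zpowers (y : G) from MonoidHom.map_zpowers _ _,
      Subgroup.subgroupOf, Subgroup.comap_map_eq_self_of_injective P.subtype_injective]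
  have hle : Subgroup.zpowers (y : G) ≤ P := Subgroup.zpowers_le.2 y.2
  constructor
  · intro h g hg
    have := h (x := ⟨g, hg.1⟩) (by rw [e]; exact (mem_norm_subgroupOf hle).2 hg.2)
    exact mem_c1.2 (congrArg Subtype.val (mem_c1.1 this))
  · intro h g hg
    rw [e] at hg
    exact mem_c1.2 (Subtype.ext (mem_c1.1 (h ⟨g.2, (mem_norm_subgroupOf hle).1 hg⟩)))

theorem rk {G : Type*} [Group G] [Finite G] (x : G) : Group.rank (Subgroup.zpowers x) ≤ 1 := by
  classical
  refine (Group.rank_le (S := {⟨x, Subgroup.mem_zpowers x⟩}) ?_).trans (Finset.card_singleton _).le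
  rw [Finset.coe_singleton, ← Subgroup.zpowers_eq_closure, eq_top_iff]
  rintro ⟨_, k, rfl⟩ -
  exact ⟨k, rfl⟩

/-- Let G be a finite group with Sylow 2-subgroup P. Then N_G(⟨x⟩) = C_G(x) holds for every 2-element x of G if and only if N_P(⟨y⟩) = C_P(y) holds for every y ∈ P (computed inside P). -/
theorem result {G : Type*} [Group G] [Finite G] (P : Sylow 2 G) :
    (∀ x : G, (∀ r : ℕ, r.Prime → r ∣ orderOf x → r = 2) →
      Subgroup.normalizer ((Subgroup.zpowers x : Subgroup G) : Set G) ≤ Subgroup.centralizer {x}) ↔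
    (∀ y : ↥(P : Subgroup G), Subgroup.normalizer ((Subgroup.zpowers y : Subgroup ↥(P : Subgroup G)) : Set ↥(P : Subgroup G)) ≤
        Subgroup.centralizer {y}) := by
  open CL.Grp CL.Odd in
  constructor
  · intro h y
    exact (sub y).2 (inf_le_right.trans (h y (CL.Fgs.isPiElt_singleton_of_mem P.isPGroup' y.2)))
  · intro h x hx
    have hx2 : IsPGroup 2 (Subgroup.zpowers x) := CL.Fgs.IsPiElt.isPGroup_zpowers hx
    refine CL.Fgs.nc_le_of_primePow fun g hg q k hq _ ho => ?_
    by_cases e : q = 2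
    · subst e
      have h1 : IsPGroup 2 ↥(Subgroup.zpowers x ⊔ Subgroup.zpowers g) :=
        isPGroup_sup hx2 (IsPGroup.of_card ((Nat.card_zpowers g).trans ho)) (Subgroup.zpowers_le.2 hg)
      obtain ⟨u, hu⟩ := exists_conj_le_sylow P h1
      have h2 := (sub ⟨u * x * u⁻¹, hu (conj_mem_cj.2 (Subgroup.mem_sup_left (Subgroup.mem_zpowers x)))⟩).1
        (h _) (x := u * g * u⁻¹) ⟨hu (conj_mem_cj.2 (Subgroup.mem_sup_right (Subgroup.mem_zpowers g))), by
          rw [← cj_zpowers, ← cj_normalizer]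
          exact conj_mem_cj.2 hg⟩
      rwa [← cj_c1, conj_mem_cj] at h2
    · by_contra hc
      rw [← centralizer_zpowers] at hc
      obtain ⟨j, h1, h2, h3⟩ := CL.Fgs.nc_dvd_of_not_cent (d := 1) Nat.prime_two hq e hx2
        (CL.Fgs.nc_index_frattini_dvd Nat.prime_two hx2 (rk x)) ho hg hc
      obtain rfl : j = 1 := by omega
      exact hq.one_lt.ne' (Nat.dvd_one.1 h3)

end Cfsg.Agent.S4028
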