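import Cfsg.Statements.S4029
import Cfsg.Agent.Fgs.ClassCount
import Cfsg.Agent.Grp.PGroupFrattini

set_option autoImplicit false
open Cfsg

namespace Cfsg.Agent.S4029

open Finset CL.Fgs in
theorem pairs {P : Type*} [Group P] [Fintype P] [DecidableEq P]
    (hirr : ∀ y : P, Subgroup.normalizer ((Subgroup.zpowers y : Subgroup P) : Set P) ≤ Subgroup.centralizer {y}) :
    (univ.filter fun z : P × P => z.1 ^ 2 = z.2 ^ 2).card =
      Nat.card P + ∑ x ∈ univ.filter (fun x : P => orderOf x = 2), Nat.card cent(x) := by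
  classical
  have h1 : (univ.filter fun z : P × P => z.1 ^ 2 = z.2 ^ 2).card =
      (univ.filter fun z : P × P => z.1 ^ 2 = 1 ∧ z.2 ∈ cent(z.1)).card := by
    symm
    refine Finset.card_bij (fun z _ => (z.2, z.2 * z.1)) ?_ ?_ ?_
    · rintro ⟨g, h⟩ hz
      obtain ⟨h2, hc⟩ := (Finset.mem_filter.1 hz).2
      refine Finset.mem_filter.2 ⟨Finset.mem_univ _, ?_⟩
      have hc' : Commute h g := mem_cent.1 hc
      simp only
      rw [hc'.mul_pow, h2, mul_one]
    · rintro ⟨g, h⟩ _ ⟨g', h'⟩ _ e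
      obtain ⟨e1, e2⟩ : h = h' ∧ h * g = h' * g' := Prod.mk.inj e
      subst e1
      rw [mul_left_cancel e2]
    · rintro ⟨x, y⟩ hz
      have h2 : x ^ 2 = y ^ 2 := (Finset.mem_filter.1 hz).2
      have hi : x * (x⁻¹ * y)⁻¹ * x⁻¹ = x⁻¹ * y := by
        have : x * (x⁻¹ * y)⁻¹ * x⁻¹ = x * y⁻¹ := by group
        rw [this]
        calc x * y⁻¹ = x⁻¹ * x ^ 2 * y⁻¹ := by group
          _ = x⁻¹ * y := by rw [h2]; group
      have hn : x ∈ Subgroup.normalizer ((Subgroup.zpowers (x⁻¹ * y)⁻¹ : Subgroup P) : Set P) := by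
        refine Subgroup.mem_normalizer_fintype ?_
        rintro _ ⟨k, rfl⟩
        simp only
        rw [← conj_zpow, hi]
        exact Subgroup.zpow_mem _ ((Subgroup.inv_mem_iff _).1 (Subgroup.mem_zpowers _)) k
      have hc : Commute x (x⁻¹ * y)⁻¹ := mem_cent.1 (hirr _ hn)
      refine ⟨(x⁻¹ * y, x), Finset.mem_filter.2 ⟨Finset.mem_univ _, ?_, mem_cent.2 (by simpa using hc.inv_right)⟩, by simp⟩
      rw [hc.eq, mul_inv_cancel_right] at hi
      simp only
      rw [sq]
      nth_rewrite 1 [← hi]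
      exact inv_mul_cancel _
  rw [h1, Finset.card_eq_sum_card_fiberwise (f := Prod.fst) (t := univ.filter fun x : P => x ^ 2 = 1)
    (fun z hz => Finset.mem_filter.2 ⟨Finset.mem_univ _, (Finset.mem_filter.1 hz).2.1⟩)]
  have h3 : (univ.filter fun x : P => x ^ 2 = 1) = insert 1 (univ.filter fun x : P => orderOf x = 2) := by
    ext x
    simp only [Finset.mem_filter, Finset.mem_univ, true_and, Finset.mem_insert]
    constructor
    · intro h
      by_cases hx : x = 1
      · exact Or.inl hx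
      · exact Or.inr (orderOf_eq_prime h hx)
    · rintro (rfl | h)
      · simp
      · rw [← h, pow_orderOf_eq_one]
  have h4 : ∀ x : P, x ^ 2 = 1 → ((univ.filter fun z : P × P => z.1 ^ 2 = 1 ∧ z.2 ∈ cent(z.1)).filter
      fun z => z.1 = x).card = Nat.card cent(x) := by
    intro x hx
    rw [card_subgroup_eq_filter]
    refine Finset.card_bij (fun z _ => z.2) ?_ ?_ ?_
    · rintro ⟨a, b⟩ hz
      simp only [Finset.mem_filter, Finset.mem_univ, true_and] at hz ⊢
      exact hz.2 ▸ hz.1.2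
    · rintro ⟨a, b⟩ hz ⟨c, d⟩ hw e
      exact Prod.ext ((Finset.mem_filter.1 hz).2.trans (Finset.mem_filter.1 hw).2.symm) e
    · intro b hb
      exact ⟨(x, b), by simpa using ⟨hx, (Finset.mem_filter.1 hb).2⟩, rfl⟩
  rw [Finset.sum_congr rfl fun x hx => h4 x (Finset.mem_filter.1 hx).2, h3,
    Finset.sum_insert (by simp)]
  congr 1
  rw [show cent((1 : P)) = ⊤ from eq_top_iff.2 fun g _ => mem_cent.2 (Commute.one_right g), Subgroup.card_top]

open Finset CL.Fgs in
theorem cs_ineq {P : Type*} [Group P] [Fintype P] [DecidableEq P] (hP : IsPGroup 2 P) :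
    Nat.card P ^ 2 ≤ Nat.card (frattini P) * (univ.filter fun z : P × P => z.1 ^ 2 = z.2 ^ 2).card := by
  classical
  have hm : ∀ x : P, x ^ 2 ∈ univ.filter (· ∈ frattini P) := fun x =>
    Finset.mem_filter.2 ⟨Finset.mem_univ _, CL.Grp.pow_mem_frattini hP x⟩
  have h := sq_sum_le_card_mul_sum_sq (s := univ.filter (· ∈ frattini P))
    (f := fun z => (univ.filter fun x : P => x ^ 2 = z).card)
  rw [← Finset.card_eq_sum_card_fiberwise (fun x _ => hm x), Finset.card_univ, ← Nat.card_eq_fintype_card,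
    ← card_subgroup_eq_filter] at h
  refine h.trans (le_of_eq ?_)
  congr 1
  rw [Finset.card_eq_sum_card_fiberwise (f := fun z : P × P => z.1 ^ 2) (fun z _ => hm z.1)]
  refine Finset.sum_congr rfl fun z _ => ?_
  rw [sq, ← Finset.card_product]
  congr 1
  ext ⟨a, b⟩
  simp only [Finset.mem_product, Finset.mem_filter, Finset.mem_univ, true_and]
  constructor
  · rintro ⟨h1, h2⟩; exact ⟨h1.trans h2.symm, h1⟩
  · rintro ⟨h1, h2⟩; exact ⟨h2, h1 ▸ h2⟩

/-- Let P be a finite 2-group in which N_P(⟨y⟩) = C_P(y) for every y ∈ P. If s is the number of conjugacy classes of involutions of P, then #(P/Φ(P)) ≤ s + 1; in particular the subgroup generated by the involutions of P has order at least #(P/Φ(P)). -/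
theorem result {P : Type*} [Group P] [Finite P] (hP : IsPGroup 2 P)
    (hirr : ∀ y : P, Subgroup.normalizer ((Subgroup.zpowers y : Subgroup P) : Set P) ≤ Subgroup.centralizer {y}) :
    Nat.card (P ⧸ frattini P) ≤ Nat.card {c : ConjClasses P // ∃ y : P, ConjClasses.mk y = c ∧ orderOf y = 2} + 1 ∧
    Nat.card (P ⧸ frattini P) ≤ Nat.card (Subgroup.closure {y : P | orderOf y = 2}) := by
  classical
  have := Fintype.ofFinite P
  have h1 := CL.Fgs.card_classes_mul_card (G := P) (fun c => ∃ y : P, ConjClasses.mk y = c ∧ orderOf y = 2)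
    (fun x => orderOf x = 2) fun x => ⟨fun ⟨y, h, hy⟩ => by
      obtain ⟨g, rfl⟩ := isConj_iff.1 (ConjClasses.mk_eq_mk_iff_isConj.1 h)
      rwa [← MulAut.conj_apply, MulEquiv.orderOf_eq], fun h => ⟨x, rfl, h⟩⟩
  have h2 := cs_ineq hP
  rw [pairs hirr, ← h1, ← one_add_mul, sq, mul_comm (1 + _), ← mul_assoc, mul_comm (Nat.card (frattini P)),
    mul_assoc] at h2
  have h3 := Nat.le_of_mul_le_mul_left h2 Nat.card_pos
  rw [Subgroup.card_eq_card_quotient_mul_card_subgroup (frattini P), mul_comm (Nat.card (frattini P))] at h3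
  have h4 := Nat.le_of_mul_le_mul_right h3 Nat.card_pos
  refine ⟨by omega, h4.trans ?_⟩
  have h5 : Nat.card {c : ConjClasses P // ∃ y : P, ConjClasses.mk y = c ∧ orderOf y = 2} ≤
      Nat.card {y : P // orderOf y = 2} :=
    Nat.card_le_card_of_surjective (fun y => ⟨ConjClasses.mk y.1, y.1, rfl, y.2⟩)
      fun ⟨c, y, h, hy⟩ => ⟨⟨y, hy⟩, Subtype.ext h⟩
  have h6 : Nat.card (Option {y : P // orderOf y = 2}) ≤ Nat.card (Subgroup.closure {y : P | orderOf y = 2}) := by
    refine Nat.card_le_card_of_injective (fun o => o.elim 1 fun y => ⟨y.1, Subgroup.subset_closure y.2⟩) ?_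
    rintro (_ | a) (_ | b) e
    · rfl
    · have hb := b.2
      rw [show b.1 = 1 from (congrArg Subtype.val e).symm, orderOf_one] at hb
      omega
    · have ha := a.2
      rw [show a.1 = 1 from congrArg Subtype.val e, orderOf_one] at ha
      omega
    · have e' : a.1 = b.1 := congrArg (fun z : Subgroup.closure {y : P | orderOf y = 2} => (z : P)) e
      exact congrArg some (Subtype.ext e')
  rw [Finite.card_option] at h6
  omega

end Cfsg.Agent.S4029
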