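import Cfsg.Statements.S4032
import Cfsg.Agent.Fgs.NCompl

set_option autoImplicit false
open Cfsg

namespace Cfsg.Agent.S4032

/-- Let π be a set of primes and G a finite group in which N_G(⟨x⟩) = C_G(x) for every π-element x. If N is a normal subgroup of G whose order is divisible by no prime of π, then G/N has the same property: N_{G/N}(⟨y⟩) = C_{G/N}(y) for every π-element y of G/N. -/
theorem result {G : Type*} [Group G] [Finite G] (π : Set ℕ)
    (hirr : ∀ x : G, (∀ r : ℕ, r.Prime → r ∣ orderOf x → r ∈ π) →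
      Subgroup.normalizer ((Subgroup.zpowers x : Subgroup G) : Set G) ≤ Subgroup.centralizer {x})
    (N : Subgroup G) [N.Normal] (hN : ∀ r : ℕ, r.Prime → r ∣ Nat.card N → r ∉ π) :
    ∀ y : G ⧸ N, (∀ r : ℕ, r.Prime → r ∣ orderOf y → r ∈ π) →
      Subgroup.normalizer ((Subgroup.zpowers y : Subgroup (G ⧸ N)) : Set (G ⧸ N)) ≤ Subgroup.centralizer {y} := by
  intro y hy
  obtain ⟨x, hx, rfl⟩ := CL.Fgs.nc_exists_lift (π := π) (QuotientGroup.mk'_surjective N) hy
  have hc : (Nat.card (Subgroup.zpowers x)).Coprime (Nat.card N) := by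
    rw [Nat.card_zpowers]
    exact CL.Odd.coprime_of_pi_of_pi' hx hN
  rw [← MonoidHom.map_zpowers, CL.Grp.normalizer_map_mk'_eq hc
    (Or.inl (CL.Odd.sol_of_abelian (CL.Odd.abelian_zpowers x)))]
  rintro _ ⟨u, hu, rfl⟩
  rw [CL.Odd.mem_c1, ← map_mul, CL.Odd.mem_c1.1 (hirr x hx hu), map_mul]

end Cfsg.Agent.S4032
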