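import Cfsg.Statements.S4033
import Cfsg.Agent.Fgs.PReg

set_option autoImplicit false
open Cfsg

namespace Cfsg.Agent.S4033

open Subgroup CL.Grp CL.Fgs


/-- Let G be a finite group and p a prime, and suppose the conjugacy classes of p-regular elements of G (elements of order prime to p) have exactly two distinct sizes. Then either G has an abelian p-complement (an abelian subgroup of order prime to p and p-power index), or there are a prime q ≠ p, a Sylow p-subgroup P, a Sylow q-subgroup Q and a central subgroup A such that PQ is a normal subgroup of order #P·#Q and G is the internal direct product PQ × A. -/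
theorem result {G : Type*} [Group G] [Finite G] {p : ℕ} (hp : p.Prime)
    (h2 : Set.ncard (Set.range fun x : {x : G // (orderOf x).Coprime p} => (ConjClasses.mk (x : G)).carrier.ncard) = 2) :
    (∃ H : Subgroup G, IsMulCommutative H ∧ ¬ p ∣ Nat.card H ∧ ∃ k : ℕ, H.index = p ^ k) ∨
    (∃ (q : ℕ) (_ : Fact q.Prime) (P : Sylow p G) (Q : Sylow q G) (A : Subgroup G), q ≠ p ∧
        A ≤ Subgroup.center G ∧ Nat.card ↥((P : Subgroup G) ⊔ (Q : Subgroup G)) = Nat.card P * Nat.card Q ∧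
        ((P : Subgroup G) ⊔ (Q : Subgroup G)).Normal ∧
        ((P : Subgroup G) ⊔ (Q : Subgroup G)) ⊓ A = ⊥ ∧ ((P : Subgroup G) ⊔ (Q : Subgroup G)) ⊔ A = ⊤) := by
  haveI := Fact.mk hp
  simp only [ncard_carrier_mk] at h2
  obtain ⟨m, h, x, hx, hxZ⟩ : ∃ m, (∀ x : G, IsPiElt {p}ᶜ x → cs(x) = 1 ∨ cs(x) = m) ∧
      ∃ x : G, IsPiElt {p}ᶜ x ∧ x ∉ center G := by
    obtain ⟨a, b, hab, e⟩ := Set.ncard_eq_two.1 h2
    have h1 : ∀ x : G, IsPiElt {p}ᶜ x → cs(x) = a ∨ cs(x) = b := fun x hx => by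
      have : cs(x) ∈ ({a, b} : Set ℕ) :=
        e ▸ ⟨⟨x, (isPiElt_compl_singleton_iff_coprime hp).1 hx⟩, rfl⟩
      exact this
    have h3 : ∀ c ∈ ({a, b} : Set ℕ), c ≠ 1 → ∃ x : G, IsPiElt {p}ᶜ x ∧ x ∉ center G :=
      fun c hc hc1 => by
      obtain ⟨x, hx⟩ := e ▸ hc
      exact ⟨x, (isPiElt_compl_singleton_iff_coprime hp).2 x.2,
        fun e' => hc1 (hx.symm.trans (cs_eq_one_iff.2 e'))⟩
    rcases h1 1 (isPiElt_one _) with e' | e' <;> rw [cs_one] at e' <;> subst e'
    · exact ⟨b, h1, h3 b (by simp) hab.symm⟩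
    · exact ⟨a, fun x hx => (h1 x hx).symm, h3 a (by simp) hab⟩
  by_cases hr : ∀ s : ℕ, ∃ r : ℕ, r.Prime ∧ r ≠ p ∧ r ≠ s ∧ ∃ w : G, IsPiElt {r} w ∧ w ∉ center G
  · obtain ⟨k, hk⟩ := exists_eq_pow_of_two h hr
    obtain ⟨A, hA, hA'⟩ := exists_semiReg h hr hx hxZ
    refine Or.inl ⟨A, isMulCommutative_of_forall hA.commute, (isPiNum_compl_singleton_iff hp).1
      (isPiNum_card_of_forall fun u hu => ((hA' u).1 hu).2),
      (isPiNum_singleton_iff hp index_ne_zero_of_finite).1 ?_⟩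
    rw [← relIndex_mul_index hA.le, (h x hx).resolve_left (mt cs_eq_one_iff.1 hxZ), hk]
    refine IsPiNum.mul (fun l hl hd => ?_) (isPiNum_singleton_pow hp k)
    by_contra hlp
    haveI := Fact.mk hl
    obtain ⟨S, hS⟩ := exists_isSylowIn l cent(x)
    exact hS.not_dvd_relIndex_of_le (fun u hu => (hA' u).2 ⟨hS.le hu,
      (isPiElt_singleton_of_mem hS.isPGroup hu).mono (Set.singleton_subset_iff.2 hlp)⟩) hA.le hd
  push Not at hr
  obtain ⟨q, hr⟩ := hr
  obtain ⟨hq, hqp⟩ : q.Prime ∧ q ≠ p := by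
    by_contra e
    refine hxZ (hx.mem_of_forall_primePow_mem fun r y h1 h2 h3 _ => hr r h1 h2 ?_ y h3)
    rintro rfl
    exact e ⟨h1, h2⟩
  haveI := Fact.mk hq
  obtain ⟨P⟩ : Nonempty (Sylow p G) := inferInstance
  obtain ⟨Q⟩ : Nonempty (Sylow q G) := inferInstance
  set A := piIn ({p, q} : Set ℕ)ᶜ (center G) fun a _ b hb => mem_center_iff.1 hb a with hA
  have hAZ : A ≤ center G := fun _ ha => ha.1
  haveI := normal_of_le_center' hAZ
  have h1 : IsPiNum ({p, q} : Set ℕ)ᶜ (Nat.card A) := isPiNum_card_of_forall fun u hu => hu.2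
  have h3 : IsPiNum {p, q} A.index := fun l hl hd => by
    by_contra e
    haveI := Fact.mk hl
    obtain ⟨S⟩ : Nonempty (Sylow l G) := inferInstance
    refine not_dvd_index_of_sylow_le S (fun u hu => ?_) hd
    have := isPiElt_singleton_of_mem S.isPGroup' hu
    exact ⟨hr l hl (fun e' => e (by simp [e'])) (fun e' => e (by simp [e'])) u this,
      this.mono (Set.singleton_subset_iff.2 e)⟩
  obtain ⟨H, hH⟩ := exists_right_complement'_of_coprime (h3.coprime h1).symm
  haveI : H.Normal := normal_of_sup_le_normalizer hH.sup_eq_top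
    (hAZ.trans (center_le_normalizer _)) le_normalizer
  have hle : ∀ (r : ℕ) [Fact r.Prime] (R : Sylow r G), r ∈ ({p, q} : Set ℕ) → (R : Subgroup G) ≤ H :=
    fun r _ R hr u hu => IsPiElt.mem_of_index (hH.index_eq_card ▸ h1)
      ((isPiElt_singleton_of_mem R.isPGroup' hu).mono (Set.singleton_subset_iff.2 hr))
  have hP := isSylowIn_of_le P (hle p P (by simp))
  have hQ := isSylowIn_of_le Q (hle q Q (by simp))
  have h4 : IsPiNum {p, q} (Nat.card H) := hH.symm.index_eq_card ▸ h3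
  have h5 : (P : Subgroup G) ⊔ Q = H := le_antisymm (sup_le hP.le hQ.le) (by
    rw [← relIndex_eq_one]
    by_contra e
    obtain ⟨l, hl, hd⟩ := Nat.exists_prime_and_dvd e
    rcases h4 l hl (hd.trans (relIndex_dvd_card _ _)) with rfl | rfl
    · exact hP.not_dvd_relIndex_of_le le_sup_left (sup_le hP.le hQ.le) hd
    · exact hQ.not_dvd_relIndex_of_le le_sup_right (sup_le hP.le hQ.le) hd)
  refine Or.inr ⟨q, inferInstance, P, Q, A, hqp, hAZ, ?_, ?_, ?_, ?_⟩ <;> rw [h5]
  · have e1 := card_mul_relIndex hP.le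
    have e2 := card_mul_relIndex hQ.le
    have c1 := IsPGroup.coprime_card_of_ne p q hqp.symm _ _ P.isPGroup' Q.isPGroup'
    have c2 : ((P : Subgroup G).relIndex H).Coprime ((Q : Subgroup G).relIndex H) :=
      Nat.coprime_of_dvd fun l hl d1 d2 => by
        rcases h4 l hl (d1.trans (relIndex_dvd_card _ _)) with rfl | rfl
        exacts [hP.not_dvd d1, hQ.not_dvd d2]
    rw [← e1, Nat.dvd_antisymm (c2.dvd_of_dvd_mul_right (e2 ▸ e1 ▸ dvd_mul_left _ _))
      (c1.symm.dvd_of_dvd_mul_left (e1 ▸ e2 ▸ dvd_mul_right _ _))]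
  · infer_instance
  · exact disjoint_iff.1 hH.symm.disjoint
  · exact hH.symm.sup_eq_top

end Cfsg.Agent.S4033
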