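import Cfsg.Statements.S4036
import Cfsg.Agent.Fgs.ClassBasic
import Cfsg.Agent.Grp.CoprimeAct

set_option autoImplicit false
open Cfsg

namespace Cfsg.Agent.S4036

open CL.Fgs Subgroup


/-- Let P be a finite abelian p-group and K a group of automorphisms of P (a subgroup of Aut P) whose order is divisible by p. If all non-identity elements of K have the same fixed-point subgroup on P, then K has no non-trivial normal subgroup of order prime to p. -/
theorem result {P : Type*} [CommGroup P] [Finite P] {p : ℕ}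
    [Fact p.Prime] (hP : IsPGroup p P) (K : Subgroup (MulAut P)) (hK : p ∣ Nat.card K)
    (hfix : ∀ x y : MulAut P, x ∈ K → y ∈ K → x ≠ 1 → y ≠ 1 → ∀ v : P, x v = v ↔ y v = v) :
    ∀ N : Subgroup ↥K, N.Normal → ¬ p ∣ Nat.card N → N = ⊥ := by
  intro N hN hpN
  have hp : p.Prime := Fact.out
  by_contra hne
  obtain ⟨⟨n, hn⟩, hn1⟩ := ne_bot_iff_exists_ne_one.1 hne
  have hn1' : (n : MulAut P) ≠ 1 := fun e => hn1 (Subtype.ext (Subtype.ext e))
  obtain ⟨y, hy⟩ := exists_prime_orderOf_dvd_card' p hK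
  have hy1 : (y : MulAut P) ≠ 1 := fun e => hp.one_lt.ne' (by
    rw [← hy, show y = 1 from Subtype.ext e, orderOf_one])
  set W : Subgroup P := CL.Grp.actComm N ⊤
  have h1 : FixedPoints.subgroup N P ⊓ W = ⊥ := CL.Grp.act_fixedPoints_inf_actComm_eq_bot (by
    obtain ⟨k, hk⟩ := (hP.to_subgroup (FixedPoints.subgroup N P)).exists_card_eq
    rw [hk]
    exact Nat.Coprime.pow_right _ ((Nat.Prime.coprime_iff_not_dvd hp).2 hpN).symm)
  have h2 : ∀ k : K, ∀ w ∈ W, (k : MulAut P) w ∈ W := fun k => by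
    refine (CL.Grp.actComm_le_iff.2 fun a g _ => ?_ : W ≤ W.comap (k : MulAut P).toMonoidHom)
    have := CL.Grp.mem_actComm (A := N) (H := ⊤) ⟨_, hN.conj_mem _ a.2 k⟩ (mem_top ((k : MulAut P) g))
    refine mem_comap.2 ?_
    convert this using 1
    show (k : MulAut P) (g⁻¹ * (a : MulAut P) g) =
      ((k : MulAut P) g)⁻¹ * ((k : MulAut P) * (a : MulAut P) * (k : MulAut P)⁻¹) ((k : MulAut P) g)
    simp
  have h3 : W ≠ ⊥ := fun e => hn1' (MulEquiv.ext fun v =>
    CL.Grp.actComm_eq_bot_iff.1 e ⟨n, hn⟩ v (mem_top v))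
  let _ : MulAction (zpowers y) W :=
    { smul := fun k w => ⟨((k : K) : MulAut P) w, h2 _ _ w.2⟩
      one_smul := fun w => rfl
      mul_smul := fun _ _ _ => rfl }
  have h4 : IsPGroup p (zpowers y) := IsPGroup.of_card (n := 1) (by rw [Nat.card_zpowers, hy, pow_one])
  obtain ⟨k, hk⟩ := (hP.to_subgroup W).exists_card_eq
  have hk0 : k ≠ 0 := by
    rintro rfl
    exact h3 (card_eq_one.1 hk)
  obtain ⟨w, hw, hw1⟩ := h4.exists_fixed_point_of_prime_dvd_card_of_fixed_point W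
    (hk ▸ dvd_pow_self p hk0) (a := 1) (fun k => Subtype.ext (map_one _))
  refine hw1 (Subtype.ext (mem_bot.1 (h1 ▸ ⟨fun a => ?_, w.2⟩)).symm)
  have h5 : (y : MulAut P) w = w := congrArg Subtype.val (hw ⟨y, mem_zpowers y⟩)
  by_cases ha : ((a : K) : MulAut P) = 1
  · show ((a : K) : MulAut P) w = w
    rw [ha]; rfl
  · exact (hfix _ _ y.2 (a : K).2 hy1 ha w).1 h5

end Cfsg.Agent.S4036
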