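import Cfsg.Statements.S4043
import Cfsg.Agent.Odd.BG1e
import Cfsg.Agent.Odd.RelProd
import Cfsg.Agent.Grp.SZConj

set_option autoImplicit false
open Cfsg

namespace Cfsg.Agent.S4043

open scoped Pointwise
open CL.Grp CL.Odd

theorem norm_core_eq {G : Type*} [Group G] [Finite G] {p : ℕ} [hp : Fact p.Prime] {N A : Subgroup G} [N.Normal]
    (hN : IsPGroup p N) (hA : A.IsComplement' N) (hAp : PNilp p A)
    (hC : ∀ n : G, n ∈ N → (∀ a : G, a ∈ A → a * n * a⁻¹ = n) → n = 1) : N[piCoreOf {p}ᶜ A] = A := by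
  have hNn : ∀ X : Subgroup G, X ≤ N[N] := fun X => by rw [Subgroup.normalizer_eq_top]; exact le_top
  have hAK : A ≤ N[piCoreOf {p}ᶜ A] := (piCoreOf_normalIn _ A).norm
  obtain ⟨P, hP⟩ := exists_isSylowIn p A
  have hsd := PNilp.sdp hp.out hAp hP
  have hCb : N ⊓ C[piCoreOf {p}ᶜ A] = ⊥ := by
    by_contra hne
    have hPn : P ≤ N[N ⊓ C[piCoreOf {p}ᶜ A]] := le_norm_inf (hNn _) (le_norm_cent (hP.le.trans hAK))
    have hpg : IsPGroup p ↥((N ⊓ C[piCoreOf {p}ᶜ A]) ⊔ P) :=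
      isPGroup_sup (hN.to_le inf_le_left) hP.isPGroup hPn
    obtain ⟨c, ⟨hc, hcc⟩, hc1⟩ := ne_bot_iff.1 (inf_center_ne_bot_of_nil (nil_of_isPGroup hp.out hpg) le_sup_left
      (sup_le (le_norm_self _) hPn) hne)
    refine hc1 (hC c hc.1 fun a ha => ?_)
    have : c ∈ C[A] := by
      rw [← hsd.sup_eq, cent_sup]
      exact ⟨hc.2, cent_anti le_sup_right hcc⟩
    rw [mem_cent.1 this a ha, mul_inv_cancel_right]
  refine le_antisymm ?_ hAK
  have h1 : N[piCoreOf {p}ᶜ A] ⊓ (A ⊔ N) = A ⊔ (N[piCoreOf {p}ᶜ A] ⊓ N) :=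
    inf_sup_dedekind (Or.inr (hNn _)) hAK
  rw [hA.sup_eq_top, inf_top_eq] at h1
  rw [h1]
  refine sup_le le_rfl (le_trans ?_ bot_le)
  rw [← hCb]
  refine le_inf inf_le_right (le_cent_of_inf_eq_bot (le_norm_inf (le_norm_self _ |>.trans ?_) (hNn _))
    inf_le_left ?_)
  · exact le_norm_norm le_rfl |>.trans' le_rfl
  · refine eq_bot_iff.2 (le_trans ?_ hA.disjoint.eq_bot.le)
    exact le_inf (inf_le_right.trans (piCoreOf_normalIn _ A).le) (inf_le_left.trans inf_le_right)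

/-- Let G be a finite group that is the semidirect product of a normal p-subgroup N by a subgroup A, and also of N by a subgroup A₁, where p is a prime and A and A₁ both have normal p-complements. If C_N(A) = C_N(A₁) = 1, then A₁ is conjugate to A by an element of N. -/
theorem result {G : Type*} [Group G] [Finite G] {p : ℕ}
    [Fact p.Prime] (N : Subgroup G) [N.Normal] (hN : IsPGroup p N) (A A₁ : Subgroup G)
    (hA : A.IsComplement' N) (hA₁ : A₁.IsComplement' N)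
    (hAp : Cfsg.HasNormalPComplement p A) (hA₁p : Cfsg.HasNormalPComplement p A₁)
    (hC : ∀ n : G, n ∈ N → (∀ a : G, a ∈ A → a * n * a⁻¹ = n) → n = 1)
    (hC₁ : ∀ n : G, n ∈ N → (∀ a : G, a ∈ A₁ → a * n * a⁻¹ = n) → n = 1) :
    ∃ n : G, n ∈ N ∧ A₁ = A.map (MulAut.conj n).toMonoidHom := by
  have hp : p.Prime := Fact.out
  have h1 := (pnilp_iff hp).2 hAp
  have h2 := (pnilp_iff hp).2 hA₁p
  have hNn : ∀ X : Subgroup G, X ≤ N[N] := fun X => by rw [Subgroup.normalizer_eq_top]; exact le_top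
  have hmap : ∀ B : Subgroup G, B.IsComplement' N → B.map (QuotientGroup.mk' N) = ⊤ := fun B hB => by
    have := Subgroup.map_sup B N (QuotientGroup.mk' N)
    rw [hB.sup_eq_top, QuotientGroup.map_mk'_self, sup_bot_eq,
      Subgroup.map_top_of_surjective _ (QuotientGroup.mk'_surjective N)] at this
    exact this.symm
  have e : (piCoreOf {p}ᶜ A₁).map (QuotientGroup.mk' N) = (piCoreOf {p}ᶜ A).map (QuotientGroup.mk' N) := by
    have a1 := Hall.map h1 (QuotientGroup.mk' N)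
    have a2 := Hall.map h2 (QuotientGroup.mk' N)
    have a3 := ((piCoreOf_normalIn {p}ᶜ A).map (QuotientGroup.mk' N)).norm
    rw [hmap A hA] at a1 a3
    rw [hmap A₁ hA₁] at a2
    exact Hall.eq_of_normal a1 a3 a2
  have e2 : N ⊔ piCoreOf {p}ᶜ A = N ⊔ piCoreOf {p}ᶜ A₁ := by
    have := congrArg (Subgroup.comap (QuotientGroup.mk' N)) e
    rw [Subgroup.comap_map_eq, Subgroup.comap_map_eq, QuotientGroup.ker_mk'] at this
    rw [sup_comm, ← this, sup_comm]
  have hNpi : IsPiSubgroup {p} N := fun q hq hd => eq_of_prime_dvd_card_isPGroup hN hq hd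
  obtain ⟨n, hn, hc⟩ := schurZassenhaus_conj_of_sup_eq (hNn _) (coprime_card_of_pi_compl hNpi (Hall.pi h1))
    (coprime_card_of_pi_compl hNpi (Hall.pi h2)) e2 (Or.inl (sol_of_isPGroup hp hN))
  refine ⟨n, hn, ?_⟩
  rw [← cj_eq_map, ← norm_core_eq hN hA₁ h2 hC₁, ← hc, ← cj_normalizer, norm_core_eq hN hA h1 hC]

end Cfsg.Agent.S4043
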