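import Cfsg.Statements.S4049
import Cfsg.Agent.Fgs.NCompl

set_option autoImplicit false
open Cfsg

namespace Cfsg.Agent.S4049

/-- Let G be a finite group such that N_G(H)/C_G(H) has odd order for every nontrivial subgroup H of odd order. Then the Sylow 2-subgroups of G are normal. -/
theorem result {G : Type*} [Group G] [Finite G]
    (hhom : ∀ H : Subgroup G, H ≠ ⊥ → ¬ 2 ∣ Nat.card ↥H →
        ¬ 2 ∣ (Subgroup.centralizer (H : Set G)).relIndex (Subgroup.normalizer (H : Set G))) (P : Sylow 2 G) :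
    (P : Subgroup G).Normal := by
  by_contra hP
  obtain ⟨h, u, h1, h2, e⟩ := CL.Fgs.nc_exists_inverted P hP
  have h3 : u ∈ Subgroup.normalizer ((Subgroup.zpowers h : Subgroup G) : Set G) := by
    rw [← CL.Odd.cj_eq_self_iff, CL.Odd.cj_zpowers, e, Subgroup.zpowers_inv]
  have h5 := hhom (Subgroup.zpowers h) (by simpa using h1) (by rwa [Nat.card_zpowers])
  have := (CL.Odd.NormalIn.cent_norm (Subgroup.zpowers h)).normal_subgroupOf
  have h6 : u ^ 2 ∈ Subgroup.centralizer ((Subgroup.zpowers h : Subgroup G) : Set G) := by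
    rw [CL.Odd.centralizer_zpowers, CL.Odd.mem_c1_iff_conj, pow_two,
      show u * u * h * (u * u)⁻¹ = u * (u * h * u⁻¹) * u⁻¹ by group, e,
      show u * h⁻¹ * u⁻¹ = (u * h * u⁻¹)⁻¹ by group, e, inv_inv]
  have h7 : u ^ _ ∈ Subgroup.centralizer ((Subgroup.zpowers h : Subgroup G) : Set G) :=
    Subgroup.pow_index_mem (G := Subgroup.normalizer ((Subgroup.zpowers h : Subgroup G) : Set G))
      (H := (Subgroup.centralizer ((Subgroup.zpowers h : Subgroup G) : Set G)).subgroupOf _) ⟨u, h3⟩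
  obtain ⟨k, hk⟩ := Nat.odd_iff.2 (Nat.two_dvd_ne_zero.1 h5)
  rw [Subgroup.relIndex] at hk
  rw [hk, pow_succ, pow_mul] at h7
  have h8 := (mul_mem_cancel_left (pow_mem h6 k)).1 h7
  rw [CL.Odd.centralizer_zpowers, CL.Odd.mem_c1_iff_conj] at h8
  exact h1 (CL.Fgs.nc_eq_one_of_inv h2 (h8.symm.trans e))

end Cfsg.Agent.S4049
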