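import Cfsg.Statements.S4051
import Cfsg.Agent.Fgs.NCompl

set_option autoImplicit false
open Cfsg

namespace Cfsg.Agent.S4051

/-- Let π be a set of primes and G a finite group such that N_G(H)/C_G(H) is a π'-group for every nontrivial π'-subgroup H of G. If K is a normal subgroup of G such that the π-elements of K form a subgroup and the π-elements of G/K form a subgroup, then the π-elements of G form a subgroup. -/
theorem result {G : Type*} [Group G] [Finite G] (π : Set ℕ)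
    (hπ : ∀ p ∈ π, p.Prime) (hhom : (∀ H : Subgroup G, H ≠ ⊥ → (∀ p : ℕ, p.Prime → p ∣ Nat.card ↥H → p ∉ π) →
        ∀ p : ℕ, p.Prime → p ∣ (Subgroup.centralizer (H : Set G)).relIndex (Subgroup.normalizer (H : Set G)) → p ∉ π))
    (K : Subgroup G) [K.Normal]
    (hK : ∃ L : Subgroup ↥K, ∀ x : ↥K, x ∈ L ↔ ∀ p : ℕ, p.Prime → p ∣ orderOf x → p ∈ π)
    (hQ : ∃ L : Subgroup (G ⧸ K), ∀ x : G ⧸ K, x ∈ L ↔ ∀ p : ℕ, p.Prime → p ∣ orderOf x → p ∈ π) :
    (∃ K : Subgroup G, ∀ x : G, x ∈ K ↔ ∀ p : ℕ, p.Prime → p ∣ orderOf x → p ∈ π) := by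
  have h := CL.Fgs.piHomog_of_index hhom
  obtain ⟨L, hL⟩ := hK
  have hLπ : IsPiSubgroup π L := CL.Odd.isPiSubgroup_iff_orderOf.2 fun x hx => (hL x).1 hx
  have hLK : L.map K.subtype ≤ K := Subgroup.map_subtype_le L
  have hmem : ∀ x : G, x ∈ L.map K.subtype ↔ x ∈ K ∧ CL.Fgs.IsPiElt π x := fun x =>
    ⟨fun hx => ⟨hLK hx, CL.Odd.pi_orderOf_of_mem (CL.Grp.isPiSubgroup_map hLπ _) hx⟩, fun hx =>
      ⟨⟨x, hx.1⟩, (hL _).2 (CL.Fgs.isPiElt_coe_iff.1 hx.2), rfl⟩⟩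
  have : (L.map K.subtype).Normal := ⟨fun x hx g => (hmem _).2
    ⟨Subgroup.Normal.conj_mem inferInstance x ((hmem x).1 hx).1 g, ((hmem x).1 hx).2.conj g⟩⟩
  refine CL.Fgs.piClosed_of_quotient h (N := L.map K.subtype) (Or.inl (CL.Grp.isPiSubgroup_map hLπ _))
    (CL.Fgs.piClosed_quotient_step h hLK (Or.inr fun q hq hd hqπ => ?_) hQ)
  have := Fact.mk hq
  obtain ⟨S, hS⟩ := CL.Grp.exists_isSylowIn q K
  refine hS.not_dvd_relIndex_of_le (fun x hx => (hmem x).2 ⟨hS.le hx, ?_⟩) hLK hd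
  exact (CL.Fgs.isPiElt_singleton_of_mem hS.isPGroup hx).mono (Set.singleton_subset_iff.2 hqπ)

end Cfsg.Agent.S4051
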