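import Cfsg.Statements.S4056
import Cfsg.Agent.Grp.PGroupFrattini
import Cfsg.Agent.Grp.Comm1

set_option autoImplicit false
open Cfsg

namespace Cfsg.Agent.S4056

open scoped commutatorElement

/-- In a finite 2-group of nilpotency class at most 2 and exponent dividing 4, the Frattini subgroup lies in the centre and is elementary abelian. -/
theorem result {P : Type*} [Group P] [Finite P] (hP : IsPGroup 2 P)
    (hcl : Group.nilpotencyClass P ≤ 2) (hexp : Monoid.exponent P ∣ 4) :
    frattini P ≤ Subgroup.center P ∧ Cfsg.IsElementaryAbelian 2 (frattini P) := by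
  have : Fact (Nat.Prime 2) := ⟨Nat.prime_two⟩
  have : Group.IsNilpotent P := hP.isNilpotent
  have h2 : ⁅commutator P, (⊤ : Subgroup P)⁆ = ⊥ :=
    Subgroup.lowerCentralSeries_eq_bot_iff_nilpotencyClass_le.2 hcl
  have hc : ∀ a b : P, ⁅a, b⁆ ∈ Subgroup.center P := CL.Grp.comm_mem_center_of_class_two h2
  have h4 : ∀ x : P, x ^ 4 = 1 := Monoid.exponent_dvd_iff_forall_pow_eq_one.1 hexp
  have hc2 : ∀ a b : P, ⁅a, b⁆ ^ 2 = 1 := by
    intro a b
    have h := CL.Grp.mul_pow_of_central (hc a b) 4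
    rw [h4, h4, h4, one_mul, one_mul, show Nat.choose 4 2 = 4 + 2 by rfl, pow_add, h4, one_mul] at h
    exact h.symm
  let N : Subgroup P :=
    { carrier := {z | z ∈ Subgroup.center P ∧ z ^ 2 = 1}
      one_mem' := ⟨Subgroup.one_mem _, one_pow 2⟩
      mul_mem' := by
        rintro a b ⟨ha, ha2⟩ ⟨hb, hb2⟩
        refine ⟨Subgroup.mul_mem _ ha hb, ?_⟩
        rw [(CL.Grp.commute_of_mem_center hb a).mul_pow, ha2, hb2, one_mul]
      inv_mem' := by
        rintro a ⟨ha, ha2⟩
        exact ⟨Subgroup.inv_mem _ ha, by rw [inv_pow, ha2, inv_one]⟩ }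
  have hN : frattini P ≤ N := by
    rw [CL.Grp.frattini_le_iff_pGroup hP]
    constructor
    · rw [commutator_def, Subgroup.commutator_le]
      intro a _ b _
      exact ⟨hc a b, hc2 a b⟩
    · intro x
      refine ⟨?_, by rw [← pow_mul]; exact h4 x⟩
      rw [Subgroup.mem_center_iff]
      intro g
      rw [← commutatorElement_eq_one_iff_mul_comm, CL.Grp.comm_pow_right_of_central (hc g x), hc2]
  refine ⟨fun x hx => (hN hx).1, ⟨⟨fun a b => Subtype.ext ?_⟩⟩, fun x hx => (hN hx).2⟩
  exact CL.Grp.commute_of_mem_center (hN b.2).1 a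

end Cfsg.Agent.S4056
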