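import Cfsg.Statements.S4057
import Cfsg.Agent.Fgs.MantelGen

set_option autoImplicit false
open Cfsg

namespace Cfsg.Agent.S4057

open Subgroup CL.Grp CL.Fgs.Mantel

/-- Let p be an odd prime and P a finite p-group in which every normal abelian subgroup can be generated by k elements. Then every subgroup of P can be generated by at most ⌊k(k+4)/4⌋ elements. -/
theorem result {P : Type*} [Group P] [Finite P] {p : ℕ} [Fact p.Prime]
    (hp : p ≠ 2) (hP : IsPGroup p P) (k : ℕ)
    (hab : ∀ A : Subgroup P, A.Normal → IsMulCommutative A → ∃ S : Finset P, S.card ≤ k ∧ Subgroup.closure (S : Set P) = A) :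
    ∀ H : Subgroup P, ∃ S : Finset P, S.card ≤ k * (k + 4) / 4 ∧ Subgroup.closure (S : Set P) = H := by
  classical
  intro H
  obtain ⟨A, hA, h1, -, h2⟩ := exists_maximal_normal_elementary hp hP ⊥ ⟨inferInstance, by simp⟩
  obtain ⟨n, hn⟩ := IsPGroup.iff_card.1 (hP.to_subgroup A)
  have hnk : n ≤ k := by
    obtain ⟨S, hS, h3⟩ := hab A hA h1.1
    have := h1.1
    refine (le_card_of_closure_eq_top (hP.to_subgroup A) (by
      rw [frattini_eq_bot_of_elementary fun x : A => Subtype.ext (h1.2 x x.2), index_bot, hn])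
      (S.preimage (↑) Subtype.val_injective.injOn) ?_).trans ((Finset.card_le_card_of_injOn (↑) (fun x => by simp)
        Subtype.val_injective.injOn).trans hS)
    subst h3
    rw [Finset.coe_preimage]
    exact closure_closure_coe_preimage
  obtain ⟨c, e, hc, rfl⟩ := exists_chain hP n A hn
  obtain ⟨X, h3, h4, h5⟩ := hc.exists_gen H
  obtain ⟨Y, hY⟩ : ∃ Y, Y = H ⊓ centralizer (c n : Set P) := ⟨_, rfl⟩
  have hY' : Y ≤ centralizer (c n : Set P) := hY ▸ inf_le_right
  rw [← hY] at h5
  obtain ⟨m, hm⟩ := (hP.to_subgroup Y).index (frattini Y)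
  have h6 := index_frattini_le hp _ Y rfl (hP.to_subgroup Y) ((c n).subgroupOf Y)
    (fun x => ⟨fun h => Subtype.ext (h1.2 x h), fun h => h2 x (hY' x.2) (congrArg Subtype.val h)⟩)
    fun x hx => mem_center_iff.2 fun y => Subtype.ext (hY' y.2 x hx).symm
  rw [hm, ← card_subtype, subgroupOf_map_subtype] at h6
  have h7 := (Nat.pow_le_pow_iff_right (Fact.out : p.Prime).one_lt).1 (h6.trans ((card_le_of_le inf_le_left).trans hn.le))
  obtain ⟨T, -, h8, h9⟩ := exists_finset_subset_closure_eq_top (hP.to_subgroup Y) hm Set.univ closure_univ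
  have h10 : closure ((X ∪ T.image (↑) : Finset P) : Set P) = closure (X : Set P) ⊔ Y := by
    rw [Finset.coe_union, Subgroup.closure_union, Finset.coe_image, ← Y.coe_subtype, ← MonoidHom.map_closure, h9,
      ← MonoidHom.range_eq_map, range_subtype]
  have h11 : closure (X : Set P) ⊔ Y ≤ H := sup_le ((closure_le _).2 h4) (hY ▸ inf_le_left)
  have h14 : ⁅H, H⁆ ≤ (frattini H).map H.subtype := ((map_subtype_frattini_le_iff (hP.to_subgroup H)).1 le_rfl).1
  have h15 := h10.trans (h11.antisymm (le_of_le_sup_map_frattini h14 h11 h5))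
  have h16 := Finset.card_union_le X (T.image (↑))
  have h12 := Finset.card_image_le (s := T) (f := ((↑) : Y → P))
  have h13 : n ^ 2 / 4 ≤ k ^ 2 / 4 := Nat.div_le_div_right (Nat.pow_le_pow_left hnk 2)
  refine ⟨_, ?_, h15⟩
  rw [show k * (k + 4) = k ^ 2 + 4 * k by ring]
  omega

end Cfsg.Agent.S4057
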