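import Cfsg.Statements.S4058
import Cfsg.Agent.Char.ClassAlg
import Cfsg.Agent.Char.Linear
import Cfsg.Agent.Char.Integrality
import Cfsg.Agent.Grp.PGroupFrattini

set_option autoImplicit false
open Cfsg

namespace Cfsg.Agent.S4058

open CL.Char
open scoped ComplexConjugate

theorem dvd_sum_of_orbits {L X : Type*} [Group L] [MulAction L X] [Fintype X] (f : X → ℤ) (N : ℤ)
    (hf : ∀ (l : L) (x : X), f (l • x) = f x)
    (hN : ∀ x : X, N ∣ Nat.card (MulAction.orbit L x) * f x) : N ∣ ∑ x, f x := by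
  classical
  have := Fintype.ofFinite (MulAction.orbitRel.Quotient L X)
  rw [← Finset.sum_fiberwise (s := Finset.univ)
    (g := fun x => (Quotient.mk'' x : MulAction.orbitRel.Quotient L X))]
  refine Finset.dvd_sum fun ω _ => ?_
  obtain ⟨x, rfl⟩ := Quotient.exists_rep ω
  have h1 : ∀ y, (Quotient.mk'' y : MulAction.orbitRel.Quotient L X) = Quotient.mk _ x ↔
      y ∈ MulAction.orbit L x := fun y => Quotient.eq''
  rw [Finset.sum_congr rfl (g := fun _ => f x), Finset.sum_const, nsmul_eq_mul]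
  · have h2 : (Finset.univ.filter fun y => (Quotient.mk'' y : MulAction.orbitRel.Quotient L X) =
        Quotient.mk _ x).card = Nat.card (MulAction.orbit L x) := by
      rw [Nat.card_eq_fintype_card, Fintype.card_subtype]
      congr 1
      ext y
      simp only [Finset.mem_filter, Finset.mem_univ, true_and, h1]
    rw [h2]
    exact hN x
  · intro y hy
    obtain ⟨l, rfl⟩ := (h1 y).1 (Finset.mem_filter.1 hy).2
    exact hf l x

/-- the linear characters trivial on a subgroup -/
def linOver {G : Type*} [Group G] (N : Subgroup G) : Subgroup (G →* ℂˣ) where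
  carrier := {l | N ≤ l.ker}
  one_mem' := fun _ _ => rfl
  mul_mem' := by
    intro a b ha hb x hx
    have h1 : a x = 1 := ha hx
    have h2 : b x = 1 := hb hx
    change a x * b x = 1
    rw [h1, h2, one_mul]
  inv_mem' := by
    intro a ha x hx
    have h1 : a x = 1 := ha hx
    change (a x)⁻¹ = 1
    rw [h1, inv_one]

theorem card_linOver {G : Type*} [Group G] [Finite G] (N : Subgroup G) [N.Normal]
    (hN : commutator G ≤ N) : Nat.card (linOver N) = Nat.card (G ⧸ N) := by
  have e : linOver N ≃ (G ⧸ N →* ℂˣ) :=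
    { toFun := fun l => QuotientGroup.lift N l.1 l.2
      invFun := fun f => ⟨f.comp (QuotientGroup.mk' N), fun x hx => by
        rw [MonoidHom.mem_ker, MonoidHom.comp_apply, QuotientGroup.mk'_apply,
          (QuotientGroup.eq_one_iff x).2 hx, map_one]⟩
      left_inv := fun l => by ext x; rfl
      right_inv := fun f => by ext x; rfl }
  rw [Nat.card_congr e, card_monoidHom_eq_index,
    (commutator_eq_bot_iff _).2 (Subgroup.Normal.quotient_commutative_iff_commutator_le.2 hN),
    Subgroup.index_bot]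

/-- multiplication of irreducible characters by linear characters -/
@[reducible] noncomputable def linAct (G : Type*) [Group G] [Finite G] :
    MulAction (G →* ℂˣ) (IrrCharacter G) where
  smul l χ := ⟨fun g => (l g : ℂ) * χ.1 g, χ.2.monoidHom_mul l⟩
  one_smul χ := by
    apply Subtype.ext
    funext g
    change ((1 : ℂˣ) : ℂ) * χ.1 g = χ.1 g
    simp
  mul_smul a b χ := by
    apply Subtype.ext
    funext g
    change ((a g * b g : ℂˣ) : ℂ) * χ.1 g = (a g : ℂ) * ((b g : ℂ) * χ.1 g)
    simp [mul_assoc]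

theorem card_stab_le {G : Type*} [Group G] [Finite G] (χ : IrrCharacter G) {n : ℕ}
    (hn : χ.1 1 = n) (T : Type*) [Finite T] (ι : T → (G →* ℂˣ)) (hι : Function.Injective ι)
    (hT : ∀ t, (fun g => (ι t g : ℂ) * χ.1 g) = χ.1) : Nat.card T ≤ n ^ 2 := by
  classical
  have := Fintype.ofFinite G
  have := Fintype.ofFinite T
  have hθ : IsCharacter G (χ.1 * fun g => conj (χ.1 g)) := χ.2.isCharacter.mul χ.2.isCharacter.conj
  obtain ⟨m, hm, hsum⟩ := hθ.exists_eq_sum_nat
  let j : T → IrrCharacter G := fun t => ⟨fun g => (ι t g : ℂ), isIrrCharacter_linear _⟩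
  have hj : Function.Injective j := fun a b h =>
    hι (monoidHom_coe_injective (congrArg Subtype.val h))
  have hm1 : ∀ t, m (j t) = 1 := by
    intro t
    have h1 := hm (j t)
    rw [classInner_mul_left] at h1
    have h2 : (fun g => conj (conj (χ.1 g)) * (j t).1 g) = χ.1 := by
      conv_rhs => rw [← hT t]
      funext g
      simp [j, mul_comm]
    rw [h2, χ.2.classInner_self] at h1
    exact_mod_cast h1.symm
  choose d hd0 hd using fun ψ : IrrCharacter G => ψ.2.exists_nat_one
  have h3 : n ^ 2 = ∑ ψ : IrrCharacter G, m ψ * d ψ := by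
    have h4 := congrFun hsum 1
    rw [Pi.mul_apply, hn] at h4
    simp only [Finset.sum_apply, Pi.smul_apply, smul_eq_mul, hd, Complex.conj_natCast] at h4
    rw [sq]
    exact_mod_cast h4
  rw [h3, Nat.card_eq_fintype_card]
  calc Fintype.card T = ∑ t : T, 1 := by simp
    _ ≤ ∑ t : T, m (j t) * d (j t) := Finset.sum_le_sum fun t _ => by
        rw [hm1, one_mul]; exact hd0 _
    _ = ∑ ψ ∈ Finset.univ.image j, m ψ * d ψ := by
        rw [Finset.sum_image fun a _ b _ h => hj h]
    _ ≤ _ := Finset.sum_le_sum_of_subset (Finset.subset_univ _)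

/-- Let G be a finite 2-group with #(G/Φ(G)) ≥ 2^(2k+1). Then the number of elements x of G with x² = 1 is divisible by 2^(k+1). -/
theorem result {G : Type*} [Group G] [Finite G] (hG : IsPGroup 2 G) (k : ℕ)
    (hgen : 2 ^ (2 * k + 1) ≤ Nat.card (G ⧸ frattini G)) :
    2 ^ (k + 1) ∣ Nat.card {x : G // x ^ 2 = 1} := by
  classical
  have : Fact (Nat.Prime 2) := ⟨Nat.prime_two⟩
  have := Fintype.ofFinite G
  let inst := linAct G
  choose d hd0 hd using fun ψ : IrrCharacter G => ψ.2.exists_nat_one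
  have hν : ∀ ψ : IrrCharacter G, ∃ z : ℤ, fsInd ψ.1 = z := by
    intro ψ
    rcases fsInd_trichotomy ψ.2 with h | h | h
    exacts [⟨0, by simp [h]⟩, ⟨1, by simp [h]⟩, ⟨-1, by simp [h]⟩]
  choose ν hν using hν
  have hcount : (Nat.card {x : G // x ^ 2 = 1} : ℤ) = ∑ ψ : IrrCharacter G, ν ψ * d ψ := by
    have h1 := classAlg_card_sq_eq_one (G := G)
    simp only [hν, hd, ← sq] at h1
    exact_mod_cast h1
  let L := linOver (frattini G)
  have hL : Nat.card L = Nat.card (G ⧸ frattini G) :=
    card_linOver _ (CL.Grp.commutator_le_frattini hG)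
  obtain ⟨e, he⟩ := IsPGroup.iff_card.1 (hG.to_quotient (frattini G))
  have hke : 2 * k + 1 ≤ e := (Nat.pow_le_pow_iff_right (by norm_num)).1 (he ▸ hgen)
  have key := dvd_sum_of_orbits (L := L) (fun ψ : IrrCharacter G => ν ψ * d ψ) (2 ^ (k + 1)) ?_ ?_
  · rw [← hcount] at key
    exact_mod_cast key
  · intro l ψ
    have h1 : (ν (l • ψ) : ℂ) = ν ψ := by
      rw [← hν, ← hν, fsInd, fsInd]
      congr 1
      refine Finset.sum_congr rfl fun s _ => ?_
      change ((l.1 (s * s) : ℂˣ) : ℂ) * ψ.1 (s * s) = _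
      have : l.1 (s * s) = 1 := l.2 (sq s ▸ CL.Grp.pow_mem_frattini hG s)
      rw [this]; simp
    have h2 : (d (l • ψ) : ℂ) = d ψ := by
      rw [← hd, ← hd]
      change ((l.1 1 : ℂˣ) : ℂ) * ψ.1 1 = _
      simp
    have h1' : ν (l • ψ) = ν ψ := by exact_mod_cast h1
    have h2' : d (l • ψ) = d ψ := by exact_mod_cast h2
    simp only [h1', h2']
  · intro ψ
    have h1 := card_stab_le ψ (hd ψ) (MulAction.stabilizer L ψ) (fun t => t.1.1)
      (fun a b h => Subtype.ext (Subtype.ext h)) (fun t => congrArg Subtype.val t.2)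
    have h2 : Nat.card (MulAction.orbit L ψ) * Nat.card (MulAction.stabilizer L ψ) = 2 ^ e := by
      rw [← he, ← hL, Nat.card_coe_set_eq, ← MulAction.index_stabilizer, Subgroup.index_mul_card]
    obtain ⟨m, hm⟩ := IsPGroup.iff_card.1 hG
    obtain ⟨a, -, ha⟩ := (Nat.dvd_prime_pow Nat.prime_two).1
      (hm ▸ isIrr_degree_dvd_card ψ.2 (hd ψ))
    obtain ⟨b, -, hb⟩ := (Nat.dvd_prime_pow Nat.prime_two).1 (Dvd.intro _ h2)
    obtain ⟨c, -, hc⟩ := (Nat.dvd_prime_pow Nat.prime_two).1 (Dvd.intro_left _ h2)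
    rw [hb, hc, ← pow_add] at h2
    have h3 : b + c = e := Nat.pow_right_injective le_rfl h2
    rw [hc, ha, ← pow_mul] at h1
    have h4 : c ≤ a * 2 := (Nat.pow_le_pow_iff_right (by norm_num)).1 h1
    have h5 : 2 ^ (k + 1) ∣ 2 ^ b * 2 ^ a := by
      rw [← pow_add]
      exact pow_dvd_pow 2 (by omega)
    simp only [hb, ha]
    rw [mul_left_comm]
    refine Dvd.dvd.mul_left ?_ _
    exact_mod_cast h5

end Cfsg.Agent.S4058
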