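import Cfsg.Statements.S4064
import Cfsg.Agent.Cit.CentBase
import Cfsg.Agent.Cit.FrobSys
import Cfsg.Agent.Fgs.ClassBasic
import Cfsg.Agent.Char.CN2
import Cfsg.Agent.Perm.FCCrit
import Cfsg.Agent.Perm.PrimCharSimple
import Cfsg.Agent.Inv.Misc2

set_option autoImplicit false
open Cfsg

namespace Cfsg.Agent.S4064

open Subgroup CL.Grp CL.Fgs CL.Cit CL.CN Matrix
open scoped MatrixGroups Pointwise

def T (G : Type*) [Group G] : Prop :=
  ∀ x y g w : G, y ≠ 1 → Commute y x → Commute (g * y * g⁻¹) x → Commute w x → Commute (g * w * g⁻¹) x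

theorem T.of_injective {G G' : Type*} [Group G] [Group G'] (h : T G) (f : G' →* G) (hf : Function.Injective f) : T G' :=
  fun x y g w h1 h2 h3 h4 => hf (by
    simpa using (h (f x) (f y) (f g) (f w) (fun e => h1 (hf (e.trans (map_one f).symm))) (h2.map f)
      (by simpa using h3.map f) (h4.map f)).eq)

variable {G : Type*} [Group G] [Finite G]

omit [Finite G] in
theorem T.normal (h : T G) {A : Subgroup G} (hA : A.Normal) (h1 : A ≠ ⊥) {x : G} (hx : A ≤ centralizer {x}) :
    (centralizer {x}).Normal := by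
  obtain ⟨⟨y, hy⟩, y1⟩ := ne_bot_iff_exists_ne_one.1 h1
  exact ⟨fun w hw g => mem_cent.2 (h x y g w (by simpa using y1) (mem_cent.1 (hx hy))
    (mem_cent.1 (hx (hA.conj_mem y hy g))) (mem_cent.1 hw))⟩

theorem T.isNilpotent (h : T G) (hZ : center G ≠ ⊥) : Group.IsNilpotent G := by
  refine fittingSubgroup_eq_top_iff.1 (eq_top_iff.2 fun x _ => ?_)
  haveI := h.normal inferInstance hZ (center_le_cent x)
  have h1 : normalClosure {x} ≤ centralizer (normalClosure ({x} : Set G) : Set G) := normalClosure_le_normal (by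
    rintro _ rfl y hy
    exact mem_cent.1 (normalClosure_le_normal (by simpa using self_mem_cent _) hy))
  exact le_fittingSubgroup (isNilpotent_of_isMulCommutative (le_centralizer_iff_isMulCommutative.1 h1))
    (subset_normalClosure rfl)

theorem T.isCN (h : T G) : IsCNGroup G := fun x hx =>
  (h.of_injective _ (centralizer {x}).subtype_injective).isNilpotent (ne_bot_iff_exists_ne_one.2
    ⟨⟨⟨x, self_mem_cent x⟩, mem_center_iff.2 fun y => Subtype.ext (mem_cent.1 y.2)⟩, by simpa using hx⟩)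

theorem not_T_quaternion (n : ℕ) : ¬ T (QuaternionGroup (2 ^ (n + 2))) := fun h => by
  have h1 := h (.xa 0) (.a (2 ^ (n + 2) : ℕ)) (.a 1) (.xa 0) (fun e => ?_) ?_ ?_ rfl
  · have h2 : ((4 : ℕ) : ZMod (2 * 2 ^ (n + 2))) = 0 := by
      have := QuaternionGroup.a.inj h1.eq
      push_cast at this ⊢
      linear_combination this
    have := Nat.le_of_dvd (by norm_num) ((ZMod.natCast_eq_zero_iff _ _).1 h2)
    have : 0 < 2 ^ n := by positivity
    rw [pow_add] at *
    omega
  · have := Nat.le_of_dvd (by positivity) ((ZMod.natCast_eq_zero_iff _ _).1 (QuaternionGroup.a.inj e))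
    have : 0 < 2 ^ (n + 2) := by positivity
    omega
  all_goals
    refine congrArg QuaternionGroup.xa ?_
    have := ZMod.natCast_self (2 * 2 ^ (n + 2))
    push_cast at this ⊢
    linear_combination -this

theorem T.frob (h : T G) (hF : fittingSubgroup G ≠ ⊥) (hn : ¬ Group.IsNilpotent G) :
    ∃ H : Subgroup G, IsFrobeniusComplement H ∧
      (IsCyclic H ∨ ∃ m : ℕ, Odd m ∧ Nonempty (H ≃* Multiplicative (ZMod m) × QuaternionGroup 2)) := by
  obtain ⟨z, hz, z1, hc⟩ := exists_center_ne_one (fittingSubgroup_isNilpotent G) hF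
  have hC : ∀ x ∈ fittingSubgroup G, x ≠ 1 → centralizer {x} ≤ fittingSubgroup G := fun x hx x1 => by
    haveI := h.normal (A := fittingSubgroup G ⊓ centralizer (fittingSubgroup G)) inferInstance
      (fun e => z1 (e.le ⟨hz, hc⟩)) (x := x) fun y hy => mem_cent'.2 (hy.2 x hx)
    exact le_fittingSubgroup (h.isCN x x1)
  obtain ⟨E, hE, hnil, hf⟩ := exists_compl_of_fitting_hall h.isCN (CL.Perm.coprime_card_index_of_centralizer_le _ hC) hF
  refine ⟨E, frob_of_fpf hE hF (fun e => hn (fittingSubgroup_eq_top_iff.1 (isComplement'_bot_right.1 (e ▸ hE)))) hf, ?_⟩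
  rcases isCyclic_or_prod_of_fpf hF (by rw [normalizer_eq_top]; exact le_top) hf hnil with hc | ⟨C, Q, rfl, hc, hC, ho, n, ⟨e⟩⟩
  · exact Or.inl hc
  have hQ : (Nat.card C).Coprime (Nat.card Q) := by
    rw [Nat.card_congr e.toEquiv, Nat.card_eq_fintype_card (α := QuaternionGroup _), QuaternionGroup.card,
      show 4 * 2 ^ n = 2 ^ (n + 2) by ring]
    exact (Nat.coprime_two_right.2 ho).pow_right _
  let f := (CL.Perm.prodEquivSup C Q (fun a b => hc a a.2 b b.2) (disjoint_of_coprime_natCard hQ).eq_bot).symm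
  rcases n with _ | _ | n
  · exact Or.inl (f.isCyclic.2 (Group.isCyclic_prod_iff.2
      ⟨hC, e.isCyclic.2 QuaternionGroup.quaternionGroup_one_isCyclic, hQ⟩))
  · exact Or.inr ⟨_, ho, ⟨f.trans ((zmodCyclicMulEquiv hC).symm.prodCongr e)⟩⟩
  · exact absurd (h.of_injective (Q.subtype.comp e.symm.toMonoidHom) (Q.subtype_injective.comp e.symm.injective))
      (not_T_quaternion n)

omit [Finite G] in
theorem T.not_suzuki (h : T G) : ¬ Lie.IsoSuzuki G := fun hs => by
  obtain ⟨F, _, _, m, -, -, ⟨M⟩⟩ := exists_model_of_isoSuzuki hs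
  obtain ⟨y, y0, y1⟩ := M.big
  have hz : ∀ b, Commute (M.T 0 b) (M.T 1 0) := fun b => ((M.T_comm_iff' one_ne_zero).2 (Or.inl rfl)).symm
  have := h (M.T 1 0) (M.T 0 1) (M.D (Units.mk0 y y0)) (M.T 1 0) (by simp [M.T_eq_one]) (hz _)
    (by rw [M.D_conj_T, mul_zero]; exact hz _) rfl
  rw [M.D_conj_T] at this
  rcases (M.T_comm_iff' one_ne_zero).1 this.symm with e | e
  · exact y0 (by simpa using e)
  · exact y1 (M.toTits.σ_eq_one (by simpa using e))


/-- Let G be a finite group in which the centralizer of every element meets each of its conjugates by elements outside its normalizer trivially. Then G is nilpotent; or G is a Frobenius group with a complement that is cyclic or isomorphic to the direct product of a cyclic group of odd order and the quaternion group of order 8; or G is isomorphic to PSL₂(2ⁿ) for some n ≥ 2. -/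
theorem result {G : Type*} [Group G] [Finite G] (hTI : ∀ x : G, Cfsg.IsTISubset (Subgroup.centralizer ({x} : Set G) : Set G)) :
    Group.IsNilpotent G ∨
    (∃ H : Subgroup G, Cfsg.IsFrobeniusComplement H ∧
      (IsCyclic H ∨ ∃ m : ℕ, Odd m ∧ Nonempty (H ≃* Multiplicative (ZMod m) × QuaternionGroup 2))) ∨
    (∃ n : ℕ, 2 ≤ n ∧ Nonempty (G ≃* Matrix.ProjectiveSpecialLinearGroup (Fin 2) (GaloisField 2 n))) := by
  have h : T G := fun x y g w h1 h2 h3 h4 => by
    by_cases hg : g ∈ normalizer (centralizer ({x} : Set G) : Set G)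
    · exact mem_cent.1 ((mem_normalizer_iff.1 hg w).1 (mem_cent.2 h4))
    · exact absurd (hTI x g hg y (mem_cent.2 h2) (mem_cent.2 h3)) h1
  refine or_iff_not_imp_left.2 fun hn => or_iff_not_imp_left.2 fun hf => ?_
  have hF : ∀ A : Subgroup G, A.Normal → Group.IsNilpotent A → A = ⊥ := fun A _ hA => by
    by_contra h1
    exact hf (h.frob (fun e => h1 (eq_bot_iff.2 (e ▸ le_fittingSubgroup hA))) hn)
  have h2 : 2 ∣ Nat.card G := even_iff_two_dvd.1 (Nat.not_odd_iff_even.1 fun e => by
    haveI := CL.Odd.feit_thompson e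
    haveI : Nontrivial G := not_subsingleton_iff_nontrivial.1 fun _ => hn inferInstance
    obtain ⟨p, N, -, hN, h1, hc, -⟩ := hall_exists_abelian_normal_pgroup (G := G)
    exact h1 (hF N hN (isNilpotent_of_isMulCommutative hc)))
  obtain ⟨S⟩ : Nonempty (Sylow 2 G) := inferInstance
  obtain ⟨z, hzS, hz, hS⟩ := CL.Inv.exists_central_orderOf_eq S.isPGroup' (S.ne_bot_of_dvd_card h2)
  have z1 : z ≠ 1 := fun e => by simp [e] at hz
  have hN : ∀ y ∈ centralizer {z}, y ≠ 1 → ∀ g : G, g * y * g⁻¹ ∈ centralizer {z} →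
      g ∈ normalizer (centralizer ({z} : Set G) : Set G) := fun y hy y1 g hg =>
    mem_normalizer_fintype fun w hw => mem_cent.2 (h z y g w y1 (mem_cent.1 hy) (mem_cent.1 hg) (mem_cent.1 hw))
  refine (tiThm G _ z hz rfl (fun y hy y1 g hg => ?_) hN ?_ fun hc => ?_).2.elim ?_ fun hs => absurd hs h.not_suzuki
  rotate_right
  · rintro ⟨F, _, _, n, hn, hF, ⟨e⟩⟩
    letI : Fintype (GaloisField 2 n) := Fintype.ofFinite _
    obtain ⟨f⟩ := CL.SLn.nonempty_psl_equiv_of_card_eq (ι := Fin 2) (hF.trans (card_galoisField n (by omega)).symm)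
    exact ⟨n, hn, ⟨e.trans f⟩⟩
  · obtain ⟨a, ha, b, hb, ⟨k, hk⟩, hbo, e, -⟩ := exists_pPart_mul_pPrimePart Nat.prime_two g
    have hg : zpowers g ≤ centralizer {y} := zpowers_le.2 (mem_cent.2 hg)
    refine e ▸ mul_mem (hS ?_) (mem_cent.2 (commute_of_commute h.isCN y1 (mem_cent.1 (hg hb)) (mem_cent'.1 hy) (hz ▸ hbo)))
    have h1 := CL.Odd.T12.norm_le_norm_sylow_of_nil Nat.prime_two (h.isCN z z1) (isSylowIn_of_le S hS)
      (hN y hy y1 a (by rwa [mem_cent_iff_conj.1 (hg ha)]))
    exact ((isPGroup_zpowers_of_orderOf hk).inf_normalizer_sylow S).le ⟨mem_zpowers a, h1⟩ |>.2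
  · by_contra hne
    obtain ⟨A, hA, h1, hc⟩ := exists_abelian_normal_of_isolated ⟨hz, fun g hg => by_contra fun e =>
      hne ⟨_, mem_cent'.2 hg, (CL.Inv.orderOf_conj _ _).trans hz, e⟩⟩
    exact h1 (hF A hA (isNilpotent_of_isMulCommutative hc))
  · exact z1 ((hF _ hc (h.isCN z z1)).le (self_mem_cent z))

end Cfsg.Agent.S4064
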