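import Cfsg.Statements.S4065
import Cfsg.Agent.Cls.SL2Class2


set_option autoImplicit false
open Cfsg

namespace Cfsg.Agent.S4065

/-- Let F be a finite field with 2ⁿ elements, n ≥ 2. In PSL₂(F) the centralizer of every element meets each of its conjugates by elements outside its normalizer trivially. -/
theorem result (n : ℕ) (hn : 2 ≤ n)
    (x : Matrix.ProjectiveSpecialLinearGroup (Fin 2) (GaloisField 2 n)) :
    Cfsg.IsTISubset (Subgroup.centralizer ({x} : Set (Matrix.ProjectiveSpecialLinearGroup (Fin 2) (GaloisField 2 n))) :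
      Set (Matrix.ProjectiveSpecialLinearGroup (Fin 2) (GaloisField 2 n))) := by
  have h2 : (2 : GaloisField 2 n) = 0 := CharP.cast_eq_zero _ 2
  have key : ∀ u a b : Matrix.ProjectiveSpecialLinearGroup (Fin 2) (GaloisField 2 n), u ≠ 1 →
      a * u = u * a → b * u = u * b → a * b = b * a := by
    intro u a b hu ha hb
    induction u using QuotientGroup.induction_on with | H u =>
    induction a using QuotientGroup.induction_on with | H a =>
    induction b using QuotientGroup.induction_on with | H b =>
    have hs : ¬ CL.GL2.IsScal u.val := fun h =>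
      hu (CL.SL2.psl_mk_eq_one_iff.2 (CL.GL2.isScal_SL_iff.1 h))
    obtain ⟨x, y, h1⟩ := (CL.GL2.commute_iff hs _).1
      (congrArg Subtype.val (CL.SL2.psl_mk_injective h2 ha))
    obtain ⟨z, w, h3⟩ := (CL.GL2.commute_iff hs _).1
      (congrArg Subtype.val (CL.SL2.psl_mk_injective h2 hb))
    refine congrArg QuotientGroup.mk (CL.GL2.ext_SL (g := a * b) (h := b * a) ?_)
    rw [CL.GL2.coe_mul_SL, CL.GL2.coe_mul_SL, h1, h3]
    simp only [add_mul, mul_add, smul_mul_assoc, mul_smul_comm, one_mul, mul_one]
    module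
  intro g hg y hy hgy
  by_contra hy1
  refine hg (Subgroup.mem_normalizer_iff.2 fun h => ?_)
  by_cases hx : x = 1
  · simp [hx, Subgroup.mem_centralizer_singleton_iff]
  have hgy1 : g * y * g⁻¹ ≠ 1 := by simpa using hy1
  simp only [SetLike.mem_coe, Subgroup.mem_centralizer_singleton_iff] at hy hgy ⊢
  constructor
  · intro h1
    refine key _ _ _ hgy1 ?_ hgy.symm
    rw [conj_mul, conj_mul, key x h y hx h1 hy]
  · intro h1
    refine key y _ _ hy1 ?_ hy.symm
    have h3 := key x _ _ hx h1 hgy
    rw [conj_mul, conj_mul] at h3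
    exact mul_left_cancel (mul_right_cancel h3)

end Cfsg.Agent.S4065
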