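import Cfsg.Statements.S4066
import Cfsg.Agent.Fgs.TIBase

set_option autoImplicit false
open Cfsg

namespace Cfsg.Agent.S4066

open scoped Pointwise
open CL.Grp CL.Odd CL.Fgs

/-- Let G be a finite group in which the centralizer of every element meets each of its conjugates by elements outside its normalizer trivially. Then any two distinct Sylow p-subgroups of G, for any prime p, intersect trivially. -/
theorem result {G : Type*} [Group G] [Finite G] (hTI : ∀ x : G, Cfsg.IsTISubset (Subgroup.centralizer ({x} : Set G) : Set G))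
    {p : ℕ} [Fact p.Prime] (P Q : Sylow p G) (hPQ : P ≠ Q) : (P : Subgroup G) ⊓ (Q : Subgroup G) = ⊥ := by
  have hp : p.Prime := Fact.out
  by_contra hne
  have hPn := nil_of_isPGroup hp P.isPGroup'
  obtain ⟨z, ⟨hzP, hzc⟩, hz1⟩ := ne_bot_iff.1 (center_ne_bot_of_nil hPn fun e => hne (by rw [e, bot_inf_eq]))
  have hPC : (P : Subgroup G) ≤ C1[z] := le_c1_iff.2 hzc
  have hD : (Q : Subgroup G) ⊓ C1[z] ≠ ⊥ := fun e => hne (eq_bot_iff.2 (le_trans
    (le_inf inf_le_right (inf_le_left.trans hPC)) e.le))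
  have hQC : (Q : Subgroup G) ≤ C1[z] := by
    refine inf_eq_left.1 (eq_of_inf_norm_le_of_nil (nil_of_isPGroup hp Q.isPGroup') inf_le_left
      (le_inf inf_le_left ?_))
    have h1 : (Q : Subgroup G) ⊓ N[(Q : Subgroup G) ⊓ C1[z]] ≤ N[C1[z]] :=
      inf_le_right.trans (ti_norm_le (hTI z) inf_le_right hD)
    obtain ⟨g, hg, hle⟩ := (isSylowIn_of_le P (hPC.trans (le_norm_self _))).exists_conj_le
      (Q.isPGroup'.to_le inf_le_left) h1
    exact (cj_le_iff_of_mem_norm hg).1 (hle.trans hPC)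
  refine hPQ (Sylow.ext (Q.3 P.isPGroup' fun y hy => ?_))
  by_cases hy1 : y = 1
  · rw [hy1]; exact one_mem _
  have h1 : C1[z] ≤ N[C1[y]] := ti_c1_le (hTI y) (mem_c1_comm.1 (hQC hy)) hz1
  have h2 : C1[z] ⊓ C1[y] ⊴ C1[z] := ⟨inf_le_left, le_norm_inf (le_norm_self _) h1⟩
  have h3 := h2.center'.pCore p
  refine (isSylowIn_of_le P hPC).le_of_normalized (pCoreOf_isPGroup p _) h3.le h3.norm ?_
  refine nil_le_pCoreOf hp (nil_of_abelian (abelian_center _)) (K := Subgroup.zpowers y)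
    (Q.isPGroup'.to_le ((Subgroup.zpowers_le).2 hy)) ((Subgroup.zpowers_le).2 ?_) (Subgroup.mem_zpowers y)
  exact ⟨⟨hQC hy, mem_c1_self y⟩, le_c1_iff.1 inf_le_right⟩

end Cfsg.Agent.S4066
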