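import Cfsg.Statements.S4067
import Cfsg.Agent.Fgs.ClassBasic
import Cfsg.Agent.Grp.Comm1
import Cfsg.Agent.Char.Linear
import Cfsg.Agent.Char.Orth2
import Cfsg.Agent.Char.Faithful

set_option autoImplicit false
open Cfsg

namespace Cfsg.Agent.S4067

open Cfsg Subgroup CL.Grp CL.Fgs CL.Char MulAction
open scoped commutatorElement

theorem card_orbits {A X : Type*} [Group A] [MulAction A X] [Fintype X] :
    (Nat.card (orbitRel.Quotient A X) : ℚ) = ∑ x : X, ((orbit A x).ncard : ℚ)⁻¹ := by
  classical
  haveI := Fintype.ofFinite (orbitRel.Quotient A X)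
  rw [← Finset.sum_fiberwise (s := Finset.univ) (g := fun x : X => (Quotient.mk _ x : orbitRel.Quotient A X)),
    Nat.card_eq_fintype_card, ← Finset.card_univ, Finset.card_eq_sum_ones, Nat.cast_sum]
  refine Finset.sum_congr rfl fun q _ => ?_
  obtain ⟨y, rfl⟩ := Quotient.exists_rep q
  have h1 : ∀ x : X, (Quotient.mk _ x : orbitRel.Quotient A X) = Quotient.mk _ y ↔ x ∈ orbit A y :=
    fun x => Quotient.eq
  rw [Finset.sum_congr rfl (g := fun _ => ((orbit A y).ncard : ℚ)⁻¹) fun x hx => by
    rw [orbit_eq_iff.2 ((h1 x).1 (Finset.mem_filter.1 hx).2)], Finset.sum_const, nsmul_eq_mul]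
  have h2 : (Finset.univ.filter fun x : X =>
      (Quotient.mk _ x : orbitRel.Quotient A X) = Quotient.mk _ y).card = (orbit A y).ncard := by
    rw [← Set.ncard_coe_finset]; congr 1; ext x; simp [h1]
  rw [h2, mul_inv_cancel₀ (Nat.cast_ne_zero.2 ((Set.ncard_pos (Set.toFinite _)).2 ⟨y, mem_orbit_self y⟩).ne')]
  rfl

variable {G : Type*} [Group G] [Finite G]

theorem partA (h : (Nat.card G).minFac < Nat.card (commutator G)) :
    (Nat.card G).minFac * Nat.card (ConjClasses G) ≤ Nat.card G := by
  classical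
  set p := (Nat.card G).minFac with hp
  have h1 := sum_charDegree_sq (G := G)
  have h2 := card_linear_irr (G := G)
  have h3 := (commutator G).index_mul_card
  rw [← card_irr_eq_card_conjClasses, Nat.card_eq_fintype_card (α := IrrCharacter G), ← Finset.card_univ]
  rw [Nat.card_eq_fintype_card, Fintype.card_subtype] at h2
  have h4 := Finset.card_filter_add_card_filter_not (s := Finset.univ)
    (fun χ : IrrCharacter G => (χ : G → ℂ) 1 = 1)
  rw [← Finset.sum_filter_add_sum_filter_not _ (fun χ : IrrCharacter G => (χ : G → ℂ) 1 = 1)] at h1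
  have h5 := Finset.card_nsmul_le_sum (Finset.univ.filter fun χ : IrrCharacter G => (χ : G → ℂ) 1 = 1)
    (fun χ => charDegree (χ : G → ℂ) ^ 2) 1 fun χ _ => Nat.one_le_pow _ _ χ.2.charDegree_pos
  have h6 := Finset.card_nsmul_le_sum (Finset.univ.filter fun χ : IrrCharacter G => ¬ (χ : G → ℂ) 1 = 1)
    (fun χ => charDegree (χ : G → ℂ) ^ 2) (p ^ 2) fun χ hχ => by
      refine Nat.pow_le_pow_left (Nat.minFac_le_of_dvd ?_ χ.2.charDegree_dvd_card) 2
      have a := χ.2.charDegree_pos
      have b := (Finset.mem_filter.1 hχ).2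
      rw [← χ.2.isCharacter.charDegree_eq_one_iff] at b
      omega
  rw [smul_eq_mul] at h5 h6
  rw [h2] at h4 h5
  rw [← h4]
  have h0 : 0 < p := Nat.minFac_pos _
  generalize (commutator G).index = l at *
  generalize (Finset.univ.filter fun χ : IrrCharacter G => ¬ (χ : G → ℂ) 1 = 1).card = m at *
  have h7 : l * (p + 1) ≤ Nat.card G := h3 ▸ Nat.mul_le_mul_left l h
  have h8 : l + m * p ^ 2 ≤ Nat.card G := by omega
  obtain ⟨q, hq⟩ : ∃ q, p = q + 1 := ⟨p - 1, by omega⟩
  refine Nat.le_of_mul_le_mul_left ?_ h0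
  rw [hq] at h7 h8 ⊢
  nlinarith [Nat.mul_le_mul_left q h7]

theorem exists_aut_of_hom (f : G →* G) (hf : ∀ g, f g ∈ center G) (h0 : ∀ z ∈ center G, f z = 1) :
    ∃ φ : MulAut G, ∀ g, φ g = g * f g := by
  let ψ : G →* G := MonoidHom.mk' (fun g => g * f g) fun a b => by
    rw [map_mul, mul_assoc a b, mul_assoc a, ← mul_assoc (f a), ← mem_center_iff.1 (hf a) b, mul_assoc b]
  have hi : Function.Injective ψ := (injective_iff_map_eq_one ψ).2 fun a ha => by
    have h1 : a * f a = 1 := ha
    have h2 : a ∈ center G := by rw [eq_inv_of_mul_eq_one_left h1]; exact inv_mem (hf a)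
    rwa [h0 a h2, mul_one] at h1
  exact ⟨MulEquiv.ofBijective ψ hi.bijective_of_finite, fun _ => rfl⟩

theorem zpowers_comm {p : ℕ} (hp : p.Prime) (hc : Nat.card (commutator G) = p) {x y : G} (hxy : ¬ Commute x y) :
    zpowers ⁅x, y⁆ = commutator G := by
  have hle : zpowers ⁅x, y⁆ ≤ commutator G := (zpowers_le).2 (comm_mem_commutator x y)
  rcases (Nat.dvd_prime hp).1 (hc ▸ card_dvd_of_le hle) with e | e
  · exact absurd (commutatorElement_eq_one_iff_commute.1 (zpowers_eq_bot.1 (card_eq_one.1 e))) hxy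
  · exact eq_of_le_of_card_ge hle (by rw [e, hc])

theorem exists_transv {p : ℕ} (hp : p.Prime) (hc : Nat.card (commutator G) = p)
    (hZ : commutator G ≤ center G) {x y : G} (hxy : ¬ Commute x y) (hpow : (x * y) ^ p = x ^ p) :
    ∃ φ : MulAut G, φ x = x * y := by
  have hz : ∀ a b : G, ⁅a, b⁆ ∈ center G := fun a b => hZ (comm_mem_commutator a b)
  have hw : zpowers ⁅x, y⁆ = commutator G := zpowers_comm hp hc hxy
  have ho : orderOf ⁅x, y⁆ = p := by rw [← Nat.card_zpowers, hw, hc]
  have hex : ∀ g : G, ∃ n : ℤ, Commute ((x ^ n)⁻¹ * g) y := fun g => by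
    obtain ⟨n, hn⟩ := mem_zpowers_iff.1 (hw ▸ comm_mem_commutator g y)
    refine ⟨n, commutatorElement_eq_one_iff_commute.1 ?_⟩
    rw [comm_mul_left_of_central (hz _ _), ← zpow_neg, comm_zpow_left (commute_of_mem_center (hz _ _) _),
      ← hn, zpow_neg, inv_mul_cancel]
  choose c hc' using hex
  set u : ℤ → G := fun n => (x * y) ^ n * (x ^ n)⁻¹ with hu
  have hadd : ∀ a b : ℤ, u (a + b) = u a * (x ^ a * u b * (x ^ a)⁻¹) := fun a b => by
    simp only [hu, zpow_add]; group
  have hcom : ∀ n : ℤ, ∀ h : G, Commute h y → Commute (u n) h := fun n h hh => by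
    refine commutatorElement_eq_one_iff_commute.1 ?_
    simp only [hu]
    rw [comm_mul_left_of_central (hz _ _), ← zpow_neg, comm_zpow_left (commute_of_mem_center (hz _ _) _),
      comm_zpow_left (commute_of_mem_center (hz _ _) _), comm_mul_left_of_central (hz _ _),
      commutatorElement_eq_one_iff_commute.2 hh.symm, mul_one, zpow_neg, mul_inv_cancel]
  have hper : ∀ a b : ℤ, Commute (x ^ (a - b)) y → u a = u b := fun a b hab => by
    have h1 : ⁅x, y⁆ ^ (a - b) = 1 := by
      rw [← comm_zpow_left (commute_of_mem_center (hz _ _) _)]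
      exact commutatorElement_eq_one_iff_commute.2 hab
    obtain ⟨k, hk⟩ := orderOf_dvd_iff_zpow_eq_one.2 h1
    rw [ho] at hk
    rw [show a = b + p * k by omega, hadd]
    simp only [hu, zpow_mul, zpow_natCast, hpow]; group
  let ψ : G →* G := MonoidHom.mk' (fun g => u (c g) * g) fun a b => by
    have h1 : u (c (a * b)) = u (c a + c b) := by
      refine (hper _ _ ?_).symm
      have e : x ^ (c a + c b - c (a * b)) = ((x ^ c (a * b))⁻¹ * (a * b)) * ((x ^ c b)⁻¹ * b)⁻¹ *
          ((x ^ c b)⁻¹ * ((x ^ c a)⁻¹ * a)⁻¹ * x ^ c b) := by group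
      rw [e]
      refine ((hc' _).mul_left (hc' b).inv_left).mul_left (commutatorElement_eq_one_iff_commute.1 ?_)
      rw [comm_mul_left_of_central (hz _ _), comm_mul_left_of_central (hz _ _),
        commutatorElement_eq_one_iff_commute.2 (hc' a).inv_left, mul_one, ← comm_mul_left_of_central (hz _ _)]
      simp
    have h2 := (hcom (c b) _ (hc' a)).eq
    rw [h1, hadd]
    calc u (c a) * (x ^ c a * u (c b) * (x ^ c a)⁻¹) * (a * b)
        = u (c a) * x ^ c a * (u (c b) * ((x ^ c a)⁻¹ * a)) * b := by group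
      _ = _ := by rw [h2]; group
  have hi : Function.Injective ψ := (injective_iff_map_eq_one ψ).2 fun a ha => by
    have h1 : u (c a) * a = 1 := ha
    have h2 : Commute a y := by
      rw [eq_inv_of_mul_eq_one_right h1]; exact (hcom _ y (Commute.refl y)).inv_left
    have h3 : u (c a) = u 0 := hper _ _ (by
      have := h2.mul_left (hc' a).inv_left
      simpa using this)
    rw [h3] at h1; simpa [hu] using h1
  refine ⟨MulEquiv.ofBijective ψ hi.bijective_of_finite, ?_⟩
  change u (c x) * x = x * y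
  rw [hper (c x) 1 (by simpa [sub_eq_neg_add, zpow_add] using (hc' x).inv_left)]
  simp [hu]

/-- Let G be a finite non-abelian group and p the least prime dividing its order. Then the automorphism group of G has at most #G/p orbits on G. -/
theorem result {G : Type*} [Group G] [Finite G] (hna : ¬ IsMulCommutative G) :
    Nat.card (MulAction.orbitRel.Quotient (MulAut G) G) ≤ Nat.card G / (Nat.card G).minFac := by
  classical
  haveI := Fintype.ofFinite G
  set p := (Nat.card G).minFac with hpd
  obtain ⟨a, b, hab⟩ : ∃ a b : G, ¬ Commute a b := by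
    by_contra h; push Not at h; exact hna ⟨⟨h⟩⟩
  haveI : Nontrivial G := ⟨⟨a, 1, fun e => hab (e ▸ Commute.one_left b)⟩⟩
  have hp : p.Prime := Nat.minFac_prime Finite.one_lt_card.ne'
  have hmin : ∀ d, d ∣ Nat.card G → d ≠ 1 → p ≤ d := fun d hd h1 =>
    Nat.minFac_le_of_dvd (by have := Nat.pos_of_dvd_of_pos hd Nat.card_pos; omega) hd
  have hcs : ∀ x : G, x ∉ center G → p ≤ {y | IsConj x y}.ncard := fun x hx => by
    rw [ncard_isConj]
    exact hmin _ (index_dvd_card _) fun e => hx (mem_center_iff.2 fun g =>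
      mem_centralizer_singleton_iff.1 (index_eq_one.1 e ▸ mem_top g))
  have hsub : ∀ x : G, ∀ φ : MulAut G, {y | IsConj (φ x) y} ⊆ orbit (MulAut G) x := fun x φ y hy => by
    obtain ⟨c, rfl⟩ := isConj_iff.1 hy
    exact ⟨MulAut.conj c * φ, rfl⟩
  rw [Nat.le_div_iff_mul_le hp.pos]
  rcases (hmin _ (card_subgroup_dvd_card (commutator G)) fun e => hab (commutatorElement_eq_one_iff_commute.1
    (mem_bot.1 (card_eq_one.1 e ▸ comm_mem_commutator a b)))).lt_or_eq with hlt | hc
  · refine le_trans ?_ (partA hlt)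
    rw [mul_comm]
    refine Nat.mul_le_mul_left _ (Nat.card_le_card_of_surjective
      (Quotient.map' (s₁ := IsConj.setoid G) (s₂ := orbitRel (MulAut G) G) id fun x y h =>
        hsub y 1 (IsConj.symm h)) fun q => ?_)
    obtain ⟨x, rfl⟩ := Quotient.exists_rep q
    exact ⟨Quotient.mk _ x, rfl⟩
  replace hc := hc.symm
  have hZ : commutator G ≤ center G := fun w hw => by
    by_contra h
    have h1 : {y | IsConj w y} ⊂ (commutator G : Set G) := by
      refine ⟨fun y hy => ?_, fun hs => h ?_⟩
      · obtain ⟨c, rfl⟩ := isConj_iff.1 hy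
        exact (inferInstance : (commutator G).Normal).conj_mem _ hw c
      · rw [isConj_one_left.1 (hs (one_mem _))]; exact one_mem _
    have h2 := Set.ncard_lt_ncard h1 (Set.toFinite _)
    have h3 := hcs w h
    rw [← Nat.card_coe_set_eq (commutator G : Set G), SetLike.coe_sort_coe, hc] at h2
    omega
  have hz : ∀ a b : G, ⁅a, b⁆ ∈ center G := fun a b => hZ (comm_mem_commutator a b)
  have hwp : ∀ w ∈ commutator G, w ^ p = 1 := fun w hw =>
    orderOf_dvd_iff_pow_eq_one.1 (hc ▸ orderOf_dvd_natCard _ hw)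
  have hidx : ∀ y : G, y ∉ center G → Nat.card (center G) * p ≤ Nat.card (centralizer ({y} : Set G)) ∧
      Nat.card (centralizer ({y} : Set G)) * p ≤ Nat.card G := fun y hy => by
    constructor
    · rw [← card_mul_relIndex (center_le_centralizer ({y} : Set G))]
      exact Nat.mul_le_mul_left _ (hmin _ ((relIndex_dvd_card _ _).trans (card_subgroup_dvd_card _)) fun e =>
        hy (relIndex_eq_one.1 e (mem_centralizer_singleton_iff.2 rfl)))
    · have := hcs y hy
      rw [ncard_isConj] at this
      rw [← (centralizer ({y} : Set G)).card_mul_index]; exact Nat.mul_le_mul_left _ this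
  have hb : b ∉ center G := fun h => hab (mem_center_iff.1 h a)
  obtain ⟨y, hy, hK⟩ : ∃ y : G, y ∉ center G ∧ ∀ x : G, ¬ Commute x y →
      ∃ φ : MulAut G, ∃ t, t ∉ commutator G ∧ φ x = x * t := by
    by_cases hB : ∃ z ∈ center G, z ^ p = 1 ∧ z ∉ commutator G
    · obtain ⟨z, hz1, hz2, hz3⟩ := hB
      refine ⟨b, hb, fun x hx => ?_⟩
      have hw := zpowers_comm hp hc hx
      let θ : G →* commutator G := MonoidHom.mk' (fun g => ⟨⁅g, b⁆, comm_mem_commutator g b⟩) fun g h =>
        Subtype.ext (comm_mul_left_of_central (hz _ _))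
      have hgen : ∀ w : commutator G, w ∈ zpowers (θ x) := fun w => by
        obtain ⟨n, hn⟩ := mem_zpowers_iff.1 (hw.ge w.2)
        exact ⟨n, Subtype.ext hn⟩
      have hdvd : orderOf (⟨z, hz1⟩ : center G) ∣ orderOf (θ x) := by
        rw [orderOf_eq_card_of_forall_mem_zpowers hgen, hc]
        exact orderOf_dvd_of_pow_eq_one (Subtype.ext hz2)
      obtain ⟨φ, hφ⟩ := exists_aut_of_hom ((center G).subtype.comp
        ((monoidHomOfForallMemZpowers hgen hdvd).comp θ)) (fun g => Subtype.property _) fun g hg => by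
          have : θ g = 1 := Subtype.ext (commutatorElement_eq_one_iff_mul_comm.2 (mem_center_iff.1 hg b).symm)
          simp [this]
      exact ⟨φ, z, hz3, by rw [hφ]; simp⟩
    push Not at hB
    suffices h : ∃ y : G, y ∉ center G ∧ ∀ x : G, ¬ Commute x y → (x * y) ^ p = x ^ p by
      obtain ⟨y, hy, h⟩ := h
      exact ⟨y, hy, fun x hx => (exists_transv hp hc hZ hx (h x hx)).imp fun φ hφ =>
        ⟨y, fun h => hy (hZ h), hφ⟩⟩
    have hpz : ∀ g : G, g ^ p ∈ center G := fun g => mem_center_iff.2 fun h =>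
      commutatorElement_eq_one_iff_mul_comm.1 (by
        rw [comm_pow_right_of_central (hz _ _)]; exact hwp _ (comm_mem_commutator _ _))
    by_cases h2 : p = 2
    · rw [h2] at hB hpz hwp hc ⊢
      set w := ⁅b, a⁆ with hwd
      have hw : ∀ u v : G, ¬ Commute u v → ⁅u, v⁆ = w := fun u v h => by
        have k : ∀ u v : G, ¬ Commute u v → (⟨⁅u, v⁆, comm_mem_commutator u v⟩ : commutator G) ≠ 1 :=
          fun u v h e => h (commutatorElement_eq_one_iff_commute.1 (congrArg Subtype.val e))
        obtain ⟨c, -, hc⟩ := (Nat.card_eq_two_iff' (1 : commutator G)).1 hc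
        exact congrArg Subtype.val ((hc _ (k u v h)).trans (hc _ (k b a fun h => hab h.symm)).symm)
      set σ : center G →* center G := MonoidHom.mk' (fun z => z ^ 2) (fun u v =>
        Subtype.ext ((commute_of_mem_center v.2 u).mul_pow 2)) with hσ
      have hi : σ.range.index = 2 := by
        have e1 := σ.range.index_mul_card
        have e2 := σ.ker.card_mul_index
        have e3 : σ.ker = (commutator G).subgroupOf (center G) := by
          ext z; exact ⟨fun h => hB z z.2 (congrArg Subtype.val h), fun h => Subtype.ext (hwp _ h)⟩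
        rw [index_ker, e3, card_subgroupOf_of_le hZ, hc, ← e1] at e2
        exact (Nat.eq_of_mul_eq_mul_right Nat.card_pos e2).symm
      have hwz : w ∈ center G := hz b a
      obtain ⟨y, hy, z, hz'⟩ : ∃ y : G, y ∉ center G ∧ (⟨y ^ 2 * w, mul_mem (hpz y) (hz _ _)⟩ : center G) ∈ σ.range := by
        by_contra hn
        push Not at hn
        have ha : a ∉ center G := fun h => hab (mem_center_iff.1 h b).symm
        refine hn (a * b) (fun h => hab ?_) ?_
        · have := mem_center_iff.1 h a
          rw [mul_assoc] at this; exact mul_left_cancel this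
        · convert (mul_mem_iff_of_index_two hi).2 (iff_of_false (hn a ha) (hn b hb)) using 1
          refine Subtype.ext ?_
          change (a * b) ^ 2 * w = a ^ 2 * w * (b ^ 2 * w)
          rw [mul_pow_of_central (hz _ _), ← hwd, Nat.choose_self, pow_one, mul_assoc (a ^ 2) w, ← mul_assoc w,
            ← mem_center_iff.1 hwz (b ^ 2)]
          simp only [mul_assoc]
      have hz2 : (z : G) ^ 2 = y ^ 2 * w := congrArg Subtype.val hz'
      refine ⟨y * (z : G)⁻¹, fun h => hy ((mul_mem_cancel_right (inv_mem z.2)).1 h), fun x hx => ?_⟩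
      rw [mul_pow_of_central (hz _ _), hw _ _ fun h => hx h.symm, Nat.choose_self, pow_one,
        (commute_of_mem_center (inv_mem z.2) y).mul_pow, inv_pow, hz2, mul_inv_rev, ← mul_assoc (y ^ 2),
        (commute_of_mem_center (inv_mem hwz) (y ^ 2)).eq]
      group
    · have hmp : ∀ u v : G, (u * v) ^ p = u ^ p * v ^ p := fun u v =>
        mul_pow_prime_of_commute_comm hp h2 (commute_of_mem_center (hz _ _) _)
          (commute_of_mem_center (hz _ _) _) (hwp _ (comm_mem_commutator _ _))
      set σ : G →* G := MonoidHom.mk' (fun g => g ^ p) hmp with hσ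
      by_contra hn
      have h1 : σ.ker ≤ commutator G := fun y hy => hB y (by
        by_contra h; exact hn ⟨y, h, fun x _ => by rw [hmp, show y ^ p = 1 from hy, mul_one]⟩) hy
      have h3 : σ.range ≤ center G := by rintro _ ⟨g, rfl⟩; exact hpz g
      have e2 := σ.ker.card_mul_index
      rw [index_ker] at e2
      have a1 := card_le_of_le h1
      have a2 := card_le_of_le h3
      have a3 := Nat.mul_le_mul a1 a2
      obtain ⟨a4, a5⟩ := hidx b hb
      have a6 : 0 < Nat.card (center G) := Nat.card_pos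
      rw [e2, hc] at a3
      nlinarith [hp.two_le, Nat.mul_le_mul_right p a4, Nat.mul_pos a6 hp.pos]
  have hp0 : (0 : ℚ) < p := Nat.cast_pos.2 hp.pos
  have hb : ∀ x : G, ((orbit (MulAut G) x).ncard : ℚ)⁻¹ ≤ 1 / (2 * p) +
      (if x ∈ centralizer ({y} : Set G) then (1 / (2 * p) : ℚ) else 0) +
      (if x ∈ center G then (1 - 1 / p : ℚ) else 0) := by
    intro x
    by_cases h1 : x ∈ center G
    · rw [if_pos h1, if_pos (center_le_centralizer _ h1)]
      refine (Nat.cast_inv_le_one _).trans (le_of_eq ?_)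
      field_simp; ring
    rw [if_neg h1, add_zero]
    split_ifs with h2
    · have := (hcs x h1).trans (Set.ncard_le_ncard (hsub x 1) (Set.toFinite _))
      refine (inv_anti₀ hp0 (Nat.cast_le.2 this)).trans (le_of_eq ?_)
      field_simp; ring
    · obtain ⟨φ, t, ht, hφ⟩ := hK x fun h => h2 (mem_centralizer_singleton_iff.2 h)
      have h3 : φ x ∉ center G := fun h => h1 (mem_center_iff.2 fun g => φ.injective (by
        rw [map_mul, map_mul]; exact mem_center_iff.1 h _))
      have h4 : Disjoint {z | IsConj x z} {z | IsConj (φ x) z} := Set.disjoint_left.2 fun z a b => by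
        obtain ⟨c, hc⟩ := isConj_iff.1 (IsConj.trans a (IsConj.symm b))
        refine ht ?_
        rw [show t = ⁅x⁻¹, c⁆ by rw [commutatorElement_def, mul_assoc, mul_assoc, inv_inv, ← mul_assoc c, hc, hφ]; group]
        exact comm_mem_commutator _ _
      have h5 := Set.ncard_le_ncard (Set.union_subset (hsub x 1) (hsub x φ)) (Set.toFinite _)
      have h6 := Set.ncard_union_eq h4 (Set.toFinite _) (Set.toFinite _)
      have h7 : 2 * p ≤ (orbit (MulAut G) x).ncard := by
        have := hcs x h1; have := hcs _ h3; simp only [MulAut.one_apply] at h5; omega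
      rw [add_zero, one_div]
      exact inv_anti₀ (by positivity) (by exact_mod_cast h7)
  have hcount : ∀ (H : Subgroup G) [DecidablePred (· ∈ H)] (c : ℚ),
      ∑ x : G, (if x ∈ H then c else 0) = Nat.card H * c := fun H _ c => by
    rw [← Finset.sum_filter, Finset.sum_const, nsmul_eq_mul, Nat.card_eq_fintype_card, Fintype.card_subtype]
  have h1 := Finset.sum_le_sum fun x (_ : x ∈ Finset.univ) => hb x
  rw [← card_orbits, Finset.sum_add_distrib, Finset.sum_add_distrib, hcount, hcount, Finset.sum_const,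
    Finset.card_univ, ← Nat.card_eq_fintype_card, nsmul_eq_mul] at h1
  obtain ⟨a4, a5⟩ := hidx y hy
  have a4' : (Nat.card (center G) : ℚ) * p ≤ Nat.card (centralizer ({y} : Set G)) := by exact_mod_cast a4
  have a5' : (Nat.card (centralizer ({y} : Set G)) : ℚ) * p ≤ Nat.card G := by exact_mod_cast a5
  have h2 : (2 : ℚ) ≤ p := by exact_mod_cast hp.two_le
  have h3 := mul_le_mul_of_nonneg_right h1 (show (0 : ℚ) ≤ 2 * p by positivity)
  have h4 : ((Nat.card G : ℚ) * (1 / (2 * p)) + Nat.card (centralizer ({y} : Set G)) * (1 / (2 * p)) +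
      Nat.card (center G) * (1 - 1 / p)) * (2 * p) =
      Nat.card G + Nat.card (centralizer ({y} : Set G)) + 2 * Nat.card (center G) * (p - 1) := by
    field_simp
  rw [h4] at h3
  have h5 : (0 : ℚ) ≤ Nat.card (center G) := Nat.cast_nonneg _
  have h6 : (2 : ℚ) * Nat.card (center G) * (p - 1) ≤ Nat.card (centralizer ({y} : Set G)) * (p - 1) :=
    mul_le_mul_of_nonneg_right (by nlinarith) (by linarith)
  exact_mod_cast (show (Nat.card (orbitRel.Quotient (MulAut G) G) : ℚ) * p ≤ Nat.card G by linarith)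

end Cfsg.Agent.S4067
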