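import Cfsg.Statements.S4068
import Cfsg.Agent.S1229
import Cfsg.Agent.S1227
import Cfsg.Agent.Cls.SL2Small
import Cfsg.Agent.Fgs.ClassBasic
import Cfsg.Agent.Char.Burnside
import Cfsg.Agent.Grp.PNilp

set_option autoImplicit false
open Cfsg

namespace Cfsg.Agent.S4068

open Subgroup CL.Fgs CL.Grp

section
variable {G : Type*} [Group G] [Finite G]

/-- union bound for the conjugates of the centre of a subgroup -/
theorem count_le (S : Subgroup G) (A : Set G) (h1 : (1 : G) ∉ A)
    (hA : ∀ x ∈ A, ∃ g : G, g * x * g⁻¹ ∈ S ⊓ centralizer (S : Set G)) :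
    (A.ncard + 1) * (S ⊓ centralizer (S : Set G)).relIndex (normalizer (S : Set G)) ≤
      Nat.card G := by
  classical
  set Z := S ⊓ centralizer (S : Set G) with hZ
  set N := normalizer (S : Set G) with hN
  have hZN : Z ≤ N := inf_le_left.trans le_normalizer
  have hconj : ∀ n ∈ N, ∀ z ∈ Z, n⁻¹ * z * n ∈ Z := by
    intro n hn z hz
    have hS : ∀ s, s ∈ S ↔ n * s * n⁻¹ ∈ S := mem_normalizer_iff.1 hn
    refine mem_inf.2 ⟨?_, ?_⟩
    · rw [hS]; simpa [mul_assoc] using (mem_inf.1 hz).1
    · rw [mem_centralizer_iff]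
      intro s hs
      have := (mem_centralizer_iff.1 hz.2) _ ((hS s).1 hs)
      calc s * (n⁻¹ * z * n) = n⁻¹ * ((n * s * n⁻¹) * z) * n := by group
        _ = n⁻¹ * (z * (n * s * n⁻¹)) * n := by rw [this]
        _ = n⁻¹ * z * n * s := by group
  let f : (G ⧸ N) × Z → G := fun cz => cz.1.out * cz.2 * cz.1.out⁻¹
  have hsub : insert 1 A ⊆ Set.range f := by
    intro x hx
    rcases hx with rfl | hx
    · exact ⟨(((1 : G) : G ⧸ N), 1), by simp [f]⟩
    · obtain ⟨g, hg⟩ := hA x hx
      obtain ⟨n, hn⟩ := QuotientGroup.mk_out_eq_mul N g⁻¹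
      refine ⟨(((g⁻¹ : G) : G ⧸ N), ⟨_, hconj n n.2 _ hg⟩), ?_⟩
      simp only [f, hn]; group
  have hle : A.ncard + 1 ≤ N.index * Nat.card Z := by
    rw [← Set.ncard_insert_of_notMem h1 (Set.toFinite _)]
    refine (Set.ncard_le_ncard hsub (Set.toFinite _)).trans ?_
    rw [← Nat.card_coe_set_eq]
    refine (Finite.card_range_le f).trans ?_
    rw [Nat.card_prod]; rfl
  have h2 : Nat.card Z * Z.relIndex N = Nat.card N := by
    rw [relIndex, ← Nat.card_congr (subgroupOfEquivOfLe hZN).toEquiv]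
    exact card_mul_index _
  calc (A.ncard + 1) * Z.relIndex N ≤ N.index * Nat.card Z * Z.relIndex N :=
        Nat.mul_le_mul_right _ hle
    _ = Nat.card G := by rw [mul_assoc, h2, mul_comm, card_mul_index]

omit [Finite G] in
theorem isPGroup_cent (hord : ∀ y : G, y ≠ 1 → (orderOf y).Prime) {s : ℕ} (hs : s.Prime) {x : G}
    (hx : orderOf x = s) : ∀ w ∈ cent(x), w ^ s = 1 := by
  intro w hw
  by_cases hw1 : w = 1
  · simp [hw1]
  by_contra hne
  have hts : orderOf w ≠ s := fun h => hne (h ▸ pow_orderOf_eq_one w)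
  have hcop : (orderOf w).Coprime (orderOf x) := by
    rw [hx]; exact (Nat.coprime_primes (hord w hw1) hs).2 hts
  have hm := (mem_cent.1 hw).orderOf_mul_eq_mul_orderOf_of_coprime hcop
  have hwx : w * x ≠ 1 := by
    intro h
    rw [h, orderOf_one, hx] at hm
    exact hs.ne_one (Nat.eq_one_of_mul_eq_one_left hm.symm)
  have := hord _ hwx
  rw [hm, hx] at this
  exact Nat.not_prime_mul (hord w hw1).ne_one hs.ne_one this

theorem exists_conj_mem_center (hord : ∀ y : G, y ≠ 1 → (orderOf y).Prime)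
    (htr : ∀ y y' : G, orderOf y = orderOf y' → ∃ α : G ≃* G, α y = y')
    {s : ℕ} [hs : Fact s.Prime] (S : Sylow s G) {x : G} (hx : orderOf x = s) :
    ∃ g : G, g * x * g⁻¹ ∈ (S : Subgroup G) ⊓ centralizer ((S : Subgroup G) : Set G) := by
  have hdvd : s ∣ Nat.card G := hx ▸ orderOf_dvd_natCard x
  have hnt : Nontrivial S := by
    rw [← Finite.one_lt_card_iff_nontrivial, S.card_eq_multiplicity]
    refine Nat.one_lt_pow ?_ hs.out.one_lt
    exact (hs.out.factorization_pos_of_dvd Nat.card_pos.ne' hdvd).ne'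
  haveI := IsPGroup.center_nontrivial S.isPGroup'
  obtain ⟨⟨z, hzc⟩, hz1⟩ := exists_ne (1 : center S)
  have hz1' : (z : G) ≠ 1 := fun h => hz1 (Subtype.ext (Subtype.ext h))
  have hzs : orderOf (z : G) = s := by
    obtain ⟨k, hk⟩ := IsPGroup.iff_orderOf.1 S.isPGroup' z
    have hp := hord _ hz1'
    rw [orderOf_coe, hk] at hp
    rw [orderOf_coe, hk, hp.eq_one_of_pow, pow_one]
  have hSz : (S : Subgroup G) ≤ cent((z : G)) := fun w hw =>
    mem_cent.2 (congrArg Subtype.val (mem_center_iff.1 hzc ⟨w, hw⟩))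
  obtain ⟨α, hα⟩ := htr z x (hzs.trans hx.symm)
  have hnd : ¬ s ∣ cs(x) := by
    rw [← hα, cs_map_equiv]; exact not_dvd_index_of_sylow_le S hSz
  obtain ⟨g, hg⟩ := exists_conj_mem_centralizer_of_not_dvd_cs hnd S
  refine ⟨g, ?_, hg⟩
  have hy : orderOf (g * x * g⁻¹) = s := by
    rw [← hx]; exact (MulAut.conj g).orderOf_eq x
  have hpg : IsPGroup s cent(g * x * g⁻¹) := fun w =>
    ⟨1, Subtype.ext (by simpa using isPGroup_cent hord hs.out hy w w.2)⟩
  have hle : (S : Subgroup G) ≤ cent(g * x * g⁻¹) := fun w hw =>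
    mem_cent.2 (mem_centralizer_iff.1 hg w hw)
  rw [← S.is_maximal' hpg hle]
  exact self_mem_cent _

theorem relIndex_ne_one (hns : ¬ Group.IsSolvable G) {s a b : ℕ} [hs : Fact s.Prime]
    (ha : a.Prime) (hb : b.Prime) (h3 : ∀ t : ℕ, t.Prime → t ∣ Nat.card G → t = s ∨ t = a ∨ t = b)
    (S : Sylow s G) :
    ((S : Subgroup G) ⊓ centralizer ((S : Subgroup G) : Set G)).relIndex
      (normalizer ((S : Subgroup G) : Set G)) ≠ 1 := by
  intro h
  have hle := (relIndex_eq_one.1 h).trans inf_le_right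
  have hc := hasNormalPComplement_of_normalizer_le_centralizer S hle
  apply hns
  haveI : Group.IsSolvable (pResidual s G) := by
    refine CL.Char.isSolvable_of_two_primes ha hb fun t ht htd => ?_
    rcases h3 t ht (htd.trans (card_subgroup_dvd_card _)) with rfl | h | h
    · exact absurd htd (hasNormalPComplement_iff_not_dvd_pResidual.1 hc)
    · exact Or.inl h
    · exact Or.inr h
  haveI : Group.IsSolvable (G ⧸ pResidual s G) :=
    haveI := (isPGroup_quotient_pResidual s G).isNilpotent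
    inferInstance
  exact Group.isSolvable_of_ker_le_range (pResidual s G).subtype (QuotientGroup.mk' (pResidual s G))
    (by simp)

theorem bound (hns : ¬ Group.IsSolvable G) (hord : ∀ y : G, y ≠ 1 → (orderOf y).Prime)
    (htr : ∀ y y' : G, orderOf y = orderOf y' → ∃ α : G ≃* G, α y = y') {s a b : ℕ}
    (hs : s.Prime) (ha : a.Prime) (hb : b.Prime)
    (h3 : ∀ t : ℕ, t.Prime → t ∣ Nat.card G → t = s ∨ t = a ∨ t = b) :
    ∃ k : ℕ, 2 ≤ k ∧ k ∣ Nat.card G ∧ ({x : G | orderOf x = s}.ncard + 1) * k ≤ Nat.card G := by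
  haveI := Fact.mk hs
  obtain ⟨S⟩ : Nonempty (Sylow s G) := inferInstance
  refine ⟨_, ?_, ?_, count_le (S : Subgroup G) _ (fun h => hs.ne_one (by simpa using h.symm))
    (fun x hx => exists_conj_mem_center hord htr S hx)⟩
  · have h1 := relIndex_ne_one hns ha hb h3 S
    have h0 : ((S : Subgroup G) ⊓ centralizer ((S : Subgroup G) : Set G)).relIndex
      (normalizer ((S : Subgroup G) : Set G)) ≠ 0 := index_ne_zero_of_finite
    omega
  · exact (index_dvd_card _).trans (card_subgroup_dvd_card _)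

theorem card_le_sum {p q r : ℕ}
    (hord : ∀ y : G, y ≠ 1 → orderOf y = p ∨ orderOf y = q ∨ orderOf y = r) :
    Nat.card G ≤ 1 + {x : G | orderOf x = p}.ncard + {x : G | orderOf x = q}.ncard +
      {x : G | orderOf x = r}.ncard := by
  have hU : (Set.univ : Set G) ⊆ {1} ∪ {x : G | orderOf x = p} ∪ {x : G | orderOf x = q} ∪
      {x : G | orderOf x = r} := by
    intro y _
    by_cases hy : y = 1
    · simp [hy]
    · rcases hord y hy with h | h | h <;> simp [h]
  rw [← Set.ncard_univ]
  refine (Set.ncard_le_ncard hU (Set.toFinite _)).trans ?_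
  refine (Set.ncard_union_le _ _).trans (Nat.add_le_add_right ?_ _)
  refine (Set.ncard_union_le _ _).trans (Nat.add_le_add_right ?_ _)
  refine (Set.ncard_union_le _ _).trans (Nat.add_le_add_right ?_ _)
  simp

/-- in a sharply triply transitive group, few elements have order three -/
theorem count_three {X : Type*} [Finite X] [MulAction G X] {c : ℕ} (hX : Nat.card X = c + 1)
    (hc : 2 ≤ c)
    (h3 : ∀ x₁ x₂ x₃ y₁ y₂ y₃ : X, x₁ ≠ x₂ → x₁ ≠ x₃ → x₂ ≠ x₃ → y₁ ≠ y₂ → y₁ ≠ y₃ → y₂ ≠ y₃ →
      ∃ g : G, g • x₁ = y₁ ∧ g • x₂ = y₂ ∧ g • x₃ = y₃)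
    (hsh : ∀ g : G, ∀ x₁ x₂ x₃ : X, x₁ ≠ x₂ → x₁ ≠ x₃ → x₂ ≠ x₃ → g • x₁ = x₁ → g • x₂ = x₂ →
      g • x₃ = x₃ → g = 1) :
    {x : G | orderOf x = 3}.ncard * (c - 1) ≤ Nat.card G := by
  classical
  haveI := Fintype.ofFinite X
  haveI := Fintype.ofFinite G
  obtain ⟨x₁, x₂, x₃, h12, h13, h23⟩ : ∃ x₁ x₂ x₃ : X, x₁ ≠ x₂ ∧ x₁ ≠ x₃ ∧ x₂ ≠ x₃ := by
    have : 2 < (Finset.univ : Finset X).card := by
      rw [Finset.card_univ, ← Nat.card_eq_fintype_card]; omega
    obtain ⟨a, _, b, _, d, _, h⟩ := Finset.two_lt_card.1 this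
    exact ⟨a, b, d, h⟩
  have hcube : ∀ h : G, orderOf h = 3 → ∀ x : X, h • h • h • x = x := by
    intro h hh x
    have : h ^ 3 = 1 := hh ▸ pow_orderOf_eq_one h
    rw [← mul_smul, ← mul_smul, ← pow_three', this, one_smul]
  have hex : ∀ h : G, orderOf h = 3 → ∀ x : X, h • x ≠ x →
      ∃ g : G, g • x₁ = x ∧ g • x₂ = h • x ∧ g • x₃ = h • h • x := by
    intro h hh x hx
    refine h3 _ _ _ _ _ _ h12 h13 h23 hx.symm ?_ ?_
    · intro e
      apply hx
      have := hcube h hh x
      rw [← e] at this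
      exact this
    · intro e; exact hx ((MulAction.injective h e).symm)
  let P := (Finset.univ : Finset (G × X)).filter fun hx => orderOf hx.1 = 3 ∧ hx.1 • hx.2 ≠ hx.2
  have hP : P.card ≤ Nat.card G := by
    rw [Nat.card_eq_fintype_card, ← Finset.card_univ]
    let φ : G × X → G := fun hx =>
      if H : orderOf hx.1 = 3 ∧ hx.1 • hx.2 ≠ hx.2 then (hex hx.1 H.1 hx.2 H.2).choose else 1
    refine Finset.card_le_card_of_injOn φ (fun _ _ => Finset.mem_univ _) ?_
    rintro ⟨h, x⟩ hm ⟨h', x'⟩ hm' e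
    have H : orderOf h = 3 ∧ h • x ≠ x := (Finset.mem_filter.1 hm).2
    have H' : orderOf h' = 3 ∧ h' • x' ≠ x' := (Finset.mem_filter.1 hm').2
    simp only [φ, dif_pos H, dif_pos H'] at e
    obtain ⟨a1, a2, a3⟩ := (hex h H.1 x H.2).choose_spec
    obtain ⟨b1, b2, b3⟩ := (hex h' H'.1 x' H'.2).choose_spec
    rw [e] at a1 a2 a3
    have hx : x = x' := a1.symm.trans b1
    subst hx
    have e2 : h • x = h' • x := a2.symm.trans b2
    have e3 : h • h • x = h' • h' • x := a3.symm.trans b3
    have : h'⁻¹ * h = 1 := by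
      refine hsh _ x (h • x) (h • h • x) H.2.symm ?_ ?_ ?_ ?_ ?_
      · intro e
        apply H.2
        have := hcube h H.1 x
        rw [← e] at this
        exact this
      · intro e; exact H.2 ((MulAction.injective h e).symm)
      · rw [mul_smul, e2, inv_smul_smul]
      · rw [mul_smul, e3, inv_smul_smul, e2]
      · rw [mul_smul, hcube h H.1, e3, inv_smul_eq_iff, hcube h' H'.1]
    rw [inv_mul_eq_one.1 this]
  have hfib : ∀ h : G, orderOf h = 3 →
      c - 1 ≤ ((Finset.univ : Finset X).filter fun x => h • x ≠ x).card := by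
    intro h hh
    have hfix : ((Finset.univ : Finset X).filter fun x => h • x = x).card ≤ 2 := by
      by_contra hlt
      obtain ⟨a, ha, b, hb, d, hd, hab, had, hbd⟩ := Finset.two_lt_card.1 (not_le.1 hlt)
      have := hsh h a b d hab had hbd (Finset.mem_filter.1 ha).2 (Finset.mem_filter.1 hb).2
        (Finset.mem_filter.1 hd).2
      rw [this, orderOf_one] at hh
      omega
    have := Finset.card_filter_add_card_filter_not (s := (Finset.univ : Finset X))
      (fun x => h • x = x)
    rw [Finset.card_univ, ← Nat.card_eq_fintype_card, hX] at this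
    simp only [ne_eq]
    omega
  refine le_trans ?_ hP
  have hPs : P = ((Finset.univ : Finset G).filter fun h => orderOf h = 3).biUnion fun h =>
      ((Finset.univ : Finset X).filter fun x => h • x ≠ x).image fun x => (h, x) := by
    ext ⟨h, x⟩
    simp [P]
  rw [hPs, Finset.card_biUnion]
  · rw [Set.ncard_eq_toFinset_card', Set.toFinset_ofPred, ← smul_eq_mul, ← Finset.sum_const]
    refine Finset.sum_le_sum fun h hh => ?_
    rw [Finset.card_image_of_injective _ (Prod.mk_right_injective h)]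
    exact hfib h (Finset.mem_filter.1 hh).2
  · intro h _ h' _ hne
    rw [Function.onFun, Finset.disjoint_left]
    intro y hy hy'
    obtain ⟨x, _, rfl⟩ := Finset.mem_image.1 hy
    obtain ⟨x', _, e⟩ := Finset.mem_image.1 hy'
    exact hne (congrArg Prod.fst e).symm

theorem main (hns : ¬ Group.IsSolvable G) {p q r : ℕ} (hp : p.Prime) (hq : q.Prime) (hr : r.Prime)
    (hord : ∀ y : G, y ≠ 1 → orderOf y = p ∨ orderOf y = q ∨ orderOf y = r)
    (htr : ∀ y y' : G, orderOf y = orderOf y' → ∃ α : G ≃* G, α y = y') :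
    Nonempty (G ≃* alternatingGroup (Fin 5)) := by
  classical
  have hpr : ∀ y : G, y ≠ 1 → (orderOf y).Prime := by
    intro y hy
    rcases hord y hy with h | h | h <;> rwa [h]
  have h3 : ∀ t : ℕ, t.Prime → t ∣ Nat.card G → t = p ∨ t = q ∨ t = r := by
    intro t ht htd
    haveI := Fact.mk ht
    obtain ⟨y, hy⟩ := exists_prime_orderOf_dvd_card' t htd
    rw [← hy]
    refine hord y fun h => ?_
    rw [h, orderOf_one] at hy
    exact ht.ne_one hy.symm
  have h2 : 2 ∣ Nat.card G := by
    by_contra hodd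
    obtain ⟨k1, a1, b1, c1⟩ := bound hns hpr htr hp hq hr h3
    obtain ⟨k2, a2, b2, c2⟩ := bound hns hpr htr hq hp hr (fun t ht h => by
      have := h3 t ht h; tauto)
    obtain ⟨k3, a3, b3, c3⟩ := bound hns hpr htr hr hp hq (fun t ht h => by
      have := h3 t ht h; tauto)
    have e1 : 3 ≤ k1 := by
      rcases a1.eq_or_lt with rfl | h
      · exact absurd b1 hodd
      · exact h
    have e2 : 3 ≤ k2 := by
      rcases a2.eq_or_lt with rfl | h
      · exact absurd b2 hodd
      · exact h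
    have e3 : 3 ≤ k3 := by
      rcases a3.eq_or_lt with rfl | h
      · exact absurd b3 hodd
      · exact h
    have f1 := (Nat.mul_le_mul_left _ e1).trans c1
    have f2 := (Nat.mul_le_mul_left _ e2).trans c2
    have f3 := (Nat.mul_le_mul_left _ e3).trans c3
    have := card_le_sum hord
    omega
  obtain ⟨a, b, ha, hb, hab⟩ : ∃ a b : ℕ, a.Prime ∧ b.Prime ∧
      ∀ t : ℕ, t.Prime → t ∣ Nat.card G → t = 2 ∨ t = a ∨ t = b := by
    rcases h3 2 Nat.prime_two h2 with rfl | rfl | rfl
    · exact ⟨q, r, hq, hr, h3⟩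
    · exact ⟨p, r, hp, hr, fun t ht h => by have := h3 t ht h; tauto⟩
    · exact ⟨p, q, hp, hq, fun t ht h => by have := h3 t ht h; tauto⟩
  obtain ⟨T⟩ : Nonempty (Sylow 2 G) := inferInstance
  have hsq : ∀ w ∈ (T : Subgroup G), w ^ 2 = 1 := by
    intro w hw
    by_cases h1 : w = 1
    · simp [h1]
    obtain ⟨k, hk⟩ := IsPGroup.iff_orderOf.1 T.isPGroup' ⟨w, hw⟩
    have hp' := hpr _ h1
    have e : orderOf w = 2 ^ k := by rw [← hk, ← orderOf_coe]
    rw [e] at hp'
    rw [hp'.eq_one_of_pow, pow_one] at e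
    rw [← e]; exact pow_orderOf_eq_one w
  have hcomm : ∀ {H : Subgroup G}, (∀ w ∈ H, w ^ 2 = 1) → ∀ u ∈ H, ∀ v ∈ H, u * v = v * u := by
    intro H hH u hu v hv
    have i : ∀ w ∈ H, w⁻¹ = w := fun w hw =>
      inv_eq_of_mul_eq_one_right (by rw [← pow_two]; exact hH w hw)
    rw [← i _ (H.mul_mem hu hv), mul_inv_rev, i u hu, i v hv]
  have hTC : (T : Subgroup G) ⊓ centralizer ((T : Subgroup G) : Set G) = T :=
    inf_eq_left.2 fun v hv => mem_centralizer_iff.2 fun u hu => hcomm hsq u hu v hv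
  have hrel := relIndex_ne_one hns ha hb hab T
  have hC : ∀ t : G, orderOf t = 2 → IsMulCommutative (Subgroup.centralizer ({t} : Set G)) ∧
      ∀ c ∈ Subgroup.centralizer ({t} : Set G), c ^ 2 = 1 := by
    intro t ht
    have := isPGroup_cent hpr Nat.prime_two ht
    exact ⟨⟨⟨fun u v => Subtype.ext (hcomm this u u.2 v v.2)⟩⟩, this⟩
  have hnc : ¬ IsCyclic (T : Subgroup G) := by
    intro hcyc
    have hmin : (Nat.card G).minFac = 2 := (Nat.minFac_eq_two_iff _).2 h2
    have := IsCyclic.normalizer_le_centralizer hmin hcyc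
    apply hrel
    rw [relIndex_eq_one]
    have hle : normalizer ((T : Subgroup G) : Set G) ≤ centralizer ((T : Subgroup G) : Set G) :=
      this
    refine le_inf ?_ hle
    obtain ⟨t, ht⟩ := exists_prime_orderOf_dvd_card' 2
      (show 2 ∣ Nat.card T from T.dvd_card_of_dvd_card h2)
    have ht' : orderOf (t : G) = 2 := by rw [orderOf_coe, ht]
    have hpg : IsPGroup 2 cent((t : G)) := fun w =>
      ⟨1, Subtype.ext (by simpa using isPGroup_cent hpr Nat.prime_two ht' w w.2)⟩
    have hle2 : (T : Subgroup G) ≤ cent((t : G)) := fun w hw =>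
      mem_cent.2 (hcomm hsq w hw t t.2)
    have e := T.is_maximal' hpg hle2
    exact (hle.trans (centralizer_le (Set.singleton_subset_iff.2 t.2))).trans e.le
  have hnn : ¬ (T : Subgroup G).Normal := by
    intro hN
    apply hns
    haveI : Group.IsSolvable (T : Subgroup G) :=
      haveI := T.isPGroup'.isNilpotent
      inferInstance
    haveI : Group.IsSolvable (G ⧸ (T : Subgroup G)) := by
      refine CL.Char.isSolvable_of_two_primes ha hb fun t ht htd => ?_
      rcases hab t ht (htd.trans (card_quotient_dvd_card _)) with rfl | h | h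
      · exact absurd htd T.not_dvd_index
      · exact Or.inl h
      · exact Or.inr h
    exact Group.isSolvable_of_ker_le_range (T : Subgroup G).subtype
      (QuotientGroup.mk' (T : Subgroup G)) (by simp)
  obtain ⟨u, hu, huH⟩ : ∃ u : G, orderOf u = 2 ∧
      u ∉ normalizer ((T : Subgroup G) : Set G) := by
    by_contra hall
    push Not at hall
    apply hnn
    refine ⟨fun n hn g => ?_⟩
    by_cases h1 : n = 1
    · simp [h1]
    have ho : orderOf (g * n * g⁻¹) = 2 := by
      rw [show orderOf (g * n * g⁻¹) = orderOf n from (MulAut.conj g).orderOf_eq n]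
      exact orderOf_eq_prime (hsq n hn) h1
    have hpg : IsPGroup 2 (zpowers (g * n * g⁻¹)) :=
      IsPGroup.of_card (n := 1) (by rw [Nat.card_zpowers, ho, pow_one])
    have := hpg.inf_normalizer_sylow T
    have hm : g * n * g⁻¹ ∈ zpowers (g * n * g⁻¹) ⊓ normalizer ((T : Subgroup G) : Set G) :=
      ⟨mem_zpowers _, hall _ ho⟩
    exact (this.le hm).2
  obtain ⟨-, hH, -⟩ := Cfsg.Agent.S1227.result T hnc hnn hC u hu huH
  obtain ⟨t3, tsh, treg⟩ := Cfsg.Agent.S1229.result T hnc hnn hC
  set H := normalizer ((T : Subgroup G) : Set G) with hHdef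
  set c := Nat.card T with hcdef
  have hX : Nat.card (G ⧸ H) = c + 1 := by
    have hu1 : ((u : G) : G ⧸ H) ≠ QuotientGroup.mk 1 := by
      intro e
      exact huH (by simpa using QuotientGroup.eq.1 e.symm)
    have hTH : (T : Subgroup G) ≤ H := le_normalizer
    let f : Option T → G ⧸ H := fun o => o.elim (QuotientGroup.mk 1) fun t => (t : G) • (u : G ⧸ H)
    have hne : ∀ t : T, (t : G) • (u : G ⧸ H) ≠ QuotientGroup.mk 1 := by
      intro t e
      apply hu1
      rw [smul_eq_iff_eq_inv_smul] at e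
      rw [e, MulAction.Quotient.smul_mk, QuotientGroup.eq]
      simpa using hTH t.2
    have hf : Function.Bijective f := by
      constructor
      · rintro (_ | t) (_ | t') e
        · rfl
        · exact absurd e.symm (hne t')
        · exact absurd e (hne t)
        · obtain ⟨w, -, hw⟩ := treg _ _ hu1 (hne t)
          have e1 := hw t ⟨t.2, rfl⟩
          have e2 := hw t' ⟨t'.2, Eq.symm e⟩
          exact congrArg some (Subtype.ext (e1.trans e2.symm))
      · intro y
        by_cases hy : y = QuotientGroup.mk 1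
        · exact ⟨none, hy.symm⟩
        · obtain ⟨w, ⟨hw, e⟩, -⟩ := treg _ _ hu1 hy
          exact ⟨some ⟨w, hw⟩, e⟩
    rw [← Nat.card_eq_of_bijective f hf, Finite.card_option]
  have hG : Nat.card G = (c + 1) * (c * (c - 1)) := by
    rw [← hX, ← hH, ← card_eq_card_quotient_mul_card_subgroup]
  obtain ⟨m, hm⟩ := IsPGroup.iff_card.1 T.isPGroup'
  have hcm : c = 2 ^ m := hm
  have hk : (T : Subgroup G).relIndex H = c - 1 := by
    have h2' : Nat.card T * (T : Subgroup G).relIndex H = Nat.card H := by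
      rw [relIndex, ← Nat.card_congr (subgroupOfEquivOfLe (le_normalizer (H := (T : Subgroup G)))).toEquiv]
      exact card_mul_index _
    rw [hH] at h2'
    exact Nat.eq_of_mul_eq_mul_left Nat.card_pos h2'
  rw [hTC, hk] at hrel
  have hpos : 0 < Nat.card G := Nat.card_pos
  have hm2 : 2 ≤ m := by
    by_contra hlt
    have : m = 0 ∨ m = 1 := by omega
    rcases this with rfl | rfl
    · rw [hG, hcm] at hpos; simp at hpos
    · rw [hcm] at hrel; simp at hrel
  have hc4 : 4 ≤ c := by
    rw [hcm]; exact Nat.pow_le_pow_right (n := 2) (by norm_num) hm2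
  have hd3 : 3 ∣ Nat.card G := by
    rw [hG]
    have : (c - 1) % 3 = 0 ∨ c % 3 = 0 ∨ (c + 1) % 3 = 0 := by omega
    rcases this with h | h | h
    · exact Dvd.dvd.mul_left (Dvd.dvd.mul_left (by omega) _) _
    · exact Dvd.dvd.mul_left (Dvd.dvd.mul_right (by omega) _) _
    · exact Dvd.dvd.mul_right (by omega) _
  obtain ⟨e, he, hbe⟩ : ∃ e : ℕ, e.Prime ∧
      ∀ t : ℕ, t.Prime → t ∣ Nat.card G → t = 2 ∨ t = 3 ∨ t = e := by
    rcases hab 3 Nat.prime_three hd3 with h | rfl | rfl
    · omega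
    · exact ⟨b, hb, hab⟩
    · exact ⟨a, ha, fun t ht h => by have := hab t ht h; tauto⟩
  have hc : c = 4 := by
    by_contra hne
    have hc8 : 8 ≤ c := by
      have : 3 ≤ m := by
        by_contra hlt
        have : m = 2 := by omega
        subst this
        exact hne hcm
      rw [hcm]; exact Nat.pow_le_pow_right (n := 2) (by norm_num) this
    have f1 := count_le (T : Subgroup G) {x : G | orderOf x = 2} (by simp)
      (fun x hx => exists_conj_mem_center hpr htr T hx)
    rw [hTC, ← hHdef, hk] at f1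
    have f2 := count_three hX (by omega) t3 tsh
    obtain ⟨k, a1, -, f3⟩ := bound hns hpr htr he Nat.prime_two Nat.prime_three (fun t ht h => by
      have := hbe t ht h; tauto)
    have g1 := (Nat.mul_le_mul_left _ (show 7 ≤ c - 1 by omega)).trans f1
    have g2 := (Nat.mul_le_mul_left _ (show 7 ≤ c - 1 by omega)).trans f2
    have g3 := (Nat.mul_le_mul_left _ a1).trans f3
    have := card_le_sum (G := G) (p := 2) (q := 3) (r := e) fun y hy =>
      hbe _ (hpr y hy) (orderOf_dvd_natCard y)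
    omega
  have h60 : Nat.card G = 60 := by rw [hG, hc]
  refine CL.SL2.nonempty_alt_five h60 fun g => ?_
  by_cases h1 : g = 1
  · simp [h1]
  have hp' := hpr g h1
  have hd : orderOf g ∣ 2 ^ 2 * 3 * 5 := by
    have := orderOf_dvd_natCard g
    rwa [h60] at this
  rcases (Nat.Prime.dvd_mul hp').1 hd with h | h
  · rcases (Nat.Prime.dvd_mul hp').1 h with h | h
    · exact Or.inl (orderOf_dvd_iff_pow_eq_one.1 (hp'.dvd_of_dvd_pow h))
    · exact Or.inr (Or.inl (orderOf_dvd_iff_pow_eq_one.1 h))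
  · exact Or.inr (Or.inr (orderOf_dvd_iff_pow_eq_one.1 h))

end

/-- A finite non-solvable group on which its automorphism group has exactly four orbits is isomorphic to the alternating group of degree 5. -/
theorem result {G : Type*} [Group G] [Finite G] (hns : ¬ Group.IsSolvable G)
    (h4 : Nat.card (MulAction.orbitRel.Quotient (MulAut G) G) = 4) : Nonempty (G ≃* alternatingGroup (Fin 5)) := by
  classical
  obtain ⟨p, q, r, hp, hq, hr, hpd, hqd, hrd, hpq, hpr, hqr⟩ : ∃ p q r : ℕ, p.Prime ∧ q.Prime ∧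
      r.Prime ∧ p ∣ Nat.card G ∧ q ∣ Nat.card G ∧ r ∣ Nat.card G ∧ p ≠ q ∧ p ≠ r ∧ q ≠ r := by
    by_contra hall
    push Not at hall
    apply hns
    by_cases h1 : ∃ p : ℕ, p.Prime ∧ p ∣ Nat.card G
    · obtain ⟨p, hp, hpd⟩ := h1
      by_cases h2 : ∃ q : ℕ, q.Prime ∧ q ∣ Nat.card G ∧ p ≠ q
      · obtain ⟨q, hq, hqd, hpq⟩ := h2
        refine CL.Char.isSolvable_of_two_primes hp hq fun t ht htd => ?_
        by_cases hpt : p = t
        · exact Or.inl hpt.symm
        · exact Or.inr (hall p q t hp hq ht hpd hqd htd hpq hpt).symm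
      · push Not at h2
        exact CL.Char.isSolvable_of_two_primes hp hp fun t ht htd => Or.inl (h2 t ht htd).symm
    · push Not at h1
      exact CL.Char.isSolvable_of_two_primes Nat.prime_two Nat.prime_two fun t ht htd =>
        absurd htd (h1 t ht)
  haveI := Fact.mk hp
  haveI := Fact.mk hq
  haveI := Fact.mk hr
  obtain ⟨x, hx⟩ := exists_prime_orderOf_dvd_card' p hpd
  obtain ⟨y, hy⟩ := exists_prime_orderOf_dvd_card' q hqd
  obtain ⟨z, hz⟩ := exists_prime_orderOf_dvd_card' r hrd
  let cl : G → MulAction.orbitRel.Quotient (MulAut G) G := fun g => Quotient.mk _ g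
  have hcl : ∀ g h : G, cl g = cl h → ∃ α : G ≃* G, α h = g := by
    intro g h e
    obtain ⟨α, hα⟩ := MulAction.orbitRel_apply.1 (Quotient.exact e)
    exact ⟨α, hα⟩
  have hco : ∀ g h : G, cl g = cl h → orderOf g = orderOf h := by
    intro g h e
    obtain ⟨α, rfl⟩ := hcl g h e
    exact α.orderOf_eq h
  haveI : Fintype (MulAction.orbitRel.Quotient (MulAut G) G) := Fintype.ofFinite _
  have hall : ∀ g : G, cl g = cl 1 ∨ cl g = cl x ∨ cl g = cl y ∨ cl g = cl z := by
    intro g
    have n1 : cl 1 ≠ cl x := fun e => hp.ne_one (by rw [← hx, ← hco _ _ e, orderOf_one])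
    have n2 : cl 1 ≠ cl y := fun e => hq.ne_one (by rw [← hy, ← hco _ _ e, orderOf_one])
    have n3 : cl 1 ≠ cl z := fun e => hr.ne_one (by rw [← hz, ← hco _ _ e, orderOf_one])
    have n4 : cl x ≠ cl y := fun e => hpq (by rw [← hx, ← hy, hco _ _ e])
    have n5 : cl x ≠ cl z := fun e => hpr (by rw [← hx, ← hz, hco _ _ e])
    have n6 : cl y ≠ cl z := fun e => hqr (by rw [← hy, ← hz, hco _ _ e])
    have hcard : ({cl 1, cl x, cl y, cl z} : Finset _).card = 4 := by
      rw [Finset.card_insert_of_notMem (by simp [n1, n2, n3]),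
        Finset.card_insert_of_notMem (by simp [n4, n5]), Finset.card_pair n6]
    have hu : ({cl 1, cl x, cl y, cl z} : Finset _) = Finset.univ :=
      Finset.eq_univ_of_card _ (by rw [hcard, ← Nat.card_eq_fintype_card, h4])
    have : cl g ∈ ({cl 1, cl x, cl y, cl z} : Finset _) := hu ▸ Finset.mem_univ _
    simpa using this
  refine main hns hp hq hr (fun g hg => ?_) (fun g h e => ?_)
  · rcases hall g with e | e | e | e
    · exact absurd (orderOf_eq_one_iff.1 (by rw [hco _ _ e, orderOf_one])) hg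
    · exact Or.inl ((hco _ _ e).trans hx)
    · exact Or.inr (Or.inl ((hco _ _ e).trans hy))
    · exact Or.inr (Or.inr ((hco _ _ e).trans hz))
  · apply hcl
    have o1 := hp.ne_one
    have o2 := hq.ne_one
    have o3 := hr.ne_one
    rcases hall g with a | a | a | a <;> rcases hall h with b | b | b | b <;>
      first
        | exact b.trans a.symm
        | (exfalso
           have a' := hco _ _ a
           have b' := hco _ _ b
           simp only [orderOf_one, hx, hy, hz] at a' b'
           omega)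


end Cfsg.Agent.S4068
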