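import Cfsg.Statements.S4070
import Cfsg.Agent.Fgs.VcMain
import Cfsg.Agent.Fgs.VcMid
import Cfsg.Agent.Fgs.VcBig
import Cfsg.Agent.Fgs.VcOdd

set_option autoImplicit false
open Cfsg

namespace Cfsg.Agent.S4070

/-- Let G be a finite solvable group acting faithfully by additive automorphisms on a finite vector space V over the field with p elements, completely reducibly (every G-invariant subspace has a G-invariant complement). Then some vector v ∈ V has stabilizer C_G(v) of derived length at most 9; and if both #G and p are odd, some vector has abelian stabilizer. -/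
theorem result {G V : Type*} [Group G] [Finite G] [Group.IsSolvable G]
    {p : ℕ} [Fact p.Prime] [AddCommGroup V] [Module (ZMod p) V] [Finite V] [DistribMulAction G V] [FaithfulSMul G V]
    (hcr : ∀ W : Submodule (ZMod p) V, (∀ (g : G) (w : V), w ∈ W → g • w ∈ W) →
      ∃ W' : Submodule (ZMod p) V, (∀ (g : G) (w : V), w ∈ W' → g • w ∈ W') ∧ IsCompl W W') :
    (∃ v : V, derivedSeries ↥(MulAction.stabilizer G v) 9 = ⊥) ∧
    (Odd (Nat.card G) → p ≠ 2 → ∃ v : V, IsMulCommutative ↥(MulAction.stabilizer G v)) := by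
  exact CL.SL.Vc.s4070_of (CL.SL.Vc.midThm (CL.SL.Vc.idxThm CL.SL.Vc.affThm CL.SL.Vc.dlThm)) CL.SL.Vc.bigThm
    (CL.SL.Vc.oddThm CL.SL.Vc.abThm) hcr

end Cfsg.Agent.S4070
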