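import Cfsg.Statements.S4071
import Cfsg.Agent.Grp.PNilpFrob
import Cfsg.Agent.Grp.Coprime
import Cfsg.Agent.Grp.PGroupBasic
import Cfsg.Agent.Grp.Schmidt
import Cfsg.Agent.Odd.BG1a

set_option autoImplicit false
open Cfsg
open scoped Pointwise

namespace Cfsg.Agent.S4071

open CL.Grp CL.Odd in
theorem prime_index {G : Type*} [Group G] [Finite G] [Group.IsSolvable G] [Nontrivial G] :
    ∃ M : Subgroup G, M.Normal ∧ M.index.Prime := by
  obtain ⟨M, hM, hle⟩ := (eq_top_or_exists_le_coatom (commutator G)).resolve_left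
    (Group.IsSolvable.commutator_lt_top_of_nontrivial G).ne
  have hn : M.Normal := Subgroup.Normal.of_commutator_le _ hle
  obtain ⟨p, hp, hd⟩ := Nat.exists_prime_and_dvd (mt Subgroup.index_eq_one.1 hM.1)
  have := Fact.mk hp
  obtain ⟨x, ho⟩ := exists_prime_orderOf_dvd_card' (G := G ⧸ M) p hd
  obtain ⟨y, rfl⟩ := QuotientGroup.mk'_surjective M x
  have hy : y ∉ M := fun e => hp.one_lt.ne (by
    rw [← ho, show QuotientGroup.mk' M y = 1 from (QuotientGroup.eq_one_iff y).2 e, orderOf_one])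
  have hs : Subgroup.zpowers y ⊔ M = ⊤ := sup_eq_top_of_isCoatom hM fun e => hy (Subgroup.zpowers_le.1 e)
  refine ⟨M, hn, ?_⟩
  rw [Subgroup.index, ← Subgroup.card_top, ← Subgroup.map_top_of_surjective _ (QuotientGroup.mk'_surjective M), ← hs,
    Subgroup.map_sup, (Subgroup.map_eq_bot_iff M).2 (QuotientGroup.ker_mk' M).ge, sup_bot_eq, MonoidHom.map_zpowers,
    Nat.card_zpowers, ho]
  exact hp

open CL.Grp CL.Odd commutatorElement in
theorem back {G : Type*} [Group G] [Finite G] {x : G} {A H : Subgroup G} [A.Normal] (hA : IsMulCommutative A)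
    (hs : A ⊔ Subgroup.zpowers x = ⊤) (hf : ∀ a ∈ A, a ≠ 1 → x * a * x⁻¹ ≠ a) (hx : x ∈ H) : N[H] = H := by
  refine le_antisymm (fun g hg => ?_) Subgroup.le_normalizer
  obtain ⟨a, ha, y, hy, rfl⟩ := (mem_sup_of_le_normalizer' Subgroup.le_normalizer_of_normal).1 (hs ▸ Subgroup.mem_top g)
  have hyH : y ∈ H := Subgroup.zpowers_le.2 hx hy
  refine H.mul_mem ?_ hyH
  have haN : a ∈ N[H] := (Subgroup.mul_mem_cancel_right _ (Subgroup.le_normalizer hyH)).1 hg
  have hm : ∀ b ∈ A, b ∈ N[H] → b * x * b⁻¹ * x⁻¹ ∈ A ⊓ H := fun b hb hn =>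
    ⟨by rw [mul_assoc, mul_assoc, ← mul_assoc x]
        exact A.mul_mem hb (Subgroup.Normal.conj_mem inferInstance _ (A.inv_mem hb) x),
      H.mul_mem ((Subgroup.mem_normalizer_iff.1 hn x).1 hx) (H.inv_mem hx)⟩
  have hinj : ∀ b ∈ A, ∀ c ∈ A, b * x * b⁻¹ * x⁻¹ = c * x * c⁻¹ * x⁻¹ → b = c := fun b hb c hc e => by
    by_contra h
    refine hf (c⁻¹ * b) (A.mul_mem (A.inv_mem hc) hb) (fun e' => h (inv_mul_eq_one.1 e').symm) ?_
    have e2 := mul_right_cancel e
    calc x * (c⁻¹ * b) * x⁻¹ = c⁻¹ * (c * x * c⁻¹) * b * x⁻¹ := by group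
      _ = c⁻¹ * b := by rw [← e2]; group
  obtain ⟨b, hb⟩ := Finite.surjective_of_injective (f := fun b : ↥(A ⊓ H) =>
    (⟨_, hm b b.2.1 (Subgroup.le_normalizer b.2.2)⟩ : ↥(A ⊓ H)))
    (fun b c e => Subtype.ext (hinj _ b.2.1 _ c.2.1 (congrArg Subtype.val e))) ⟨_, hm a ha haN⟩
  exact hinj _ b.2.1 _ ha (congrArg Subtype.val hb) ▸ b.2.2

/-- Let G be a finite solvable non-nilpotent group. Every non-abelian subgroup of G is self-normalizing if and only if G is a semidirect product ⟨x⟩ ⋉ A in which ⟨x⟩ is a p-group for some prime p, A is a normal abelian subgroup of order prime to p, x^p is central in G, and x acts fixed-point-freely on A (no non-identity element of A commutes with x). -/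
theorem result {G : Type*} [Group G] [Finite G]
    [Group.IsSolvable G] (hnn : ¬ Group.IsNilpotent G) :
    (∀ H : Subgroup G, ¬ IsMulCommutative H → Subgroup.normalizer (H : Set G) = H) ↔
    ∃ (x : G) (A : Subgroup G) (p : ℕ), p.Prime ∧ A.Normal ∧ IsMulCommutative A ∧ (∃ k : ℕ, orderOf x = p ^ k) ∧
      ¬ p ∣ Nat.card A ∧ (Subgroup.zpowers x).IsComplement' A ∧ x ^ p ∈ Subgroup.center G ∧
      ∀ a : G, a ∈ A → a ≠ 1 → x * a * x⁻¹ ≠ a := by
  open CL.Grp CL.Odd in
  constructor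
  · intro hS
    have : Nontrivial G := not_subsingleton_iff_nontrivial.1 fun _ => hnn inferInstance
    obtain ⟨M, _, hp⟩ := prime_index (G := G)
    have hM := isCoatom_of_index_prime hp
    obtain ⟨p, hpM⟩ : ∃ p, M.index = p := ⟨_, rfl⟩
    rw [hpM] at hp
    have := Fact.mk hp
    have hab : IsMulCommutative M := by
      by_contra h1
      exact hM.1 ((hS M h1).symm.trans (Subgroup.normalizer_eq_top M))
    have hAM : pResidual p G ≤ M := pResidual_le_of_index_eq_pow (k := 1) (by rw [hpM, pow_one])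
    have hpn : HasNormalPComplement p G := hasNormalPComplement_iff_mul.2 fun a b ha hb =>
      Nat.Coprime.coprime_dvd_left (Commute.orderOf_mul_dvd_mul_orderOf (congrArg Subtype.val
        (hab.is_comm.comm ⟨a, hAM (mem_pResidual_of_coprime ha)⟩ ⟨b, hAM (mem_pResidual_of_coprime hb)⟩) :))
        (Nat.Coprime.mul_left ha hb)
    obtain ⟨y, hy⟩ : ∃ y, y ∉ M := by
      by_contra h
      push Not at h
      exact hM.1 (eq_top_iff.2 fun y _ => h y)
    obtain ⟨x, -, b, -, ⟨k, hk⟩, hb, rfl, -⟩ := exists_pPart_mul_pPrimePart hp y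
    have hx : x ∉ M := fun e => hy (M.mul_mem e (hAM (mem_pResidual_of_coprime hb)))
    have hs : Subgroup.zpowers x ⊔ M = ⊤ := sup_eq_top_of_isCoatom hM fun e => hx (Subgroup.zpowers_le.1 e)
    have hcen : ∀ a ∈ M, x ∈ C1[a] → a ∈ Subgroup.center G := fun a ha h => Subgroup.mem_center_iff.2 fun g =>
      mem_c1.1 ((show ⊤ ≤ C1[a] from hs ▸ sup_le (Subgroup.zpowers_le.2 h) fun c hc =>
        mem_c1.2 (congrArg Subtype.val (hab.is_comm.comm ⟨c, hc⟩ ⟨a, ha⟩))) (Subgroup.mem_top g))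
    set A := pResidual p G
    have hA : IsMulCommutative A := ⟨⟨fun a b => Subtype.ext
      (congrArg Subtype.val (hab.is_comm.comm ⟨a, hAM a.2⟩ ⟨b, hAM b.2⟩) :)⟩⟩
    have hX : IsPGroup p (Subgroup.zpowers x) := IsPGroup.of_card ((Nat.card_zpowers x).trans hk)
    have hcop : (Nat.card (Subgroup.zpowers x)).Coprime (Nat.card A) := by
      rw [Nat.card_zpowers, hk]
      exact (hasNormalPComplement_iff_coprime_pResidual.1 hpn).symm.pow_left k
    have hnc : ⁅A, Subgroup.zpowers x⁆ ≠ ⊥ := fun e => hnn (by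
      have := (isPGroup_quotient_pResidual p G).isNilpotent
      refine Subgroup.isNilpotent_of_ker_le_center (QuotientGroup.mk' A) ?_
      rw [QuotientGroup.ker_mk']
      exact fun a ha => hcen a (hAM ha) (mem_c1.2 (Subgroup.commutator_eq_bot_iff_le_centralizer.1 e ha x
        (Subgroup.mem_zpowers x))))
    have hna : ∀ B, ⁅A, Subgroup.zpowers x⁆ ≤ B → ¬ IsMulCommutative ↥(B ⊔ Subgroup.zpowers x) := fun B hB e =>
      hnc (commutator_eq_bot_of_commutator_commutator_eq_bot Subgroup.le_normalizer_of_normal hcop (Or.inl inferInstance)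
        (eq_bot_iff.2 ((Subgroup.commutator_mono (hB.trans le_sup_left) le_sup_right).trans
          (Subgroup.commutator_self_eq_bot_iff.2 e).le)))
    obtain ⟨P, hP⟩ := hX.exists_le_sylow
    have hc := HasNormalPComplement.isComplement' hpn P
    have hPx : Subgroup.zpowers x = P := by
      by_contra h
      refine (lt_inf_normalizer_of_isPGroup P.isPGroup' (lt_of_le_of_ne hP h)).not_ge fun u hu => ?_
      have h1 : u ∈ N[A ⊔ Subgroup.zpowers x] := le_normalizer_sup' (A := Subgroup.zpowers u)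
        Subgroup.le_normalizer_of_normal (Subgroup.zpowers_le.2 hu.2) (Subgroup.mem_zpowers u)
      rw [hS _ (hna A (Subgroup.commutator_le_left _ _))] at h1
      have h2 : u ∈ (Subgroup.zpowers x ⊔ A) ⊓ P := ⟨sup_comm A _ ▸ h1, hu.1⟩
      rwa [dedekind_left Subgroup.le_normalizer_of_normal hP, hc.disjoint.eq_bot, sup_bot_eq] at h2
    refine ⟨x, A, p, hp, inferInstance, hA, ⟨k, hk⟩, hasNormalPComplement_iff_not_dvd_pResidual.1 hpn,
      hPx ▸ hc.symm, hcen _ (hpM ▸ M.pow_index_mem x) (mem_c1.2 (Commute.self_pow x p)), fun a ha h1 e => h1 ?_⟩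
    have h2 := hcen a (hAM ha) (mem_c1_iff_conj.2 e)
    have h3 : a ∈ (⁅A, Subgroup.zpowers x⁆ ⊔ Subgroup.zpowers x) ⊓ A :=
      ⟨hS _ (hna _ le_rfl) ▸ Subgroup.center_le_normalizer _ h2, ha⟩
    rw [dedekind_right (right_le_norm_comm _ _) (Subgroup.commutator_le_left _ _),
      (Subgroup.disjoint_of_coprime_natCard hcop).eq_bot, sup_bot_eq] at h3
    rw [← Subgroup.mem_bot, ← coprime_abel_cent_TI Subgroup.le_normalizer_of_normal hcop hA]
    exact ⟨h3, Subgroup.center_le_centralizer _ h2⟩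
  · rintro ⟨x, A, p, hp, _, hA, ⟨k, hk⟩, hpA, hc, hz, hf⟩ H hH
    have := Fact.mk hp
    have hX : IsPGroup p (Subgroup.zpowers x) := IsPGroup.of_card ((Nat.card_zpowers x).trans hk)
    have hS : IsSylowIn p (Subgroup.zpowers x) ⊤ := ⟨le_top, hX, by rwa [Subgroup.relIndex_top_right, hc.symm.index_eq_card]⟩
    have hZ := Subgroup.zpowers_le.2 hz
    have := normal_of_le_center' hZ
    have hM : IsMulCommutative ↥(A ⊔ Subgroup.zpowers (x ^ p)) := by
      refine Subgroup.commutator_self_eq_bot_iff.1 (Subgroup.commutator_eq_bot_iff_le_centralizer.2 (sup_le ?_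
        (hZ.trans (Subgroup.center_le_centralizer _))))
      exact Subgroup.le_centralizer_iff.1 (sup_le (Subgroup.le_centralizer A)
        (hZ.trans (Subgroup.center_le_centralizer _)))
    obtain ⟨h, hh, hhM⟩ : ∃ h ∈ H, h ∉ A ⊔ Subgroup.zpowers (x ^ p) := by
      by_contra h
      push Not at h
      exact hH ⟨⟨fun a b => Subtype.ext (congrArg Subtype.val (hM.is_comm.comm ⟨a, h a a.2⟩ ⟨b, h b b.2⟩) :)⟩⟩
    obtain ⟨y, hy, b, -, ⟨j, hj⟩, hb, rfl, -⟩ := exists_pPart_mul_pPrimePart hp h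
    have hbA : b ∈ A := pResidual_le_of_index_eq_pow (k := k) (by rw [hc.index_eq_card, Nat.card_zpowers, hk])
      (mem_pResidual_of_coprime hb)
    have hyM : y ∉ A ⊔ Subgroup.zpowers (x ^ p) := fun e => hhM (Subgroup.mul_mem _ e (Subgroup.mem_sup_left hbA))
    obtain ⟨g, -, hg⟩ := hS.exists_conj_le (U := Subgroup.zpowers y) (IsPGroup.of_card ((Nat.card_zpowers y).trans hj)) le_top
    obtain ⟨i, hi⟩ := (mem_powers_iff_mem_zpowers).2 (hg (conj_mem_cj.2 (Subgroup.mem_zpowers y)))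
    simp only at hi
    have hpi : ¬ p ∣ i := fun ⟨m, e⟩ => hyM (by
      rw [← conj_mem_cj (g := g), cj_eq_self (Subgroup.le_normalizer_of_normal (Subgroup.mem_top g)), ← hi, e, pow_mul]
      exact Subgroup.mem_sup_right (Subgroup.pow_mem _ (Subgroup.mem_zpowers _) m))
    have hxH : x ∈ cj g • H := by
      have h1 : x ^ i ∈ cj g • H := hi ▸ conj_mem_cj.2 (Subgroup.zpowers_le.2 hh hy)
      exact Subgroup.zpowers_le.2 h1 (mem_zpowers_pow_iff.2
        (hk ▸ (((Nat.Prime.coprime_iff_not_dvd hp).2 hpi).symm.pow_right k)))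
    exact cj_inj.1 ((cj_normalizer g H).trans (back hA (by rw [sup_comm]; exact hc.sup_eq_top) hf hxH))

end Cfsg.Agent.S4071
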