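import Cfsg.Statements.S4072
import Cfsg.Agent.Grp.PNilpFrob
import Cfsg.Agent.Grp.Comm1
import Cfsg.Agent.Grp.Frattini
import Cfsg.Agent.Grp.PGroupFrattini
import Cfsg.Agent.Odd.BG1a
import Cfsg.Agent.Transfer.Control

set_option autoImplicit false
open Cfsg

namespace Cfsg.Agent.S4072

open CL.Grp CL.Odd commutatorElement in
theorem minNonab {X : Type*} [Group X] [Finite X] {p : ℕ} [Fact p.Prime] (hX : IsPGroup p X)
    (hn : ¬ IsMulCommutative X) (h : ∀ H : Subgroup X, ¬ IsMulCommutative H → H = ⊤) :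
    ∃ c : X, c ^ p = 1 ∧ commutator X ≤ Subgroup.zpowers c := by
  have hΦ : frattini X ≤ Subgroup.center X := fun z hz => Subgroup.mem_center_iff.2 fun x => by
    have h1 : IsMulCommutative ↥(frattini X ⊔ Subgroup.zpowers x) := by
      by_contra h2
      have h3 := eq_top_of_sup_eq_top_of_le_frattini le_rfl (h _ h2)
      exact hn ⟨⟨fun a b => congrArg Subtype.val ((inferInstance : IsMulCommutative (Subgroup.zpowers x)).is_comm.comm
        ⟨a, h3 ▸ Subgroup.mem_top a⟩ ⟨b, h3 ▸ Subgroup.mem_top b⟩)⟩⟩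
    exact congrArg Subtype.val (h1.is_comm.comm ⟨x, Subgroup.mem_sup_right (Subgroup.mem_zpowers x)⟩
      ⟨z, Subgroup.mem_sup_left hz⟩)
  obtain ⟨x, y, hxy⟩ : ∃ x y : X, x * y ≠ y * x := by
    by_contra h1
    push Not at h1
    exact hn ⟨⟨h1⟩⟩
  have hc : ⁅x, y⁆ ∈ Subgroup.center X :=
    hΦ (commutator_le_frattini hX (Subgroup.commutator_mem_commutator (Subgroup.mem_top x) (Subgroup.mem_top y)))
  have ht : Subgroup.zpowers x ⊔ Subgroup.zpowers y = ⊤ := h _ fun e => hxy (congrArg Subtype.val (e.is_comm.comm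
    ⟨x, Subgroup.mem_sup_left (Subgroup.mem_zpowers x)⟩ ⟨y, Subgroup.mem_sup_right (Subgroup.mem_zpowers y)⟩))
  refine ⟨⁅x, y⁆, ?_, ?_⟩
  · rw [← comm_pow_left_of_central hc, commutatorElement_eq_one_iff_mul_comm]
    exact (Subgroup.mem_center_iff.1 (hΦ (pow_mem_frattini hX x)) y).symm
  have := normal_of_le_center' (Subgroup.zpowers_le.2 hc)
  set f := QuotientGroup.mk' (Subgroup.zpowers ⁅x, y⁆)
  have h1 : ∀ w, f x ∈ C1[w] → f y ∈ C1[w] → ∀ a, f a ∈ C1[w] := fun w h1 h2 a =>
    (show ⊤ ≤ C1[w].comap f from ht ▸ sup_le (Subgroup.zpowers_le.2 h1) (Subgroup.zpowers_le.2 h2)) (Subgroup.mem_top a)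
  have h2 : f x ∈ C1[f y] := mem_c1.2 (commutatorElement_eq_one_iff_mul_comm.1 (by
    rw [← map_commutatorElement]; exact (QuotientGroup.eq_one_iff _).2 (Subgroup.mem_zpowers _)))
  refine Subgroup.commutator_le.2 fun a _ b _ => (QuotientGroup.eq_one_iff _).1 ?_
  change f ⁅a, b⁆ = 1
  rw [map_commutatorElement, commutatorElement_eq_one_iff_mul_comm]
  exact mem_c1.1 (h1 _ (mem_c1_comm.1 (h1 _ (mem_c1_self _) (mem_c1_comm.1 h2) b))
    (mem_c1_comm.1 (h1 _ h2 (mem_c1_self _) b)) a)

open CL.Grp CL.Odd in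
theorem burn {X : Type*} [Group X] [Finite X] {p : ℕ} [Fact p.Prime] (hX : commutator X = ⊤) {H : Subgroup X}
    (hH : IsPGroup p H) (ha : IsMulCommutative H) (hn : N[H] = H) : H = ⊥ := by
  obtain ⟨P, hP⟩ := hH.exists_le_sylow
  obtain rfl : H = P := by
    by_contra h
    have := lt_inf_normalizer_of_isPGroup P.isPGroup' (lt_of_le_of_ne hP h)
    rw [hn] at this
    exact this.not_ge inf_le_right
  have h1 := hasNormalPComplement_of_normalizer_le_centralizer P (hn.le.trans (Subgroup.le_centralizer _))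
  have h2 : pResidual p X = ⊤ := by
    have := (isPGroup_quotient_pResidual p X).isNilpotent
    have h3 := eq_bot_of_le_commutator (N := (⊤ : Subgroup (X ⧸ pResidual p X))) (H := ⊤) inferInstance le_rfl (by
      rw [← Subgroup.map_top_of_surjective _ (QuotientGroup.mk'_surjective (pResidual p X)), ← Subgroup.map_commutator]
      exact Subgroup.map_mono hX.ge)
    refine eq_top_iff.2 fun x _ => (QuotientGroup.eq_one_iff x).1 ?_
    exact Subgroup.mem_bot.1 (h3 ▸ Subgroup.mem_top _)
  rw [← (hasNormalPComplement_iff_inf_eq_bot P).1 h1, h2, inf_top_eq]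

open CL.Grp CL.Odd in
theorem quot {G : Type*} [Group G] [Finite G] (hS : ∀ H : Subgroup G, ¬ IsMulCommutative H → N[H] = H)
    (hG : commutator G = ⊤) (N : Subgroup G) [N.Normal] {p : ℕ} [Fact p.Prime] {H : Subgroup (G ⧸ N)}
    (hH : IsPGroup p H) (ha : IsMulCommutative H) (hn : ¬ IsMulCommutative (H.comap (QuotientGroup.mk' N))) :
    H = ⊥ := by
  have hs := QuotientGroup.mk'_surjective N
  refine burn ?_ hH ha (Subgroup.comap_injective hs ?_)
  · rw [commutator_def, ← Subgroup.map_top_of_surjective _ hs, ← Subgroup.map_commutator, ← commutator_def, hG]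
  · rw [Subgroup.comap_normalizer_eq_of_surjective _ hs, hS _ hn]

/-- A finite group in which every non-abelian subgroup is self-normalizing is solvable or simple. -/
theorem result {G : Type*} [Group G] [Finite G] (hS : ∀ H : Subgroup G, ¬ IsMulCommutative H → Subgroup.normalizer (H : Set G) = H) :
    Group.IsSolvable G ∨ IsSimpleGroup G := by
  open CL.Grp CL.Odd in
  by_contra hc
  obtain ⟨hns, hsi⟩ := not_or.1 hc
  have hab : ∀ (N : Subgroup G) [N.Normal], N ≠ ⊤ → IsMulCommutative N := fun N _ h => by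
    by_contra h1
    exact h ((hS N h1).symm.trans (Subgroup.normalizer_eq_top N))
  have hG : commutator G = ⊤ := by
    by_contra h
    have := isNilpotent_of_isMulCommutative (hab _ h)
    exact hns (Group.isSolvable_of_ker_le_range (commutator G).subtype (Abelianization.of (G := G))
      (by rw [Abelianization.ker_of, Subgroup.range_subtype]))
  have : Nontrivial G := not_subsingleton_iff_nontrivial.1 fun _ => hns inferInstance
  obtain ⟨N, ⟨hN, hN1, hN2⟩, hmax⟩ := (wellFounded_gt (α := Subgroup G)).has_min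
    {N | N.Normal ∧ N ≠ ⊥ ∧ N ≠ ⊤} (by
      by_contra h
      exact hsi ⟨fun N hN => by_contra fun h1 => h ⟨N, hN, (not_or.1 h1).1, (not_or.1 h1).2⟩⟩)
  have := hab N hN2
  by_cases hC : C[N] = ⊤
  · obtain ⟨p, hp, hd⟩ := Nat.exists_prime_and_dvd (mt Subgroup.card_eq_one.1 hN1)
    have := Fact.mk hp
    obtain ⟨⟨z, hz⟩, ho⟩ := exists_prime_orderOf_dvd_card' p hd
    rw [Subgroup.orderOf_mk] at ho
    have hzc : z ∈ Subgroup.center G := Subgroup.centralizer_eq_top_iff_subset.1 hC hz
    have := normal_of_le_center' (Subgroup.zpowers_le.2 hzc)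
    have hZ : IsPGroup p (Subgroup.zpowers z) := IsPGroup.of_card (n := 1) (by rw [Nat.card_zpowers, ho, pow_one])
    obtain ⟨P⟩ : Nonempty (Sylow p G) := inferInstance
    have hZP := hZ.le_sylow_of_normal P
    have h1 : z ∈ ⁅(P : Subgroup G), (P : Subgroup G)⁆ :=
      CL.Transfer.inf_commutator_inf_center_le_of_hall _ P.card_coprime_index
        ⟨⟨hZP (Subgroup.mem_zpowers z), hG ▸ Subgroup.mem_top z⟩, hzc⟩
    have hz1 : z ≠ 1 := fun e => hp.one_lt.ne (by rw [← ho, e, orderOf_one])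
    have hPn : ¬ IsMulCommutative (P : Subgroup G) := fun e => hz1 (by
      rwa [Subgroup.commutator_self_eq_bot_iff.2 e, Subgroup.mem_bot] at h1)
    obtain ⟨c, hc1, hc2⟩ := minNonab P.isPGroup' hPn fun H hH => by
      have h2 : ¬ IsMulCommutative (H.map (P : Subgroup G).subtype) := fun e => hH ⟨⟨fun a b => Subtype.ext
        (Subtype.ext (congrArg Subtype.val (e.is_comm.comm ⟨a.1.1, a.1, a.2, rfl⟩ ⟨b.1.1, b.1, b.2, rfl⟩) :))⟩⟩
      by_contra h3
      have h4 := lt_inf_normalizer_of_isPGroup P.isPGroup' (lt_of_le_of_ne (Subgroup.map_subtype_le H) fun e => h3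
        (Subgroup.map_injective (P : Subgroup G).subtype_injective (by
          rw [e, ← MonoidHom.range_eq_map, Subgroup.range_subtype])))
      rw [hS _ h2] at h4
      exact h4.not_ge inf_le_right
    have h5 : ⁅(P : Subgroup G), (P : Subgroup G)⁆ ≤ Subgroup.zpowers (c : G) := by
      rw [← Subgroup.map_subtype_commutator]
      exact (Subgroup.map_mono hc2).trans (MonoidHom.map_zpowers _ _).le
    have h6 : Subgroup.zpowers z = Subgroup.zpowers (c : G) :=
      Subgroup.eq_of_le_of_card_ge (Subgroup.zpowers_le.2 (h5 h1)) (by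
        rw [Nat.card_zpowers, Nat.card_zpowers, ho, Subgroup.orderOf_coe]
        exact Nat.le_of_dvd hp.pos (orderOf_dvd_of_pow_eq_one hc1))
    have h7 := quot hS hG (Subgroup.zpowers z) (P.isPGroup'.map (QuotientGroup.mk' _)) (by
      rw [← Subgroup.commutator_self_eq_bot_iff, ← Subgroup.map_commutator, Subgroup.map_eq_bot_iff,
        QuotientGroup.ker_mk', h6]
      exact h5) (by rwa [Subgroup.comap_map_eq, QuotientGroup.ker_mk', sup_eq_left.2 hZP])
    rw [Subgroup.map_eq_bot_iff, QuotientGroup.ker_mk'] at h7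
    exact hPn (le_antisymm h7 hZP ▸ inferInstance)
  · have hCN : C[N] = N := by
      by_contra h
      exact hmax _ ⟨inferInstance, fun e => hN1 (eq_bot_iff.2 (e ▸ Subgroup.le_centralizer N)), hC⟩
        (lt_of_le_of_ne (Subgroup.le_centralizer N) (Ne.symm h))
    obtain ⟨p, hp, hd⟩ := Nat.exists_prime_and_dvd (mt Subgroup.index_eq_one.1 hN2)
    have := Fact.mk hp
    obtain ⟨x, ho⟩ := exists_prime_orderOf_dvd_card' (G := G ⧸ N) p hd
    have hx1 : x ≠ 1 := fun e => hp.one_lt.ne (by rw [← ho, e, orderOf_one])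
    refine hx1 (Subgroup.zpowers_eq_bot.1 (quot hS hG N (IsPGroup.of_card (p := p) (n := 1)
      (by rw [Nat.card_zpowers, ho, pow_one])) inferInstance fun e => hx1 ?_))
    obtain ⟨x, rfl⟩ := QuotientGroup.mk'_surjective N x
    refine (QuotientGroup.eq_one_iff x).2 (hCN ▸ Subgroup.mem_centralizer_iff.2 fun y hy => ?_)
    exact congrArg Subtype.val (e.is_comm.comm ⟨y, by simp [(QuotientGroup.eq_one_iff y).2 hy]⟩
      ⟨x, Subgroup.mem_zpowers _⟩)

end Cfsg.Agent.S4072
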