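import Cfsg.Statements.S4074
import Cfsg.Agent.Fgs.Dihedral

set_option autoImplicit false
open Cfsg

namespace Cfsg.Agent.S4074

open DihedralGroup CL.Fgs

/-- For n > 2, every non-abelian subgroup of the dihedral group of order 2n is self-normalizing if and only if n = 4 or n is odd. -/
theorem result (n : ℕ) (hn : 2 < n) :
    (∀ H : Subgroup (DihedralGroup n), ¬ IsMulCommutative H → Subgroup.normalizer (H : Set (DihedralGroup n)) = H) ↔
    (n = 4 ∨ Odd n) := by
  have : NeZero n := ⟨by omega⟩
  constructor
  · intro h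
    by_contra hcon
    push Not at hcon
    obtain ⟨h4, hodd⟩ := hcon
    rw [Nat.not_odd_iff_even, even_iff_two_dvd] at hodd
    let A : AddSubgroup (ZMod n) := (ZMod.castHom hodd (ZMod 2)).toAddMonoidHom.ker
    have hA : ∀ i, i ∈ A ↔ ZMod.castHom hodd (ZMod 2) i = 0 := fun i => Iff.rfl
    have h2 : (2 : ZMod n) ∈ A := by rw [hA, map_ofNat]; rfl
    have h1 : (1 : ZMod n) ∉ A := by rw [hA, map_one]; decide
    have hnc : ¬ IsMulCommutative (dihSub A) := by
      intro hc
      have h1 := congrArg Subtype.val (hc.is_comm.comm (⟨r 2, r_mem_dihSub.2 h2⟩ : dihSub A)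
        ⟨sr 0, sr_mem_dihSub.2 A.zero_mem⟩)
      change r (2 : ZMod n) * sr 0 = sr 0 * r 2 at h1
      simp only [r_mul_sr, sr_mul_r, sr.injEq] at h1
      have h3 : ((4 : ℕ) : ZMod n) = 0 := by push_cast; linear_combination -h1
      rw [ZMod.natCast_eq_zero_iff] at h3
      have := Nat.le_of_dvd (by norm_num) h3
      omega
    apply h1
    rw [← r_mem_dihSub, ← h _ hnc, Subgroup.mem_normalizer_iff]
    rintro (i | i)
    · simp
    · simp only [inv_r, r_mul_sr, sr_mul_r, sr_mem_dihSub]
      constructor
      · intro hi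
        convert A.sub_mem hi h2 using 1
        ring
      · intro hi
        convert A.add_mem hi h2 using 1
        ring
  · intro h H hH
    obtain ⟨j, hj, i, hi0, hi⟩ := dih_exists_of_not_comm H hH
    refine le_antisymm ?_ Subgroup.le_normalizer
    have key : ∀ k : ZMod n, r k ∈ Subgroup.normalizer (H : Set (DihedralGroup n)) → r k ∈ H := by
      intro k hk
      rcases h with h | ⟨m, hm⟩
      · subst h
        have : ∀ i k : ZMod 4, i + i ≠ 0 → ∃ a : Fin 4, k = i * (a : ℕ) := by decide
        obtain ⟨a, ha⟩ := this i k hi0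
        rw [ha, ← r_pow]
        exact H.pow_mem hi _
      · have h1 := (Subgroup.mem_normalizer_iff.1 hk _).1 hj
        have h2 := H.pow_mem (H.mul_mem h1 hj) (m + 1)
        simp only [inv_r, r_mul_sr, sr_mul_r, sr_mul_sr, r_pow] at h2
        convert h2 using 2
        have : ((n : ℕ) : ZMod n) = 0 := ZMod.natCast_self n
        have h3 : ((2 * m + 1 : ℕ) : ZMod n) = 0 := by rw [← hm]; exact this
        push_cast at h3 ⊢
        linear_combination (-k) * h3
    rintro (k | k) hk
    · exact key k hk
    · have h1 := key (k - j) (Subgroup.mul_mem _ (Subgroup.le_normalizer hj) hk)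
      simpa using H.mul_mem hj h1

end Cfsg.Agent.S4074
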