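import Cfsg.Statements.S4075
import Cfsg.Agent.Base

set_option autoImplicit false
open Cfsg

namespace Cfsg.Agent.S4075

/-- Let G be a finite nilpotent group. Every non-abelian subgroup of G is self-normalizing if and only if G is abelian or G is a minimal non-abelian p-group for some prime p (non-abelian of prime-power order with every proper subgroup abelian). -/
theorem result {G : Type*} [Group G] [Finite G]
    [Group.IsNilpotent G] :
    (∀ H : Subgroup G, ¬ IsMulCommutative H → Subgroup.normalizer (H : Set G) = H) ↔
    (IsMulCommutative G ∨ (IsPrimePow (Nat.card G) ∧ ¬ IsMulCommutative G ∧ ∀ H : Subgroup G, H ≠ ⊤ → IsMulCommutative H)) := by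
  constructor
  · intro h
    by_cases hc : IsMulCommutative G
    · exact Or.inl hc
    have hprop : ∀ H : Subgroup G, H ≠ ⊤ → IsMulCommutative H := by
      intro H hH
      by_contra hn
      have := Group.normalizerCondition_of_isNilpotent (G := G) H (lt_top_iff_ne_top.2 hH)
      exact this.ne' (h H hn)
    refine Or.inr ⟨?_, hc, hprop⟩
    by_contra hpp
    apply hc
    obtain ⟨e⟩ := (Group.isNilpotent_of_finite_tfae (G := G).out 0 4).1 ‹Group.IsNilpotent G›
    have hP : ∀ (p : (Nat.card G).primeFactors) (P : Sylow p G),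
        IsMulCommutative (P : Subgroup G) := by
      intro p P
      apply hprop
      intro hT
      have hp : (p : ℕ).Prime := Nat.prime_of_mem_primeFactors p.2
      have : Fact (p : ℕ).Prime := ⟨hp⟩
      have hG : IsPGroup p G := (hT ▸ P.isPGroup' : IsPGroup p (⊤ : Subgroup G)).of_equiv
        Subgroup.topEquiv
      obtain ⟨n, hn⟩ := IsPGroup.iff_card.1 hG
      apply hpp
      refine ⟨p, n, hp.prime, Nat.pos_of_ne_zero ?_, hn.symm⟩
      rintro rfl
      have := (Nat.dvd_of_mem_primeFactors p.2).trans (hn.trans (pow_zero _)).dvd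
      exact hp.one_lt.ne' (Nat.dvd_one.1 this)
    refine ⟨⟨fun a b => ?_⟩⟩
    obtain ⟨a, rfl⟩ := e.surjective a
    obtain ⟨b, rfl⟩ := e.surjective b
    rw [← map_mul, ← map_mul]
    congr 1
    funext p P
    exact (hP p P).is_comm.comm _ _
  · rintro (h | ⟨-, -, h⟩) H hH
    · exact absurd ⟨⟨fun a b => Subtype.ext (h.is_comm.comm (a : G) b)⟩⟩ hH
    · have : H = ⊤ := by
        by_contra hne
        exact hH (h H hne)
      rw [this]
      exact top_le_iff.1 Subgroup.le_normalizer

end Cfsg.Agent.S4075
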