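import Cfsg.Statements.S4079
import Cfsg.Agent.Fgs.RankTwo

set_option autoImplicit false
open Cfsg

namespace Cfsg.Agent.S4079

open Subgroup CL.Fgs
open scoped commutatorElement

/-- Let p be an odd prime and L a finite metacyclic p-group with no cyclic subgroup of index p, and let a be an automorphism of L of order p. Then a moves some element of order p of L if and only if p = 3 and the semidirect product L ⋊ ⟨a⟩ (of order 3·#L) has maximal class, i.e. nilpotency class m where #L = 3^m. -/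
theorem result {L : Type*} [Group L] [Finite L] {p : ℕ} [Fact p.Prime]
    (hp : p ≠ 2) (hL : IsPGroup p L) (hmc : Cfsg.IsMetacyclic L) (hnc : ∀ C : Subgroup L, IsCyclic C → C.index ≠ p)
    (a : MulAut L) (ha : orderOf a = p) (m : ℕ) (hm : Nat.card L = p ^ m) :
    (∃ x : L, orderOf x = p ∧ a x ≠ x) ↔
    (p = 3 ∧ Group.nilpotencyClass (SemidirectProduct L ↥(Subgroup.zpowers a) (Subgroup.zpowers a).subtype) = m) := by
  have hp' : p.Prime := Fact.out
  have h := MC.mk hp hL hmc
  have hw := h.wreg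
  let G := SemidirectProduct L ↥(zpowers a) (zpowers a).subtype
  let f : L →* G := SemidirectProduct.inl
  have hf : Function.Injective f := SemidirectProduct.inl_injective
  let s : G := SemidirectProduct.inr ⟨a, mem_zpowers a⟩
  have hs : ∀ x, f (a x) = s * f x * s⁻¹ := fun x => by
    rw [← map_inv]; exact SemidirectProduct.inl_aut (φ := (zpowers a).subtype) ⟨a, mem_zpowers a⟩ x
  have hG : Nat.card G = p ^ (m + 1) := by rw [SemidirectProduct.card, Nat.card_zpowers, hm, ha, pow_succ]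
  have : Finite G := Nat.finite_of_card_ne_zero (hG ▸ pow_ne_zero _ hp'.ne_zero)
  have hP := IsPGroup.of_card hG
  have hRn : f.range.Normal := by rw [SemidirectProduct.range_inl_eq_ker_rightHom]; infer_instance
  have hRi : f.range.index = p := by
    have h1 := f.range.card_mul_index
    rw [← Nat.card_congr (MonoidHom.ofInjective hf).toEquiv, hm, hG, pow_succ] at h1
    exact Nat.eq_of_mul_eq_mul_left (pow_pos hp'.pos m) h1
  have hsp : s ^ p = 1 := by
    rw [← map_pow, show (⟨a, mem_zpowers a⟩ : zpowers a) ^ p = 1 from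
      Subtype.ext (by rw [coe_pow, ← ha]; exact pow_orderOf_eq_one a), map_one]
  obtain ⟨x, y, hxy, hd, hinf, hmul⟩ := h.exists_basis
  obtain ⟨e, he⟩ := IsPGroup.iff_orderOf.1 hL x
  obtain ⟨k, hk⟩ := IsPGroup.iff_orderOf.1 hL y
  have hke : k ≤ e := by rwa [he, hk, Nat.pow_dvd_pow_iff_le_right hp'.one_lt] at hd
  have hme : e + k = m := by
    rw [he, hk, hm, ← pow_add] at hmul
    exact Nat.pow_right_injective hp'.two_le hmul
  have hk2 : 2 ≤ k := by
    have key : ∀ j, j ≤ e → j + k ≠ 1 := fun j hj h1 => hnc (zpowers (x ^ p ^ j)) inferInstance (by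
      have h2 := (zpowers (x ^ p ^ j)).card_mul_index
      rw [Nat.card_zpowers, CL.Grp.orderOf_pow_prime_pow hp'.ne_zero he hj, hm, show m = e - j + 1 by omega,
        pow_succ] at h2
      exact Nat.eq_of_mul_eq_mul_left (pow_pos hp'.pos _) h2)
    by_contra hlt
    have h1 := key 0 (by omega)
    have h2 := key 1
    have h3 : m = 0 := by omega
    rw [h3, pow_zero] at hm
    have : Subsingleton L := (Nat.card_eq_one_iff_unique.1 hm).1
    rw [show a = 1 from MulEquiv.ext fun x => Subsingleton.elim _ _, orderOf_one] at ha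
    exact hp'.ne_one ha.symm
  set E := hw.omega hL 1 with hE
  set W := hw.omega hL 2 with hW
  have hEm : ∀ {u}, u ∈ E ↔ u ^ p = 1 := by intro u; rw [hw.mem_omega, pow_one]
  have hWm : ∀ {u}, u ∈ W ↔ (u ^ p) ^ p = 1 := by intro u; rw [hw.mem_omega, pow_two, pow_mul]
  have hEc : Nat.card E ≤ p ^ 2 :=
    Nat.le_of_dvd (pow_pos hp'.pos 2) (mc_card_dvd (mc_subgroup hmc E) fun u => Subtype.ext (hEm.1 u.2))
  have hEF : p ^ 2 ≤ Nat.card (E ⊓ frattini L : Subgroup L) := by
    have key : ∀ (u : L) (j : ℕ), 2 ≤ j → orderOf u = p ^ j →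
        orderOf (u ^ p ^ (j - 1)) = p ∧ u ^ p ^ (j - 1) ∈ E ⊓ frattini L := fun u j hj hu => by
      have h1 := CL.Grp.orderOf_pow_prime_pow hp'.ne_zero hu (show j - 1 ≤ j by omega)
      rw [show j - (j - 1) = 1 by omega, pow_one] at h1
      refine ⟨h1, hEm.2 (orderOf_dvd_iff_pow_eq_one.1 h1.dvd), ?_⟩
      rw [show j - 1 = j - 2 + 1 by omega, pow_succ, pow_mul]
      exact CL.Grp.pow_mem_frattini hL _
    obtain ⟨h1, h2⟩ := key x e (by omega) he
    obtain ⟨h3, h4⟩ := key y k hk2 hk
    have h5 : zpowers (x ^ p ^ (e - 1)) < E ⊓ frattini L := lt_of_le_of_ne (zpowers_le.2 h2) fun h6 => by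
      have h7 : y ^ p ^ (k - 1) ∈ zpowers x ⊓ zpowers y :=
        ⟨zpowers_le.2 (pow_mem (mem_zpowers x) _) (h6 ▸ h4), pow_mem (mem_zpowers y) _⟩
      rw [hinf, mem_bot] at h7
      rw [h7, orderOf_one] at h3
      exact hp'.ne_one h3.symm
    have h6 := CL.Odd.mul_card_le_of_lt (hL.to_subgroup _) h5
    rwa [Nat.card_zpowers, h1, ← pow_two] at h6
  have hEF' : E ≤ frattini L := inf_eq_left.1 (eq_of_le_of_card_ge inf_le_left (hEc.trans hEF))
  have hEc' : Nat.card (E.map f) = p ^ 2 := by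
    rw [card_map_of_injective hf]; exact le_antisymm hEc (hEF.trans (card_le_of_le inf_le_left))
  have hEn : (E.map f).Normal := ⟨by
    rintro _ ⟨u, hu, rfl⟩ g
    obtain ⟨v, hv⟩ := hRn.conj_mem (f u) ⟨u, rfl⟩ g
    refine ⟨v, hEm.2 (hf ?_), hv⟩
    rw [map_pow, hv, conj_pow, ← map_pow, hEm.1 hu]
    simp⟩
  constructor
  · rintro ⟨u, hu, hau⟩
    have huE : u ∈ E := hEm.2 (by rw [← hu, pow_orderOf_eq_one])
    have hcomm : ∀ x ∈ W, ∀ y ∈ W, ⁅x, y⁆ ^ p ^ 1 = 1 := fun x hx y hy => by
      obtain ⟨v, hv⟩ := (h.subgroup W).exists_pow_of_mem_commutator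
        (CL.Grp.comm_mem_commutator (⟨x, hx⟩ : W) ⟨y, hy⟩)
      have := congrArg W.subtype hv
      rw [map_commutatorElement, map_pow] at this
      rw [pow_one]
      exact (congrArg (· ^ p) this).trans (hWm.1 v.2)
    have hmulp : ∀ x ∈ W, ∀ y ∈ W, (x * y) ^ p = x ^ p * y ^ p := fun x hx y hy => by
      simpa using hw.mul_pow_of_commutator hL 1 x y (hcomm x hx y hy)
    obtain ⟨w, rfl⟩ := h.mem_frattini_iff.1 (hEF' huE)
    have hwW : w ∈ W := hWm.2 (hEm.1 huE)
    have hawW : a w ∈ W := hWm.2 (by rw [← map_pow, ← map_pow, hEm.1 huE, map_one])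
    have hEa := conj_diff_mem hP hEc'.le s
    have hfs : f (w ^ p) ∉ cent(s) := fun h1 => hau (hf (by
      rw [hs, mem_cent_iff_conj.1 (mem_cent_comm.1 h1)]))
    have hC : Nat.card (E.map f ⊓ cent(s) : Subgroup G) ≤ p := by
      simpa using CL.Grp.card_le_pow_of_lt_of_card_eq
        (inf_lt_left.2 fun h1 => hfs (h1 (mem_map_of_mem f huE))) hEc'
    have hsp' : (w⁻¹ * a w) ^ p = (w ^ p)⁻¹ * a (w ^ p) := by
      rw [hmulp _ (inv_mem hwW) _ hawW, inv_pow, map_pow]
    obtain ⟨h3, h4⟩ := core_order_p hp hP (T := W.map f) (E := E.map f) (a := s) (t := f w) (s := f (w⁻¹ * a w))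
      (by rintro _ ⟨v, hv, rfl⟩; rw [← map_pow, hEm.1 hv, map_one])
      (map_mono fun v hv => hWm.2 (by rw [hEm.1 hv, one_pow]))
      (by
        rintro _ ⟨v, hv, rfl⟩ _ ⟨x, hx, rfl⟩
        obtain ⟨w', rfl⟩ := h.mem_frattini_iff.1 (hEF' hv)
        have := (hw.commute_pow_iff' hL 1 w' x).2 (hcomm w' (hWm.2 (hEm.1 hv)) x hx)
        rw [pow_one] at this
        exact this.symm.map f)
      (by rintro _ ⟨v, -, rfl⟩ hv; exact ⟨v, hEm.2 (hf (by rw [map_pow, hv, map_one])), rfl⟩)
      (by rintro _ ⟨x, hx, rfl⟩ _ ⟨y, hy, rfl⟩ - -; rw [← map_mul, ← map_pow, hmulp x hx y hy]; simp)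
      hEa hC hsp (by rw [← hs, ← map_mul]; simp) (mem_map_of_mem f (mul_mem (inv_mem hwW) hawW))
      (by
        rw [mem_map_iff_mem hf, hEm, hsp', inv_mul_eq_one]
        exact fun h1 => hau h1.symm)
      (by
        rw [← hs, ← map_inv, ← map_mul, mem_map_iff_mem hf, hEm]
        have h1 := (hw.pow_eq_iff hL 1 (w⁻¹ * a w) (a (w⁻¹ * a w))).1
        simp only [pow_one] at h1
        refine h1 (hf ?_)
        have h2 := (mem_inf.1 (hEa _ (mem_map_of_mem f huE))).2
        rw [← hs, ← map_inv, ← map_mul, ← hsp'] at h2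
        rw [← map_pow a, hs, mem_cent_iff_conj.1 (mem_cent_comm.1 h2)])
    refine ⟨h3, ?_⟩
    refine (nilpotencyClass_eq_of_cent_le hG (by omega) (x := s) ?_).trans (by omega)
    rw [← CL.Grp.card_inf_mul_relIndex f.range, pow_two]
    refine Nat.mul_le_mul ((card_le_of_le (le_inf ?_ inf_le_right)).trans hC) ?_
    · rintro _ ⟨⟨c, rfl⟩, hc⟩
      by_contra hcE
      rw [mem_map_iff_mem hf] at hcE
      obtain ⟨k, hk⟩ := isPGroup_iff_pow_pow_eq_one.1 hL c
      obtain ⟨j, hj1, hj2⟩ := CL.Grp.exists_pow_notMem_pow_prime_mem (N := E) (hk ▸ E.one_mem) hcE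
      refine hj1 ((mem_map_iff_mem hf).1 (h4 ⟨mem_map_of_mem f (hWm.2 (hEm.1 hj2)), ?_⟩))
      rw [map_pow]
      exact pow_mem (show f c ∈ cent(s) from hc) _
    · rw [← hRi]
      exact Nat.le_of_dvd (Nat.pos_of_ne_zero index_ne_zero_of_finite) (Subgroup.relIndex_dvd_index_of_normal _ _)
  · rintro ⟨-, hcl⟩
    by_contra hfix
    push Not at hfix
    have hcl' : Group.nilpotencyClass G = m + 1 - 1 := hcl
    obtain ⟨n, hn⟩ := IsPGroup.iff_card.1 (hL.to_subgroup (commutator L))
    have hn1 : n ≤ 1 := by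
      by_contra hlt
      have : ((commutator L).map f).Normal := by rw [map_commutator_eq]; infer_instance
      obtain ⟨K, hKn, hK1, hK2⟩ := CL.Grp.exists_normal_card_eq_pow_le hP ((commutator L).map f) (b := 2)
        (by rw [card_map_of_injective hf, hn]; exact Nat.pow_le_pow_right hp'.pos (by omega))
      have hidx : ∀ N : Subgroup G, Nat.card N = p ^ 2 → N.index = p ^ (m - 1) := fun N hN => by
        have h1 := N.card_mul_index
        rw [hN, hG, show m + 1 = 2 + (m - 1) by omega, pow_add] at h1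
        exact Nat.eq_of_mul_eq_mul_left (pow_pos hp'.pos _) h1
      have h1 := CL.Grp.eq_lowerCentralSeries_of_maxClass hG (by omega) hcl' K (by omega) (hidx K hK2)
      rw [← CL.Grp.eq_lowerCentralSeries_of_maxClass hG (by omega) hcl' (E.map f) (by omega) (hidx _ hEc')] at h1
      have := h.cyc
      have h2 : IsCyclic ((commutator L).map f) := isCyclic_of_surjective _ (f.subgroupMap_surjective _)
      have h3 := card_dvd_of_isCyclic_of_pow (n := p) (Subgroup.isCyclic_of_le hK1) fun x => Subtype.ext (by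
        obtain ⟨v, hv, hv'⟩ : (x : G) ∈ E.map f := h1 ▸ x.2
        rw [coe_pow, ← hv', ← map_pow, hEm.1 hv, map_one, coe_one])
      rw [hK2] at h3
      have := Nat.le_of_dvd hp'.pos h3
      have := hp'.two_le
      nlinarith
    have h1 : E.map f ≤ center G := by
      rintro _ ⟨u, hu, rfl⟩
      have h2 : a u = u := by
        by_cases h3 : u = 1
        · simp [h3]
        · exact hfix u (orderOf_eq_prime (hEm.1 hu) h3)
      have h3 : u ∈ center L := by
        obtain ⟨w, rfl⟩ := h.mem_frattini_iff.1 (hEF' hu)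
        have h4 := h.pow_mem_center hn w
        interval_cases n
        · exact pow_mem (by simpa using h4) _
        · simpa using h4
      rw [← cent_eq_top_iff]
      refine (CL.Grp.isCoatom_of_index_prime (hRi ▸ hp')).2 _ (lt_of_le_of_ne ?_ fun h4 => ?_)
      · rintro _ ⟨v, rfl⟩
        exact mem_cent.2 (Commute.map (mem_center_iff.1 h3 v) f)
      · have h5 : s ∈ f.range := h4 ▸ mem_cent_iff_conj.2 (by rw [← hs, h2])
        rw [SemidirectProduct.range_inl_eq_ker_rightHom, MonoidHom.mem_ker, SemidirectProduct.rightHom_inr] at h5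
        rw [show a = 1 from congrArg Subtype.val h5, orderOf_one] at ha
        exact hp'.ne_one ha.symm
    have h2 := card_le_of_le h1
    rw [hEc', card_center_of_maxClass hG (by omega) hcl'] at h2
    have := hp'.two_le
    nlinarith

end Cfsg.Agent.S4079
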