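import Cfsg.Statements.S4080
import Cfsg.Agent.S4079

set_option autoImplicit false
open Cfsg

namespace Cfsg.Agent.S4080

/-- Let p > 3 be a prime and L the direct product of two cyclic groups of order p². Every automorphism of L of order p fixes every element of order p of L. -/
theorem result {p : ℕ} [Fact p.Prime] (hp : 3 < p)
    (a : MulAut (Multiplicative (ZMod (p ^ 2) × ZMod (p ^ 2)))) (ha : orderOf a = p)
    (x : Multiplicative (ZMod (p ^ 2) × ZMod (p ^ 2))) (hx : orderOf x = p) : a x = x := by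
  have hp' : p.Prime := Fact.out
  by_contra hax
  have hcard : Nat.card (Multiplicative (ZMod (p ^ 2) × ZMod (p ^ 2))) = p ^ 4 := by
    rw [Nat.card_congr Multiplicative.toAdd, Nat.card_prod, Nat.card_zmod, ← pow_add]
  have hexp : ∀ u : Multiplicative (ZMod (p ^ 2) × ZMod (p ^ 2)), u ^ p ^ 2 = 1 := fun u => by
    apply Multiplicative.toAdd.injective
    rw [toAdd_pow, toAdd_one, ← Nat.cast_smul_eq_nsmul (ZMod (p ^ 2)), ZMod.natCast_self, zero_smul]
  have := ((Cfsg.Agent.S4079.result (p := p) (by omega) (IsPGroup.of_card hcard) ?_ ?_ a ha 4 hcard).1 ⟨x, hx, hax⟩).1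
  · omega
  · have : (Subgroup.zpowers (Multiplicative.ofAdd ((1 : ZMod (p ^ 2)), (0 : ZMod (p ^ 2))))).Normal := inferInstance
    refine CL.Fgs.mc_of_gen (a := Multiplicative.ofAdd (1, 0)) (b := Multiplicative.ofAdd (0, 1)) ?_
    refine eq_top_iff.2 fun u _ => ?_
    have e : u = Multiplicative.ofAdd (1, 0) ^ u.toAdd.1.val * Multiplicative.ofAdd (0, 1) ^ u.toAdd.2.val := by
      apply Multiplicative.toAdd.injective
      ext <;> simp
    rw [e]
    exact mul_mem (Subgroup.mem_sup_left (Subgroup.npow_mem_zpowers _ _))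
      (Subgroup.mem_sup_right (Subgroup.npow_mem_zpowers _ _))
  · intro C hC hi
    have h1 := C.card_mul_index
    have h2 := Nat.le_of_dvd (pow_pos hp'.pos 2) (CL.Fgs.card_dvd_of_isCyclic_of_pow hC fun u => Subtype.ext (hexp u))
    rw [hi, hcard] at h1
    have h3 : p ^ 4 ≤ p ^ 3 := h1.ge.trans (Nat.mul_le_mul_right p h2)
    rw [Nat.pow_le_pow_iff_right hp'.one_lt] at h3
    omega

end Cfsg.Agent.S4080
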