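import Cfsg.Statements.S4081
import Cfsg.Agent.Fgs.CycloMod
import Cfsg.Agent.Loc.ElemAb
import Cfsg.Agent.Grp.FrobCompl
import Cfsg.Agent.Char.Burnside
import Cfsg.Agent.Grp.Fitting

set_option autoImplicit false
open Cfsg
open scoped Pointwise

namespace Cfsg.Agent.S4081

open CL.Loc CL.Fgs CL.Grp Cfsg

section
variable {G : Type*} [Group G] {p : ℕ} {P : Subgroup G} (hP : IsElementaryAbelian p P)

/-- conjugation as an endomorphism -/
noncomputable def cj [P.Normal] (x : G) : Module.End (ZMod p) (EAMod hP) :=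
  (conjRep hP ⟨x, by rw [Subgroup.normalizer_eq_top]; trivial⟩).toLinearMap

theorem val_cj [P.Normal] (x : G) (v : EAMod hP) : (cj hP x v).val = x * v.val * x⁻¹ := rfl

theorem val_cj_pow [P.Normal] (x : G) (n : ℕ) (v : EAMod hP) :
    ((cj hP x ^ n) v).val = x ^ n * v.val * (x ^ n)⁻¹ := by
  induction n with
  | zero => simp
  | succ n ih => rw [pow_succ', Module.End.mul_apply, val_cj, ih, pow_succ']; group

theorem cj_pow_eq_one [P.Normal] {x : G} {q : ℕ} (hx : x ^ q = 1) : cj hP x ^ q = 1 := by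
  ext v
  rw [← EAMod.val_inj, val_cj_pow, hx]; simp

/-- restriction of an automorphism -/
noncomputable def rs (α : MulAut G) (h : ∀ g ∈ P, α g ∈ P) : EAMod hP →ₗ[ZMod p] EAMod hP :=
  AddMonoidHom.toZModLinearMap p
    { toFun := fun v => EAMod.mk hP (α v.val) (h _ (EAMod.val_mem hP v))
      map_zero' := by rw [← EAMod.val_inj]; simp [EAMod.val_mk, EAMod.val_zero]
      map_add' := fun a b => by rw [← EAMod.val_inj]; simp [EAMod.val_mk, EAMod.val_add] }

theorem val_rs (α : MulAut G) (h : ∀ g ∈ P, α g ∈ P) (v : EAMod hP) :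
    (rs hP α h v).val = α v.val := rfl

theorem rs_injective (α : MulAut G) (h : ∀ g ∈ P, α g ∈ P) : Function.Injective (rs hP α h) := by
  intro a b hab
  have := congrArg EAMod.val hab
  rw [val_rs, val_rs] at this
  exact EAMod.val_injective hP (α.injective this)

end

theorem fwd {G : Type*} [Group G] [Finite G] {p q : ℕ} [hp : Fact p.Prime] [hq : Fact q.Prime]
    (hpq : p ≠ q) (hord : ∀ g : G, orderOf g = 1 ∨ orderOf g = p ∨ orderOf g = q)
    (htr : ∀ g h : G, orderOf g = orderOf h → ∃ α : MulAut G, α g = h) (hqd : q ∣ Nat.card G)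
    (hO : pCore p G ≠ ⊥) :
    ∃ n : ℕ, 1 ≤ n ∧ Nat.card G = p ^ n * q ∧
      (∀ P : Sylow p G, (P : Subgroup G).Normal ∧ Cfsg.IsElementaryAbelian p (P : Subgroup G)) ∧
      orderOf (p : ZMod q) = q - 1 ∧
      ∀ x y : G, orderOf x = q → orderOf y = p → x * y * x⁻¹ ≠ y := by
  have hcop : p.Coprime q := (Nat.coprime_primes hp.out hq.out).2 hpq
  set P := pCore p G with hPdef
  have hPp : IsPGroup p P := pCore_isPGroup p G
  have hpe : ∀ {S : Subgroup G}, IsPGroup p S → ∀ g ∈ S, g ≠ 1 → orderOf g = p := by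
    intro S hS g hg h1
    rcases hord g with h | h | h
    · exact absurd (orderOf_eq_one_iff.1 h) h1
    · exact h
    · obtain ⟨k, hk⟩ := (IsPGroup.iff_orderOf.1 hS) ⟨g, hg⟩
      rw [Subgroup.orderOf_mk, h] at hk
      exact absurd ((Nat.prime_dvd_prime_iff_eq hq.out hp.out).1
        (hq.out.dvd_of_dvd_pow hk.dvd)).symm hpq
  have hchar : ∀ (α : MulAut G) (g : G), α g ∈ P ↔ g ∈ P := fun α g => mem_pCore_equiv α
  have : Nontrivial P := (Subgroup.nontrivial_iff_ne_bot _).2 hO
  have := hPp.center_nontrivial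
  obtain ⟨⟨⟨z, hzP⟩, hzc⟩, hz1⟩ := exists_ne (1 : Subgroup.center P)
  have hz1' : z ≠ 1 := fun h => hz1 (Subtype.ext (Subtype.ext h))
  have hzo : orderOf z = p := hpe hPp z hzP hz1'
  have hmem : ∀ g : G, orderOf g = p → g ∈ P := by
    intro g hg
    obtain ⟨α, rfl⟩ := htr z g (hzo.trans hg.symm)
    exact (hchar α z).2 hzP
  have hEA : IsElementaryAbelian p P := by
    rw [ea_iff]
    constructor
    · intro a ha b hb
      by_cases h1 : a = 1
      · simp [h1]
      obtain ⟨α, rfl⟩ := htr z a (hzo.trans (hpe hPp a ha h1).symm)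
      obtain ⟨b, rfl⟩ := α.surjective b
      have := Subgroup.mem_center_iff.1 hzc ⟨b, (hchar α b).1 hb⟩
      rw [← map_mul, ← map_mul]
      exact congrArg α (congrArg Subtype.val this).symm
    · intro a ha
      by_cases h1 : a = 1
      · simp [h1]
      · rw [← hpe hPp a ha h1, pow_orderOf_eq_one]
  have hS : ∀ S : Sylow p G, (S : Subgroup G) = P := by
    intro S
    refine le_antisymm (fun g hg => ?_) (pCore_le_sylow S)
    by_cases h1 : g = 1
    · simp [h1]
    · exact hmem g (hpe S.isPGroup' g hg h1)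
  have hfpf : ∀ x y : G, orderOf x = q → orderOf y = p → x * y * x⁻¹ ≠ y := by
    intro x y hx hy h
    have hc : Commute x y := by rw [mul_inv_eq_iff_eq_mul] at h; exact h
    have h1 := hc.orderOf_mul_eq_mul_orderOf_of_coprime (by rw [hx, hy]; exact hcop.symm)
    rw [hx, hy] at h1
    have := hp.out.one_lt
    have := hq.out.one_lt
    rcases hord (x * y) with h | h | h <;> rw [h1] at h <;> nlinarith
  obtain ⟨Q⟩ : Nonempty (Sylow q G) := inferInstance
  have hqe : ∀ g ∈ Q, g ≠ 1 → orderOf g = q := by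
    intro g hg h1
    rcases hord g with h | h | h
    · exact absurd (orderOf_eq_one_iff.1 h) h1
    · obtain ⟨k, hk⟩ := (IsPGroup.iff_orderOf.1 Q.isPGroup') ⟨g, hg⟩
      rw [Subgroup.orderOf_mk, h] at hk
      exact absurd ((Nat.prime_dvd_prime_iff_eq hp.out hq.out).1
        (hp.out.dvd_of_dvd_pow hk.dvd)) hpq
    · exact h
  have hPQ : PQCyclic (Q : Subgroup G) := by
    refine pqCyclic_of_fpf hO (by rw [Subgroup.normalizer_eq_top]; exact le_top) fun a ha h1 => ?_
    rw [eq_bot_iff]
    rintro y ⟨hy, hyc⟩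
    by_contra hy1
    refine hfpf a y (hqe a ha h1) (hpe hPp y hy hy1) ?_
    rw [Subgroup.mem_centralizer_iff.1 hyc a rfl]; group
  have hQne : (Q : Subgroup G) ≠ ⊥ := Q.ne_bot_of_dvd_card hqd
  obtain ⟨⟨x, hxQ⟩, hx1⟩ := (Subgroup.ne_bot_iff_exists_ne_one).1 hQne
  have hxo : orderOf x = q := hqe x hxQ fun h => hx1 (Subtype.ext h)
  have hQc : Nat.card (Q : Subgroup G) = q := by
    have : Subgroup.zpowers (⟨x, hxQ⟩ : (Q : Subgroup G)) = ⊤ := by
      rw [eq_top_iff]
      intro y _
      by_cases h1 : y = 1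
      · simp [h1]
      · rw [hPQ.eq_of_card_eq_prime Q.isPGroup' (Subgroup.zpowers ⟨x, hxQ⟩) (Subgroup.zpowers y)
          (by rw [Nat.card_zpowers, Subgroup.orderOf_mk, hxo])
          (by rw [Nat.card_zpowers, ← Subgroup.orderOf_coe, hqe y y.2 fun h => h1 (Subtype.ext h)])]
        exact Subgroup.mem_zpowers y
    rw [← Subgroup.card_top, ← this, Nat.card_zpowers, Subgroup.orderOf_mk, hxo]
  obtain ⟨S⟩ : Nonempty (Sylow p G) := inferInstance
  obtain ⟨n, hn⟩ := hPp.exists_card_eq
  have hidx : P.index = q := by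
    have h1 : P.index = q ^ P.index.primeFactorsList.length := by
      refine Nat.eq_prime_pow_of_unique_prime_dvd Subgroup.index_ne_zero_of_finite fun {d} hd hdd => ?_
      have := Fact.mk hd
      obtain ⟨g, hg⟩ := exists_prime_orderOf_dvd_card' (G := G) d (hdd.trans P.index_dvd_card)
      rcases hord g with h | h | h
      · exact absurd (hg.symm.trans h) hd.ne_one
      · exact absurd (by rw [hS S, ← h, hg]; exact hdd) S.not_dvd_index
      · exact hg.symm.trans h
    generalize P.index.primeFactorsList.length = b at h1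
    have h2 : q ^ b ∣ q := by
      have := Q.pow_dvd_card_of_pow_dvd_card (n := b) (h1 ▸ P.index_dvd_card)
      rwa [hQc] at this
    have h3 : q ∣ q ^ b := by
      rw [← P.card_mul_index, hn, h1] at hqd
      exact (Nat.Coprime.pow_right n hcop.symm).dvd_of_dvd_mul_left hqd
    rw [h1, Nat.dvd_antisymm h2 h3]
  have hcard : Nat.card G = p ^ n * q := by rw [← P.card_mul_index, hn, hidx]
  have hxP : x ∉ P := fun h => hpq ((hpe hPp x h fun h => hx1 (Subtype.ext h)).symm.trans hxo)
  have hsup : P ⊔ Subgroup.zpowers x = ⊤ := by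
    have h1 : (P ⊔ Subgroup.zpowers x).index ∣ q := hidx ▸ Subgroup.index_dvd_of_le le_sup_left
    rcases (Nat.dvd_prime hq.out).1 h1 with h | h
    · exact Subgroup.index_eq_one.1 h
    · exfalso
      have h2 := Subgroup.relIndex_mul_index (le_sup_left : P ≤ P ⊔ Subgroup.zpowers x)
      rw [h, hidx] at h2
      have h3 : P.relIndex (P ⊔ Subgroup.zpowers x) = 1 :=
        Nat.eq_of_mul_eq_mul_right hq.out.pos (by rw [h2, one_mul])
      exact hxP (Subgroup.relIndex_eq_one.1 h3 (Subgroup.mem_sup_right (Subgroup.mem_zpowers x)))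
  refine ⟨n, ?_, hcard, fun S => ?_, ?_, hfpf⟩
  · by_contra h
    have : n = 0 := by omega
    rw [this, pow_zero] at hn
    exact hO (Subgroup.card_eq_one.1 hn)
  · rw [hS S]; exact ⟨inferInstance, hEA⟩
  · have : Nontrivial (EAMod hEA) := ⟨⟨EAMod.mk hEA z hzP, 0, fun h => hz1' (congrArg EAMod.val h)⟩⟩
    have hne : ∀ v : EAMod hEA, v ≠ 0 → orderOf v.val = p := fun v hv =>
      hpe hPp _ (EAMod.val_mem hEA v) (by rwa [Ne, EAMod.val_eq_one])
    refine orderOf_eq_of_transitive hpq (φ := cj hEA x) (cj_pow_eq_one hEA (hxo ▸ pow_orderOf_eq_one x))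
      (fun v hv => ?_) (fun v w hv hw => ?_) (fun k hk hkq => ?_)
    · by_contra h0
      exact hfpf x v.val hxo (hne v h0) (congrArg EAMod.val hv)
    · obtain ⟨α, hα⟩ := htr v.val w.val ((hne v hv).trans (hne w hw).symm)
      obtain ⟨c, hc, u, hu, e⟩ := (mem_sup_of_ge_normalizer (A := P) (B := Subgroup.zpowers x)
        (by rw [Subgroup.normalizer_eq_top]; exact le_top)).1 (hsup ▸ Subgroup.mem_top (α x))
      obtain ⟨k, rfl⟩ := mem_powers_iff_mem_zpowers.2 hu
      refine ⟨rs hEA α fun g hg => (hchar α g).2 hg, k, rs_injective _ _ _,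
        EAMod.val_injective hEA hα, fun u => EAMod.val_injective hEA ?_⟩
      simp only at e
      rw [val_rs, val_cj, val_cj_pow, val_rs, map_mul, map_mul, map_inv, ← e]
      have hm : x ^ k * α u.val * (x ^ k)⁻¹ ∈ P :=
        Subgroup.Normal.conj_mem inferInstance _ ((hchar α _).2 (EAMod.val_mem hEA u)) _
      have := ea_mul_comm hEA hc hm
      calc c * x ^ k * α u.val * (c * x ^ k)⁻¹ = (c * (x ^ k * α u.val * (x ^ k)⁻¹)) * c⁻¹ := by group
        _ = _ := by rw [this]; group
    · obtain ⟨α, hα⟩ := htr x (x ^ k) (by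
        rw [Nat.Coprime.orderOf_pow]
        rw [hxo]
        exact (Nat.coprime_of_lt_prime hk.ne' hkq hq.out))
      refine ⟨rs hEA α fun g hg => (hchar α g).2 hg, rs_injective _ _ _,
        fun u => EAMod.val_injective hEA ?_⟩
      rw [val_rs, val_cj, val_cj_pow, val_rs, map_mul, map_mul, map_inv, hα]

theorem bwd {G : Type*} [Group G] [Finite G] {p q n : ℕ} [hp : Fact p.Prime] [hq : Fact q.Prime]
    (hpq : p ≠ q) (hn : 1 ≤ n) (hcard : Nat.card G = p ^ n * q) (P : Sylow p G)
    [hN : (P : Subgroup G).Normal] (hEA : IsElementaryAbelian p (P : Subgroup G))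
    (hord : orderOf (p : ZMod q) = q - 1)
    (hfpf : ∀ x y : G, orderOf x = q → orderOf y = p → x * y * x⁻¹ ≠ y) :
    (∀ g : G, orderOf g = 1 ∨ orderOf g = p ∨ orderOf g = q) ∧
      ∀ g h : G, orderOf g = orderOf h → ∃ α : MulAut G, α g = h := by
  have hcop : p.Coprime q := (Nat.coprime_primes hp.out hq.out).2 hpq
  have hPc : Nat.card (P : Subgroup G) = p ^ n := by
    rw [P.card_eq_multiplicity, hcard, Nat.factorization_mul (pow_ne_zero _ hp.out.ne_zero)
      hq.out.ne_zero, Nat.Prime.factorization_pow hp.out, hq.out.factorization]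
    simp [hpq.symm]
  have hidx : (P : Subgroup G).index = q := by
    have := (P : Subgroup G).card_mul_index
    rw [hPc, hcard] at this
    exact Nat.eq_of_mul_eq_mul_left (pow_pos hp.out.pos n) this
  have hmem : ∀ g : G, orderOf g = p → g ∈ P := by
    intro g hg
    have h1 : IsPGroup p (Subgroup.zpowers g) :=
      IsPGroup.of_card (n := 1) (by rw [Nat.card_zpowers, hg, pow_one])
    obtain ⟨S, hS⟩ := h1.exists_le_sylow
    have : Unique (Sylow p G) := P.unique_of_normal hN
    rw [Subsingleton.elim P S]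
    exact hS (Subgroup.mem_zpowers g)
  have ho : ∀ g : G, orderOf g = 1 ∨ orderOf g = p ∨ orderOf g = q := by
    intro g
    have h1 : g ^ q ∈ P := hidx ▸ Subgroup.pow_index_mem (P : Subgroup G) g
    have h2 : orderOf g ∣ q * p := by
      rw [orderOf_dvd_iff_pow_eq_one, pow_mul]; exact ea_pow hEA h1
    obtain ⟨a, b, ha, hb, hab⟩ := Nat.dvd_mul.1 h2
    rcases (Nat.dvd_prime hq.out).1 ha with rfl | rfl <;>
      rcases (Nat.dvd_prime hp.out).1 hb with rfl | rfl
    · exact Or.inl hab.symm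
    · exact Or.inr (Or.inl (by rw [← hab, one_mul]))
    · exact Or.inr (Or.inr (by rw [← hab, mul_one]))
    · exfalso
      refine hfpf (g ^ b) (g ^ a) ?_ ?_ (by group)
      · rw [orderOf_pow_of_dvd hp.out.ne_zero (hab ▸ dvd_mul_left _ _), ← hab,
          Nat.mul_div_cancel _ hp.out.pos]
      · rw [orderOf_pow_of_dvd hq.out.ne_zero (hab ▸ dvd_mul_right _ _), ← hab,
          Nat.mul_div_cancel_left _ hq.out.pos]
  have hcomp : ∀ x : G, orderOf x = q → (P : Subgroup G).IsComplement' (Subgroup.zpowers x) := by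
    intro x hx
    refine Subgroup.isComplement'_of_coprime ?_ ?_
    · rw [hPc, Nat.card_zpowers, hx, hcard]
    · rw [hPc, Nat.card_zpowers, hx]; exact hcop.pow_left n
  have hf : ∀ x : G, orderOf x = q → ∀ v : EAMod hEA, cj hEA x v = v → v = 0 := by
    intro x hx v hv
    by_contra h0
    exact hfpf x v.val hx (ea_orderOf hEA (EAMod.val_mem hEA v) (by rwa [Ne, EAMod.val_eq_one]))
      (congrArg EAMod.val hv)
  have key : ∀ x y a b : G, orderOf x = q → orderOf y = q → orderOf a = p → orderOf b = p →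
      ∃ α : MulAut G, α x = y ∧ α a = b := by
    intro x y a b hx hy ha hb
    have ha1 : a ≠ 1 := fun h => hp.out.ne_one (by rw [← ha, h, orderOf_one])
    have hb1 : b ≠ 1 := fun h => hp.out.ne_one (by rw [← hb, h, orderOf_one])
    obtain ⟨β, hβ, hβ2⟩ := exists_intertwining_of_primitive_root hpq hord
      (cj_pow_eq_one hEA (hx ▸ pow_orderOf_eq_one x)) (hf x hx)
      (cj_pow_eq_one hEA (hy ▸ pow_orderOf_eq_one y)) (hf y hy)
      (v := EAMod.mk hEA a (hmem a ha)) (w := EAMod.mk hEA b (hmem b hb))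
      (fun h => ha1 (congrArg EAMod.val h)) (fun h => hb1 (congrArg EAMod.val h))
    let β' : (P : Subgroup G) →* G :=
      { toFun := fun u => (β (EAMod.mk hEA u u.2)).val
        map_one' := by
          rw [EAMod.val_eq_one]; exact β.map_zero
        map_mul' := fun u v => by
          rw [← EAMod.val_add, ← map_add]; rfl }
    obtain ⟨α, h1, h2⟩ := exists_mulAut_of_intertwining (hcomp x hx) (hcomp y hy).sup_eq_top
      (by rw [hx, hy]) β' (fun g hg => by
        obtain ⟨u, hu⟩ := β.surjective (EAMod.mk hEA g hg)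
        exact ⟨⟨u.val, EAMod.val_mem hEA u⟩, congrArg EAMod.val hu⟩) (fun u v huv => by
        have : EAMod.mk hEA v v.2 = cj hEA x (EAMod.mk hEA u u.2) := EAMod.val_injective hEA huv
        change (β (EAMod.mk hEA v v.2)).val = _
        rw [this, hβ2, val_cj]; rfl)
    exact ⟨α, h1, (h2 ⟨a, hmem a ha⟩).trans (congrArg EAMod.val hβ)⟩
  refine ⟨ho, fun g h hgh => ?_⟩
  obtain ⟨x, hx⟩ := exists_prime_orderOf_dvd_card' (G := G) q (hcard ▸ dvd_mul_left _ _)
  obtain ⟨a, ha⟩ := exists_prime_orderOf_dvd_card' (G := G) p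
    (hcard ▸ (dvd_pow_self p (by omega)).mul_right _)
  rcases ho g with h1 | h1 | h1
  · rw [h1] at hgh
    exact ⟨1, by rw [orderOf_eq_one_iff.1 h1, orderOf_eq_one_iff.1 hgh.symm]; rfl⟩
  · obtain ⟨α, -, h2⟩ := key x x g h hx hx h1 (hgh ▸ h1)
    exact ⟨α, h2⟩
  · obtain ⟨α, h2, -⟩ := key g h a a h1 (hgh ▸ h1) ha ha
    exact ⟨α, h2⟩

theorem mk_eq_iff {G : Type*} [Group G] (g h : G) :
    (Quotient.mk'' g : MulAction.orbitRel.Quotient (MulAut G) G) = Quotient.mk'' h ↔
      ∃ α : MulAut G, α h = g := by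
  rw [Quotient.eq'', MulAction.orbitRel_apply]; rfl

theorem card_three {G : Type*} [Group G] {p q : ℕ} (hp : p.Prime) (hq : q.Prime) (hpq : p ≠ q)
    {a b : G} (ha : orderOf a = p) (hb : orderOf b = q) :
    ({Quotient.mk'' 1, Quotient.mk'' a, Quotient.mk'' b} :
      Set (MulAction.orbitRel.Quotient (MulAut G) G)).ncard = 3 := by
  have h : ∀ g h : G, orderOf g ≠ orderOf h →
      (Quotient.mk'' g : MulAction.orbitRel.Quotient (MulAut G) G) ≠ Quotient.mk'' h := by
    intro g h hne he
    obtain ⟨α, rfl⟩ := (mk_eq_iff g h).1 he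
    exact hne (α.orderOf_eq h)
  exact Set.ncard_eq_three.2 ⟨_, _, _, h _ _ (by rw [ha, orderOf_one]; exact hp.ne_one.symm),
    h _ _ (by rw [hb, orderOf_one]; exact hq.ne_one.symm), h _ _ (by rw [ha, hb]; exact hpq), rfl⟩

/-- Let G be a finite group whose order is not a prime power. Then the automorphism group of G has exactly three orbits on G if and only if there are distinct primes p, q with #G = pⁿ·q (n ≥ 1) such that G has a normal elementary abelian Sylow p-subgroup P, p is a primitive root modulo q (the multiplicative order of p mod q is q − 1), and every element of order q of G acts on P without non-identity fixed points. -/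
theorem result {G : Type*} [Group G] [Finite G] (hnpp : ¬ IsPrimePow (Nat.card G)) (hnt : Nat.card G ≠ 1) :
    Nat.card (MulAction.orbitRel.Quotient (MulAut G) G) = 3 ↔
    ∃ (p q n : ℕ) (_ : Fact p.Prime) (_ : Fact q.Prime), p ≠ q ∧ 1 ≤ n ∧ Nat.card G = p ^ n * q ∧
      (∀ P : Sylow p G, (P : Subgroup G).Normal ∧ Cfsg.IsElementaryAbelian p (P : Subgroup G)) ∧
      orderOf (p : ZMod q) = q - 1 ∧
      ∀ x y : G, orderOf x = q → orderOf y = p → x * y * x⁻¹ ≠ y := by
  constructor
  · intro h3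
    obtain ⟨r, hr, hrd⟩ := Nat.exists_prime_and_dvd hnt
    obtain ⟨s, hs, hsd, hsr⟩ : ∃ s, s.Prime ∧ s ∣ Nat.card G ∧ s ≠ r := by
      by_contra hcon
      push Not at hcon
      exact hnpp (isPrimePow_iff_unique_prime_dvd.2 ⟨r, ⟨hr, hrd⟩, fun s hs => hcon s hs.1 hs.2⟩)
    have := Fact.mk hr
    have := Fact.mk hs
    obtain ⟨a, ha⟩ := exists_prime_orderOf_dvd_card' (G := G) r hrd
    obtain ⟨b, hb⟩ := exists_prime_orderOf_dvd_card' (G := G) s hsd
    have huniv := Set.eq_of_subset_of_ncard_le (Set.subset_univ _)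
      (by rw [card_three hr hs hsr.symm ha hb, Set.ncard_univ, h3])
    have hall : ∀ g : G, (∃ α : MulAut G, α 1 = g) ∨ (∃ α : MulAut G, α a = g) ∨
        ∃ α : MulAut G, α b = g := by
      intro g
      have := huniv ▸ Set.mem_univ (Quotient.mk'' g : MulAction.orbitRel.Quotient (MulAut G) G)
      simpa only [Set.mem_insert_iff, Set.mem_singleton_iff, mk_eq_iff] using this
    have ho : ∀ g : G, orderOf g = 1 ∨ orderOf g = r ∨ orderOf g = s := by
      intro g
      rcases hall g with ⟨α, rfl⟩ | ⟨α, rfl⟩ | ⟨α, rfl⟩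
      · left; simp
      · right; left; rw [α.orderOf_eq, ha]
      · right; right; rw [α.orderOf_eq, hb]
    have htr : ∀ g h : G, orderOf g = orderOf h → ∃ α : MulAut G, α g = h := by
      intro g h hgh
      have := hr.ne_one
      have := hs.ne_one
      rcases hall g with ⟨α, rfl⟩ | ⟨α, rfl⟩ | ⟨α, rfl⟩ <;>
        rcases hall h with ⟨β, rfl⟩ | ⟨β, rfl⟩ | ⟨β, rfl⟩ <;>
        first
        | (simp only [MulEquiv.orderOf_eq, orderOf_one, ha, hb] at hgh; omega)
        | exact ⟨β * α⁻¹, by simp⟩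
    have hdv : ∀ t : ℕ, t.Prime → t ∣ Nat.card G → t = r ∨ t = s := by
      intro t ht htd
      have := Fact.mk ht
      obtain ⟨c, hc⟩ := exists_prime_orderOf_dvd_card' (G := G) t htd
      rcases ho c with h | h | h
      · exact absurd (hc.symm.trans h) ht.ne_one
      · exact Or.inl (hc.symm.trans h)
      · exact Or.inr (hc.symm.trans h)
    have := CL.Char.isSolvable_of_two_primes hr hs hdv
    have : Nontrivial G := Finite.one_lt_card_iff_nontrivial.1 (by
      have := Nat.card_pos (α := G); omega)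
    obtain ⟨p, hp, hO⟩ := exists_pCore_ne_bot G
    have hpd : p ∣ Nat.card G := by
      have := Fact.mk hp
      obtain ⟨k, hk⟩ := (pCore_isPGroup p G).exists_card_eq
      refine (dvd_pow_self p ?_).trans (hk ▸ Subgroup.card_subgroup_dvd_card _)
      rintro rfl
      exact hO (Subgroup.card_eq_one.1 (by simpa using hk))
    rcases hdv p hp hpd with rfl | rfl
    · obtain ⟨n, hn⟩ := fwd hsr.symm ho htr hsd hO
      exact ⟨p, s, n, inferInstance, inferInstance, hsr.symm, hn⟩
    · obtain ⟨n, hn⟩ := fwd hsr (fun g => by have := ho g; tauto) htr hrd hO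
      exact ⟨p, r, n, inferInstance, inferInstance, hsr, hn⟩
  · rintro ⟨p, q, n, hp, hq, hpq, hn, hcard, hP, hord, hfpf⟩
    obtain ⟨P⟩ : Nonempty (Sylow p G) := inferInstance
    have := (hP P).1
    obtain ⟨ho, htr⟩ := bwd hpq hn hcard P (hP P).2 hord hfpf
    obtain ⟨b, hb⟩ := exists_prime_orderOf_dvd_card' (G := G) q (hcard ▸ dvd_mul_left _ _)
    obtain ⟨a, ha⟩ := exists_prime_orderOf_dvd_card' (G := G) p
      (hcard ▸ (dvd_pow_self p (by omega)).mul_right _)
    rw [← card_three hp.out hq.out hpq ha hb, ← Set.ncard_univ]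
    congr 1
    symm
    rw [Set.eq_univ_iff_forall]
    intro c
    induction c using Quotient.inductionOn' with
    | h g =>
      simp only [Set.mem_insert_iff, Set.mem_singleton_iff, mk_eq_iff]
      rcases ho g with h | h | h
      · exact Or.inl (htr _ _ (by rw [h, orderOf_one]))
      · exact Or.inr (Or.inl (htr _ _ (by rw [h, ha])))
      · exact Or.inr (Or.inr (htr _ _ (by rw [h, hb])))

end Cfsg.Agent.S4081
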