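import Cfsg.Statements.S4084
import Cfsg.Agent.Base

set_option autoImplicit false
open Cfsg

namespace Cfsg.Agent.S4084

section Helpers
theorem exists_order_of_comm {H : Type*} [Group H] [Finite H] (A : Subgroup H)
    (hA : ∀ x ∈ A, ∀ y ∈ A, Commute x y) {p q : ℕ} (hp : p.Prime) (hq : q.Prime) (hpq : p ≠ q)
    (hd : p * q ∣ Nat.card A) : ∃ h : H, orderOf h = p * q := by
  haveI := Fact.mk hp
  obtain ⟨x, hx⟩ := exists_prime_orderOf_dvd_card' (G := A) p (dvd_of_mul_right_dvd hd)
  haveI := Fact.mk hq
  obtain ⟨y, hy⟩ := exists_prime_orderOf_dvd_card' (G := A) q (dvd_of_mul_left_dvd hd)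
  rw [← Subgroup.orderOf_coe] at hx hy
  refine ⟨x * y, ?_⟩
  rw [(hA x x.2 y y.2).orderOf_mul_eq_mul_orderOf_of_coprime
    (by rw [hx, hy]; exact (Nat.coprime_primes hp hq).2 hpq), hx, hy]

theorem aux {G H : Type*} [Group G] [Finite G] [Group H] [Finite H] (e : G ≃ H)
    (he : ∀ x y : G, Commute x y ↔ Commute (e x) (e y))
    {p q : ℕ} (hp : p.Prime) (hq : q.Prime) (hpq : p ≠ q) (g : G) (hg : orderOf g = p * q) :
    ∃ h : H, orderOf h = p * q := by
  let A : Subgroup G := Subgroup.centralizer (Subgroup.centralizer ({g} : Set G) : Set G)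
  let B : Subgroup H := Subgroup.centralizer (Subgroup.centralizer ({e g} : Set H) : Set H)
  have hgA : g ∈ A := by
    intro y hy
    exact (Subgroup.mem_centralizer_singleton_iff.1 hy)
  have hAB : ∀ x, x ∈ A ↔ e x ∈ B := by
    intro x
    constructor
    · intro hx y hy
      obtain ⟨y, rfl⟩ := e.surjective y
      refine (he y x).1 (hx y ?_)
      exact Subgroup.mem_centralizer_singleton_iff.2
        ((he y g).2 (Subgroup.mem_centralizer_singleton_iff.1 hy))
    · intro hx y hy
      refine (he y x).2 (hx (e y) ?_)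
      exact Subgroup.mem_centralizer_singleton_iff.2
        ((he y g).1 (Subgroup.mem_centralizer_singleton_iff.1 hy))
  have hcard : Nat.card A = Nat.card B := Nat.card_congr (e.subtypeEquiv hAB)
  refine exists_order_of_comm B (fun x hx y hy => ?_) hp hq hpq ?_
  · refine hy x (Subgroup.mem_centralizer_singleton_iff.2 (hx (e g) ?_).symm)
    exact Subgroup.mem_centralizer_singleton_iff.2 rfl
  · rw [← hcard, ← hg]; exact A.orderOf_dvd_natCard hgA

end Helpers

/-- Let G and H be finite groups whose commuting graphs are isomorphic: there is a bijection e : G → H with x, y commuting exactly when e(x), e(y) commute. Then G and H have the same prime graph: for distinct primes p, q, G has an element of order pq if and only if H does (and #G = #H, so the prime divisors agree). -/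
theorem result {G H : Type*} [Group G] [Finite G] [Group H] [Finite H] (e : G ≃ H)
    (he : ∀ x y : G, Commute x y ↔ Commute (e x) (e y))
    {p q : ℕ} (hp : p.Prime) (hq : q.Prime) (hpq : p ≠ q) :
    (∃ g : G, orderOf g = p * q) ↔ (∃ h : H, orderOf h = p * q) := by
  constructor
  · rintro ⟨g, hg⟩; exact aux e he hp hq hpq g hg
  · rintro ⟨g, hg⟩
    refine aux e.symm (fun x y => ?_) hp hq hpq g hg
    rw [he]; simp

end Cfsg.Agent.S4084
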