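import Cfsg.Statements.S4085
import Cfsg.Agent.Perm.FCGroup

set_option autoImplicit false
open Cfsg

namespace Cfsg.Agent.S4085

section Helpers
open Subgroup

/-- adjacency in the power graph -/
def Adj {G : Type*} [Group G] (x y : G) : Prop := x ∈ zpowers y ∨ y ∈ zpowers x

variable {G H : Type*} [Group G] [Finite G] [Group H] [Finite H]

theorem adj_iff {c x y : G} (hx : x ∈ zpowers c) (hy : y ∈ zpowers c) :
    Adj x y ↔ orderOf x ∣ orderOf y ∨ orderOf y ∣ orderOf x := by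
  constructor
  · rintro (h | h)
    · exact Or.inl (orderOf_dvd_of_mem_zpowers h)
    · exact Or.inr (orderOf_dvd_of_mem_zpowers h)
  · rintro (h | h)
    · exact Or.inl (CL.Perm.mem_zpowers_of_isCyclic_subgroup hy hx h)
    · exact Or.inr (CL.Perm.mem_zpowers_of_isCyclic_subgroup hx hy h)

theorem zpowers_eq_of_le {x y : G} (h : x ∈ zpowers y) (h2 : orderOf y ≤ orderOf x) :
    zpowers x = zpowers y :=
  Subgroup.eq_of_le_of_card_ge (zpowers_le.2 h) (by rwa [Nat.card_zpowers, Nat.card_zpowers])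

omit [Finite G] in
theorem adj_congr {x y : G} (h : zpowers x = zpowers y) (z : G) : Adj z x ↔ Adj z y := by
  unfold Adj
  rw [h, ← zpowers_le (g := x), ← zpowers_le (g := y), h]

theorem exists_ord {c : G} {d : ℕ} (h : d ∣ orderOf c) : ∃ x ∈ zpowers c, orderOf x = d :=
  ⟨c ^ (orderOf c / d), npow_mem_zpowers _ _, orderOf_pow_orderOf_div (orderOf_pos c).ne' h⟩

theorem card_ord {c : G} {d : ℕ} (h : d ∣ orderOf c) :
    Nat.card {x : G // x ∈ zpowers c ∧ orderOf x = d} = d.totient := by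
  classical
  have := Fintype.ofFinite (zpowers c)
  rw [← IsCyclic.card_orderOf_eq_totient (α := zpowers c) (d := d)
    (by rwa [← Nat.card_eq_fintype_card, Nat.card_zpowers]), ← Fintype.card_subtype,
    ← Nat.card_eq_fintype_card]
  exact Nat.card_congr ⟨fun x => ⟨⟨x.1, x.2.1⟩, by simpa using x.2.2⟩,
    fun x => ⟨x.1.1, x.1.2, by simpa using x.2⟩, fun _ => rfl, fun _ => rfl⟩

theorem dvd_of_dominating {y : H} (hy : y ≠ 1) (h : ∀ z, Adj z y) {r : ℕ} (hr : r.Prime)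
    (hd : r ∣ Nat.card H) : r ∣ orderOf y := by
  haveI := Fact.mk hr
  obtain ⟨z, hz⟩ := exists_prime_orderOf_dvd_card' r hd
  rcases h z with h1 | h1
  · exact hz ▸ orderOf_dvd_of_mem_zpowers h1
  · have := orderOf_dvd_of_mem_zpowers h1
    rw [hz, Nat.dvd_prime hr] at this
    rcases this with h2 | h2
    · exact absurd (orderOf_eq_one_iff.1 h2) hy
    · rw [h2]

theorem le_two_mul_totient {t : H} (h : ∀ a ∈ zpowers t, ∀ b ∈ zpowers t, Adj a b) :
    orderOf t ≤ 2 * (orderOf t).totient := by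
  by_cases h1 : orderOf t = 1
  · simp [h1]
  have hpp : IsPrimePow (orderOf t) := by
    rw [isPrimePow_iff_unique_prime_dvd]
    refine ⟨(orderOf t).minFac, ⟨Nat.minFac_prime h1, Nat.minFac_dvd _⟩, fun q hq => ?_⟩
    obtain ⟨a, ha, hao⟩ := exists_ord hq.2
    obtain ⟨b, hb, hbo⟩ := exists_ord (Nat.minFac_dvd (orderOf t))
    have := (adj_iff ha hb).1 (h a ha b hb)
    rw [hao, hbo, Nat.prime_dvd_prime_iff_eq hq.1 (Nat.minFac_prime h1),
      Nat.prime_dvd_prime_iff_eq (Nat.minFac_prime h1) hq.1] at this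
    tauto
  obtain ⟨r, k, hr, hk, hrk⟩ := (isPrimePow_nat_iff _).1 hpp
  obtain ⟨k, rfl⟩ : ∃ j, k = j + 1 := ⟨k - 1, by omega⟩
  rw [← hrk, Nat.totient_prime_pow_succ hr, pow_succ, mul_left_comm]
  have := hr.two_le
  exact Nat.mul_le_mul_left _ (by omega)

/-- the incomparability graph on the proper non-trivial divisors is connected -/
theorem middle_conn {n p q : ℕ} (hn : n ≠ 0) (hp : p.Prime) (hq : q.Prime) (hpq : p ≠ q)
    (hpn : p ∣ n) (hqn : q ∣ n) (S : ℕ → Prop)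
    (hS : ∀ a b, a ∣ n → b ∣ n → ¬ a ∣ b → ¬ b ∣ a → (S a ↔ S b))
    {d : ℕ} (hd : d ∣ n) (h1 : d ≠ 1) (h2 : d ≠ n) : S d ↔ S (p ^ n.factorization p) := by
  have hpow : ∀ {r s : ℕ} (i j : ℕ), r.Prime → s.Prime → r ≠ s → i ≠ 0 → ¬ r ^ i ∣ s ^ j := by
    intro r s i j hr hs hrs hi h
    exact hrs ((Nat.prime_dvd_prime_iff_eq hr hs).1 (hr.dvd_of_dvd_pow ((dvd_pow_self r hi).trans h)))
  have hfac : ∀ {r : ℕ}, r.Prime → r ∣ n → n.factorization r ≠ 0 := fun hr h =>
    (hr.factorization_pos_of_dvd hn h).ne'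
  have hA : ∀ r s, r.Prime → s.Prime → r ∣ n → s ∣ n →
      (S (r ^ n.factorization r) ↔ S (s ^ n.factorization s)) := by
    intro r s hr hs hrn hsn
    by_cases hrs : r = s
    · rw [hrs]
    · exact hS _ _ (Nat.ordProj_dvd n r) (Nat.ordProj_dvd n s) (hpow _ _ hr hs hrs (hfac hr hrn))
        (hpow _ _ hs hr (Ne.symm hrs) (hfac hs hsn))
  obtain ⟨l, hl, hld⟩ : ∃ l : ℕ, l.Prime ∧ ¬ l ^ n.factorization l ∣ d := by
    by_contra hc
    push Not at hc
    refine h2 (Nat.dvd_antisymm hd ((Nat.dvd_iff_prime_pow_dvd_dvd d n).2 fun r k hr hk => ?_))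
    exact (pow_dvd_pow r ((hr.pow_dvd_iff_le_factorization hn).1 hk)).trans (hc r hr)
  have hln : l ∣ n := by
    by_contra hc
    rw [Nat.factorization_eq_zero_of_not_dvd hc] at hld
    simp at hld
  by_cases hdl : d ∣ l ^ n.factorization l
  · obtain ⟨j, -, rfl⟩ := (Nat.dvd_prime_pow hl).1 hdl
    have hj : j ≠ 0 := by rintro rfl; simp at h1
    obtain ⟨s, hs, hsn, hsl⟩ : ∃ s : ℕ, s.Prime ∧ s ∣ n ∧ s ≠ l := by
      by_cases hpl : p = l
      · exact ⟨q, hq, hqn, fun h => hpq (hpl.trans h.symm)⟩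
      · exact ⟨p, hp, hpn, hpl⟩
    exact (hS _ _ hd (Nat.ordProj_dvd n s) (hpow _ _ hl hs hsl.symm hj)
      (hpow _ _ hs hl hsl (hfac hs hsn))).trans (hA s p hs hp hsn hpn)
  · exact (hS _ _ hd (Nat.ordProj_dvd n l) hdl hld).trans (hA l p hl hp hln hpn)

theorem aux (e : G ≃ H) (he : ∀ x y : G, Adj x y ↔ Adj (e x) (e y))
    {p q : ℕ} (hp : p.Prime) (hq : q.Prime) (hpq : p ≠ q) (hq2 : q ≠ 2) (g : G)
    (hg : orderOf g = p * q) : ∃ h : H, p * q ∣ orderOf h := by
  have hcop : p.Coprime q := (Nat.coprime_primes hp hq).2 hpq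
  obtain ⟨c, hgc, hmax⟩ := Set.exists_max_image {c : G | g ∈ zpowers c} orderOf (Set.toFinite _)
    ⟨g, mem_zpowers g⟩
  have hc : ∀ y, Adj y c ↔ y ∈ zpowers c := by
    intro y
    refine ⟨fun h => h.elim id fun h1 => ?_, Or.inl⟩
    rw [zpowers_eq_of_le h1 (hmax y (zpowers_le.2 h1 hgc))]
    exact mem_zpowers y
  have hn : p * q ∣ orderOf c := hg ▸ orderOf_dvd_of_mem_zpowers hgc
  have hpn : p ∣ orderOf c := dvd_of_mul_right_dvd hn
  have hqn : q ∣ orderOf c := dvd_of_mul_left_dvd hn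
  obtain ⟨t, htT, htmax⟩ := Set.exists_max_image {t : H | ∀ y, Adj y t ↔ Adj y (e c)} orderOf
    (Set.toFinite _) ⟨e c, fun _ => Iff.rfl⟩
  have hX : ∀ a, Adj (e a) t ↔ a ∈ zpowers c := fun a => by rw [htT, ← he, hc]
  have hT : ∀ t', (∀ y, Adj y t' ↔ Adj y (e c)) → t' ∈ zpowers t := by
    intro t' ht'
    rcases (htT t').2 ((ht' t').1 (Or.inl (mem_zpowers _))) with h | h
    · exact h
    · rw [zpowers_eq_of_le h (htmax t' ht')]; exact mem_zpowers _
  have hgen : ∀ a ∈ zpowers c, orderOf a = orderOf c → e a ∈ zpowers t := by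
    intro a ha hao
    refine hT _ fun y => ?_
    obtain ⟨y, rfl⟩ := e.surjective y
    rw [← he, ← he, adj_congr (zpowers_eq_of_le ha hao.ge)]
  have hLX : ∀ a, e a ∈ zpowers t → a ∈ zpowers c := fun a h => (hX a).1 (Or.inl h)
  by_cases hall : ∀ a ∈ zpowers c, e a ∈ zpowers t
  · refine ⟨t, ?_⟩
    rwa [← Nat.card_zpowers, ← Nat.card_congr (e.subtypeEquiv (p := (· ∈ zpowers c))
      (q := (· ∈ zpowers t)) fun a => ⟨hall a, hLX a⟩), Nat.card_zpowers]
  by_cases h1 : e 1 ∈ zpowers t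
  swap
  · have hdom : ∀ z, Adj z (e 1) := by
      intro z
      obtain ⟨z, rfl⟩ := e.surjective z
      exact (he z 1).1 (Or.inr (one_mem _))
    have hne : e 1 ≠ 1 := fun h => h1 (h ▸ one_mem _)
    have hcard : p * q ∣ Nat.card H := by
      rw [← Nat.card_congr e]; exact hn.trans (orderOf_dvd_natCard c)
    exact ⟨e 1, hcop.mul_dvd_of_dvd_of_dvd
      (dvd_of_dominating hne hdom hp (dvd_of_mul_right_dvd hcard))
      (dvd_of_dominating hne hdom hq (dvd_of_mul_left_dvd hcard))⟩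
  exfalso
  push Not at hall
  obtain ⟨u, huc, hu⟩ := hall
  have hup : ∀ b ∈ zpowers c, e b ∉ zpowers t → t ∈ zpowers (e b) := fun b hb hb' =>
    ((hX b).2 hb).resolve_left hb'
  have hjoin : ∀ a ∈ zpowers c, ∀ b ∈ zpowers c, e a ∈ zpowers t → e b ∉ zpowers t → Adj a b :=
    fun a ha b hb h2 h3 => (he a b).2 (Or.inl (zpowers_le.2 (hup b hb h3) h2))
  have hu1 : orderOf u ≠ 1 := fun h => hu (by rwa [orderOf_eq_one_iff.1 h])
  have hu2 : orderOf u ≠ orderOf c := fun h => hu (hgen u huc h)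
  have hsame : ∀ a ∈ zpowers c, ∀ b ∈ zpowers c, ¬ orderOf a ∣ orderOf b → ¬ orderOf b ∣ orderOf a →
      e a ∈ zpowers t → e b ∈ zpowers t := by
    intro a ha b hb h2 h3 h4
    by_contra h5
    exact ((adj_iff ha hb).1 (hjoin a ha b hb h4 h5)).elim h2 h3
  have hmid : ∀ a ∈ zpowers c, orderOf a ≠ 1 → orderOf a ≠ orderOf c → e a ∉ zpowers t := by
    intro a ha ha1 ha2 hat
    have k1 := middle_conn (orderOf_pos c).ne' hp hq hpq hpn hqn
      (fun d => ∃ b ∈ zpowers c, orderOf b = d ∧ e b ∉ zpowers t)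
      (fun x y hx hy h6 h7 => ?_) (orderOf_dvd_of_mem_zpowers huc) hu1 hu2
    have k2 := middle_conn (orderOf_pos c).ne' hq hp hpq.symm hqn hpn
      (fun d => ∃ b ∈ zpowers c, orderOf b = d ∧ e b ∈ zpowers t)
      (fun x y hx hy h6 h7 => ?_) (orderOf_dvd_of_mem_zpowers ha) ha1 ha2
    · obtain ⟨b, hb, hbo, hbt⟩ := k1.1 ⟨u, huc, rfl, hu⟩
      obtain ⟨b', hb', hbo', hbt'⟩ := k2.1 ⟨a, ha, rfl, hat⟩
      refine hbt (hsame b' hb' b hb ?_ ?_ hbt') <;> rw [hbo, hbo'] <;> intro h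
      · exact hpq.symm ((Nat.prime_dvd_prime_iff_eq hq hp).1 (hq.dvd_of_dvd_pow
          ((dvd_pow_self q (hq.factorization_pos_of_dvd (orderOf_pos c).ne' hqn).ne').trans h)))
      · exact hpq ((Nat.prime_dvd_prime_iff_eq hp hq).1 (hp.dvd_of_dvd_pow
          ((dvd_pow_self p (hp.factorization_pos_of_dvd (orderOf_pos c).ne' hpn).ne').trans h)))
    · obtain ⟨x', hx', rfl⟩ := exists_ord hx
      obtain ⟨y', hy', rfl⟩ := exists_ord hy
      exact ⟨fun ⟨b, hb, hbo, hbt⟩ => ⟨y', hy', rfl, hsame b hb y' hy' (hbo ▸ h6) (hbo ▸ h7) hbt⟩,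
        fun ⟨b, hb, hbo, hbt⟩ => ⟨x', hx', rfl, hsame b hb x' hx' (hbo ▸ h7) (hbo ▸ h6) hbt⟩⟩
    · obtain ⟨x', hx', rfl⟩ := exists_ord hx
      obtain ⟨y', hy', rfl⟩ := exists_ord hy
      exact ⟨fun ⟨b, hb, hbo, hbt⟩ => ⟨y', hy', rfl,
          fun h => hbt (hsame y' hy' b hb (hbo ▸ h7) (hbo ▸ h6) h)⟩,
        fun ⟨b, hb, hbo, hbt⟩ => ⟨x', hx', rfl,
          fun h => hbt (hsame x' hx' b hb (hbo ▸ h6) (hbo ▸ h7) h)⟩⟩
  have hm := le_two_mul_totient (t := t) fun a ha b hb => by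
    obtain ⟨a, rfl⟩ := e.surjective a
    obtain ⟨b, rfl⟩ := e.surjective b
    rw [← he, adj_iff (hLX a ha) (hLX b hb)]
    by_cases ha1 : orderOf a = 1
    · exact Or.inl (ha1 ▸ one_dvd _)
    · by_cases ha2 : orderOf a = orderOf c
      · exact Or.inr (ha2 ▸ orderOf_dvd_of_mem_zpowers (hLX b hb))
      · exact absurd ha (hmid a (hLX a ha) ha1 ha2)
  have hne : p ≠ orderOf c := by
    intro h
    rw [← h] at hqn
    exact hpq.symm ((Nat.prime_dvd_prime_iff_eq hq hp).1 hqn)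
  have hc1 : orderOf c ≠ 1 := fun h => hp.one_lt.ne' (Nat.dvd_one.1 (h ▸ hpn))
  have hlow : (orderOf c).totient < orderOf t := by
    rw [← card_ord (dvd_refl (orderOf c)), ← Nat.card_zpowers t]
    classical
    have := Fintype.ofFinite G
    have := Fintype.ofFinite H
    rw [Nat.card_eq_fintype_card, Nat.card_eq_fintype_card]
    refine Fintype.card_lt_of_injective_of_notMem
      (fun x : {x : G // x ∈ zpowers c ∧ orderOf x = orderOf c} =>
        (⟨e x.1, hgen _ x.2.1 x.2.2⟩ : zpowers t)) (fun x y h => ?_) (b := ⟨e 1, h1⟩) ?_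
    · exact Subtype.ext (e.injective (congrArg Subtype.val h))
    · rintro ⟨x, hx⟩
      have := x.2.2
      rw [e.injective (congrArg Subtype.val hx), orderOf_one] at this
      exact hc1 this.symm
  obtain ⟨x, hxc, hxo⟩ := exists_ord hpn
  obtain ⟨xq, hxqc, hxqo⟩ := exists_ord hqn
  obtain ⟨xpq, hxpqc, hxpqo⟩ := exists_ord hn
  have hty := hup x hxc (hmid x hxc (hxo ▸ hp.one_lt.ne') (hxo ▸ hne))
  have hup2 : (orderOf (e x)).totient ≤ p.totient := by
    rw [← card_ord (dvd_refl (orderOf (e x))), ← card_ord hpn]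
    have key : ∀ y, y ∈ zpowers (e x) ∧ orderOf y = orderOf (e x) →
        e.symm y ∈ zpowers c ∧ orderOf (e.symm y) = p := by
      rintro y ⟨hy1, hy2⟩
      obtain ⟨y, rfl⟩ := e.surjective y
      rw [e.symm_apply_apply]
      have hz := zpowers_eq_of_le hy1 hy2.ge
      have hyc : y ∈ zpowers c := (hX y).1 (Or.inr (hz ▸ hty))
      have htw : ∀ z, Adj z y ↔ Adj z x := fun z => by rw [he, he, adj_congr hz]
      have k1 := htw xq
      have k2 := htw xpq
      have k3 := htw y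
      rw [adj_iff hxqc hyc, adj_iff hxqc hxc, hxqo, hxo, Nat.prime_dvd_prime_iff_eq hp hq,
        Nat.prime_dvd_prime_iff_eq hq hp] at k1
      rw [adj_iff hxpqc hyc, adj_iff hxpqc hxc, hxpqo, hxo] at k2
      have k4 : ¬ q ∣ orderOf y := fun h => (k1.1 (Or.inl h)).elim hpq.symm hpq
      have k5 : ¬ orderOf y ∣ q := fun h => (k1.1 (Or.inr h)).elim hpq.symm hpq
      have k6 : orderOf y ∣ p * q :=
        (k2.2 (Or.inr (dvd_mul_right _ _))).resolve_left fun h => k4 (dvd_of_mul_left_dvd h)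
      have k7 : orderOf y ∣ p :=
        ((Nat.Prime.coprime_iff_not_dvd hq).2 k4).symm.dvd_of_dvd_mul_right k6
      exact ⟨hyc, ((Nat.dvd_prime hp).1 k7).resolve_left fun h => k5 (h ▸ one_dvd _)⟩
    exact Nat.card_le_card_of_injective (fun y => ⟨e.symm y.1, key _ y.2⟩)
      fun y y' h => Subtype.ext (e.symm.injective (congrArg Subtype.val h))
  have k1 : (orderOf t).totient ≤ (orderOf (e x)).totient :=
    Nat.le_of_dvd (Nat.totient_pos.2 (orderOf_pos _))
      (Nat.totient_dvd_of_dvd (orderOf_dvd_of_mem_zpowers hty))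
  have k2 : (p * q).totient ≤ (orderOf c).totient :=
    Nat.le_of_dvd (Nat.totient_pos.2 (orderOf_pos _)) (Nat.totient_dvd_of_dvd hn)
  rw [Nat.totient_mul hcop, Nat.totient_prime hq] at k2
  have k3 : 2 ≤ q - 1 := by have := hq.two_le; omega
  have := Nat.mul_le_mul_left p.totient k3
  omega

theorem aux2 (e : G ≃ H) (he : ∀ x y : G, Adj x y ↔ Adj (e x) (e y))
    {p q : ℕ} (hp : p.Prime) (hq : q.Prime) (hpq : p ≠ q) (g : G)
    (hg : orderOf g = p * q) : ∃ h : H, orderOf h = p * q := by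
  have : ∃ h : H, p * q ∣ orderOf h := by
    by_cases hq2 : q = 2
    · rw [mul_comm] at hg ⊢
      exact aux e he hq hp hpq.symm (fun h => hpq (h.trans hq2.symm)) g hg
    · exact aux e he hp hq hpq hq2 g hg
  obtain ⟨h, hh⟩ := this
  obtain ⟨x, -, hx⟩ := exists_ord hh
  exact ⟨x, hx⟩

end Helpers

/-- Let G and H be finite groups whose power graphs are isomorphic: there is a bijection e : G → H such that, for all x, y, one of x, y is a power of the other exactly when one of e(x), e(y) is a power of the other. Then G and H have the same prime graph: for distinct primes p, q, G has an element of order pq if and only if H does. -/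
theorem result {G H : Type*} [Group G] [Finite G] [Group H] [Finite H] (e : G ≃ H)
    (he : ∀ x y : G, (x ∈ Subgroup.zpowers y ∨ y ∈ Subgroup.zpowers x) ↔
      (e x ∈ Subgroup.zpowers (e y) ∨ e y ∈ Subgroup.zpowers (e x)))
    {p q : ℕ} (hp : p.Prime) (hq : q.Prime) (hpq : p ≠ q) :
    (∃ g : G, orderOf g = p * q) ↔ (∃ h : H, orderOf h = p * q) := by
  constructor
  · rintro ⟨g, hg⟩; exact aux2 e he hp hq hpq g hg
  · rintro ⟨g, hg⟩
    refine aux2 e.symm (fun x y => ?_) hp hq hpq g hg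
    have := he (e.symm x) (e.symm y)
    rw [e.apply_symm_apply, e.apply_symm_apply] at this
    exact this.symm

end Cfsg.Agent.S4085
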