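import Cfsg.Statements.S4086
import Cfsg.Agent.Perm.FCGroup

set_option autoImplicit false
open Cfsg

namespace Cfsg.Agent.S4086

/-- For a finite group G the following are equivalent: every non-identity element has prime-power order; whenever two elements generate a cyclic subgroup, one of them is a power of the other (the enhanced power graph of G coincides with its power graph). -/
theorem result {G : Type*} [Group G] [Finite G] :
    (∀ g : G, g ≠ 1 → IsPrimePow (orderOf g)) ↔
    (∀ x y : G, IsCyclic ↥(Subgroup.closure ({x, y} : Set G)) → (x ∈ Subgroup.zpowers y ∨ y ∈ Subgroup.zpowers x)) := by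
  constructor
  · intro h x y hc
    obtain ⟨g, hg⟩ := IsCyclic.exists_generator (α := Subgroup.closure ({x, y} : Set G))
    have hx : x ∈ Subgroup.closure ({x, y} : Set G) := Subgroup.subset_closure (by simp)
    have hy : y ∈ Subgroup.closure ({x, y} : Set G) := Subgroup.subset_closure (by simp)
    have hd : ∀ z (hz : z ∈ Subgroup.closure ({x, y} : Set G)), orderOf z ∣ orderOf (g : G) := by
      intro z hz
      have := orderOf_dvd_of_mem_zpowers (hg ⟨z, hz⟩)
      simpa using this
    by_cases h1 : (g : G) = 1
    · left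
      have := hd x hx
      rw [h1, orderOf_one, Nat.dvd_one, orderOf_eq_one_iff] at this
      rw [this]; exact one_mem _
    obtain ⟨p, k, hp, -, hk⟩ := (isPrimePow_nat_iff _).1 (h g h1)
    obtain ⟨i, -, hi⟩ := (Nat.dvd_prime_pow hp).1 (hk ▸ hd x hx)
    obtain ⟨j, -, hj⟩ := (Nat.dvd_prime_pow hp).1 (hk ▸ hd y hy)
    rcases le_total i j with hij | hij
    · left
      exact CL.Perm.mem_zpowers_of_isCyclic_subgroup hy hx (by rw [hi, hj]; exact pow_dvd_pow p hij)
    · right
      exact CL.Perm.mem_zpowers_of_isCyclic_subgroup hx hy (by rw [hi, hj]; exact pow_dvd_pow p hij)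
  · intro h g hg
    have h1 : orderOf g ≠ 1 := by rwa [Ne, orderOf_eq_one_iff]
    have h0 : orderOf g ≠ 0 := (orderOf_pos g).ne'
    rw [isPrimePow_iff_unique_prime_dvd]
    refine ⟨(orderOf g).minFac, ⟨Nat.minFac_prime h1, Nat.minFac_dvd _⟩, ?_⟩
    suffices H : ∀ p q : ℕ, p.Prime → q.Prime → p ∣ orderOf g → q ∣ orderOf g → p = q from
      fun q hq => H _ _ hq.1 (Nat.minFac_prime h1) hq.2 (Nat.minFac_dvd _)
    intro p q hp hq hpg hqg
    have hop : orderOf (g ^ (orderOf g / p)) = p := orderOf_pow_orderOf_div h0 hpg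
    have hoq : orderOf (g ^ (orderOf g / q)) = q := orderOf_pow_orderOf_div h0 hqg
    have hle : Subgroup.closure ({g ^ (orderOf g / p), g ^ (orderOf g / q)} : Set G) ≤
        Subgroup.zpowers g := by
      rw [Subgroup.closure_le]
      rintro z (rfl | rfl) <;> exact Subgroup.npow_mem_zpowers _ _
    rcases h _ _ (Subgroup.isCyclic_of_le hle) with h2 | h2
    · have := orderOf_dvd_of_mem_zpowers h2
      rw [hop, hoq] at this
      exact (Nat.prime_dvd_prime_iff_eq hp hq).1 this
    · have := orderOf_dvd_of_mem_zpowers h2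
      rw [hop, hoq] at this
      exact ((Nat.prime_dvd_prime_iff_eq hq hp).1 this).symm

end Cfsg.Agent.S4086
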