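import Cfsg.Statements.S4089
import Cfsg.Agent.Grp.Zipper
import Cfsg.Agent.Grp.Fitting

set_option autoImplicit false
open Cfsg

namespace Cfsg.Agent.S4089

section Helpers
open Subgroup CL.Grp
open scoped Pointwise

variable {G : Type*} [Group G] [Finite G] {p : ℕ} [Fact p.Prime]

theorem subn_iff {H : Subgroup G} (hH : IsPGroup p H) (g : G) :
    (H.subgroupOf (H ⊔ zpowers g)).IsSubnormal ↔
      ∃ R : Subgroup G, H ≤ R ∧ IsPGroup p R ∧ g ∈ normalizer (R : Set G) := by
  constructor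
  · intro h
    refine ⟨pCoreOf p (H ⊔ zpowers g), ?_, pCoreOf_isPGroup p _,
      le_normalizer_pCoreOf p _ (mem_sup_right (mem_zpowers g))⟩
    have := le_pCore_of_isSubnormal h (hH.comap_subtype)
    exact (map_subgroupOf_eq_of_le (le_sup_left : H ≤ H ⊔ zpowers g)).ge.trans (map_mono this)
  · rintro ⟨R, h1, h2, h3⟩
    exact (subnIn_iff.1 (((subnIn_of_isPGroup h2 h1).trans (SubnIn.of_le_normalizer le_normalizer le_rfl)).of_le
      le_sup_left (sup_le (h1.trans le_normalizer) (zpowers_le.2 h3)))).2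

end Helpers

/-- Let G be a finite group, p a prime and H a p-subgroup of G. Then the set of elements g of G such that H is subnormal in the subgroup generated by H and g is the union of the normalizers N_G(R) over the subgroups R of G containing H with R = O_p(N_G(R)); and this set does not change when H is replaced by the intersection of all Sylow p-subgroups of G containing H. -/
theorem result {G : Type*} [Group G] [Finite G] (p : ℕ) [Fact p.Prime]
    (H : Subgroup G) (hH : IsPGroup p H) :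
    {g : G | ((H).subgroupOf (H ⊔ Subgroup.zpowers g)).IsSubnormal} =
      {g : G | ∃ R : Subgroup G, H ≤ R ∧ (Cfsg.pCore p (Subgroup.normalizer (R : Set G))).map (Subgroup.normalizer (R : Set G)).subtype = R ∧ g ∈ Subgroup.normalizer (R : Set G)} ∧
    ∀ g : G, (((H).subgroupOf (H ⊔ Subgroup.zpowers g)).IsSubnormal ↔
      (((sInf {K : Subgroup G | ∃ Q : Sylow p G, H ≤ (Q : Subgroup G) ∧ K = (Q : Subgroup G)})).subgroupOf ((sInf {K : Subgroup G | ∃ Q : Sylow p G, H ≤ (Q : Subgroup G) ∧ K = (Q : Subgroup G)}) ⊔ Subgroup.zpowers g)).IsSubnormal) := by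
  constructor
  · ext g
    simp only [Set.mem_ofPred_eq, subn_iff hH]
    constructor
    · intro h
      obtain ⟨R, ⟨h1, h2, h3⟩, hmax⟩ := Set.Finite.exists_maximal (Set.toFinite
        {R : Subgroup G | H ≤ R ∧ IsPGroup p R ∧ g ∈ Subgroup.normalizer (R : Set G)}) h
      have h4 : R ≤ pCoreOf p (Subgroup.normalizer (R : Set G)) :=
        CL.Grp.le_pCoreOf Subgroup.le_normalizer le_rfl h2
      exact ⟨R, h1, le_antisymm (hmax ⟨h1.trans h4, CL.Grp.pCoreOf_isPGroup p _,
        CL.Grp.le_normalizer_pCoreOf p _ h3⟩ h4) h4, h3⟩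
    · rintro ⟨R, h1, h2, h3⟩
      exact ⟨R, h1, h2 ▸ CL.Grp.pCoreOf_isPGroup p _, h3⟩
  · intro g
    have key : ∀ R : Subgroup G, IsPGroup p R →
        R ≤ sInf {K : Subgroup G | ∃ Q : Sylow p G, R ≤ (Q : Subgroup G) ∧ K = (Q : Subgroup G)} ∧
        IsPGroup p (sInf {K : Subgroup G | ∃ Q : Sylow p G, R ≤ (Q : Subgroup G) ∧ K = (Q : Subgroup G)} :
          Subgroup G) := by
      intro R hR
      obtain ⟨Q, hQ⟩ := hR.exists_le_sylow
      exact ⟨le_sInf (by rintro _ ⟨Q, h, rfl⟩; exact h), Q.isPGroup'.to_le (sInf_le ⟨Q, hQ, rfl⟩)⟩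
    rw [subn_iff hH, subn_iff (key H hH).2]
    constructor
    · rintro ⟨R, h1, h2, h3⟩
      refine ⟨_, sInf_le_sInf ?_, (key R h2).2, ?_⟩
      · rintro _ ⟨Q, h, rfl⟩
        exact ⟨Q, h1.trans h, rfl⟩
      · refine Subgroup.mem_normalizer_fintype fun x hx => ?_
        rw [SetLike.mem_coe, Subgroup.mem_sInf] at hx ⊢
        rintro _ ⟨Q, h, rfl⟩
        have := hx _ ⟨g⁻¹ • Q, fun y hy => (CL.Grp.mem_sylow_smul_iff _ _ _).2
          (h (by simpa using (Subgroup.mem_normalizer_iff.1 h3 y).1 hy)), rfl⟩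
        have h5 := (CL.Grp.mem_sylow_smul_iff _ _ _).1 this
        rwa [inv_inv] at h5
    · rintro ⟨R, h1, h2, h3⟩
      exact ⟨R, (key H hH).1.trans h1, h2, h3⟩

end Cfsg.Agent.S4089
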