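import Cfsg.Statements.S4088
import Cfsg.Agent.S4089
import Cfsg.Agent.Grp.SylowIn

set_option autoImplicit false
open Cfsg

namespace Cfsg.Agent.S4088

section Helpers
open Subgroup CL.Grp Finset
open scoped Pointwise Classical

theorem exists_nu {α : Type*} [PartialOrder α] (X : Finset α) :
    ∃ ν : α → ℤ, ∀ R ∈ X, ∑ Q ∈ X with R ≤ Q, ν Q = 1 := by
  induction X using Finset.strongInduction with
  | H X ih =>
  rcases X.eq_empty_or_nonempty with rfl | hX
  · exact ⟨0, by simp⟩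
  obtain ⟨R0, hR0⟩ := X.exists_minimal hX
  obtain ⟨ν, hν⟩ := ih _ (erase_ssubset hR0.1)
  have key : ∀ (c : ℤ) (s : Finset α), R0 ∉ s → ∑ Q ∈ s, Function.update ν R0 c Q = ∑ Q ∈ s, ν Q :=
    fun c s hs => sum_congr rfl fun Q hQ => Function.update_of_ne (by rintro rfl; exact hs hQ) _ _
  refine ⟨Function.update ν R0 (1 - ∑ Q ∈ X.erase R0 with R0 ≤ Q, ν Q), fun R hR => ?_⟩
  by_cases h : R = R0
  · subst h
    rw [← add_sum_erase _ _ (a := R) (by simp [hR]), Function.update_self, key _ _ (notMem_erase _ _),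
      filter_erase]
    ring
  · have h1 : R0 ∉ X.filter (R ≤ ·) := fun h1 =>
      h (le_antisymm (mem_filter.1 h1).2 (hR0.2 hR (mem_filter.1 h1).2))
    rw [key _ _ h1, ← hν R (mem_erase.2 ⟨h, hR⟩), filter_erase, erase_eq_of_notMem h1]

theorem nu_unique {α : Type*} [PartialOrder α] [WellFoundedGT α] (Y : Finset α) (ν μ : α → ℤ)
    (h : ∀ T ∈ Y, ∑ Q ∈ Y with T ≤ Q, ν Q = ∑ Q ∈ Y with T ≤ Q, μ Q) (T : α) : T ∈ Y → ν T = μ T := by
  induction T using WellFoundedGT.induction with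
  | ind T ih =>
  intro hT
  have h1 := h T hT
  rw [← add_sum_erase _ ν (a := T) (by simp [hT]), ← add_sum_erase _ μ (a := T) (by simp [hT]),
    sum_congr rfl fun Q hQ => ih Q (lt_of_le_of_ne (mem_filter.1 (mem_erase.1 hQ).2).2
      (mem_erase.1 hQ).1.symm) (mem_filter.1 (mem_erase.1 hQ).2).1] at h1
  exact add_right_cancel h1

variable {G : Type*} [Group G] [Fintype G] (p : ℕ) [Fact p.Prime]

/-- the `p`-subgroups of `K` normalised by `g` -/
noncomputable def XX (K : Subgroup G) (g : G) : Finset (Subgroup G) :=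
  univ.filter fun Q => Q ≤ K ∧ IsPGroup p Q ∧ g ∈ normalizer (Q : Set G)

/-- the Moebius-type function of that poset -/
noncomputable def nu (K : Subgroup G) (g : G) : Subgroup G → ℤ := (exists_nu (XX p K g)).choose

omit [Fact p.Prime] in
theorem nu_spec (K : Subgroup G) (g : G) : ∀ R ∈ XX p K g, ∑ Q ∈ XX p K g with R ≤ Q, nu p K g Q = 1 :=
  (exists_nu (XX p K g)).choose_spec

omit [Fact p.Prime] in
theorem mem_XX {K Q : Subgroup G} {g : G} :
    Q ∈ XX p K g ↔ Q ≤ K ∧ IsPGroup p Q ∧ g ∈ normalizer (Q : Set G) := by simp [XX]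

theorem quillen {K R : Subgroup G} {g : G} (hR : R ∈ XX p K g) :
    nu p K g R = nu p (K ⊓ normalizer (R : Set G)) g R := by
  obtain ⟨h1, h2, h3⟩ := (mem_XX p).1 hR
  have hR' : R ∈ XX p (K ⊓ normalizer (R : Set G)) g := (mem_XX p).2 ⟨le_inf h1 le_normalizer, h2, h3⟩
  have := nu_unique ((XX p (K ⊓ normalizer (R : Set G)) g).filter (R ≤ ·))
    (fun T => ∑ Q ∈ XX p K g with Q ⊓ normalizer (R : Set G) = T, nu p K g Q)
    (nu p (K ⊓ normalizer (R : Set G)) g) (fun T hT => ?_) R (mem_filter.2 ⟨hR', le_rfl⟩)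
  · rw [← this]
    symm
    refine sum_eq_single_of_mem R (mem_filter.2 ⟨hR, inf_eq_left.2 le_normalizer⟩) fun Q hQ hne => ?_
    obtain ⟨h4, h5⟩ := mem_filter.1 hQ
    exact absurd h5 (lt_inf_normalizer_of_isPGroup ((mem_XX p).1 h4).2.1
      (lt_of_le_of_ne (h5 ▸ inf_le_left) hne.symm)).ne'
  obtain ⟨h4, h5⟩ := mem_filter.1 hT
  obtain ⟨h6, h7, h8⟩ := (mem_XX p).1 h4
  have e1 : ((XX p (K ⊓ normalizer (R : Set G)) g).filter (R ≤ ·)).filter (T ≤ ·) =
      (XX p (K ⊓ normalizer (R : Set G)) g).filter (T ≤ ·) := by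
    rw [filter_filter]
    exact filter_congr fun Q _ => ⟨fun h => h.2, fun h => ⟨h5.trans h, h⟩⟩
  rw [e1, nu_spec p _ _ T h4, ← nu_spec p K g T ((mem_XX p).2 ⟨h6.trans inf_le_left, h7, h8⟩),
    ← sum_fiberwise_of_maps_to (s := (XX p K g).filter (T ≤ ·))
      (t := (XX p (K ⊓ normalizer (R : Set G)) g).filter (T ≤ ·))
      (g := fun Q => Q ⊓ normalizer (R : Set G))]
  · refine sum_congr rfl fun T' hT' => sum_congr ?_ fun _ _ => rfl
    rw [filter_filter]
    exact filter_congr fun Q _ => ⟨fun h => ⟨(mem_filter.1 hT').2.trans (h ▸ inf_le_left), h⟩, fun h => h.2⟩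
  · intro Q hQ
    obtain ⟨h9, h10⟩ := mem_filter.1 hQ
    obtain ⟨k1, k2, k3⟩ := (mem_XX p).1 h9
    exact mem_filter.2 ⟨(mem_XX p).2 ⟨inf_le_inf_right _ k1, k2.to_le inf_le_left,
      inf_normalizer_le_normalizer_inf ⟨k3, le_normalizer h3⟩⟩, le_inf h10 (h6.trans inf_le_right)⟩

/-- the sum over the normaliser -/
noncomputable def FF (K R : Subgroup G) : ℤ :=
  ∑ g ∈ univ.filter (· ∈ K ⊓ normalizer (R : Set G)), nu p K g R

omit [Fact p.Prime] in
theorem sum_FF (K H : Subgroup G) :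
    ∑ Q ∈ univ.filter (fun Q : Subgroup G => Q ≤ K ∧ IsPGroup p Q ∧ H ≤ Q), FF p K Q =
      (univ.filter fun g => g ∈ K ∧ ∃ Q ∈ XX p K g, H ≤ Q).card := by
  unfold FF
  rw [sum_comm' (s' := fun g => (XX p K g).filter (H ≤ ·)) (t' := univ.filter (· ∈ K))
    (by intro Q g; simp only [mem_filter, mem_univ, true_and, mem_XX, Subgroup.mem_inf]; tauto),
    ← filter_filter, card_filter, Nat.cast_sum]
  refine sum_congr rfl fun g hg => ?_
  split_ifs with h
  · obtain ⟨Q, hQ, hHQ⟩ := h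
    obtain ⟨h1, h2, h3⟩ := (mem_XX p).1 hQ
    have h4 : sInf {Q | Q ∈ XX p K g ∧ H ≤ Q} ≤ Q := sInf_le ⟨hQ, hHQ⟩
    rw [Nat.cast_one, ← nu_spec p K g (sInf {Q | Q ∈ XX p K g ∧ H ≤ Q})
      ((mem_XX p).2 ⟨h4.trans h1, h2.to_le h4, ?_⟩)]
    · refine sum_congr (filter_congr fun T hT => ⟨fun h => sInf_le ⟨hT, h⟩, fun h => ?_⟩) fun _ _ => rfl
      exact (le_sInf fun _ h => h.2).trans h
    · refine mem_normalizer_fintype fun x hx => ?_
      rw [SetLike.mem_coe, Subgroup.mem_sInf] at hx ⊢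
      exact fun T hT => (mem_normalizer_iff.1 ((mem_XX p).1 hT.1).2.2 x).1 (hx T hT)
  · rw [Nat.cast_zero]
    exact sum_eq_zero fun Q hQ => absurd ⟨Q, mem_filter.1 hQ⟩ h

theorem count (A K : Subgroup G) (D : Subgroup G → Prop) :
    (univ.filter fun k => k ∈ K ∧ D (MulAut.conj k • A)).card =
      (univ.filter fun B => D B ∧ ∃ k ∈ K, B = MulAut.conj k • A).card *
        Nat.card (K ⊓ normalizer (A : Set G) : Subgroup G) := by
  rw [card_eq_sum_card_fiberwise (f := fun k => MulAut.conj k • A)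
    (t := univ.filter fun B => D B ∧ ∃ k ∈ K, B = MulAut.conj k • A)
    (fun k hk => by
      simp only [coe_filter, mem_univ, true_and, Set.mem_ofPred_eq] at hk ⊢
      exact ⟨hk.2, k, hk.1, rfl⟩), ← smul_eq_mul, ← sum_const]
  refine sum_congr rfl fun B hB => ?_
  obtain ⟨hD, k0, hk0, rfl⟩ := (mem_filter.1 hB).2
  rw [Nat.card_eq_fintype_card, Fintype.card_subtype]
  refine (card_equiv (Equiv.mulLeft k0) fun n => ?_).symm
  simp only [mem_filter, mem_univ, true_and, Equiv.coe_mulLeft, Subgroup.mem_inf,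
    K.mul_mem_cancel_left hk0, ← conj_smul_conj_smul, smul_left_cancel_iff, conj_smul_eq_self_iff]
  refine ⟨fun h => ⟨⟨h.1, ?_⟩, h.2⟩, fun h => ⟨h.1.1, h.2⟩⟩
  rwa [(conj_smul_eq_self_iff _ _).2 h.2]

theorem sylow_sum {K P : Subgroup G} (hP : IsSylowIn p P K) (H : Subgroup G) :
    ∑ Q ∈ univ.filter (fun Q : Subgroup G => IsSylowIn p Q K ∧ H ≤ Q),
      Nat.card (K ⊓ normalizer (Q : Set G) : Subgroup G) =
      (univ.filter fun k => k ∈ K ∧ H ≤ MulAut.conj k • P).card := by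
  rw [count P K (H ≤ ·), ← smul_eq_mul, ← sum_const]
  refine sum_congr (filter_congr fun Q _ => ⟨fun h => ⟨h.2, ?_⟩, fun ⟨h, k, hk, e⟩ =>
    ⟨e ▸ hP.conj_smul_of_mem hk, h⟩⟩) fun Q hQ => ?_
  · obtain ⟨k, hk, e⟩ := hP.exists_conj_eq h.1
    exact ⟨k, hk, e.symm⟩
  · obtain ⟨-, k, hk, rfl⟩ := (mem_filter.1 hQ).2
    rw [normalizer_conj_smul, ← card_conj_smul k (K ⊓ normalizer (P : Set G)), Subgroup.smul_inf, conj_smul_eq_of_mem hk]

theorem FF_eq (K : Subgroup G) : ∀ R : Subgroup G, R ≤ K → IsPGroup p R →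
    FF p K R = if IsSylowIn p R K then (Nat.card (K ⊓ normalizer (R : Set G) : Subgroup G) : ℤ) else 0 := by
  induction K using WellFoundedLT.induction with
  | ind K ihK =>
  intro R
  induction R using WellFoundedGT.induction with
  | ind R ihR =>
  intro hRK hR
  split_ifs with hS
  · rw [Nat.card_eq_fintype_card, Fintype.card_subtype, card_eq_sum_ones, Nat.cast_sum]
    refine sum_congr rfl fun g hg => ?_
    have hX : R ∈ XX p K g := (mem_XX p).2 ⟨hRK, hR, (mem_filter.1 hg).2.2⟩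
    rw [Nat.cast_one, ← nu_spec p K g R hX]
    refine (sum_eq_single_of_mem R (mem_filter.2 ⟨hX, le_rfl⟩) fun Q hQ hne => ?_).symm
    obtain ⟨h1, h2, -⟩ := (mem_XX p).1 (mem_filter.1 hQ).1
    exact absurd (hS.eq_of_le h2 (mem_filter.1 hQ).2 h1) hne
  obtain ⟨P, hP, hRP⟩ := exists_isSylowIn_ge hR hRK
  by_cases hN : K ≤ normalizer (R : Set G)
  · have h1 := sum_FF p K R
    have h2 := sylow_sum p hP R
    have h3 : (univ.filter fun g => g ∈ K ∧ ∃ Q ∈ XX p K g, R ≤ Q) =
        univ.filter fun k => k ∈ K ∧ R ≤ MulAut.conj k • P :=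
      filter_congr fun g _ => and_congr_right fun hg => iff_of_true
        ⟨R, (mem_XX p).2 ⟨hRK, hR, hN hg⟩, le_rfl⟩
        ((hP.conj_smul_of_mem hg).le_of_normalized hR hRK hN)
    rw [h3, ← h2, ← add_sum_erase _ _ (a := R) (by simp [hRK, hR]), sum_congr rfl fun Q hQ =>
      ihR Q (lt_of_le_of_ne (mem_filter.1 (mem_erase.1 hQ).2).2.2.2 (mem_erase.1 hQ).1.symm)
        (mem_filter.1 (mem_erase.1 hQ).2).2.1 (mem_filter.1 (mem_erase.1 hQ).2).2.2.1,
      ← sum_filter, Nat.cast_sum] at h1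
    have h4 : ((univ.filter fun Q : Subgroup G => Q ≤ K ∧ IsPGroup p Q ∧ R ≤ Q).erase R).filter
        (IsSylowIn p · K) = univ.filter fun Q => IsSylowIn p Q K ∧ R ≤ Q := by
      ext Q
      simp only [mem_filter, mem_erase, mem_univ, true_and]
      exact ⟨fun h => ⟨h.2, h.1.2.2.2⟩, fun h =>
        ⟨⟨by rintro rfl; exact hS h.1, h.1.le, h.1.isPGroup, h.2⟩, h.1⟩⟩
    rw [h4] at h1
    exact add_eq_right.1 h1
  · have h1 := ihK (K ⊓ normalizer (R : Set G)) (lt_of_le_of_ne inf_le_left (mt inf_eq_left.1 hN)) R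
      (le_inf hRK le_normalizer) hR
    rw [if_neg] at h1
    · rw [← h1]
      unfold FF
      rw [inf_assoc, inf_idem]
      exact sum_congr rfl fun g hg => quillen p ((mem_XX p).2 ⟨hRK, hR, (mem_filter.1 hg).2.2⟩)
    · intro h2
      have h3 := lt_inf_normalizer_of_isPGroup hP.isPGroup
        (lt_of_le_of_ne hRP (by rintro rfl; exact hS hP))
      exact h3.ne' (h2.eq_of_le (hP.isPGroup.to_le inf_le_left) h3.le (inf_le_inf_right _ hP.le))

theorem card_subn {H : Subgroup G} (hH : IsPGroup p H) (P : Sylow p G) :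
    Nat.card {g : G // (H.subgroupOf (H ⊔ zpowers g)).IsSubnormal} =
      (univ.filter fun k => k ∈ (⊤ : Subgroup G) ∧ H ≤ MulAut.conj k • (P : Subgroup G)).card := by
  have h1 := sum_FF p ⊤ H
  rw [sum_congr rfl fun Q hQ => FF_eq p ⊤ Q le_top (mem_filter.1 hQ).2.2.1, ← sum_filter,
    filter_filter, ← Nat.cast_sum, Nat.cast_inj] at h1
  rw [← sylow_sum p (isSylowIn_top P) H, Nat.card_eq_fintype_card, Fintype.card_subtype]
  convert h1.symm using 2
  · exact filter_congr fun g _ => by simp [S4089.subn_iff hH, mem_XX]; tauto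
  · exact filter_congr fun Q _ => ⟨fun h => ⟨⟨le_top, h.1.isPGroup, h.2⟩, h.1⟩, fun h => ⟨h.2, h.1.2.2⟩⟩

end Helpers

open Classical Pointwise in
/-- Let G be a finite group, p a prime dividing the order of G, H a p-subgroup of G and P a Sylow p-subgroup of G. Call the subnormalizer of H the set of elements g of G such that H is subnormal in the subgroup generated by H and g. Then the number of elements of the subnormalizer of H equals the number of Sylow p-subgroups of G containing H times the order of N_G(P), and also equals the number of conjugates of H contained in P times the order of N_G(H). -/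
theorem result {G : Type*} [Group G] [Finite G] (p : ℕ) [Fact p.Prime]
    (hp : p ∣ Nat.card G) (H : Subgroup G) (hH : IsPGroup p H) (P : Sylow p G) :
    Nat.card {g : G // ((H).subgroupOf (H ⊔ Subgroup.zpowers g)).IsSubnormal} =
        Nat.card {Q : Sylow p G // H ≤ (Q : Subgroup G)} * Nat.card (Subgroup.normalizer ((P : Subgroup G) : Set G)) ∧
    Nat.card {g : G // ((H).subgroupOf (H ⊔ Subgroup.zpowers g)).IsSubnormal} =
        Nat.card {K : Subgroup G // K ≤ (P : Subgroup G) ∧ ∃ g : G, K = H.map (MulAut.conj g).toMonoidHom} *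
          Nat.card (Subgroup.normalizer (H : Set G)) := by
  have := Fintype.ofFinite G
  rw [card_subn p hH P]
  constructor
  · rw [count (P : Subgroup G) ⊤ (H ≤ ·), top_inf_eq, ← Fintype.card_subtype, ← Nat.card_eq_fintype_card]
    congr 1
    have h0 : ∀ Q : Sylow p G, ∃ k ∈ (⊤ : Subgroup G), (Q : Subgroup G) = MulAut.conj k • (P : Subgroup G) := by
      intro Q
      obtain ⟨g, hg⟩ := MulAction.exists_smul_eq G P Q
      exact ⟨g, Subgroup.mem_top g, hg ▸ rfl⟩
    refine (Nat.card_eq_of_bijective (fun Q => ⟨Q.1, Q.2, h0 Q.1⟩) ⟨fun Q Q' h => ?_, ?_⟩).symm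
    · exact Subtype.ext (Sylow.ext (congrArg Subtype.val h))
    · rintro ⟨_, h, g, -, rfl⟩
      exact ⟨⟨g • P, h⟩, rfl⟩
  · have h1 := count H ⊤ (· ≤ (P : Subgroup G))
    rw [top_inf_eq, ← Fintype.card_subtype (fun B => _ ∧ ∃ k ∈ _, B = _), ← Nat.card_eq_fintype_card] at h1
    rw [Finset.card_equiv (Equiv.inv G) (t := Finset.univ.filter fun k => k ∈ (⊤ : Subgroup G) ∧
      MulAut.conj k • H ≤ P) fun k => by simp [Subgroup.pointwise_smul_subset_iff], h1]
    congr 1
    exact Nat.card_congr (Equiv.subtypeEquivRight fun K => by simp [CL.Grp.conj_smul_eq_map])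

end Cfsg.Agent.S4088
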