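import Cfsg.Statements.S4090
import Cfsg.Agent.S4088
import Cfsg.Agent.Fgs.PCount2
import Cfsg.Agent.Loc.PSolv

set_option autoImplicit false
open scoped BigOperators
open Cfsg

namespace Cfsg.Agent.S4090

section Helpers
open Subgroup CL.Grp

variable {G : Type*} [Group G] [Finite G] {p : ℕ} [hp : Fact p.Prime] {H : Subgroup G}

/-- the elements conjugating `H` into `K` -/
def T (H K : Subgroup G) : Set G := {k | ∀ h ∈ H, k⁻¹ * h * k ∈ K}

theorem inf_le (P : Sylow p G) {M L : Subgroup G} [M.Normal] (hc : (M.relIndex L).Coprime p) :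
    (P : Subgroup G) ⊓ L ≤ M := by
  obtain ⟨k, hk⟩ := IsPGroup.iff_card.1 (P.isPGroup'.to_le (inf_le_left : (P : Subgroup G) ⊓ L ≤ P))
  exact relIndex_eq_one.1 (Nat.eq_one_of_dvd_coprimes (hc.pow_right k)
    (CL.Loc.relIndex_dvd_relIndex_of_le_of_normal inf_le_right) (hk ▸ relIndex_dvd_card _ _))

theorem step (hH : IsPGroup p H) (P : Sylow p G) {M L : Subgroup G} [hM : M.Normal] [hL : L.Normal]
    (hML : M ≤ L) (hc : (M.relIndex L).Coprime p) :
    (T H (P ⊔ M)).ncard * Nat.card L = (T H (P ⊔ L)).ncard *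
      Nat.card {u : G // u ∈ L ∧ ∀ h ∈ H, h * u * h⁻¹ * u⁻¹ ∈ M} := by
  have h1 : (T H (P ⊔ L)).ncard = Nat.card L * (((↑) : G → G ⧸ L) '' T H (P ⊔ L)).ncard := by
    refine CL.Fgs.ncard_eq_mul_of_fibers _ _ _ _ (fun x hx => ⟨x, hx, rfl⟩) ?_
    rintro _ ⟨k, hk, rfl⟩
    refine Eq.trans ?_ (Nat.card_coe_set_eq (L : Set G)).symm
    rw [← Set.ncard_image_of_injective (L : Set G) (mul_right_injective k)]
    congr 1
    ext t
    constructor
    · rintro ⟨-, h⟩
      exact ⟨_, QuotientGroup.eq.1 h.symm, by simp⟩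
    · rintro ⟨l, hl, rfl⟩
      refine ⟨fun h hh => ?_, (QuotientGroup.eq.2 (by simpa using hl)).symm⟩
      have := mul_mem (mul_mem (inv_mem (mem_sup_right hl)) (hk h hh)) (mem_sup_right hl)
      simpa [mul_assoc] using this
  have h2 : (T H (P ⊔ M)).ncard = Nat.card {u : G // u ∈ L ∧ ∀ h ∈ H, h * u * h⁻¹ * u⁻¹ ∈ M} *
      (((↑) : G → G ⧸ L) '' T H (P ⊔ L)).ncard := by
    refine CL.Fgs.ncard_eq_mul_of_fibers _ _ _ _
      (fun x hx => ⟨x, fun h hh => sup_le_sup_left hML _ (hx h hh), rfl⟩) ?_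
    rintro _ ⟨k, hk, rfl⟩
    obtain ⟨k0, e0, hk0⟩ : ∃ k0 : G, (k0 : G ⧸ L) = k ∧ ∀ h ∈ H, k0⁻¹ * h * k0 ∈ (P : Subgroup G) := by
      obtain ⟨x, hx, h3⟩ := (isSylowIn_of_le P (le_sup_left : _ ≤ (P : Subgroup G) ⊔ L)).exists_conj_le
        (IsPGroup.conj_smul hH k⁻¹) ((conj_smul_le_iff _ _ _).2 fun h hh => by simpa using hk h hh)
      obtain ⟨a, ha, l, hl, rfl⟩ := (mem_sup_of_le_normalizer
        (by rw [normalizer_eq_top]; exact le_top)).1 hx
      refine ⟨k * l⁻¹, (QuotientGroup.eq.2 (by simpa using hl)), fun h hh => ?_⟩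
      rw [conj_smul_conj_smul, conj_smul_le_iff] at h3
      have := mul_mem (mul_mem (inv_mem ha) (h3 h hh)) ha
      simpa [mul_assoc] using this
    refine Eq.trans ?_
      (Nat.card_coe_set_eq {u : G | u ∈ L ∧ ∀ h ∈ H, h * u * h⁻¹ * u⁻¹ ∈ M}).symm
    rw [← Set.ncard_image_of_injective {u : G | u ∈ L ∧ ∀ h ∈ H, h * u * h⁻¹ * u⁻¹ ∈ M}
      (mul_left_injective k0), ← e0]
    congr 1
    ext t
    constructor
    · rintro ⟨ht, h⟩
      have h3 : t * k0⁻¹ ∈ L := by
        have := hL.conj_mem _ (QuotientGroup.eq.1 h.symm) k0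
        simpa [mul_assoc] using this
      refine ⟨_, ⟨h3, fun h hh => ?_⟩, by simp⟩
      have h4 : (k0⁻¹ * h * k0)⁻¹ * (t⁻¹ * h * t) ∈ ((M ⊔ P) ⊓ L : Subgroup G) := by
        refine mem_inf.2 ⟨?_, ?_⟩
        · rw [sup_comm]; exact mul_mem (inv_mem (mem_sup_left (hk0 h hh))) (ht h hh)
        have := hL.conj_mem _ (mul_mem (hL.conj_mem _ (inv_mem h3) h⁻¹) h3) k0⁻¹
        simpa [mul_assoc] using this
      rw [dedekind_right (by rw [normalizer_eq_top]; exact le_top) hML,
        sup_eq_left.2 (inf_le P hc)] at h4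
      have := hM.conj_mem _ h4 (t * k0⁻¹ * h * k0)
      simpa [mul_assoc] using this
    · rintro ⟨u, ⟨hu, h3⟩, rfl⟩
      refine ⟨fun h hh => ?_, (QuotientGroup.eq.2 (by simpa [mul_assoc] using hL.conj_mem _ hu k0⁻¹)).symm⟩
      have := mul_mem (mem_sup_right (S := (P : Subgroup G))
        (hM.conj_mem _ (h3 h hh) (k0⁻¹ * u⁻¹))) (mem_sup_left (hk0 h hh))
      simpa [mul_assoc] using this
  rw [h1, h2]; ring

theorem main (hH : IsPGroup p H) (P : Sylow p G) (n : ℕ) : ∀ M : Fin (n + 1) → Subgroup G,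
    M (Fin.last n) = ⊤ → Monotone M → (∀ i, (M i).Normal) →
    (∀ i : Fin n, (∃ m : ℕ, (M i.castSucc).relIndex (M i.succ) = p ^ m) ∨
      ((M i.castSucc).relIndex (M i.succ)).Coprime p) →
    (T H (P ⊔ M 0)).ncard = Nat.card ↥((P : Subgroup G) ⊔ M 0) *
      ∏ i : Fin n, (if ((M i.castSucc).relIndex (M i.succ)).Coprime p then
        Nat.card {u : G // u ∈ M i.succ ∧ ∀ h ∈ H, h * u * h⁻¹ * u⁻¹ ∈ M i.castSucc} /
          Nat.card (M i.castSucc) else 1) := by
  induction n with
  | zero =>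
    intro M h _ _ _
    rw [show M 0 = ⊤ from h, sup_top_eq, show T H ⊤ = Set.univ from Set.eq_univ_of_forall
      fun _ _ _ => trivial]
    simp
  | succ n ih =>
    intro M h1 h2 h3 h4
    have h5 := ih (fun i => M i.succ) h1 (fun i j h => h2 (Fin.succ_le_succ_iff.2 h)) (fun i => h3 _)
      fun i => h4 i.succ
    rw [Fin.prod_univ_succ]
    simp only [Fin.succ_castSucc] at h5
    generalize (∏ i : Fin n, _ : ℕ) = c at h5 ⊢
    have hle : M 0 ≤ M (Fin.succ 0) := h2 (Fin.zero_le _)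
    have h6 := h4 0
    rw [Fin.castSucc_zero] at h6 ⊢
    have := h3 0
    have := h3 (Fin.succ 0)
    generalize M (Fin.succ 0) = L at *
    generalize M 0 = N at *
    split_ifs with hc
    · let C : Subgroup G := (L ⊓ (centralizer ((H.map (QuotientGroup.mk' N) : Subgroup (G ⧸ N)) :
        Set (G ⧸ N))).comap (QuotientGroup.mk' N))
      have hC : Nat.card {u : G // u ∈ L ∧ ∀ h ∈ H, h * u * h⁻¹ * u⁻¹ ∈ N} = Nat.card C := by
        refine Nat.card_congr (Equiv.subtypeEquivRight fun u => and_congr_right fun _ => ?_)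
        refine Iff.trans ?_ (mem_comap (f := QuotientGroup.mk' N) (x := u)).symm
        simp only [mem_centralizer_iff, SetLike.mem_coe, mem_map, SetLike.mem_coe,
          forall_exists_index, and_imp, forall_apply_eq_imp_iff₂]
        refine forall₂_congr fun h _ => ?_
        rw [← QuotientGroup.eq_one_iff, mul_assoc, ← mul_inv_rev, ← QuotientGroup.mk'_apply, map_mul,
          map_inv, mul_inv_eq_one, map_mul, map_mul]
      have hNC : N ≤ C := le_inf hle fun x hx => by
        rw [mem_comap, QuotientGroup.mk'_apply, (QuotientGroup.eq_one_iff x).2 hx]; exact one_mem _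
      have h7 := step hH P hle hc
      have h8 := card_sup_mul_card_inf_of_normal (P : Subgroup G) N
      have h9 := card_sup_mul_card_inf_of_normal (P : Subgroup G) L
      rw [show (P : Subgroup G) ⊓ L = (P : Subgroup G) ⊓ N from
        le_antisymm (le_inf inf_le_left (inf_le P hc)) (inf_le_inf_left _ hle)] at h9
      rw [hC] at h7 ⊢
      rw [h5, ← card_mul_relIndex hle, ← card_mul_relIndex hNC] at h7
      rw [← card_mul_relIndex hle, ← mul_assoc, ← h8, mul_right_comm] at h9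
      rw [Nat.eq_of_mul_eq_mul_right Nat.card_pos h9] at h7
      rw [← card_mul_relIndex hNC, Nat.mul_div_cancel_left _ Nat.card_pos]
      refine Nat.eq_of_mul_eq_mul_right (m := Nat.card N * N.relIndex L)
        (by rw [card_mul_relIndex hle]; exact Nat.card_pos) ?_
      rw [h7]; ring
    · obtain ⟨m, hm⟩ := h6.resolve_right hc
      have e : (P : Subgroup G) ⊔ N = (P : Subgroup G) ⊔ L := le_antisymm (sup_le_sup_left hle _)
        (sup_le le_sup_left fun x hx => by
          obtain ⟨k, hk, s, hs, rfl⟩ := (isSylowIn_inf_normal P L).exists_mul_eq_of_relIndex_pow hm hx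
          exact mul_mem (mem_sup_right hk) (mem_sup_left hs.1))
      rw [e, h5, one_mul]

end Helpers

/-- Let G be a finite p-solvable group, H a p-subgroup of G and P a Sylow p-subgroup, and fix a chain of normal subgroups 1 = M₀ ≤ M₁ ≤ ⋯ ≤ Mₙ = G of G each of whose factors is a p-group or a p'-group. Then the number of elements g of G such that H is subnormal in the subgroup generated by H and g equals the order of P times the product, over the factors Mᵢ₊₁/Mᵢ of order prime to p, of the order of the centralizer of H in Mᵢ₊₁/Mᵢ (counted as the number of u ∈ Mᵢ₊₁ with [h, u] ∈ Mᵢ for all h ∈ H, divided by the order of Mᵢ). -/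
theorem result {G : Type*} [Group G] [Finite G] (p : ℕ) [Fact p.Prime]
    (hG : Cfsg.IsPSolvable p G) (H : Subgroup G) (hH : IsPGroup p H) (P : Sylow p G)
    (n : ℕ) (M : Fin (n + 1) → Subgroup G) (h0 : M 0 = ⊥) (hn : M (Fin.last n) = ⊤) (hmono : Monotone M)
    (hnormal : ∀ i, (M i).Normal)
    (hfac : ∀ i : Fin n, (∃ m : ℕ, (M i.castSucc).relIndex (M i.succ) = p ^ m) ∨ ((M i.castSucc).relIndex (M i.succ)).Coprime p) :
    Nat.card {g : G // ((H).subgroupOf (H ⊔ Subgroup.zpowers g)).IsSubnormal} =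
      Nat.card (P : Subgroup G) *
        ∏ i : Fin n, (if ((M i.castSucc).relIndex (M i.succ)).Coprime p then
          Nat.card {u : G // u ∈ M i.succ ∧ ∀ h ∈ H, h * u * h⁻¹ * u⁻¹ ∈ M i.castSucc} / Nat.card (M i.castSucc)
          else 1) := by
  have := Fintype.ofFinite G
  have h1 := main hH P n M hn hmono hnormal hfac
  rw [h0, sup_bot_eq] at h1
  rw [S4088.card_subn p hH P, ← h1, ← Set.ncard_coe_finset]
  congr 1
  ext k
  simp only [Finset.coe_filter, Finset.mem_univ, Subgroup.mem_top, true_and, Set.mem_ofPred_eq]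
  exact forall₂_congr fun h _ => CL.Grp.mem_conj_smul_iff _ _ _

end Cfsg.Agent.S4090
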