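import Cfsg.Statements.S4091
import Cfsg.Agent.Fgs.NavRizo

set_option autoImplicit false
open Cfsg

namespace Cfsg.Agent.S4091

open CL.Grp CL.NavRizo Subgroup
open scoped Pointwise

/-- number of `g` conjugating `y` into `P` -/
noncomputable def bb {G : Type*} [Group G] (P : Subgroup G) (y : G) : ℕ :=
  Nat.card {g : G // g⁻¹ * y * g ∈ P}

theorem bb_conj {G : Type*} [Group G] (P : Subgroup G) (y h : G) : bb P (h * y * h⁻¹) = bb (P : Subgroup G) y := by
  unfold bb
  refine Nat.card_congr ((Equiv.mulLeft h⁻¹).subtypeEquiv fun g => ?_)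
  simp only [Equiv.coe_mulLeft, mul_inv_rev, inv_inv, mul_assoc]

theorem cnt_zpowers {G : Type*} [Group G] (P : Subgroup G) (x : P) :
    cnt P.subtype (zpowers x) = bb (P : Subgroup G) x := by
  unfold cnt bb
  refine Nat.card_congr (Equiv.subtypeEquivRight fun g => ?_)
  rw [Subgroup.range_subtype]
  refine ⟨fun h => h x (mem_zpowers x), ?_⟩
  rintro h _ ⟨k, rfl⟩
  have := P.zpow_mem h k
  simpa [← conj_zpow] using (by
    have e : (g⁻¹ * x * g) ^ k = g⁻¹ * (x : G) ^ k * g := by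
      have := conj_zpow (a := g⁻¹) (b := (x : G)) (i := k)
      simpa using this
    rwa [e] at this : g⁻¹ * (x : G) ^ k * g ∈ P)

theorem cnt_top {G : Type*} [Group G] [Finite G] (P : Subgroup G) :
    cnt P.subtype ⊤ = Nat.card (normalizer (P : Set G)) := by
  unfold cnt
  refine Nat.card_congr (Equiv.subtypeEquivRight fun g => ?_)
  rw [Subgroup.range_subtype]
  constructor
  · intro h
    rw [← inv_mem_iff, ← conj_smul_eq_self_iff]
    apply Subgroup.eq_of_le_of_card_ge
    · rw [conj_smul_le_iff]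
      intro x hx
      simpa using h ⟨x, hx⟩ (mem_top _)
    · rw [card_conj_smul]
  · intro h x _
    have := (mem_normalizer_iff.mp (inv_mem h) x).mp x.2
    simpa using this

theorem count_eq {G : Type*} [Group G] [Fintype G] (p : ℕ) [Fact p.Prime] (P : Sylow p G)
    [Fintype (P : Subgroup G)] :
    (Nat.card {g : G // ∃ k : ℕ, orderOf g = p ^ k} : ℝ) =
      Nat.card G * ∑ x : (P : Subgroup G), ((bb (P : Subgroup G) x : ℕ) : ℝ)⁻¹ := by
  classical
  set U := Finset.univ.filter (fun g : G => ∃ k : ℕ, orderOf g = p ^ k) with hU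
  have h1 : Nat.card {g : G // ∃ k : ℕ, orderOf g = p ^ k} = U.card := by
    rw [Nat.card_eq_fintype_card, Fintype.card_subtype]
  have hb : ∀ y : G, bb (P : Subgroup G) y =
      (Finset.univ.filter (fun g : G => g⁻¹ * y * g ∈ (P : Subgroup G))).card := fun y => by
    unfold bb
    rw [Nat.card_eq_fintype_card, Fintype.card_subtype]
  have hpos : ∀ y ∈ U, 0 < bb (P : Subgroup G) y := by
    intro y hy
    obtain ⟨k, hk⟩ : ∃ k : ℕ, orderOf y = p ^ k := by simpa [hU] using hy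
    obtain ⟨g, hg⟩ := exists_conj_le_sylow P (U := zpowers y)
      (IsPGroup.of_card (by rw [Nat.card_zpowers, hk]))
    rw [conj_smul_le_iff] at hg
    rw [hb]
    exact Finset.card_pos.mpr ⟨g⁻¹, by simpa using hg y (mem_zpowers y)⟩
  have h2 : (U.card : ℝ) = ∑ y ∈ U, ∑ g : G,
      if g⁻¹ * y * g ∈ (P : Subgroup G) then ((bb (P : Subgroup G) y : ℕ) : ℝ)⁻¹ else 0 := by
    rw [Finset.card_eq_sum_ones, Nat.cast_sum]
    refine Finset.sum_congr rfl fun y hy => ?_
    rw [← Finset.sum_filter, Finset.sum_const, ← hb, nsmul_eq_mul, mul_inv_cancel₀]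
    · simp
    · exact_mod_cast (hpos y hy).ne'
  rw [h1, h2, Finset.sum_comm, Nat.card_eq_fintype_card, ← Finset.card_univ, ← nsmul_eq_mul,
    ← Finset.sum_const]
  refine Finset.sum_congr rfl fun g _ => ?_
  rw [← Finset.sum_filter]
  symm
  refine Finset.sum_bij (fun x _ => g * x * g⁻¹) ?_ ?_ ?_ ?_
  · intro x _
    obtain ⟨k, hk⟩ := IsPGroup.iff_orderOf.mp P.isPGroup' x
    simp only [hU, Finset.mem_filter, Finset.mem_univ, true_and]
    refine ⟨⟨k, ?_⟩, by simp [mul_assoc]⟩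
    rw [← hk, ← Subgroup.orderOf_coe]
    exact (MulAut.conj g).orderOf_eq (x : G)
  · intro x _ x' _ h
    exact Subtype.ext (by simpa using h)
  · intro y hy
    refine ⟨⟨g⁻¹ * y * g, (Finset.mem_filter.mp hy).2⟩, Finset.mem_univ _, ?_⟩
    simp [mul_assoc]
  · intro x _
    rw [bb_conj]

theorem amgm {ι : Type*} [Fintype ι] [Nonempty ι] (z : ι → ℝ) (hz : ∀ i, 0 ≤ z i) :
    (Fintype.card ι : ℝ) ^ Fintype.card ι * ∏ i, z i ≤ (∑ i, z i) ^ Fintype.card ι := by
  have hm : (0 : ℝ) < Fintype.card ι := by exact_mod_cast Fintype.card_pos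
  have h := Real.geom_mean_le_arith_mean_weighted Finset.univ
    (fun _ : ι => (Fintype.card ι : ℝ)⁻¹) z (fun _ _ => by positivity)
    (by simp [hm.ne']) (fun i _ => hz i)
  rw [← Finset.mul_sum, Real.finsetProd_rpow _ _ (fun i _ => hz i)] at h
  have h0 : 0 ≤ ∏ i, z i := Finset.prod_nonneg fun i _ => hz i
  have h2 := pow_le_pow_left₀ (by positivity) h (Fintype.card ι)
  rw [Real.rpow_inv_natCast_pow h0 Fintype.card_ne_zero, mul_pow, inv_pow] at h2
  calc _ ≤ (Fintype.card ι : ℝ) ^ Fintype.card ι *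
        (((Fintype.card ι : ℝ) ^ Fintype.card ι)⁻¹ * (∑ i, z i) ^ Fintype.card ι) := by gcongr
    _ = _ := by field_simp


theorem arith (a n Nn A s : ℝ) (m p : ℕ) (hp : 1 ≤ p) (ha : 0 ≤ a) (hn : 0 ≤ n) (hs : 0 ≤ s)
    (h1 : a ^ m ≤ A * s ^ m) (h2 : A ^ p ≤ (n * Nn) ^ m * Nn ^ ((p - 1) * m)) :
    (a ^ p * n ^ (p - 1)) ^ m ≤ (((n * Nn) * s) ^ p) ^ m := by
  obtain ⟨k, rfl⟩ := Nat.exists_eq_add_of_le hp
  rw [Nat.add_sub_cancel_left] at h2 ⊢
  calc (a ^ (1 + k) * n ^ k) ^ m = (a ^ m) ^ (1 + k) * n ^ (k * m) := by ring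
    _ ≤ (A * s ^ m) ^ (1 + k) * n ^ (k * m) := by gcongr
    _ = A ^ (1 + k) * ((s ^ m) ^ (1 + k) * n ^ (k * m)) := by ring
    _ ≤ ((n * Nn) ^ m * Nn ^ (k * m)) * ((s ^ m) ^ (1 + k) * n ^ (k * m)) := by gcongr
    _ = (((n * Nn) * s) ^ (1 + k)) ^ m := by ring

/-- Let G be a finite p-solvable group, P a Sylow p-subgroup of G, u the number of p-elements of G (elements of p-power order, the identity included) and n the number of Sylow p-subgroups of G. Then u/#P ≥ n^((p−1)/p), stated as u^p ≥ #P^p · n^(p−1). -/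
theorem result {G : Type*} [Group G] [Finite G] (p : ℕ) [Fact p.Prime]
    (hG : Cfsg.IsPSolvable p G) (P : Sylow p G) :
    Nat.card (P : Subgroup G) ^ p * Nat.card (Sylow p G) ^ (p - 1) ≤ Nat.card {g : G // ∃ k : ℕ, orderOf g = p ^ k} ^ p := by
  classical
  have := Fintype.ofFinite G
  have hp : p.Prime := Fact.out
  have hNR := nr_cnt P.isPGroup' _ G rfl hG (P : Subgroup G).subtype
    (by rw [Subgroup.range_subtype]; exact isSylowIn_top P)
  unfold NR at hNR
  set m := Fintype.card (P : Subgroup G) with hm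
  set Nn := Nat.card (normalizer ((P : Subgroup G) : Set G)) with hNn
  set n := Nat.card (Sylow p G) with hn
  have hGn : Nat.card G = n * Nn := by
    rw [hn, P.card_eq_index_normalizer]
    exact (Subgroup.index_mul_card _).symm
  have hle : (∏ x : (P : Subgroup G), bb (P : Subgroup G) x) ^ p ≤ Nat.card G ^ m * Nn ^ ((p - 1) * m) := by
    rw [← Finset.prod_pow]
    simp only [← cnt_zpowers]
    rw [hNR, cnt_top]
    gcongr
    rw [hm, ← Finset.card_univ, ← Finset.prod_const]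
    exact Finset.prod_le_prod' fun x _ => Finite.card_subtype_le _
  have hbpos : ∀ x : (P : Subgroup G), 0 < bb (P : Subgroup G) x := fun x =>
    Nat.card_pos_iff.mpr ⟨⟨⟨1, by simp⟩⟩, inferInstance⟩
  have hc := count_eq p P
  set s := ∑ x : (P : Subgroup G), ((bb (P : Subgroup G) x : ℕ) : ℝ)⁻¹ with hs
  have hs0 : 0 ≤ s := Finset.sum_nonneg fun x _ => by positivity
  have hA := amgm (fun x : (P : Subgroup G) => ((bb (P : Subgroup G) x : ℕ) : ℝ)⁻¹) (fun x => by positivity)
  rw [Finset.prod_inv_distrib, ← Nat.cast_prod, ← hm, ← hs] at hA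
  set A := ∏ x : (P : Subgroup G), bb (P : Subgroup G) x
  have hA0 : (0 : ℝ) < A := by exact_mod_cast Finset.prod_pos fun x _ => hbpos x
  have hA' : (m : ℝ) ^ m ≤ A * s ^ m := by
    rw [← div_eq_mul_inv, div_le_iff₀ hA0] at hA
    linarith
  have hm0 : m ≠ 0 := Fintype.card_ne_zero
  have hleR : (A : ℝ) ^ p ≤ (n * Nn : ℝ) ^ m * (Nn : ℝ) ^ ((p - 1) * m) := by
    rw [hGn] at hle; exact_mod_cast hle
  rw [Nat.card_eq_fintype_card (α := (P : Subgroup G)), ← hm]
  have goal := arith (m : ℝ) n Nn A s m p hp.one_le (by positivity) (by positivity) hs0 hA' hleR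
  have goal2 := (pow_le_pow_iff_left₀ (by positivity) (by positivity) hm0).mp goal
  have hc' : (n * Nn : ℝ) * s = Nat.card {g : G // ∃ k : ℕ, orderOf g = p ^ k} := by
    rw [hc, hGn]; push_cast; ring
  rw [hc'] at goal2
  exact_mod_cast goal2

end Cfsg.Agent.S4091
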