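import Cfsg.Statements.S4092
import Cfsg.Agent.Fgs.SylTI

set_option autoImplicit false
open Cfsg
open scoped Pointwise

namespace Cfsg.Agent.S4092

/-- Let G be a finite group, p a prime and P a Sylow p-subgroup of G that is not normal in G. Then G has at least p·#P elements of p-power order (the identity included). -/
theorem result {G : Type*} [Group G] [Finite G] (p : ℕ) [Fact p.Prime]
    (P : Sylow p G) (hP : ¬ (P : Subgroup G).Normal) :
    p * Nat.card (P : Subgroup G) ≤ Nat.card {g : G // ∃ k : ℕ, orderOf g = p ^ k} := by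
  classical
  obtain ⟨Q, hQ⟩ : ∃ Q : Sylow p G, P ≠ Q := by
    by_contra h
    push Not at h
    haveI : Subsingleton (Sylow p G) := ⟨fun a b => (h a).symm.trans (h b)⟩
    exact hP (Sylow.normal_of_subsingleton P)
  obtain ⟨S, T, hST, hmax⟩ := CL.Fgs.exists_max_sylow_inf hQ
  set D : Subgroup G := (S : Subgroup G) ⊓ T with hD
  have hDp : IsPGroup p D := S.2.to_inf_left
  have hmod := CL.Fgs.card_sylow_ge_modEq_one hDp
  haveI := Fintype.ofFinite G
  haveI := Fintype.ofFinite (Sylow p G)
  set F : Finset (Sylow p G) := Finset.univ.filter fun Q => D ≤ (Q : Subgroup G) with hF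
  have hFc : Nat.card {Q : Sylow p G // D ≤ (Q : Subgroup G)} = F.card := by
    rw [Nat.card_eq_fintype_card, Fintype.card_subtype]
  rw [hFc] at hmod
  have hF2 : 2 ≤ F.card := Finset.one_lt_card.2 ⟨S, by simp [hF, hD], T, by simp [hF, hD], hST⟩
  have hFp : p + 1 ≤ F.card := by
    have h1 := (Nat.modEq_iff_dvd' (by omega : 1 ≤ F.card)).1 hmod.symm
    have := Nat.le_of_dvd (by omega) h1
    omega
  have hinter : ∀ U ∈ F, ∀ V ∈ F, U ≠ V → (U : Subgroup G) ⊓ V = D := by
    intro U hU V hV hUV
    simp only [hF, Finset.mem_filter, Finset.mem_univ, true_and] at hU hV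
    exact (Subgroup.eq_of_le_of_card_ge (le_inf hU hV) (hmax U V hUV)).symm
  let part : Sylow p G → Finset G := fun U => Finset.univ.filter fun x => x ∈ U ∧ x ∉ D
  let DF : Finset G := Finset.univ.filter fun x => x ∈ D
  have hDF : DF.card = Nat.card D := by
    rw [Nat.card_eq_fintype_card, Fintype.card_subtype]
  have hpart : ∀ U ∈ F, (part U).card + Nat.card D = Nat.card (P : Subgroup G) := by
    intro U hU
    simp only [hF, Finset.mem_filter, Finset.mem_univ, true_and] at hU
    rw [← hDF, ← Finset.card_union_of_disjoint, Nat.card_congr (Sylow.equiv P U).toEquiv,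
      Nat.card_eq_fintype_card, Fintype.card_subtype]
    · congr 1
      ext x
      simp only [part, DF, Finset.mem_union, Finset.mem_filter, Finset.mem_univ, true_and]
      constructor
      · rintro (h | h)
        · exact h.1
        · exact hU h
      · intro h
        by_cases hx : x ∈ D
        · exact Or.inr hx
        · exact Or.inl ⟨h, hx⟩
    · rw [Finset.disjoint_filter]
      tauto
  have hdisj : (F : Set (Sylow p G)).PairwiseDisjoint part := by
    intro U hU V hV hUV
    rw [Function.onFun, Finset.disjoint_filter]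
    rintro x - ⟨h1, h2⟩ ⟨h3, -⟩
    exact h2 (hinter U hU V hV hUV ▸ (⟨h1, h3⟩ : x ∈ (U : Subgroup G) ⊓ V))
  have hle : (F.biUnion part).card + DF.card ≤ Nat.card {g : G // ∃ k : ℕ, orderOf g = p ^ k} := by
    rw [← Finset.card_union_of_disjoint, Nat.card_eq_fintype_card, Fintype.card_subtype]
    · apply Finset.card_le_card
      intro x hx
      simp only [part, DF, Finset.mem_union, Finset.mem_biUnion, Finset.mem_filter, Finset.mem_univ,
        true_and] at hx ⊢
      rcases hx with ⟨U, -, hx, -⟩ | hx
      · exact CL.Fgs.exists_orderOf_eq_pow_of_mem U.2 hx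
      · exact CL.Fgs.exists_orderOf_eq_pow_of_mem hDp hx
    · rw [Finset.disjoint_biUnion_left]
      intro U _
      rw [Finset.disjoint_filter]
      tauto
  rw [Finset.card_biUnion hdisj, hDF,
    Finset.sum_const_nat (m := Nat.card (P : Subgroup G) - Nat.card D)
      (fun U hU => by have := hpart U hU; omega)] at hle
  have hlt : D < S :=
    lt_of_le_of_ne inf_le_left fun h => hST (CL.Fgs.sylow_eq_of_le (h.ge.trans inf_le_right))
  have hpd : p * Nat.card D ≤ Nat.card (P : Subgroup G) := by
    have h1 := CL.Fgs.card_lt_card_of_lt hlt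
    rw [Nat.card_congr (Sylow.equiv P S).toEquiv]
    obtain ⟨a, ha⟩ := IsPGroup.iff_card.1 hDp
    obtain ⟨b, hb⟩ := IsPGroup.iff_card.1 S.2
    rw [ha, hb] at h1 ⊢
    rw [← pow_succ']
    exact Nat.pow_le_pow_right (Fact.out : p.Prime).pos
      ((Nat.pow_lt_pow_iff_right (Fact.out : p.Prime).one_lt).1 h1)
  refine le_trans ?_ hle
  have h1 : (p + 1) * (Nat.card (P : Subgroup G) - Nat.card D) ≤
      F.card * (Nat.card (P : Subgroup G) - Nat.card D) := Nat.mul_le_mul_right _ hFp
  have h2 : Nat.card D ≤ Nat.card (P : Subgroup G) :=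
    le_trans (Nat.le_mul_of_pos_left _ (Fact.out : p.Prime).pos) hpd
  obtain ⟨r, hr⟩ := Nat.exists_eq_add_of_le h2
  rw [hr] at h1 hpd ⊢
  rw [Nat.add_sub_cancel_left] at h1 ⊢
  nlinarith

end Cfsg.Agent.S4092
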