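import Cfsg.Statements.S4093
import Cfsg.Agent.Fgs.SylTI

set_option autoImplicit false
open scoped BigOperators
open Cfsg
open scoped Pointwise

namespace Cfsg.Agent.S4093

theorem card_conj_mul {G : Type*} [Group G] [Finite G] (N : Subgroup G) (x : G) :
    Nat.card {y : G // ∃ n ∈ N, y = n * x * n⁻¹} =
      Nat.card N / Nat.card ↥(N ⊓ Subgroup.centralizer ({x} : Set G)) := by
  letI : MulAction N G := MulAction.compHom G ((MulAut.conj (G := G)).comp N.subtype)
  have h1 : Nat.card {y : G // ∃ n ∈ N, y = n * x * n⁻¹} = Nat.card (MulAction.orbit N x) := by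
    apply Nat.card_congr
    refine Equiv.subtypeEquivRight fun y => ?_
    constructor
    · rintro ⟨n, hn, rfl⟩
      exact ⟨⟨n, hn⟩, rfl⟩
    · rintro ⟨n, rfl⟩
      exact ⟨n, n.2, rfl⟩
  have h2 : MulAction.stabilizer N x = (Subgroup.centralizer ({x} : Set G)).subgroupOf N := by
    ext n
    rw [MulAction.mem_stabilizer_iff, Subgroup.mem_subgroupOf, Subgroup.mem_centralizer_singleton_iff]
    exact mul_inv_eq_iff_eq_mul
  rw [h1, Nat.card_coe_set_eq, ← MulAction.index_stabilizer, h2, inf_comm,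
    ← CL.Grp.card_inf_mul_relIndex (Subgroup.centralizer ({x} : Set G)) N,
    Nat.mul_div_cancel_left _ Nat.card_pos]
  rfl

/-- Let G be a finite group with a normal subgroup N complementing a Sylow p-subgroup P (a normal p-complement). Then the number of elements of G of p-power order equals the sum over x ∈ P of the index of C_N(x) in N. -/
theorem result {G : Type*} [Group G] [Finite G] (p : ℕ) [Fact p.Prime]
    (P : Sylow p G) (N : Subgroup G) [N.Normal] (hNP : N.IsComplement' (P : Subgroup G)) :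
    Nat.card {g : G // ∃ k : ℕ, orderOf g = p ^ k} =
      ∑ᶠ x : (P : Subgroup G), Nat.card N / Nat.card ↥(N ⊓ Subgroup.centralizer ({(x : G)} : Set G)) := by
  haveI := Fintype.ofFinite (P : Subgroup G)
  rw [finsum_eq_sum_of_fintype]
  simp only [← card_conj_mul]
  rw [← Nat.card_sigma]
  symm
  let f : (Σ x : (P : Subgroup G), {y : G // ∃ n ∈ N, y = n * x * n⁻¹}) →
      {g : G // ∃ k : ℕ, orderOf g = p ^ k} := fun z => ⟨z.2.1, by
    obtain ⟨n, -, hn⟩ := z.2.2
    obtain ⟨k, hk⟩ := CL.Fgs.exists_orderOf_eq_pow_of_mem P.2 z.1.2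
    exact ⟨k, by rw [hn, ← hk]; exact (MulAut.conj n).orderOf_eq _⟩⟩
  apply Nat.card_congr (Equiv.ofBijective f ⟨?_, ?_⟩)
  · rintro ⟨x, y, n, hn, rfl⟩ ⟨x', y', n', hn', rfl⟩ h
    have h1 : n * x * n⁻¹ = n' * x' * n'⁻¹ := congrArg Subtype.val h
    have h2 : x = x' := by
      have h3 : (x' : G) * (x : G)⁻¹ ∈ N ⊓ (P : Subgroup G) := by
        refine ⟨?_, Subgroup.mul_mem _ x'.2 (Subgroup.inv_mem _ x.2)⟩
        have h4 : (x' : G) * (x : G)⁻¹ = n'⁻¹ * n * (x * (n⁻¹ * n') * (x : G)⁻¹) := by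
          calc (x' : G) * (x : G)⁻¹ = n'⁻¹ * (n' * x' * n'⁻¹) * n' * (x : G)⁻¹ := by group
            _ = _ := by rw [← h1]; group
        rw [h4]
        exact N.mul_mem (N.mul_mem (N.inv_mem hn') hn)
          (Subgroup.Normal.conj_mem inferInstance _ (N.mul_mem (N.inv_mem hn) hn') _)
      rw [hNP.disjoint.eq_bot, Subgroup.mem_bot, mul_inv_eq_one] at h3
      exact Subtype.ext h3.symm
    subst h2
    congr 1
    exact Subtype.ext h1
  · rintro ⟨g, k, hk⟩
    obtain ⟨Q, hQ⟩ := CL.Fgs.exists_sylow_mem_of_orderOf hk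
    obtain ⟨a, rfl⟩ := MulAction.exists_smul_eq G P Q
    obtain ⟨⟨n, s⟩, rfl⟩ := hNP.2 a
    rw [CL.Grp.mem_sylow_smul_iff] at hQ
    have h1 : (n : G)⁻¹ * g * n ∈ (P : Subgroup G) := by
      have := Subgroup.mul_mem _ (Subgroup.mul_mem _ s.2 hQ) (Subgroup.inv_mem _ s.2)
      simpa [mul_assoc] using this
    exact ⟨⟨⟨_, h1⟩, ⟨g, n, n.2, by simp [mul_assoc]⟩⟩, rfl⟩

end Cfsg.Agent.S4093
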