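import Cfsg.Statements.S4097
import Cfsg.Agent.Grp.FrobKernel
import Cfsg.Agent.Grp.Coprime
import Cfsg.Agent.Grp.MinNormal
import Cfsg.Agent.Grp.Fitting
import Cfsg.Agent.Even.Amb

set_option autoImplicit false
open Cfsg

namespace Cfsg.Agent.S4097

open Subgroup CL.Grp CL.Even

theorem solv_sup {G : Type*} [Group G] {U H : Subgroup G} (hU : Group.IsSolvable U)
    (hH : Group.IsSolvable H) (h : H ≤ 𝒩(U)) : Group.IsSolvable (U ⊔ H : Subgroup G) := by
  have hn : (U.subgroupOf (U ⊔ H)).Normal :=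
    (normal_subgroupOf_iff_le_normalizer le_sup_left).2 (sup_le le_normalizer h)
  have h2 : Group.IsSolvable (↥(U ⊔ H) ⧸ U.subgroupOf (U ⊔ H)) := by
    refine Group.isSolvable_of_surjective
      (f := (QuotientGroup.mk' _).comp (inclusion (le_sup_right : H ≤ U ⊔ H))) ?_
    intro q
    obtain ⟨⟨g, hg⟩, rfl⟩ := QuotientGroup.mk_surjective q
    obtain ⟨a, ha, b, hb, rfl⟩ := (CL.Grp.mem_sup_of_le_normalizer h).1 (by rwa [sup_comm] : g ∈ H ⊔ U)
    refine ⟨⟨a, ha⟩, QuotientGroup.eq.2 ?_⟩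
    simpa [mem_subgroupOf] using hb
  refine Group.isSolvable_of_ker_le_range (inclusion (le_sup_left : U ≤ U ⊔ H))
    (QuotientGroup.mk' (U.subgroupOf (U ⊔ H))) ?_
  rw [QuotientGroup.ker_mk', inclusion_range]

theorem solv_of_cent {G : Type*} [Group G] {K : Subgroup G} (h : K ≤ 𝒞(K)) : Group.IsSolvable K :=
  Group.isSolvable_of_comm fun a b => Subtype.ext (comm_of_mem (h b.2) a.2)

theorem aux (G : Type*) [Group G] [Finite G] : ∀ A : Subgroup G, Group.IsSolvable A →
    (∀ S : Subgroup G, A ≤ S → Group.IsSolvable S → S ≤ 𝒞(A)) → 𝒞(A) = ⊤ := by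
  refine induction_on_card (P := fun G _ _ => ∀ A : Subgroup G, Group.IsSolvable A →
    (∀ S : Subgroup G, A ≤ S → Group.IsSolvable S → S ≤ 𝒞(A)) → 𝒞(A) = ⊤)
    (fun G _ _ ih A hA h => ?_) G
  by_cases hab : ∃ N : Subgroup G, N.Normal ∧ N ≤ 𝒞(N) ∧ N ≠ ⊥
  · obtain ⟨N, hN, hc, h0⟩ := hab
    have hq := ih _ (card_quotient_lt h0) (A.map (QuotientGroup.mk' N))
      (Group.isSolvable_of_surjective (MonoidHom.subgroupMap_surjective _ _)) fun S h1 h2 => by
        have h3 : Group.IsSolvable (S.comap (QuotientGroup.mk' N)) := by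
          have := solv_of_cent hc
          refine Group.isSolvable_of_ker_le_range (inclusion (show N ≤ S.comap (QuotientGroup.mk' N) from
            fun x hx => by rw [mem_comap, QuotientGroup.mk'_apply, (QuotientGroup.eq_one_iff x).2 hx]
                           exact one_mem _))
            ((QuotientGroup.mk' N).subgroupComap S) fun x hx => ?_
          rw [inclusion_range, mem_subgroupOf, ← QuotientGroup.eq_one_iff]
          exact congrArg Subtype.val hx
        intro s hs
        obtain ⟨s, rfl⟩ := QuotientGroup.mk'_surjective N s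
        rw [mem_centralizer_iff]
        rintro _ ⟨a, ha, rfl⟩
        rw [← map_mul, ← map_mul, comm_of_mem (h _ (map_le_iff_le_comap.1 h1) h3 hs) ha]
    have hn : ∀ g : G, g ∈ 𝒩(N ⊔ A) := fun g => by
      have := le_normalizer_comap (H := A.map (QuotientGroup.mk' N)) (QuotientGroup.mk' N)
        (show g ∈ _ from cent_le_norm _ (hq ▸ mem_top _))
      rwa [comap_map_eq, QuotientGroup.ker_mk', sup_comm] at this
    refine eq_top_iff.2 fun g _ => h ((N ⊔ A) ⊔ zpowers g) (le_sup_of_le_left le_sup_right)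
      (solv_sup (solv_sup (solv_of_cent hc) hA (le_top.trans (normalizer_eq_top N).ge))
        (solv_of_cent (le_centralizer _)) (zpowers_le.2 (hn g))) (mem_sup_right (mem_zpowers g))
  push Not at hab
  by_contra hM
  have hAM : A ≤ 𝒞(A) := h A le_rfl hA
  have hle : ∀ H : Subgroup G, A ≤ H → H ≠ ⊤ → H ≤ 𝒞(A) := fun H h1 h2 => by
    have := ih _ (card_subgroup_lt h2) (A.subgroupOf H)
      (Group.isSolvable_of_surjective (f := (subgroupOfEquivOfLe h1).symm.toMonoidHom)
        (subgroupOfEquivOfLe h1).symm.surjective) fun S h3 h4 s hs => mem_centralizer_iff.2 fun a ha =>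
          Subtype.ext (comm_of_mem (h (S.map H.subtype) (map_subgroupOf_eq_of_le h1 ▸ map_mono h3)
            (Group.isSolvable_of_surjective (MonoidHom.subgroupMap_surjective _ _)) ⟨s, hs, rfl⟩) ha)
    exact fun x hx => mem_centralizer_iff.2 fun a ha =>
      congrArg Subtype.val (comm_of_mem (this.ge (mem_top ⟨x, hx⟩)) (show (⟨a, h1 ha⟩ : H) ∈ _ from ha))
  have hA0 : A ≠ ⊥ := by
    rintro rfl
    exact hM (by simp)
  have hN : 𝒩(𝒞(A)) ≤ 𝒞(A) := hle _ (le_norm_of_le hAM) fun e => by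
    have := normalizer_eq_top_iff.1 e
    exact hA0 (le_bot_iff.1 (hab (𝒞(A) ⊓ 𝒞(𝒞(A))) inferInstance
      (inf_le_right.trans (cent_mono inf_le_left)) ▸ le_inf hAM (le_centralizer_iff.1 le_rfl)))
  have hmal : IsMalnormal 𝒞(A) := by
    intro u hu u1 g hg
    have h1 : 𝒞(zpowers u) ≤ 𝒞(A) := hle _ (le_centralizer_iff.1 (zpowers_le.2 hu)) fun e =>
      u1 (mem_bot.1 (hab (center G) inferInstance (center_le_centralizer _) ▸
        centralizer_eq_top_iff_subset.1 e (mem_zpowers u)))
    have h2 : cj g⁻¹ A ≤ 𝒞(zpowers u) := by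
      rw [le_centralizer_iff, zpowers_le, ← cj_cent, mem_cj, inv_inv]
      exact hg
    have h3 : A ≤ cj g⁻¹ 𝒞(A) := by
      rw [cj_cent]; exact le_centralizer_iff.1 (h2.trans h1)
    have h4 := hle _ h3 fun e => hM (by rw [← cj_cj_inv g 𝒞(A), e, cj_top])
    exact (inv_mem_iff.1 (hN (mem_norm_of_cj_le h4)))
  obtain ⟨r, hr, hd⟩ := Nat.exists_prime_and_dvd (mt card_eq_one.1 (frobKernelSubgroup_ne_bot hmal hM))
  have := Fact.mk hr
  obtain ⟨R, hR, hAR⟩ := exists_isSylowIn_le_normalizer (A := A) (K := frobKernelSubgroup hmal) r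
    (le_top.trans (normalizer_eq_top _).ge)
    (card_frobKernelSubgroup hmal ▸ hmal.coprime_card_index.coprime_dvd_left (card_dvd_of_le hAM))
    (Or.inl hA)
  have h5 : R ≤ 𝒞(A) := le_sup_left.trans (h (R ⊔ A) le_sup_right (solv_sup (by
    have := hR.isPGroup.isNilpotent
    infer_instance) hA hAR))
  have h6 : R = ⊥ := le_bot_iff.1 ((isComplement'_frobKernelSubgroup hmal).disjoint hR.le h5)
  exact hR.not_dvd (by rwa [h6, relIndex_bot_left])

/-- Let A be a solvable subgroup of a finite group G such that A lies in the centre of every solvable subgroup of G containing A. Then A lies in the centre of G. -/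
theorem result {G : Type*} [Group G] [Finite G]
    (A : Subgroup G) (hA : Group.IsSolvable A)
    (hc : ∀ S : Subgroup G, A ≤ S → Group.IsSolvable S → ∀ a ∈ A, ∀ s ∈ S, a * s = s * a) : A ≤ Subgroup.center G := by
  exact centralizer_eq_top_iff_subset.1 (aux G A hA fun S h1 h2 s hs =>
    mem_centralizer_iff.2 fun a ha => hc S h1 h2 a ha s hs)

end Cfsg.Agent.S4097
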