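import Cfsg.Statements.S4100
import Cfsg.Agent.Inv.AltFix4
import Cfsg.Agent.Inv.AltFix5
import Cfsg.Agent.Inv.AltFix6
import Cfsg.Agent.Chev.AltSec1

set_option autoImplicit false
open Cfsg
open Equiv Equiv.Perm CL.AltFix

namespace Cfsg.Agent.S4100

universe u in
theorem gen {G : Type u} [Group G] [Finite G] {p : ℕ} [Fact p.Prime] (h : Hyp p G) {d k : ℕ}
    (hinv : Cfsg.Involves (alternatingGroup (Fin d)) G) (hk : k + 5 ≤ d) (c : Perm (Fin k)) (hc : c ≠ 1)
    (hcp : c ^ p = 1) (hs : sign c = 1) (hKL : ¬ p ∣ 120 ∨ KL.{u} p (alternatingGroup (Fin (k + 5)))) : False := by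
  obtain ⟨K, R, _, e⟩ := hinv
  obtain ⟨L, π, hπ⟩ := CL.AltSec.exists_surj hk K _ e
  let θ : Perm (Fin k) × Perm (Fin 5) →* Perm (Fin (k + 5)) :=
    finSumFinEquiv.permCongrHom.toMonoidHom.comp (sumCongrHom _ _)
  have hθ : Function.Injective θ := finSumFinEquiv.permCongrHom.injective.comp sumCongrHom_injective
  have sθ : ∀ a b, sign (θ (a, b)) = sign a * sign b := fun a b =>
    (sign_permCongr _ _).trans (sign_sumCongr a b)
  let ι : alternatingGroup (Fin 5) →* alternatingGroup (Fin (k + 5)) :=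
    (θ.comp ((MonoidHom.inr _ _).comp (alternatingGroup (Fin 5)).subtype)).codRestrict _ fun a =>
      mem_alternatingGroup.2 ((sθ 1 a).trans (by rw [map_one, one_mul]; exact mem_alternatingGroup.1 a.2))
  have hι : Function.Injective ι := fun a b e =>
    Subtype.ext (congrArg Prod.snd (hθ (congrArg Subtype.val e)))
  let x : alternatingGroup (Fin 5) := ⟨swap 0 1 * swap 2 3, mem_alternatingGroup.2 (by decide)⟩
  let y : alternatingGroup (Fin 5) := ⟨swap 0 2 * swap 0 4, mem_alternatingGroup.2 (by decide)⟩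
  have hcom : ∀ a, Commute (⟨θ (c, 1), mem_alternatingGroup.2 (by rw [sθ, hs, map_one, one_mul])⟩ :
      alternatingGroup (Fin (k + 5))) (ι a) := fun a => Subtype.ext (Commute.map (x := (c, 1)) (y := (1, a.1))
    (Prod.ext (by simp) (by simp)) θ)
  refine no_alt (alternatingGroup.center_eq_bot (by simp)) (fun e => hc (congrArg Prod.fst
    (hθ ((congrArg Subtype.val e).trans (map_one θ).symm)))) (Subtype.ext ?_) (hcom x) (hcom y)
    ⟨fun e => absurd (hι (e.trans (map_one ι).symm)) (by decide), by rw [← map_pow, ← map_one ι]; congr 1; decide,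
      by rw [← map_pow, ← map_one ι]; congr 1; decide, by
        rw [← map_mul, ← map_pow, show 35 = 5 * 7 from rfl, pow_mul, show (x * y) ^ 5 = 1 by decide, one_pow, map_one]⟩
    (hKL.imp_left fun hp e => hp (e.trans ?_)) _ L rfl (h.sub L) π hπ
  · show θ (c, 1) ^ p = 1
    rw [← map_pow, Prod.pow_mk, hcp, one_pow]
    exact map_one θ
  · refine (Subgroup.card_dvd_of_le (K := ι.range) ((Subgroup.closure_le _).2 ?_)).trans
      ((Subgroup.card_range_dvd ι).trans ((Subgroup.card_subgroup_dvd_card _).trans (by simp [Nat.card_perm]; rfl)))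
    rintro _ (rfl | rfl)
    exacts [⟨x, rfl⟩, ⟨y, rfl⟩]


/-- Let G be a finite group and p a prime other than 3 such that the centralizer of every non-central element of p-power order is solvable. Then every alternating group of degree at least 5 involved in G (as a section) has degree at most p + 4, or at most p + 6 = 8 when p = 2. -/
theorem result {G : Type*} [Group G] [Finite G] (p : ℕ) [Fact p.Prime] (hp3 : p ≠ 3)
    (h : ∀ x : G, x ∉ Subgroup.center G → (∃ k : ℕ, orderOf x = p ^ k) → Group.IsSolvable (Subgroup.centralizer ({x} : Set G)))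
    (d : ℕ) (hd : 5 ≤ d) (hinv : Cfsg.Involves (alternatingGroup (Fin d)) G) :
    d ≤ p + 4 + (if p = 2 then 2 else 0) := by
  have hp : p.Prime := Fact.out
  by_contra! hlt
  by_cases h2 : p = 2
  · subst h2
    exact gen (k := 4) h hinv hlt (swap 0 1 * swap 2 3) (by decide) (by decide) (by decide)
      (Or.inr (kl_of_nf fun M _ _ => nf9))
  rw [if_neg h2] at hlt
  have hc := isCycle_finRotate_of_le hp.two_le
  refine gen (k := p) h hinv hlt (finRotate p) hc.ne_one ?_ ?_ ?_
  · have := pow_orderOf_eq_one (finRotate p)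
    rwa [hc.orderOf, support_finRotate_of_le hp.two_le, Finset.card_univ, Fintype.card_fin] at this
  · rw [sign_finRotate, (hp.even_sub_one h2).neg_one_pow]
  · by_cases h5 : p = 5
    · subst h5
      exact Or.inr (kl_of_nf fun M _ _ => nf10)
    · refine Or.inl fun e => ?_
      rw [show 120 = 2 ^ 3 * 3 * 5 from rfl, hp.dvd_mul, hp.dvd_mul] at e
      rcases e with (e | e) | e
      exacts [h2 ((Nat.prime_dvd_prime_iff_eq hp Nat.prime_two).1 (hp.dvd_of_dvd_pow e)),
        hp3 ((Nat.prime_dvd_prime_iff_eq hp Nat.prime_three).1 e), h5 ((Nat.prime_dvd_prime_iff_eq hp Nat.prime_five).1 e)]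

end Cfsg.Agent.S4100
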