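import Cfsg.Statements.S4107
import Cfsg.Agent.Fgs.TIBase

set_option autoImplicit false
open Cfsg

namespace Cfsg.Agent.S4107

open scoped Pointwise
open CL.Grp CL.Odd CL.Fgs

/-- Let G be a finite group and N a proper non-trivial normal subgroup such that for every x outside N all elements of the coset xN have the same order as x. Then N ≤ F(G) or F(G) ≤ N, where F(G) is the Fitting subgroup; and if N is properly contained in F(G) then F(G) has prime-power order. -/
theorem result {G : Type*} [Group G] [Finite G] (N : Subgroup G) [N.Normal] (hN1 : N ≠ ⊥) (hN2 : N ≠ ⊤)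
    (heq : ∀ x : G, x ∉ N → ∀ n ∈ N, orderOf (x * n) = orderOf x) :
    (N ≤ Cfsg.fittingSubgroup G ∨ Cfsg.fittingSubgroup G ≤ N) ∧
    (N < Cfsg.fittingSubgroup G → IsPrimePow (Nat.card (Cfsg.fittingSubgroup G))) := by
  have key : ∀ (p : ℕ) [Fact p.Prime], ¬ pCore p G ≤ N → IsPGroup p N := by
    intro p _ hle
    obtain ⟨x, hx, hxN⟩ := SetLike.not_le_iff_exists.1 hle
    intro n
    obtain ⟨k, hk⟩ := pCore_isPGroup p G ⟨x, hx⟩
    have h1 : (x * n) ^ p ^ k = 1 := by
      rw [← orderOf_dvd_iff_pow_eq_one, heq x hxN n n.2, orderOf_dvd_iff_pow_eq_one]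
      exact congrArg Subtype.val hk
    have h2 : (n : G) ^ p ^ k ∈ pCore p G := by
      rw [← QuotientGroup.eq_one_iff]
      have h3 := congrArg (QuotientGroup.mk' (pCore p G)) h1
      rw [map_pow, map_mul, QuotientGroup.mk'_apply, (QuotientGroup.eq_one_iff x).2 hx, one_mul, map_one] at h3
      exact h3
    obtain ⟨j, hj⟩ := pCore_isPGroup p G ⟨_, h2⟩
    refine ⟨k + j, Subtype.ext ?_⟩
    have h4 : ((n : G) ^ p ^ k) ^ p ^ j = 1 := congrArg Subtype.val hj
    rw [pow_add, pow_mul]
    exact h4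
  have hex : ¬ fittingSubgroup G ≤ N → ∃ p : ℕ, p.Prime ∧ IsPGroup p N := fun h => by
    by_contra hcon
    refine h (fittingSubgroup_le_of_forall_pCore_le fun p hp => ?_)
    by_contra hle
    exact hcon ⟨p, hp.out, key p hle⟩
  refine ⟨?_, fun hlt => ?_⟩
  · by_cases h : fittingSubgroup G ≤ N
    · exact Or.inr h
    · obtain ⟨p, hp, hN⟩ := hex h
      exact Or.inl (le_fittingSubgroup (nil_of_isPGroup hp hN))
  · obtain ⟨p, hp, hN⟩ := hex hlt.not_ge
    have := Fact.mk hp
    have h1 : fittingSubgroup G ≤ pCore p G := fittingSubgroup_le_of_forall_pCore_le fun q hq => by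
      by_cases e : q = p
      · rw [e]
      by_cases hle : pCore q G ≤ N
      · exact le_pCore (hN.to_le hle)
      · exact absurd (eq_of_prime_dvd_card_isPGroup hN hq.out
          (dvd_card_of_isPGroup_ne_bot (key q hle) hN1)) e
    obtain ⟨k, hk⟩ := (isPGroup_of_le_pCore h1).exists_card_eq
    refine ⟨p, k, hp.prime, Nat.pos_of_ne_zero ?_, hk.symm⟩
    rintro rfl
    exact not_lt_bot ((Subgroup.card_eq_one.1 hk) ▸ hlt)

end Cfsg.Agent.S4107
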