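import Cfsg.Statements.S4108
import Cfsg.Agent.Fgs.TIBase

set_option autoImplicit false
open Cfsg

namespace Cfsg.Agent.S4108

open scoped Pointwise
open CL.Grp CL.Odd CL.Fgs

/-- Let G be a finite group, p a prime and N a proper non-trivial normal p-subgroup such that for every x outside N all elements of the coset xN have the same order as x. Then every non-trivial subgroup H of G of order prime to p acts fixed-point-freely on N: NH is a Frobenius group with complement H and kernel N. -/
theorem result {G : Type*} [Group G] [Finite G] (N : Subgroup G) [N.Normal] (hN1 : N ≠ ⊥) (hN2 : N ≠ ⊤)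
    (heq : ∀ x : G, x ∉ N → ∀ n ∈ N, orderOf (x * n) = orderOf x)
    (p : ℕ) [Fact p.Prime] (hNp : IsPGroup p N) :
    ∀ H : Subgroup G, H ≠ ⊥ → (Nat.card H).Coprime p →
      Cfsg.IsFrobeniusComplement (H.subgroupOf (N ⊔ H)) ∧ Cfsg.frobeniusKernel (H.subgroupOf (N ⊔ H)) = (N.subgroupOf (N ⊔ H) : Set ↥(N ⊔ H)) := by
  intro H hH hc
  have hp : p.Prime := Fact.out
  have hcop : (Nat.card N).Coprime (Nat.card H) := by
    obtain ⟨k, hk⟩ := hNp.exists_card_eq
    rw [hk]; exact (hc.pow_right k).symm
  have hreg : Semiregular N H := Semiregular.of_eq_one fun x hx h1 n hn e => by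
    have hxN : x ∉ N := fun hxN => h1 (eq_one_of_mem_of_eq_bot (inf_eq_bot_of_coprime_card hcop) ⟨hxN, hx⟩)
    have h2 := heq x hxN n hn
    rw [Commute.orderOf_mul_eq_mul_orderOf_of_coprime e.symm
      ((hcop.symm.coprime_dvd_left (H.orderOf_dvd_natCard hx)).coprime_dvd_right (N.orderOf_dvd_natCard hn))] at h2
    exact orderOf_eq_one_iff.1 ((Nat.mul_eq_left (orderOf_pos x).ne').1 h2)
  have hF := Frob.of_reg (le_norm_of_normal H N) hN1 hH hreg
  have := hF.normal_subgroupOf
  exact ⟨hF.isFrobeniusComplement, hF.isMalnormal.kernel_eq_of_isComplement' hF.isComplement'⟩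

end Cfsg.Agent.S4108
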