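import Cfsg.Statements.S4112
import Cfsg.Agent.Fgs.TIBase

set_option autoImplicit false
open Cfsg

namespace Cfsg.Agent.S4112

open scoped Pointwise
open CL.Grp CL.Odd CL.Fgs

/-- Let G be a finite group and M ≤ N non-trivial proper normal subgroups such that for every g outside N the conjugacy class of g is a union of cosets of M (equivalently gm is conjugate to g for every m ∈ M). Then (1) and (2) below are equivalent, and they imply (3): (1) every g outside N acts fixed-point-freely on M, that is C_G(x) ≤ N for every x ∈ M, x ≠ 1; (2) the index of N in G is coprime to the order of M; (3) there is a subgroup H of G with HN = G and H ∩ M = 1. -/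
theorem result {G : Type*} [Group G] [Finite G] (N M : Subgroup G) [N.Normal] [M.Normal] (hMN : M ≤ N) (hM1 : M ≠ ⊥) (hN2 : N ≠ ⊤)
    (hcam : ∀ g : G, g ∉ N → ∀ m ∈ M, ∃ x : G, x * g * x⁻¹ = g * m) :
    ((∀ x ∈ M, x ≠ 1 → Subgroup.centralizer ({x} : Set G) ≤ N) ↔ N.index.Coprime (Nat.card M)) ∧
    ((∀ x ∈ M, x ≠ 1 → Subgroup.centralizer ({x} : Set G) ≤ N) → ∃ H : Subgroup G, H ⊔ N = ⊤ ∧ H ⊓ M = ⊥) := by
  have h12 : (∀ x ∈ M, x ≠ 1 → Subgroup.centralizer ({x} : Set G) ≤ N) → N.index.Coprime (Nat.card M) := by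
    intro h
    refine Nat.coprime_of_dvd fun p hp h1 h2 => ?_
    have := Fact.mk hp
    obtain ⟨P, hP⟩ := exists_isSylowIn p (⊤ : Subgroup G)
    have hPM := hP.inf_of_normalized (N := M) le_top (le_norm_of_normal _ _)
    obtain ⟨z, ⟨hz, hzc⟩, hz1⟩ := ne_bot_iff.1 (inf_center_ne_bot_of_nil (nil_of_isPGroup hp hP.isPGroup)
      inf_le_left (le_norm_inf (le_norm_self P) (le_norm_of_normal _ _)) (sylow_ne_bot hPM h2))
    have := hP.not_dvd_relIndex_of_le ((le_c1_iff.2 hzc).trans (h z hz.2 hz1)) le_top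
    rw [Subgroup.relIndex_top_right] at this
    exact this h1
  refine ⟨⟨h12, fun h x hx hx1 g hg => ?_⟩, fun h => ?_⟩
  · by_contra hgN
    have h1 : constt {q | q ∣ Nat.card M} g ∈ N :=
      CL.Fgs.IsPiElt.mem_of_index (π := {q | q ∣ Nat.card M})
        (fun q hq hd hq' => hq.one_lt.ne' (Nat.eq_one_of_dvd_coprimes h hd hq')) (isPiElt_constt _ g)
    have h2 : constt {q | q ∣ Nat.card M}ᶜ g ∉ N := fun h2 => hgN (mem_of_constt_mem h1 h2)
    obtain ⟨y, hy⟩ := hcam _ h2 x hx
    have h3 : CL.Odd.IsPiElt {q | q ∣ Nat.card M}ᶜ (constt {q | q ∣ Nat.card M}ᶜ g * x) :=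
      hy ▸ (isPiElt_constt _ g).conj y
    have h4 := constt_eq_one h3
    rw [constt_mul_eq_right (commute_constt (mem_c1_iff_commute.1 hg).symm).symm (isPiElt_constt _ g)
      (CL.Odd.isPiElt_of_mem (isPiSubgroup_primes M) hx)] at h4
    exact hx1 h4
  · obtain ⟨H, -, h1, h2⟩ := exists_supplement_primes (NormalIn.top_iff.2 ‹N.Normal›)
    refine ⟨H, by rwa [sup_comm], inf_eq_bot_of_coprime_card (Nat.coprime_of_dvd fun p hp h3 h4 => ?_)⟩
    have := h2 p hp h3
    rw [Subgroup.relIndex_top_right] at this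
    exact hp.one_lt.ne' (Nat.eq_one_of_dvd_coprimes (h12 h) this h4)

end Cfsg.Agent.S4112
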