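import Cfsg.Statements.S4115
import Cfsg.Agent.Fgs.TIBase

set_option autoImplicit false
universe u
open Cfsg

namespace Cfsg.Agent.S4115

open scoped Pointwise
open CL.Grp CL.Odd CL.Fgs

/-- Let G be a finite group and H a subgroup that meets each of its conjugates by elements outside N_G(H) trivially and whose order is coprime to its index in N_G(H). Then H has a normal complement in N_G(H) if and only if H has a normal complement in G. Moreover, if H is not normal in G and has a normal complement in N_G(H), then H is isomorphic to a Frobenius complement of some finite Frobenius group. -/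
theorem result {G : Type u} [Group G] [Finite G] (H : Subgroup G)
    (hTI : Cfsg.IsTISubset (H : Set G)) (hHall : (Nat.card H).Coprime (H.subgroupOf (Subgroup.normalizer (H : Set G))).index) :
    ((∃ K : Subgroup (Subgroup.normalizer (H : Set G)), K.Normal ∧ K.IsComplement' (H.subgroupOf (Subgroup.normalizer (H : Set G)))) ↔
      (∃ N : Subgroup G, N.Normal ∧ N.IsComplement' H)) ∧
    (¬ H.Normal → (∃ K : Subgroup (Subgroup.normalizer (H : Set G)), K.Normal ∧ K.IsComplement' (H.subgroupOf (Subgroup.normalizer (H : Set G)))) →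
      ∃ (F : Type u) (_ : Group F) (_ : Finite F) (C : Subgroup F), Cfsg.IsFrobeniusComplement C ∧ Nonempty (H ≃* C)) := by
  have hc : (Nat.card H).Coprime (H.relIndex N[H]) := hHall
  have hfw : (∃ K : Subgroup (Subgroup.normalizer (H : Set G)), K.Normal ∧
      K.IsComplement' (H.subgroupOf (Subgroup.normalizer (H : Set G)))) → ∃ L, Sdp L H ⊤ := by
    rintro ⟨K, hKn, hK⟩
    obtain ⟨L, hL, -⟩ := ti_normal_compl hTI hc (sdp_of_isComplement'_subgroupOf (le_norm_self H) hK)
    exact ⟨L, hL⟩
  refine ⟨⟨fun h => ?_, ?_⟩, fun hnn h => ?_⟩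
  · obtain ⟨L, hL⟩ := hfw h
    exact ⟨L, normal_of_top_le hL.le_norm, isComplement'_of_sdp_top hL⟩
  · rintro ⟨L, hLn, hL⟩
    exact ⟨_, isComplement'_subgroupOf_of_sdp
      ((sdp_top_of_isComplement' hL).inf_of_right_le (le_norm_self H) le_top)⟩
  · obtain ⟨L, hL⟩ := hfw h
    have hH := ti_hall hTI le_top (by rwa [top_inf_eq])
    have hcop : (Nat.card L).Coprime (Nat.card H) := by
      rw [← hL.relIndex_right]; exact (Hall.coprime hH).symm
    obtain ⟨N, R, h1, h2, h3⟩ := ti_exists_frob_quo hTI hL hcop fun hle => hnn (normal_of_top_le (by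
      rw [← hL.sup_eq]; exact sup_le (le_norm_of_le_cent (cent_symm hle)) (le_norm_self H)))
    exact ⟨↥(quo N (R ⊔ H)), inferInstance, inferInstance, _, h3.isFrobeniusComplement,
      ⟨(quoEquivOfInf h1 h2).trans (Subgroup.subgroupOfEquivOfLe h3.compl_le).symm⟩⟩

end Cfsg.Agent.S4115
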