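import Cfsg.Statements.S4117
import Cfsg.Agent.Fgs.TISep
import Cfsg.Agent.Grp.Action

set_option autoImplicit false
open Cfsg

namespace Cfsg.Agent.S4117

open scoped Pointwise
open CL.Grp CL.Odd CL.Fgs

/-- Let A be a finite group acting on the finite group G by automorphisms with the orders of A and G coprime, and suppose every Sylow subgroup of G is cyclic. Then the fixed-point subgroup C_G(A) is a Hall subgroup of G (its order is coprime to its index), the subgroup [G, A] generated by the elements g⁻¹·a(g) is cyclic and normal with [G, A] ∩ C_G(A) = 1 and [G, A]·C_G(A) = G. -/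
theorem result {G A : Type*} [Group G] [Finite G] [Group A] [Finite A]
    [MulDistribMulAction A G] (hcop : (Nat.card A).Coprime (Nat.card G))
    (hcyc : ∀ (p : ℕ) [Fact p.Prime] (P : Sylow p G), IsCyclic (P : Subgroup G)) :
    (Nat.card (MulAction.fixedPoints A G : Set G)).Coprime (Nat.card G / Nat.card (MulAction.fixedPoints A G : Set G)) ∧
    IsCyclic (Subgroup.closure {y : G | ∃ (a : A) (g : G), y = g⁻¹ * a • g}) ∧
    (Subgroup.closure {y : G | ∃ (a : A) (g : G), y = g⁻¹ * a • g}).Normal ∧
    (Subgroup.closure {y : G | ∃ (a : A) (g : G), y = g⁻¹ * a • g} : Set G) ∩ MulAction.fixedPoints A G = {1} ∧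
    Subgroup.closure {y : G | ∃ (a : A) (g : G), y = g⁻¹ * a • g} ⊔ Subgroup.closure (MulAction.fixedPoints A G) = ⊤ := by
  have hZ : IsZGroup G := ⟨fun p hp P => have := Fact.mk hp; hcyc p P⟩
  have hZ' : IsZGroup (⊤ : Subgroup G) := IsZGroup.of_injective (⊤ : Subgroup G).subtype_injective
  obtain ⟨h1, h2, h3⟩ := zgroup_coprime_action (zgroup_map hZ' (sdInl A G))
    ((range_sdInr_le_normalizer_iff ⊤).2 fun _ _ _ => trivial) (coprime_sd (by rwa [Subgroup.card_top]))
  rw [← map_sdInl_actComm] at h1
  rw [← map_sdInl_actComm, ← map_sdInl_inf_fixedPoints, top_inf_eq] at h2 h3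
  rw [card_map_sdInl, card_map_sdInl] at h3
  have h4 := h2.card
  rw [card_map_sdInl, card_map_sdInl, card_map_sdInl, Subgroup.card_top] at h4
  have h5 := h2.inf_eq
  rw [← Subgroup.map_inf _ _ _ sdInl_injective, Subgroup.map_eq_bot_iff_of_injective _ sdInl_injective] at h5
  have h6 := h2.sup_eq
  rw [← Subgroup.map_sup, (Subgroup.map_injective sdInl_injective).eq_iff] at h6
  have e : MulAction.fixedPoints A G = (FixedPoints.subgroup A G : Set G) := rfl
  rw [← actComm_top, e, Subgroup.closure_eq]
  refine ⟨?_, ?_, inferInstance, ?_, h6⟩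
  · change (Nat.card (FixedPoints.subgroup A G)).Coprime (Nat.card G / Nat.card (FixedPoints.subgroup A G))
    rw [← h4, Nat.mul_div_cancel _ Nat.card_pos]
    exact h3.symm
  · exact (MulEquiv.isCyclic (Subgroup.equivMapOfInjective _ _ sdInl_injective)).2 h1
  · rw [← Subgroup.coe_inf, h5, Subgroup.coe_bot]

end Cfsg.Agent.S4117
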