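import Cfsg.Statements.S4120
import Cfsg.Agent.Fh.Main
import Cfsg.Agent.Grp.ThompsonFpf

set_option autoImplicit false
open Cfsg

namespace Cfsg.Agent.S4120

/-- Let the finite group A act faithfully on the finite group G by automorphisms, and suppose A is a Frobenius group with kernel F and complement H such that F fixes only the identity of G. If the fixed-point subgroup C_G(H) is nilpotent, then G is nilpotent. -/
theorem result {G A : Type*} [Group G] [Finite G] [Group A] [Finite A] [MulDistribMulAction A G] [FaithfulSMul A G]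
    (Fk Hc : Subgroup A) [Fk.Normal] (hHc : Cfsg.IsFrobeniusComplement Hc) (hker : Cfsg.frobeniusKernel Hc = (Fk : Set A))
    (hCF : ∀ g : G, (∀ f ∈ Fk, f • g = g) → g = 1) (hnil : Group.IsNilpotent (Subgroup.closure {g : G | ∀ h ∈ Hc, h • g = g})) : Group.IsNilpotent G := by
  have hm := CL.Grp.isMalnormal_of_frob hHc
  have hf : ∀ e ∈ Hc, e ≠ 1 → ∀ k ∈ Fk, k * e = e * k → k = 1 := fun e he h1 k hk h =>
    hm.eq_one_of_commute he h1 (by rw [hker]; exact hk) h
  have hn : Group.IsNilpotent Fk := CL.Grp.isNilpotent_of_fpf_subgroup hHc.1 Subgroup.le_normalizer_of_normal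
    fun a ha h1 => eq_bot_iff.2 fun k hk => hf a ha h1 k hk.1 (Subgroup.mem_centralizer_singleton_iff.1 hk.2)
  refine CL.Fh.Ctx.main (F := Fk) (H := Hc) ⟨inferInstance, hn, hf⟩ _ G rfl hCF ?_
  have e : Subgroup.closure {g : G | ∀ h ∈ Hc, h • g = g} = CL.Fh.fx Hc G := Subgroup.closure_eq (CL.Fh.fx Hc G)
  rwa [e] at hnil

end Cfsg.Agent.S4120
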