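import Cfsg.Statements.S4122
import Cfsg.Agent.FH.Gen

set_option autoImplicit false
open Cfsg

namespace Cfsg.Agent.S4122

/-- Let the finite group A act faithfully on the finite group G by automorphisms, A a Frobenius group with kernel F and complement H such that F fixes only the identity of G. Then G is generated by the images under elements of F of the fixed-point subgroup C_G(H). -/
theorem result {G A : Type*} [Group G] [Finite G] [Group A] [Finite A] [MulDistribMulAction A G] [FaithfulSMul A G]
    (Fk Hc : Subgroup A) [Fk.Normal] (hHc : Cfsg.IsFrobeniusComplement Hc) (hker : Cfsg.frobeniusKernel Hc = (Fk : Set A))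
    (hCF : ∀ g : G, (∀ f ∈ Fk, f • g = g) → g = 1) : Subgroup.closure {x : G | ∃ f ∈ Fk, ∃ c : G, (∀ h ∈ Hc, h • c = c) ∧ x = f • c} = ⊤ := by
  exact CL.FH.gen_eq_top (CL.FH.frob_nil hHc hker) (CL.FH.frob_fac hHc hker) (CL.FH.frob_free hHc hker) hCF

end Cfsg.Agent.S4122
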