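import Cfsg.Statements.S4123
import Cfsg.Agent.FH.Act

set_option autoImplicit false
open Cfsg

namespace Cfsg.Agent.S4123

/-- Let the finite group A act faithfully on the finite group G by automorphisms, A a Frobenius group with kernel F and complement H such that F fixes only the identity of G. Then for every prime p there is exactly one A-invariant Sylow p-subgroup of G. -/
theorem result {G A : Type*} [Group G] [Finite G] [Group A] [Finite A] [MulDistribMulAction A G] [FaithfulSMul A G]
    (Fk Hc : Subgroup A) [Fk.Normal] (hHc : Cfsg.IsFrobeniusComplement Hc) (hker : Cfsg.frobeniusKernel Hc = (Fk : Set A))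
    (hCF : ∀ g : G, (∀ f ∈ Fk, f • g = g) → g = 1) (p : ℕ) [Fact p.Prime] : ∃! P : Sylow p G, ∀ (a : A) (x : G), x ∈ (P : Subgroup G) → a • x ∈ (P : Subgroup G) := by
  exact CL.FH.sub_existsUnique_sylow (CL.FH.frob_nil hHc hker) hCF p

end Cfsg.Agent.S4123
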