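import Cfsg.Statements.S4130
import Cfsg.Agent.S4167
import Cfsg.Agent.Fgs.Breadth
import Cfsg.Agent.Grp.Supersolv
import Cfsg.Agent.Grp.Coprime2
import Cfsg.Agent.Grp.CoprimeAct
import Cfsg.Agent.Grp.CoresPi
import Cfsg.Agent.Fgs.ClassBasic

set_option autoImplicit false
open Cfsg
open scoped Pointwise

namespace Cfsg.Agent.S4130

open Subgroup CL.Fgs CL.Grp
open scoped commutatorElement

universe u

theorem le_of_sqf {p k n : ℕ} (hp : p.Prime) (hn : Squarefree n) (h : p ^ k ∣ n) : k ≤ 1 := by
  by_contra hk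
  exact Nat.squarefree_iff_prime_squarefree.1 hn p hp
    ((sq p ▸ pow_dvd_pow p (by omega : 2 ≤ k)).trans h)

theorem quot {X : Type*} [Group X] (h : ∀ x : X, Squarefree cs(x)) (N : Subgroup X) [N.Normal]
    (x : X ⧸ N) : Squarefree cs(x) := by
  obtain ⟨y, rfl⟩ := QuotientGroup.mk_surjective x
  exact (h y).squarefree_of_dvd (cs_mk_dvd N y)

theorem ss (G : Type u) [Group G] [Finite G] : Group.IsSolvable G → (∀ x : G, Squarefree cs(x)) →
    IsSupersolvable G := by
  refine induction_on_card (P := fun X _ _ => Group.IsSolvable X → (∀ x : X, Squarefree cs(x)) →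
    IsSupersolvable X) ?_ G
  intro X _ _ ih hs h
  rcases subsingleton_or_nontrivial X with hX | hX
  · exact isSupersolvable_of_subsingleton
  obtain ⟨N, p, hp, hN, hEA⟩ := exists_isMinNormal_isElementaryAbelian X
  have := hN.normal
  have hQ : IsSupersolvable (X ⧸ N) := ih _ (card_quotient_lt hN.ne_bot) inferInstance (quot h N)
  refine isSupersolvable_of_card_prime_normal N ?_ hQ
  set C := centralizer (N : Set X) with hC
  by_cases hCt : C = ⊤
  · exact hN.card_prime_of_le_center (centralizer_eq_top_iff_subset.1 hCt)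
  have hNC : N ≤ C := fun a ha => mem_centralizer_iff.2 fun b hb =>
    congrArg Subtype.val (hEA.1.is_comm.comm ⟨b, hb⟩ ⟨a, ha⟩)
  have hQ' : IsSupersolvable (X ⧸ C) := IsSupersolvable.of_surjective hQ (QuotientGroup.map N C (MonoidHom.id X) hNC)
    (QuotientGroup.map_surjective_of_surjective _ _ _ (QuotientGroup.mk_surjective) _)
  have : Nontrivial (X ⧸ C) := QuotientGroup.nontrivial_iff.2 hCt
  obtain ⟨g, -, hg1, hg⟩ := IsSupersolvable.exists_zpowers_normal hQ' ⊤ top_ne_bot
  obtain ⟨x, rfl⟩ := QuotientGroup.mk_surjective g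
  have hn : (N ⊓ cent(x)).Normal := ⟨fun n hn g => ⟨hN.normal.conj_mem n hn.1 g, by
    obtain ⟨k, hk⟩ := hg.conj_mem _ (mem_zpowers _) (g⁻¹ : X ⧸ C)
    have h1 : (x ^ k)⁻¹ * (g⁻¹ * x * g) ∈ C := by
      rw [← QuotientGroup.eq]; rw [inv_inv] at hk; simpa using hk
    have h2 : Commute n (g⁻¹ * x * g) := by
      have := ((mem_cent.1 hn.2).zpow_right k).mul_right
        (show Commute n _ from mem_centralizer_iff.1 h1 n hn.1)
      rwa [mul_inv_cancel_left] at this
    have h3 := h2.map (MulAut.conj g)
    rw [MulAut.conj_apply, MulAut.conj_apply] at h3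
    refine mem_cent.2 ?_
    convert h3 using 1
    group⟩⟩
  have hb : N ⊓ cent(x) = ⊥ := by
    by_contra hne
    have := hN.eq_of_le hne inf_le_left
    apply hg1
    rw [QuotientGroup.eq_one_iff, hC, mem_centralizer_iff]
    exact fun n hn => mem_cent.1 (this.ge hn).2
  have hd := relIndex_dvd_index_of_normal cent(x) N
  rw [← inf_relIndex_left, hb, relIndex_bot_left] at hd
  obtain ⟨q, d, hq, hd0, e⟩ := hN.exists_card_eq_pow inferInstance
  have := le_of_sqf hq (h x) (e ▸ hd)
  rw [e, show d = 1 by omega, pow_one]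
  exact hq

theorem core {X : Type*} [Group X] [Finite X] {p : ℕ} [hp : Fact p.Prime]
    (h : ∀ x : X, Squarefree cs(x)) {P H : Subgroup X} [P.Normal] (hP : IsPGroup p P)
    (hc : P.IsComplement' H) (hH : ¬ p ∣ Nat.card H) (hHc : ∀ a ∈ H, ∀ b ∈ H, a * b = b * a)
    (hf : centralizer (P : Set X) ≤ P) {g : X} (hg : g ∈ H) (hg1 : g ≠ 1) :
    Nat.card (commutator X) ∣ p := by
  have hidx : ∀ x : X, (cent(x)).relIndex P = 1 ∨ (cent(x)).relIndex P = p := by
    intro x
    obtain ⟨k, hk⟩ := hP.index ((cent(x)).subgroupOf P)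
    have hd := relIndex_dvd_index_of_normal cent(x) P
    rw [relIndex, hk] at hd ⊢
    have := le_of_sqf hp.out (h x) hd
    interval_cases k <;> simp
  have hcop : ∀ a ∈ H, ∀ K : Subgroup X, K ≤ P → (Nat.card (zpowers a)).Coprime (Nat.card K) := by
    intro a ha K hK
    obtain ⟨k, hk⟩ := (hP.to_le hK).exists_card_eq
    rw [hk]
    refine Nat.Coprime.pow_right k ((hp.out.coprime_iff_not_dvd.2 fun hd => hH ?_).symm)
    exact hd.trans (card_dvd_of_le (by rwa [zpowers_le]))
  have hzc : centralizer (zpowers g : Set X) = cent(g) := by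
    rw [zpowers_eq_closure, centralizer_closure]
  set D := P ⊓ cent(g) with hD
  have hDi : D.relIndex P = p := by
    rw [hD, inf_relIndex_left]
    refine (hidx g).resolve_left fun h1 => hg1 ?_
    have : g ∈ P ⊓ H := ⟨hf (mem_centralizer_iff.2 fun y hy => mem_cent.1 (relIndex_eq_one.1 h1 hy)), hg⟩
    rwa [hc.disjoint.eq_bot, mem_bot] at this
  have hDn : P ≤ normalizer (D : Set X) := by
    rw [← normal_subgroupOf_iff_le_normalizer inf_le_left]
    obtain ⟨k, hk⟩ := hP.exists_card_eq
    refine normal_of_index_eq_minFac_card ?_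
    rw [hk, Nat.Prime.pow_minFac hp.out]
    · exact hDi
    · rintro rfl
      have := relIndex_dvd_card D P
      rw [hDi, hk, pow_zero, Nat.dvd_one] at this
      exact hp.out.ne_one this
  -- `D` is abelian
  have hDc : ∀ d ∈ D, ∀ e ∈ D, e * d = d * e := by
    intro d hd e he
    have h1 : cent(g * d) = cent(g) ⊓ cent(d) := cent_mul_of_coprime (mem_cent'.1 hd.2) (by
      have := hcop g hg (zpowers d) (by rw [zpowers_le]; exact hd.1)
      rwa [Nat.card_zpowers, Nat.card_zpowers] at this)
    have h2 := relIndex_mul_relIndex (D ⊓ cent(d)) D P inf_le_left inf_le_left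
    have h3 : (D ⊓ cent(d)).relIndex P = (cent(g * d)).relIndex P := by
      rw [h1, hD, inf_assoc, inf_relIndex_left]
    rw [hDi, h3] at h2
    have h4 : (D ⊓ cent(d)).relIndex D = 1 := by
      rcases hidx (g * d) with h5 | h5 <;> rw [h5] at h2
      · exact Nat.eq_one_of_mul_eq_one_right h2
      · exact Nat.eq_of_mul_eq_mul_right hp.out.pos (by rw [h2, one_mul])
    exact mem_cent.1 (relIndex_eq_one.1 h4 he).2
  set K := ⁅P, zpowers g⁆ with hK
  have hnP : ∀ A : Subgroup X, A ≤ normalizer (P : Set X) := fun A => by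
    rw [normalizer_eq_top]; exact le_top
  have hKP : K ≤ P := commutator_le_left _ _
  have hKD : K ⊔ D = P := by
    have := commutator_sup_centralizer_eq (hnP (zpowers g)) (hcop g hg P le_rfl) (Or.inl inferInstance)
    rwa [hzc] at this
  have hKcD : K ≤ centralizer (D : Set X) := by
    rw [← commutator_eq_bot_iff_le_centralizer, hK]
    have h1 : ⁅zpowers g, D⁆ = ⊥ := by
      rw [commutator_comm, commutator_eq_bot_iff_le_centralizer, hzc]; exact inf_le_right
    refine commutator_commutator_eq_bot_of_rotate (by rw [h1, commutator_bot_left]) ?_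
    rw [eq_bot_iff, ← h1, commutator_comm (zpowers g)]
    refine commutator_mono ?_ le_rfl
    rw [commutator_comm]
    exact le_normalizer_iff_commutator_le_right.1 hDn
  have hHK : H ≤ normalizer (K : Set X) := le_normalizer_commutator' (hnP H) (by
    refine le_normalizer_of_le_centralizer ?_
    rw [hzc]; exact fun a ha => mem_cent.2 (hHc a ha g hg))
  have hKn : K.Normal := normal_of_sup_le_normalizer hc.sup_eq_top (normalizer_commutator_ge_left _ _) hHK
  have hKi : D.relIndex K = p := by
    rw [← hDi, ← hKD, CL.Grp.relIndex_sup_of_le_normalizer (hKP.trans hDn)]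
  have hKc : IsMulCommutative K := by
    have hle : D.subgroupOf K ≤ center K := fun d hd => mem_center_iff.2 fun k =>
      Subtype.ext (mem_centralizer_iff.1 (hKcD k.2) _ hd).symm
    have := normal_of_le_center' hle
    have : IsCyclic (K ⧸ D.subgroupOf K) := isCyclic_of_prime_card (p := p) hKi
    exact (QuotientGroup.mk' (D.subgroupOf K)).isMulCommutative_of_isCyclic_of_ker_le_center
      (by rwa [QuotientGroup.ker_mk'])
  have hKD0 : K ⊓ D = ⊥ := by
    have := inf_centralizer_inf_commutator_eq_bot (A := zpowers g) (V := K)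
      ((zpowers_le.2 hg).trans hHK) (hcop g hg K hKP)
    rw [hK, commutator_commutator_eq' (hnP _) (hcop g hg P le_rfl), ← hK, hzc] at this
    rw [eq_bot_iff, ← this]
    exact fun x hx => ⟨⟨hx.1, hx.2.2⟩, hx.1⟩
  have hKcard : Nat.card K = p := by
    rw [← hKi, ← inf_relIndex_left, hKD0, relIndex_bot_left]
  have key : ∀ a ∈ H, ¬ K ≤ cent(a) → D ≤ cent(a) := by
    intro a ha hna
    have h1 : K ⊓ cent(a) = ⊥ := by
      have := Fact.mk (hKcard ▸ hp.out)
      rcases ((cent(a)).subgroupOf K).eq_bot_or_eq_top_of_prime_card with h2 | h2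
      · exact (subgroupOf_eq_bot.1 h2).symm.eq_bot
      · exact absurd (subgroupOf_eq_top.1 h2) hna
    have h2 : P ⊓ cent(a) ≤ D := by
      rintro u ⟨hu, hua⟩
      obtain ⟨k, hk, d, hd, rfl⟩ := (mem_sup_of_normal_left).1 (hKD ▸ hu : u ∈ K ⊔ D)
      have hua' := mem_cent_iff_conj.1 (mem_cent_comm.1 hua)
      have e : k⁻¹ * (a * k * a⁻¹) = d * (a * d * a⁻¹)⁻¹ := by
        calc k⁻¹ * (a * k * a⁻¹) = k⁻¹ * (a * (k * d) * a⁻¹) * (a * d * a⁻¹)⁻¹ := by group
          _ = _ := by rw [hua']; group
      have hd' : a * d * a⁻¹ ∈ D := ⟨Normal.conj_mem inferInstance _ hd.1 _, by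
        have := (mem_cent.1 hd.2).map (MulAut.conj a)
        rw [MulAut.conj_apply, MulAut.conj_apply, hHc a ha g hg, mul_inv_cancel_right] at this
        exact mem_cent.2 this⟩
      have h3 : k⁻¹ * (a * k * a⁻¹) ∈ K ⊓ D := ⟨K.mul_mem (K.inv_mem hk) (hKn.conj_mem _ hk _),
        e ▸ D.mul_mem hd (D.inv_mem hd')⟩
      rw [hKD0, mem_bot, inv_mul_eq_one] at h3
      have h4 : k ∈ K ⊓ cent(a) := ⟨hk, mem_cent_comm.1 (mem_cent_iff_conj.2 h3.symm)⟩
      rw [h1, mem_bot] at h4
      rwa [h4, one_mul]
    have h3 := relIndex_mul_relIndex (P ⊓ cent(a)) D P h2 inf_le_left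
    rw [hDi, inf_relIndex_left] at h3
    have h4 : (P ⊓ cent(a)).relIndex D = 1 := by
      rcases hidx a with h5 | h5 <;> rw [h5] at h3
      · exact Nat.eq_one_of_mul_eq_one_right h3
      · exact Nat.eq_of_mul_eq_mul_right hp.out.pos (by rw [h3, one_mul])
    exact (relIndex_eq_one.1 h4).trans inf_le_right
  have hHD : ∀ a ∈ H, D ≤ cent(a) := by
    intro a ha
    by_cases hKa : K ≤ cent(a)
    · have h1 := key (g * a) (H.mul_mem hg ha) fun h1 => by
        have h2 : K ≤ D := fun k hk => ⟨hKP hk, by
          have := (mem_cent.1 (h1 hk)).mul_right (mem_cent.1 (hKa hk)).inv_right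
          rw [mul_inv_cancel_right] at this
          exact mem_cent.2 this⟩
        rw [inf_eq_left.2 h2] at hKD0
        rw [hKD0, card_bot] at hKcard
        exact hp.out.ne_one hKcard.symm
      intro d hd
      have := (mem_cent.1 hd.2).inv_right.mul_right (mem_cent.1 (h1 hd))
      rw [inv_mul_cancel_left] at this
      exact mem_cent.2 this
    · exact key a ha hKa
  rw [← hKcard]
  refine card_dvd_of_le ?_
  have h1 : K ⊔ (D ⊔ H) = ⊤ := by rw [← sup_assoc, hKD, hc.sup_eq_top]
  refine (CL.Transfer.commutator_le_sup_of_sup_eq_top K (D ⊔ H) h1).trans (sup_le le_rfl ?_)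
  have : ⁅D ⊔ H, D ⊔ H⁆ = ⊥ := by
    rw [commutator_eq_bot_iff_le_centralizer]
    have h2 : D ⊔ H ≤ centralizer (D : Set X) := sup_le (fun a ha => mem_centralizer_iff.2 fun b hb =>
      hDc a ha b hb) fun a ha => mem_centralizer_iff.2 fun b hb => mem_cent.1 (hHD a ha hb)
    have h3 : D ⊔ H ≤ centralizer (H : Set X) := sup_le (fun a ha => mem_centralizer_iff.2 fun b hb =>
      (mem_cent.1 (hHD b hb ha)).symm) fun a ha => mem_centralizer_iff.2 fun b hb => hHc b hb a ha
    exact le_centralizer_iff.1 (sup_le (le_centralizer_iff.1 h2) (le_centralizer_iff.1 h3))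
  rw [this]; exact bot_le

theorem nsq {p : ℕ} [hp : Fact p.Prime] (G : Type u) [Group G] [Finite G] : IsSupersolvable G →
    (∀ x : G, Squarefree cs(x)) → ¬ p * p ∣ Nat.card (commutator G) := by
  refine induction_on_card (P := fun X _ _ => IsSupersolvable X → (∀ x : X, Squarefree cs(x)) →
    ¬ p * p ∣ Nat.card (commutator X)) ?_ G
  intro X _ _ ih hs h hd
  by_cases hO : pPrimeCore p X ≠ ⊥
  · set N := pPrimeCore p X
    apply ih (X ⧸ N) (card_quotient_lt hO) (IsSupersolvable.quotient hs N) (quot h N)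
    rw [_root_.commutator_def, ← map_top_of_surjective _ (QuotientGroup.mk'_surjective N), ← map_commutator,
      ← _root_.commutator_def, ← relIndex_ker, QuotientGroup.ker_mk']
    rw [← (N.subgroupOf (commutator X)).card_mul_index] at hd
    refine Nat.Coprime.dvd_of_dvd_mul_left ?_ hd
    have h1 : p.Coprime (Nat.card (N.subgroupOf (commutator X))) :=
      hp.out.coprime_iff_not_dvd.2 fun h1 => not_dvd_card_pPrimeCore p X
        (h1.trans (card_comap_dvd_of_injective N _ (subtype_injective _)))
    exact Nat.Coprime.mul_left h1 h1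
  push Not at hO
  have := IsSupersolvable.isSolvable hs
  have hF : commutator X ≤ pCore p X :=
    fittingSubgroup_eq_pCore hO ▸ le_fittingSubgroup (IsSupersolvable.isNilpotent_commutator hs)
  obtain ⟨S⟩ : Nonempty (Sylow p X) := inferInstance
  have hSn : (S : Subgroup X).Normal := ⟨fun n hn g => by
    have := hF.trans (pCore_le_sylow S) (commutator_mem_commutator (mem_top g) (mem_top n))
    simpa [commutatorElement_def] using S.mul_mem this hn⟩
  have hS : (S : Subgroup X) = pCore p X := sylow_eq_pCore_of_normal S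
  obtain ⟨H, hH⟩ := exists_right_complement'_of_coprime S.card_coprime_index
  have hpp : ¬ p * p ∣ p := fun h => hp.out.ne_one
    (Nat.dvd_one.1 (Nat.dvd_of_mul_dvd_mul_left hp.out.pos (by rwa [mul_one])))
  by_cases hH1 : H = ⊥
  · have hX : IsPGroup p X := by
      have := hH.sup_eq_top
      rw [hH1, sup_bot_eq, hS] at this
      exact pCore_eq_top_iff.1 this
    have := card_commutator_le_of_breadth hX (b := 1) fun x => by
      obtain ⟨k, hk⟩ := hX.index cent(x)
      rw [hk]
      exact Nat.pow_le_pow_right hp.out.pos (le_of_sqf hp.out (h x) hk.symm.dvd)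
    have h2 := Nat.le_of_dvd Nat.card_pos hd
    have := hp.out.one_lt
    simp at *
    nlinarith
  obtain ⟨⟨g, hg⟩, hg1⟩ := ne_bot_iff_exists_ne_one.1 hH1
  refine hpp (hd.trans (core h S.isPGroup' hH (hH.symm.index_eq_card ▸ S.not_dvd_index) ?_ ?_ hg
    fun h => hg1 (Subtype.ext h)))
  · intro a ha b hb
    have : ⁅a, b⁆ ∈ (S : Subgroup X) ⊓ H := ⟨hS ▸ hF (commutator_mem_commutator (mem_top a) (mem_top b)),
      H.mul_mem (H.mul_mem (H.mul_mem ha hb) (H.inv_mem ha)) (H.inv_mem hb)⟩
    rw [hH.disjoint.eq_bot, mem_bot] at this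
    exact commutatorElement_eq_one_iff_mul_comm.1 this
  · rw [hS]; exact centralizer_pCore_le_of_isSolvable hO

/-- Let G be a finite group all of whose conjugacy class sizes are square-free. Then G is supersolvable, G/F(G) and the derived subgroup G′ are cyclic of square-free order (F(G) the Fitting subgroup, which is normal), F(G) has nilpotency class at most 2, and G is metabelian. -/
theorem result {G : Type*} [Group G] [Finite G]
    (h : ∀ x : G, Squarefree (Subgroup.centralizer ({x} : Set G)).index) :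
    Cfsg.IsSupersolvable G ∧ (Cfsg.fittingSubgroup G).Normal ∧
    (∀ _h : (Cfsg.fittingSubgroup G).Normal, IsCyclic (G ⧸ Cfsg.fittingSubgroup G) ∧ Squarefree (Cfsg.fittingSubgroup G).index) ∧
    IsCyclic (commutator G) ∧ Squarefree (Nat.card (commutator G)) ∧
    Subgroup.upperCentralSeries ↥(Cfsg.fittingSubgroup G) 2 = ⊤ ∧ commutator ↥(commutator G) = ⊥ := by
  have hsol : Group.IsSolvable G := S4167.result fun x hx =>
    Nat.squarefree_iff_prime_squarefree.1 (h x) 2 Nat.prime_two hx
  have hss := ss G hsol h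
  have hsq : Squarefree (Nat.card (commutator G)) := Nat.squarefree_iff_prime_squarefree.2 fun p hp => by
    have := Fact.mk hp
    exact nsq G hss h
  have hnil := IsSupersolvable.isNilpotent_commutator hss
  have := IsZGroup.of_squarefree hsq
  have hcyc : IsCyclic (commutator G) := inferInstance
  obtain ⟨x, hx⟩ := (Subgroup.isCyclic_iff_exists_zpowers_eq_top _).1 hcyc
  have hC : centralizer (commutator G : Set G) = cent(x) := by
    rw [← hx, zpowers_eq_closure, centralizer_closure]
  have hCF : cent(x) ≤ fittingSubgroup G := by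
    rw [← hC]
    refine le_fittingSubgroup (isNilpotent_of_commutator_commutator_eq_bot ?_)
    rw [commutator_comm, commutator_eq_bot_iff_le_centralizer]
    exact centralizer_le (commutator_mono le_top le_top)
  have hFi : Squarefree (fittingSubgroup G).index := (h x).squarefree_of_dvd (index_dvd_of_le hCF)
  have hFC : commutator G ≤ centralizer (fittingSubgroup G : Set G) := by
    refine le_of_forall_isPGroup_le fun p hp P hP hPp => ?_
    have : P.Normal := normal_of_le_zpowers (hx ▸ inferInstance) (hx ▸ hP)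
    by_cases hP1 : P = ⊥
    · rw [hP1]; exact bot_le
    obtain ⟨k, hk⟩ := hPp.exists_card_eq
    have h1 := le_of_sqf hp.out hsq (hk ▸ card_dvd_of_le hP)
    have h2 : k ≠ 0 := by
      rintro rfl
      exact hP1 (card_eq_one.1 hk)
    rw [show k = 1 by omega, pow_one] at hk
    have := Fact.mk (hk ▸ hp.out)
    rcases ((centralizer (fittingSubgroup G : Set G)).subgroupOf P).eq_bot_or_eq_top_of_prime_card
      with h2 | h2
    · exact absurd (subgroupOf_eq_bot.1 h2).symm.eq_bot
        (inf_centralizer_ne_bot_of_isNilpotent (fittingSubgroup_isNilpotent G) hP1)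
    · exact subgroupOf_eq_top.1 h2
  refine ⟨hss, inferInstance, fun _ => ⟨?_, hFi⟩, hcyc, hsq, ?_, ?_⟩
  · have := IsZGroup.of_squarefree (G := G ⧸ fittingSubgroup G) hFi
    have : Group.IsNilpotent (G ⧸ fittingSubgroup G) := isNilpotent_of_isMulCommutative
      (Normal.quotient_commutative_iff_commutator_le.2 (le_fittingSubgroup hnil))
    infer_instance
  · rw [eq_top_iff]
    intro a _
    rw [Subgroup.mem_upperCentralSeries_succ_iff]
    intro b
    rw [Subgroup.upperCentralSeries_one, mem_center_iff]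
    intro c
    exact Subtype.ext (mem_centralizer_iff.1 (hFC (commutator_mem_commutator (mem_top (a : G))
      (mem_top (b : G)))) c c.2)
  · rw [_root_.commutator_def ↥(_root_.commutator G), commutator_eq_bot_iff_le_centralizer]
    exact fun a _ => mem_centralizer_iff.2 fun b _ => hcyc.isMulCommutative.is_comm.comm b a

end Cfsg.Agent.S4130
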