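import Cfsg.Statements.S4133
import Cfsg.Agent.Fgs.AbelTwoCompl
import Cfsg.Agent.S0089
import Cfsg.Agent.Odd.FT

set_option autoImplicit false
open Cfsg
open scoped Pointwise

namespace Cfsg.Agent.S4133

open Subgroup CL.Fgs CL.Grp

/-- Let G be a finite group all of whose Sylow subgroups are abelian, and let 2^a be the largest power of 2 dividing the size of any conjugacy class of G. If some element has a conjugacy class of size exactly 2^a, then G is solvable. -/
theorem result {G : Type*} [Group G] [Finite G]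
    (hA : ∀ (p : ℕ) [Fact p.Prime] (P : Sylow p G), IsMulCommutative (P : Subgroup G))
    (a : ℕ) (hmax : ∀ y : G, ¬ 2 ^ (a + 1) ∣ (Subgroup.centralizer ({y} : Set G)).index) (hx : ∃ x : G, (Subgroup.centralizer ({x} : Set G)).index = 2 ^ a) :
    Group.IsSolvable G := by
  have hFT : ∀ (X : Type _) [Group X] [Finite X], Odd (Nat.card X) → Group.IsSolvable X :=
    fun _ _ _ h => CL.Odd.feit_thompson h
  obtain ⟨x, hx⟩ := hx
  obtain ⟨S0, hS0⟩ := exists_isSylowIn 2 cent(x)
  obtain ⟨P, hP⟩ := hS0.isPGroup.exists_le_sylow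
  have hPc : ∀ a ∈ (P : Subgroup G), ∀ b ∈ (P : Subgroup G), a * b = b * a := fun a ha b hb =>
    congrArg Subtype.val ((hA 2 P).is_comm.comm ⟨a, ha⟩ ⟨b, hb⟩)
  have hPC : ∀ g : G, ∃ s ∈ (P : Subgroup G), ∃ h ∈ cent(x), g = s * h :=
    exists_mul_eq_of_coprime_index (by
      rw [hx]
      exact Nat.Coprime.pow_right a (Nat.coprime_two_right.2 (CL.Transfer.odd_index_sylow_two P)))
  set K := normalClosure ({x} : Set G) with hK
  set D := centralizer (K : Set G) with hD
  have hDx : D ≤ cent(x) := centralizer_le (Set.singleton_subset_iff.2 (subset_normalClosure rfl))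
  have hS0D : S0 ≤ D := by
    rw [hD, le_centralizer_iff, hK, normalClosure, closure_le]
    intro y hy
    obtain ⟨b, hb, hy⟩ := Group.mem_conjugatesOfSet_iff.1 hy
    obtain ⟨c, rfl⟩ := isConj_iff.1 hy
    rw [Set.mem_singleton_iff.1 hb]
    obtain ⟨s, hs, h, hh, rfl⟩ := hPC c
    have e : s * h * x * (s * h)⁻¹ = s * x * s⁻¹ := by
      calc s * h * x * (s * h)⁻¹ = s * (h * x * h⁻¹) * s⁻¹ := by group
        _ = _ := by rw [mem_cent_iff_conj.1 hh]
    rw [e, SetLike.mem_coe, mem_centralizer_iff]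
    intro u hu
    have h1 : Commute u s := hPc u (hP hu) s hs
    have h2 : Commute u x := mem_cent.1 (hS0.le hu)
    exact (h1.mul_right h2).mul_right h1.inv_right
  have hQ : Group.IsSolvable (G ⧸ D) := by
    refine isSolvable_of_abTwoCompl hFT _ ⟨(P : Subgroup G).map (QuotientGroup.mk' D),
      (cent(x)).map (QuotientGroup.mk' D), P.isPGroup'.map _, ?_, ?_, fun g => ?_⟩
    · rintro _ ⟨a, ha, rfl⟩ _ ⟨b, hb, rfl⟩
      rw [← map_mul, hPc a ha b hb, map_mul]
    · rw [← relIndex_ker, QuotientGroup.ker_mk']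
      refine Odd.of_dvd_nat ?_ (relIndex_dvd_of_le_left _ hS0D)
      have := hS0.not_dvd
      exact Nat.odd_iff.2 (by omega)
    · obtain ⟨g, rfl⟩ := QuotientGroup.mk'_surjective D g
      obtain ⟨s, hs, h, hh, rfl⟩ := hPC g
      exact ⟨_, mem_map_of_mem _ hs, _, mem_map_of_mem _ hh, map_mul _ s h⟩
  suffices hDs : Group.IsSolvable D from
    Group.isSolvable_of_ker_le_range D.subtype (QuotientGroup.mk' D) (by simp)
  by_contra hDs
  obtain ⟨L, ⟨hLn, hLD, hLs⟩, hmin⟩ := exists_minimal_of_wellFoundedLT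
    (fun L : Subgroup G => L.Normal ∧ L ≤ D ∧ ¬ Group.IsSolvable L) ⟨D, inferInstance, le_rfl, hDs⟩
  have hperf : commutator L = ⊤ := by
    have h1 : ⁅L, L⁆ ≤ L := commutator_le_left L L
    have h2 : L ≤ ⁅L, L⁆ := hmin ⟨inferInstance, h1.trans hLD, fun hs => hLs (by
      rw [← map_subtype_commutator] at hs
      have : Group.IsSolvable (commutator L) :=
        Group.isSolvable_of_isSolvable_injective (f := (equivMapOfInjective (commutator L) L.subtype
          L.subtype_injective).toMonoidHom) (MulEquiv.injective _)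
      have : Group.IsSolvable (L ⧸ commutator L) := Group.isSolvable_of_comm fun a b =>
        mul_comm (G := Abelianization L) a b
      exact Group.isSolvable_of_ker_le_range (commutator L).subtype
        (QuotientGroup.mk' (commutator L)) (by simp))⟩ h1
    apply map_injective L.subtype_injective
    rw [map_subtype_commutator, ← MonoidHom.range_eq_map, range_subtype]
    exact le_antisymm h1 h2
  have hZ : center L = ⊥ := by
    have := S0089.result (G := L) fun p hp Q => by
      have := Fact.mk hp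
      obtain ⟨R, hR⟩ := (Q.isPGroup'.map L.subtype).exists_le_sylow
      refine ⟨⟨fun a b => Subtype.ext (Subtype.ext ?_)⟩⟩
      have := congrArg Subtype.val ((hA p R).is_comm.comm
        ⟨_, hR (mem_map_of_mem _ a.2)⟩ ⟨_, hR (mem_map_of_mem _ b.2)⟩)
      exact this
    rwa [hperf, top_inf_eq] at this
  have hKL : ∀ g ∈ K, g ∈ L → g = 1 := by
    intro g hg hgL
    have : (⟨g, hgL⟩ : L) ∈ center L := mem_center_iff.2 fun y =>
      Subtype.ext (mem_centralizer_iff.1 (hLD y.2) g hg).symm
    rw [hZ, mem_bot] at this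
    exact congrArg Subtype.val this
  have hodd : ∀ y : L, ¬ 2 ∣ cs(y) := by
    intro y hy
    have h1 : cent(x * y) = cent((y : G)) ⊓ cent(x) := by
      refine le_antisymm (fun g hg => ?_) (inf_comm (cent(x)) _ ▸ inf_le_cent_mul x y)
      have hg' := mem_cent_iff_conj.1 hg
      have e : x⁻¹ * (g * x * g⁻¹) = y * (g * y * g⁻¹)⁻¹ := by
        calc x⁻¹ * (g * x * g⁻¹) = x⁻¹ * (g * (x * y) * g⁻¹) * (g * y * g⁻¹)⁻¹ := by group
          _ = _ := by rw [hg']; group
      have hxK : x ∈ K := subset_normalClosure rfl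
      have h2 := hKL _ (K.mul_mem (K.inv_mem hxK) (Normal.conj_mem inferInstance x hxK g))
        (e ▸ L.mul_mem y.2 (L.inv_mem (hLn.conj_mem _ y.2 g)))
      refine ⟨mem_cent_iff_conj.2 ?_, mem_cent_iff_conj.2 (inv_mul_eq_one.1 h2).symm⟩
      rw [e] at h2
      exact (mul_inv_eq_one.1 h2).symm
    apply hmax (x * y)
    rw [h1, ← relIndex_mul_index (inf_le_right : cent((y : G)) ⊓ cent(x) ≤ _), hx, inf_relIndex_right,
      pow_succ']
    refine Nat.mul_dvd_mul_right (hy.trans ?_) _
    have := relIndex_dvd_index_of_normal ((cent((y : G))).subgroupOf cent(x)) (L.subgroupOf cent(x))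
    rwa [relIndex_subgroupOf (hLD.trans hDx), ← cs_coe] at this
  obtain ⟨T⟩ : Nonempty (Sylow 2 L) := inferInstance
  have hT : centralizer ((T : Subgroup L) : Set L) = ⊤ :=
    eq_top_of_forall_exists_conj_mem fun y => exists_conj_mem_centralizer_of_not_dvd_cs (hodd y) T
  rw [centralizer_eq_top_iff_subset, hZ] at hT
  have hT' : (T : Subgroup L) = ⊥ := le_bot_iff.1 hT
  have := T.not_dvd_index
  rw [hT', index_bot] at this
  exact hLs (hFT L (Nat.odd_iff.2 (by omega)))

end Cfsg.Agent.S4133
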