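import Cfsg.Statements.S4142
import Cfsg.Agent.Fgs.ClassFusion

set_option autoImplicit false
open Cfsg

namespace Cfsg.Agent.S4142

open CL.Fgs Subgroup

theorem aux {G : Type*} [Group G] [Finite G] (N : Subgroup G) [N.Normal] (g : G) :
    (∀ n ∈ N, ∃ x : G, x * g * x⁻¹ = g * n) ↔
      Nat.card cent(g) = Nat.card cent((QuotientGroup.mk g : G ⧸ N)) := by
  set D := (cent((QuotientGroup.mk g : G ⧸ N))).comap (QuotientGroup.mk' N) with hD
  have h1 := CL.Grp.card_mul_relIndex (cent_le_comap (QuotientGroup.mk' N) g)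
  rw [← ncard_conj_subgroup] at h1
  change _ * Set.ncard {y : G | ∃ h ∈ D, h * g * h⁻¹ = y} = Nat.card D at h1
  rw [hD, CL.Grp.card_comap_mk', ← hD] at h1
  have h2 : ∀ x : G, x ∈ D ↔ g⁻¹ * (x * g * x⁻¹) ∈ N := fun x => by
    rw [hD, mem_comap, mem_cent_iff_conj, ← QuotientGroup.eq, eq_comm]; rfl
  have h3 : {y : G | ∃ h ∈ D, h * g * h⁻¹ = y} ⊆ (fun n => g * n) '' (N : Set G) := by
    rintro _ ⟨x, hx, rfl⟩
    exact ⟨_, (h2 x).1 hx, by simp⟩
  have h4 : ((fun n => g * n) '' (N : Set G)).ncard = Nat.card N := by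
    rw [Set.ncard_image_of_injective _ (mul_right_injective g), ncard_coe_subgroup]
  constructor
  · intro h
    have h5 : {y : G | ∃ h ∈ D, h * g * h⁻¹ = y} = (fun n => g * n) '' (N : Set G) := by
      refine h3.antisymm ?_
      rintro _ ⟨n, hn, rfl⟩
      obtain ⟨x, hx⟩ := h n hn
      exact ⟨x, (h2 x).2 (by rw [hx]; simpa using hn), hx⟩
    rw [h5, h4, mul_comm] at h1
    exact Nat.eq_of_mul_eq_mul_left Nat.card_pos h1
  · intro h n hn
    rw [h, mul_comm] at h1
    have h5 := Set.eq_of_subset_of_ncard_le h3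
      (by rw [h4, Nat.eq_of_mul_eq_mul_right Nat.card_pos h1]) (Set.toFinite _)
    obtain ⟨x, -, hx⟩ : g * n ∈ {y : G | ∃ h ∈ D, h * g * h⁻¹ = y} := h5 ▸ ⟨n, hn, rfl⟩
    exact ⟨x, hx⟩


/-- Let G be a finite group and N a normal subgroup. Then the conjugacy class of every element g outside N is a union of cosets of N (gn is conjugate to g for all n ∈ N) if and only if for every g outside N the centralizer of g in G has the same order as the centralizer of gN in G/N. -/
theorem result {G : Type*} [Group G] [Finite G] (N : Subgroup G) [N.Normal] :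
    (∀ g : G, g ∉ N → ∀ n ∈ N, ∃ x : G, x * g * x⁻¹ = g * n) ↔
      ∀ g : G, g ∉ N → Nat.card (Subgroup.centralizer ({g} : Set G)) =
        Nat.card (Subgroup.centralizer ({(QuotientGroup.mk g : G ⧸ N)} : Set (G ⧸ N))) := by
  exact forall_congr' fun g => forall_congr' fun _ => aux N g

end Cfsg.Agent.S4142
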