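import Cfsg.Statements.S4149
import Cfsg.Agent.Fgs.ClsCount

set_option autoImplicit false
open Cfsg

namespace Cfsg.Agent.S4149

/-- Let G be a finite group that has a normal p-complement for at most one prime p dividing its order, and let σ be a natural number such that every conjugacy class size of G has at most σ distinct prime divisors. Then the number of primes dividing at least one conjugacy class size of G is at most 2σ. -/
theorem result {G : Type*} [Group G] [Finite G] (σ : ℕ)
    (hσ : ∀ x : G, ((Subgroup.centralizer ({x} : Set G)).index).primeFactors.card ≤ σ)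
    (hnil : ∀ p q : ℕ, p.Prime → q.Prime → p ∣ Nat.card G → q ∣ Nat.card G →
      Cfsg.HasNormalPComplement p G → Cfsg.HasNormalPComplement q G → p = q) :
    Nat.card {p : ℕ | p.Prime ∧ ∃ x : G, p ∣ (Subgroup.centralizer ({x} : Set G)).index} ≤ 2 * σ := by
  classical
  have hsub : {p : ℕ | p.Prime ∧ ∃ x : G, p ∣ (Subgroup.centralizer ({x} : Set G)).index} ⊆ (Nat.card G).primeFactors := by
    rintro p ⟨hp, x, hx⟩
    exact Nat.mem_primeFactors.2 ⟨hp, hx.trans (Subgroup.index_dvd_card _), Nat.card_pos.ne'⟩
  by_cases h0 : σ = 0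
  · rw [Set.eq_empty_of_forall_notMem (s := {p : ℕ | p.Prime ∧ ∃ x : G, p ∣ (Subgroup.centralizer ({x} : Set G)).index})]
    · simp
    rintro p ⟨hp, x, hx⟩
    have := hσ x
    rw [h0, Nat.le_zero, Finset.card_eq_zero] at this
    exact Finset.notMem_empty p (this ▸ Nat.mem_primeFactors.2 ⟨hp, hx, Subgroup.index_ne_zero_of_finite⟩)
  have h1 := CL.ClsCount.card_primes_lt hσ h0 ((Nat.card G).primeFactors.filter fun q => ¬ Cfsg.HasNormalPComplement q G)
    fun q hq => ⟨Nat.prime_of_mem_primeFactors (Finset.mem_filter.1 hq).1, (Finset.mem_filter.1 hq).2⟩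
  have h2 : ((Nat.card G).primeFactors.filter fun q => Cfsg.HasNormalPComplement q G).card ≤ 1 :=
    Finset.card_le_one.2 fun p hp q hq => by
      simp only [Finset.mem_filter, Nat.mem_primeFactors] at hp hq
      exact hnil p q hp.1.1 hq.1.1 hp.1.2.1 hq.1.2.1 hp.2 hq.2
  have h3 := Finset.card_filter_add_card_filter_not (s := (Nat.card G).primeFactors) fun q => Cfsg.HasNormalPComplement q G
  have h4 := Set.ncard_le_ncard hsub (Finset.finite_toSet _)
  rw [Set.ncard_coe_finset] at h4
  change Set.ncard _ ≤ _
  omega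

end Cfsg.Agent.S4149
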