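import Cfsg.Statements.S4151
import Cfsg.Agent.Fgs.TISep

set_option autoImplicit false
open Cfsg

namespace Cfsg.Agent.S4151

open scoped Pointwise
open CL.Grp CL.Odd CL.Fgs

/-- Let G be a finite group and H a non-normal subgroup meeting each of its conjugates by elements outside N_G(H) trivially, with the order of H coprime to its index in N_G(H), such that G is π-separable for π the set of primes dividing the order of H (G has a chain of normal subgroups from 1 to G each of whose factors has order divisible only by primes dividing the order of H or coprime to it). Suppose a Sylow 2-subgroup of H is abelian and Q is a complement of H in N_G(H). Then C_H(Q), the subgroup of elements of H commuting with Q, has order coprime to its index in G and has a normal complement in G. -/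
theorem result {G : Type*} [Group G] [Finite G] (H : Subgroup G)
    (hTI : Cfsg.IsTISubset (H : Set G)) (hnn : ¬ H.Normal)
    (hHall : (Nat.card H).Coprime (H.subgroupOf (Subgroup.normalizer (H : Set G))).index)
    (hsep : ∃ (n : ℕ) (M : Fin (n + 1) → Subgroup G), M 0 = ⊥ ∧ M (Fin.last n) = ⊤ ∧ Monotone M ∧ (∀ i, (M i).Normal) ∧
      ∀ i : Fin n, (∀ q : ℕ, q.Prime → q ∣ (M i.castSucc).relIndex (M i.succ) → q ∣ Nat.card H) ∨
        ((M i.castSucc).relIndex (M i.succ)).Coprime (Nat.card H))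
    (h2 : ∀ P : Sylow 2 H, IsMulCommutative (P : Subgroup H))
    (Q : Subgroup G) (hQ : Q ≤ Subgroup.normalizer (H : Set G)) (hQH : Q ⊓ H = ⊥) (hQH' : Q ⊔ H = Subgroup.normalizer (H : Set G)) :
    (Nat.card ↥(H ⊓ Subgroup.centralizer (Q : Set G))).Coprime (H ⊓ Subgroup.centralizer (Q : Set G)).index ∧
    ∃ N : Subgroup G, N.Normal ∧ N.IsComplement' (H ⊓ Subgroup.centralizer (Q : Set G)) := by
  have hc : (Nat.card H).Coprime (H.relIndex N[H]) := hHall
  obtain ⟨hs, N, R, h1, h3, h4⟩ := ti_sep hTI hnn hc hsep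
  have hZ := isZGroup_of_pqCyclic (pqCyclic_of_frob_quo h1 h3 h4) h2
  have hsd : Sdp H Q N[H] := ⟨by rwa [sup_comm], hQ, by rwa [inf_comm]⟩
  have hQc : (Nat.card Q).Coprime (Nat.card H) := by rw [← hsd.relIndex_left]; exact hc.symm
  obtain ⟨-, h5, h6⟩ := zgroup_coprime_action hZ hQ hQc
  have hOc := coprime_card_of_pi_compl (isPiSubgroup_primes H) (piCore_isPiSubgroup {q | q ∣ Nat.card H}ᶜ G)
  have hn : N[H] ≤ N[⁅H, Q⁆ ⊔ Q] := by
    rw [← hsd.sup_eq]
    refine sup_le (le_norm_of_comm_le (comm_sup_left_le (le_norm_self _) ?_ ?_)) (le_norm_of_le le_sup_right)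
    · exact (comm_le_left (left_le_norm_comm H Q)).trans le_sup_left
    · rw [Subgroup.commutator_comm]; exact le_sup_left
  have hXn := normal_sup_of_sup_norm hs hn
  have hcop : (Nat.card ↥(piCore {q | q ∣ Nat.card H}ᶜ G ⊔ (⁅H, Q⁆ ⊔ Q))).Coprime (Nat.card ↥(H ⊓ C[Q])) := by
    refine Nat.coprime_of_dvd fun p hp h7 h8 => ?_
    have h9 : p ∣ Nat.card H := h8.trans (Subgroup.card_dvd_of_le inf_le_left)
    rcases dvd_card_sup hp (le_norm_of_normal _ _) h7 with h | h
    · exact hp.one_lt.ne' (Nat.eq_one_of_dvd_coprimes hOc h9 h)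
    rcases dvd_card_sup hp (right_le_norm_comm H Q) h with h | h
    · exact hp.one_lt.ne' (Nat.eq_one_of_dvd_coprimes h6 h h8)
    · exact hp.one_lt.ne' (Nat.eq_one_of_dvd_coprimes hQc h h9)
  have hsd2 : Sdp (piCore {q | q ∣ Nat.card H}ᶜ G ⊔ (⁅H, Q⁆ ⊔ Q)) (H ⊓ C[Q]) ⊤ := by
    refine ⟨top_le_iff.1 ?_, le_norm_of_normal _ _, inf_eq_bot_of_coprime_card hcop⟩
    rw [← hs, ← hsd.sup_eq]
    refine sup_le (le_sup_left.trans le_sup_left) (sup_le (h5.sup_eq.ge.trans (sup_le_sup_right ?_ _)) ?_)
    · exact le_sup_left.trans le_sup_right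
    · exact le_sup_right.trans (le_sup_right.trans le_sup_left)
  refine ⟨?_, _, hXn, isComplement'_of_sdp_top hsd2⟩
  rw [← Subgroup.relIndex_top_right, hsd2.relIndex_right]
  exact hcop.symm

end Cfsg.Agent.S4151
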