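import Cfsg.Statements.S4153
import Cfsg.Agent.Fgs.ClassFusion

set_option autoImplicit false
open Cfsg

namespace Cfsg.Agent.S4153

open CL.Fgs Subgroup

theorem fibre {G : Type*} [Group G] [Finite G] (p : ℕ) [Fact p.Prime] (N : Subgroup G) [N.Normal]
    (P : Sylow p G) (y : G ⧸ N) (hy : IsPiElt {p} y) :
    Nat.card ↥(N ⊓ (P : Subgroup G)) ≤ {x : G | IsPiElt {p} x ∧ (x : G ⧸ N) = y}.ncard ∧
    (N ≤ center G →
      Nat.card ↥(N ⊓ (P : Subgroup G)) = {x : G | IsPiElt {p} x ∧ (x : G ⧸ N) = y}.ncard) := by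
  obtain ⟨x, hx, rfl⟩ := exists_isPiElt_map_eq _ (QuotientGroup.mk'_surjective N) hy
  obtain ⟨Q, hQ⟩ := hx.exists_mem_sylow
  have h1 : Nat.card ↥(N ⊓ (P : Subgroup G)) =
      ((fun n => x * n) '' (((Q : Subgroup G) ⊓ N : Subgroup G) : Set G)).ncard := by
    rw [Set.ncard_image_of_injective _ (mul_right_injective x), ncard_coe_subgroup, inf_comm]
    exact (CL.Grp.isSylowIn_inf_normal P N).card_eq (CL.Grp.isSylowIn_inf_normal Q N)
  have h2 : (fun n => x * n) '' (((Q : Subgroup G) ⊓ N : Subgroup G) : Set G) ⊆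
      {z : G | IsPiElt {p} z ∧ (z : G ⧸ N) = QuotientGroup.mk' N x} := by
    rintro _ ⟨n, hn, rfl⟩
    exact ⟨isPiElt_singleton_of_mem Q.isPGroup' (mul_mem hQ hn.1),
      QuotientGroup.mk_mul_of_mem x hn.2⟩
  rw [h1]
  refine ⟨Set.ncard_le_ncard h2 (Set.toFinite _), fun hN => congrArg _ (h2.antisymm ?_)⟩
  rintro z ⟨hz, e⟩
  have h3 : x⁻¹ * z ∈ N := QuotientGroup.eq.1 e.symm
  have h4 : Commute x⁻¹ z := by
    have : Commute x (x⁻¹ * z) := mem_center_iff.1 (hN h3) x
    simpa using ((Commute.refl x).mul_right this).inv_left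
  obtain ⟨g, hg⟩ := (hx.inv.mul hz h4).exists_conj_mem_sylow Q
  rw [mem_center_iff.1 (hN h3) g, mul_inv_cancel_right] at hg
  exact ⟨x⁻¹ * z, ⟨hg, h3⟩, by simp⟩


/-- Let G be a finite group, p a prime, N a normal subgroup, P a Sylow p-subgroup of G and P̄ a Sylow p-subgroup of G/N. Count the elements of p-power order, the identity included. Then (number of such elements of G/N)/#P̄ ≤ (number of such elements of G)/#P, stated as a cross-multiplied inequality, with equality when N is central. -/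
theorem result {G : Type*} [Group G] [Finite G] (p : ℕ) [Fact p.Prime] (N : Subgroup G) [N.Normal]
    (P : Sylow p G) (Pbar : Sylow p (G ⧸ N)) :
    Nat.card {g : (G ⧸ N) // ∃ k : ℕ, orderOf g = p ^ k} * Nat.card (P : Subgroup G) ≤ Nat.card {g : G // ∃ k : ℕ, orderOf g = p ^ k} * Nat.card (Pbar : Subgroup (G ⧸ N)) ∧
    (N ≤ Subgroup.center G → Nat.card {g : (G ⧸ N) // ∃ k : ℕ, orderOf g = p ^ k} * Nat.card (P : Subgroup G) = Nat.card {g : G // ∃ k : ℕ, orderOf g = p ^ k} * Nat.card (Pbar : Subgroup (G ⧸ N))) := by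
  classical
  have := Fintype.ofFinite G
  have := Fintype.ofFinite (G ⧸ N)
  have hp : p.Prime := Fact.out
  simp only [← isPiElt_singleton_iff hp]
  have h1 := CL.Grp.card_eq_card_inf_ker_mul_card_map (QuotientGroup.mk' N) (P : Subgroup G)
  have h2 : Nat.card ↥((P : Subgroup G).map (QuotientGroup.mk' N)) =
      Nat.card (Pbar : Subgroup (G ⧸ N)) := by
    rw [← Sylow.coe_mapSurjective (QuotientGroup.mk'_surjective N), Sylow.card_eq_multiplicity,
      Sylow.card_eq_multiplicity]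
  rw [QuotientGroup.ker_mk', h2] at h1
  have h3 : Nat.card {g : G // IsPiElt {p} g} = ∑ y ∈ Finset.univ.filter (IsPiElt {p} : G ⧸ N → Prop),
      {x : G | IsPiElt {p} x ∧ (x : G ⧸ N) = y}.ncard := by
    rw [card_subtype_eq_filter, Finset.card_eq_sum_card_fiberwise
      (f := (QuotientGroup.mk : G → G ⧸ N)) (t := Finset.univ.filter (IsPiElt {p} : G ⧸ N → Prop))
      (fun x hx => by
        simp only [Finset.coe_filter, Finset.mem_univ, true_and, Set.mem_ofPred_eq] at hx ⊢
        exact hx.map (QuotientGroup.mk' N))]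
    refine Finset.sum_congr rfl fun y _ => ?_
    rw [← Set.ncard_coe_finset]
    congr 1
    ext x
    simp
  rw [h1, h3, card_subtype_eq_filter, ← mul_assoc, ← smul_eq_mul (Finset.card _),
    ← Finset.sum_const]
  exact ⟨Nat.mul_le_mul_right _ (Finset.sum_le_sum fun y hy =>
    (fibre p N P y (Finset.mem_filter.1 hy).2).1), fun hN => congrArg (· * _)
    (Finset.sum_congr rfl fun y hy => (fibre p N P y (Finset.mem_filter.1 hy).2).2 hN)⟩

end Cfsg.Agent.S4153
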