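import Cfsg.Statements.S4154
import Cfsg.Agent.Fgs.ClassFusion

set_option autoImplicit false
open Cfsg

namespace Cfsg.Agent.S4154

open CL.Fgs Subgroup


/-- Let G be a finite group and α an automorphism of G such that every element of G is the product of an element fixed by α and an element of the form g⁻¹α(g). If N is a normal α-invariant subgroup, then the automorphism ᾱ induced on G/N has the same property, and every coset fixed by ᾱ contains an element fixed by α (so the fixed points of ᾱ are the images of the fixed points of α). -/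
theorem result {G : Type*} [Group G] [Finite G] (α : MulAut G)
    (hccp : ∀ x : G, ∃ c g : G, α c = c ∧ x = c * (g⁻¹ * α g))
    (N : Subgroup G) [N.Normal] (hN : ∀ n ∈ N, α n ∈ N) :
    (∀ x : G, ∃ c g : G, c⁻¹ * α c ∈ N ∧ x⁻¹ * (c * (g⁻¹ * α g)) ∈ N) ∧
    (∀ x : G, x⁻¹ * α x ∈ N → ∃ c : G, α c = c ∧ c⁻¹ * x ∈ N) := by
  refine ⟨fun x => ?_, fun x hx => ?_⟩
  · obtain ⟨c, g, hc, e⟩ := hccp x
    exact ⟨c, g, by simp [hc], by rw [← e]; simp⟩
  let β : G ⧸ N →* G ⧸ N := QuotientGroup.map N N α.toMonoidHom hN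
  let F : Subgroup (G ⧸ N) := β.eqLocus (MonoidHom.id _)
  let C : Subgroup (G ⧸ N) := (α.toMonoidHom.eqLocus (MonoidHom.id _)).map (QuotientGroup.mk' N)
  have hCF : C ≤ F := by
    rintro _ ⟨c, hc, rfl⟩
    exact congrArg (QuotientGroup.mk' N) hc
  let δ : (G ⧸ N) ⧸ F → G ⧸ N := Quotient.lift (fun g => g * (β g)⁻¹) (by
    intro a b hab
    have h : β (a⁻¹ * b) = a⁻¹ * b := QuotientGroup.leftRel_apply.1 hab
    rw [map_mul, map_inv] at h
    calc a * (β a)⁻¹ = a * ((β a)⁻¹ * β b) * (β b)⁻¹ := by group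
      _ = _ := by rw [h]; group)
  have h1 : Nat.card (G ⧸ N) ≤ Nat.card (C × ((G ⧸ N) ⧸ F)) := by
    refine Nat.card_le_card_of_surjective (fun a => a.1.1 * δ a.2) fun y => ?_
    obtain ⟨y, rfl⟩ := QuotientGroup.mk_surjective y
    obtain ⟨c, g, hc, e⟩ := hccp y
    refine ⟨(⟨_, c, hc, rfl⟩, QuotientGroup.mk ((g : G ⧸ N)⁻¹)), ?_⟩
    show (c : G ⧸ N) * ((g : G ⧸ N)⁻¹ * (β (g : G ⧸ N)⁻¹)⁻¹) = _
    rw [map_inv, inv_inv, e]
    rfl
  rw [Nat.card_prod, ← card_mul_index F] at h1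
  have h2 : C = F := eq_of_le_of_card_ge hCF
    (Nat.le_of_mul_le_mul_right h1 (Nat.pos_of_ne_zero index_ne_zero_of_finite))
  have h3 : (x : G ⧸ N) ∈ C := h2 ▸ (QuotientGroup.eq.2 hx).symm
  obtain ⟨c, hc, e⟩ := h3
  exact ⟨c, hc, QuotientGroup.eq.1 e⟩

end Cfsg.Agent.S4154
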