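import Cfsg.Statements.S4156
import Cfsg.Agent.Base

set_option autoImplicit false
open Cfsg
open scoped Pointwise

namespace Cfsg.Agent.S4156

open Matrix in
/-- The matrix of a permutation on the sum-zero vectors, in the basis `e_i - e_n`. -/
def mat (n : ℕ) (F : Type*) [Field F] (σ : Equiv.Perm (Fin (n + 1))) : Matrix (Fin n) (Fin n) F :=
  Matrix.of fun j i => (if j.castSucc = σ i.castSucc then (1 : F) else 0) -
    (if j.castSucc = σ (Fin.last n) then (1 : F) else 0)

theorem mat_one (n : ℕ) (F : Type*) [Field F] : mat n F 1 = 1 := by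
  ext j i
  simp [mat, Matrix.one_apply, Fin.castSucc_ne_last]

theorem mat_mul (n : ℕ) (F : Type*) [Field F] (σ τ : Equiv.Perm (Fin (n + 1))) :
    mat n F (σ * τ) = mat n F σ * mat n F τ := by
  ext j i
  have h := Fin.sum_univ_castSucc fun k : Fin (n + 1) =>
    ((if j.castSucc = σ k then (1 : F) else 0) - (if j.castSucc = σ (Fin.last n) then (1 : F) else 0)) *
      ((if k = τ i.castSucc then (1 : F) else 0) - (if k = τ (Fin.last n) then (1 : F) else 0))
  simp only [sub_self, zero_mul, add_zero] at h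
  simp only [mat, Matrix.mul_apply, Matrix.of_apply]
  rw [← h]
  simp only [mul_sub, mul_ite, mul_one, mul_zero, Finset.sum_sub_distrib, Finset.sum_ite_eq',
    Finset.mem_univ, if_true, Equiv.Perm.mul_apply]
  rw [sub_sub_sub_cancel_right]
  congr

/-- The representation on the sum-zero vectors as a monoid homomorphism. -/
def matHom (n : ℕ) (F : Type*) [Field F] : Equiv.Perm (Fin (n + 1)) →* Matrix (Fin n) (Fin n) F where
  toFun := mat n F
  map_one' := mat_one n F
  map_mul' := mat_mul n F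

theorem hom_trivial {G A : Type*} [Group G] [IsSimpleGroup G] (hG : ¬ IsMulCommutative G) [Monoid A]
    (f : G →* A) (hf : ∀ a b : G, f a * f b = f b * f a) (g : G) : f g = 1 := by
  rcases (MonoidHom.normal_ker f.toHomUnits).eq_bot_or_eq_top with h | h
  · exfalso
    apply hG
    refine ⟨⟨fun a b => (MonoidHom.ker_eq_bot_iff _).1 h ?_⟩⟩
    apply Units.ext
    simp [hf a b]
  · have : g ∈ f.toHomUnits.ker := h ▸ Subgroup.mem_top g
    exact congrArg Units.val (MonoidHom.mem_ker.1 this)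

/-- Let n ≥ 5 and F a finite field. Then the projective special linear group PSL_n(F) contains a subgroup isomorphic to the alternating group of degree n + 1. -/
theorem result (n : ℕ) (hn : 5 ≤ n) (F : Type*) [Field F] [Finite F] :
    ∃ f : alternatingGroup (Fin (n + 1)) →* Matrix.ProjectiveSpecialLinearGroup (Fin n) F, Function.Injective f := by
  haveI : IsSimpleGroup (alternatingGroup (Fin (n + 1))) :=
    alternatingGroup.isSimpleGroup (by simp; omega)
  obtain ⟨m, rfl⟩ : ∃ m, n = m + 5 := ⟨n - 5, by omega⟩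
  let c : Equiv.Perm (Fin (m + 5 + 1)) := Equiv.swap 0 1 * Equiv.swap 0 2
  let d : Equiv.Perm (Fin (m + 5 + 1)) := Equiv.swap 0 1 * Equiv.swap 0 3
  have h01 : (0 : Fin (m + 5 + 1)) ≠ 1 := by simp
  have e2 : 2 % (m + 5 + 1) = 2 := Nat.mod_eq_of_lt (by omega)
  have e3 : 3 % (m + 5 + 1) = 3 := Nat.mod_eq_of_lt (by omega)
  have h02 : (0 : Fin (m + 5 + 1)) ≠ 2 := by simp [Fin.ext_iff, e2]
  have h03 : (0 : Fin (m + 5 + 1)) ≠ 3 := by simp [Fin.ext_iff, Fin.coe_ofNat_eq_mod, e3]
  have h12 : (1 : Fin (m + 5 + 1)) ≠ 2 := by simp [Fin.ext_iff, e2]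
  have h13 : (1 : Fin (m + 5 + 1)) ≠ 3 := by simp [Fin.ext_iff, Fin.coe_ofNat_eq_mod, Nat.mod_eq_of_lt]
  have h23 : (2 : Fin (m + 5 + 1)) ≠ 3 := by simp [Fin.ext_iff, Fin.coe_ofNat_eq_mod, Nat.mod_eq_of_lt]
  have hc : c ∈ alternatingGroup (Fin (m + 5 + 1)) := by
    simp [c, Equiv.Perm.mem_alternatingGroup, h01, h02]
  have hd : d ∈ alternatingGroup (Fin (m + 5 + 1)) := by
    simp [d, Equiv.Perm.mem_alternatingGroup, h01, h03]
  have hna : ¬ IsMulCommutative (alternatingGroup (Fin (m + 5 + 1))) := by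
    intro h
    have h1 := congrArg Subtype.val (h.is_comm.comm ⟨c, hc⟩ ⟨d, hd⟩)
    have h2 := congrArg (fun σ : Equiv.Perm (Fin (m + 5 + 1)) => σ 0) h1
    simp [c, d, Equiv.swap_apply_def, h01, h02, h03, h12, h13, h23, h01.symm, h02.symm, h03.symm,
      h12.symm, h13.symm, h23.symm] at h2
  let ρ := (matHom (m + 5) F).comp (alternatingGroup (Fin (m + 5 + 1))).subtype
  have hdet : ∀ g, (ρ g).det = 1 := fun g =>
    hom_trivial hna (Matrix.detMonoidHom.comp ρ) (fun a b => mul_comm _ _) g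
  let σ : alternatingGroup (Fin (m + 5 + 1)) →* Matrix.SpecialLinearGroup (Fin (m + 5)) F :=
    { toFun := fun g => ⟨ρ g, hdet g⟩
      map_one' := Subtype.ext (map_one ρ)
      map_mul' := fun a b => Subtype.ext (map_mul ρ a b) }
  refine ⟨(QuotientGroup.mk' _).comp σ, ?_⟩
  rw [← MonoidHom.ker_eq_bot_iff]
  refine ((MonoidHom.normal_ker _).eq_bot_or_eq_top).resolve_right fun h => ?_
  have h1 : ∀ g, σ g ∈ Subgroup.center _ := fun g => by
    have : g ∈ ((QuotientGroup.mk' (Subgroup.center _)).comp σ).ker := h ▸ Subgroup.mem_top g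
    exact (QuotientGroup.eq_one_iff _).1 this
  have h2 := hom_trivial hna σ (fun a b => Subgroup.mem_center_iff.1 (h1 b) _) ⟨c, hc⟩
  have h3 : mat (m + 5) F c = 1 := congrArg Subtype.val h2
  have h4 := congrFun (congrFun h3 0) 0
  have h5 : c (Fin.last (m + 5)) = Fin.last (m + 5) := by
    have l0 : Fin.last (m + 5) ≠ 0 := by simp [Fin.ext_iff]
    have l1 : Fin.last (m + 5) ≠ 1 := by simp [Fin.ext_iff]
    have l2 : Fin.last (m + 5) ≠ 2 := by simp [Fin.ext_iff, e2]
    simp only [c, Equiv.Perm.mul_apply]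
    rw [Equiv.swap_apply_of_ne_of_ne l0 l2, Equiv.swap_apply_of_ne_of_ne l0 l1]
  have h6 : c 0 = 2 := by
    simp only [c, Equiv.Perm.mul_apply]
    rw [Equiv.swap_apply_left, Equiv.swap_apply_of_ne_of_ne h02.symm h12.symm]
  have h7 : (0 : Fin (m + 5 + 1)) ≠ Fin.last (m + 5) := by simp [Fin.ext_iff]
  simp only [mat, Matrix.of_apply, Fin.castSucc_zero, h5, h6, if_neg h02,
    Matrix.one_apply_eq] at h4
  split_ifs at h4 with h8
  · exact h7 h8
  · simp at h4

end Cfsg.Agent.S4156
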