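import Cfsg.Statements.S4157
import Cfsg.Agent.Fgs.PCount2

set_option autoImplicit false
open Cfsg

namespace Cfsg.Agent.S4157

/-- Let G be a finite p-group of order p^m that is not cyclic and, when p = 2, not of maximal class (nilpotency class m − 1). Then for every 1 ≤ k < m the number of subgroups of G of order p^k is congruent to 1 + p modulo p². -/
theorem result {G : Type*} [Group G] [Finite G] {p : ℕ} [Fact p.Prime] (m : ℕ)
    (hG : Nat.card G = p ^ m) (hnc : ¬ IsCyclic G) (h2 : p = 2 → Group.nilpotencyClass G ≠ m - 1)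
    (k : ℕ) (hk1 : 1 ≤ k) (hk2 : k < m) :
    Nat.card {H : Subgroup G // Nat.card H = p ^ k} ≡ 1 + p [MOD p ^ 2] := by
  have hP : IsPGroup p G := IsPGroup.of_card hG
  change CL.Fgs.numSub G (p ^ k) ≡ 1 + p [MOD p ^ 2]
  obtain ⟨E, hEn, hE, hc⟩ : ∃ E : Subgroup G, E.Normal ∧ IsElementaryAbelian p E ∧ Nat.card E = p ^ 2 := by
    by_contra h
    push Not at h
    rcases CL.Grp.isCyclic_or_dqsGen_of_forall_normal hP h with h | ⟨hp2, n, a, b, h⟩
    · exact hnc h
    · apply h2 hp2
      have h3 := h.card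
      rw [hG, hp2] at h3
      rw [h.nilpotencyClass_eq, Nat.pow_right_injective le_rfl h3]
      rfl
  by_cases h21 : p = 2 ∧ k = 1
  · obtain ⟨rfl, rfl⟩ := h21
    have h4 := CL.Fgs.four_dvd_ncard_sq_eq_one hP hE hc fun h8 => by
      by_contra hna
      apply h2 rfl
      have hm : m = 3 := Nat.pow_right_injective (le_refl 2) (hG.symm.trans h8)
      have := hP.isNilpotent
      have h5 := CL.Grp.nilpotencyClass_le_of_card_dvd_pow (p := 2) 1 G (by rw [h8]; norm_num)
      have h6 : ¬ Group.nilpotencyClass G ≤ 1 := fun h => hna (Group.IsNilpotent.nilpotencyClass_le_one_iff.1 h)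
      omega
    have h5 : CL.Fgs.numSub G (2 ^ 1) = {x : G | orderOf x = 2}.ncard := by
      rw [CL.Fgs.ncard_orderOf_eq, CL.Fgs.numSub_eq_ncard]
      simp only [pow_one, Nat.totient_two, one_mul]
      congr 1
      ext K
      exact ⟨fun h => ⟨h, isCyclic_of_prime_card h⟩, fun h => h.1⟩
    have h6 : {x : G | x ^ 2 = 1} = insert 1 {x : G | orderOf x = 2} := by
      ext x
      simp only [Set.mem_ofPred_eq, Set.mem_insert_iff]
      constructor
      · intro h
        by_cases h1 : x = 1
        exacts [Or.inl h1, Or.inr (orderOf_eq_prime h h1)]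
      · rintro (rfl | h)
        · simp
        · rw [← h, pow_orderOf_eq_one]
    rw [h6, Set.ncard_insert_of_notMem (by simp)] at h4
    rw [h5]
    unfold Nat.ModEq
    omega
  have h := CL.Fgs.numSub_add_mul_cyclic_modEq (G := G) (p := p) (k := k) (hG ▸ pow_dvd_pow p hk2)
  change _ + p * (CL.Fgs.cycSub G (p ^ (k + 1))).ncard ≡ _ [MOD _] at h
  have h1 := Nat.modEq_zero_iff_dvd.2 (CL.Fgs.dvd_ncard_cycSub hP hE hc hk1 fun h => by
    by_contra h'
    exact h21 ⟨h, by omega⟩)
  have h3 := (Nat.ModEq.refl (CL.Fgs.numSub G (p ^ k))).add (h1.mul_left' p)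
  rw [← pow_two] at h3
  simpa using h3.symm.trans h

end Cfsg.Agent.S4157
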