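import Cfsg.Statements.S4168
import Cfsg.Agent.Fgs.SchurBasic

set_option autoImplicit false
open Cfsg

namespace Cfsg.Agent.S4168

/-- Let L be a finite quasisimple group (perfect with L/Z(L) simple). Then every prime dividing the order of the centre Z(L) also divides the order of L/Z(L). -/
theorem result {L : Type*} [Group L] [Finite L] (hL : Cfsg.IsQuasisimple L)
    (p : ℕ) (hp : p.Prime) (hdiv : p ∣ Nat.card (Subgroup.center L)) : p ∣ (Subgroup.center L).index := by
  have : Fact p.Prime := ⟨hp⟩
  obtain ⟨x, hx⟩ := exists_prime_orderOf_dvd_card' p hdiv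
  have h1 : (x : L) ∈ commutator L := by
    have : commutator L = ⊤ := hL.1.commutator_eq_top
    rw [this]; trivial
  have h2 := CL.Schur.pow_card_eq_one_of_mem (ξ := QuotientGroup.mk' (Subgroup.center L))
    (QuotientGroup.mk'_surjective _) (by rw [QuotientGroup.ker_mk']) h1
  rw [← hx, orderOf_dvd_iff_pow_eq_one]
  exact Subtype.ext h2

end Cfsg.Agent.S4168
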