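import Cfsg.Statements.S4169
import Cfsg.Agent.Fgs.ClassIto

set_option autoImplicit false
open Cfsg

namespace Cfsg.Agent.S4169

open CL.Fgs


/-- Let P be a finite p-group whose conjugacy classes have exactly two sizes (1 and one other value). Then P has nilpotency class at most 3. -/
theorem result {P : Type*} [Group P] [Finite P] {p : ℕ} [Fact p.Prime] (hP : IsPGroup p P)
    (m : ℕ) (hm : 1 < m) (h : ∀ x : P, (Subgroup.centralizer ({x} : Set P)).index = 1 ∨ (Subgroup.centralizer ({x} : Set P)).index = m) :
    upperCentralSeries P 3 = ⊤ := by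
  haveI := hP.isNilpotent
  obtain ⟨A, hAn, hA, -, hCA⟩ := CL.Grp.exists_selfCentralizing_abelian_normal (⊥ : Subgroup P)
  have hmod : ∀ a ∈ A, ∀ g : P, g ∈ centMod a := fun a ha g =>
    mem_centMod_of_min hA ha fun y _ hy => by
      rcases h y with h1 | h1
      · exact h1
      · rcases h g with h2 | h2 <;> omega
  show Subgroup.upperCentralSeries P 3 = ⊤
  rw [eq_top_iff]
  intro x _
  rw [Subgroup.mem_upperCentralSeries_succ_iff]
  intro y
  rw [Subgroup.mem_upperCentralSeries_succ_iff]
  intro z
  rw [Subgroup.upperCentralSeries_one]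
  have h1 : (x * y * x⁻¹ * y⁻¹) ∈ A := by
    rw [← hCA]
    exact fun a ha => (commute_commutator_of_mem_centMod (hmod a ha x) (hmod a ha y)).eq
  simpa [commutatorElement_def] using mem_centMod.1 (hmod _ h1 z)

end Cfsg.Agent.S4169
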