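import Cfsg.Statements.S4170
import Cfsg.Agent.Grp.SylowIn

set_option autoImplicit false
open scoped Pointwise
open Cfsg

namespace Cfsg.Agent.S4170

/-- Let p be an odd prime and G a nontrivial group of permutations of a finite set Ω that is generated by its elements of p-power order. Then Ω has two disjoint nonempty subsets Δ₁ and Δ₂ such that the index in G of the subgroup of elements mapping Δ₁ onto Δ₁ and Δ₂ onto Δ₂ (and hence also the complement of their union onto itself) is divisible by p. -/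
theorem result {Ω : Type*} [Fintype Ω] (p : ℕ) [Fact p.Prime] (hp : p ≠ 2) (G : Subgroup (Equiv.Perm Ω)) (hG : G ≠ ⊥) (hgen : Subgroup.closure {g : G | ∃ k : ℕ, orderOf g = p ^ k} = ⊤) :
    ∃ Δ₁ Δ₂ : Set Ω, Δ₁.Nonempty ∧ Δ₂.Nonempty ∧ Disjoint Δ₁ Δ₂ ∧ p ∣ (MulAction.stabilizer G Δ₁ ⊓ MulAction.stabilizer G Δ₂).index := by
  classical
  -- a subgroup of index prime to `p` contains a Sylow subgroup
  have hS : ∀ S : Subgroup G, ¬ p ∣ S.index → ∃ P : Sylow p G, (P : Subgroup G) ≤ S := by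
    intro S h
    obtain ⟨U, hU⟩ := CL.Grp.exists_isSylowIn p S
    have h2 : CL.Grp.IsSylowIn p U ⊤ := by
      refine ⟨le_top, hU.isPGroup, ?_⟩
      rw [Subgroup.relIndex_top_right, ← Subgroup.relIndex_mul_index hU.le]
      exact fun h3 => ((Fact.out : p.Prime).dvd_mul.1 h3).elim hU.not_dvd h
    obtain ⟨P, hP⟩ := CL.Grp.isSylowIn_top_iff.1 h2
    exact ⟨P, hP ▸ hU.le⟩
  have hex : ∃ n, ∃ D : Finset Ω, D.card = n ∧ ∀ P : Sylow p G, ∃ x ∈ (P : Subgroup G), ∃ ω ∈ D, x • ω ≠ ω := by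
    refine ⟨_, Finset.univ, rfl, fun P => ?_⟩
    by_contra hc
    push Not at hc
    have hP : (P : Subgroup G) = ⊥ := by
      rw [eq_bot_iff]
      intro x hx
      rw [Subgroup.mem_bot]
      exact Subtype.ext (Equiv.ext fun ω => hc x hx ω (Finset.mem_univ _))
    have h1 : {g : G | ∃ k : ℕ, orderOf g = p ^ k} ⊆ (⊥ : Subgroup G) := by
      rintro g ⟨k, hk⟩
      have h2 : IsPGroup p (Subgroup.zpowers g) := IsPGroup.of_card (by rw [Nat.card_zpowers, hk])
      obtain ⟨y, hy⟩ := CL.Grp.exists_conj_le_sylow P h2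
      have h3 := hy (CL.Grp.conj_mem_conj_smul y (Subgroup.mem_zpowers g))
      rw [hP, Subgroup.mem_bot] at h3
      simpa using h3
    have h2 := (Subgroup.closure_le _).2 h1
    rw [hgen] at h2
    refine hG ((Subgroup.eq_bot_iff_forall _).2 fun x hx => ?_)
    exact congrArg Subtype.val (Subgroup.mem_bot.1 (h2 (Subgroup.mem_top (⟨x, hx⟩ : G))))
  obtain ⟨D, hD, hD2⟩ := Nat.find_spec hex
  obtain ⟨P0⟩ : Nonempty (Sylow p G) := inferInstance
  obtain ⟨x0, -, ω, hω, hx0⟩ := hD2 P0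
  have hP : ∃ P : Sylow p G, ∀ x ∈ (P : Subgroup G), ∀ d ∈ D.erase ω, x • d = d := by
    by_contra hc
    push Not at hc
    exact Nat.find_min hex (hD ▸ Finset.card_erase_lt_of_mem hω) ⟨D.erase ω, rfl, hc⟩
  obtain ⟨P, hP⟩ := hP
  have hst : ∀ x : G, x ∈ MulAction.stabilizer G ({ω} : Set Ω) → x • ω = ω := fun x hx => by
    simpa [MulAction.mem_stabilizer_iff] using hx
  by_cases hE : (D.erase ω).Nonempty
  · refine ⟨{ω}, (D.erase ω : Finset Ω), Set.singleton_nonempty _, by exact_mod_cast hE, by simp, ?_⟩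
    by_contra hc
    obtain ⟨P1, hP1⟩ := hS _ hc
    have hT : (P : Subgroup G) ≤ MulAction.stabilizer G ((D.erase ω : Finset Ω) : Set Ω) := fun x hx => by
      rw [MulAction.mem_stabilizer_iff]
      ext d
      rw [Set.mem_smul_set_iff_inv_smul_mem]
      constructor
      · intro h
        have := hP x hx _ h
        rw [smul_inv_smul] at this
        exact this ▸ h
      · intro h
        rwa [hP _ (inv_mem hx) _ h]
    obtain ⟨t, ht, e⟩ := (CL.Grp.isSylowIn_of_le P hT).exists_conj_eq (CL.Grp.isSylowIn_of_le P1 (hP1.trans inf_le_right))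
    obtain ⟨x, hx, d, hd, hxd⟩ := hD2 P1
    by_cases hdω : d = ω
    · exact hxd (hdω ▸ hst x (hP1 hx).1)
    · rw [← e, CL.Grp.mem_conj_smul_iff] at hx
      have h1 : t⁻¹ • d ∈ ((D.erase ω : Finset Ω) : Set Ω) := by
        rw [← Set.mem_smul_set_iff_inv_smul_mem, MulAction.mem_stabilizer_iff.1 ht]
        exact Finset.mem_erase.2 ⟨hdω, hd⟩
      have h2 := hP _ hx _ h1
      rw [mul_smul, mul_smul, smul_inv_smul] at h2
      exact hxd (smul_left_cancel _ h2)
  · refine ⟨{ω}, {x0 • ω}, Set.singleton_nonempty _, Set.singleton_nonempty _, by simpa using hx0.symm, ?_⟩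
    by_contra hc
    obtain ⟨P1, hP1⟩ := hS _ hc
    obtain ⟨x, hx, d, hd, hxd⟩ := hD2 P1
    have hdω : d = ω := by
      by_contra h
      exact hE ⟨d, Finset.mem_erase.2 ⟨h, hd⟩⟩
    exact hxd (hdω ▸ hst x (hP1 hx).1)

end Cfsg.Agent.S4170
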