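import Cfsg.Statements.S4177
import Cfsg.Agent.Grp.SylowIn

set_option autoImplicit false
open Cfsg

namespace Cfsg.Agent.S4177

section Helpers
open Subgroup CL.Grp

variable {k V H : Type*} [Field k] [AddCommGroup V] [Module k V] [Group H] [Finite H]

/-- the stabiliser of a vector -/
def stab (ρ : Representation k H V) (a : V) : Subgroup H where
  carrier := {h | ρ h a = a}
  one_mem' := by simp
  mul_mem' := fun {x y} hx hy => by
    simp only [Set.mem_ofPred_eq] at hx hy ⊢
    rw [map_mul, Module.End.mul_apply, hy, hx]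
  inv_mem' := fun {x} hx => by
    simp only [Set.mem_ofPred_eq] at hx ⊢
    conv_lhs => rw [← hx]
    rw [← Module.End.mul_apply, ← map_mul, inv_mul_cancel, map_one, Module.End.one_apply]

omit [Finite H] in
theorem index_stab (ρ : Representation k H V) (a : V) :
    (stab ρ a).index = Nat.card {u : V | ∃ h : H, ρ h a = u} := by
  letI : MulAction H V := MulAction.compHom V ρ
  exact MulAction.index_stabilizer H a

theorem exists_gen (ρ : Representation k H V) (a : V)
    (hspan : Submodule.span k {u : V | ∃ h : H, ρ h a = u} = ⊤) (L : Subgroup H)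
    (hL : (Nat.card L : k) ≠ 0) (hcop : L.index.Coprime (stab ρ a).index) :
    ∃ s : V, (∀ h, ρ h s = s) ∧ ∀ b, (∀ l ∈ L, ρ l b = b) → b ∈ Submodule.span k {s} := by
  classical
  have := Fintype.ofFinite H
  have htr : ∀ h : H, ∃ l : L, ρ l a = ρ h a := by
    intro h
    obtain ⟨l, hl, c, hc, rfl⟩ := exists_mul_eq_of_coprime_index hcop h
    exact ⟨⟨l, hl⟩, by rw [map_mul, Module.End.mul_apply, show ρ c a = a from hc]⟩
  let π : V →ₗ[k] V := ∑ l : L, ρ l
  have hπ : ∀ v, π v = ∑ l : L, ρ l v := fun v => LinearMap.sum_apply _ _ _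
  have hπl : ∀ (l : L) v, π (ρ l v) = π v := by
    intro l v
    rw [hπ, hπ, ← Equiv.sum_comp (Equiv.mulRight l) (fun x : L => ρ x v)]
    simp
  refine ⟨π a, fun h => ?_, fun b hb => ?_⟩
  · let Ω : Finset V := Finset.univ.image fun h : H => ρ h a
    have hc : ∀ u ∈ Ω, (Finset.univ.filter fun l : L => ρ l a = u).card =
        (Finset.univ.filter fun l : L => ρ l a = a).card := by
      intro u hu
      obtain ⟨g, -, rfl⟩ := Finset.mem_image.1 hu
      obtain ⟨l0, hl0⟩ := htr g
      refine (Finset.card_equiv (Equiv.mulLeft l0) fun l => ?_).symm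
      simp only [Finset.mem_filter, Finset.mem_univ, true_and, Equiv.coe_mulLeft, Subgroup.coe_mul,
        map_mul, Module.End.mul_apply, ← hl0]
      exact (ρ.apply_bijective l0).1.eq_iff.symm
    have h1 : π a = (Finset.univ.filter fun l : L => ρ l a = a).card • ∑ u ∈ Ω, u := by
      rw [hπ, ← Finset.sum_fiberwise_of_maps_to (s := Finset.univ) (t := Ω) (g := fun l : L => ρ l a)
        (fun l _ => Finset.mem_image.2 ⟨l, Finset.mem_univ _, rfl⟩), Finset.smul_sum]
      refine Finset.sum_congr rfl fun u hu => ?_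
      rw [← hc u hu, ← Finset.sum_const]
      exact Finset.sum_congr rfl fun l hl => (Finset.mem_filter.1 hl).2
    rw [h1, map_nsmul, map_sum]
    congr 1
    refine Finset.sum_bij (fun u _ => ρ h u) (fun u hu => ?_)
      (fun u _ v _ huv => (ρ.apply_bijective h).1 huv) (fun u hu => ?_) fun _ _ => rfl
    · obtain ⟨g, -, rfl⟩ := Finset.mem_image.1 hu
      exact Finset.mem_image.2 ⟨h * g, Finset.mem_univ _, by simp⟩
    · obtain ⟨g, -, rfl⟩ := Finset.mem_image.1 hu
      exact ⟨_, Finset.mem_image.2 ⟨h⁻¹ * g, Finset.mem_univ _, rfl⟩, by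
        rw [← Module.End.mul_apply, ← map_mul, mul_inv_cancel_left]⟩
  · have h1 : ∀ v, π v ∈ Submodule.span k {π a} := by
      intro v
      have hv : v ∈ Submodule.span k {u : V | ∃ h : H, ρ h a = u} := hspan ▸ Submodule.mem_top
      refine (Submodule.span_le (p := (Submodule.span k {π a}).comap π)).2 ?_ hv
      rintro _ ⟨h, rfl⟩
      obtain ⟨l, hl⟩ := htr h
      change π (ρ h a) ∈ Submodule.span k {π a}
      rw [← hl, hπl]
      exact Submodule.mem_span_singleton_self _
    have h2 : π b = (Nat.card L : k) • b := by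
      rw [hπ, Finset.sum_congr rfl fun (l : L) _ => hb l l.2, Finset.sum_const, Finset.card_univ,
        Nat.card_eq_fintype_card, Nat.cast_smul_eq_nsmul]
    have := Submodule.smul_mem _ (Nat.card L : k)⁻¹ (h1 b)
    rwa [h2, smul_smul, inv_mul_cancel₀ hL, one_smul] at this

theorem finrank_le (ρ : Representation k H V) (a : V)
    (hspan : Submodule.span k {u : V | ∃ h : H, ρ h a = u} = ⊤) (L : Subgroup H)
    (hL : (Nat.card L : k) ≠ 0) (hcop : L.index.Coprime (stab ρ a).index) :
    Module.finrank k ρ.invariants ≤ 1 := by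
  obtain ⟨s, -, hs⟩ := exists_gen ρ a hspan L hL hcop
  have : ρ.invariants ≤ Submodule.span k {s} := fun b hb => hs b fun l _ => hb l
  exact (Submodule.finrank_mono this).trans (by simpa using finrank_span_le_card ({s} : Set V))

theorem fixed (ρ : Representation k H V) (a : V)
    (hspan : Submodule.span k {u : V | ∃ h : H, ρ h a = u} = ⊤) (L : Subgroup H)
    (hL : (Nat.card L : k) ≠ 0) (hcop : L.index.Coprime (stab ρ a).index) (b : V)
    (hb : L ≤ stab ρ b) (h : H) : ρ h b = b := by
  obtain ⟨s, hs1, hs⟩ := exists_gen ρ a hspan L hL hcop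
  obtain ⟨c, rfl⟩ := Submodule.mem_span_singleton.1 (hs b hb)
  rw [map_smul, hs1]

end Helpers

/-- Let k be a field whose characteristic does not divide the order of the finite group H (for instance a field of characteristic zero), and ρ a k-linear representation of H on V. Let a be a vector whose H-orbit spans V. Then the space of H-fixed vectors has dimension at most 1, and every vector b whose H-orbit has size coprime to the size of the orbit of a is fixed by H. -/
theorem result {k V H : Type*} [Field k] [AddCommGroup V] [Module k V] [Group H] [Finite H]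
    (hchar : ¬ ringChar k ∣ Nat.card H) (ρ : Representation k H V) (a : V)
    (hspan : Submodule.span k {u : V | ∃ h : H, ρ h a = u} = ⊤) :
    Module.finrank k ρ.invariants ≤ 1 ∧
    ∀ b : V, (Nat.card {u : V | ∃ h : H, ρ h a = u}).Coprime (Nat.card {u : V | ∃ h : H, ρ h b = u}) → ∀ h : H, ρ h b = b := by
  have hL : ∀ L : Subgroup H, (Nat.card L : k) ≠ 0 := fun L h =>
    hchar (((ringChar.spec k _).1 h).trans L.card_subgroup_dvd_card)
  refine ⟨finrank_le ρ a hspan ⊤ (hL _) (by simp), fun b hb => fixed ρ a hspan (stab ρ b) (hL _) ?_ b le_rfl⟩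
  rw [index_stab, index_stab]
  exact hb.symm

end Cfsg.Agent.S4177
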