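import Cfsg.Statements.S4176
import Cfsg.Agent.S4177
import Cfsg.Agent.Grp.Hall2
import Cfsg.Agent.Loc.PSolv

set_option autoImplicit false
open Cfsg

namespace Cfsg.Agent.S4176

/-- Let k be a field of prime characteristic p, H a finite p-soluble group and ρ a k-linear representation of H on V. Let a be a vector that is fixed by some Sylow p-subgroup of H and whose H-orbit spans V. Then the space of H-fixed vectors has dimension at most 1, and every vector b whose H-orbit has size coprime to the size of the orbit of a is fixed by H. -/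
theorem result {k V H : Type*} [Field k] (p : ℕ) [Fact p.Prime] [CharP k p] [AddCommGroup V] [Module k V]
    [Group H] [Finite H] (hsol : Cfsg.IsPSolvable p H) (ρ : Representation k H V) (a : V)
    (hfix : ∃ P : Sylow p H, ∀ x : H, x ∈ (P : Subgroup H) → ρ x a = a)
    (hspan : Submodule.span k {u : V | ∃ h : H, ρ h a = u} = ⊤) :
    Module.finrank k ρ.invariants ≤ 1 ∧
    ∀ b : V, (Nat.card {u : V | ∃ h : H, ρ h a = u}).Coprime (Nat.card {u : V | ∃ h : H, ρ h b = u}) → ∀ h : H, ρ h b = b := by
  obtain ⟨P, hP⟩ := hfix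
  have hp : p.Prime := Fact.out
  have hpa : p.Coprime (S4177.stab ρ a).index := (Nat.Prime.coprime_iff_not_dvd hp).2 fun h =>
    P.not_dvd_index (h.trans (Subgroup.index_dvd_of_le (show (P : Subgroup H) ≤ _ from hP)))
  have key : ∀ D : Subgroup H, D.index.Coprime (S4177.stab ρ a).index →
      ∃ L ≤ D, (Nat.card L : k) ≠ 0 ∧ L.index.Coprime (S4177.stab ρ a).index := by
    intro D hD
    obtain ⟨L, hL⟩ := (CL.Grp.hallD_compl_of_isPSolvable hp
      (CL.Loc.isPSolvable_subgroup hsol D)).exists_hall
    obtain ⟨h1, j, h2⟩ := (CL.Grp.isPiHall_compl_singleton_iff hp).1 hL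
    refine ⟨L.map D.subtype, Subgroup.map_subtype_le L, ?_, ?_⟩
    · rwa [CL.Grp.hall_card_map_subtype, Ne, CharP.cast_eq_zero_iff k p]
    · rw [Subgroup.index_map_subtype, h2]
      exact Nat.Coprime.mul_left (hpa.pow_left j) hD
  constructor
  · obtain ⟨L, -, h1, h2⟩ := key ⊤ (by simp)
    exact S4177.finrank_le ρ a hspan L h1 h2
  · intro b hb
    obtain ⟨L, h0, h1, h2⟩ := key (S4177.stab ρ b)
      (by rw [S4177.index_stab, S4177.index_stab]; exact hb.symm)
    exact S4177.fixed ρ a hspan L h1 h2 b h0

end Cfsg.Agent.S4176
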