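import Cfsg.Statements.S4178
import Cfsg.Agent.Base

set_option autoImplicit false
open Cfsg

namespace Cfsg.Agent.S4178

section Helpers
theorem index_le {H Y : Type*} [Group H] [Finite Y] (R : Subgroup H) (f : H → Y) (y : Y)
    (h : ∀ a b, f a = f b → a⁻¹ * b ∈ R) (hy : ∀ a, f a ≠ y) : R.index ≤ Nat.card Y - 1 := by
  classical
  have := Fintype.ofFinite Y
  have h1 : Nat.card {x : Y // x ≠ y} = Nat.card Y - 1 := by
    simp [Nat.card_eq_fintype_card, Fintype.card_subtype_compl]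
  rw [← h1]
  refine Nat.card_le_card_of_injective (fun q : H ⧸ R => (⟨f q.out, hy _⟩ : {x : Y // x ≠ y}))
    fun a b e => ?_
  rw [← a.out_eq, ← b.out_eq]
  exact QuotientGroup.eq.2 (h _ _ (congrArg Subtype.val e))

theorem exists_fixed {F V : Type*} [Field F] [AddCommGroup V] [Module F V] [FiniteDimensional F V]
    (g : V ≃ₗ[F] V) {W : Submodule F V} (hW : ∀ w ∈ W, g w ∈ W) {v : V} (hv : v ∉ W)
    (h : g v - v ∈ W) : ∃ u : V, u ≠ 0 ∧ g u = u := by
  by_contra hc
  push Not at hc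
  have h1 : ∀ x ∈ W ⊔ Submodule.span F {v}, ((g : V →ₗ[F] V) - 1) x ∈ W := by
    intro x hx
    obtain ⟨w, hw, y, hy, rfl⟩ := Submodule.mem_sup.1 hx
    obtain ⟨c, rfl⟩ := Submodule.mem_span_singleton.1 hy
    rw [map_add, map_smul]
    exact W.add_mem (W.sub_mem (hW w hw) hw) (W.smul_mem c h)
  have h2 : Function.Injective (((g : V →ₗ[F] V) - 1).restrict h1) := by
    rw [injective_iff_map_eq_zero]
    intro x hx
    by_contra h0
    exact hc x (fun e => h0 (Subtype.ext e)) (sub_eq_zero.1 (congrArg Subtype.val hx))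
  have h3 : W < W ⊔ Submodule.span F {v} := lt_of_le_of_ne le_sup_left fun e =>
    hv (by rw [e]; exact Submodule.mem_sup_right (Submodule.mem_span_singleton_self v))
  exact (Submodule.finrank_lt_finrank_of_lt h3).not_ge
    (LinearMap.finrank_le_finrank_of_injective h2)

end Helpers

/-- Let F be a finite field with q elements, V a non-zero finite-dimensional F-space of dimension d, H a group of invertible linear maps of V, and R the subgroup of H generated by the elements of H that fix some non-zero vector (have eigenvalue 1). Then the index of R in H is at most q^d − 1; and if H leaves invariant some proper non-zero subspace, the index is at most q^(d/2) − 1. -/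
theorem result {F V : Type*} [Field F] [Fintype F] [AddCommGroup V] [Module F V] [FiniteDimensional F V] [Nontrivial V]
    (H : Subgroup (V ≃ₗ[F] V)) :
    (Subgroup.closure {h : ↥H | ∃ v : V, v ≠ 0 ∧ (h : V ≃ₗ[F] V) v = v}).index ≤ Fintype.card F ^ Module.finrank F V - 1 ∧
    ((∃ W : Submodule F V, W ≠ ⊥ ∧ W ≠ ⊤ ∧ ∀ h ∈ H, ∀ w ∈ W, h w ∈ W) →
      ((Subgroup.closure {h : ↥H | ∃ v : V, v ≠ 0 ∧ (h : V ≃ₗ[F] V) v = v}).index : ℝ) ≤ Real.sqrt ((Fintype.card F : ℝ) ^ Module.finrank F V) - 1) := by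
  have hV : Finite V := Module.finite_of_finite F
  have key : ∀ W U : Submodule F V, W < U → (∀ h ∈ H, ∀ w ∈ W, h w ∈ W) →
      (∀ h ∈ H, ∀ w ∈ U, h w ∈ U) →
      (Subgroup.closure {h : ↥H | ∃ v : V, v ≠ 0 ∧ (h : V ≃ₗ[F] V) v = v}).index ≤
        Fintype.card F ^ (Module.finrank F U - Module.finrank F W) - 1 := by
    intro W U hWU hW hU
    obtain ⟨v, hvU, hv⟩ := SetLike.exists_of_lt hWU
    have : Finite (U ⧸ W.comap U.subtype) := Module.finite_of_finite F
    have h1 := index_le (Subgroup.closure {h : ↥H | ∃ v : V, v ≠ 0 ∧ (h : V ≃ₗ[F] V) v = v})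
      (fun h => (W.comap U.subtype).mkQ ⟨(h : V ≃ₗ[F] V) v, hU h h.2 v hvU⟩) 0
      (fun a b e => Subgroup.subset_closure ?_) fun a e => hv ?_
    · rwa [Module.natCard_eq_pow_finrank (K := F), Nat.card_eq_fintype_card,
        Nat.eq_sub_of_add_eq (W.comap U.subtype).finrank_quotient_add_finrank,
        (Submodule.comapSubtypeEquivOfLe hWU.le).finrank_eq] at h1
    · refine exists_fixed _ (hW _ (a⁻¹ * b).2) hv ?_
      have h2 : (b : V ≃ₗ[F] V) v - (a : V ≃ₗ[F] V) v ∈ W :=
        (Submodule.Quotient.eq (W.comap U.subtype)).1 e.symm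
      simpa using hW _ a⁻¹.2 _ h2
    · have h2 : (a : V ≃ₗ[F] V) v ∈ W := (Submodule.Quotient.mk_eq_zero (W.comap U.subtype)).1 e
      simpa using hW _ a⁻¹.2 _ h2
  refine ⟨by simpa using key ⊥ ⊤ bot_lt_top (by simp) (by simp), ?_⟩
  rintro ⟨W, h0, h1, hW⟩
  have k1 := key ⊥ W (bot_lt_iff_ne_bot.2 h0) (by simp) hW
  have k2 := key W ⊤ (lt_top_iff_ne_top.2 h1) hW (by simp)
  rw [finrank_bot, Nat.sub_zero] at k1
  rw [finrank_top] at k2
  have hq : 1 ≤ Fintype.card F := Fintype.card_pos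
  obtain ⟨m, hm, k⟩ : ∃ m, 2 * m ≤ Module.finrank F V ∧
      (Subgroup.closure {h : ↥H | ∃ v : V, v ≠ 0 ∧ (h : V ≃ₗ[F] V) v = v}).index ≤
        Fintype.card F ^ m - 1 := by
    by_cases h : 2 * Module.finrank F W ≤ Module.finrank F V
    · exact ⟨_, h, k1⟩
    · exact ⟨_, by omega, k2⟩
  have h2 : ((Fintype.card F ^ m : ℕ) : ℝ) ≤ Real.sqrt ((Fintype.card F : ℝ) ^ Module.finrank F V) := by
    refine Real.le_sqrt_of_sq_le ?_
    rw [← Nat.cast_pow, ← Nat.cast_pow, Nat.cast_le, ← pow_mul, mul_comm]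
    exact Nat.pow_le_pow_right hq hm
  have h3 := (Nat.cast_le (α := ℝ)).2 k
  rw [Nat.cast_sub (Nat.one_le_pow _ _ hq), Nat.cast_one] at h3
  linarith

end Cfsg.Agent.S4178
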