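import Cfsg.Statements.S4182
import Cfsg.Agent.Grp.SylowIn
import Cfsg.Agent.Grp.Subnormal
import Cfsg.Agent.Grp.Cores

set_option autoImplicit false
open Cfsg

namespace Cfsg.Agent.S4182

section Helpers
open Subgroup CL.Grp
open scoped Pointwise

variable {G : Type*} [Group G] [Finite G] {p : ℕ} [hp : Fact p.Prime]

/-- the subgroup generated by the `p`-elements of `H` -/
def gen (p : ℕ) (H : Subgroup G) : Subgroup G := Subgroup.closure {g : G | g ∈ H ∧ ∃ k : ℕ, orderOf g = p ^ k}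

omit [Finite G] hp in
theorem gen_le (H : Subgroup G) : gen p H ≤ H := (closure_le _).2 fun _ h => h.1

omit [Finite G] hp in
theorem gen_mono {H K : Subgroup G} (h : H ≤ K) : gen p H ≤ gen p K :=
  closure_mono fun _ hg => ⟨h hg.1, hg.2⟩

omit [Finite G] hp in
theorem gen_gen (H : Subgroup G) : gen p (gen p H) = gen p H :=
  le_antisymm (gen_le _) (closure_mono fun _ hg => ⟨subset_closure hg, hg.2⟩)

omit [Finite G] hp in
theorem gen_conj {H : Subgroup G} (h : gen p H = H) (g : G) :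
    gen p (MulAut.conj g • H) = MulAut.conj g • H := by
  refine le_antisymm (gen_le _) ?_
  conv_lhs => rw [← h, gen, conj_smul_eq_map, MonoidHom.map_closure]
  refine closure_mono ?_
  rintro _ ⟨x, ⟨hx, k, hk⟩, rfl⟩
  exact ⟨conj_mem_conj_smul g hx, k, ((MulAut.conj g).orderOf_eq x).trans hk⟩

omit [Finite G] in
theorem gen_of_isPGroup {H : Subgroup G} (h : IsPGroup p H) : gen p H = H :=
  le_antisymm (gen_le _) fun x hx => subset_closure ⟨hx, by
    simpa using (IsPGroup.iff_orderOf.1 h) ⟨x, hx⟩⟩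

theorem pgroup_case {ι : Type*} [Fintype ι] (K : ι → Subgroup G) (hι : Fintype.card ι ≤ p)
    {H : Subgroup G} (hH : IsPGroup p H) (hcov : ∀ g ∈ H, ∃ i, g ∈ K i) : ∃ i, H ≤ K i := by
  classical
  by_contra hc
  push Not at hc
  have := Fintype.ofFinite G
  have hcard : ∀ L : Subgroup G, (Finset.univ.filter (· ∈ L)).card = Nat.card L := fun L => by
    rw [Nat.card_eq_fintype_card, Fintype.card_subtype]
  have h1 : ∀ i, p * Nat.card (K i ⊓ H : Subgroup G) ≤ Nat.card H := by
    intro i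
    rw [← card_inf_mul_relIndex (K i) H, mul_comm]
    refine Nat.mul_le_mul_left _ (Nat.le_of_dvd (Nat.pos_of_ne_zero index_ne_zero_of_finite) ?_)
    obtain ⟨k, hk⟩ := hH.index ((K i).subgroupOf H)
    rw [relIndex, hk]
    refine dvd_pow_self p ?_
    rintro rfl
    exact hc i (relIndex_eq_one.1 hk)
  have h2 : (Finset.univ.filter (· ∈ H)).erase 1 ⊆
      Finset.univ.biUnion fun i => (Finset.univ.filter (· ∈ K i ⊓ H)).erase 1 := by
    intro g hg
    simp only [Finset.mem_erase, Finset.mem_filter, Finset.mem_univ, true_and, Finset.mem_biUnion] at hg ⊢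
    obtain ⟨i, hi⟩ := hcov g hg.2
    exact ⟨i, hg.1, hi, hg.2⟩
  have h3 := (Finset.card_le_card h2).trans Finset.card_biUnion_le
  simp only [Finset.card_erase_of_mem (Finset.mem_filter.2 ⟨Finset.mem_univ (1 : G), one_mem _⟩),
    hcard] at h3
  have h4 : p * ∑ i, (Nat.card (K i ⊓ H : Subgroup G) - 1) ≤ p * (Nat.card H - p) := by
    rw [Finset.mul_sum]
    refine (Finset.sum_le_card_nsmul _ _ (Nat.card H - p) fun i _ => ?_).trans ?_
    · rw [Nat.mul_sub, mul_one]; exact Nat.sub_le_sub_right (h1 i) _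
    · exact Nat.mul_le_mul_right _ hι
  have h5 := Nat.le_of_mul_le_mul_left h4 hp.out.pos
  obtain ⟨i, -⟩ := hcov 1 (one_mem _)
  have h6 := h1 i
  have h7 : 0 < Nat.card (K i ⊓ H : Subgroup G) := Nat.card_pos
  have := hp.out.two_le
  have : p ≤ Nat.card H := le_trans (Nat.le_mul_of_pos_right _ h7) h6
  omega

theorem main {ι : Type*} [Fintype ι] (K : ι → Subgroup G) (hι : Fintype.card ι ≤ p)
    (hcov : ∀ g : G, (∃ k : ℕ, orderOf g = p ^ k) → ∃ i, g ∈ K i) (H : Subgroup G) :
    gen p H = H → ∃ i, H ≤ K i := by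
  induction H using WellFoundedLT.induction with
  | ind H ih =>
  intro hH
  by_cases hP : IsPGroup p H
  · exact pgroup_case K hι hP fun g hg => hcov g (by simpa using (IsPGroup.iff_orderOf.1 hP) ⟨g, hg⟩)
  by_contra hc
  push Not at hc
  let M : Set (Subgroup G) := {L | Maximal (fun L => L < H ∧ gen p L = L) L}
  have hM1 : ∀ L, L < H → gen p L = L → ∃ L' ∈ M, L ≤ L' := fun L h1 h2 => by
    obtain ⟨L', h3, h4⟩ := Finite.exists_le_maximal (p := fun L => L < H ∧ gen p L = L) ⟨h1, h2⟩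
    exact ⟨L', h4, h3⟩
  have hM2 : ∀ L ∈ M, ∃ i, L = gen p (K i ⊓ H) := by
    intro L hL
    obtain ⟨i, hi⟩ := ih L hL.1.1 hL.1.2
    have h1 : L ≤ gen p (K i ⊓ H) := hL.1.2.ge.trans (gen_mono (le_inf hi hL.1.1.le))
    exact ⟨i, le_antisymm h1 (hL.2 ⟨lt_of_le_of_lt (gen_le _)
      (lt_of_le_of_ne inf_le_right fun h => hc i (inf_eq_right.1 h)), gen_gen _⟩ h1)⟩
  have hconj : ∀ g ∈ H, ∀ L, L < H ∧ gen p L = L →
      MulAut.conj g • L < H ∧ gen p (MulAut.conj g • L) = MulAut.conj g • L := by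
    intro g hg L hL
    refine ⟨?_, gen_conj hL.2 g⟩
    conv_rhs => rw [← conj_smul_eq_of_mem hg]
    exact lt_of_le_of_ne (pointwise_smul_le_pointwise_smul_iff.2 hL.1.le)
      fun h => hL.1.ne (smul_left_cancel _ h)
  have hM3 : ∀ g ∈ H, ∀ L ∈ M, MulAut.conj g • L ∈ M := by
    intro g hg L hL
    refine ⟨hconj g hg L hL.1, fun L' h1 h2 => ?_⟩
    rw [subset_pointwise_smul_iff, ← map_inv]
    exact hL.2 (hconj g⁻¹ (inv_mem hg) L' h1) (by rwa [map_inv, ← pointwise_smul_subset_iff])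
  have hM4 : M.ncard ≤ p := by
    refine le_trans (Set.ncard_le_ncard (t := Set.range fun i => gen p (K i ⊓ H))
      (fun L hL => (hM2 L hL).imp fun _ h => h.symm) (Set.toFinite _)) ?_
    rw [← Set.image_univ]
    exact (Set.ncard_image_le).trans (by simpa [Set.ncard_univ] using hι)
  have hfix : ∀ x ∈ H, (∃ k : ℕ, orderOf x = p ^ k) → ∀ L ∈ M, x ∈ normalizer (L : Set G) := by
    intro x hx hk L hL
    have hxp : IsPGroup p (zpowers x) := by
      obtain ⟨k, hk⟩ := hk
      exact IsPGroup.of_card (by rw [Nat.card_zpowers, hk])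
    obtain ⟨L0, hL0, hxL0⟩ := hM1 (zpowers x) (lt_of_le_of_ne (zpowers_le.2 hx) fun h => hP (h ▸ hxp))
      (gen_of_isPGroup hxp)
    by_contra hn
    letI : MulAction (zpowers x) (Subgroup G) := MulAction.compHom _ (MulAut.conj.comp (zpowers x).subtype)
    have hs : ∀ (y : zpowers x) (T : Subgroup G), y • T = MulAut.conj (y : G) • T := fun _ _ => rfl
    obtain ⟨k, hk⟩ := hxp.card_orbit L
    have h1 : MulAction.orbit (zpowers x) L ⊂ M := by
      refine ⟨?_, fun h => ?_⟩
      · rintro _ ⟨y, rfl⟩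
        exact hM3 _ (zpowers_le.2 hx y.2) L hL
      · obtain ⟨y, hy⟩ := h hL0
        have h2 : L = L0 := by
          have h3 : y⁻¹ • L0 = L0 := conj_smul_eq_of_mem (hxL0 y⁻¹.2)
          rw [← h3, ← hy, inv_smul_smul]
        exact hn (h2 ▸ le_normalizer (hxL0 (mem_zpowers x)))
    have h2 := (Set.ncard_lt_ncard h1).trans_le hM4
    rw [← Nat.card_coe_set_eq, hk] at h2
    have h3 : k = 0 := by
      by_contra h3
      exact h2.not_ge (Nat.le_self_pow h3 p)
    rw [h3, pow_zero, Nat.card_eq_one_iff_unique] at hk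
    have h4 := hk.1.elim ⟨_, MulAction.mem_orbit L (⟨x, mem_zpowers x⟩ : zpowers x)⟩
      ⟨_, MulAction.mem_orbit_self L⟩
    exact hn ((conj_smul_eq_self_iff _ _).1 (congrArg Subtype.val h4))
  obtain ⟨S, hS⟩ := exists_isSylowIn p H
  obtain ⟨L, hL, hSL⟩ := hM1 S (lt_of_le_of_ne hS.le fun h => hP (h ▸ hS.isPGroup))
    (gen_of_isPGroup hS.isPGroup)
  have hN : H ≤ normalizer (L : Set G) := hH.ge.trans ((closure_le _).2 fun x hx => hfix x hx.1 hx.2 L hL)
  refine hL.1.1.not_ge (hH.ge.trans ((closure_le _).2 ?_))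
  rintro x ⟨hx, k, hk⟩
  obtain ⟨g, hg, h⟩ := hS.exists_conj_le (IsPGroup.of_card (by rw [Nat.card_zpowers, hk]))
    (zpowers_le.2 hx)
  exact (mem_normalizer_iff.1 (hN hg) x).2 (hSL (h (conj_mem_conj_smul g (mem_zpowers x))))

end Helpers

/-- Let p be a prime and G a finite group generated by its p-elements. If a finite family of proper subgroups of G covers the set of p-elements of G (every element of p-power order lies in one of them), then the family has at least p + 1 members. -/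
theorem result {G : Type*} [Group G] [Finite G] (p : ℕ) [Fact p.Prime] (hgen : Subgroup.closure {g : G | ∃ k : ℕ, orderOf g = p ^ k} = ⊤)
    {ι : Type*} [Fintype ι] (K : ι → Subgroup G) (hK : ∀ i, K i ≠ ⊤)
    (hcov : ∀ g : G, (∃ k : ℕ, orderOf g = p ^ k) → ∃ i, g ∈ K i) :
    p + 1 ≤ Fintype.card ι := by
  by_contra hc
  obtain ⟨i, hi⟩ := main K (by omega) hcov ⊤ (by simpa [gen] using hgen)
  exact hK i (top_le_iff.1 hi)

end Cfsg.Agent.S4182
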