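import Cfsg.Statements.S4184
import Cfsg.Agent.Fgs.ClsCount

set_option autoImplicit false
open Cfsg

namespace Cfsg.Agent.S4184

/-- Let G and M be finite groups with trivial centres and the same set of conjugacy class sizes, and suppose the prime graph of M is disconnected: the prime divisors of #M split into two non-empty parts such that M has no element of order pq with p in one part and q in the other. Then #G = #M. -/
theorem result {G M : Type*}
    [Group G] [Finite G] [Group M] [Finite M] (hZG : Subgroup.center G = ⊥) (hZM : Subgroup.center M = ⊥)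
    (h : Set.range (fun g : G => (Subgroup.centralizer ({g} : Set G)).index) = Set.range (fun g : M => (Subgroup.centralizer ({g} : Set M)).index))
    (hdisc : ∃ A : Set ℕ, (∃ a ∈ A, a.Prime ∧ a ∣ Nat.card M) ∧ (∃ b ∉ A, b.Prime ∧ b ∣ Nat.card M) ∧
      ∀ a ∈ A, ∀ b ∉ A, a.Prime → b.Prime → a ∣ Nat.card M → b ∣ Nat.card M → ¬ ∃ x : M, orderOf x = a * b) :
    Nat.card G = Nat.card M := by
  obtain ⟨A, ⟨a, haA, ha, haL⟩, ⟨b, hbA, hb, hbL⟩, hd⟩ := hdisc
  have hM := CL.ClsCount.twoTypes_of_disc A hd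
  have hG : CL.ClsCount.TwoTypes G (Nat.card M) A := fun g hg => by
    obtain ⟨x, hx⟩ : (Subgroup.centralizer ({g} : Set G)).index ∈ Set.range _ := h ▸ Set.mem_range_self g
    have hx' : (Subgroup.centralizer ({x} : Set M)).index = (Subgroup.centralizer ({g} : Set G)).index := hx
    rw [← hx']
    refine hM x fun e => hg ?_
    rw [e, (Subgroup.eq_top_iff' _).2 fun x => Subgroup.mem_centralizer_singleton_iff.2 (by simp), Subgroup.index_top,
      eq_comm, Subgroup.index_eq_one] at hx'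
    exact Subgroup.mem_bot.1 (hZG ▸ Subgroup.mem_center_iff.2 fun y =>
      Subgroup.mem_centralizer_singleton_iff.1 (hx' ▸ Subgroup.mem_top y))
  have hdvd : ∀ x : M, (Subgroup.centralizer ({x} : Set M)).index ∣ Nat.card G := fun x => by
    obtain ⟨g, hg⟩ : (Subgroup.centralizer ({x} : Set M)).index ∈ Set.range _ := h.symm ▸ Set.mem_range_self x
    exact hg ▸ Subgroup.index_dvd_card _
  obtain ⟨x1, k1, e1, h1⟩ := hM.exists_type ha haA haL
  obtain ⟨x2, k2, e2, h2⟩ := hM.compl.exists_type hb hbA hbL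
  have hc : k2.Coprime k1 := Nat.coprime_of_dvd fun q hq h3 h4 => h2 q hq h3 (h1 q hq h4)
  obtain ⟨t, ht⟩ := hc.dvd_of_dvd_mul_right (e1 ▸ Dvd.intro_left _ e2)
  have hk2 : 0 < k2 := Nat.pos_of_mul_pos_left (e2 ▸ Nat.card_pos)
  have ht2 : (Subgroup.centralizer ({x2} : Set M)).index = k1 * t :=
    Nat.eq_of_mul_eq_mul_right hk2 (by rw [e2, ← e1, ht]; ring)
  have d1 := ht ▸ hdvd x1
  have d2 := ht2 ▸ hdvd x2
  obtain ⟨s, hs⟩ := (Dvd.intro_left _ rfl).trans d1
  have ht0 : 0 < t := Nat.pos_of_mul_pos_right (hs ▸ Nat.card_pos)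
  rw [hs, mul_comm t] at d1 d2
  obtain ⟨m, hm⟩ := hc.mul_dvd_of_dvd_of_dvd (Nat.dvd_of_mul_dvd_mul_right ht0 d1) (Nat.dvd_of_mul_dvd_mul_right ht0 d2)
  have hm' : Nat.card G = Nat.card M * m := by rw [hs, hm, ← e1, ht]; ring
  by_cases hm1 : m = 1
  · rw [hm', hm1, mul_one]
  obtain ⟨q, hq, hqm⟩ := Nat.exists_prime_and_dvd hm1
  by_cases hqA : q ∈ A
  · exact (hG.compl.not_dvd hZG hm' hb hbA hbL hq (fun e => e hqA) hqm).elim
  · exact (hG.not_dvd hZG hm' ha haA haL hq hqA hqm).elim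

end Cfsg.Agent.S4184
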