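import Cfsg.Statements.S4186
import Cfsg.Agent.Base

set_option autoImplicit false
open Cfsg

namespace Cfsg.Agent.S4186

theorem aux {G : Type*} [Group G] (X : Subgroup G) (k : ℕ) : ∀ t : G,
    t ∈ Subgroup.normalizer (X : Set G) → t ^ 2 ^ k = 1 → t ∉ Subgroup.centralizer (X : Set G) →
    ∃ n : ℕ, ∃ x ∈ X, x ≠ 1 ∧ t ^ n * x * (t ^ n)⁻¹ = x⁻¹ := by
  induction k with
  | zero =>
    intro t _ h1 h2
    rw [pow_zero, pow_one] at h1
    exact absurd (h1 ▸ Subgroup.one_mem _) h2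
  | succ k ih =>
    intro t ht h1 h2
    by_cases h3 : t ^ 2 ∈ Subgroup.centralizer (X : Set G)
    · rw [Subgroup.mem_centralizer_iff] at h2 h3
      push Not at h2
      obtain ⟨y, hy, hyt⟩ := h2
      have hy' : t * y * t⁻¹ ∈ X := (Subgroup.mem_normalizer_iff.1 ht y).1 hy
      refine ⟨1, y⁻¹ * (t * y * t⁻¹), X.mul_mem (X.inv_mem hy) hy', ?_, ?_⟩
      · intro h
        apply hyt
        rw [inv_mul_eq_one, eq_mul_inv_iff_mul_eq] at h
        exact h
      · have h4 := h3 y hy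
        calc t ^ 1 * (y⁻¹ * (t * y * t⁻¹)) * (t ^ 1)⁻¹
            = t * y⁻¹ * t⁻¹ * (t ^ 2 * y) * (t ^ 2)⁻¹ := by simp only [pow_one, sq]; group
          _ = (y⁻¹ * (t * y * t⁻¹))⁻¹ := by rw [← h4]; group
    · obtain ⟨n, x, hx, hx1, hn⟩ := ih (t ^ 2) (Subgroup.pow_mem _ ht 2)
        (by rw [← pow_mul, ← pow_succ']; exact h1) h3
      exact ⟨2 * n, x, hx, hx1, by rw [pow_mul]; exact hn⟩

/-- Let T and X be subgroups of a group with T a finite 2-group normalizing X but not centralizing it. Then some element of T inverts some non-identity element of X under conjugation. -/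
theorem result {G : Type*} [Group G] (T X : Subgroup G) [Finite ↥T] (hT : IsPGroup 2 ↥T) (hTN : T ≤ Subgroup.normalizer (X : Set G)) (hTC : ¬ T ≤ Subgroup.centralizer (X : Set G)) : ∃ t ∈ T, ∃ x ∈ X, x ≠ 1 ∧ t * x * t⁻¹ = x⁻¹ := by
  obtain ⟨t, ht, htc⟩ := SetLike.not_le_iff_exists.1 hTC
  obtain ⟨k, hk⟩ := hT ⟨t, ht⟩
  obtain ⟨n, x, hx, hx1, hn⟩ := aux X k t (hTN ht) (congrArg Subtype.val hk) htc
  exact ⟨t ^ n, T.pow_mem ht n, x, hx, hx1, hn⟩

end Cfsg.Agent.S4186
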