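import Cfsg.Statements.S4188
import Cfsg.Agent.Sw.LinGen
import Cfsg.Agent.Loc.ElemAb

set_option autoImplicit false
open Cfsg

namespace Cfsg.Agent.S4188
open scoped Pointwise commutatorElement

/-- Let G be a finite group that is the semidirect product of a normal abelian subgroup N of odd order by a 2-subgroup P, and suppose N is the unique minimal normal subgroup of G. Then the index of the Frattini subgroup of P in P is at most #N − 1. -/
theorem result {G : Type*} [Group G] [Finite G] (N P : Subgroup G) (hN : N.Normal) (hNab : IsMulCommutative ↥N) (hNodd : Odd (Nat.card ↥N)) (hP : IsPGroup 2 ↥P) (hdisj : N ⊓ P = ⊥) (hprod : N ⊔ P = ⊤) (hmin : N ≠ ⊥ ∧ ∀ M : Subgroup G, M.Normal → M ≠ ⊥ → N ≤ M) : (frattini ↥P).index ≤ Nat.card ↥N - 1 := by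
  have hM : CL.Grp.IsMinNormal N := ⟨hN, hmin.1, fun K hK hKN => by
    by_cases h : K = ⊥
    · exact Or.inl h
    · exact Or.inr (le_antisymm hKN (hmin.2 K hK h))⟩
  obtain ⟨q, hq, hE⟩ := hM.exists_isElementaryAbelian (Group.isSolvable_of_comm fun a b => hNab.1.1 a b)
  have : Fact q.Prime := ⟨hq⟩
  have hcore : P.normalCore = ⊥ := by
    by_contra h
    exact hmin.1 (by rw [← hdisj, eq_comm, inf_eq_left]; exact (hmin.2 _ inferInstance h).trans P.normalCore_le)
  have hC := CL.Grp.centralizer_inf_eq_bot_of_normalCore_eq_bot hcore hprod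
  have hPN : P ≤ Subgroup.normalizer (N : Set G) := Subgroup.le_normalizer_of_normal
  have hinj := CL.Loc.conjRepOf_injective hE hPN (by rwa [inf_comm])
  have hnt : Nontrivial (CL.Loc.EAMod hE) := hM.nontrivial
  have hodd : Odd (Nat.card (ZMod q)) := by
    rw [Nat.card_zmod]
    obtain ⟨n, hn⟩ := CL.Loc.ea_card_eq_pow hE
    have h1 : 1 < Nat.card N := (Subgroup.one_lt_card_iff_ne_bot _).2 hmin.1
    rw [hn] at hNodd h1
    exact (Nat.odd_pow_iff (by rintro rfl; simp at h1)).1 hNodd
  exact CL.Sw.index_frattini_le_card_sub_one (V := CL.Loc.EAMod hE) hodd hP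
    (LinearEquiv.automorphismGroup.toLinearMapMonoidHom.comp (CL.Loc.conjRepOf hE hPN))
    (fun g hg => hinj (by rw [map_one]; exact LinearEquiv.toLinearMap_injective hg))

end Cfsg.Agent.S4188
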