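import Cfsg.Statements.S4189
import Cfsg.Agent.Grp.PGroupMaxClass
import Cfsg.Agent.Grp.CoprimeAct

set_option autoImplicit false
open Cfsg

namespace Cfsg.Agent.S4189

open CL.Grp Subgroup


/-- Let P be a finite non-abelian 2-group whose commutator subgroup has index 4 and whose automorphism group is not a 2-group (some automorphism has order that is not a power of 2). Then P is isomorphic to the quaternion group of order 8. -/
theorem result {P : Type*} [Group P] [Finite P] (hP : IsPGroup 2 P) (hna : ¬ IsMulCommutative P) (h4 : (commutator P).index = 4) (haut : ¬ IsPGroup 2 (MulAut P)) : Nonempty (P ≃* QuaternionGroup 2) := by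
  obtain ⟨m, hm⟩ := IsPGroup.iff_card.1 hP
  have hm3 : 3 ≤ m := by
    by_contra h
    exact hna (isMulCommutative_of_card_dvd_prime_sq (p := 2) (hm ▸ pow_dvd_pow 2 (by omega)))
  obtain ⟨n, rfl⟩ : ∃ n, m = n + 1 := ⟨m - 1, by omega⟩
  obtain ⟨a, b, h⟩ := exists_dqsGen_of_index_commutator_le (n := n) (by omega) P hm h4.le
  by_contra hQ
  apply haut
  have hchar : ∀ χ : MulAut P, χ a ∈ zpowers a := by
    intro χ
    by_contra hχ
    have h1 := h.sq_mem_of_notMem hχ
    have h2 : orderOf (χ a ^ 2) ∣ 2 := by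
      have := Subgroup.orderOf_dvd_natCard _ h1
      rwa [Nat.card_zpowers, h.orderOf_z] at this
    have h3 : orderOf (χ a) = 2 ^ n := by rw [MulEquiv.orderOf_eq, h.ord]
    have h5 : 2 ^ n ∣ 2 ^ 2 := by
      rw [← h3, orderOf_dvd_iff_pow_eq_one, show 2 ^ 2 = 2 * 2 by norm_num, pow_mul]
      exact orderOf_dvd_iff_pow_eq_one.1 h2
    have hn : n = 2 := le_antisymm ((Nat.pow_dvd_pow_iff_le_right one_lt_two).1 h5) h.two_le
    subst hn
    rcases h.rel with ⟨h6, h7⟩ | ⟨h6, h7⟩ | ⟨h6, -⟩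
    · obtain ⟨i, hi | hi⟩ := h.elt (χ a)
      · exact hχ (hi ▸ zpow_mem_zpowers a i)
      · have h8 : b * a ^ i * b⁻¹ = (a ^ i)⁻¹ := by
          rw [← conj_zpow, h7, inv_zpow]
        have h9 : χ a ^ 2 = 1 := by
          rw [hi]
          calc (a ^ i * b) ^ 2 = a ^ i * (b * a ^ i * b⁻¹) * b ^ 2 := by simp only [sq]; group
            _ = 1 := by rw [h8, h6]; simp
        have := orderOf_dvd_of_pow_eq_one h9
        rw [h3] at this
        norm_num at this
    · exact hQ (h.nonempty_quaternion h6 h7)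
    · omega
  have hpar : ∀ i : ℤ, a ^ i ∈ frattini P ↔ 2 ∣ i := by
    intro i
    rw [h.frattini_eq]
    constructor
    · intro hi
      obtain ⟨j, hj⟩ := mem_zpowers_iff.1 hi
      rw [← zpow_natCast, ← zpow_mul, zpow_eq_zpow_iff_of_orderOf h.ord] at hj
      have := (dvd_pow_self ((2 : ℕ) : ℤ) (show n ≠ 0 by have := h.two_le; omega)).trans hj
      push_cast at this
      omega
    · rintro ⟨j, rfl⟩
      exact mem_zpowers_iff.2 ⟨j, by rw [← zpow_natCast, ← zpow_mul]; rfl⟩
  have hsq : ∀ (χ : MulAut P) (x : P), x⁻¹ * (χ * χ) x ∈ frattini P := by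
    intro χ x
    have hN : ∀ y ∈ zpowers a, χ y ∈ zpowers a := by
      intro y hy
      obtain ⟨i, rfl⟩ := mem_zpowers_iff.1 hy
      rw [map_zpow]; exact zpow_mem (hchar χ) i
    have hN' : ∀ y, χ y ∈ zpowers a → y ∈ zpowers a := by
      intro y hy
      obtain ⟨i, hi⟩ := mem_zpowers_iff.1 hy
      have : y = χ⁻¹ a ^ i := by rw [← map_zpow, hi]; simp
      rw [this]; exact zpow_mem (hchar _) i
    have hu : x⁻¹ * χ x ∈ zpowers a :=
      (mul_mem_iff_of_index_two h.index).2 (by rw [inv_mem_iff]; exact ⟨hN x, hN' x⟩)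
    obtain ⟨i, hi⟩ := mem_zpowers_iff.1 hu
    obtain ⟨k, hk⟩ := mem_zpowers_iff.1 (hN _ hu)
    have h1 : x⁻¹ * (χ * χ) x = a ^ (i + k) := by
      rw [zpow_add, hi, hk]; simp
    have h2 : a ^ k ∈ frattini P ↔ a ^ i ∈ frattini P := by
      rw [hk, ← hi]
      exact Iff.of_eq (congrArg (a ^ i ∈ ·) (characteristic_iff_comap_eq.1 (inferInstance : (frattini P).Characteristic) χ))
    rw [h1, hpar]
    rw [hpar, hpar] at h2
    omega
  refine IsPGroup.iff_card.2 ⟨_, Nat.eq_prime_pow_of_unique_prime_dvd Nat.card_pos.ne' fun {q} hq hd => ?_⟩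
  by_contra hq2
  haveI := Fact.mk hq
  obtain ⟨φ, hφ⟩ := exists_prime_orderOf_dvd_card' q hd
  have hodd := hq.odd_of_ne_two hq2
  obtain ⟨j, hj⟩ := IsPGroup.iff_card.1 (hP.to_subgroup (frattini P))
  have key := act_trivial_of_trivial_mod_frattini (A := zpowers φ) (K := P)
    (by rw [Nat.card_zpowers, hφ, hj]; exact Nat.Coprime.pow_right j (Nat.coprime_two_right.2 hodd))
    (fun ψ k => by
      obtain ⟨t, ht⟩ := hodd
      have h1 : (ψ : MulAut P) = (ψ : MulAut P) ^ (t + 1) * (ψ : MulAut P) ^ (t + 1) := by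
        have h2 : (ψ : MulAut P) ^ q = 1 := by
          have := Subgroup.orderOf_dvd_natCard _ ψ.2
          rw [Nat.card_zpowers, hφ] at this
          exact orderOf_dvd_iff_pow_eq_one.1 this
        rw [← pow_add, show t + 1 + (t + 1) = q + 1 by omega, pow_succ, h2, one_mul]
      have := hsq ((ψ : MulAut P) ^ (t + 1)) k
      rw [← h1] at this
      exact this) ⟨φ, mem_zpowers φ⟩
  have : φ = 1 := MulEquiv.ext key
  rw [this, orderOf_one] at hφ
  exact hq.one_lt.ne hφ

end Cfsg.Agent.S4189
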