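import Cfsg.Statements.S4196
import Cfsg.Agent.Fgs.ClassReal

set_option autoImplicit false
open Cfsg

namespace Cfsg.Agent.S4196

open CL.Fgs


/-- A finite group G has elementary abelian Sylow 2-subgroups (commutative with every element squaring to the identity) if and only if every 2-element of G has a Sylow 2-subgroup in its centralizer and is conjugate to its inverse. -/
theorem result {G : Type*} [Group G] [Finite G] (P : Sylow 2 G) :
    (IsMulCommutative (P : Subgroup G) ∧ ∀ x ∈ (P : Subgroup G), x ^ 2 = 1) ↔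
      ∀ x : G, (∃ k : ℕ, orderOf x = 2 ^ k) → (∃ Q : Sylow 2 G, (Q : Subgroup G) ≤ Subgroup.centralizer ({x} : Set G)) ∧ IsConj x x⁻¹ := by
  constructor
  · rintro ⟨h1, h2⟩ x hx
    obtain ⟨g, hg⟩ := ((isPiElt_singleton_iff Nat.prime_two).2 hx).exists_conj_mem_sylow P
    have h3 : x ^ 2 = 1 := by
      have := h2 _ hg
      rwa [conj_pow, conj_eq_one_iff] at this
    refine ⟨not_dvd_cs_iff.1 ?_, ?_⟩
    · rw [← cs_conj g]
      exact not_dvd_index_of_sylow_le P fun y hy =>
        mem_cent.2 (congrArg Subtype.val (h1.is_comm.comm ⟨y, hy⟩ ⟨_, hg⟩))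
    · rw [← eq_inv_of_mul_eq_one_left ((pow_two x).symm.trans h3)]
  · intro h
    have h2 : ∀ x ∈ (P : Subgroup G), x ^ 2 = 1 := fun x hx => by
      obtain ⟨⟨Q, hQ⟩, h3⟩ := h x ((isPiElt_singleton_iff Nat.prime_two).1
        (isPiElt_singleton_of_mem P.isPGroup' hx))
      exact sq_eq_one_of_real_of_odd_cs h3 (odd_cs_of_sylow_le Q hQ)
    refine ⟨⟨⟨fun x y => Subtype.ext ?_⟩⟩, h2⟩
    have e : ∀ z ∈ (P : Subgroup G), z⁻¹ = z := fun z hz =>
      (eq_inv_of_mul_eq_one_left ((pow_two z).symm.trans (h2 z hz))).symm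
    rw [Subgroup.coe_mul, Subgroup.coe_mul, ← e _ (mul_mem x.2 y.2), mul_inv_rev, e _ x.2, e _ y.2]

end Cfsg.Agent.S4196
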