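import Cfsg.Statements.S4198
import Cfsg.Agent.Base

set_option autoImplicit false
open Cfsg

namespace Cfsg.Agent.S4198
open scoped Pointwise commutatorElement

open Equiv Equiv.Perm

/-- possible cycle types in degree `n` -/
def CT (n : ℕ) : Set (Multiset ℕ) := {m | m.sum ≤ n ∧ ∀ a ∈ m, 2 ≤ a}

theorem mem_CT {n : ℕ} (g : Perm (Fin n)) : g.cycleType ∈ CT n := by
  have := (exists_with_cycleType_iff (Fin n)).1 ⟨g, rfl⟩
  rwa [Fintype.card_fin] at this

theorem mk_out {G : Type*} [Group G] (c : ConjClasses G) : ConjClasses.mk (Quotient.out c) = c :=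
  Quotient.out_eq c

theorem card_eq (n : ℕ) : (CT n).Finite ∧ Nat.card (ConjClasses (Perm (Fin n))) = (CT n).ncard := by
  have hr : Set.range (fun c : ConjClasses (Perm (Fin n)) => (Quotient.out c : Perm (Fin n)).cycleType) = CT n := by
    ext m
    constructor
    · rintro ⟨c, rfl⟩; exact mem_CT _
    · intro hm
      obtain ⟨g, rfl⟩ := (exists_with_cycleType_iff (Fin n)).2 (by rw [Fintype.card_fin]; exact hm)
      refine ⟨ConjClasses.mk g, ?_⟩
      exact isConj_iff_cycleType_eq.1 (ConjClasses.mk_eq_mk_iff_isConj.1 (mk_out _))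
  have hi : Function.Injective
      (fun c : ConjClasses (Perm (Fin n)) => (Quotient.out c : Perm (Fin n)).cycleType) := by
    intro c d h
    rw [← mk_out c, ← mk_out d, ConjClasses.mk_eq_mk_iff_isConj]
    exact isConj_iff_cycleType_eq.2 h
  rw [← hr]
  exact ⟨Set.finite_range _, (Set.ncard_range_of_injective hi).symm⟩

theorem ct_succ (n : ℕ) : (CT (n + 2)).ncard ≤ (CT (n + 1)).ncard + (CT n).ncard := by
  have hs : CT (n + 2) ⊆ CT (n + 1) ∪ (fun m => (n + 2 - m.sum) ::ₘ m) '' CT n := by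
    intro m ⟨h1, h2⟩
    by_cases h : m.sum ≤ n + 1
    · exact Or.inl ⟨h, h2⟩
    · have hne : m ≠ 0 := by rintro rfl; simp at h
      obtain ⟨a, ha⟩ := Multiset.exists_mem_of_ne_zero hne
      obtain ⟨m', rfl⟩ := Multiset.exists_cons_of_mem ha
      rw [Multiset.sum_cons] at h h1
      have := h2 a ha
      refine Or.inr ⟨m', ⟨by omega, fun b hb => h2 b (Multiset.mem_cons_of_mem hb)⟩, ?_⟩
      simp only
      congr 1; omega
  refine (Set.ncard_le_ncard hs ((card_eq _).1.union ((card_eq _).1.image _))).trans ?_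
  exact (Set.ncard_union_le _ _).trans (Nat.add_le_add_left (Set.ncard_image_le (card_eq _).1) _)

theorem ct_le_one {n : ℕ} (hn : n ≤ 1) : (CT n).ncard ≤ 1 := by
  rw [← Set.ncard_singleton (0 : Multiset ℕ)]
  refine Set.ncard_le_ncard ?_ (Set.finite_singleton _)
  intro m ⟨h1, h2⟩
  by_contra hne
  obtain ⟨a, ha⟩ := Multiset.exists_mem_of_ne_zero hne
  have := h2 a ha
  have := Multiset.single_le_sum (fun _ _ => Nat.zero_le _) a ha
  omega

theorem ct_bound (n : ℕ) : (CT (n + 4)).ncard ≤ (CT (n + 5)).ncard ∧ (CT (n + 5)).ncard ≤ 2 ^ (n + 3) := by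
  have hm : ∀ k, (CT k).ncard ≤ (CT (k + 1)).ncard := fun k =>
    Set.ncard_le_ncard (fun m hm => ⟨hm.1.trans (Nat.le_succ k), hm.2⟩) (card_eq _).1
  refine ⟨hm _, ?_⟩
  induction n with
  | zero =>
    have h0 := ct_le_one (n := 0) (by omega)
    have h1 := ct_le_one (n := 1) le_rfl
    have h2 := ct_succ 0
    have h3 := ct_succ 1
    have h4 := ct_succ 2
    have h5 := ct_succ 3
    norm_num at *
    omega
  | succ n ih =>
    have h1 := ct_succ (n + 4)
    have h2 := hm (n + 4)
    rw [show n + 1 + 3 = (n + 3) + 1 by omega, pow_succ]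
    rw [show n + 4 + 2 = n + 1 + 5 by omega, show n + 4 + 1 = n + 5 by omega] at h1
    rw [show n + 4 + 1 = n + 5 by omega] at h2
    omega

section
variable {n : ℕ}

/-- cycle type of a class of the alternating group -/
noncomputable def pi (c : ConjClasses (alternatingGroup (Fin n))) : Multiset ℕ :=
  ((Quotient.out c : alternatingGroup (Fin n)) : Perm (Fin n)).cycleType

theorem eq_of_conj {c d : ConjClasses (alternatingGroup (Fin n))} {s : Perm (Fin n)} (hs : sign s = 1)
    (h : s * ((Quotient.out c : alternatingGroup (Fin n)) : Perm (Fin n)) * s⁻¹ =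
      ((Quotient.out d : alternatingGroup (Fin n)) : Perm (Fin n))) : c = d := by
  rw [← mk_out c, ← mk_out d, ConjClasses.mk_eq_mk_iff_isConj, isConj_iff]
  exact ⟨⟨s, mem_alternatingGroup.2 hs⟩, Subtype.ext h⟩

theorem exists_odd {c d : ConjClasses (alternatingGroup (Fin n))} (h : pi c = pi d) (hne : c ≠ d) :
    ∃ s : Perm (Fin n), sign s = -1 ∧ s * ((Quotient.out c : alternatingGroup (Fin n)) : Perm (Fin n)) * s⁻¹ =
      ((Quotient.out d : alternatingGroup (Fin n)) : Perm (Fin n)) := by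
  obtain ⟨s, hs⟩ := isConj_iff.1 (isConj_iff_cycleType_eq.2 h)
  rcases Int.units_eq_one_or (sign s) with h1 | h1
  · exact absurd (eq_of_conj h1 hs) hne
  · exact ⟨s, h1, hs⟩

theorem fiber_two {c d e : ConjClasses (alternatingGroup (Fin n))} (h : pi c = pi d) (h' : pi c = pi e)
    (hd : c ≠ d) (he : c ≠ e) : d = e := by
  obtain ⟨s, hs, hs'⟩ := exists_odd h hd
  obtain ⟨t, ht, ht'⟩ := exists_odd h' he
  refine eq_of_conj (s := t * s⁻¹) (by simp [hs, ht]) ?_
  rw [← hs', ← ht']; group

theorem split {c d : ConjClasses (alternatingGroup (Fin n))} (h : pi c = pi d) (hne : c ≠ d) :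
    (∀ a ∈ pi c, Odd a) ∧ n ≤ (pi c).sum + 1 ∧ ∀ i, (pi c).count i ≤ 1 := by
  have := (centralizer_le_alternating_iff
    (g := ((Quotient.out c : alternatingGroup (Fin n)) : Perm (Fin n)))).1 (by
      intro z hz
      obtain ⟨s, hs, hs'⟩ := exists_odd h hne
      rw [mem_alternatingGroup]
      rcases Int.units_eq_one_or (sign z) with h1 | h1
      · exact h1
      · refine absurd (eq_of_conj (s := s * z) (by simp [hs, h1]) ?_) hne
        rw [Subgroup.mem_centralizer_singleton_iff] at hz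
        rw [← hs', mul_assoc s z, hz]; group)
  rwa [Fintype.card_fin] at this

theorem pi_even (c : ConjClasses (alternatingGroup (Fin n))) : Even ((pi c).sum + (pi c).card) := by
  have h := mem_alternatingGroup.1 (Quotient.out c : alternatingGroup (Fin n)).2
  rw [sign_of_cycleType] at h
  exact (neg_one_pow_eq_one_iff_even (by decide)).1 h

theorem exists_big (hn : 5 ≤ n) {m : Multiset ℕ} (hm : m ∈ CT n) (h1 : ∀ a ∈ m, Odd a) (h2 : n ≤ m.sum + 1)
    (h3 : ∀ i, m.count i ≤ 1) : ∃ a ∈ m, 5 ≤ a := by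
  by_contra hc
  push Not at hc
  have : m = Multiset.replicate m.card 3 := Multiset.eq_replicate.2 ⟨rfl, fun b hb => by
    have := hc b hb; have := hm.2 b hb; obtain ⟨k, hk⟩ := h1 b hb; omega⟩
  have h4 := h3 3
  rw [this, Multiset.count_replicate_self] at h4
  rw [this, Multiset.sum_replicate, smul_eq_mul] at h2
  omega

open Classical in
/-- lowering a large part by one -/
noncomputable def low (m : Multiset ℕ) : Multiset ℕ :=
  if h : ∃ a ∈ m, 5 ≤ a then (h.choose - 1) ::ₘ m.erase h.choose else 0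

theorem low_spec {m : Multiset ℕ} (h : ∃ a ∈ m, 5 ≤ a) :
    ∃ a m', 5 ≤ a ∧ m = a ::ₘ m' ∧ low m = (a - 1) ::ₘ m' :=
  ⟨h.choose, m.erase h.choose, h.choose_spec.2, (Multiset.cons_erase h.choose_spec.1).symm, by
    rw [low, dif_pos h]⟩

open Classical in
/-- the injection -/
noncomputable def inj (c : ConjClasses (alternatingGroup (Fin n))) : Multiset ℕ :=
  if c = Function.invFun pi (pi c) then pi c else low (pi c)

theorem inj_cases (hn : 5 ≤ n) (c : ConjClasses (alternatingGroup (Fin n))) :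
    (c = Function.invFun pi (pi c) ∧ inj c = pi c) ∨
    (c ≠ Function.invFun pi (pi c) ∧ ∃ a m', 5 ≤ a ∧ pi c = a ::ₘ m' ∧ inj c = (a - 1) ::ₘ m' ∧
      ∀ b ∈ pi c, Odd b) := by
  by_cases h : c = Function.invFun pi (pi c)
  · exact Or.inl ⟨h, by rw [inj, if_pos h]⟩
  · obtain ⟨h1, h2, h3⟩ := split (Function.invFun_eq ⟨c, rfl⟩).symm h
    obtain ⟨a, m', ha, hm, hl⟩ := low_spec (exists_big hn (mem_CT _) h1 h2 h3)
    exact Or.inr ⟨h, a, m', ha, hm, by rw [inj, if_neg h]; exact hl, h1⟩

theorem inj_injective (hn : 5 ≤ n) :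
    Function.Injective (inj : ConjClasses (alternatingGroup (Fin n)) → Multiset ℕ) := by
  have key : ∀ (c d : ConjClasses (alternatingGroup (Fin n))) (a : ℕ) (m' : Multiset ℕ), 5 ≤ a →
      pi d = a ::ₘ m' → pi c ≠ (a - 1) ::ₘ m' := by
    intro c d a m' ha h1 h2
    have e1 := pi_even c
    have e2 := pi_even d
    rw [h2] at e1; rw [h1] at e2
    simp only [Multiset.sum_cons, Multiset.card_cons, Nat.even_iff] at e1 e2
    omega
  intro c d h
  rcases inj_cases hn c with ⟨h1, h2⟩ | ⟨h1, a, m, ha, hm, hl, ho⟩ <;>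
    rcases inj_cases hn d with ⟨h1', h2'⟩ | ⟨h1', a', m', ha', hm', hl', ho'⟩
  · rw [h1, h1', ← h2, ← h2', h]
  · exact absurd (by rw [← h2, h, hl']) (key c d a' m' ha' hm')
  · exact absurd (by rw [← h2', ← h, hl]) (key d c a m ha hm)
  · rw [hl, hl'] at h
    have haa : a = a' := by
      have : a - 1 ∈ (a' - 1) ::ₘ m' := h ▸ Multiset.mem_cons_self _ _
      rcases Multiset.mem_cons.1 this with h3 | h3
      · omega
      · obtain ⟨k, hk⟩ := ho' _ (hm' ▸ Multiset.mem_cons_of_mem h3)
        obtain ⟨l, hl⟩ := ho a (hm ▸ Multiset.mem_cons_self _ _)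
        omega
    subst haa
    have hp : pi c = pi d := by rw [hm, hm', (Multiset.cons_inj_right _).1 h]
    have he := (Function.invFun_eq (f := pi) ⟨c, rfl⟩)
    exact fiber_two he (he.trans hp) (Ne.symm h1) (by rw [hp]; exact Ne.symm h1')

theorem range_ssubset (hn : 5 ≤ n) :
    Set.range (inj : ConjClasses (alternatingGroup (Fin n)) → Multiset ℕ) ⊂ CT n := by
  refine ⟨?_, fun h => ?_⟩
  · rintro _ ⟨c, rfl⟩
    have hc : pi c ∈ CT n := mem_CT _
    rcases inj_cases hn c with ⟨-, h2⟩ | ⟨-, a, m, ha, hm, hl, -⟩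
    · rwa [h2]
    · rw [hl]; rw [hm] at hc
      obtain ⟨h1, h2⟩ := hc
      rw [Multiset.sum_cons] at h1
      refine ⟨by rw [Multiset.sum_cons]; omega, fun b hb => ?_⟩
      rcases Multiset.mem_cons.1 hb with rfl | hb
      · omega
      · exact h2 b (Multiset.mem_cons_of_mem hb)
  · obtain ⟨c, hc⟩ := h (show ({2} : Multiset ℕ) ∈ CT n from ⟨by simp; omega, by simp⟩)
    rcases inj_cases hn c with ⟨-, h2⟩ | ⟨-, a, m, ha, hm, hl, -⟩
    · have := pi_even c
      rw [← h2, hc] at this
      simp [Nat.even_iff] at this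
    · have : a - 1 ∈ ({2} : Multiset ℕ) := by rw [← hc, hl]; exact Multiset.mem_cons_self _ _
      simp at this; omega

end


/-- For n ≥ 5 the alternating group of degree n has strictly fewer conjugacy classes than the symmetric group of degree n, and the symmetric group of degree n (whose classes correspond to the partitions of n) has at most 2^(n−2) conjugacy classes. -/
theorem result (n : ℕ) (hn : 5 ≤ n) : Nat.card (ConjClasses (alternatingGroup (Fin n))) < Nat.card (ConjClasses (Equiv.Perm (Fin n))) ∧ Nat.card (ConjClasses (Equiv.Perm (Fin n))) ≤ 2 ^ (n - 2) := by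
  rw [(card_eq n).2]
  refine ⟨?_, ?_⟩
  · rw [← Set.ncard_range_of_injective (inj_injective hn)]
    exact Set.ncard_lt_ncard (range_ssubset hn) (card_eq n).1
  · obtain ⟨k, rfl⟩ : ∃ k, n = k + 5 := ⟨n - 5, by omega⟩
    exact (ct_bound k).2

end Cfsg.Agent.S4198
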