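import Cfsg.Statements.S4200
import Cfsg.Agent.Fgs.ClassCount

set_option autoImplicit false
open Cfsg

namespace Cfsg.Agent.S4200

open CL.Fgs Finset Subgroup

theorem card_le_index_mul {X : Type*} [Group X] [Finite X] (K Y : Subgroup X) :
    Nat.card K ≤ Y.index * Nat.card ↥(K ⊓ Y) := by
  rw [← CL.Grp.card_inf_mul_relIndex Y K, inf_comm, mul_comm]
  refine Nat.mul_le_mul_right _ ?_
  have := relIndex_le_of_le_right (H := Y) (le_top : K ≤ ⊤)
    (by rw [relIndex_top_right]; exact index_ne_zero_of_finite)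
  rwa [relIndex_top_right] at this

theorem sum_swap {X : Type*} [Group X] [Fintype X] (Y : Subgroup X) [Fintype Y] :
    ∑ x : X, Nat.card ↥(cent(x) ⊓ Y) = ∑ y : Y, Nat.card cent((y : X)) := by
  classical
  have h1 : ∀ x : X, Nat.card ↥(cent(x) ⊓ Y) = ∑ y : Y, if Commute x y then 1 else 0 := by
    intro x
    rw [← CL.Grp.card_subgroupOf_eq, card_subgroup_eq_filter, card_filter]
    exact sum_congr rfl fun y _ => by simp only [mem_subgroupOf, mem_cent']
  have h2 : ∀ y : Y, Nat.card cent((y : X)) = ∑ x : X, if Commute x y then 1 else 0 := by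
    intro y
    rw [card_subgroup_eq_filter, card_filter]
    exact sum_congr rfl fun x _ => by simp only [mem_cent]
  simp only [h1, h2]
  exact sum_comm


/-- Let Y be a subgroup of the finite group X, of index m. Then the numbers of conjugacy classes satisfy k(Y) ≤ m·k(X) and k(X) ≤ m·k(Y), and the second inequality is strict unless Y is normal in X. -/
theorem result {X : Type*} [Group X] [Finite X] (Y : Subgroup X) : Nat.card (ConjClasses Y) ≤ Y.index * Nat.card (ConjClasses X) ∧ Nat.card (ConjClasses X) ≤ Y.index * Nat.card (ConjClasses Y) ∧ (¬ Y.Normal → Nat.card (ConjClasses X) < Y.index * Nat.card (ConjClasses Y)) := by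
  classical
  have := Fintype.ofFinite X
  have hX := card_conjClasses_mul_card (G := X)
  have hY := card_conjClasses_mul_card (G := Y)
  have hc : Nat.card X = Y.index * Nat.card Y := Y.index_mul_card.symm
  have hpos : 0 < Nat.card Y := Nat.card_pos
  have hm : 0 < Y.index := Nat.pos_of_ne_zero index_ne_zero_of_finite
  have h1 : ∑ y : Y, Nat.card cent((y : X)) ≤ Y.index * ∑ y : Y, Nat.card cent(y) := by
    rw [mul_sum]
    exact sum_le_sum fun y _ => by rw [card_cent_coe]; exact card_le_index_mul _ _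
  refine ⟨?_, ?_, fun hn => ?_⟩
  · refine Nat.le_of_mul_le_mul_right ?_ hpos
    rw [hY, mul_right_comm, ← hc, mul_comm, hX]
    calc ∑ y : Y, Nat.card cent(y) ≤ ∑ y : Y, Nat.card cent((y : X)) :=
          sum_le_sum fun y _ => by rw [card_cent_coe]; exact card_le_of_le inf_le_left
      _ = _ := (sum_swap Y).symm
      _ ≤ _ := sum_le_sum fun x _ => card_le_of_le inf_le_left
  · refine Nat.le_of_mul_le_mul_right ?_ (Nat.card_pos (α := X))
    rw [hX, hc]
    calc ∑ x : X, Nat.card cent(x) ≤ ∑ x : X, Y.index * Nat.card ↥(cent(x) ⊓ Y) :=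
          sum_le_sum fun x _ => card_le_index_mul _ _
      _ = Y.index * ∑ y : Y, Nat.card cent((y : X)) := by rw [← mul_sum, sum_swap]
      _ ≤ Y.index * (Y.index * ∑ y : Y, Nat.card cent(y)) := Nat.mul_le_mul_left _ h1
      _ = _ := by rw [← hY]; ring
  · refine Nat.lt_of_mul_lt_mul_right (a := Nat.card X) ?_
    rw [hX, hc]
    have hex : ∃ x : X, Nat.card cent(x) < Y.index * Nat.card ↥(cent(x) ⊓ Y) := by
      by_contra hc'
      push Not at hc'
      refine hn ⟨fun y hy g => ?_⟩
      have h2 : cs(y) ≤ (cent(y)).relIndex Y := by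
        have h3 := hc' y
        have h4 := CL.Grp.card_inf_mul_relIndex cent(y) Y
        have h5 := cs_mul_card_cent y
        have h6 : 0 < Nat.card cent(y) := Nat.card_pos
        refine Nat.le_of_mul_le_mul_right ?_ h6
        rw [h5, hc, ← h4, ← mul_assoc, mul_comm]
        exact Nat.mul_le_mul_left _ h3
      rw [← ncard_isConj, ← ncard_conj_subgroup] at h2
      have h7 := Set.eq_of_subset_of_ncard_le (s := {z : X | ∃ h ∈ Y, h * y * h⁻¹ = z})
        (t := {z : X | IsConj y z}) (fun z ⟨h, _, e⟩ => isConj_iff.2 ⟨h, e⟩) h2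
      have h8 : g * y * g⁻¹ ∈ {z : X | ∃ h ∈ Y, h * y * h⁻¹ = z} := h7 ▸ isConj_iff.2 ⟨g, rfl⟩
      obtain ⟨h, hh, e⟩ := h8
      rw [← e]
      exact Y.mul_mem (Y.mul_mem hh hy) (Y.inv_mem hh)
    obtain ⟨x₀, hx₀⟩ := hex
    calc ∑ x : X, Nat.card cent(x) < ∑ x : X, Y.index * Nat.card ↥(cent(x) ⊓ Y) :=
          sum_lt_sum (fun x _ => card_le_index_mul _ _) ⟨x₀, mem_univ _, hx₀⟩
      _ = Y.index * ∑ y : Y, Nat.card cent((y : X)) := by rw [← mul_sum, sum_swap]
      _ ≤ Y.index * (Y.index * ∑ y : Y, Nat.card cent(y)) := Nat.mul_le_mul_left _ h1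
      _ = _ := by rw [← hY]; ring

end Cfsg.Agent.S4200
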