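import Cfsg.Statements.S4230
import Cfsg.Agent.Fgs.Zsigmondy

set_option autoImplicit false
open Cfsg

namespace Cfsg.Agent.S4230

/-- Let p be an odd prime, q a natural number not divisible by p, and e the multiplicative order of q modulo p. For a natural number f, p divides the value at q of the f-th cyclotomic polynomial if and only if f = e·p^j for some j ≥ 0. -/
theorem result (p q f : ℕ) (hp : p.Prime) (hp2 : p ≠ 2) (hpq : ¬ p ∣ q) :
    ((p : ℤ) ∣ (Polynomial.cyclotomic f ℤ).eval (q : ℤ)) ↔ ∃ j : ℕ, f = orderOf (q : ZMod p) * p ^ j := by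
  haveI := Fact.mk hp
  have hq0 : (q : ZMod p) ≠ 0 := by rwa [Ne, ZMod.natCast_eq_zero_iff]
  have hdvd : orderOf (q : ZMod p) ∣ p - 1 := ZMod.orderOf_dvd_card_sub_one hq0
  have h2 := hp.two_le
  have hpos : 0 < orderOf (q : ZMod p) := Nat.pos_of_dvd_of_pos hdvd (by omega)
  have hnd : ¬ p ∣ orderOf (q : ZMod p) := by
    intro h
    have := Nat.le_of_dvd (by omega) (h.trans hdvd)
    omega
  constructor
  · intro h
    have hf : f ≠ 0 := by
      rintro rfl
      simp only [Polynomial.cyclotomic_zero, Polynomial.eval_one] at h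
      have : p ∣ 1 := by exact_mod_cast h
      exact hp.one_lt.ne' (Nat.dvd_one.1 this)
    obtain ⟨j, k, hk, hjk⟩ := Nat.exists_eq_pow_mul_and_not_dvd hf p hp.ne_one
    rw [hjk] at h
    have := (CL.Fgs.prime_dvd_cyclotomic_eval_iff p q j k hp hk).1 h
    exact ⟨j, by rw [this, hjk, mul_comm]⟩
  · rintro ⟨j, rfl⟩
    rw [mul_comm]
    exact (CL.Fgs.prime_dvd_cyclotomic_eval_iff p q j _ hp hnd).2 rfl

end Cfsg.Agent.S4230
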