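import Cfsg.Statements.S4234
import Cfsg.Agent.Cls.SL2Class2


set_option autoImplicit false
open Cfsg Matrix Subgroup CL.GL2 CL.SL2
open scoped MatrixGroups

namespace Cfsg.Agent.S4234

def P (G : Type*) [Group G] : Prop :=
  ∀ H : Subgroup G, ¬ H.Normal → IsCoatom (normalizer (H : Set G))

theorem of_le {G : Type*} [Group G] {H M : Subgroup G} (hH : ¬ H.Normal) (hM : IsCoatom M)
    (h : M ≤ normalizer (H : Set G)) : IsCoatom (normalizer (H : Set G)) :=
  (hM.le_iff.1 h).resolve_left (fun h => hH (normalizer_eq_top_iff.1 h)) ▸ hM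

theorem P.of_surj {G K : Type*} [Group G] [Group K] (hK : P K) (f : G →* K)
    (hf : Function.Surjective f) (h : ∀ (H : Subgroup G) (g h h' : G), h ∈ H → h' ∈ H →
      f (g * h * g⁻¹) = f h' → g * h * g⁻¹ ∈ H) [Finite G] : P G := fun H hH => by
  have h1 : (normalizer (H.map f : Set K)).comap f ≤ normalizer (H : Set G) := fun g hg =>
    mem_normalizer_fintype fun x hx => by
      obtain ⟨y, hy, h2⟩ := (mem_normalizer_iff.1 hg (f x)).1 ⟨x, hx, rfl⟩
      exact h H g x y hx hy (by rw [h2, map_mul, map_mul, map_inv])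
  refine of_le hH (isCoatom_comap_of_surjective hf (hK _ fun h2 => hH ?_)) h1
  rwa [normalizer_eq_top, comap_top, top_le_iff, normalizer_eq_top_iff] at h1

variable {F : Type*} [Field F] [Fintype F]

theorem psl (hF : Fintype.card F = 13) : P PSL(2, F) := fun H hH => by
  have : Fact (Nat.Prime 13) := ⟨by decide⟩
  have := charP_of_card_eq hF
  have h2 := two_ne_zero_of_odd (F := F) (by rw [hF]; decide)
  have hG := card_psl_two_mul h2
  have hd := gcd_two_of_ne h2
  have hdv := card_subgroup_dvd_card H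
  rw [hF] at hG
  rw [show Nat.card PSL(2, F) = 1092 by omega] at hdv
  have h0 : H ≠ ⊥ := fun h => hH (h ▸ normal_bot)
  have dih : ∀ x ∈ H, x ≠ 1 → ¬ 13 ∣ Nat.card H → ∃ n, (n = 6 ∨ n = 7) ∧
      IsCoatom (normalizer (zpowers x : Set PSL(2, F))) ∧
      Nat.card (normalizer (zpowers x : Set PSL(2, F))) = 2 * n := fun x hx h1 h3 => by
    obtain ⟨n, -, h4, ⟨e⟩⟩ := normalizer_psl 13 (x := x) fun h =>
      h3 (orderOf_eq_prime h h1 ▸ Subgroup.orderOf_dvd_natCard _ hx)
    rw [hd, hF] at h4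
    refine ⟨n, by omega, ?_, by rw [Nat.card_congr e.toEquiv, DihedralGroup.nat_card]⟩
    rw [← range_subtype_comp e]
    refine isCoatom_dihedral 13 ?_ ?_ _ ((subtype_injective _).comp e.symm.injective) ?_ ?_ ?_ ?_ ?_
    all_goals (try rw [hd]); (try rw [hF]); omega
  have cyc : IsCyclic H → ¬ 13 ∣ Nat.card H → IsCoatom (normalizer (H : Set PSL(2, F))) :=
    fun h h3 => by
    obtain ⟨x, rfl⟩ := (Subgroup.isCyclic_iff_exists_zpowers_eq_top _).1 h
    exact (dih x (mem_zpowers x) (fun h => h0 (by rw [h, zpowers_one_eq_bot])) h3).elim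
      fun _ h => h.2.1
  have alt : ∀ χ : alternatingGroup (Fin 4) →* PSL(2, F), Function.Injective χ →
      IsCoatom χ.range := isCoatom_alt_four (by rw [hF]; decide) (by omega) (by omega) (by omega)
  rcases dickson_psl 13 H with ⟨x, h⟩ | ⟨h, h3⟩ | ⟨k, h3, ⟨e⟩⟩ | ⟨-, ⟨⟨e⟩⟩ | ⟨⟨e⟩⟩ | ⟨⟨e⟩⟩⟩ |
    ⟨h, -⟩ | rfl | ⟨L, m, h3, -, h4, -⟩
  · by_cases h3 : 13 ∣ Nat.card H
    swap
    · refine cyc (isCyclic_of_fix 13 (ProjectiveSpecialLinearGroup.toPGL.comp H.subtype) (x := x)
        (fun g => (psl_smul _ _).symm.trans (h g.2)) fun g hg => by_contra fun h1 => h3 ?_) h3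
      rw [← map_pow] at hg
      have : g ^ 13 = 1 := Subtype.ext (ProjectiveSpecialLinearGroup.toPGL_injective
        (hg.trans (map_one _).symm))
      exact orderOf_eq_prime this h1 ▸ _root_.orderOf_dvd_natCard g
    obtain ⟨u, hu⟩ := exists_prime_orderOf_dvd_card' 13 h3
    rw [← orderOf_coe] at hu
    have h4 : zpowers (u : PSL(2, F)) = (uhyp_psl 13).Q x := eq_of_le_of_card_ge
      (zpowers_le.2 ⟨h u.2, hu ▸ pow_orderOf_eq_one _⟩)
      (by rw [card_Q_psl, Nat.card_zpowers, hu, Nat.card_eq_fintype_card, hF])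
    have : Nontrivial (P1 F) := ⟨_, _, pt_ne_pinf 0⟩
    refine of_le hH (MulAction.IsPreprimitive.isCoatom_stabilizer_of_isPreprimitive _ x)
      fun g hg => mem_normalizer_fintype fun y hy => ?_
    have h5 : g * y * g⁻¹ * y⁻¹ ∈ (uhyp_psl 13).Q x :=
      ⟨mul_mem (mul_mem (mul_mem hg (h hy)) (inv_mem hg)) (inv_mem (h hy)),
        ProjectiveSpecialLinearGroup.toPGL_injective (by
          simpa only [map_pow, map_mul, map_inv, map_one] using commutator_pow_of_fix 13
            ((psl_smul _ _).symm.trans hg) ((psl_smul _ _).symm.trans (h hy)))⟩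
    exact (mul_mem_cancel_right (inv_mem hy)).1 ((h4.ge.trans (zpowers_le.2 u.2)) h5)
  · rw [hd, hF] at h3
    exact cyc h fun h => by rcases h3 with h3 | h3 <;> exact absurd (h.trans h3) (by decide)
  · rw [hd, hF] at h3
    have h4 := Nat.card_congr e.toEquiv
    rw [DihedralGroup.nat_card] at h4
    have h5 : k = 1 ∨ k = 2 ∨ k = 3 ∨ k = 6 ∨ k = 7 := by
      have : k ≤ 7 := by rcases h3 with h3 | h3 <;> exact (Nat.le_of_dvd (by decide) h3).trans (by decide)
      interval_cases k <;> simp_all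
    have h6 : ¬ 13 ∣ Nat.card H := by omega
    rcases h5 with rfl | rfl | h5
    · exact cyc (isCyclic_of_prime_card (p := 2) h4) h6
    · obtain ⟨χ, hχ⟩ := exists_alt_four h2
      obtain ⟨u, v, h7, h8, -⟩ := hasKlein_alt_four
      obtain ⟨g, hg⟩ := kleinFour_conj_of_not_isSquare h2
        (by rw [FiniteField.isSquare_two_iff, hF]; decide) (h7.map χ hχ).isKleinFour
        (W := H) ⟨h4, (Monoid.exponent_eq_of_mulEquiv e).trans IsKleinFour.exponent_two⟩
      refine of_le hH (alt ((MulAut.conj g).toMonoidHom.comp χ)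
        ((MulAut.conj g).injective.comp hχ)) ?_
      rw [hg, MonoidHom.map_closure, Set.image_pair]
      exact range_le_normalizer_pair h8 _
    obtain ⟨x, hx, h7, h8⟩ := exists_le_normalizer_zpowers h0 (Or.inr ⟨k, ⟨e⟩⟩)
    obtain ⟨n, h9, h10, h11⟩ := dih x hx h7 h6
    refine of_le hH h10 ((normal_subgroupOf_iff_le_normalizer h8).1 ?_)
    have h12 := (H.subgroupOf (normalizer (zpowers x : Set PSL(2, F)))).card_mul_index
    rw [Nat.card_congr (subgroupOfEquivOfLe h8).toEquiv, h4, h11] at h12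
    by_cases h13 : (H.subgroupOf (normalizer (zpowers x : Set PSL(2, F)))).index = 1
    · exact normal_of_index_eq_one h13
    · exact normal_of_index_eq_two (by rcases h5 with rfl | rfl | rfl <;> omega)
  · exact of_le hH (range_subtype_comp e ▸ alt _ (H.subtype_injective.comp e.symm.injective))
      le_normalizer
  · rw [Nat.card_congr e.toEquiv, card_perm_four] at hdv
    exact absurd hdv (by decide)
  · rw [Nat.card_congr e.toEquiv, card_alt_five] at hdv
    exact absurd hdv (by decide)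
  · omega
  · exact absurd normal_top hH
  · exact absurd (h4.trans hF) (not_pow_eq_of_prime Fact.out h3)

theorem sl (hF : Fintype.card F = 13) : P SL(2, F) := by
  refine (psl hF).of_surj (QuotientGroup.mk' _) (QuotientGroup.mk'_surjective _)
    fun H g h h' h1 h2 h3 => ?_
  have h4 := two_ne_zero_of_odd (F := F) (by rw [hF]; decide)
  by_cases h5 : (-1 : SL(2, F)) ∈ H
  · rcases psl_mk_eq_iff.1 h3 with h | h <;> rw [h]
    · exact h2
    · exact neg_one_mul h' ▸ mul_mem h5 h2
  refine mem_of_toPGL_mem (n := Nat.card H) (Nat.not_even_iff_odd.1 fun h6 => ?_) ?_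
    ⟨h', h2, (congrArg ProjectiveSpecialLinearGroup.toPGL h3).symm⟩
  · obtain ⟨⟨u, hu⟩, h7⟩ := exists_prime_orderOf_dvd_card' 2 h6.two_dvd
    rw [orderOf_mk] at h7
    rcases sl_eq_of_mul_self h4 (g := u) (by have := pow_orderOf_eq_one u; rwa [h7, sq] at this) with rfl | rfl
    · rw [orderOf_one] at h7; omega
    · exact h5 hu
  · rw [conj_pow, show h ^ Nat.card H = 1 from congrArg Subtype.val (pow_card_eq_one' (x := (⟨h, h1⟩ : H))),
      mul_one, mul_inv_cancel]

theorem P.of_equiv {G K : Type*} [Group G] [Group K] [Finite G] (hK : P K) (e : G ≃* K) : P G :=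
  hK.of_surj e.toMonoidHom e.surjective fun _ _ _ _ _ h2 h3 => e.injective h3 ▸ h2

/-- Let K be isomorphic to PSL(2, 13) or to SL(2, 13) and let S be a finite abelian group of order coprime to the order of K. Then in the direct product K × S every subgroup that is not normal has a normalizer that is a maximal subgroup. -/
theorem result {K S : Type*} [Group K] [CommGroup S] [Finite K] [Finite S]
    (hK : Nonempty (K ≃* Matrix.ProjectiveSpecialLinearGroup (Fin 2) (ZMod 13)) ∨
      Nonempty (K ≃* Matrix.SpecialLinearGroup (Fin 2) (ZMod 13)))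
    (hKS : (Nat.card K).Coprime (Nat.card S)) (H : Subgroup (K × S)) (hH : ¬ H.Normal) :
    IsCoatom (Subgroup.normalizer (H : Set (K × S))) := by
  have : Fact (Nat.Prime 13) := ⟨by decide⟩
  have h1 : P K := hK.elim (fun ⟨e⟩ => (psl (ZMod.card 13)).of_equiv e)
    fun ⟨e⟩ => (sl (ZMod.card 13)).of_equiv e
  refine h1.of_surj (MonoidHom.fst K S) Prod.fst_surjective (fun H g h h' h2 h3 h4 => ?_) H hH
  have h5 : ∀ h ∈ H, (h.1, 1) ∈ H := fun h hh => by
    obtain ⟨m, hm⟩ := exists_pow_eq_self_of_coprime (x := h.1)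
      (hKS.symm.coprime_dvd_right (orderOf_dvd_natCard _))
    convert pow_mem (pow_mem hh (Nat.card S)) m using 1
    exact Prod.ext hm.symm (by simp)
  convert mul_mem (h5 h' h3) (mul_mem (inv_mem (h5 h h2)) h2) using 1
  exact Prod.ext (by simpa using h4) (by simp)

end Cfsg.Agent.S4234
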