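import Cfsg.Statements.S4236
import Cfsg.Agent.Fgs.SylSmall2

set_option autoImplicit false
open Cfsg
open scoped Pointwise

namespace Cfsg.Agent.S4236

/-- No finite group has exactly 35 Sylow 17-subgroups. -/
theorem result {G : Type*} [Group G] [Finite G] : Nat.card (Sylow 17 G) ≠ 35 := by
  intro h
  haveI : Fact (Nat.Prime 17) := ⟨by norm_num⟩
  obtain ⟨S, _, _, hS, hn⟩ := CL.Fgs.exists_simple_card_sylow (p := 17) (n := 35) (by norm_num)
    (CL.Fgs.prime_pow_ne_of_two_primes (a := 7) (b := 5) (by norm_num) (by norm_num) (by norm_num)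
      (by norm_num) (by norm_num)) (fun a b ha hb hab => by
        have : a ≤ 35 := Nat.le_of_dvd (by norm_num) ⟨b, hab.symm⟩
        unfold Nat.ModEq at ha hb
        interval_cases a <;> omega) G h
  obtain ⟨e, he, he1, he2, -⟩ := CL.Fgs.card_of_card_sylow_eq_one_add_two_mul (G := S) (p := 17)
    (by norm_num) hn
  have : e ≤ 16 := Nat.le_of_dvd (by norm_num) he
  interval_cases e <;> omega

end Cfsg.Agent.S4236
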