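import Cfsg.Statements.S4237
import Cfsg.Agent.Fgs.PCount2

set_option autoImplicit false
open Cfsg

namespace Cfsg.Agent.S4237

/-- Let G be a finite group, p a prime and a a natural number such that p^(a+1) divides the order of G. Then the number of subgroups of G of order p^a is congruent to 1 or to 1 + p modulo p². -/
theorem result {G : Type*} [Group G] [Finite G] (p a : ℕ) (hp : p.Prime) (hdvd : p ^ (a + 1) ∣ Nat.card G) :
    Nat.card {H : Subgroup G // Nat.card H = p ^ a} ≡ 1 [MOD p ^ 2] ∨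
      Nat.card {H : Subgroup G // Nat.card H = p ^ a} ≡ 1 + p [MOD p ^ 2] := by
  have := Fact.mk hp
  change CL.Fgs.numSub G (p ^ a) ≡ 1 [MOD p ^ 2] ∨ CL.Fgs.numSub G (p ^ a) ≡ 1 + p [MOD p ^ 2]
  have h := CL.Fgs.numSub_add_mul_cyclic_modEq hdvd
  change _ + p * (CL.Fgs.cycSub G (p ^ (a + 1))).ncard ≡ _ [MOD _] at h
  have key : (CL.Fgs.cycSub G (p ^ (a + 1))).ncard ≡ 0 [MOD p] ∨ (CL.Fgs.cycSub G (p ^ (a + 1))).ncard ≡ 1 [MOD p] →
      CL.Fgs.numSub G (p ^ a) ≡ 1 [MOD p ^ 2] ∨ CL.Fgs.numSub G (p ^ a) ≡ 1 + p [MOD p ^ 2] := by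
    rintro (h1 | h1)
    · right
      have h2 := (Nat.ModEq.refl (CL.Fgs.numSub G (p ^ a))).add (h1.mul_left' p)
      rw [← pow_two] at h2
      simpa using h2.symm.trans h
    · left
      have h2 := (Nat.ModEq.refl (CL.Fgs.numSub G (p ^ a))).add (h1.mul_left' p)
      rw [← pow_two, mul_one] at h2
      exact Nat.ModEq.add_right_cancel' p (h2.symm.trans h)
  by_cases hp2 : p = 2
  · subst hp2
    exact key (Nat.mod_two_eq_zero_or_one _)
  rcases Nat.eq_zero_or_pos a with rfl | ha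
  · left
    have : CL.Fgs.numSub G (p ^ 0) = 1 := by
      rw [CL.Fgs.numSub_eq_ncard, Set.ncard_eq_one]
      exact ⟨⊥, by ext H; simp⟩
    rw [this]
  obtain ⟨P⟩ : Nonempty (Sylow p G) := inferInstance
  have h3 := CL.Fgs.ncard_cycSub_modEq_sylow P (a + 1)
  by_cases hP : IsCyclic P
  · rw [CL.Fgs.ncard_cycSub_of_isCyclic (P.pow_dvd_card_of_pow_dvd_card hdvd)] at h3
    exact key (Or.inr h3)
  · exact key (Or.inl (h3.trans (Nat.modEq_zero_iff_dvd.2 (CL.Fgs.dvd_ncard_cycSub_of_odd hp2 P hP ha))))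

end Cfsg.Agent.S4237
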