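import Cfsg.Statements.S4238
import Cfsg.Agent.Grp.Schmidt
import Cfsg.Agent.Grp.CoresPi
import Cfsg.Agent.Odd.BG1a

set_option autoImplicit false
open Cfsg

namespace Cfsg.Agent.S4238

open CL.Grp CL.Odd in
theorem key {K : Type*} [Group K] [Finite K] {p : ℕ} [hp : Fact p.Prime] (h1 : ¬ HasNormalPComplement p K)
    (h2 : ∀ H : Subgroup K, H ≠ ⊤ → HasNormalPComplement p H) (hZ : Subgroup.center K = ⊥) {k : K}
    (hk : orderOf k = Monoid.exponent K) : False := by
  obtain ⟨P, q, j, g, hq, hqp, hg, hPn, hsup, hgC⟩ := exists_of_minimal_not_hasNormalPComplement h1 h2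
  have hP1 : (P : Subgroup K) ≠ ⊥ := fun e => hgC (Subgroup.mem_centralizer_iff.2 fun x hx => by
    have : x ∈ (P : Subgroup K) := hx
    rw [e] at this
    simp [Subgroup.mem_bot.1 this])
  obtain ⟨a, ha⟩ := P.isPGroup'.exists_card_eq
  have hpd : p ∣ Nat.card (P : Subgroup K) := by
    rcases a with _ | a
    · exact absurd (Subgroup.card_eq_one.1 ha) hP1
    · exact ha ▸ dvd_pow_self p a.succ_ne_zero
  obtain ⟨x, hx⟩ := exists_prime_orderOf_dvd_card' p (hpd.trans (Subgroup.card_subgroup_dvd_card _))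
  have h0 : orderOf k ≠ 0 := (orderOf_pos k).ne'
  have hu : orderOf (k ^ (orderOf k / p)) = p :=
    orderOf_pow_orderOf_div h0 (by rw [hk, ← hx]; exact Monoid.order_dvd_exponent x)
  have hy : orderOf (k ^ (orderOf k / q ^ j)) = q ^ j :=
    orderOf_pow_orderOf_div h0 (by rw [hk, ← hg]; exact Monoid.order_dvd_exponent g)
  have hc : Commute (k ^ (orderOf k / p)) (k ^ (orderOf k / q ^ j)) := Commute.pow_pow_self _ _ _
  generalize k ^ (orderOf k / p) = u at hu hc
  generalize k ^ (orderOf k / q ^ j) = y at hy hc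
  have hcop : (q ^ j).Coprime p := ((Nat.coprime_primes hq hp.out).2 hqp).pow_left j
  have hi : (P : Subgroup K).index ∣ q ^ j := by
    rw [← hg, ← Nat.card_zpowers]; exact index_dvd_card_of_sup_eq_top hsup
  have hs : (P : Subgroup K) ⊔ Subgroup.zpowers y = ⊤ := by
    rw [← Subgroup.index_eq_one]
    refine Nat.eq_one_of_dvd_coprimes (hcop.pow_right a) ((Subgroup.index_dvd_of_le le_sup_left).trans hi)
      ((Subgroup.index_dvd_of_le le_sup_right).trans ?_)
    refine Nat.dvd_of_mul_dvd_mul_right (pow_pos hq.pos j) ?_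
    rw [← hy, ← Nat.card_zpowers, Subgroup.index_mul_card, ← (P : Subgroup K).card_mul_index, ha, Nat.card_zpowers, hy]
    exact Nat.mul_dvd_mul_left _ hi
  have huP : u ∈ (P : Subgroup K) := Subgroup.zpowers_le.1
    (sylow_le_of_normalizes (isSylowIn_top P) (IsPGroup.of_card (n := 1) (by rw [Nat.card_zpowers, hu, pow_one]))
      le_top Subgroup.le_normalizer_of_normal)
  have hcen : ∀ (A : Subgroup K) (z : K), A ⊔ Subgroup.zpowers y = ⊤ → A ≤ C1[z] → y ∈ C1[z] → z = 1 := by
    intro A z hA h3 h4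
    have h5 : C1[z] = ⊤ := eq_top_iff.2 (hA ▸ sup_le h3 (Subgroup.zpowers_le.2 h4))
    rw [← Subgroup.mem_bot, ← hZ, Subgroup.mem_center_iff]
    exact fun w => mem_c1.1 (h5 ▸ Subgroup.mem_top w)
  by_cases ht : (P : Subgroup K) ⊓ C[(P : Subgroup K)] ⊔ Subgroup.zpowers y = ⊤
  · have := hcen _ u ht (fun z hz => mem_c1.2 (hz.2 u huP).symm) (mem_c1.2 hc.symm)
    rw [this, orderOf_one] at hu
    exact hp.out.one_lt.ne hu
  · have h3 := mem_centralizer_of_normalizer_hasNormalPComplement (P.isPGroup'.to_le inf_le_left) le_sup_left (h2 _ ht)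
      (Subgroup.mem_sup_right (Subgroup.mem_zpowers y)) (Subgroup.le_normalizer_of_normal (Subgroup.mem_top y))
      (hy ▸ hcop)
    refine inf_center_ne_bot_of_nil P.isPGroup'.isNilpotent le_rfl Subgroup.le_normalizer hP1
      (eq_bot_iff.2 fun z hz => hcen _ z hs (fun w hw => mem_c1.2 (hz.2 w hw)) (mem_c1.2 (h3 z hz).symm))

/-- Let G be a finite group and p a prime. Then G has a normal p-complement if and only if every section K = H/N of G (N a normal subgroup of a subgroup H) whose largest normal subgroup of order prime to p is trivial contains an element whose order equals the exponent of K. -/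
theorem result {G : Type*} [Group G] [Finite G] (p : ℕ) [Fact p.Prime] :
    Cfsg.HasNormalPComplement p G ↔
      ∀ (H : Subgroup G) (N : Subgroup H) [N.Normal], Cfsg.pPrimeCore p (H ⧸ N) = ⊥ →
        ∃ k : H ⧸ N, orderOf k = Monoid.exponent (H ⧸ N) := by
  open CL.Grp in
  constructor
  · intro h H N _ hO
    have h1 : HasNormalPComplement p (H ⧸ N) := HasNormalPComplement.quotient (HasNormalPComplement.subgroup h H) N
    have h2 : IsPGroup p (H ⧸ N) := pResidual_eq_bot_iff.1 (eq_bot_iff.2
      (hO ▸ le_pPrimeCore (hasNormalPComplement_iff_coprime_pResidual.1 h1)))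
    obtain ⟨n, hn⟩ := h2.exists_card_eq
    obtain ⟨k, hk⟩ := (Fact.out : p.Prime).exists_orderOf_eq_pow_factorization_exponent (H ⧸ N)
    obtain ⟨m, -, hm⟩ := (Nat.dvd_prime_pow Fact.out).1 (hn ▸ Group.exponent_dvd_nat_card (G := H ⧸ N))
    exact ⟨k, by rw [hk, hm, Nat.factorization_pow_self Fact.out]⟩
  · intro h
    by_contra hn
    obtain ⟨H, h1, h2⟩ := exists_minimal_not_hasNormalPComplement hn
    obtain ⟨N, ⟨hN, hN1⟩, hmax⟩ := (wellFounded_gt (α := Subgroup H)).has_min
      {N | ∃ _ : N.Normal, ¬ HasNormalPComplement p (H ⧸ N)}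
      ⟨⊥, inferInstance, fun e => h1 (HasNormalPComplement.of_equiv e QuotientGroup.quotientBot)⟩
    have hq : ∀ (M : Subgroup (H ⧸ N)) [M.Normal], HasNormalPComplement p ((H ⧸ N) ⧸ M) ∨ M = ⊥ := by
      intro M _
      refine or_iff_not_imp_left.2 fun h3 => ?_
      by_contra h4
      have hs : Function.Surjective ((QuotientGroup.mk' M).comp (QuotientGroup.mk' N)) :=
        (QuotientGroup.mk'_surjective M).comp (QuotientGroup.mk'_surjective N)
      refine hmax _ ⟨inferInstance, fun e => h3 (HasNormalPComplement.of_equiv e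
        (QuotientGroup.quotientKerEquivOfSurjective _ hs))⟩ (lt_of_le_of_ne (fun x hx => ?_) fun e => h4 ?_)
      · simp [(QuotientGroup.eq_one_iff x).2 hx]
      · refine eq_bot_iff.2 fun z hz => ?_
        obtain ⟨x, rfl⟩ := QuotientGroup.mk'_surjective N z
        refine (QuotientGroup.eq_one_iff x).2 ?_
        rw [e]
        exact (QuotientGroup.eq_one_iff _).2 hz
    obtain ⟨k, hk⟩ := h H N ((hq _).resolve_left fun e =>
      hN1 (hasNormalPComplement_of_quotient_coprime (pPrimeCore_coprime p _) e))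
    refine key hN1 (fun L hL => ?_) ((hq _).resolve_left fun e =>
      hN1 (hasNormalPComplement_of_quotient_central le_rfl e)) hk
    rw [← Subgroup.map_comap_eq_self_of_surjective (QuotientGroup.mk'_surjective N) L]
    refine HasNormalPComplement.map (h2 _ fun e => hL ?_) _
    rw [← Subgroup.map_comap_eq_self_of_surjective (QuotientGroup.mk'_surjective N) L, e]
    exact Subgroup.map_top_of_surjective _ (QuotientGroup.mk'_surjective N)

end Cfsg.Agent.S4238
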