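import Cfsg.Statements.S4240
import Cfsg.Agent.Fgs.InvMax
import Cfsg.Agent.Odd.FT

set_option autoImplicit false
open Cfsg

namespace Cfsg.Agent.S4240

/-- Let a finite group A act by automorphisms on a finite group G of order coprime to that of A. Suppose every maximal A-invariant proper subgroup of G is nilpotent while G is not. Then G is solvable, the order of G has the form p^a·q^b for two distinct primes p and q, and G has a normal A-invariant Sylow subgroup for some prime dividing its order. -/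
theorem result {A G : Type*} [Group A] [Group G] [Finite A] [Finite G] [MulDistribMulAction A G]
    (hcop : (Nat.card A).Coprime (Nat.card G))
    (hmax : ∀ H : Subgroup G, H ≠ ⊤ → (∀ a : A, ∀ x ∈ H, a • x ∈ H) →
      (∀ K : Subgroup G, H < K → (∀ a : A, ∀ x ∈ K, a • x ∈ K) → K = ⊤) → Group.IsNilpotent H)
    (hG : ¬ Group.IsNilpotent G) :
    Group.IsSolvable G ∧
      (∃ p q a b : ℕ, p.Prime ∧ q.Prime ∧ p ≠ q ∧ Nat.card G = p ^ a * q ^ b) ∧
      ∃ (p : ℕ) (P : Sylow p G), p.Prime ∧ p ∣ Nat.card G ∧ (P : Subgroup G).Normal ∧ (∀ a : A, ∀ x ∈ (P : Subgroup G), a • x ∈ (P : Subgroup G)) := by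
    have hs : Group.IsSolvable A ∨ Group.IsSolvable G := by
      rcases Nat.even_or_odd (Nat.card G) with h | h
      · exact Or.inl (CL.Odd.feit_thompson (Nat.coprime_two_right.1
          (hcop.coprime_dvd_right (even_iff_two_dvd.1 h))))
      · exact Or.inr (CL.Odd.feit_thompson h)
    obtain ⟨h1, p, q, hp, hq, P, Q, hne, hd, hc, hcard⟩ := CL.Fgs.schmidt_inv hcop hs (by
      intro H hH hHA
      obtain ⟨M, ⟨hM1, hM2, hM3⟩, hM⟩ := Set.exists_max_image
        {K : Subgroup G | H ≤ K ∧ K ≠ ⊤ ∧ ∀ a : A, ∀ x ∈ K, a • x ∈ K} (fun K => Nat.card K)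
        (Set.toFinite _) ⟨H, le_rfl, hH, hHA⟩
      refine CL.Grp.isNilpotent_of_le (hmax M hM2 hM3 fun K hK hKA => ?_) hM1
      by_contra hKt
      exact (CL.Grp.card_lt_card_of_lt hK).not_ge (hM K ⟨hM1.trans hK.le, hKt, hKA⟩)) hG
    obtain ⟨a, ha⟩ := IsPGroup.iff_card.1 P.isPGroup'
    obtain ⟨b, hb⟩ := IsPGroup.iff_card.1 Q.isPGroup'
    exact ⟨h1, ⟨p, q, a, b, hp.out, hq.out, hne, by rw [hcard, ha, hb]⟩, p, P, hp.out, hd,
      inferInstance, CL.Grp.smul_mem_of_characteristic _⟩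

end Cfsg.Agent.S4240
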