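import Cfsg.Statements.S4242
import Cfsg.Agent.Grp.Schmidt
import Cfsg.Agent.Grp.NilpSub
import Cfsg.Agent.Grp.Coprime
import Cfsg.Agent.Grp.MinNormal
import Cfsg.Agent.Odd.BG1a

set_option autoImplicit false
open Cfsg

namespace Cfsg.Agent.S4242

open CL.Grp CL.Odd in
theorem caseA {G : Type*} [Group G] [Finite G] {p : ℕ} [hp : Fact p.Prime]
    (h : ∀ H : Subgroup G, H ≠ ⊤ → p ∣ Nat.card H → Group.IsNilpotent H) {M : Subgroup G} (hM : IsCoatom M)
    (hMn : ¬ Group.IsNilpotent M) {R : Subgroup G} [R.Normal] (hR : IsPGroup p R) (hR1 : R ≠ ⊥) :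
    ∃ Z K : Subgroup G, Z.Normal ∧ K.Normal ∧ Z ⊓ K = ⊥ ∧ Z ⊔ K = ⊤ ∧ Nat.card Z = p ∧
      Cfsg.IsMinimalNonNilpotent K ∧ ¬ p ∣ Nat.card K := by
  have hpM : ¬ p ∣ Nat.card M := fun e => hMn (h M hM.1 e)
  obtain ⟨Q, hQ, hQR⟩ := exists_isMinNormal_le R hR1
  have := hQ.normal
  have hQp : IsPGroup p Q := hR.to_le hQR
  obtain ⟨a, ha⟩ := hQp.exists_card_eq
  have hpQ : p ∣ Nat.card Q := by
    rcases a with _ | a
    · exact absurd (Subgroup.card_eq_one.1 ha) hQ.ne_bot
    · exact ha ▸ dvd_pow_self p a.succ_ne_zero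
  have hs : Q ⊔ M = ⊤ := sup_eq_top_of_isCoatom hM fun e => hpM (hpQ.trans (Subgroup.card_dvd_of_le e))
  have hcop : (Nat.card Q).Coprime (Nat.card M) := ha ▸ ((Nat.Prime.coprime_iff_not_dvd hp.out).2 hpM).pow_left a
  have hi : Q ⊓ M = ⊥ := Subgroup.inf_eq_bot_of_coprime hcop
  have hL : ∀ L, L < M → Group.IsNilpotent ↥(Q ⊔ L) := fun L hL => h _ (fun e => hL.ne (by
    rw [← inf_top_eq M, ← e, sup_comm, inf_comm, dedekind_left Subgroup.le_normalizer_of_normal hL.le, hi, sup_bot_eq]))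
    (hpQ.trans (Subgroup.card_dvd_of_le le_sup_left))
  have hMC : M ≤ C[Q] := fun x hx => by
    have h1 : Subgroup.zpowers x < M := lt_of_le_of_ne (Subgroup.zpowers_le.2 hx) fun e =>
      hMn (e ▸ isNilpotent_of_isMulCommutative inferInstance)
    refine Subgroup.mem_centralizer_iff.2 fun y hy => commute_of_mem_isNilpotent (hL _ h1) (Subgroup.mem_sup_left hy)
      (Subgroup.mem_sup_right (Subgroup.mem_zpowers x)) (hcop.coprime_dvd_left (Subgroup.orderOf_dvd_natCard _ hy)
        |>.coprime_dvd_right (Subgroup.orderOf_dvd_natCard _ hx))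
  have hab := (hQ.isElementaryAbelian_of_isPGroup hQp).1
  have hc : Q ≤ Subgroup.center G := by
    rw [← Subgroup.centralizer_eq_top_iff_subset.trans SetLike.coe_subset_coe, eq_top_iff, ← hs]
    exact sup_le (Subgroup.le_centralizer Q) hMC
  refine ⟨Q, M, hQ.normal, normal_of_sup_le_normalizer hs (le_normalizer_of_le_centralizer
    (Subgroup.le_centralizer_iff.1 hMC)) Subgroup.le_normalizer, hi, hs,
    ((Nat.prime_dvd_prime_iff_eq hp.out (hQ.card_prime_of_le_center hc)).1 hpQ).symm, ⟨hMn, fun L hL' => ?_⟩, hpM⟩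
  refine isNilpotent_map_subtype_iff.1 (isNilpotent_of_le (hL _ (lt_of_le_of_ne (Subgroup.map_subtype_le _)
    fun e => hL' ?_)) le_sup_right)
  exact Subgroup.map_injective M.subtype_injective (by rw [e, ← MonoidHom.range_eq_map, Subgroup.range_subtype])

open CL.Grp CL.Odd in
theorem caseB {G : Type*} [Group G] [Finite G] {p : ℕ} [hp : Fact p.Prime] (hpG : p ∣ Nat.card G)
    (h : ∀ H : Subgroup G, H ≠ ⊤ → p ∣ Nat.card H → Group.IsNilpotent H) {M : Subgroup G} (hM : IsCoatom M)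
    (hMn : ¬ Group.IsNilpotent M) : ∃ R : Subgroup G, R.Normal ∧ IsPGroup p R ∧ R ≠ ⊥ := by
  by_contra hn
  have hpM : ¬ p ∣ Nat.card M := fun e => hMn (h M hM.1 e)
  have hd : ∀ Q : Subgroup G, IsPGroup p Q → Q ≠ ⊥ → p ∣ Nat.card Q := fun Q hQ h1 => by
    obtain ⟨_ | a, ha⟩ := hQ.exists_card_eq
    · exact absurd (Subgroup.card_eq_one.1 ha) h1
    · exact ha ▸ dvd_pow_self p a.succ_ne_zero
  have h1 : HasNormalPComplement p G := hasNormalPComplement_iff_local.2 fun Q hQ h1 => by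
    have := h N[Q] (fun e => hn ⟨Q, Subgroup.normalizer_eq_top_iff.1 e, hQ, h1⟩)
      ((hd Q hQ h1).trans (Subgroup.card_dvd_of_le Subgroup.le_normalizer))
    exact hasNormalPComplement_of_isNilpotent
  have h2 := hasNormalPComplement_iff_not_dvd_pResidual.1 h1
  have h3 : pResidual p G = M := by
    refine ((hM.le_iff.1 (le_pResidual_of_coprime ((Nat.Prime.coprime_iff_not_dvd hp.out).2 hpM).symm)).resolve_left
      fun e => h2 ?_)
    rwa [e, Subgroup.card_top]
  have : M.Normal := h3 ▸ inferInstance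
  obtain ⟨P⟩ : Nonempty (Sylow p G) := inferInstance
  have hP1 := P.ne_bot_of_dvd_card hpG
  obtain ⟨a, ha⟩ := P.isPGroup'.exists_card_eq
  have hcop : (Nat.card P).Coprime (Nat.card M) := ha ▸ ((Nat.Prime.coprime_iff_not_dvd hp.out).2 hpM).pow_left a
  have hC : M ≤ C[(P : Subgroup G)] := by
    rw [← Subgroup.relIndex_eq_one]
    by_contra h4
    obtain ⟨q, hq, hqd⟩ := Nat.exists_prime_and_dvd h4
    have := Fact.mk hq
    have := P.isPGroup'.isNilpotent
    obtain ⟨S, hS, hn⟩ := exists_isSylowIn_le_normalizer (A := (P : Subgroup G)) (K := M) q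
      Subgroup.le_normalizer_of_normal hcop (Or.inl inferInstance)
    have h5 : S ⊔ (P : Subgroup G) ≠ ⊤ := fun e => hMn (by
      have : M = S := by
        rw [← inf_top_eq M, ← e, inf_comm, dedekind_right hn hS.le, Subgroup.inf_eq_bot_of_coprime hcop, sup_bot_eq]
      exact this ▸ hS.isPGroup.isNilpotent)
    have h6 := h _ h5 ((hd _ P.isPGroup' hP1).trans (Subgroup.card_dvd_of_le le_sup_right))
    have h7 : S ≤ C[(P : Subgroup G)] := fun x hx => Subgroup.mem_centralizer_iff.2 fun y hy =>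
      commute_of_mem_isNilpotent h6 (Subgroup.mem_sup_right hy) (Subgroup.mem_sup_left hx)
        (hcop.coprime_dvd_left (Subgroup.orderOf_dvd_natCard _ hy)
          |>.coprime_dvd_right (Subgroup.orderOf_dvd_natCard _ (hS.le hx)))
    exact hS.not_dvd (hqd.trans (Subgroup.relIndex_dvd_of_le_left _ h7))
  exact hn ⟨P, normal_of_sup_le_normalizer (h3 ▸ pResidual_sup_sylow P) (le_normalizer_of_le_centralizer hC)
    Subgroup.le_normalizer, P.isPGroup', hP1⟩

/-- Let G be a finite group and p a prime dividing its order. Every maximal subgroup of G of order divisible by p is nilpotent if and only if G is nilpotent, or G is a minimal non-nilpotent group, or G is the internal direct product of a normal subgroup of order p and a normal minimal non-nilpotent subgroup of order prime to p. -/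
theorem result {G : Type*} [Group G] [Finite G] (p : ℕ) (hp : p.Prime) (hpG : p ∣ Nat.card G) :
    (∀ M : Subgroup G, IsCoatom M → p ∣ Nat.card M → Group.IsNilpotent M) ↔
      (Group.IsNilpotent G ∨ Cfsg.IsMinimalNonNilpotent G ∨
        ∃ Z K : Subgroup G, Z.Normal ∧ K.Normal ∧ Z ⊓ K = ⊥ ∧ Z ⊔ K = ⊤ ∧ Nat.card Z = p ∧
          Cfsg.IsMinimalNonNilpotent K ∧ ¬ p ∣ Nat.card K) := by
  open CL.Grp CL.Odd in
  have := Fact.mk hp
  constructor
  · intro h
    have h' : ∀ H : Subgroup G, H ≠ ⊤ → p ∣ Nat.card H → Group.IsNilpotent H := fun H hH hd => by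
      obtain ⟨M, hM, hle⟩ := (eq_top_or_exists_le_coatom H).resolve_left hH
      exact isNilpotent_of_le (h M hM (hd.trans (Subgroup.card_dvd_of_le hle))) hle
    refine or_iff_not_imp_left.2 fun h1 => or_iff_not_imp_left.2 fun h2 => ?_
    obtain ⟨H, hH, hHn⟩ : ∃ H : Subgroup G, H ≠ ⊤ ∧ ¬ Group.IsNilpotent H := by
      by_contra h3
      exact h2 ⟨h1, fun H hH => by_contra fun h4 => h3 ⟨H, hH, h4⟩⟩
    obtain ⟨M, hM, hle⟩ := (eq_top_or_exists_le_coatom H).resolve_left hH
    have hMn : ¬ Group.IsNilpotent M := fun e => hHn (isNilpotent_of_le e hle)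
    obtain ⟨R, _, hR, hR1⟩ := caseB hpG h' hM hMn
    exact caseA h' hM hMn hR hR1
  · rintro (h | h | ⟨Z, K, _, _, hi, hs, hZ, hK, hpK⟩) M hM hd
    · infer_instance
    · exact h.2 M hM.1
    · have hZp : IsPGroup p Z := IsPGroup.of_card (n := 1) (by rw [hZ, pow_one])
      have hS : IsSylowIn p Z ⊤ := ⟨le_top, hZp, fun e => hpK (e.trans (by
        rw [Subgroup.relIndex_top_right]; exact index_dvd_card_of_sup_eq_top hs))⟩
      obtain ⟨x, hx⟩ := exists_prime_orderOf_dvd_card' p hd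
      have h1 : Subgroup.zpowers (x : G) ≤ Z := sylow_le_of_normalizes hS
        (IsPGroup.of_card (n := 1) (by rw [Nat.card_zpowers, Subgroup.orderOf_coe, hx, pow_one])) le_top
        Subgroup.le_normalizer_of_normal
      have h2 : Z ≤ M := by
        rw [← Subgroup.eq_of_le_of_card_ge h1 (by rw [Nat.card_zpowers, Subgroup.orderOf_coe, hx, hZ])]
        exact Subgroup.zpowers_le.2 x.2
      have h3 : M = Z ⊔ (K ⊓ M) := (sup_inf_eq_of_normal_le hs h2).symm
      have h4 : Z ≤ C[K] := Subgroup.commutator_eq_bot_iff_le_centralizer.1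
        (eq_bot_iff.2 (hi ▸ Subgroup.commutator_le_inf Z K))
      rw [h3]
      refine isNilpotent_sup hZp.isNilpotent ?_ (le_normalizer_of_le_centralizer
        (h4.trans (Subgroup.centralizer_le inf_le_left))) Subgroup.le_normalizer_of_normal
      have h5 := hK.2 (M.subgroupOf K) fun e => hM.1 (eq_top_iff.2 (hs ▸ sup_le h2 (Subgroup.subgroupOf_eq_top.1 e)))
      rw [inf_comm, ← Subgroup.subgroupOf_map_subtype]
      exact isNilpotent_map h5 _

end Cfsg.Agent.S4242
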