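import Cfsg.Statements.S4244
import Cfsg.Agent.Grp.Subnormal
import Cfsg.Agent.Grp.Cores

set_option autoImplicit false
open Cfsg
open scoped Pointwise

namespace Cfsg.Agent.S4244

theorem aux {G : Type*} [Group G] [Finite G] {H L : Subgroup G} (h : CL.Grp.SubnIn H L) (K : Subgroup G) :
    K.relIndex H ∣ K.relIndex L := by
  induction h with
  | refl => exact dvd_rfl
  | step H L M hle hn _ ih =>
    refine Dvd.dvd.trans ?_ ih
    have h1 := CL.Grp.card_sup_mul_card_inf (H := K ⊓ L) (K := H) (inf_le_right.trans hn)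
    have h2 := CL.Grp.card_mul_relIndex (le_sup_left : K ⊓ L ≤ (K ⊓ L) ⊔ H)
    have h3 := CL.Grp.card_inf_mul_relIndex (K ⊓ L) H
    have hL : 0 < Nat.card (K ⊓ L : Subgroup G) := Nat.card_pos
    have hLN : 0 < Nat.card ((K ⊓ L) ⊓ H : Subgroup G) := Nat.card_pos
    have h4 : (K ⊓ L).relIndex ((K ⊓ L) ⊔ H) = (K ⊓ L).relIndex H := by
      apply Nat.eq_of_mul_eq_mul_left (Nat.mul_pos hL hLN)
      calc Nat.card (K ⊓ L : Subgroup G) * Nat.card ((K ⊓ L) ⊓ H : Subgroup G) *
            (K ⊓ L).relIndex ((K ⊓ L) ⊔ H)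
          = (Nat.card (K ⊓ L : Subgroup G) * (K ⊓ L).relIndex ((K ⊓ L) ⊔ H)) *
            Nat.card ((K ⊓ L) ⊓ H : Subgroup G) := by ring
        _ = Nat.card (K ⊓ L : Subgroup G) * Nat.card H := by rw [h2, h1]
        _ = _ := by rw [← h3]; ring
    have h5 : (K ⊓ L).relIndex H = K.relIndex H := by
      rw [← Subgroup.inf_relIndex_right (K ⊓ L) H, inf_assoc, inf_eq_right.2 hle,
        Subgroup.inf_relIndex_right]
    rw [← h5, ← h4, ← Subgroup.inf_relIndex_right K L,
      ← Subgroup.relIndex_mul_relIndex (K ⊓ L) ((K ⊓ L) ⊔ H) L le_sup_left (sup_le inf_le_right hle)]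
    exact dvd_mul_right _ _

/-- Let H be a subnormal subgroup of a finite group G. Then for every subgroup K of G the index of H ∩ K in H divides the index of K in G. -/
theorem result {G : Type*} [Group G] [Finite G] (H : Subgroup G) (hH : H.IsSubnormal) (K : Subgroup G) :
    (H ⊓ K).relIndex H ∣ K.index := by
  rw [Subgroup.inf_relIndex_left, ← Subgroup.relIndex_top_right]
  exact aux (CL.Grp.subnIn_top_iff.2 hH) K

end Cfsg.Agent.S4244
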