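import Cfsg.Statements.S4250
import Cfsg.Agent.Transfer.Gruen

set_option autoImplicit false
open Cfsg

namespace Cfsg.Agent.S4250

/-- Let P be a Sylow p-subgroup of a finite group G. Call an intersection H = P ∩ Q with a Sylow p-subgroup Q tame when N_P(H) and N_Q(H) are Sylow p-subgroups of N_G(H). Then P ∩ G′ is generated by [P, N_G(P)] together with the commutator subgroups [P ∩ Q, ⟨x⟩] for all tame intersections P ∩ Q and all p-elements x of N_G(P ∩ Q). -/
theorem result {G : Type*} [Group G] [Finite G] (p : ℕ) [Fact p.Prime] (P : Sylow p G) :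
    (P : Subgroup G) ⊓ commutator G =
      ⁅(P : Subgroup G), Subgroup.normalizer ((P : Subgroup G) : Set G)⁆ ⊔
        ⨆ (Q : Sylow p G) (_ : (¬ p ∣ ((P : Subgroup G) ⊓ Subgroup.normalizer (((P : Subgroup G) ⊓ (Q : Subgroup G) : Subgroup G) : Set G)).relIndex (Subgroup.normalizer (((P : Subgroup G) ⊓ (Q : Subgroup G) : Subgroup G) : Set G)) ∧ ¬ p ∣ ((Q : Subgroup G) ⊓ Subgroup.normalizer (((P : Subgroup G) ⊓ (Q : Subgroup G) : Subgroup G) : Set G)).relIndex (Subgroup.normalizer (((P : Subgroup G) ⊓ (Q : Subgroup G) : Subgroup G) : Set G))))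
          (x : G) (_ : x ∈ Subgroup.normalizer (((P : Subgroup G) ⊓ (Q : Subgroup G) : Subgroup G) : Set G) ∧ ∃ k : ℕ, orderOf x = p ^ k),
          ⁅(P : Subgroup G) ⊓ (Q : Subgroup G), Subgroup.zpowers x⁆ := by
  refine le_antisymm ((inf_comm _ _).le.trans (CL.Transfer.focal_le_of_tame P _
    (fun x hx a ha => ?_) fun Q hQ x hx hk a ha => ?_)) (sup_le ?_ (iSup_le fun Q => ?_))
  · exact Subgroup.mem_sup_left (CL.Transfer.inv_mul_conj_mem_commutator ha hx)
  · exact Subgroup.mem_sup_right (Subgroup.mem_iSup_of_mem Q (Subgroup.mem_iSup_of_mem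
      ⟨hQ.1.2.2, hQ.2.2.2⟩ (Subgroup.mem_iSup_of_mem x (Subgroup.mem_iSup_of_mem ⟨hx, hk⟩
        (CL.Transfer.inv_mul_conj_mem_commutator ha (Subgroup.mem_zpowers x))))))
  · exact le_inf (Subgroup.le_normalizer_iff_commutator_le_left.mp le_rfl)
      (Subgroup.commutator_mono le_top le_top)
  · refine iSup_le fun _ => iSup_le fun x => iSup_le fun hx => le_inf ?_
      (Subgroup.commutator_mono le_top le_top)
    exact (Subgroup.le_normalizer_iff_commutator_le_left.mp
      (Subgroup.zpowers_le.mpr hx.1)).trans inf_le_left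

end Cfsg.Agent.S4250
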