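import Cfsg.Statements.S4251
import Cfsg.Agent.Grp.PNilpFrob

set_option autoImplicit false
open Cfsg

namespace Cfsg.Agent.S4251

/-- Let P be a Sylow p-subgroup of a finite group G. Call an intersection H = P ∩ Q with a Sylow p-subgroup Q tame when N_P(H) and N_Q(H) are Sylow p-subgroups of N_G(H). If N_G(H)/C_G(H) is a p-group for every nontrivial tame intersection H = P ∩ Q, then G has a normal p-complement. -/
theorem result {G : Type*} [Group G] [Finite G] (p : ℕ) [Fact p.Prime] (P : Sylow p G)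
    (h : ∀ Q : Sylow p G, (P : Subgroup G) ⊓ (Q : Subgroup G) ≠ ⊥ → (¬ p ∣ ((P : Subgroup G) ⊓ Subgroup.normalizer (((P : Subgroup G) ⊓ (Q : Subgroup G) : Subgroup G) : Set G)).relIndex (Subgroup.normalizer (((P : Subgroup G) ⊓ (Q : Subgroup G) : Subgroup G) : Set G)) ∧ ¬ p ∣ ((Q : Subgroup G) ⊓ Subgroup.normalizer (((P : Subgroup G) ⊓ (Q : Subgroup G) : Subgroup G) : Set G)).relIndex (Subgroup.normalizer (((P : Subgroup G) ⊓ (Q : Subgroup G) : Subgroup G) : Set G))) →
      IsPGroup p (Subgroup.normalizer (((P : Subgroup G) ⊓ (Q : Subgroup G) : Subgroup G) : Set G) ⧸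
        (Subgroup.centralizer (((P : Subgroup G) ⊓ (Q : Subgroup G) : Subgroup G) : Set G)).subgroupOf
          (Subgroup.normalizer (((P : Subgroup G) ⊓ (Q : Subgroup G) : Subgroup G) : Set G)))) :
    Cfsg.HasNormalPComplement p G := by
  open CL.Grp in
  refine hasNormalPComplement_of_no_fusion P fun x hx g hg => ?_
  have key := alperin_induction P (fun A g => ∃ u ∈ (P : Subgroup G), ∀ a ∈ A, g⁻¹ * a * g = u⁻¹ * a * u)
    (fun A => ⟨1, one_mem _, fun _ _ => rfl⟩) ?_ ?_ {x} g (by simpa using hx) (by simpa using hg)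
  · obtain ⟨u, hu, e⟩ := key
    exact ⟨u, hu, e x rfl⟩
  · rintro A x g ⟨h, hh, e⟩ ⟨k, hk, e'⟩
    refine ⟨h * k, mul_mem hh hk, fun a ha => ?_⟩
    have := e' _ ⟨a, ha, rfl⟩
    simp only at this
    calc (x * g)⁻¹ * a * (x * g) = g⁻¹ * (x⁻¹ * a * x) * g := by group
      _ = k⁻¹ * (h⁻¹ * a * h) * k := by rw [this, e a ha]
      _ = _ := by group
  · intro Q ht A hA y hy
    by_cases hD1 : (P : Subgroup G) ⊓ Q = ⊥
    · refine ⟨1, one_mem _, fun d hd => ?_⟩
      have := hA hd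
      rw [hD1] at this
      simp [Subgroup.mem_bot.1 this]
    have hq := h Q hD1 ⟨ht.1.not_dvd, ht.2.not_dvd⟩
    obtain ⟨c, hc, s, hs, rfl⟩ := ht.1.exists_centralizer_mul (fun z hz hco => by
      have h1 := eq_one_of_coprime_of_isPGroup hq (g := QuotientGroup.mk' _ ⟨z, hz⟩)
        (Nat.Coprime.coprime_dvd_left ((orderOf_map_dvd _ _).trans (by rw [Subgroup.orderOf_mk])) hco)
      exact Subgroup.mem_subgroupOf.1 ((QuotientGroup.eq_one_iff (⟨z, hz⟩ : Subgroup.normalizer _)).1 h1)) hy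
    refine ⟨s, hs.1, fun d hd => ?_⟩
    calc (c * s)⁻¹ * d * (c * s) = s⁻¹ * (c⁻¹ * (d * c)) * s := by group
      _ = _ := by rw [hc d (hA hd)]; group

end Cfsg.Agent.S4251
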