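import Cfsg.Statements.S4253
import Cfsg.Agent.Grp.Frob

set_option autoImplicit false
open Cfsg

namespace Cfsg.Agent.S4253

open scoped Pointwise
open CL.Grp

/-- Let H be a Frobenius complement in a finite group G (a nontrivial proper subgroup meeting each conjugate gHg⁻¹ with g outside H trivially). Then in the action of G on the left cosets of H by left multiplication, no non-identity element of G fixes two distinct cosets. -/
theorem result {G : Type*} [Group G] [Finite G] (H : Subgroup G) (hH : Cfsg.IsFrobeniusComplement H)
    (g : G) (hg : g ≠ 1) (a b : G ⧸ H) (ha : g • a = a) (hb : g • b = b) : a = b := by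
  induction a using QuotientGroup.induction_on with
  | H a =>
  induction b using QuotientGroup.induction_on with
  | H b =>
  have h1 : ∀ c : G, g • (c : G ⧸ H) = c → c⁻¹ * g * c⁻¹⁻¹ ∈ H := fun c hc => by
    rw [MulAction.Quotient.smul_mk, smul_eq_mul, eq_comm, QuotientGroup.eq] at hc
    rwa [inv_inv, mul_assoc]
  have := (isMalnormal_of_frob hH).mul_inv_mem hg (h1 a ha) (h1 b hb)
  rw [inv_inv] at this
  exact QuotientGroup.eq.2 this

end Cfsg.Agent.S4253
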