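import Cfsg.Statements.S4259
import Cfsg.Agent.Fgs.TowerI
import Cfsg.Agent.Fgs.TwoSolv

set_option autoImplicit false
open Cfsg

namespace Cfsg.Agent.S4259

/-- Let G be a finite 2-soluble group whose Sylow 2-subgroups have derived length at most d. Then the 2-length of G is at most d. -/
theorem result {G : Type*} [Group G] [Finite G] (hG : Cfsg.IsPSolvable 2 G) (d : ℕ)
    (hd : ∀ P : Sylow 2 G, derivedSeries (P : Subgroup G) d = ⊥) : Cfsg.PLengthLE 2 d G := by
  obtain ⟨P⟩ := (Sylow.nonempty : Nonempty (Sylow 2 G))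
  have h := CL.Fgs.HH.map_derivedSeries_eq_dr d (P : Subgroup G)
  rw [hd P, Subgroup.map_bot] at h
  rcases d with _ | d
  · exact CL.Fgs.HH.pLengthLE_zero_of_sylow P h.symm
  · exact CL.Fgs.HH.pLengthLE_two_der d G (CL.Fgs.isSolvable_of_isPSolvable_two G hG) P h.symm

end Cfsg.Agent.S4259
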