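import Cfsg.Statements.S4261
import Cfsg.Agent.S0048
import Cfsg.Agent.Grp.PNilp
import Cfsg.Agent.Grp.Subnormal

set_option autoImplicit false
open Cfsg
open scoped Pointwise

namespace Cfsg.Agent.S4261

/-- Let M be a maximal subgroup of a finite solvable group G such that x^[G : M] lies in M for every x in G. Then M is normal in G. -/
theorem result {G : Type*} [Group G] [Finite G] (hG : Group.IsSolvable G) (M : Subgroup G) (hM : IsCoatom M)
    (hexp : ∀ x : G, x ^ M.index ∈ M) : M.Normal := by
  obtain ⟨p, k, hp, hk, hpk⟩ := (isPrimePow_nat_iff _).1 (Cfsg.Agent.S0048.result M hM)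
  haveI := Fact.mk hp
  have hle : Cfsg.pResidual p G ≤ M := by
    rw [CL.Grp.pResidual_le_iff]
    intro g hg
    have h1 : M.index.Coprime (orderOf g) := by
      rw [← hpk]
      exact (Nat.Coprime.pow_right k hg).symm
    obtain ⟨m, hm⟩ := exists_pow_eq_self_of_coprime h1
    rw [← hm]
    exact M.pow_mem (hexp _) m
  have hnil : Group.IsNilpotent (G ⧸ Cfsg.pResidual p G) :=
    (CL.Grp.isPGroup_quotient_pResidual p G).isNilpotent
  have h1 : (M.map (QuotientGroup.mk' (Cfsg.pResidual p G))).IsSubnormal :=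
    CL.Grp.isSubnormal_of_isNilpotent _
  have h2 := h1.comap (QuotientGroup.mk' (Cfsg.pResidual p G))
  rw [Subgroup.comap_map_eq, QuotientGroup.ker_mk', sup_eq_left.2 hle] at h2
  obtain ⟨N, hN, hMN, hNt⟩ := h2.exists_normal_and_le_and_lt_top_of_ne hM.1
  have : N = M := by
    by_contra hne
    exact hNt.ne (hM.2 _ (lt_of_le_of_ne hMN (Ne.symm hne)))
  exact this ▸ hN

end Cfsg.Agent.S4261
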