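import Cfsg.Statements.S4263
import Cfsg.Agent.Grp.Fitting
import Cfsg.Agent.Grp.Subnormal
import Cfsg.Agent.Fgs.PiPart

set_option autoImplicit false
open Cfsg

namespace Cfsg.Agent.S4263

open CL.Grp CL.Fgs

theorem pow_relIndex_mem {G : Type*} [Group G] {H K : Subgroup G} (h : SubnIn H K) :
    ∀ x ∈ K, x ^ H.relIndex K ∈ H := by
  induction h with
  | refl K => intro x hx; simpa using hx
  | step H L K hle hn hLK ih =>
    intro x hx
    have h1 := ih x hx
    have : (H.subgroupOf L).Normal := normal_subgroupOf_of_le_normalizer' hn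
    have h2 := Subgroup.pow_index_mem (H := H.subgroupOf L) ⟨_, h1⟩
    rw [Subgroup.mem_subgroupOf] at h2
    rw [← Subgroup.relIndex_mul_relIndex H L K hle hLK.le, mul_comm, pow_mul]
    exact h2

/-- Let G be a finite group. An element x lies in the Fitting subgroup F(G) if and only if, for every subgroup H of G, the power x^[G : H] lies in H. -/
theorem result {G : Type*} [Group G] [Finite G] (x : G) :
    x ∈ Cfsg.fittingSubgroup G ↔ ∀ H : Subgroup G, x ^ H.index ∈ H := by
  constructor
  · intro hx H
    have hs : SubnIn (H ⊓ fittingSubgroup G) (fittingSubgroup G) :=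
      subnIn_of_isNilpotent (fittingSubgroup_isNilpotent G) inf_le_right
    have h1 := pow_relIndex_mem hs x hx
    rw [Subgroup.inf_relIndex_right] at h1
    have hd : H.relIndex (fittingSubgroup G) ∣ H.index := by
      have e1 := card_sup_mul_card_inf_of_normal H (fittingSubgroup G)
      have e2 := card_inf_mul_relIndex H (fittingSubgroup G)
      have e3 := card_mul_relIndex (le_sup_left : H ≤ H ⊔ fittingSubgroup G)
      have e4 : H.relIndex (H ⊔ fittingSubgroup G) = H.relIndex (fittingSubgroup G) := by
        have hp1 : 0 < Nat.card H := Nat.card_pos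
        have hp2 : 0 < Nat.card (H ⊓ fittingSubgroup G : Subgroup G) := Nat.card_pos
        rw [← e3, ← e2] at e1
        have : Nat.card H * Nat.card (H ⊓ fittingSubgroup G : Subgroup G) * H.relIndex (H ⊔ fittingSubgroup G)
            = Nat.card H * Nat.card (H ⊓ fittingSubgroup G : Subgroup G) * H.relIndex (fittingSubgroup G) := by
          linarith
        exact Nat.eq_of_mul_eq_mul_left (Nat.mul_pos hp1 hp2) this
      rw [← e4]
      exact Subgroup.relIndex_dvd_index_of_le le_sup_left
    obtain ⟨k, hk⟩ := hd
    rw [hk, pow_mul]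
    exact H.pow_mem h1.1 k
  · intro h
    apply mem_of_forall_piPart_mem
    intro q hq _
    have := Fact.mk hq
    apply pCore_le_fittingSubgroup q
    rw [pCore_eq_iInf_sylow, Subgroup.mem_iInf]
    intro P
    obtain ⟨k, hk⟩ := Subgroup.mem_zpowers_iff.mp (piPart_mem_zpowers {q} x)
    have h1 : piPart {q} x ^ (P : Subgroup G).index ∈ (P : Subgroup G) := by
      rw [← hk, ← zpow_natCast, ← zpow_mul, mul_comm, zpow_mul, zpow_natCast]
      exact Subgroup.zpow_mem _ (h P) k
    obtain ⟨j, hj⟩ := (isPiElt_singleton_iff hq).mp (isPiElt_piPart {q} x)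
    have hc : (P : Subgroup G).index.Coprime (orderOf (piPart {q} x)) := by
      rw [hj]
      exact Nat.Coprime.pow_right _ ((Nat.Prime.coprime_iff_not_dvd hq).mpr P.not_dvd_index).symm
    obtain ⟨m, hm⟩ := exists_pow_eq_self_of_coprime hc
    rw [← hm]
    exact Subgroup.pow_mem _ h1 m


end Cfsg.Agent.S4263
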