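import Cfsg.Statements.S4264
import Cfsg.Agent.Fgs.KPerm

set_option autoImplicit false
open Cfsg

namespace Cfsg.Agent.S4264

/-- Let G be a subgroup of the symmetric group of degree d ≥ 1. Then G has at most 5^{d−1} conjugacy classes. -/
theorem result (d : ℕ) (hd : 1 ≤ d) (G : Subgroup (Equiv.Perm (Fin d))) : Nat.card (ConjClasses ↥G) ≤ 5 ^ (d - 1) := by
  rcases le_or_gt d 7 with h | h
  · refine ((CL.Fgs.card_conjClasses_le_card G).trans (Nat.le_of_dvd Nat.card_pos
      (Subgroup.card_subgroup_dvd_card G))).trans ?_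
    rw [Nat.card_perm, Nat.card_eq_fintype_card, Fintype.card_fin]
    interval_cases d <;> decide
  refine (CL.KPerm.card_conjClasses_le_four_pow G (Fin d)).trans ?_
  rw [Fintype.card_fin]
  obtain ⟨k, rfl⟩ : ∃ k, d = k + 8 := ⟨d - 8, by omega⟩
  rw [show k + 8 - 1 = k + 7 from rfl, pow_add, pow_add]
  exact Nat.mul_le_mul (Nat.pow_le_pow_left (by norm_num) _) (by norm_num)

end Cfsg.Agent.S4264
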