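import Cfsg.Statements.S4269
import Cfsg.Agent.Grp.SylowIn
import Cfsg.Agent.Grp.Subnormal

set_option autoImplicit false
open Cfsg

namespace Cfsg.Agent.S4269

section Helpers
open Subgroup CL.Grp
open scoped Pointwise commutatorElement

variable {G : Type*} [Group G]

theorem prn_iff (H : Subgroup G) : IsPronormal H ↔
    ∀ g : G, ∃ x ∈ H ⊔ MulAut.conj g • H, MulAut.conj g • H = MulAut.conj x • H := Iff.rfl

theorem conj_eq_iff (H : Subgroup G) (g x : G) :
    MulAut.conj g • H = MulAut.conj x • H ↔ x⁻¹ * g ∈ normalizer (H : Set G) := by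
  rw [← conj_smul_eq_self_iff, ← conj_smul_conj_smul, map_inv, inv_smul_eq_iff]

end Helpers

open Pointwise in
/-- Let G be a finite group, V an abelian normal subgroup and H a subgroup with HV = G. Then H is pronormal in G (H and gHg⁻¹ are conjugate inside the subgroup they generate, for every g) if and only if every H-invariant subgroup U of V satisfies U = N_U(H)·[H, U], that is, U is the join of U ∩ N_G(H) and the commutator subgroup [H, U]. -/
theorem result {G : Type*} [Group G] [Finite G]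
    (V : Subgroup G) [V.Normal] (hV : IsMulCommutative ↥V) (H : Subgroup G) (hHV : H ⊔ V = ⊤) :
    Cfsg.IsPronormal H ↔
      ∀ U : Subgroup G, U ≤ V → (∀ h ∈ H, U.map (MulAut.conj h).toMonoidHom = U) →
        U = (U ⊓ Subgroup.normalizer (H : Set G)) ⊔ ⁅H, U⁆ := by
  rw [prn_iff]
  have hc : ∀ a ∈ V, ∀ b ∈ V, a * b = b * a := fun a ha b hb =>
    congrArg Subtype.val (hV.1.1 ⟨a, ha⟩ ⟨b, hb⟩)
  have hn : V.Normal := inferInstance
  constructor
  · intro h U hUV hU
    have hU' : H ≤ Subgroup.normalizer (U : Set G) := fun x hx =>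
      (CL.Grp.conj_smul_eq_self_iff _ _).1 (hU x hx)
    have hCU : ⁅H, U⁆ ≤ U := Subgroup.le_normalizer_iff_commutator_le_right.1 hU'
    refine le_antisymm (fun u hu => ?_) (sup_le inf_le_left hCU)
    obtain ⟨x, hx, e⟩ := h u
    have hx' : x ∈ ⁅H, U⁆ ⊔ H := by
      refine (sup_le le_sup_right ((CL.Grp.conj_smul_le_iff _ _ _).2 fun y hy => ?_)) hx
      have : u * y * u⁻¹ = (y * u * y⁻¹ * u⁻¹)⁻¹ * y := by group
      rw [this]
      exact Subgroup.mul_mem_sup (inv_mem (Subgroup.commutator_mem_commutator hy hu)) hy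
    have hx2 : x ∈ ((⁅H, U⁆ : Subgroup G) : Set G) * (H : Set G) := by
      rw [← Subgroup.coe_mul_of_right_le_normalizer_left _ _ (Subgroup.normalizer_commutator_ge_left _ _)]
      exact hx'
    obtain ⟨w, hw, y, hy, rfl⟩ := hx2
    rw [← CL.Grp.conj_smul_conj_smul, CL.Grp.conj_smul_eq_of_mem hy, conj_eq_iff] at e
    have : u = w * (w⁻¹ * u) := by group
    rw [this]
    exact mul_mem (Subgroup.mem_sup_right hw)
      (Subgroup.mem_sup_left ⟨U.mul_mem (U.inv_mem (hCU hw)) hu, e⟩)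
  · intro h g
    have hg : g ∈ (V : Set G) * (H : Set G) := by
      rw [← Subgroup.normal_mul, sup_comm, hHV]; exact Subgroup.mem_top g
    obtain ⟨v, hv, y, hy, rfl⟩ := hg
    rw [← CL.Grp.conj_smul_conj_smul, CL.Grp.conj_smul_eq_of_mem hy]
    set L := H ⊔ MulAut.conj v • H with hL
    let U : Subgroup G :=
      { carrier := {u | u ∈ V ∧ ∀ x ∈ H, x * u * x⁻¹ * u⁻¹ ∈ L}
        one_mem' := ⟨one_mem _, fun x _ => by simp⟩
        mul_mem' := by
          rintro a b ⟨ha, ha'⟩ ⟨hb, hb'⟩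
          refine ⟨mul_mem ha hb, fun x hx => ?_⟩
          have h1 := hc _ (inv_mem ha) _ (mul_mem (hn.conj_mem b hb x) (inv_mem hb))
          have : x * (a * b) * x⁻¹ * (a * b)⁻¹ = x * a * x⁻¹ * (x * b * x⁻¹ * b⁻¹ * a⁻¹) := by group
          rw [this, ← h1, ← mul_assoc]
          exact mul_mem (ha' x hx) (hb' x hx)
        inv_mem' := by
          rintro a ⟨ha, ha'⟩
          refine ⟨inv_mem ha, fun x hx => ?_⟩
          have h1 := hc _ ha _ (inv_mem (hn.conj_mem a ha x))
          have : x * a⁻¹ * x⁻¹ * a⁻¹⁻¹ = (x * a * x⁻¹)⁻¹ * a := by group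
          rw [this, ← h1]
          simpa [mul_assoc] using inv_mem (ha' x hx) }
    have hUH : ∀ x ∈ H, MulAut.conj x • U ≤ U := by
      intro x hx
      refine (CL.Grp.conj_smul_le_iff _ _ _).2 fun u hu => ⟨hn.conj_mem u hu.1 x, fun z hz => ?_⟩
      have : z * (x * u * x⁻¹) * z⁻¹ * (x * u * x⁻¹)⁻¹ =
          (z * x * u * (z * x)⁻¹ * u⁻¹) * (x * u * x⁻¹ * u⁻¹)⁻¹ := by group
      rw [this]
      exact mul_mem (hu.2 _ (mul_mem hz hx)) (inv_mem (hu.2 x hx))
    have hvU : v ∈ U := ⟨hv, fun x hx => by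
      have : x * v * x⁻¹ * v⁻¹ = x * (v * x⁻¹ * v⁻¹) := by group
      rw [this]
      exact Subgroup.mul_mem_sup hx (CL.Grp.conj_mem_conj_smul v (inv_mem hx))⟩
    have h1 := h U (fun u hu => hu.1) fun x hx =>
      (CL.Grp.conj_smul_eq_self_iff _ _).2 (CL.Grp.le_normalizer_iff_conj_smul_le.2 hUH hx)
    have hCL : ⁅H, U⁆ ≤ L := Subgroup.commutator_le.2 fun x hx u hu => hu.2 x hx
    have hCV : ⁅H, U⁆ ≤ V := (Subgroup.commutator_mono le_top (show U ≤ V from fun u hu => hu.1)).trans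
      (Subgroup.commutator_le_right _ _)
    have h2 : v ∈ ((⁅H, U⁆ : Subgroup G) : Set G) * ((U ⊓ Subgroup.normalizer (H : Set G) : Subgroup G) : Set G) := by
      rw [← Subgroup.coe_mul_of_right_le_normalizer_left, sup_comm, ← h1]
      · exact hvU
      · exact inf_le_left.trans (Subgroup.normalizer_commutator_ge_right _ _)
    obtain ⟨w, hw, n, hn', e⟩ := h2
    exact ⟨w, hCL hw, (conj_eq_iff _ _ _).2 (by rw [← e]; simpa using hn'.2)⟩

end Cfsg.Agent.S4269
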