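import Cfsg.Statements.S4270
import Cfsg.Agent.S4269
import Cfsg.Agent.Grp.Hall

set_option autoImplicit false
open Cfsg

namespace Cfsg.Agent.S4270

section Helpers
open Subgroup CL.Grp
open scoped Pointwise

variable {G : Type*} [Group G]

/-- pronormality of `H` relative to `K` -/
def Prn (H K : Subgroup G) : Prop :=
  ∀ g ∈ K, ∃ x ∈ H ⊔ MulAut.conj g • H, MulAut.conj g • H = MulAut.conj x • H

theorem prn_top {H : Subgroup G} : Prn H ⊤ ↔ IsPronormal H :=
  ⟨fun h g => h g (mem_top g), fun h g _ => h g⟩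

theorem Prn.map {G' : Type*} [Group G'] (f : G →* G') {H K : Subgroup G} (h : Prn H K) :
    Prn (H.map f) (K.map f) := by
  rintro _ ⟨g, hg, rfl⟩
  obtain ⟨x, hx, e⟩ := h g hg
  refine ⟨f x, ?_, by rw [← hall_map_conj, ← hall_map_conj, e]⟩
  rw [← hall_map_conj, ← Subgroup.map_sup]
  exact mem_map_of_mem f hx

theorem Prn.of_map {G' : Type*} [Group G'] (f : G →* G') {H K : Subgroup G} (hk : f.ker ≤ H)
    (h : Prn (H.map f) (K.map f)) : Prn H K := by
  intro g hg
  obtain ⟨x, hx, e⟩ := h (f g) (mem_map_of_mem f hg)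
  rw [← hall_map_conj, ← Subgroup.map_sup] at hx
  obtain ⟨x, hx, rfl⟩ := hx
  refine ⟨x, hx, ?_⟩
  have key : ∀ y : G, MulAut.conj y • H = (MulAut.conj (f y) • H.map f).comap f := fun y => by
    rw [hall_comap_conj, comap_map_eq_self hk]
  rw [key, key, e]

theorem prn_subtype {K : Subgroup G} {H : Subgroup K} : Prn (H.map K.subtype) K ↔ IsPronormal H := by
  rw [← prn_top]
  refine ⟨fun h => Prn.of_map K.subtype (by simp) ?_, fun h => ?_⟩
  · rwa [← MonoidHom.range_eq_map, range_subtype]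
  · have := h.map K.subtype
    rwa [← MonoidHom.range_eq_map, range_subtype] at this

theorem prn_of_conj {H : Subgroup G} (a : G) (h : IsPronormal (MulAut.conj a • H)) : IsPronormal H := by
  have := (prn_top.2 h).map (MulAut.conj a⁻¹).toMonoidHom
  rw [← conj_smul_eq_map, ← conj_smul_eq_map, conj_smul_conj_smul, inv_mul_cancel, map_one, one_smul]
    at this
  exact fun g => this g ((mem_conj_smul_iff _ _ _).2 (mem_top _))

variable [Finite G] {p : ℕ} [Fact p.Prime]

/-- all overgroups of Sylow subgroups are pronormal -/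
def Yp (p : ℕ) (G : Type*) [Group G] : Prop :=
  ∀ K : Subgroup G, (∃ P : Sylow p G, (P : Subgroup G) ≤ K) → IsPronormal K

omit [Finite G] in
theorem Yp.prn {A : Subgroup G} (h : Yp p A) {B T : Subgroup G} (hT : IsSylowIn p T A) (h1 : T ≤ B)
    (h2 : B ≤ A) : Prn B A := by
  rw [← map_subgroupOf_eq_of_le h2, prn_subtype]
  exact h _ ⟨hT.toSylow, comap_mono h1⟩

theorem exists_sylow_le_normalizer {A T : Subgroup G} [A.Normal] (hT : IsSylowIn p T A) :
    ∃ S : Sylow p G, (S : Subgroup G) ⊓ A = T ∧ (S : Subgroup G) ≤ normalizer (T : Set G) := by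
  obtain ⟨S, hS⟩ := hT.exists_sylow_inf_eq
  refine ⟨S, hS, hS ▸ le_trans (le_inf le_normalizer ?_) inf_normalizer_le_normalizer_inf⟩
  rw [normalizer_eq_top]; exact le_top

theorem yp_quot_iff {N : Type*} [Group N] [Finite N] (T : Subgroup N) [T.Normal] (hT : IsPGroup p T) :
    Yp p (N ⧸ T) ↔ Yp p N := by
  constructor
  · rintro h K ⟨P, hP⟩
    rw [← prn_top]
    refine Prn.of_map (QuotientGroup.mk' T) ?_ fun g _ => h _
      ⟨P.mapSurjective (QuotientGroup.mk'_surjective T), map_mono hP⟩ g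
    rw [QuotientGroup.ker_mk']
    exact (hT.le_sylow_of_normal P).trans hP
  · rintro h K ⟨P, hP⟩
    have h1 := (prn_top.2 (h (K.comap (QuotientGroup.mk' T))
      ⟨P.comapOfKerIsPGroup _ (by rwa [QuotientGroup.ker_mk']) (by simp), comap_mono hP⟩)).map
      (QuotientGroup.mk' T)
    rwa [map_comap_eq_self_of_surjective (QuotientGroup.mk'_surjective T),
      map_top_of_surjective _ (QuotientGroup.mk'_surjective T), prn_top] at h1

theorem Yp.sub (h : Yp p G) {N : Subgroup G} (S : Sylow p G) (hS : (S : Subgroup G) ≤ N) : Yp p N := by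
  rintro K ⟨P, hP⟩
  obtain ⟨Q, hQ⟩ := isSylowIn_top_iff.1 ((isSylowIn_top S).of_card_le
    (isSylowIn_map_subtype P).isPGroup le_top
    ((isSylowIn_of_le S hS).card_eq (isSylowIn_map_subtype P)).le)
  exact prn_subtype.1 fun g _ => h _ ⟨Q, hQ ▸ map_mono hP⟩ g

omit [Finite G] [Fact p.Prime] in
theorem map_normalizer_of_prn {A K : Subgroup G} [A.Normal] (h : IsPronormal K) :
    (normalizer (K : Set G)).map (QuotientGroup.mk' A) =
      normalizer ((K.map (QuotientGroup.mk' A) : Subgroup (G ⧸ A)) : Set (G ⧸ A)) := by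
  refine le_antisymm (le_normalizer_map _) fun g hg => ?_
  obtain ⟨g, rfl⟩ := QuotientGroup.mk'_surjective A g
  obtain ⟨x, hx, e⟩ := (S4269.prn_iff K).1 h g
  have h1 := mem_map_of_mem (QuotientGroup.mk' A) hx
  rw [Subgroup.map_sup, hall_map_conj, (conj_smul_eq_self_iff _ _).2 hg, sup_idem] at h1
  obtain ⟨k, hk, hkx⟩ := h1
  refine ⟨k * (x⁻¹ * g), mul_mem (le_normalizer hk) ((S4269.conj_eq_iff _ _ _).1 e), ?_⟩
  simp only [map_mul, map_inv, hkx, mul_inv_cancel_left]

theorem yp_of {A T : Subgroup G} [hAn : A.Normal] (hA : Yp p A) (hQ : Yp p (G ⧸ A))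
    (hT : IsSylowIn p T A) (hN : Yp p (normalizer (T : Set G)))
    (h2 : ∀ K : Subgroup G, (∃ P : Sylow p G, (P : Subgroup G) ≤ K) →
      (normalizer (K : Set G)).map (QuotientGroup.mk' A) =
        normalizer ((K.map (QuotientGroup.mk' A) : Subgroup (G ⧸ A)) : Set (G ⧸ A))) : Yp p G := by
  suffices H : ∀ (K : Subgroup G) (S : Sylow p G), (S : Subgroup G) ≤ K → (S : Subgroup G) ⊓ A = T →
      IsPronormal K by
    rintro K ⟨S, hS⟩
    obtain ⟨a, ha, e⟩ := (isSylowIn_inf_normal S A).exists_conj_eq hT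
    refine prn_of_conj a (H _ (a • S) (pointwise_smul_le_pointwise_smul_iff.2 hS) ?_)
    rw [← e, Subgroup.smul_inf, conj_smul_eq_of_mem ha]
    rfl
  intro K S hS hST
  have hAN : ∀ x : G, MulAut.conj x • A = A := fun x =>
    (conj_smul_eq_self_iff _ _).2 (by rw [normalizer_eq_top]; exact mem_top x)
  have red : ∀ g x y : G, x ∈ K ⊔ MulAut.conj g • K → MulAut.conj g • K = MulAut.conj (x * y) • K →
      (∃ z ∈ K ⊔ MulAut.conj y • K, MulAut.conj y • K = MulAut.conj z • K) →
      ∃ z ∈ K ⊔ MulAut.conj g • K, MulAut.conj g • K = MulAut.conj z • K := by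
    rintro g x y hx e ⟨z, hz, e'⟩
    refine ⟨x * z, mul_mem hx ((sup_le le_sup_left ?_ : K ⊔ MulAut.conj y • K ≤ _) hz), by
      rw [e, ← conj_smul_conj_smul, e', conj_smul_conj_smul]⟩
    have : MulAut.conj y • K = MulAut.conj x⁻¹ • MulAut.conj g • K := by
      rw [e, conj_smul_conj_smul, inv_mul_cancel_left]
    rw [this]
    exact conj_smul_le_of_mem le_sup_right (inv_mem hx)
  have hTB : T ≤ K ⊓ A := hST ▸ inf_le_inf_right _ hS
  have hTB' : IsSylowIn p T (K ⊓ A) := hT.of_le hTB inf_le_right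
  have hKB : K ≤ normalizer ((K ⊓ A : Subgroup G) : Set G) := fun k hk => by
    rw [← conj_smul_eq_self_iff, Subgroup.smul_inf, conj_smul_eq_of_mem hk, hAN]
  have hSN : (S : Subgroup G) ≤ normalizer (T : Set G) := fun s hs => by
    rw [← conj_smul_eq_self_iff, ← hST, Subgroup.smul_inf, conj_smul_eq_of_mem hs, hAN]
  have hK : K = (K ⊓ A) ⊔ (K ⊓ normalizer (T : Set G)) := by
    refine le_antisymm (fun k hk => ?_) (sup_le inf_le_left inf_le_left)
    obtain ⟨b, hb, hbk⟩ := hTB'.frattini hKB hk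
    simpa using mul_mem_sup (inv_mem hb) (show b * k ∈ K ⊓ normalizer (T : Set G) from
      ⟨mul_mem hb.1 hk, hbk⟩)
  have step3 : ∀ y ∈ normalizer ((K ⊓ A : Subgroup G) : Set G),
      ∃ z ∈ K ⊔ MulAut.conj y • K, MulAut.conj y • K = MulAut.conj z • K := by
    intro y hy
    obtain ⟨b, hb, hby⟩ := hTB'.frattini le_rfl hy
    refine red y b⁻¹ (b * y) (mem_sup_left (inv_mem hb.1)) (by rw [inv_mul_cancel_left]) ?_
    have hby' : b * y ∈ normalizer ((K ⊓ A : Subgroup G) : Set G) := mul_mem (le_normalizer hb) hy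
    obtain ⟨z, hz, e⟩ := hN.prn (isSylowIn_of_le S hSN) (le_inf hS hSN) inf_le_right _ hby
    have hz' : z ∈ K ⊔ MulAut.conj (b * y) • K :=
      sup_le_sup inf_le_left (pointwise_smul_le_pointwise_smul_iff.2 inf_le_left) hz
    refine ⟨z, hz', ?_⟩
    have hzB : z ∈ normalizer ((K ⊓ A : Subgroup G) : Set G) :=
      sup_le hKB (conj_smul_le_of_mem hKB hby') hz'
    rw [hK, Subgroup.smul_sup, Subgroup.smul_sup, e, (conj_smul_eq_self_iff _ _).2 hby',
      (conj_smul_eq_self_iff _ _).2 hzB]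
  have step2 : ∀ a ∈ A, ∃ z ∈ K ⊔ MulAut.conj a • K, MulAut.conj a • K = MulAut.conj z • K := by
    intro a ha
    obtain ⟨x, hx, e⟩ := hA.prn hT hTB inf_le_right a ha
    exact red a x (x⁻¹ * a) (sup_le_sup inf_le_left (pointwise_smul_le_pointwise_smul_iff.2 inf_le_left) hx)
      (by rw [mul_inv_cancel_left]) (step3 _ ((S4269.conj_eq_iff _ _ _).1 e))
  intro g
  obtain ⟨x, hx, e⟩ := (S4269.prn_iff _).1 (hQ (K.map (QuotientGroup.mk' A))
    ⟨S.mapSurjective (QuotientGroup.mk'_surjective A), map_mono hS⟩) (QuotientGroup.mk' A g)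
  rw [← hall_map_conj, ← Subgroup.map_sup] at hx
  obtain ⟨x, hx, rfl⟩ := hx
  rw [S4269.conj_eq_iff, ← h2 K ⟨S, hS⟩, ← map_inv, ← map_mul] at e
  obtain ⟨n, hn, e⟩ := e
  have ha : x⁻¹ * g * n⁻¹ ∈ A := by
    rw [← QuotientGroup.ker_mk' A, MonoidHom.mem_ker, map_mul, ← e, map_inv, mul_inv_cancel]
  refine red g x _ hx ?_ (step2 _ ha)
  rw [S4269.conj_eq_iff]
  simpa [mul_assoc] using hn

end Helpers

/-- Let p be a prime and G a finite group with a normal subgroup A such that, both in A and in G/A, every subgroup containing a Sylow p-subgroup of that group is pronormal in that group. Let T be a Sylow p-subgroup of A. Then every subgroup of G containing a Sylow p-subgroup of G is pronormal in G if and only if (i) every subgroup of N_G(T)/T containing a Sylow p-subgroup of N_G(T)/T is pronormal there, and (ii) for every subgroup H of G containing a Sylow p-subgroup of G, the image of N_G(H) in G/A is the full normalizer of the image of H. (Pronormal: H and gHg⁻¹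 are conjugate inside the subgroup they generate, for every g.) -/
theorem result {G : Type*} [Group G] [Finite G] {p : ℕ} [Fact p.Prime]
    (A : Subgroup G) [A.Normal] (hA : (∀ K : Subgroup ↥A, (∃ P : Sylow p ↥A, (P : Subgroup ↥A) ≤ K) → Cfsg.IsPronormal K)) (hQ : (∀ K : Subgroup (G ⧸ A), (∃ P : Sylow p (G ⧸ A), (P : Subgroup (G ⧸ A)) ≤ K) → Cfsg.IsPronormal K))
    (T : Subgroup G) (hT : ∃ P : Sylow p ↥A, (P : Subgroup ↥A).map A.subtype = T) [(T.subgroupOf (Subgroup.normalizer (T : Set G))).Normal] :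
    (∀ K : Subgroup G, (∃ P : Sylow p G, (P : Subgroup G) ≤ K) → Cfsg.IsPronormal K) ↔
      ((∀ K : Subgroup (↥(Subgroup.normalizer (T : Set G)) ⧸ T.subgroupOf (Subgroup.normalizer (T : Set G))), (∃ P : Sylow p (↥(Subgroup.normalizer (T : Set G)) ⧸ T.subgroupOf (Subgroup.normalizer (T : Set G))), (P : Subgroup (↥(Subgroup.normalizer (T : Set G)) ⧸ T.subgroupOf (Subgroup.normalizer (T : Set G)))) ≤ K) → Cfsg.IsPronormal K) ∧
        ∀ K : Subgroup G, (∃ P : Sylow p G, (P : Subgroup G) ≤ K) →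
          (Subgroup.normalizer (K : Set G)).map (QuotientGroup.mk' A) = Subgroup.normalizer ((K.map (QuotientGroup.mk' A) : Subgroup (G ⧸ A)) : Set (G ⧸ A))) := by
  have hT' := CL.Grp.isSylowIn_iff_exists.2 hT
  have hq := yp_quot_iff (p := p) (T.subgroupOf (Subgroup.normalizer (T : Set G))) hT'.isPGroup.comap_subtype
  constructor
  · intro h
    obtain ⟨S, -, hS⟩ := exists_sylow_le_normalizer hT'
    exact ⟨hq.2 (Yp.sub h S hS), fun K hK => map_normalizer_of_prn (h K hK)⟩
  · rintro ⟨h1, h2⟩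
    exact yp_of hA hQ hT' (hq.1 h1) h2

end Cfsg.Agent.S4270
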