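import Cfsg.Statements.S4271
import Cfsg.Agent.S4270

set_option autoImplicit false
open Cfsg

namespace Cfsg.Agent.S4271

section Helpers
open Subgroup CL.Grp
open scoped Pointwise

variable {G : Type*} [Group G] [Finite G] {p : ℕ} [Fact p.Prime]

theorem abnormal (hQ : ∀ P : Sylow p G, normalizer ((P : Subgroup G) : Set G) = P) {K : Subgroup G}
    {P : Sylow p G} (hP : (P : Subgroup G) ≤ K) (g : G) : g ∈ K ⊔ MulAut.conj g • K := by
  obtain ⟨x, hx, e⟩ := (isSylowIn_of_le P (hP.trans le_sup_left)).exists_conj_eq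
    (isSylowIn_of_le (g • P) ((pointwise_smul_le_pointwise_smul_iff.2 hP).trans
      (le_sup_right : MulAut.conj g • K ≤ K ⊔ MulAut.conj g • K)))
  have h1 : x⁻¹ * g ∈ normalizer ((P : Subgroup G) : Set G) := (S4269.conj_eq_iff _ _ _).1 e.symm
  rw [hQ] at h1
  simpa using mul_mem hx (mem_sup_left (hP h1))

end Helpers

/-- Let p be a prime and G a finite group with a normal subgroup A such that every subgroup of A containing a Sylow p-subgroup of A is pronormal in A, and the Sylow p-subgroups of G/A are self-normalizing. Let T be a Sylow p-subgroup of A. Then every subgroup of G containing a Sylow p-subgroup of G is pronormal in G if and only if every subgroup of N_G(T)/T containing a Sylow p-subgroup of N_G(T)/T is pronormal in N_G(T)/T. (Pronormal: H and gHg⁻¹ are conjugate inside the subgroup they generate, for every g.) -/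
theorem result {G : Type*} [Group G] [Finite G] {p : ℕ} [Fact p.Prime]
    (A : Subgroup G) [A.Normal] (hA : (∀ K : Subgroup ↥A, (∃ P : Sylow p ↥A, (P : Subgroup ↥A) ≤ K) → Cfsg.IsPronormal K))
    (hQ : ∀ P : Sylow p (G ⧸ A), Subgroup.normalizer ((P : Subgroup (G ⧸ A)) : Set (G ⧸ A)) = P)
    (T : Subgroup G) (hT : ∃ P : Sylow p ↥A, (P : Subgroup ↥A).map A.subtype = T) [(T.subgroupOf (Subgroup.normalizer (T : Set G))).Normal] :
    (∀ K : Subgroup G, (∃ P : Sylow p G, (P : Subgroup G) ≤ K) → Cfsg.IsPronormal K) ↔ (∀ K : Subgroup (↥(Subgroup.normalizer (T : Set G)) ⧸ T.subgroupOf (Subgroup.normalizer (T : Set G))), (∃ P : Sylow p (↥(Subgroup.normalizer (T : Set G)) ⧸ T.subgroupOf (Subgroup.normalizer (T : Set G))), (P : Subgroup (↥(Subgroup.normalizer (T : Set G)) ⧸ T.subgroupOf (Subgroup.normalizer (T : Set G)))) ≤ K) → Cfsg.IsPronormal K) := by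
  have hT' := CL.Grp.isSylowIn_iff_exists.2 hT
  have hq := S4270.yp_quot_iff (p := p) (T.subgroupOf (Subgroup.normalizer (T : Set G)))
    hT'.isPGroup.comap_subtype
  constructor
  · intro h
    obtain ⟨S, -, hS⟩ := S4270.exists_sylow_le_normalizer hT'
    exact hq.2 (S4270.Yp.sub h S hS)
  · intro h1
    refine S4270.yp_of hA (fun K ⟨P, hP⟩ g => ⟨g, abnormal hQ hP g, rfl⟩) hT' (hq.1 h1) ?_
    rintro K ⟨P, hP⟩
    refine le_antisymm (Subgroup.le_normalizer_map _) fun g hg => ?_
    have := abnormal hQ (P := P.mapSurjective (QuotientGroup.mk'_surjective A))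
      (Subgroup.map_mono hP) g
    rw [(CL.Grp.conj_smul_eq_self_iff _ _).2 hg, sup_idem] at this
    exact Subgroup.map_mono Subgroup.le_normalizer this

end Cfsg.Agent.S4271
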