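import Cfsg.Statements.S4321
import Cfsg.Agent.Fgs.ClassGraph

set_option autoImplicit false
open Cfsg

namespace Cfsg.Agent.S4321

open CL.Fgs CL.Grp Subgroup

theorem aux {G : Type*} [Group G] [Finite G] {p : ℕ} [hp : Fact p.Prime]
    (hZ : ¬ p ∣ Nat.card ↥(center G)) {u v : G} (hu : orderOf u = p) (hv : orderOf v = p)
    (hpv : ¬ p ∣ cs(v))
    (h : ∀ w : G, p ∣ orderOf w → (cs(w)).Coprime cs(u) ∨ (cs(w)).Coprime cs(v)) : False := by
  have hZ' : ∀ w : G, IsPiElt {p} w → w ∈ center G → w = 1 := fun w hw hwZ =>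
    hw.eq_one (isPiElt_compl_of_mem hZ hwZ)
  have hup : IsPiElt {p} u := (isPiElt_singleton_iff hp.out).2 ⟨1, by rw [hu, pow_one]⟩
  have hvp : IsPiElt {p} v := (isPiElt_singleton_iff hp.out).2 ⟨1, by rw [hv, pow_one]⟩
  have hne : ∀ w : G, orderOf w = p → w ≠ 1 := fun w hw e => hp.out.ne_one (by rw [← hw, e, orderOf_one])
  have hu1 : cs(u) ≠ 1 := fun e => hne u hu (hZ' u hup (cs_eq_one_iff.1 e))
  have hv1 : cs(v) ≠ 1 := fun e => hne v hv (hZ' v hvp (cs_eq_one_iff.1 e))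
  have hsing : ∀ w : G, IsPiElt {p} w → w ≠ 1 → p ∣ orderOf w := fun w hw h1 => by
    by_contra hc
    exact h1 (hw.eq_one ((isPiElt_compl_singleton_iff hp.out).2 hc))
  have hcopo : ∀ w x : G, IsPiElt {p} w → ¬ p ∣ cs(x) → (orderOf w).Coprime cs(x) :=
    fun w x hw hx => IsPiNum.coprime hw ((isPiNum_compl_singleton_iff hp.out).2 hx)
  have huv : (cs(u)).Coprime cs(v) :=
    (h u (hu ▸ dvd_rfl)).resolve_left fun e => hu1 ((Nat.coprime_self _).1 e)
  -- a `p`-element whose class is not enlarged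
  have hT : ∀ s y : G, IsPiElt {p} s → ¬ p ∣ cs(y) → (cs(y)).Coprime cs(s) →
      cs(s * y) ∣ cs(y) → cs(s) = 1 := fun s y hs hy hc hd => cs_eq_one_iff.2 <|
    mem_center_of_cs_le (π := {q | q ∣ cs(y)}) (hs.mono (Set.singleton_subset_iff.2 hy))
      (isPiNum_compl_primes hc) (isPiNum_primes _) (Nat.le_of_dvd (cs_pos y) hd)
  have hdiv : ∀ s y : G, (cs(s)).Coprime cs(y) → (cs(s * y)).Coprime cs(s) → cs(s * y) ∣ cs(y) :=
    fun s y h1 h2 => h2.dvd_of_dvd_mul_left (cs_mul_dvd_of_coprime_cs h1)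
  have hinv : ∀ s y : G, (cs(s)).Coprime cs(y) → s * y = 1 → cs(s) = 1 := fun s y h1 e => by
    rw [eq_inv_of_mul_eq_one_right e, cs_inv] at h1
    exact (Nat.coprime_self _).1 h1
  have hpu : p ∣ cs(u) := by
    by_contra hpu
    have hc := commute_of_coprime_cs huv (hcopo u v hup hpv)
    rcases h (u * v) (hsing _ (hup.mul hvp hc) fun e => hu1 (hinv u v huv e)) with e | e
    · exact hu1 (hT u v hup hpv huv.symm (hdiv u v huv e))
    · rw [hc.eq] at e
      exact hv1 (hT v u hvp hpu huv (hdiv v u huv.symm e))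
  have hstar : ∀ w : G, p ∣ orderOf w → p ∣ cs(w) → (cs(w)).Coprime cs(v) := fun w h1 h2 =>
    (h w h1).resolve_left fun e => hp.out.ne_one (Nat.eq_one_of_dvd_coprimes e h2 hpu)
  have hall : ∀ w : G, IsPiElt {p} w → w ∈ cent(v) := fun w hw => by
    have hcv : ∀ w : G, IsPiElt {p} w → (cs(w)).Coprime cs(v) → w ∈ cent(v) := fun w hw hc =>
      mem_cent.2 (commute_of_coprime_cs hc (hcopo w v hw hpv))
    by_cases h1 : w = 1
    · rw [h1]; exact one_mem _
    refine (h w (hsing w hw h1)).elim (fun e => ?_) (hcv w hw)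
    have hpw : ¬ p ∣ cs(w) := fun h2 => hp.out.ne_one (Nat.eq_one_of_dvd_coprimes e h2 hpu)
    have hc := commute_of_coprime_cs e.symm (hcopo u w hup hpw)
    rcases h (u * w) (hsing _ (hup.mul hw hc) fun e' => hu1 (hinv u w e.symm e')) with e' | e'
    · exact absurd (hT u w hup hpw e (hdiv u w e.symm e')) hu1
    · have := mul_mem (inv_mem (hcv u hup huv)) (hcv _ (hup.mul hw hc) e')
      rwa [inv_mul_cancel_left] at this
  obtain ⟨P, K, hP, hK, hPK⟩ := exists_direct_in (p := p) (C := cent(v)) fun b hb hb' hd => by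
    have hc := mem_cent'.1 hb
    have hcop := hvp.coprime hb'
    have h1 := hstar (v * b) (by rw [hc.orderOf_mul_eq_mul_orderOf_of_coprime hcop, hv]; simp)
      (by rw [cs_mul_of_coprime' hc hcop]; exact hd.mul_right _)
    exact hv1 (Nat.eq_one_of_dvd_coprimes h1 (cs_dvd_cs_mul_of_coprime hc hcop) dvd_rfl)
  have hP' : ∀ w : G, IsPiElt {p} w → w ∈ P := fun w hw => (hP w).2 ⟨hall w hw, hw⟩
  obtain ⟨t, ht, htd⟩ := Nat.exists_prime_and_dvd hv1
  haveI := Fact.mk ht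
  obtain ⟨T⟩ : Nonempty (Sylow t G) := inferInstance
  obtain ⟨S⟩ : Nonempty (Sylow p G) := inferInstance
  have hSP : (S : Subgroup G) ≤ P := fun s hs => hP' s (isPiElt_singleton_of_mem S.isPGroup' hs)
  have hle : P ≤ centralizer ((T : Subgroup G) : Set G) := by
    refine le_of_two_cover (U := centralizer (P : Set G)) inf_le_left (fun w hw hwU => ?_)
      fun hle => not_dvd_cs_iff.2 ⟨S, hSP.trans (le_cent_iff.2 (hle (hP' u hup)))⟩ hpu
    have hwp := ((hP w).1 hw).2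
    have h1 : p ∣ cs(w) := by
      by_contra hc
      obtain ⟨S', hS'⟩ := not_dvd_cs_iff.1 hc
      refine hwU (le_cent_iff.1 fun a ha => hS' ?_)
      haveI : P.Normal := ⟨fun a ha g => hP' _ (((hP a).1 ha).2.conj g)⟩
      exact pCore_le_sylow S' (le_pCore (isPGroup_of_forall_isPiElt fun a ha => ((hP a).1 ha).2) ha)
    have h2 := hstar w (hsing w hwp fun e => hwU (e ▸ one_mem _)) h1
    obtain ⟨g, hg⟩ := exists_conj_mem_centralizer_of_not_dvd_cs
      (fun hd => ht.ne_one (Nat.eq_one_of_dvd_coprimes h2 hd htd)) T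
    obtain ⟨k, hk, e⟩ := exists_conj_eq_of_coprime h2.symm g
    refine ⟨piPart {p} k, hP' _ (isPiElt_piPart _ _), ?_⟩
    have h3 := hPK hw _ ((hK _).2 ⟨piPart_mem hk, isPiElt_piPart {p}ᶜ k⟩)
    rw [← e, ← piPart_mul_piPart_compl {p} k] at hg
    convert hg using 1
    calc _ = piPart {p} k * (w * piPart {p}ᶜ k) * (piPart {p} k * piPart {p}ᶜ k)⁻¹ := by group
      _ = _ := by rw [← h3]; group
  exact not_dvd_cs_iff.2 ⟨T, le_cent_iff.2 (hle (hP' v hvp))⟩ htd


/-- Let `G` be a finite group and `p` a prime not dividing the order of the centre of `G`. Consider the primes dividing the size of some conjugacy class of a `p`-singular element (an element of order divisible by `p`), two of them adjacent when their product divides such a class size. Then any two distinct such primes are joined by a path with at most 3 edges (the graph is connected of diameter at most 3). -/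
theorem result {G : Type*} [Group G] [Finite G] (p : ℕ) [Fact p.Prime]
    (hZ : ¬ p ∣ Nat.card ↥(Subgroup.center G)) (r s : ℕ) (hr : (r.Prime ∧ ∃ x : G, p ∣ orderOf x ∧ r ∣ (Subgroup.centralizer ({x} : Set G)).index)) (hs : (s.Prime ∧ ∃ x : G, p ∣ orderOf x ∧ s ∣ (Subgroup.centralizer ({x} : Set G)).index)) (hrs : r ≠ s) :
    (∃ x : G, p ∣ orderOf x ∧ r * s ∣ (Subgroup.centralizer ({x} : Set G)).index) ∨ (∃ t : ℕ, (t.Prime ∧ ∃ x : G, p ∣ orderOf x ∧ t ∣ (Subgroup.centralizer ({x} : Set G)).index) ∧ t ≠ r ∧ t ≠ s ∧ (∃ x : G, p ∣ orderOf x ∧ r * t ∣ (Subgroup.centralizer ({x} : Set G)).index) ∧ (∃ x : G, p ∣ orderOf x ∧ t * s ∣ (Subgroup.centralizer ({x} : Set G)).index)) ∨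
      (∃ t u : ℕ, (t.Prime ∧ ∃ x : G, p ∣ orderOf x ∧ t ∣ (Subgroup.centralizer ({x} : Set G)).index) ∧ (u.Prime ∧ ∃ x : G, p ∣ orderOf x ∧ u ∣ (Subgroup.centralizer ({x} : Set G)).index) ∧ t ≠ r ∧ u ≠ s ∧ t ≠ u ∧ (∃ x : G, p ∣ orderOf x ∧ r * t ∣ (Subgroup.centralizer ({x} : Set G)).index) ∧ (∃ x : G, p ∣ orderOf x ∧ t * u ∣ (Subgroup.centralizer ({x} : Set G)).index) ∧ (∃ x : G, p ∣ orderOf x ∧ u * s ∣ (Subgroup.centralizer ({x} : Set G)).index)) := by
  have hp : p.Prime := Fact.out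
  obtain ⟨hr, g, hg, hrg⟩ := hr
  obtain ⟨hs, k, hk, hsk⟩ := hs
  obtain ⟨u, hug, hu⟩ := exists_orderOf_eq_prime_mem_zpowers hp hg
  obtain ⟨v, hvk, hv⟩ := exists_orderOf_eq_prime_mem_zpowers hp hk
  have hE : ∀ {a b : ℕ} (g : G), p ∣ orderOf g → a.Prime → b.Prime → a ∣ cs(g) → b ∣ cs(g) →
      (a = b ∨ ∃ g : G, p ∣ orderOf g ∧ a * b ∣ cs(g)) := fun g hg ha hb h1 h2 =>
    (eq_or_mul_dvd ha hb h1 h2).imp id fun h => ⟨g, hg, h⟩
  by_cases h : ∀ w : G, p ∣ orderOf w → (cs(w)).Coprime cs(u) ∨ (cs(w)).Coprime cs(v)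
  · exfalso
    by_cases hpv : p ∣ cs(v)
    · refine aux hZ hv hu (fun hpu => ?_) fun w hw => (h w hw).symm
      rcases h u (hu ▸ dvd_rfl) with e | e
      · exact hp.ne_one (Nat.eq_one_of_dvd_coprimes e hpu hpu)
      · exact hp.ne_one (Nat.eq_one_of_dvd_coprimes e hpu hpv)
    · exact aux hZ hu hv hpv h
  push Not at h
  obtain ⟨w, hw, h1, h2⟩ := h
  obtain ⟨a, ha, haw, hau⟩ := exists_prime_dvd_of_not_coprime h1
  obtain ⟨b, hb, hbw, hbv⟩ := exists_prime_dvd_of_not_coprime h2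
  refine (path_three (V := fun a => a.Prime ∧ ∃ g : G, p ∣ orderOf g ∧ a ∣ cs(g))
    (A := fun a b => ∃ g : G, p ∣ orderOf g ∧ a * b ∣ cs(g)) hrs ⟨ha, w, hw, haw⟩ ⟨hb, w, hw, hbw⟩
    (hE g hg hr ha hrg (hau.trans (cs_dvd_of_mem_zpowers hug))) (hE w hw ha hb haw hbw)
    (hE k hk hb hs (hbv.trans (cs_dvd_of_mem_zpowers hvk)) hsk)).imp id (Or.imp id ?_)
  rintro ⟨t, u, h1, h2, h3, h4, h5, -, -, h6⟩
  exact ⟨t, u, h1, h2, h3, h4, h5, h6⟩

end Cfsg.Agent.S4321
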