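import Cfsg.Statements.S4330
import Cfsg.Agent.Grp.Homog
-- import your own Cfsg.Agent.* helpers here

set_option autoImplicit false
open Pointwise
open Cfsg

namespace Cfsg.Agent.S4330

/-- Let G be a finite solvable group, p an odd prime and A a p-subgroup of G such that every conjugacy class of G contains an element g for which A is subnormal in the subgroup generated by A and its conjugate by g. Then A is contained in O_p(G). (The hypothesis that p is odd is needed.) -/
theorem result {G : Type*} [Group G] [Finite G]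
    (hG : Group.IsSolvable G) (p : ℕ) [Fact p.Prime] (hp : p ≠ 2) (A : Subgroup G) (hA : IsPGroup p A)
    (h : ∀ c : G, ∃ g : G, IsConj c g ∧ (A.subgroupOf (A ⊔ MulAut.conj g • A)).IsSubnormal) :
    A ≤ Cfsg.pCore p G := by
  refine fun a ha => CL.Grp.Homog.mem_pCore hp _ G rfl hG a fun c => ?_
  obtain ⟨g, h1, h2⟩ := h c
  refine ⟨g, h1, A ⊔ MulAut.conj g • A, ?_, Subgroup.mem_sup_left ha,
    Subgroup.mem_sup_right (CL.Grp.conj_mem_conj_smul g ha)⟩
  have h3 := CL.Grp.le_pCore_of_isSubnormal h2 (hA.comap_subtype)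
  have h4 := IsPGroup.to_sup_of_normal_left (CL.Grp.pCore_isPGroup p ↥(A ⊔ MulAut.conj g • A))
    ((CL.Grp.IsPGroup.conj_smul hA g).comap_subtype (K := A ⊔ MulAut.conj g • A))
  refine (h4.to_le (H := ⊤) ?_).of_equiv Subgroup.topEquiv
  rw [← Subgroup.subgroupOf_self, Subgroup.subgroupOf_sup le_sup_left le_sup_right]
  exact sup_le_sup_right h3 _


end Cfsg.Agent.S4330
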