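import Cfsg.Statements.S4331
import Cfsg.Agent.DW.LyTab
import Cfsg.Agent.Char.Burnside
import Cfsg.Agent.Grp.Subnormal
import Cfsg.Agent.Grp.Cores

set_option autoImplicit false
open Cfsg

namespace Cfsg.Agent.S4331

open Subgroup CL.DW CL.Grp

/-- the action of `ΓL₁(9)` on the field with nine elements -/
def act (h v : ℕ) : ℕ :=
  (0x318264750852741630237615480786453120624138570471582360165327840543876210264318750741852630615237480453786120138624570582471360327165840876543210 >>>
    (4 * (9 * h + v))) % 16

def mulA (a b : ℕ) : ℕ :=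
  (a + act (a / 9) (b % 9)) % 3 + 3 * ((a / 3 + act (a / 9) (b % 9) / 3) % 3) +
    9 * ((a / 9 % 8 + (1 + 2 * (a / 72)) * (b / 9 % 8)) % 8) + 72 * ((a / 72 + b / 72) % 2)

def invA (a : ℕ) : ℕ :=
  (0x66646b6569676a686382857f83868081847e53545857525655595171706f7473726e6d6c8d898b888a8f8c8e87625f5c615e5b605d5a767b7a78777c7d79754f504e4c4d4b494a480f0a0e0b0c100d11091916131a17141815121d211f1e1c2322201b2c2b2a292827262524302f342e333235312d3b3e383a3d37393c3640424745414344463f040503070806010200 >>>
    (8 * a)) % 256

theorem as1 : fasB 144 mulA 1 = true := by decide +kernel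
theorem as3 : fasB 144 mulA 3 = true := by decide +kernel
theorem as9 : fasB 144 mulA 9 = true := by decide +kernel
theorem as72 : fasB 144 mulA 72 = true := by decide +kernel

instance valid : FValid 144 mulA invA := ⟨by decide, [1, 3, 9, 72], by decide +kernel, by
  simp only [List.forall_mem_cons, as1, as3, as9, as72, List.not_mem_nil, false_imp_iff, implies_true, and_self]⟩

/-- `AΓL₁(9)` -/
abbrev A : Type := NG 144 mulA invA

abbrev a : A := NG.of 72
abbrev v : A := NG.of 3
abbrev P : Subgroup A := NG.sub 0x8040201008040201008040201008040201 (by decide +kernel)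

theorem cls : ∀ c : A, ∃ x : A, x * c * x⁻¹ ∈ P ∨ a * (x * c * x⁻¹) = x * c * x⁻¹ * a := by decide +kernel

/-- There is a finite solvable group G with a subgroup A of order 2 such that every conjugacy class of G contains an element g for which A is subnormal in the subgroup generated by A and g, and yet A is not contained in O_2(G). (So the corresponding criteria for odd primes fail at the prime 2, even for solvable groups.) -/
theorem result :
    ∃ (G : Type) (_ : Group G) (_ : Finite G) (A : Subgroup G), Group.IsSolvable G ∧ Nat.card A = 2 ∧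
      (∀ c : G, ∃ g : G, IsConj c g ∧ (A.subgroupOf (A ⊔ Subgroup.zpowers g)).IsSubnormal) ∧
      ¬ A ≤ Cfsg.pCore 2 G := by
  have : Fact (Nat.Prime 2) := ⟨Nat.prime_two⟩
  have hP : IsPGroup 2 P := IsPGroup.of_card (n := 4) (by rw [NG.card_subgroup]; decide +kernel)
  refine ⟨A, inferInstance, inferInstance, zpowers a,
    CL.Char.isSolvable_of_card_eq_pow_mul_pow (a := 4) (b := 2) Nat.prime_two Nat.prime_three NG.card, ?_,
    fun c => ?_, fun h => ?_⟩
  · rw [Nat.card_zpowers]
    exact orderOf_eq_prime (by rw [pow_two]; decide +kernel) (by decide +kernel)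
  · obtain ⟨x, hx⟩ := cls c
    refine ⟨_, isConj_iff.2 ⟨x, rfl⟩, (subnIn_iff.1 ?_).2⟩
    rcases hx with hx | hx
    · exact subnIn_of_isPGroup (hP.to_le (sup_le (zpowers_le.2 (by decide +kernel)) (zpowers_le.2 hx))) le_sup_left
    · refine .of_le_normalizer le_sup_left (sup_le le_normalizer (zpowers_le.2 (centralizer_le_normalizer _ ?_)))
      rw [zpowers_eq_closure, centralizer_closure]
      exact mem_centralizer_singleton_iff.2 hx.symm
  · have m := h (mem_zpowers a)
    obtain ⟨k, hk⟩ := pCore_isPGroup (p := 2) (G := A) ⟨_, mul_mem m (Normal.conj_mem inferInstance a m v)⟩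
    have e : orderOf (a * (v * a * v⁻¹)) = 3 :=
      have : Fact (Nat.Prime 3) := ⟨Nat.prime_three⟩
      orderOf_eq_prime (by rw [pow_three]; decide +kernel) (by decide +kernel)
    have := orderOf_dvd_of_pow_eq_one (congrArg Subtype.val hk : (a * (v * a * v⁻¹)) ^ 2 ^ k = 1)
    rw [e] at this
    exact absurd (Nat.prime_three.dvd_of_dvd_pow this) (by decide)

end Cfsg.Agent.S4331
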