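import Cfsg.Statements.S4332
import Cfsg.Agent.Grp.Cores

set_option autoImplicit false
open Pointwise
open Cfsg

namespace Cfsg.Agent.S4332

def cnd (g : ℕ → ℕ) (a b d : ℕ) : Bool :=
  ((g a == a || g a == b || g a == d) && (g b == a || g b == b || g b == d) && (g d == a || g d == b || g d == d)) ||
  (!(g a == a || g a == b || g a == d) && !(g b == a || g b == b || g b == d) && !(g d == a || g d == b || g d == d))

def chk : ℕ → ℕ → (ℕ → ℕ) → Bool
  | 0, _, _ => false
  | n + 1, k, g => (List.range 8).all fun x => ((List.range k).any fun a => g a == x) ||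
      ((List.range k).any fun b => (List.range b).any fun a => cnd (fun i => if i = k then x else g i) a b k) ||
      chk n (k + 1) (fun i => if i = k then x else g i)

theorem chk_true : chk 8 0 (fun _ => 0) = true := by decide +kernel

theorem chk_sound (f : ℕ → ℕ) (hf : ∀ i < 8, f i < 8) (hinj : ∀ i < 8, ∀ j < 8, f i = f j → i = j) :
    ∀ n k g, n + k = 8 → (∀ i < k, g i = f i) → chk n k g = true → ∃ a b d, a < b ∧ b < d ∧ d < 8 ∧ cnd f a b d = true := by
  intro n
  induction n with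
  | zero => intro k g _ _ h; simp [chk] at h
  | succ n ih =>
    intro k g hk hg h
    have hg' : ∀ i < k + 1, (fun i => if i = k then f k else g i) i = f i := by
      intro i hi
      by_cases e : i = k
      · simp [e]
      · simp [e, hg i (by omega)]
    simp only [chk, List.all_eq_true, List.mem_range, Bool.or_eq_true, List.any_eq_true, beq_iff_eq] at h
    rcases h (f k) (hf k (by omega)) with (⟨a, ha, h1⟩ | ⟨b, hb, a, ha, h1⟩) | h1
    · rw [hg a ha] at h1
      have := hinj a (by omega) k (by omega) h1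
      omega
    · refine ⟨a, b, k, ha, hb, by omega, ?_⟩
      unfold cnd at h1 ⊢
      rw [hg' a (by omega), hg' b (by omega), hg' k (by omega)] at h1
      exact h1
    · exact ih _ _ (by omega) hg' h1

theorem key (c : Equiv.Perm (Fin 8)) :
    ∃ τ : Equiv.Perm (Fin 8), τ.IsThreeCycle ∧ τ * (c * τ * c⁻¹) = (c * τ * c⁻¹) * τ := by
  obtain ⟨a, b, d, h1, h2, h3, h⟩ := chk_sound (fun i => if h : i < 8 then (c ⟨i, h⟩).val else 0)
    (fun i hi => by simp [hi]) (fun i hi j hj h => by
      simp only [hi, hj, dite_true] at h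
      exact congrArg Fin.val (c.injective (Fin.ext h))) 8 0 _ rfl (by simp) chk_true
  obtain ⟨a, rfl⟩ : ∃ x : Fin 8, x.val = a := ⟨⟨a, by omega⟩, rfl⟩
  obtain ⟨b, rfl⟩ : ∃ x : Fin 8, x.val = b := ⟨⟨b, by omega⟩, rfl⟩
  obtain ⟨d, rfl⟩ : ∃ x : Fin 8, x.val = d := ⟨⟨d, by omega⟩, rfl⟩
  have hab : a ≠ b := fun e => by rw [e] at h1; omega
  have had : a ≠ d := fun e => by rw [e] at h1; omega
  have hbd : b ≠ d := fun e => by rw [e] at h2; omega
  refine ⟨_, Equiv.Perm.isThreeCycle_swap_mul_swap_same hab had hbd, ?_⟩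
  have e : c * (Equiv.swap a b * Equiv.swap a d) * c⁻¹ = Equiv.swap (c a) (c b) * Equiv.swap (c a) (c d) := by
    rw [Equiv.swap_apply_apply, Equiv.swap_apply_apply]; group
  rw [e]
  have hab' : c a ≠ c b := c.injective.ne hab
  have had' : c a ≠ c d := c.injective.ne had
  have hbd' : c b ≠ c d := c.injective.ne hbd
  simp only [cnd, Fin.is_lt, dite_true, Fin.eta, Bool.or_eq_true, Bool.and_eq_true, beq_iff_eq, Fin.val_inj,
    Bool.not_eq_true', Bool.or_eq_false_iff, beq_eq_false_iff_ne, ne_eq] at h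
  generalize c a = x at *
  generalize c b = y at *
  generalize c d = z at *
  refine Equiv.ext fun w => ?_
  simp only [Equiv.Perm.mul_apply, Equiv.swap_apply_def]
  grind

/-- In the symmetric group of degree 8, let A be the subgroup generated by a 3-cycle. Then every conjugacy class contains an element g for which A is subnormal in the subgroup generated by A and its conjugate by g, although O_3 of the symmetric group of degree 8 is trivial. -/
theorem result
    (σ : Equiv.Perm (Fin 8)) (hσ : σ.IsThreeCycle) :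
    (∀ c : Equiv.Perm (Fin 8), ∃ g : Equiv.Perm (Fin 8), IsConj c g ∧
      ((Subgroup.zpowers σ).subgroupOf (Subgroup.zpowers σ ⊔ MulAut.conj g • Subgroup.zpowers σ)).IsSubnormal) ∧
    Cfsg.pCore 3 (Equiv.Perm (Fin 8)) = ⊥ := by
  refine ⟨fun c => ?_, ?_⟩
  · obtain ⟨τ, hτ, h⟩ := key c
    obtain ⟨k, rfl⟩ := isConj_iff.1 (Equiv.Perm.isConj_of_cycleType_eq (hσ.cycleType.trans hτ.cycleType.symm))
    refine ⟨k⁻¹ * c * k, isConj_iff.2 ⟨k⁻¹, by group⟩, Subgroup.Normal.isSubnormal ?_⟩
    have h1 : σ * ((k⁻¹ * c * k) * σ * (k⁻¹ * c * k)⁻¹) = ((k⁻¹ * c * k) * σ * (k⁻¹ * c * k)⁻¹) * σ := by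
      calc _ = k⁻¹ * (k * σ * k⁻¹ * (c * (k * σ * k⁻¹) * c⁻¹)) * k := by group
        _ = _ := by rw [h]; group
    generalize k⁻¹ * c * k = g at h1
    refine (Subgroup.normal_subgroupOf_iff_le_normalizer le_sup_left).2 (sup_le Subgroup.le_normalizer ?_)
    refine le_trans ?_ (Subgroup.centralizer_le_normalizer _)
    rintro _ ⟨_, ⟨i, rfl⟩, rfl⟩ _ ⟨j, rfl⟩
    have h2 : Commute σ (g * σ * g⁻¹) := h1
    have h3 := h2.zpow_zpow j i
    rw [conj_zpow] at h3
    exact h3
  · by_contra hne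
    have h1 := Equiv.Perm.alternatingGroup_le_of_normal (α := Fin 8) (by simp) ((Subgroup.nontrivial_iff_ne_bot _).2 hne)
    have h2 : Equiv.swap (0 : Fin 8) 1 * Equiv.swap 2 3 ∈ alternatingGroup (Fin 8) := by
      rw [Equiv.Perm.mem_alternatingGroup]; decide
    obtain ⟨k, hk⟩ := CL.Grp.pCore_isPGroup 3 (Equiv.Perm (Fin 8)) ⟨_, h1 h2⟩
    have h3 : (Equiv.swap (0 : Fin 8) 1 * Equiv.swap 2 3) ^ 3 ^ k = 1 := congrArg Subtype.val hk
    have h4 : (Equiv.swap (0 : Fin 8) 1 * Equiv.swap 2 3) ^ 2 = 1 := by decide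
    have h5 := pow_gcd_eq_one.2 ⟨h3, h4⟩
    rw [Nat.Coprime.gcd_eq_one (Nat.Coprime.pow_left k (by decide)), pow_one] at h5
    exact absurd h5 (by decide)

end Cfsg.Agent.S4332
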