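import Cfsg.Statements.S4333
import Cfsg.Agent.Grp.Zipper
import Cfsg.Agent.Odd.RelBasic

set_option autoImplicit false
open Pointwise
open Cfsg

namespace Cfsg.Agent.S4333

open scoped Pointwise
open CL.Grp CL.Odd

theorem aux {G : Type*} [Group G] [Finite G] {A : Subgroup G}
    (h : ∀ a ∈ A, ∀ g : G, SubnIn A (A ⊔ cj (g⁻¹ * a * g) • A)) (K : Subgroup G) : A ≤ K → SubnIn A K := by
  induction K using WellFoundedLT.induction with
  | _ K ih =>
  intro hAK
  by_contra hA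
  obtain ⟨M, hAM, hMK, hM⟩ := zipper_lemma_in hAK (fun V h1 h2 => ih V h2 h1) hA
  have hsub := ih M hMK hAM
  by_cases hn : K ≤ N[M]
  · exact hA (hsub.trans (SubnIn.of_le_normalizer hMK.le hn))
  have hNM : K ⊓ N[M] ≤ M := hM _ (le_inf hAK (le_norm_of_le hAM))
    (lt_of_le_of_ne inf_le_left fun e => hn (inf_eq_left.1 e))
  have h1 : ∀ g ∈ K, cj g • A ≤ M := fun g hg => by
    rintro _ ⟨a, ha, rfl⟩
    have hx : g⁻¹⁻¹ * a * g⁻¹ ∈ K := K.mul_mem (K.mul_mem (by simpa) (hAK ha)) (K.inv_mem hg)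
    have h2 : A ⊔ cj (g⁻¹⁻¹ * a * g⁻¹) • A ≤ K := sup_le hAK (cj_le_of_mem hAK hx)
    have h3 := hM _ le_sup_left (lt_of_le_of_ne h2 fun e => hA (e ▸ h a ha g⁻¹))
    have h4 := cj_le_iff_le_cj_inv.1 (le_sup_right.trans h3)
    have h5 : cj (g⁻¹⁻¹ * a * g⁻¹)⁻¹ • M < K := by
      rw [← cj_eq_self_of_mem (K.inv_mem hx)]; exact cj_lt_cj.2 hMK
    have h6 := hNM ⟨K.inv_mem hx, mem_norm_of_cj_le (hM _ h4 h5)⟩
    simpa using M.inv_mem h6
  have h2 : (⨆ g ∈ K, cj g • A) ≤ M := iSup₂_le h1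
  have h3 : A ≤ ⨆ g ∈ K, cj g • A := le_iSup₂_of_le 1 K.one_mem (cj_one A).ge
  refine hA ((hsub.of_le h3 h2).trans (SubnIn.of_le_normalizer (h2.trans hMK.le) fun k hk => ?_))
  refine mem_norm_of_cj_le (cj_le_iff_le_cj_inv.2 (iSup₂_le fun g hg => cj_le_iff_le_cj_inv.1 ?_))
  rw [← cj_mul]
  exact le_iSup₂_of_le (k * g) (K.mul_mem hk hg) le_rfl

/-- Let A be a subgroup of a finite group G. If A is subnormal in the subgroup generated by A and its conjugate by g⁻¹ a g, for every a ∈ A and every g ∈ G, then A is subnormal in G. (A sharpening of Wielandt's subnormality criterion: only conjugates of A by conjugates of elements of A are needed.) -/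
theorem result {G : Type*} [Group G] [Finite G]
    (A : Subgroup G)
    (h : ∀ a ∈ A, ∀ g : G, (A.subgroupOf (A ⊔ MulAut.conj (g⁻¹ * a * g) • A)).IsSubnormal) :
    A.IsSubnormal := by
  exact subnIn_top_iff.1 (aux (fun a ha g => subnIn_iff.2 ⟨le_sup_left, h a ha g⟩) ⊤ le_top)

end Cfsg.Agent.S4333
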