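import Cfsg.Statements.S4334
import Cfsg.Agent.Grp.HallWielandt

set_option autoImplicit false
open Cfsg

namespace Cfsg.Agent.S4334

/-- Let σ and τ be disjoint sets of primes with union π. Suppose a finite group G has a Hall π-subgroup H which is the direct product of a nilpotent σ-subgroup and a τ-subgroup (two elementwise-commuting subgroups generating H), and that the maximal τ-subgroups of G are pairwise conjugate. Then the maximal π-subgroups of G are pairwise conjugate. -/
theorem result {G : Type*} [Group G] [Finite G]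
    (σ τ π : Set ℕ) (hπ : π = σ ∪ τ) (hd : Disjoint σ τ) (H Hs Ht : Subgroup G) (hH : Cfsg.IsPiHall π H)
    (hs : Cfsg.IsPiSubgroup σ Hs) (ht : Cfsg.IsPiSubgroup τ Ht) (hsn : Group.IsNilpotent Hs)
    (hjoin : Hs ⊔ Ht = H) (hcomm : ∀ a ∈ Hs, ∀ b ∈ Ht, a * b = b * a) (hD : Cfsg.IsDPiGroup τ G) :
    Cfsg.IsDPiGroup π G := by
  subst hπ hjoin
  have hc : Hs ≤ Subgroup.centralizer (Ht : Set G) := fun a ha b hb => (hcomm a ha b hb).symm
  have hc' : Ht ≤ Subgroup.centralizer (Hs : Set G) := Subgroup.le_centralizer_iff.1 hc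
  refine (CL.Grp.hallD_union_of_isNilpotent hd ?_ ?_ hsn hc (CL.Grp.hallD_of_isDPiGroup hD)).isDPiGroup
  · rw [sup_comm] at hH
    exact CL.Grp.isPiHall_right_of_sup hd.symm Set.subset_union_left hH ht hs
      (CL.Grp.le_normalizer_of_le_centralizer hc')
  · exact CL.Grp.isPiHall_right_of_sup hd Set.subset_union_right hH hs ht
      (CL.Grp.le_normalizer_of_le_centralizer hc)

end Cfsg.Agent.S4334
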