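import Cfsg.Statements.S4337
import Cfsg.Agent.Known.AltMisc

set_option autoImplicit false
open Cfsg

namespace Cfsg.Agent.S4337

/-- In a finite symmetric group, any three transpositions generate a solvable subgroup. -/
theorem result (n : ℕ) (a b c : Equiv.Perm (Fin n))
    (ha : a.IsSwap) (hb : b.IsSwap) (hc : c.IsSwap) :
    Group.IsSolvable (Subgroup.closure ({a, b, c} : Set (Equiv.Perm (Fin n)))) := by
  have key : ∀ (x y z : Equiv.Perm (Fin n)) (s : Finset (Fin n)), s.card ≤ 4 → x.support ⊆ s → y.support ⊆ s →
      (z.support ⊆ s ∨ (z.IsSwap ∧ Disjoint z.support s)) → ∀ H : Subgroup (Equiv.Perm (Fin n)),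
      H = Subgroup.closure {x, y, z} → Group.IsSolvable H := by
    intro x y z s hs hx hy hz H hH
    haveI : Group.IsSolvable (Equiv.Perm {i // i ∈ s}) := CL.Known.isSolvable_perm_of_card_le_four (by simpa using hs)
    have hm : ∀ g : Equiv.Perm (Fin n), g.support ⊆ s →
        g ∈ (Equiv.Perm.ofSubtype : Equiv.Perm {i // i ∈ s} →* Equiv.Perm (Fin n)).range := fun g hg =>
      Equiv.Perm.mem_range_ofSubtype_iff.2 fun i hi => hg hi
    obtain ⟨w, hw, hz'⟩ : ∃ w : Equiv.Perm (Fin n), (∀ g : Equiv.Perm {i // i ∈ s}, Commute (Equiv.Perm.ofSubtype g) w) ∧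
        (z.support ⊆ s ∨ z = w) := by
      rcases hz with hz | ⟨-, hz⟩
      · exact ⟨1, fun _ => Commute.one_right _, Or.inl hz⟩
      · refine ⟨z, fun g => Equiv.Perm.Disjoint.commute fun i => ?_, Or.inr rfl⟩
        by_cases hi : i ∈ s
        · exact Or.inr (Equiv.Perm.notMem_support.1 fun h => Finset.disjoint_left.1 hz h hi)
        · exact Or.inl (Equiv.Perm.ofSubtype_apply_of_not_mem _ hi)
    let φ := (Equiv.Perm.ofSubtype : Equiv.Perm {i // i ∈ s} →* Equiv.Perm (Fin n)).noncommCoprod (zpowersHom _ w)
      fun g k => (hw g).zpow_right _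
    haveI : Group.IsSolvable φ.range := Group.isSolvable_of_surjective φ.rangeRestrict_surjective
    have hm' : ∀ g : Equiv.Perm (Fin n), g.support ⊆ s → g ∈ φ.range := fun g hg => by
      obtain ⟨k, rfl⟩ := hm g hg
      exact ⟨(k, 1), show Equiv.Perm.ofSubtype k * w ^ (0 : ℤ) = _ by simp⟩
    have hle : H ≤ φ.range := by
      rw [hH, Subgroup.closure_le]
      rintro g (rfl | rfl | rfl)
      · exact hm' _ hx
      · exact hm' _ hy
      · rcases hz' with h | h
        · exact hm' _ h
        · exact ⟨(1, Multiplicative.ofAdd 1), show Equiv.Perm.ofSubtype 1 * w ^ (1 : ℤ) = _ by simp [h]⟩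
    exact Group.isSolvable_of_isSolvable_injective (Subgroup.inclusion_injective hle)
  have ca := Equiv.Perm.card_support_eq_two.2 ha
  have cb := Equiv.Perm.card_support_eq_two.2 hb
  have cc := Equiv.Perm.card_support_eq_two.2 hc
  have hu : ∀ s t : Finset (Fin n), ¬ Disjoint s t → (s ∪ t).card + 1 ≤ s.card + t.card := by
    intro s t h
    rw [← Finset.card_union_add_card_inter, Nat.add_le_add_iff_left, Finset.one_le_card]
    exact Finset.not_disjoint_iff_nonempty_inter.1 h
  by_cases h1 : Disjoint c.support (a.support ∪ b.support)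
  · exact key a b c (a.support ∪ b.support) ((Finset.card_union_le _ _).trans (by omega)) Finset.subset_union_left
      Finset.subset_union_right (Or.inr ⟨hc, h1⟩) _ rfl
  by_cases h2 : Disjoint b.support (a.support ∪ c.support)
  · exact key a c b (a.support ∪ c.support) ((Finset.card_union_le _ _).trans (by omega)) Finset.subset_union_left
      Finset.subset_union_right (Or.inr ⟨hb, h2⟩) _ (by rw [Set.pair_comm])
  by_cases h3 : Disjoint a.support (b.support ∪ c.support)
  · exact key b c a (b.support ∪ c.support) ((Finset.card_union_le _ _).trans (by omega)) Finset.subset_union_left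
      Finset.subset_union_right (Or.inr ⟨ha, h3⟩) _ (by congr 1; ext; simp; tauto)
  refine key a b c (c.support ∪ (a.support ∪ b.support)) ?_ (Finset.subset_union_left.trans Finset.subset_union_right)
    (Finset.subset_union_right.trans Finset.subset_union_right) (Or.inl Finset.subset_union_left) _ rfl
  by_cases h4 : Disjoint a.support b.support
  · have h5 : ¬ Disjoint a.support c.support := fun h => h3 (Finset.disjoint_union_right.2 ⟨h4, h⟩)
    have := hu _ _ h5
    have := hu _ _ h2
    rw [show c.support ∪ (a.support ∪ b.support) = b.support ∪ (a.support ∪ c.support) by ext; simp; tauto]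
    omega
  · have := hu _ _ h4
    have := hu _ _ h1
    omega

end Cfsg.Agent.S4337
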