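import Cfsg.Statements.S4339
import Cfsg.Agent.Fgs.SylHall
import Cfsg.Agent.Fgs.SylSmall
import Cfsg.Agent.Blk.SmPSL
import Cfsg.Agent.Inv.BRDeg
import Cfsg.Agent.Cls.SL2Max
import Cfsg.Agent.Loc.PSolv
import Cfsg.Agent.Odd.FT

set_option autoImplicit false
open Cfsg

namespace Cfsg.Agent.S4339

open CL.Fgs CL.Inv.PO CL.Loc CL.Grp CL.Char CL.Blk Subgroup

universe u

theorem ar1 {p d f : ℕ} (h : (d : ℤ) ≡ -1 * f [ZMOD p]) (h0 : 0 < d) (h1 : d ≤ f) (h2 : f < p) : d + f = p := by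
  obtain ⟨c, hc⟩ := h.symm.dvd
  have h3 : c < 2 := by
    by_contra h3
    have : (p : ℤ) * 2 ≤ p * c := mul_le_mul_of_nonneg_left (by omega) (by positivity)
    omega
  have h4 : 0 < c := by
    by_contra h4
    have : (p : ℤ) * c ≤ p * 0 := mul_le_mul_of_nonneg_left (by omega) (by positivity)
    omega
  obtain rfl : c = 1 := by omega
  omega

theorem ar2 {p d f : ℕ} (h : (d : ℤ) ≡ 1 * f [ZMOD p]) (h1 : d ≤ f) (h2 : f < p) : d = f := by
  rw [one_mul, Int.natCast_modEq_iff] at h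
  exact h.eq_of_lt_of_lt (by omega) h2

theorem ar3 {p f m : ℕ} (h : 2 * f + 1 = p) (hf : 0 < f) (h1 : p * (f * m) * 2 = p * (p ^ 2 - 1)) : p + 1 = m := by
  subst h
  rw [show (2 * f + 1) ^ 2 - 1 = 2 * f * (2 * f + 1 + 1) by rw [Nat.sub_eq_iff_eq_add (by nlinarith)]; ring] at h1
  exact Nat.eq_of_mul_eq_mul_left (show 0 < (2 * f + 1) * (2 * f) by positivity) (by linarith)

/-- a simple group with a Sylow subgroup of order `p` and a prime power number of them -/
theorem simple_case {G : Type*} [Group G] [Finite G] [IsSimpleGroup G] {p q k : ℕ} [hp : Fact p.Prime] (hq : q.Prime)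
    (hG : ¬ IsMulCommutative G) (P : Sylow p G) (hP : Nat.card P = p) (hn : Nat.card (Sylow p G) = q ^ k) :
    3 < p ∧ ∃ k : ℕ, p + 1 = 2 ^ k := by
  classical
  have := Fintype.ofFinite G
  have hperf : commutator G = ⊤ := (IsSimpleGroup.eq_bot_or_eq_top_of_normal _ inferInstance).resolve_left fun e =>
    hG ⟨⟨fun a b => commutatorElement_eq_one_iff_mul_comm.1
      (mem_bot.1 (e ▸ commutator_mem_commutator (mem_top a) (mem_top b)))⟩⟩
  obtain ⟨x, hx, ⟨K⟩⟩ := exists_ctx_of_sylow P hP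
  generalize centralizer ((P : Subgroup G) : Set G) = C at K
  obtain ⟨M, hM⟩ := exists_isPModular' hp.out
  obtain ⟨D, h1, s1⟩ := K.exists_data_principal hM
  have hf := D.two_le_f h1 hperf
  have hm1 := D.one_lt_index_N h1 hperf
  have hm : (Nz x).index = q ^ k := K.card_sylow.symm.trans hn
  have hp2 := hp.out.two_le
  have hfp : K.f ≤ p - 1 := Nat.le_of_dvd (by omega) K.f_dvd
  have hodd : Odd p := hp.out.odd_of_ne_two (by omega)
  have dv : ∀ d : ℕ, d ∣ C.index → ¬ q ∣ d → d ∣ K.f := fun d h h' => by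
    rw [K.index_C, hm] at h
    exact (Nat.Coprime.pow_right k ((Nat.Prime.coprime_iff_not_dvd hq).2 h').symm).dvd_of_dvd_mul_right h
  have core : pPrimeCore p G = ⊥ := (IsSimpleGroup.eq_bot_or_eq_top_of_normal _ inferInstance).resolve_right fun e =>
    not_dvd_card_pPrimeCore p G (by rw [e, card_top, ← K.hx]; exact orderOf_dvd_natCard x)
  have cen : (∀ v ∈ C, ¬ p ∣ orderOf v → v ∈ pPrimeCore p G) → Nat.card C = p := fun h => by
    refine (congrArg (fun H : Subgroup G => Nat.card H) (le_antisymm (fun c hc => ?_) K.P_le_C)).trans K.card_P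
    obtain ⟨y, j, hy, e⟩ := K.exists_decomp ⟨c, hc⟩
    have h2 : (y : G) = 1 := mem_bot.1 (core ▸ h y y.2 ((K.mem_H_iff y).1 hy))
    rw [show c = x ^ j.val * y from congrArg Subtype.val e, h2, mul_one]
    exact pow_mem (mem_zpowers x) _
  have two : Nat.card C = p → q = 2 := fun h => by
    by_contra h2
    obtain ⟨c, e, -, -, -, hc⟩ := exists_prime_sylow_data hperf hP
    have h3 := not_two_dvd_card_of_prime_sylow hperf hP (fun e => h2 ((Nat.prime_dvd_prime_iff_eq Nat.prime_two hq).1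
      (Nat.prime_two.dvd_of_dvd_pow (hn ▸ e))).symm) fun y hy => by
        obtain ⟨Q, hQ⟩ := (IsPGroup.of_card (n := 1) (by rw [Nat.card_zpowers, hy, pow_one]) :
          IsPGroup p (zpowers y)).exists_le_sylow
        rw [(hc Q y hy (sylow_eq_zpowers_of_mem ((card_sylow_eq_card_sylow Q P).trans hP) hy (hQ (mem_zpowers y)))).1,
          ← (hc P x K.hx hx.symm).1, ← K.C_eq', h]
        exact hodd.not_two_dvd_nat
    exact hG ⟨⟨IsSimpleGroup.comm_iff_isSolvable.2 (CL.Odd.feit_thompson (Nat.odd_iff.2 (by omega)))⟩⟩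
  by_cases hX : ∃ χ ∈ D.X, χ ≠ irrOne G ∧ ¬ q ∣ charDegree (χ : G → ℂ)
  · obtain ⟨χ, hχ, h2, h3⟩ := hX
    have h4 := Nat.le_of_dvd (by omega) (dv _ (D.deg_X_dvd hχ) h3)
    have h5 := D.deg_X_one hχ
    rcases D.hs χ hχ with e | e <;> rw [e] at h5
    · obtain ⟨u, hu⟩ := exists_eq_of_modEq_one hp2 h5
      rcases u with _ | u
      · exact (h2 (eq_irrOne_of_perfect hperf (by omega))).elim
      · rw [add_mul] at hu
        omega
    obtain ⟨u, hu⟩ := exists_eq_of_modEq_neg_one hp2 h5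
    have hd : charDegree (χ : G → ℂ) = p - 1 := by
      rcases u with _ | u
      · omega
      · rw [add_mul] at hu
        omega
    obtain rfl := two (cen fun v hv hvp => D.mem_core_of_sum_eq_zero (D.mem_of_mem_X hχ)
      (by rw [D.sum_X_P hχ, hd, e, Nat.cast_sub hp.out.one_le]; simp) hv hvp)
    obtain ⟨j, hj⟩ := hodd
    omega
  push Not at hX
  have h2 : ¬ q ∣ charDegree (D.μ 1 : G → ℂ) := fun h => by
    have h3 := D.deg_rel 1
    rw [← Finset.add_sum_erase _ _ h1, s1, coe_irrOne, charDegree_const_one] at h3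
    have h4 : (q : ℤ) ∣ ∑ χ ∈ D.X.erase (irrOne G), D.s χ * (charDegree (χ : G → ℂ) : ℤ) :=
      Finset.dvd_sum fun χ hχ => Dvd.dvd.mul_left (Int.natCast_dvd_natCast.2
        (hX χ (Finset.mem_of_mem_erase hχ) (Finset.ne_of_mem_erase hχ))) _
    have h5 := (dvd_add_left h4).1 (h3 ▸ Dvd.dvd.mul_left (Int.natCast_dvd_natCast.2 h) D.ε)
    rw [one_mul, Int.natCast_dvd_natCast, Nat.dvd_one] at h5
    exact hq.ne_one h5
  have h3 := dv _ (D.deg_μ_dvd 1) h2
  have h4 := Nat.le_of_dvd (by omega) h3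
  have h5 := D.deg_μ_one 1
  have h6 := (D.μ 1).2.charDegree_pos
  have h7 : D.μ 1 ≠ irrOne G := fun e => D.μ_notMem 1 (e ▸ h1)
  rcases D.hε with e | e <;> rw [e] at h5
  swap
  · have h10 : charDegree (D.μ 1 : G → ℂ) ∣ p := (dvd_add dvd_rfl h3).trans (ar1 h5 h6 h4 (by omega)).dvd
    exact (h7 (eq_irrOne_of_perfect hperf (((Nat.dvd_prime hp.out).1 h10).resolve_right (by omega)))).elim
  have hd := ar2 h5 h4 (by omega)
  have hC := cen fun v hv hvp => D.mem_core_of_sum_eq_zero (D.μ_mem 1) (by rw [D.sum_μ_P, hd, e]; simp) hv hvp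
  obtain rfl := two hC
  obtain ⟨t, ht⟩ := K.f_dvd
  have h8 : 2 * K.f ≤ p - 1 := by
    obtain ⟨j, hj⟩ := hodd
    rcases t with _ | _ | t
    · omega
    · omega
    · rw [ht]; nlinarith
  have hker : charKer (D.μ 1 : G → ℂ) = ⊥ :=
    (IsSimpleGroup.eq_bot_or_eq_top_of_normal _ (D.μ 1).2.isCharacter.charKer_normal).resolve_right fun e =>
      h7 (Subtype.ext ((D.μ 1).2.charKer_eq_top_iff.1 e))
  obtain ⟨-, h9, ⟨φ⟩⟩ := CL.Blk.Sm.of_two_mul_le K (by omega) (fun hN => by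
    have := (index_eq_one (H := Nz x)).2 (normalizer_eq_top _)
    omega) (D.μ 1).2.isCharacter hker (by omega)
  have hZ : center G = ⊥ := (IsSimpleGroup.eq_bot_or_eq_top_of_normal _ inferInstance).resolve_right fun e =>
    hG ⟨⟨fun a b => mem_center_iff.1 (e.ge (mem_top b)) a⟩⟩
  have h10 := CL.SL2.card_psl_two_mul (F := ZMod p) (fun e => by
    have := (ZMod.natCast_eq_zero_iff 2 p).1 (by exact_mod_cast e)
    have := Nat.le_of_dvd two_pos this
    omega)
  rw [← Nat.card_congr φ.toEquiv, ← index_eq_card, hZ, index_bot, ZMod.card, ← C.card_mul_index, hC, K.index_C, hm]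
    at h10
  exact ⟨by omega, k, ar3 h9 (by omega) h10⟩

theorem fwd {G : Type u} [Group G] [Finite G] {p : ℕ} [hp : Fact p.Prime] (h : IsPSolvable p G)
    (hn : Nat.card (Sylow p G) < p ^ 2) : ∃ q k : ℕ, q.Prime ∧ Nat.card (Sylow p G) = q ^ k := by
  have hp2 := hp.out.two_le
  have big : ∀ a : ℕ, a ≡ 1 [MOD p] → a = 1 ∨ p < a := fun a ha => by
    by_contra h1
    rcases (show a < p ∨ a = p by omega) with h2 | rfl
    · exact h1 (.inl (Nat.ModEq.eq_of_lt_of_lt ha h2 hp2))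
    · rw [Nat.ModEq, Nat.mod_self, Nat.mod_eq_of_lt hp2] at ha
      omega
  have one : (1 ≡ 1 [MOD p]) ∧ (1 < p ^ 2 → ∃ q k : ℕ, q.Prime ∧ 1 = q ^ k) := ⟨rfl, fun _ => ⟨2, 0, Nat.prime_two, rfl⟩⟩
  refine (card_sylow_induction (p := p) (fun X _ => IsPSolvable p X) (fun X _ H h => isPSolvable_subgroup h H)
    (fun X _ N _ h => isPSolvable_quotient h N)
    (fun n => n ≡ 1 [MOD p] ∧ (n < p ^ 2 → ∃ q k : ℕ, q.Prime ∧ n = q ^ k)) one ?_
    (fun q k hq hk => ⟨hk, fun _ => ⟨q, k, hq, rfl⟩⟩) ?_ G h).2 hn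
  · rintro a b ⟨ha, ha'⟩ ⟨hb, hb'⟩
    refine ⟨by simpa using ha.mul hb, fun hab => ?_⟩
    rcases big a ha with rfl | h1
    · rw [one_mul] at hab ⊢
      exact hb' hab
    rcases big b hb with rfl | h2
    · rw [mul_one] at hab ⊢
      exact ha' hab
    nlinarith
  · intro S _ _ hS hs
    suffices e : Nat.card (Sylow p S) = 1 by rwa [e]
    by_contra e
    rcases pCore_ne_bot_or_pPrimeCore_ne_bot hs with h1 | h1
    · obtain ⟨P⟩ : Nonempty (Sylow p S) := inferInstance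
      have h2 : (P : Subgroup S) = ⊤ := (P.3 (((IsSimpleGroup.eq_bot_or_eq_top_of_normal _ inferInstance).resolve_left
        h1) ▸ pCore_isPGroup p S) le_top).symm
      haveI := Sylow.unique_of_normal P (h2 ▸ inferInstance)
      exact e Nat.card_unique
    · refine not_dvd_card_pPrimeCore p S ?_
      rw [(IsSimpleGroup.eq_bot_or_eq_top_of_normal _ inferInstance).resolve_left h1, card_top]
      exact dvd_card_of_card_sylow_ne_one e

theorem bwd {p q : ℕ} [Fact p.Prime] (hp : ¬ (3 < p ∧ ∃ k : ℕ, p + 1 = 2 ^ k)) (hq : q.Prime) (n : ℕ) :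
    ∀ (G : Type u) [Group G] [Finite G], Nat.card G = n → Nat.card (Sylow p G) < p ^ 2 →
      (∃ k : ℕ, Nat.card (Sylow p G) = q ^ k) → IsPSolvable p G := by
  induction n using Nat.strong_induction_on with
  | _ n ih =>
  rintro G _ _ rfl hn ⟨k, hk⟩
  obtain ⟨P⟩ : Nonempty (Sylow p G) := inferInstance
  have key : ∀ (X : Type u) [Group X] [Finite X], Nat.card X < Nat.card G →
      Nat.card (Sylow p X) ∣ Nat.card (Sylow p G) → IsPSolvable p X := fun X _ _ h1 h2 => by
    obtain ⟨j, -, hj⟩ := (Nat.dvd_prime_pow hq).1 (hk ▸ h2)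
    exact ih _ h1 X rfl ((Nat.le_of_dvd Nat.card_pos h2).trans_lt hn) ⟨j, hj⟩
  by_cases h : ∃ N : Subgroup G, N.Normal ∧ N ≠ ⊥ ∧ N ≠ ⊤
  · obtain ⟨N, _, h1, h2⟩ := h
    have h3 := card_sylow_eq_mul_three N P
    refine isPSolvable_of_normal N (key N ?_ (h3 ▸ (dvd_mul_left _ _).mul_right _))
      (key _ ?_ (h3 ▸ (dvd_mul_right _ _).mul_right _))
    · exact (CL.Grp.card_lt_card_of_lt (lt_top_iff_ne_top.2 h2)).trans_eq card_top
    · rw [← index_eq_card, ← N.card_mul_index]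
      exact lt_mul_of_one_lt_left (Nat.pos_of_ne_zero index_ne_zero_of_finite) ((one_lt_card_iff_ne_bot N).2 h1)
  rcases subsingleton_or_nontrivial G with h0 | h0
  · exact isPSolvable_of_subsingleton
  have : IsSimpleGroup G := ⟨fun N hN => by
    by_contra h1
    exact h ⟨N, hN, fun e => h1 (.inl e), fun e => h1 (.inr e)⟩⟩
  by_cases hc : IsMulCommutative G
  · exact isPSolvable_of_isMulCommutative
  by_cases hd : p ∣ Nat.card G
  swap
  · exact isPSolvable_of_not_dvd hd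
  refine (hp (simple_case hq hc P (card_sylow_eq_of_lt_sq (fun e => ?_) hn P) hk)).elim
  have := (Nat.card_eq_one_iff_unique.1 e).1
  rcases IsSimpleGroup.eq_bot_or_eq_top_of_normal _ P.normal_of_subsingleton with h1 | h1
  · exact P.ne_bot_of_dvd_card hd h1
  · have h2 : IsPGroup p G := (h1 ▸ P.2 : IsPGroup p (⊤ : Subgroup G)).of_equiv topEquiv
    have := h2.isNilpotent
    exact hc ⟨⟨IsSimpleGroup.comm_iff_isSolvable.2 inferInstance⟩⟩

/-- Let G be a finite group and p a prime such that it is not the case that p > 3 with p + 1 a power of 2. If the number of Sylow p-subgroups of G is less than p², then G is p-solvable if and only if that number is a power of a prime (possibly 1). -/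
theorem result {G : Type*} [Group G] [Finite G]
    (p : ℕ) [Fact p.Prime] (hp : ¬ (3 < p ∧ ∃ k : ℕ, p + 1 = 2 ^ k)) (hn : Nat.card (Sylow p G) < p ^ 2) :
    Cfsg.IsPSolvable p G ↔ ∃ q k : ℕ, q.Prime ∧ Nat.card (Sylow p G) = q ^ k := by
  exact ⟨fun h => fwd h hn, fun ⟨q, k, hq, hk⟩ => bwd hp hq _ G rfl hn ⟨k, hk⟩⟩

end Cfsg.Agent.S4339
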