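import Cfsg.Statements.S4344
import Cfsg.Agent.Fgs.SylNum

set_option autoImplicit false
open Cfsg
open scoped Pointwise

namespace Cfsg.Agent.S4344

/-- Let S be a finite non-abelian simple group, M a maximal subgroup of S and C a cyclic normal subgroup of M. If a Sylow p-subgroup P of S (for a prime p dividing the order of S) is contained in C, then the number of Sylow p-subgroups of S equals the index of M. -/
theorem result {S : Type*} [Group S] [Finite S]
    [IsSimpleGroup S] (hS : ¬ IsMulCommutative S) (p : ℕ) [Fact p.Prime] (hp : p ∣ Nat.card S)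
    (M : Subgroup S) (hM : IsCoatom M) (C : Subgroup S) (hCM : C ≤ M) (hCn : (C.subgroupOf M).Normal)
    (hC : IsCyclic C) (P : Sylow p S) (hP : (P : Subgroup S) ≤ C) :
    Nat.card (Sylow p S) = M.index := by
  rw [Sylow.card_eq_index_normalizer P, ← Sylow.coe_coe]
  congr 1
  have hPC : CL.Grp.IsSylowIn p (P : Subgroup S) C := CL.Grp.isSylowIn_of_le P hP
  have hCN : M ≤ Subgroup.normalizer (C : Set S) :=
    (Subgroup.normal_subgroupOf_iff_le_normalizer hCM).1 hCn
  have hMN : M ≤ Subgroup.normalizer ((P : Subgroup S) : Set S) := by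
    intro g hg
    obtain ⟨c, hc, hcg⟩ := hPC.frattini hCN hg
    have hc' : c ∈ Subgroup.normalizer ((P : Subgroup S) : Set S) := by
      apply Subgroup.centralizer_le_normalizer
      intro y hy
      exact congrArg Subtype.val (hC.isMulCommutative.is_comm.comm (⟨y, hP hy⟩ : C) ⟨c, hc⟩)
    simpa using Subgroup.mul_mem _ (Subgroup.inv_mem _ hc') hcg
  by_contra hne
  have htop := hM.2 _ (lt_of_le_of_ne hMN (Ne.symm hne))
  rcases (Subgroup.normalizer_eq_top_iff.1 htop).eq_bot_or_eq_top with h | h
  · exact P.ne_bot_of_dvd_card hp h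
  · exact hM.1 (eq_top_iff.2 (h ▸ hP.trans hCM))

end Cfsg.Agent.S4344
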