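import Cfsg.Statements.S4354
import Cfsg.Agent.Grp.SylowIn

set_option autoImplicit false
open Cfsg

namespace Cfsg.Agent.S4354

/-- Let G be a finite group and p a prime such that the Sylow p-subgroups of G are non-abelian while every element of p-power order has conjugacy class size prime to p, and suppose no nontrivial proper normal subgroup N of G has this property and no quotient G/N by such an N has it. Then G is simple. -/
theorem result {G : Type*} [Group G] [Finite G]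
    (p : ℕ) [Fact p.Prime] (h : ((∃ P : Sylow p G, ¬ IsMulCommutative P) ∧ ∀ x : G, (∃ k : ℕ, orderOf x = p ^ k) → ¬ p ∣ (Subgroup.centralizer ({x} : Set G)).index))
    (hmin : ∀ (N : Subgroup G) [N.Normal], N ≠ ⊥ → N ≠ ⊤ →
      ¬ ((∃ P : Sylow p N, ¬ IsMulCommutative P) ∧ ∀ x : N, (∃ k : ℕ, orderOf x = p ^ k) → ¬ p ∣ (Subgroup.centralizer ({x} : Set N)).index) ∧
      ¬ ((∃ P : Sylow p (G ⧸ N), ¬ IsMulCommutative P) ∧ ∀ x : (G ⧸ N), (∃ k : ℕ, orderOf x = p ^ k) → ¬ p ∣ (Subgroup.centralizer ({x} : Set (G ⧸ N))).index)) :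
    IsSimpleGroup G := by
  open Subgroup CL.Grp in
  obtain ⟨⟨P, hP⟩, h⟩ := h
  have hS : ∀ x : G, (∃ k : ℕ, x ^ p ^ k = 1) → ∃ R, IsSylowIn p R ⊤ ∧ R ≤ centralizer {x} ∧ x ∈ R := fun x ⟨k, hk⟩ => by
    obtain ⟨j, -, hj⟩ := (Nat.dvd_prime_pow Fact.out).1 (orderOf_dvd_of_pow_eq_one hk)
    obtain ⟨R, hR, hx⟩ := exists_isSylowIn_ge (IsPGroup.of_card ((Nat.card_zpowers x).trans hj))
      (zpowers_le.2 (mem_centralizer_singleton_iff.2 rfl))
    refine ⟨R, ⟨le_top, hR.2.1, ?_⟩, hR.1, hx (mem_zpowers x)⟩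
    rw [relIndex_top_right, ← relIndex_mul_index hR.1]
    exact fun e => ((Nat.Prime.dvd_mul Fact.out).1 e).elim hR.2.2 (h x ⟨j, hj⟩)
  have : Nontrivial G := by
    by_contra c
    have := not_nontrivial_iff_subsingleton.1 c
    exact hP ⟨⟨fun a b => Subsingleton.elim _ _⟩⟩
  refine ⟨fun N _ => by_contra fun hN => hP ?_⟩
  obtain ⟨h1, h2⟩ := hmin N (not_or.1 hN).1 (not_or.1 hN).2
  have a1 : ∀ Q : Sylow p N, IsMulCommutative Q := fun Q => by_contra fun e => h1 ⟨⟨Q, e⟩, fun x ⟨k, hk⟩ c => by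
    obtain ⟨R, r1, r2, -⟩ := hS x ⟨k, by rw [← hk, ← coe_pow, pow_orderOf_eq_one, coe_one]⟩
    refine (r1.inf_of_normalized (N := N) le_top le_normalizer_of_normal).2.2 (c.trans (index_dvd_of_le fun y hy => ?_))
    exact mem_centralizer_singleton_iff.2 (Subtype.ext (mem_centralizer_singleton_iff.1 (r2 hy.1)))⟩
  have a2 : ∀ Q : Sylow p (G ⧸ N), IsMulCommutative Q := fun Q => by_contra fun e => h2 ⟨⟨Q, e⟩, fun x ⟨k, hk⟩ c => by
    obtain ⟨R, hR⟩ := (IsPGroup.of_card ((Nat.card_zpowers x).trans hk)).exists_le_sylow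
    obtain ⟨R, rfl⟩ := Sylow.mapSurjective_surjective (QuotientGroup.mk'_surjective N) p R
    obtain ⟨x, hx, rfl⟩ := hR (mem_zpowers x)
    refine h x (by simpa using IsPGroup.iff_orderOf.1 R.isPGroup' ⟨x, hx⟩) ((c.trans (index_dvd_of_le ?_)).trans
      (index_map_dvd _ (QuotientGroup.mk'_surjective N)))
    rintro _ ⟨y, hy, rfl⟩
    exact mem_centralizer_singleton_iff.2 (by rw [← map_mul, mem_centralizer_singleton_iff.1 hy, map_mul])⟩
  have key : ∀ x ∈ P, ∃ n ∈ (P : Subgroup G) ⊓ N, n * x ∈ centralizer (P : Set G) := fun x hx => by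
    obtain ⟨k, hk⟩ := P.isPGroup' ⟨x, hx⟩
    obtain ⟨R, r1, r2, r3⟩ := hS x ⟨k, congrArg Subtype.val hk⟩
    obtain ⟨g, hg, e⟩ := (r1.of_le (K := (centralizer {(x : G ⧸ N)}).comap (QuotientGroup.mk' N))
      (fun y hy => mem_centralizer_singleton_iff.2 (congrArg _ (mem_centralizer_singleton_iff.1 (r2 hy)))) le_top).exists_conj_eq
      ((isSylowIn_top P).of_le (fun y hy => mem_centralizer_singleton_iff.2 (congrArg Subtype.val
        ((a2 (P.mapSurjective (QuotientGroup.mk'_surjective N))).1.1 ⟨_, y, hy, rfl⟩ ⟨_, x, hx, rfl⟩))) le_top)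
    refine ⟨g * x * g⁻¹ * x⁻¹, ⟨mul_mem (e.le (conj_mem_conj_smul g r3)) ((P : Subgroup G).inv_mem hx), (QuotientGroup.eq_one_iff _).1 ?_⟩,
      fun y hy => ?_⟩
    · have : (g : G ⧸ N) * x = x * g := mem_centralizer_singleton_iff.1 hg
      simp [this]
    · have := mem_centralizer_singleton_iff.1 (r2 ((mem_conj_smul_iff _ _ _).1 (e.ge hy)))
      calc _ = g * (g⁻¹ * y * g * x) * g⁻¹ := by group
        _ = _ := by rw [this]; group
  refine ⟨⟨fun x y => Subtype.ext ?_⟩⟩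
  obtain ⟨n, hn, e1⟩ := key x x.2
  obtain ⟨m, hm, e2⟩ := key y y.2
  have e3 : n * m = m * n := congrArg Subtype.val (congrArg Subtype.val
    ((a1 (isSylowIn_inf_normal P N).toSylow).1.1 ⟨⟨n, hn.2⟩, hn⟩ ⟨⟨m, hm.2⟩, hm⟩))
  have e4 : x * m = m * x := by
    rw [← mul_left_cancel_iff (a := n), ← mul_assoc, ← e1 m hm.1, ← mul_assoc, ← mul_assoc, e3]
  change x.1 * y = y * x
  rw [← mul_left_cancel_iff (a := m), ← mul_assoc, ← e4, mul_assoc, e2 x x.2, mul_assoc]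

end Cfsg.Agent.S4354
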