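import Cfsg.Statements.S4359
import Cfsg.Agent.Fgs.SimsChain

set_option autoImplicit false
open Pointwise
open Cfsg

namespace Cfsg.Agent.S4359

/-- Let P be a subgroup of a finite group G and g an element such that P ∩ g⁻¹Pg is a normal subgroup of prime index p in g⁻¹Pg. Let n ≥ 1 and let K be the subgroup generated by P and its conjugates g⁻ⁱPgⁱ for i ≤ n. Suppose that g normalizes no non-identity normal subgroup of P and that P meets the center of K trivially. Then the order of P is pᵗ for some t with 1 ≤ t ≤ 3n and t ≠ 3n - 1. -/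
theorem result {G : Type*} [Group G] [Finite G]
    (P : Subgroup G) (g : G) (p : ℕ) (hp : p.Prime)
    (hN : ((P ⊓ MulAut.conj g⁻¹ • P).subgroupOf (MulAut.conj g⁻¹ • P)).Normal)
    (hidx : (P ⊓ MulAut.conj g⁻¹ • P).relIndex (MulAut.conj g⁻¹ • P) = p)
    (n : ℕ) (hn : 1 ≤ n) (K : Subgroup G) (hK : K = ⨆ i ∈ Finset.range (n + 1), MulAut.conj (g ^ i)⁻¹ • P)
    (h1 : ∀ Q : Subgroup G, Q ≤ P → (Q.subgroupOf P).Normal → MulAut.conj g • Q = Q → Q = ⊥)
    (h2 : P ⊓ (Subgroup.center K).map K.subtype = ⊥) :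
    ∃ t : ℕ, Nat.card P = p ^ t ∧ 1 ≤ t ∧ t ≤ 3 * n ∧ t ≠ 3 * n - 1 := by
  open CL.SimsCh CL.Even Subgroup in
  obtain ⟨t, ht, h⟩ := exists_chain (P := P) (g := g) hp
    ((normal_subgroupOf_iff_le_normalizer inf_le_right).1 hN) hidx fun Q hQ hn hg =>
      h1 Q hQ ((normal_subgroupOf_iff_le_normalizer hQ).2 hn) (cj_eq hg)
  have e : ∀ i : ℕ, seg P g (i + t - t) (i + 1) = MulAut.conj (g ^ i)⁻¹ • P := fun i => by
    rw [seg_eq_cj, zpow_natCast]; rfl
  have e0 : seg P g (t - t) 1 = P := by simpa using e 0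
  have hPK : P ≤ K := by
    rw [hK]
    exact le_iSup₂_of_le (f := fun i (_ : i ∈ Finset.range (n + 1)) => MulAut.conj (g ^ i)⁻¹ • P) 0
      (by simp) (by simp)
  obtain ⟨u, hut, hu, hn'⟩ := exists_u t fun i j => seg P g (j - t) i
  have a1 := h.two_mul_le_add (n := n) ht hut hu (K := K) (fun C hC => by
    rw [hK]
    exact iSup₂_le fun i hi => (e i).ge.trans (hC i (by simpa [Nat.lt_succ_iff] using hi))) (by
    rw [eq_bot_iff, ← h2]
    intro x hx
    have hx1 : x ∈ P := e0 ▸ hx.1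
    exact ⟨hx1, ⟨x, hPK hx1⟩, Subgroup.mem_center_iff.2 fun y => Subtype.ext (hx.2 y y.2), rfl⟩)
  have a2 := h.card' 1 t t (by omega) le_rfl
  rw [e0] at a2
  refine ⟨t, a2, ht, ?_⟩
  rcases hut.lt_or_eq with hl | hl
  · have := h.two_mul_le hu (hn' hl) hl
    omega
  · omega

end Cfsg.Agent.S4359
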