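import Cfsg.Statements.S4370
import Cfsg.Agent.Fgs.EqConj
import Cfsg.Agent.Grp.PGroupMaxClass
import Cfsg.Agent.Perm.PrimCharSimple

set_option autoImplicit false
open Cfsg

namespace Cfsg.Agent.S4370

open CL.Fgs CL.Grp Subgroup

theorem not_isCyclic_of_ea {G : Type*} [Group G] [Finite G] {p : ℕ} (hp : p.Prime) {E : Subgroup G}
    (hE : IsElementaryAbelian p E) (hc : Nat.card E = p ^ 2) : ¬ IsCyclic E := fun hF => by
  obtain ⟨g, hg⟩ := hF.exists_ofOrder_eq_natCard
  have h2 : g ^ p = 1 := Subtype.ext (hE.2 g g.2)
  have := Nat.le_of_dvd hp.pos (orderOf_dvd_of_pow_eq_one h2)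
  have := hp.two_le
  nlinarith

theorem isCyclic_centralizer_quat {Q : Type*} [Group Q] {n : ℕ} {a b : Q} (h : DQSGen n a b)
    (h1 : b ^ 2 = a ^ 2 ^ (n - 1)) (h2 : b * a * b⁻¹ = a⁻¹) {y : Q} (hy : y ∉ center Q) :
    IsCyclic (centralizer ({y} : Set Q)) := by
  haveI := h.finite
  have hP : IsPGroup 2 (centralizer ({y} : Set Q)) := h.isPGroup.to_subgroup _
  rcases isCyclic_or_quaternion_of_forall_ea hP (fun E hE hc => by
    have h3 := isElementaryAbelian_map_subtype hE
    have h4 : E.map (Subgroup.subtype _) ≤ center Q := fun x hx => h.mem_center_of_sq_eq_one h1 h2 (h3.2 x hx)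
    have h5 := card_le_of_le h4
    rw [card_map_of_injective (Subgroup.subtype_injective _), hc, h.card_center] at h5
    norm_num at h5) with h3 | ⟨-, m, c, d, h3, -⟩
  · exact h3
  · exfalso
    have hyc : y ∈ centralizer ({y} : Set Q) := mem_centralizer_singleton_iff.2 rfl
    have h4 : (⟨y, hyc⟩ : centralizer ({y} : Set Q)) ∈ center _ :=
      mem_center_iff.2 fun g => Subtype.ext (mem_centralizer_singleton_iff.1 g.2)
    have h5 := (h3.card_center ▸ Subgroup.orderOf_dvd_natCard _ h4 :)
    exact hy (h.mem_center_of_sq_eq_one h1 h2 (congrArg Subtype.val (orderOf_dvd_iff_pow_eq_one.1 h5)))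


/-- Let G be a finite non-abelian nilpotent group. Then the centralizer of every non-central element of G is cyclic if and only if G is isomorphic to the direct product of a generalized quaternion group and a cyclic group of odd order. -/
theorem result {G : Type*} [Group G] [Finite G] (hG : Group.IsNilpotent G)
    (hna : ¬ IsMulCommutative G) :
    (∀ x : G, x ∉ Subgroup.center G → IsCyclic (Subgroup.centralizer ({x} : Set G))) ↔
      ∃ (k m : ℕ), 1 ≤ k ∧ Odd m ∧ Nonempty (G ≃* QuaternionGroup (2 ^ k) × Multiplicative (ZMod m)) := by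
  constructor
  · intro h
    obtain ⟨x0, hx0⟩ : ∃ x0 : G, x0 ∉ center G := by
      by_contra h1
      push Not at h1
      exact hna ⟨⟨fun a b => mem_center_iff.1 (h1 b) a⟩⟩
    have hE : ∀ (p : ℕ), p.Prime → ∀ (H : Subgroup G) (E : Subgroup H), IsElementaryAbelian p E →
        Nat.card E ≠ p ^ 2 := by
      intro p hp H E hE hc
      have h3 := isElementaryAbelian_map_subtype hE
      refine not_isCyclic_of_ea hp h3 (by rw [card_map_of_injective H.subtype_injective, hc]) ?_
      by_cases h4 : E.map H.subtype ≤ center G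
      · haveI := h x0 hx0
        exact isCyclic_of_le (h4.trans (center_le_centralizer {x0}))
      · obtain ⟨y, hy, hy'⟩ := SetLike.not_le_iff_exists.1 h4
        haveI := h y hy'
        haveI := h3.1
        exact isCyclic_of_le (H' := centralizer {y}) fun z hz =>
          mem_centralizer_singleton_iff.2 (setLike_mul_comm hz hy)
    obtain ⟨P⟩ : Nonempty (Sylow 2 G) := inferInstance
    have hN : HasNormalPComplement 2 G := hasNormalPComplement_of_isNilpotent
    have hc := (HasNormalPComplement.isComplement' hN P).symm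
    have hodd := hasNormalPComplement_iff_coprime_pResidual.1 hN
    set K := pResidual 2 G
    have hcomm : ∀ (a : P) (b : K), Commute (a : G) (b : G) := fun a b =>
      commute_of_coprime_orderOf_of_isNilpotent (orderOf_coprime_of_mem_isPGroup P.2 a.2
        (hodd.coprime_dvd_left (Subgroup.orderOf_dvd_natCard K b.2)).symm)
    let e : ↥(P : Subgroup G) × K ≃* G :=
      ((CL.Perm.prodEquivSup (P : Subgroup G) K hcomm hc.disjoint.eq_bot).trans
        (MulEquiv.subgroupCongr hc.sup_eq_top)).trans topEquiv
    haveI : IsZGroup K := by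
      refine ⟨fun p hp Q => ?_⟩
      haveI := Fact.mk hp
      have hQ : IsPGroup p ((Q : Subgroup K).map K.subtype) := Q.2.map _
      rw [((Q : Subgroup K).equivMapOfInjective K.subtype K.subtype_injective).isCyclic]
      rcases isCyclic_or_quaternion_of_forall_ea hQ (hE p hp _) with h1 | ⟨rfl, n, a, b, h1, -⟩
      · exact h1
      · exfalso
        have h2 := card_dvd_of_le (map_subtype_le (Q : Subgroup K))
        rw [h1.card] at h2
        exact absurd (hodd.coprime_dvd_left ((dvd_pow_self 2 (Nat.succ_ne_zero n)).trans h2)) (by norm_num)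
    have hK : IsCyclic K := inferInstance
    rcases isCyclic_or_nonempty_quaternion_of_forall_ea P.2 (hE 2 Nat.prime_two _) with h1 | ⟨-, k, ⟨f⟩⟩
    · exfalso
      obtain ⟨j, hj⟩ := IsPGroup.iff_card.1 P.2
      have h2 : IsCyclic (↥(P : Subgroup G) × K) :=
        Group.isCyclic_prod_iff.2 ⟨h1, hK, hj ▸ Nat.Coprime.pow_left j hodd.symm⟩
      rw [e.isCyclic] at h2
      exact hna inferInstance
    · exact ⟨k + 1, Nat.card K, by omega, Nat.coprime_two_right.1 hodd,
        ⟨e.symm.trans (f.prodCongr (zmodCyclicMulEquiv hK).symm)⟩⟩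
  · rintro ⟨k, m, hk, hm, ⟨e⟩⟩ x hx
    obtain ⟨a, b, h, h1, h2⟩ := exists_dqsGen_of_quaternion (G := QuaternionGroup (2 ^ k)) (n := k + 1)
      (by omega) (MulEquiv.refl _)
    have hy : (e x).1 ∉ center (QuaternionGroup (2 ^ k)) := fun hy => hx (mem_center_iff.2 fun g =>
      e.injective (by
        rw [map_mul, map_mul]
        exact Prod.ext (mem_center_iff.1 hy _) (mul_comm _ _)))
    have h3 := isCyclic_centralizer_quat h h1 h2 hy
    haveI := h.finite
    obtain ⟨j, hj⟩ := IsPGroup.iff_card.1 (h.isPGroup.to_subgroup (centralizer {(e x).1}))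
    haveI : IsCyclic (centralizer ({(e x).1} : Set (QuaternionGroup (2 ^ k))) × Multiplicative (ZMod m)) :=
      Group.isCyclic_prod_iff.2 ⟨h3, inferInstance, by
        rw [hj, Nat.card_congr Multiplicative.toAdd, Nat.card_zmod]
        exact Nat.Coprime.pow_left j (Nat.coprime_two_left.2 hm)⟩
    let f : centralizer ({x} : Set G) →*
        centralizer ({(e x).1} : Set (QuaternionGroup (2 ^ k))) × Multiplicative (ZMod m) :=
      MonoidHom.prod (((MonoidHom.fst _ _).comp (e.toMonoidHom.comp (Subgroup.subtype _))).codRestrict _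
        fun g => mem_centralizer_singleton_iff.2 (by
          have := congrArg (fun t => (e t).1) (mem_centralizer_singleton_iff.1 g.2)
          simpa using this))
        ((MonoidHom.snd _ _).comp (e.toMonoidHom.comp (Subgroup.subtype _)))
    refine isCyclic_of_injective f fun u v huv => Subtype.ext (e.injective (Prod.ext ?_ ?_))
    · exact congrArg Subtype.val (congrArg Prod.fst huv)
    · have := congrArg Prod.snd huv
      exact this

end Cfsg.Agent.S4370
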