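import Cfsg.Statements.S4377
import Cfsg.Agent.Base

set_option autoImplicit false
open Cfsg
open scoped Pointwise

namespace Cfsg.Agent.S4377

/-- Two finite groups have the same number of elements of each order if and only if, for every n, they have the same number of elements g with gⁿ = 1. -/
theorem result {G H : Type*} [Group G] [Finite G] [Group H] [Finite H] :
    (∀ n : ℕ, Nat.card {g : G // orderOf g = n} = Nat.card {h : H // orderOf h = n}) ↔
      ∀ n : ℕ, Nat.card {g : G // g ^ n = 1} = Nat.card {h : H // h ^ n = 1} := by
  classical
  haveI := Fintype.ofFinite G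
  haveI := Fintype.ofFinite H
  constructor
  · intro h n
    have e : ∀ m : ℕ, {g : G // orderOf g = m} ≃ {g : H // orderOf g = m} :=
      fun m => (Finite.card_eq.1 (h m)).some
    let f : G ≃ H := Equiv.ofFiberEquiv e
    have hf : ∀ g, orderOf (f g) = orderOf g := fun g => Equiv.ofFiberEquiv_map e g
    apply Nat.card_congr
    refine f.subtypeEquiv fun g => ?_
    rw [← orderOf_dvd_iff_pow_eq_one, ← orderOf_dvd_iff_pow_eq_one, hf]
  · intro h n
    simp only [Nat.card_eq_fintype_card, Fintype.card_subtype] at h ⊢
    induction n using Nat.strong_induction_on with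
    | _ n ih =>
      rcases Nat.eq_zero_or_pos n with rfl | hn
      · rw [Finset.card_eq_zero.2, Finset.card_eq_zero.2]
        · exact Finset.filter_eq_empty_iff.2 fun x _ => (orderOf_pos x).ne'
        · exact Finset.filter_eq_empty_iff.2 fun x _ => (orderOf_pos x).ne'
      · have h1 : ∑ m ∈ n.divisors, (Finset.univ.filter fun x : G => orderOf x = m).card =
            ∑ m ∈ n.divisors, (Finset.univ.filter fun x : H => orderOf x = m).card := by
          rw [sum_card_orderOf_eq_card_pow_eq_one hn.ne', sum_card_orderOf_eq_card_pow_eq_one hn.ne']
          convert h n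
        rw [← Nat.cons_self_properDivisors hn.ne', Finset.sum_cons, Finset.sum_cons,
          Finset.sum_congr rfl fun m hm => ih m (Nat.mem_properDivisors.1 hm).2] at h1
        omega

end Cfsg.Agent.S4377
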