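import Cfsg.Statements.S4381
import Cfsg.Agent.Grp.CoprimeAct
import Cfsg.Agent.Grp.PGroupFrattini
import Cfsg.Agent.Grp.Fitting
import Cfsg.Agent.Loc.SigGen

set_option autoImplicit false
open Pointwise
open Cfsg

namespace Cfsg.Agent.S4381

section Helpers
open Subgroup CL.Grp

variable {A G : Type*} [Group A] [Finite A] [Group G] [Finite G] [MulDistribMulAction A G]

/-- maximal invariant subgroups -/
def MaxInv (A : Type*) {G : Type*} [Group A] [Group G] [MulDistribMulAction A G] (M : Subgroup G) : Prop :=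
  M ≠ ⊤ ∧ (∀ a : A, ∀ x ∈ M, a • x ∈ M) ∧
    ∀ L : Subgroup G, M < L → (∀ a : A, ∀ x ∈ L, a • x ∈ L) → L = ⊤

omit [Finite A] in
theorem exists_maxInv {U : Subgroup G} (h1 : U ≠ ⊤) (h2 : ∀ a : A, ∀ x ∈ U, a • x ∈ U) :
    ∃ M, MaxInv A M ∧ U ≤ M := by
  obtain ⟨M, h3, h4⟩ := Finite.exists_le_maximal
    (p := fun M : Subgroup G => M ≠ ⊤ ∧ ∀ a : A, ∀ x ∈ M, a • x ∈ M) ⟨h1, h2⟩
  refine ⟨M, ⟨h4.1.1, h4.1.2, fun L hL hL' => ?_⟩, h3⟩
  by_contra h
  exact hL.not_ge (h4.2 ⟨h, hL'⟩ hL.le)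

omit [Finite A] in
theorem MaxInv.frattini_le {M : Subgroup G} (h : MaxInv A M) : frattini G ≤ M := by
  by_contra hc
  refine h.1 (frattini_nongenerating (h.2.2 _ (left_lt_sup.2 hc) ?_))
  rw [invariant_iff_smul_eq]
  intro a
  rw [Subgroup.smul_sup, invariant_iff_smul_eq.1 h.2.1 a,
    invariant_iff_smul_eq.1 (smul_mem_of_characteristic (frattini G)) a]

theorem exists_compl {p : ℕ} [Fact p.Prime] (hG : IsPGroup p G)
    (hcop : (Nat.card A).Coprime (Nat.card G)) {L : Subgroup G} (hL : frattini G ≤ L)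
    (hL' : ∀ a : A, ∀ x ∈ L, a • x ∈ L) : ∃ W : Subgroup G, (∀ a : A, ∀ x ∈ W, a • x ∈ W) ∧
      L ⊓ W = frattini G ∧ L ⊔ W = ⊤ := by
  letI := quotAction (frattini G) (smul_mem_of_characteristic (A := A) (frattini G))
  have hc := isMulCommutative_quotient_frattini hG
  letI : CommGroup (G ⧸ frattini G) := { mul_comm := hc.1.1 }
  have hea : IsElementaryAbelian p (⊤ : Subgroup (G ⧸ frattini G)) :=
    CL.Loc.ea_iff.2 ⟨fun a _ b _ => mul_comm a b, fun a _ => quotient_frattini_pow_eq_one hG a⟩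
  obtain ⟨E, -, h1, h2⟩ := CL.Loc.ea_exists_compl hea (le_top (a := L.map (QuotientGroup.mk' _)))
  obtain ⟨W, h3, h4, h5⟩ := act_exists_invariant_complement (A := A) (U := L.map (QuotientGroup.mk' _))
    (W := E) (by rintro a _ ⟨x, hx, rfl⟩; exact ⟨a • x, hL' a x hx, rfl⟩)
    (hcop.coprime_dvd_right ((card_map_dvd _ _).trans L.card_subgroup_dvd_card))
    (by rwa [inf_comm]) (by rwa [sup_comm])
  have h6 : (L.map (QuotientGroup.mk' (frattini G))).comap (QuotientGroup.mk' (frattini G)) = L :=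
    comap_map_eq_self (by rwa [QuotientGroup.ker_mk'])
  refine ⟨W.comap (QuotientGroup.mk' _), fun a x hx => h3 a _ hx, ?_, ?_⟩
  · rw [← h6, ← comap_inf, h4, MonoidHom.comap_bot, QuotientGroup.ker_mk']
  · rw [← h6, comap_sup_eq _ _ _ (QuotientGroup.mk'_surjective _), h5, comap_top]

omit [Finite A] in
theorem uniq (h : ∀ L : Subgroup G, frattini G < L → (∀ a : A, ∀ x ∈ L, a • x ∈ L) → L = ⊤)
    (M : Subgroup G) : MaxInv A M ↔ M = frattini G ∧ M ≠ ⊤ := by
  refine ⟨fun hM => ⟨?_, hM.1⟩, ?_⟩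
  · by_contra hc
    exact hM.1 (h M (lt_of_le_of_ne hM.frattini_le (Ne.symm hc)) hM.2.1)
  · rintro ⟨rfl, h1⟩
    exact ⟨h1, smul_mem_of_characteristic _, h⟩

end Helpers

/-- Let the finite group A act by automorphisms on the finite group G with the orders of A and G coprime, and assume that A or G is solvable. Call a proper A-invariant subgroup of G maximal A-invariant when no A-invariant subgroup lies strictly between it and G. Then all maximal A-invariant subgroups of G are conjugate under elements of the fixed-point subgroup C_G(A) if and only if G is a p-group for some prime p and A leaves invariant no subgroup strictly between the Frattini subgroup of G and G. In that case, if G is nontrivial, the Frattini subgroup is the only maximal A-invariant subgroup (a trivial G has none). -/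
theorem result {A G : Type*} [Group A] [Finite A]
    [Group G] [Finite G] [MulDistribMulAction A G] (hcop : (Nat.card A).Coprime (Nat.card G)) (hsol : Group.IsSolvable A ∨ Group.IsSolvable G) :
    ((∀ M N : Subgroup G, (M ≠ ⊤ ∧ (∀ a : A, ∀ x ∈ M, a • x ∈ M) ∧ ∀ L : Subgroup G, M < L → (∀ a : A, ∀ x ∈ L, a • x ∈ L) → L = ⊤) → (N ≠ ⊤ ∧ (∀ a : A, ∀ x ∈ N, a • x ∈ N) ∧ ∀ L : Subgroup G, N < L → (∀ a : A, ∀ x ∈ L, a • x ∈ L) → L = ⊤) →
        ∃ c : G, (∀ a : A, a • c = c) ∧ N = MulAut.conj c • M) ↔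
      ((∃ p : ℕ, p.Prime ∧ IsPGroup p G) ∧ ∀ L : Subgroup G, frattini G < L → (∀ a : A, ∀ x ∈ L, a • x ∈ L) → L = ⊤)) ∧
    (((∃ p : ℕ, p.Prime ∧ IsPGroup p G) ∧ ∀ L : Subgroup G, frattini G < L → (∀ a : A, ∀ x ∈ L, a • x ∈ L) → L = ⊤) →
      ∀ M : Subgroup G, (M ≠ ⊤ ∧ (∀ a : A, ∀ x ∈ M, a • x ∈ M) ∧ ∀ L : Subgroup G, M < L → (∀ a : A, ∀ x ∈ L, a • x ∈ L) → L = ⊤) ↔ (M = frattini G ∧ M ≠ ⊤)) := by
  refine ⟨⟨fun h => ?_, fun h M N hM hN => ⟨1, fun a => smul_one a, ?_⟩⟩, fun h => uniq h.2⟩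
  · have h1 : ∃ p : ℕ, p.Prime ∧ IsPGroup p G := by
      by_contra hc
      push Not at hc
      have key : ∀ (p : ℕ) [Fact p.Prime], ∃ P : Sylow p G, ∃ M, MaxInv A M ∧ (P : Subgroup G) ≤ M := by
        intro p _
        obtain ⟨P, hP⟩ := CL.Grp.act_exists_sylow p hcop hsol
        exact ⟨P, exists_maxInv (fun h => hc p Fact.out
          (P.isPGroup'.of_surjective (P : Subgroup G).subtype fun g => ⟨⟨g, h ▸ Subgroup.mem_top g⟩, rfl⟩)) hP⟩
      obtain ⟨-, M, hM, -⟩ := key 2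
      refine hM.1 (CL.Grp.eq_top_of_forall_sylow_le fun p _ => ?_)
      obtain ⟨P, N, hN, hP⟩ := key p
      obtain ⟨c, -, rfl⟩ := h N M hN hM
      exact ⟨c • P, Subgroup.pointwise_smul_le_pointwise_smul_iff.2 hP⟩
    refine ⟨h1, fun L hL hL' => ?_⟩
    obtain ⟨p, hp, hG⟩ := h1
    haveI := Fact.mk hp
    obtain ⟨W, h2, h3, h4⟩ := exists_compl hG hcop hL.le hL'
    by_contra hc
    obtain ⟨M, hM, hLM⟩ := exists_maxInv hc hL'
    obtain ⟨N, hN, hWN⟩ := exists_maxInv (U := W) (fun h5 => hL.ne' (by simpa [h5] using h3)) h2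
    obtain ⟨c, -, rfl⟩ := h M N hM hN
    have hn : M.Normal := Subgroup.Normal.of_commutator_le G
      ((CL.Grp.commutator_le_frattini hG).trans hM.frattini_le)
    rw [CL.Grp.conj_smul_eq_of_mem_normalizer (by rw [Subgroup.normalizer_eq_top]; trivial)] at hWN
    exact hM.1 (top_le_iff.1 (h4.ge.trans (sup_le hLM hWN)))
  · rw [map_one, one_smul, ((uniq h.2 M).1 hM).1, ((uniq h.2 N).1 hN).1]

end Cfsg.Agent.S4381
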