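import Cfsg.Statements.S4383
import Cfsg.Agent.Even.Amb2
import Cfsg.Agent.Grp.Hall

set_option autoImplicit false
open Pointwise
open Cfsg

namespace Cfsg.Agent.S4383

open Subgroup CL.Even CL.Grp

universe u

section
variable {G : Type u} [Group G] [Finite G]

theorem ex_max {H : Subgroup G} (h : H ≠ ⊤) : ∃ M, IsCoatom M ∧ H ≤ M := (eq_top_or_exists_le_coatom H).resolve_left h

omit [Finite G] in
theorem index_cj (g : G) (H : Subgroup G) : (cj g H).index = H.index :=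
  index_map_of_bijective (MulAut.conj g).bijective H

/-- intersections of maximal subgroups -/
theorem key {q β : ℕ} [Fact q.Prime] (hq : ∀ Y : Subgroup G, IsPGroup q Y → Y ≠ ⊥ → 𝒩(Y) ≠ ⊤) {A : Subgroup G}
    (ha : ¬ q ∣ A.index) (h : ∀ M, IsCoatom M → (∃ g, cj g A = M) ∨ Nat.card M = β) (Y : Subgroup G) :
    IsPGroup q Y → Y ≤ A → ∀ M, IsCoatom M → M ≠ A → Y ≤ M → Nat.card Y ∣ β := by
  induction Y using WellFoundedGT.induction with | _ Y ih
  intro hY hA M hM hne hYM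
  by_cases h0 : Y = ⊥
  · simp [h0]
  obtain ⟨M', hM', h1⟩ := ex_max (hq Y hY h0)
  obtain ⟨g, rfl⟩ | e := h M hM
  swap; · exact e ▸ card_dvd_of_le hYM
  obtain ⟨k, hk⟩ | e := h M' hM'
  swap; · exact e ▸ card_dvd_of_le (le_normalizer.trans h1)
  obtain ⟨S, hS, h2⟩ := exists_isSylowIn_ge hY hA
  obtain ⟨T, hT, h3⟩ := exists_isSylowIn_ge hY hYM
  rcases h2.eq_or_lt with rfl | h2
  · have sy : IsSylowIn q Y ⊤ := ⟨le_top, hY, fun d => by
      rw [← relIndex_mul_relIndex Y A ⊤ hA le_top, relIndex_top_right] at d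
      exact ((Fact.out : q.Prime).dvd_mul.1 d).elim hS.not_dvd ha⟩
    have u : ∀ x, Y ≤ cj x M' → cj x M' = M' := fun x hx => by
      obtain ⟨c, hc, e⟩ := syl_conj ((cj_top x⁻¹ ▸ syl_cj sy x⁻¹).of_le (le_cj_iff.1 hx) le_top)
        (sy.of_le (le_normalizer.trans h1) le_top)
      exact cj_eq (le_normalizer (inv_mem_iff.1 ((mul_mem_cancel_left hc).1 (h1 (cj_eq_iff_mem.1 (cj_mul c _ _ ▸ e))))))
    have e : cj k⁻¹ M' = A := hk ▸ cj_inv_cj k A
    have e' : M' = A := (u _ (e ▸ hA)).symm.trans e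
    exact (hne (e' ▸ u g (e' ▸ hYM))).elim
  by_cases e : M' = A
  · have h4 : Y < T := lt_of_le_of_ne h3 fun e' => by
      have := hT.card_le (isPGroup_cj hS.isPGroup g) (cj_mono g hS.le)
      rw [card_cj, ← e'] at this
      exact h2.ne (eq_of_le_of_card_ge h2.le this)
    have h5 := lt_inf_normalizer_of_isPGroup hT.isPGroup h4
    exact (card_dvd_of_le h5.le).trans (ih _ h5 hT.isPGroup.to_inf_left (inf_le_right.trans (e ▸ h1)) _ hM hne
      (inf_le_left.trans hT.le))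
  · have h5 := lt_inf_normalizer_of_isPGroup hS.isPGroup h2
    exact (card_dvd_of_le h5.le).trans (ih _ h5 hS.isPGroup.to_inf_left (inf_le_left.trans hS.le) _ hM' e
      (inf_le_right.trans h1))

theorem idx_le (hq : ∀ q : ℕ, q.Prime → ∀ Y : Subgroup G, IsPGroup q Y → Y ≠ ⊥ → 𝒩(Y) ≠ ⊤) {A B : Subgroup G}
    (hA : IsCoatom A) {g : G} (hg : cj g A ≠ A) (hc : A.index.Coprime B.index)
    (h : ∀ M, IsCoatom M → (∃ g, cj g A = M) ∨ Nat.card M = Nat.card B) : B.index ≤ A.index := by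
  have h1 : (cj g A).relIndex A ≤ A.index := by
    rw [← index_cj g A, ← relIndex_top_right]
    exact relIndex_le_of_le_right le_top (index_ne_zero_of_finite (H := (cj g A).subgroupOf ⊤))
  refine (Nat.le_of_dvd (Nat.pos_of_ne_zero index_ne_zero_of_finite)
    ((Nat.dvd_iff_prime_pow_dvd_dvd _ _).2 fun q k hp hk => ?_)).trans h1
  rcases k with _ | k
  · simp
  have : Fact q.Prime := ⟨hp⟩
  have ha : ¬ q ∣ A.index := fun d => hp.ne_one (Nat.eq_one_of_dvd_coprimes hc d ((dvd_pow_self q k.succ_ne_zero).trans hk))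
  obtain ⟨Y, hY⟩ := exists_isSylowIn q (cj g A ⊓ A)
  have h2 := mul_dvd_mul hk (key (hq q hp) ha h Y hY.isPGroup (hY.le.trans inf_le_right) _
    ((OrderIso.isCoatom_iff (MulAut.conj g).mapSubgroup A).2 hA) hg (hY.le.trans inf_le_left))
  rw [B.index_mul_card, ← Y.index_mul_card, ← relIndex_mul_index hY.le, ← relIndex_mul_index inf_le_right,
    inf_relIndex_right, Nat.mul_dvd_mul_iff_right Nat.card_pos] at h2
  exact (Nat.Coprime.pow_left _ (hp.coprime_iff_not_dvd.2 ha)).dvd_of_dvd_mul_right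
    ((Nat.Coprime.pow_left _ (hp.coprime_iff_not_dvd.2 hY.not_dvd)).dvd_of_dvd_mul_left h2)

theorem ex_over (hq : ∀ q : ℕ, q.Prime → ∀ Y : Subgroup G, IsPGroup q Y → Y ≠ ⊥ → 𝒩(Y) ≠ ⊤) {p : ℕ} (hp : p.Prime)
    (hd : p ∣ Nat.card G) : ∃ B : Subgroup G, IsCoatom B ∧ ¬ p ∣ B.index ∧ ∃ g, cj g B ≠ B := by
  have : Fact p.Prime := ⟨hp⟩
  obtain ⟨P, hP⟩ := exists_isSylowIn p (⊤ : Subgroup G)
  obtain ⟨B, hB, h⟩ := ex_max (hq p hp P hP.isPGroup fun e => hP.not_dvd (by rwa [e, relIndex_bot_left, card_top]))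
  refine ⟨B, hB, relIndex_top_right B ▸ hP.not_dvd_relIndex_of_le (le_normalizer.trans h) le_top, ?_⟩
  by_contra! k
  refine hB.1 (eq_top_iff.2 fun g hg => ?_)
  obtain ⟨n, hn, e⟩ := (hP.of_le (le_normalizer.trans h) le_top).frattini (fun x _ => cj_eq_iff_mem.1 (k x)) hg
  exact (mul_mem_cancel_left hn).1 (h e)

end

theorem solv (n : ℕ) : ∀ (G : Type u) [Group G] [Finite G], Nat.card G = n → ∀ A B : Subgroup G,
    (∀ M, IsCoatom M → ∃ g, M = cj g A ∨ M = cj g B) → Group.IsSolvable G := by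
  induction n using Nat.strong_induction_on with | _ n ih
  intro G _ _ hn A B h
  by_cases hq : ∀ q : ℕ, q.Prime → ∀ Y : Subgroup G, IsPGroup q Y → Y ≠ ⊥ → 𝒩(Y) ≠ ⊤
  · by_contra hs
    have three : ∀ {A' B' : Subgroup G}, IsCoatom A' → IsCoatom B' → A'.index ≠ B'.index → ∀ M, IsCoatom M →
        (∃ g, cj g A' = M) ∨ ∃ g, cj g B' = M := fun hA hB hne M hM => by
      have e : ∀ (a b : G) (X : Subgroup G), ∃ g, cj g (cj a X) = cj b X := fun a b X => ⟨b * a⁻¹, by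
        rw [cj_mul, cj_inv_cj]⟩
      obtain ⟨a, rfl | rfl⟩ := h _ hA <;> obtain ⟨b, rfl | rfl⟩ := h _ hB <;> obtain ⟨c, rfl | rfl⟩ := h _ hM <;>
        simp_all
    have pr : ∀ {X : Subgroup G}, IsCoatom X → ∃ p : ℕ, p.Prime ∧ p ∣ X.index := fun hX =>
      Nat.exists_prime_and_dvd fun e => hX.1 (index_eq_one.1 e)
    obtain ⟨p, hp, hd⟩ := Nat.exists_prime_and_dvd (n := Nat.card G) fun e => by
      have := (Nat.card_eq_one_iff_unique.1 e).1
      exact hs inferInstance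
    obtain ⟨B', hB, -, b, hb⟩ := ex_over hq hp hd
    obtain ⟨q, hq', hd'⟩ := pr hB
    obtain ⟨A', hA, h1, a, ha⟩ := ex_over hq hq' (hd'.trans B'.index_dvd_card)
    have hne : A'.index ≠ B'.index := fun e => h1 (e ▸ hd')
    have hc : A'.index.Coprime B'.index := Nat.eq_one_iff_not_exists_prime_dvd.2 fun r hr d => by
      obtain ⟨M, hM, h2, -⟩ := ex_over hq hr ((d.trans (Nat.gcd_dvd_left _ _)).trans A'.index_dvd_card)
      obtain ⟨g, rfl⟩ | ⟨g, rfl⟩ := three hA hB hne M hM <;> rw [index_cj] at h2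
      exacts [h2 (d.trans (Nat.gcd_dvd_left _ _)), h2 (d.trans (Nat.gcd_dvd_right _ _))]
    exact hne (le_antisymm
      (idx_le hq hB hb hc.symm fun M hM => (three hA hB hne M hM).symm.imp_right fun ⟨g, e⟩ => e ▸ card_cj g _)
      (idx_le hq hA ha hc fun M hM => (three hA hB hne M hM).imp_right fun ⟨g, e⟩ => e ▸ card_cj g _))
  push Not at hq
  obtain ⟨q, hp, Y, hY, h0, h1⟩ := hq
  have : Fact q.Prime := ⟨hp⟩
  have : Y.Normal := normalizer_eq_top_iff.1 h1
  have := hY.isNilpotent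
  have sur := QuotientGroup.mk'_surjective Y
  have := ih _ (((Nat.lt_mul_iff_one_lt_right Nat.card_pos).2 (Y.one_lt_card_iff_ne_bot.2 h0)).trans_eq
    ((card_eq_card_quotient_mul_card_subgroup Y).symm.trans hn)) (G ⧸ Y) rfl (A.map (QuotientGroup.mk' Y))
    (B.map (QuotientGroup.mk' Y)) fun M hM => by
      obtain ⟨g, e⟩ := h _ (isCoatom_comap_of_surjective sur hM)
      have k : ∀ X : Subgroup G, M.comap (QuotientGroup.mk' Y) = cj g X → M = cj (g : G ⧸ Y) (X.map (QuotientGroup.mk' Y)) :=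
        fun X e => by
          rw [← map_comap_eq_self_of_surjective sur M, e, map_map, map_map]
          rfl
      exact ⟨g, e.imp (k A) (k B)⟩
  exact Group.isSolvable_of_ker_le_range Y.subtype (QuotientGroup.mk' Y) (by simp)

/-- A finite group with exactly two conjugacy classes of maximal subgroups is solvable and its order has exactly two prime divisors. -/
theorem result {G : Type*} [Group G] [Finite G]
    (M₁ M₂ : Subgroup G) (h1 : IsCoatom M₁) (h2 : IsCoatom M₂) (hne : ∀ g : G, M₂ ≠ MulAut.conj g • M₁)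
    (hall : ∀ M : Subgroup G, IsCoatom M → ∃ g : G, M = MulAut.conj g • M₁ ∨ M = MulAut.conj g • M₂) :
    Group.IsSolvable G ∧ (Nat.card G).primeFactors.card = 2 := by
  have hs := solv _ G rfl M₁ M₂ hall
  refine ⟨hs, le_antisymm ((Finset.card_le_card (t := {M₁.index.minFac, M₂.index.minFac}) fun p hp => ?_).trans
    Finset.card_le_two) ?_⟩
  · obtain ⟨H, hH⟩ := exists_piHall_of_solvable {p}ᶜ G
    obtain ⟨M, hM, h3⟩ := ex_max (H := H) fun e => hH.1 p (Nat.prime_of_mem_primeFactors hp)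
      (by rw [e, card_top]; exact Nat.dvd_of_mem_primeFactors hp) rfl
    have h4 : p = M.index.minFac := by
      by_contra k
      exact hH.2 _ (Nat.minFac_prime fun e => hM.1 (index_eq_one.1 e)) (Ne.symm k)
        ((Nat.minFac_dvd _).trans (index_dvd_of_le h3))
    obtain ⟨g, rfl | rfl⟩ := hall M hM <;> rw [show ∀ X : Subgroup G, (MulAut.conj g • X).index = X.index from index_cj g]
      at h4 <;> simp [← h4]
  by_contra! k
  obtain ⟨p, hp, hd⟩ := Nat.exists_prime_and_dvd fun e => h1.1 (index_eq_one.1 e)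
  have : Fact p.Prime := ⟨hp⟩
  have hP : IsPGroup p G := IsPGroup.iff_card.2 ⟨_, Nat.eq_prime_pow_of_unique_prime_dvd Nat.card_pos.ne' fun hr d =>
    Finset.card_le_one.1 (Nat.le_of_lt_succ k) _ (Nat.mem_primeFactors.2 ⟨hr, d, Nat.card_pos.ne'⟩) _
      (Nat.mem_primeFactors.2 ⟨hp, hd.trans M₁.index_dvd_card, Nat.card_pos.ne'⟩)⟩
  have := hP.isNilpotent
  have n : ∀ M : Subgroup G, IsCoatom M → ∀ g : G, MulAut.conj g • M = M := fun M hM g =>
    (Group.normalizerCondition_of_isNilpotent.normal_of_coatom M hM).conj_smul_eq_self g M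
  have hne' : M₂ ≠ M₁ := n M₁ h1 1 ▸ hne 1
  obtain ⟨a, a1, a2⟩ := SetLike.not_le_iff_exists.1 fun e => hne' ((h1.le_iff_eq h2.1).1 e)
  obtain ⟨b, b2, b1⟩ := SetLike.not_le_iff_exists.1 fun e => hne'.symm ((h2.le_iff_eq h1.1).1 e)
  have c1 : a * b ∉ M₁ := fun e => b1 ((mul_mem_cancel_left a1).1 e)
  have c2 : a * b ∉ M₂ := fun e => a2 ((mul_mem_cancel_right b2).1 e)
  have top : zpowers (a * b) = ⊤ := by
    by_contra e
    obtain ⟨M, hM, h3⟩ := ex_max e
    obtain ⟨g, rfl | rfl⟩ := hall M hM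
    exacts [c1 (n M₁ h1 g ▸ h3 (mem_zpowers _)), c2 (n M₂ h2 g ▸ h3 (mem_zpowers _))]
  have dv : ∀ {M : Subgroup G} {i : ℕ}, a * b ∉ M → (a * b) ^ i ∈ M → p ∣ i := fun {M i} e1 e2 => by
    by_contra e
    obtain ⟨j, hj⟩ := IsPGroup.iff_orderOf.1 hP (a * b)
    exact e1 (mem_of_pow_mem_of_coprime (hj ▸ Nat.Coprime.pow_left j (hp.coprime_iff_not_dvd.2 e)) e2)
  obtain ⟨i, hi⟩ := mem_powers_iff_mem_zpowers.2 (top.ge (mem_top a))
  obtain ⟨j, hj⟩ := mem_powers_iff_mem_zpowers.2 (top.ge (mem_top b⁻¹))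
  replace hi : (a * b) ^ i = a := hi
  replace hj : (a * b) ^ j = b⁻¹ := hj
  exact hp.not_dvd_one ((Nat.dvd_add_right (dv c2 (hj ▸ inv_mem b2))).1 (dv c1 (by
    rw [add_comm, pow_add, pow_one, hj, mul_inv_cancel_right]; exact a1)))

end Cfsg.Agent.S4383
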