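import Cfsg.Statements.S4387
import Cfsg.Agent.Fgs.ClassBasic
import Cfsg.Agent.Grp.Fitting
import Cfsg.Agent.Grp.SylowIn

set_option autoImplicit false
open Pointwise
open Cfsg

namespace Cfsg.Agent.S4387

/-- Let G be a non-trivial finite group in which any two maximal subgroups are conjugate. Then G is cyclic of prime-power order. -/
theorem result {G : Type*} [Group G] [Finite G] [Nontrivial G]
    (h : ∀ M N : Subgroup G, IsCoatom M → IsCoatom N → ∃ g : G, N = MulAut.conj g • M) :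
    IsCyclic G ∧ IsPrimePow (Nat.card G) := by
  obtain ⟨M, hM, -⟩ := (eq_top_or_exists_le_coatom (⊥ : Subgroup G)).resolve_left bot_ne_top
  obtain ⟨x, hx⟩ := CL.Fgs.exists_forall_conj_not_mem hM.1
  have htop : Subgroup.zpowers x = ⊤ := by
    by_contra hne
    obtain ⟨N, hN, hxN⟩ := (eq_top_or_exists_le_coatom _).resolve_left hne
    obtain ⟨g, rfl⟩ := h M N hM hN
    have := (CL.Grp.mem_conj_smul_iff g x M).1 (hxN (Subgroup.mem_zpowers x))
    exact hx g⁻¹ (by simpa using this)
  have hcyc : IsCyclic G := ⟨⟨x, fun y => by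
    have : y ∈ Subgroup.zpowers x := htop ▸ Subgroup.mem_top y
    exact this⟩⟩
  refine ⟨hcyc, ?_⟩
  have hMn : M.Normal := ⟨fun n hn g => by
    rw [hcyc.isMulCommutative.is_comm.comm g n]; simpa using hn⟩
  have hall : ∀ K : Subgroup G, K ≠ ⊤ → K ≤ M := by
    intro K hK
    obtain ⟨N, hN, hKN⟩ := (eq_top_or_exists_le_coatom _).resolve_left hK
    obtain ⟨g, rfl⟩ := h M N hM hN
    rwa [(CL.Grp.conj_smul_eq_self_iff g M).2 (by rw [Subgroup.normalizer_eq_top]; trivial)] at hKN
  by_contra hnot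
  apply hM.1
  apply CL.Grp.eq_top_of_forall_sylow_le
  intro p hp
  obtain ⟨P⟩ : Nonempty (Sylow p G) := inferInstance
  refine ⟨P, hall _ fun hP => hnot ?_⟩
  obtain ⟨k, hk⟩ := IsPGroup.iff_card.1 P.2
  rw [hP, Subgroup.card_top] at hk
  rw [hk]
  have hk0 : k ≠ 0 := by
    rintro rfl
    have := Finite.one_lt_card (α := G)
    rw [pow_zero] at hk
    omega
  exact hp.out.isPrimePow.pow hk0

end Cfsg.Agent.S4387
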