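import Cfsg.Statements.S4398
import Cfsg.Agent.Fgs.SecRank

set_option autoImplicit false
open Cfsg

namespace Cfsg.Agent.S4398

open CL.Grp CL.Fgs Subgroup


/-- Let S be a finite 2-group of sectional 2-rank at most 2 that contains a subgroup isomorphic to the dihedral group of order 8 or to the quaternion group of order 8. Then S is dihedral of order at least 8, semidihedral of order at least 16 (order 2^(k+4) with an element a of order 2^(k+3) and an involution b with b a b⁻¹ = a^(2^(k+2)−1)), or generalized quaternion of order at least 8. -/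
theorem result {S : Type*} [Group S] [Finite S] (h2 : IsPGroup 2 S) (hr : Cfsg.SectionalPRankLE 2 2 S)
    (hsub : ∃ H : Subgroup S, Nonempty (↥H ≃* DihedralGroup 4) ∨ Nonempty (↥H ≃* QuaternionGroup 2)) :
    ((∃ k : ℕ, Nonempty (S ≃* DihedralGroup (2 ^ (k + 2)))) ∨
      (∃ k : ℕ, Nat.card S = 2 ^ (k + 4) ∧ ∃ a b : S, orderOf a = 2 ^ (k + 3) ∧ orderOf b = 2 ∧ b * a * b⁻¹ = a ^ (2 ^ (k + 2) - 1)) ∨
      (∃ k : ℕ, Nonempty (S ≃* QuaternionGroup (2 ^ (k + 1))))) := by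
  obtain ⟨H, hH⟩ := hsub
  have h1 : ∃ (n : ℕ) (a b : H), DQSGen n a b := by
    rcases hH with ⟨⟨e⟩⟩ | ⟨⟨e⟩⟩
    · obtain ⟨a, b, h, -⟩ := exists_dqsGen_of_dihedral (n := 2) le_rfl e
      exact ⟨_, a, b, h⟩
    · obtain ⟨a, b, h, -⟩ := exists_dqsGen_of_quaternion (n := 2) le_rfl e
      exact ⟨_, a, b, h⟩
  obtain ⟨n, a, b, h⟩ := exists_dqsGen_of_secRank_two h2 hr H h1
  obtain ⟨k, rfl⟩ := Nat.exists_eq_add_of_le' h.two_le
  rcases h.rel with ⟨h3, h4⟩ | ⟨h3, h4⟩ | ⟨h3, h4, h5⟩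
  · exact Or.inl ⟨k, h.nonempty_dihedral h3 h4⟩
  · exact Or.inr (Or.inr ⟨k, h.nonempty_quaternion h3 h4⟩)
  · obtain ⟨j, rfl⟩ : ∃ j, k = j + 1 := ⟨k - 1, by omega⟩
    exact Or.inr (Or.inl ⟨j, h.card, a, b, h.ord, h.orderOf_eq_two h4, h5⟩)

end Cfsg.Agent.S4398
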