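import Cfsg.Statements.S4399
import Cfsg.Agent.Grp.PGroupMaxClass

set_option autoImplicit false
open Cfsg

namespace Cfsg.Agent.S4399

/-- Let S be a finite 2-group whose commutator quotient S/[S,S] is a Klein four-group (order 4 and exponent 2). Then S itself has order 4, or S is dihedral of order at least 8, semidihedral of order at least 16 (order 2^(k+4) with an element a of order 2^(k+3) and an involution b with b a b⁻¹ = a^(2^(k+2)−1)), or generalized quaternion of order at least 8. -/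
theorem result {S : Type*} [Group S] [Finite S] (h2 : IsPGroup 2 S) (hab : Nat.card (Abelianization S) = 4)
    (hexp : ∀ x : Abelianization S, x ^ 2 = 1) :
    Nat.card S = 4 ∨
    ((∃ k : ℕ, Nonempty (S ≃* DihedralGroup (2 ^ (k + 2)))) ∨
      (∃ k : ℕ, Nat.card S = 2 ^ (k + 4) ∧ ∃ a b : S, orderOf a = 2 ^ (k + 3) ∧ orderOf b = 2 ∧ b * a * b⁻¹ = a ^ (2 ^ (k + 2) - 1)) ∨
      (∃ k : ℕ, Nonempty (S ≃* QuaternionGroup (2 ^ (k + 1))))) := by
  obtain ⟨n, hn⟩ := h2.exists_card_eq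
  have hi : (commutator S).index = 4 := hab
  have h3 : 2 ≤ n := (Nat.pow_dvd_pow_iff_le_right one_lt_two).1
    (hn ▸ (hi ▸ Subgroup.index_dvd_card _ : 4 ∣ Nat.card S))
  rcases h3.eq_or_lt with rfl | h3
  · exact Or.inl hn
  obtain ⟨m, rfl⟩ : ∃ m, n = m + 2 + 1 := ⟨n - 3, by omega⟩
  obtain ⟨a, b, h⟩ := CL.Grp.exists_dqsGen_of_index_commutator_le (by omega) S hn hi.le
  rcases h.rel with ⟨h1, h2⟩ | ⟨h1, h2⟩ | ⟨h0, h1, h2⟩
  · exact Or.inr (Or.inl ⟨_, h.nonempty_dihedral h1 h2⟩)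
  · exact Or.inr (Or.inr (Or.inr ⟨m, h.nonempty_quaternion h1 h2⟩))
  · obtain ⟨k, rfl⟩ : ∃ k, m = k + 1 := ⟨m - 1, by omega⟩
    exact Or.inr (Or.inr (Or.inl ⟨k, hn, a, b, h.ord, h.orderOf_eq_two h1, h2⟩))

end Cfsg.Agent.S4399
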