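import Cfsg.Statements.S4400
import Cfsg.Agent.Fgs.SecRank2

set_option autoImplicit false
open Cfsg

namespace Cfsg.Agent.S4400

open CL.Fgs CL.Odd Subgroup

/-- Let S be a finite 2-group of sectional 2-rank at most 4, and let P and Q be normal non-abelian subgroups of S whose centres have order 2 and are different. Then P and Q commute elementwise and intersect trivially, and PQ contains its own centralizer in S. -/
theorem result {S : Type*} [Group S] [Finite S] (h2 : IsPGroup 2 S) (hr : Cfsg.SectionalPRankLE 2 4 S)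
    (P Q : Subgroup S) [P.Normal] [Q.Normal] (hP : ¬ IsMulCommutative ↥P) (hQ : ¬ IsMulCommutative ↥Q)
    (hZP : Nat.card ↥(Subgroup.center ↥P) = 2) (hZQ : Nat.card ↥(Subgroup.center ↥Q) = 2)
    (hne : (Subgroup.center ↥P).map P.subtype ≠ (Subgroup.center ↥Q).map Q.subtype) :
    ⁅P, Q⁆ = ⊥ ∧ P ⊓ Q = ⊥ ∧ Subgroup.centralizer ((P ⊔ Q : Subgroup S) : Set S) ≤ P ⊔ Q := by
  obtain ⟨z, hz⟩ := exists_zTwo hZP
  obtain ⟨w, hw⟩ := exists_zTwo hZQ
  have hzw : z ≠ w := by
    rintro rfl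
    apply hne
    rw [center_map_subtype, center_map_subtype]
    ext y
    exact ⟨fun hy => (hz.eq y hy).elim (fun e => e ▸ one_mem _) fun e => e ▸ hw.mem,
      fun hy => (hw.eq y hy).elim (fun e => e ▸ one_mem _) fun e => e ▸ hz.mem⟩
  have hi : P ⊓ Q = ⊥ := hz.inf_eq_bot hw hzw (h2.to_subgroup ⊤).isNilpotent
    (NormalIn.top_iff.2 inferInstance) (NormalIn.top_iff.2 inferInstance)
  have hc : ⁅P, Q⁆ = ⊥ := eq_bot_iff.2 (hi ▸ commutator_le_inf P Q)
  exact ⟨hc, hi, hz.cent_sup_le h2 hr hw hP hQ (comm_eq_bot_iff'.1 hc) hi⟩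

end Cfsg.Agent.S4400
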