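import Cfsg.Statements.S4401
import Cfsg.Agent.Fgs.SecRank2

set_option autoImplicit false
open Cfsg

namespace Cfsg.Agent.S4401

open CL.Fgs CL.Odd CL.Grp Subgroup
open scoped Pointwise commutatorElement

/-- Let S be a finite 2-group of sectional 2-rank at most 4 and P a proper non-abelian subgroup whose centre has order 2. Let S₀ be the centralizer in S of Z(P) and suppose P is normal in S₀. Then either S₀ = S, or P has sectional 2-rank at most 2 and S₀ has index 2 in S. -/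
theorem result {S : Type*} [Group S] [Finite S] (h2 : IsPGroup 2 S) (hr : Cfsg.SectionalPRankLE 2 4 S)
    (P : Subgroup S) (hPlt : P ≠ ⊤) (hP : ¬ IsMulCommutative ↥P) (hZP : Nat.card ↥(Subgroup.center ↥P) = 2)
    (S₀ : Subgroup S) (hS₀ : S₀ = Subgroup.centralizer (((Subgroup.center ↥P).map P.subtype : Subgroup S) : Set S))
    (hPn : ∀ s ∈ S₀, ∀ x ∈ P, s * x * s⁻¹ ∈ P) :
    S₀ = ⊤ ∨ (Cfsg.SectionalPRankLE 2 2 ↥P ∧ S₀.index = 2) := by
  obtain ⟨z, hz⟩ := exists_zTwo hZP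
  rw [center_map_subtype] at hS₀
  have hmem : ∀ s, s ∈ S₀ ↔ s * z * s⁻¹ = z := fun s => by
    rw [hS₀, mem_cent, mul_inv_eq_iff_eq_mul]
    exact ⟨fun h => (h z hz.mem).symm, fun h y hy => (hz.eq y hy).elim (fun e => by simp [e]) fun e => e ▸ h.symm⟩
  have hPS : P ⊴ S₀ := ⟨fun x hx => (hmem x).2 (hz.fix (le_norm_self P hx)), le_norm_iff.2 hPn⟩
  have hnil : ∀ H : Subgroup S, Group.IsNilpotent H := fun H => (h2.to_subgroup H).isNilpotent
  refine or_iff_not_imp_left.2 fun hT => ?_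
  have hcj : ∀ t ∈ N[S₀], cj t • P ⊴ S₀ := fun t ht => cj_eq_self ht ▸ hPS.conj t
  have hne : ∀ s t : S, s⁻¹ * t ∉ S₀ → s * z * s⁻¹ ≠ t * z * t⁻¹ := fun s t h e => h ((hmem _).2 (by
    calc s⁻¹ * t * z * (s⁻¹ * t)⁻¹ = s⁻¹ * (t * z * t⁻¹) * s := by group
      _ = z := by rw [← e]; group))
  have hinf : ∀ s ∈ N[S₀], ∀ t ∈ N[S₀], s⁻¹ * t ∉ S₀ → cj s • P ⊓ cj t • P = ⊥ := fun s hs t ht h =>
    (hz.conj s).inf_eq_bot (hz.conj t) (hne s t h) (hnil S₀) (hcj s hs) (hcj t ht)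
  have hcent : ∀ s ∈ N[S₀], ∀ t ∈ N[S₀], s⁻¹ * t ∉ S₀ → cj s • P ≤ C[cj t • P] := fun s hs t ht h =>
    le_cent_of_inf_eq_bot ((hcj t ht).1.trans (hcj s hs).2) ((hcj s hs).1.trans (hcj t ht).2) (hinf s hs t ht h)
  obtain ⟨t, ⟨-, ht⟩, ht'⟩ := SetLike.exists_of_lt (lt_inf_norm_of_nil (hnil ⊤) (lt_top_iff_ne_top.2 hT))
  have h1 : cj (1 : S) • P = P := by simp
  have hi : P ⊓ cj t • P = ⊥ := by simpa only [h1] using hinf 1 (one_mem _) t ht (by simpa using ht')
  have hc : cj t • P ≤ C[P] := by simpa only [h1] using hcent t ht 1 (one_mem _) (by simpa using ht')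
  have hQ : ¬ IsMulCommutative ↥(cj t • P) := fun h => hP (isMulCommutative_cj.1 h)
  have hC := hz.cent_sup_le h2 hr (hz.conj t) hP hQ hc hi
  have hZ : C[P ⊔ cj t • P] ≤ C[S₀] := by
    refine (le_inf hC le_rfl).trans ?_
    rw [(Cp.of_sup hc).center]
    exact sup_le (cent_symm (hPS.2.trans hz.cent)) (cent_symm ((hcj t ht).2.trans (hz.conj t).cent))
  have hidx : ∀ u ∈ N[S₀], u ∉ S₀ → u⁻¹ * t ∈ S₀ := by
    intro u hu hu'
    by_contra h
    have h3 : cj u • P ≤ C[P ⊔ cj t • P] :=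
      le_cent_sup (by simpa only [h1] using hcent u hu 1 (one_mem _) (by simpa using hu')) (hcent u hu t ht h)
    exact hP (isMulCommutative_cj.1 (abelian_iff.2 ((h3.trans hZ).trans (cent_anti (hcj u hu).1))))
  refine ⟨secRank_iff.2 fun H K hs => ?_, ?_⟩
  · have h3 := hs.map P.subtype
    have h5 : (H.map P.subtype).map (cj t).toMonoidHom ≤ cj t • P := map_mono (map_subtype_le H)
    have h4 := secRank_iff.1 hr _ _ (h3.sup (h3.map (cj t).toMonoidHom)
      (cent_le_cent_mono h5 (map_subtype_le H) hc))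
    rw [relIndex_sup_sup h3.1 (h3.map (cj t).toMonoidHom).1 (cent_le_cent_mono h5 (map_subtype_le H) hc)
      (eq_bot_iff.2 ((inf_le_inf (map_subtype_le H) h5).trans hi.le)),
      relIndex_map_map_of_injective (f := (cj t).toMonoidHom) _ _ (cj t).injective,
      relIndex_map_map_of_injective _ _ P.subtype_injective] at h4
    nlinarith
  have hN : N[S₀] = ⊤ := by
    by_contra hN
    obtain ⟨u, ⟨-, hu⟩, hu'⟩ := SetLike.exists_of_lt (lt_inf_norm_of_nil (hnil ⊤) (lt_top_iff_ne_top.2 hN))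
    have hzS : z ∈ S₀ := hPS.1 hz.mem.1
    have hz'S : t * z * t⁻¹ ∈ S₀ := (hcj t ht).1 (hz.conj t).mem.1
    have hfix' : ∀ s ∈ S₀, s * (t * z * t⁻¹) * s⁻¹ = t * z * t⁻¹ := fun s hs => (hz.conj t).fix ((hcj t ht).2 hs)
    have horb : ∀ n ∈ N[S₀], n * z * n⁻¹ = z ∨ n * z * n⁻¹ = t * z * t⁻¹ := fun n hn => by
      by_cases h : n ∈ S₀
      · exact Or.inl ((hmem n).1 h)
      · right
        by_contra e
        exact e (not_not.1 fun e' => by
          have := (hmem _).1 (S₀.inv_mem (hidx n hn h))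
          apply e'
          calc n * z * n⁻¹ = t * ((n⁻¹ * t)⁻¹ * z * (n⁻¹ * t)⁻¹⁻¹) * t⁻¹ := by group
            _ = t * z * t⁻¹ := by rw [this])
    have hzz : z * (t * z * t⁻¹) = t * z * t⁻¹ * z := (mul_inv_eq_iff_eq_mul.1 ((hmem _).1 hz'S)).symm
    have hy : ∀ n ∈ N[S₀], n * (z * (t * z * t⁻¹)) * n⁻¹ = z * (t * z * t⁻¹) := fun n hn => by
      have e : n * (z * (t * z * t⁻¹)) * n⁻¹ = (n * z * n⁻¹) * (n * (t * z * t⁻¹) * n⁻¹) := by group
      by_cases h : n ∈ S₀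
      · rw [e, (hmem n).1 h, hfix' n h]
      · have h3 : n * z * n⁻¹ = t * z * t⁻¹ := (horb n hn).resolve_left fun e => h ((hmem n).2 e)
        have h4 : n * t ∈ S₀ := by
          simpa using hidx n⁻¹ (inv_mem hn) (by simpa using h)
        have h5 : n * (t * z * t⁻¹) * n⁻¹ = z := by
          rw [← (hmem _).1 h4, (hmem _).1 h4]
          conv_rhs => rw [← (hmem _).1 h4]
          group
        rw [e, h3, h5, hzz]
    have hz2 : z * z = 1 := (hz.eq _ (mul_mem hz.mem hz.mem)).resolve_right fun e => hz.ne (by simpa using e)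
    set w := u * z * u⁻¹ with hw
    set y := u * (z * (t * z * t⁻¹)) * u⁻¹ with hy'
    have hyN : ∀ n ∈ N[S₀], n * y * n⁻¹ = y := fun n hn => by
      have := hy _ (conj_mem_of_norm' hu hn)
      calc n * y * n⁻¹ = u * (u⁻¹ * n * u * (z * (t * z * t⁻¹)) * (u⁻¹ * n * u)⁻¹) * u⁻¹ := by rw [hy']; group
        _ = y := by rw [this]
    have hwS : w ∈ S₀ := by
      have h3 : z ∈ ⁅N[S₀], N[S₀]⁆ := der_mono (hPS.1.trans (le_norm_self S₀)) (hz.mem_der (hnil P) hP)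
      have h4 : ⁅N[S₀], N[S₀]⁆ ≤ S₀ := commutator_le.2 fun a ha b hb => by
        by_cases h : a ∈ S₀
        · rw [commutatorElement_def, mul_assoc, mul_assoc, ← mul_assoc b]
          exact mul_mem h (conj_mem_of_norm hb (inv_mem h))
        by_cases h' : b ∈ S₀
        · exact mul_mem (conj_mem_of_norm ha h') (inv_mem h')
        have h5 : a⁻¹ * b ∈ S₀ := by
          simpa [mul_assoc] using mul_mem (hidx a ha h) (inv_mem (hidx b hb h'))
        have : ⁅a, b⁆ = a * (a * (a⁻¹ * b) * a⁻¹) * a⁻¹ * (a * (a⁻¹ * b)⁻¹ * a⁻¹) := by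
          rw [commutatorElement_def]; group
        rw [this]
        exact mul_mem (conj_mem_of_norm ha (conj_mem_of_norm ha h5)) (conj_mem_of_norm ha (inv_mem h5))
      exact h4 (conj_mem_of_norm (norm_le_norm_der _ hu) h3)
    have hcomm : ∀ n ∈ N[S₀], n * w * n⁻¹ * w⁻¹ = 1 ∨ n * w * n⁻¹ * w⁻¹ = y := fun n hn => by
      have e : n * w * n⁻¹ = u * (u⁻¹ * n * u * z * (u⁻¹ * n * u)⁻¹) * u⁻¹ := by rw [hw]; group
      rcases horb _ (conj_mem_of_norm' hu hn) with h | h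
      · left; rw [e, h, mul_inv_cancel]
      · right
        rw [e, h, hy', hzz, hw, ← inv_eq_of_mul_eq_one_right hz2, inv_eq_of_mul_eq_one_right hz2]
        conv_rhs => rw [← inv_eq_of_mul_eq_one_right hz2]
        rw [inv_eq_of_mul_eq_one_right hz2]
        have : z⁻¹ = z := inv_eq_of_mul_eq_one_right hz2
        calc u * (t * z * t⁻¹) * u⁻¹ * (u * z * u⁻¹)⁻¹ = u * (t * z * t⁻¹ * z⁻¹) * u⁻¹ := by group
          _ = u * (t * z * t⁻¹ * z) * u⁻¹ := by rw [this]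
    have hwc : ∀ s ∈ N[S₀], w ∈ C[cj s • P] := by
      intro s hs n hn
      have hnS := (hcj s hs).1 hn
      rcases hcomm n (le_norm_self _ hnS) with h | h
      · exact mul_inv_eq_iff_eq_mul.1 (mul_inv_eq_one.1 h)
      have h3 : y ∈ cj s • P := by
        rw [← h, mul_assoc, mul_assoc, ← mul_assoc w]
        exact mul_mem hn (conj_mem_of_norm ((hcj s hs).2 hwS) (inv_mem hn))
      rcases (hz.conj s).eq y ⟨h3, fun m hm =>
        mul_inv_eq_iff_eq_mul.1 (hyN m (le_norm_self _ ((hcj s hs).1 hm)))⟩ with e | e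
      · exact mul_inv_eq_iff_eq_mul.1 (mul_inv_eq_one.1 (h.trans e))
      · exfalso
        have h4 := hyN _ (mul_mem (mul_mem hs ht) (inv_mem hs))
        rw [e] at h4
        refine hne (s * t) s (by simpa [mul_assoc] using ht') ?_
        rw [← h4]; group
    have h3 : w ∈ C[S₀] := hZ (cent_sup P _ ▸ ⟨h1 ▸ hwc 1 (one_mem _), hwc t ht⟩)
    refine hu' (mem_norm_of_le_cj fun s hs => mem_cj.2 ((hmem _).2 ?_))
    calc u⁻¹ * s * u * z * (u⁻¹ * s * u)⁻¹ = u⁻¹ * (s * w) * s⁻¹ * u := by rw [hw]; group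
      _ = z := by rw [h3 s hs, hw]; group
  refine index_eq_two_iff.2 ⟨t, fun b => ?_⟩
  by_cases hb : b ∈ S₀
  · exact Or.inr ⟨hb, fun h => ht' ((S₀.mul_mem_cancel_left hb).1 h)⟩
  · exact Or.inl ⟨by simpa using hidx b⁻¹ (hN ▸ mem_top _) (by simpa using hb), hb⟩

end Cfsg.Agent.S4401
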