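import Cfsg.Statements.S4403
import Cfsg.Agent.Blk.CycGrp
import Cfsg.Agent.Loc.FStar2
import Cfsg.Agent.Grp.PNilp

set_option autoImplicit false
open Cfsg

namespace Cfsg.Agent.S4403

open CL.Grp CL.Loc CL.Blk Subgroup


/-- Let K be a finite group, p a prime dividing its order with O_{p'}(K) = 1 (no nontrivial normal subgroup of order prime to p), and P a cyclic Sylow p-subgroup of K. Then either P is normal and self-centralizing in K with K/P cyclic of order dividing p − 1 (so K is the semidirect product of P by a group of automorphisms of P of order dividing p − 1), or the generalized Fitting subgroup F*(K) is a non-abelian simple group and p does not divide the index of F*(K) in K. -/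
theorem result {K : Type*} [Group K] [Finite K] (p : ℕ) [Fact p.Prime] (hp : p ∣ Nat.card K) (hO : Cfsg.pPrimeCore p K = ⊥)
    (P : Sylow p K) (hP : IsCyclic ↥(P : Subgroup K)) :
    ((P : Subgroup K).Normal ∧ Subgroup.centralizer ((P : Subgroup K) : Set K) = (P : Subgroup K) ∧
      (∀ (_ : (P : Subgroup K).Normal), IsCyclic (K ⧸ (P : Subgroup K))) ∧ (P : Subgroup K).index ∣ p - 1) ∨
    (IsSimpleGroup ↥(Cfsg.generalizedFittingSubgroup K) ∧ ¬ IsMulCommutative ↥(Cfsg.generalizedFittingSubgroup K) ∧
      ¬ p ∣ (Cfsg.generalizedFittingSubgroup K).index) := by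
  classical
  have hpp : p.Prime := Fact.out
  have hPC : (P : Subgroup K) ≤ centralizer ((P : Subgroup K) : Set K) := cy_le_centralizer hP
  have hcyc : ∀ Q : Subgroup K, IsPGroup p Q → IsCyclic Q := fun Q hQ => by
    obtain ⟨R, hR⟩ := hQ.exists_le_sylow
    have : IsCyclic (R : Subgroup K) := isCyclic_of_surjective _ (P.equiv R).surjective
    exact Subgroup.isCyclic_of_le hR
  by_cases hO' : pCore p K = ⊥
  · right
    have hF : fittingSubgroup K = ⊥ := (fittingSubgroup_eq_pCore hO).trans hO'
    have hFs : generalizedFittingSubgroup K = layer K := by rw [fstar_def, hF, sup_bot_eq]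
    haveI : Nontrivial K := Finite.one_lt_card_iff_nontrivial.1
      (lt_of_lt_of_le hpp.one_lt (Nat.le_of_dvd Nat.card_pos hp))
    obtain ⟨L, hL⟩ : ∃ L : Subgroup K, IsComponent L := by
      by_contra h
      push Not at h
      exact fstar_ne_bot (hFs.trans (layer_eq_bot_iff.2 h))
    have hZ : ∀ M : Subgroup K, IsComponent M → M ⊓ centralizer (M : Set K) = ⊥ := fun M hM =>
      eq_bot_iff.2 (hF ▸ inf_centralizer_le_fitting hM.1)
    have hd : ∀ M : Subgroup K, IsComponent M → p ∣ Nat.card M := fun M hM => by
      by_contra h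
      exact IsComponent.ne_bot hM (eq_bot_iff.2 (hO ▸ le_pPrimeCore_of_isSubnormal hM.1
        ((hpp.coprime_iff_not_dvd.2 h).symm)))
    have huniq : ∀ M : Subgroup K, IsComponent M → M = L := fun M hM => by
      refine (IsComponent.eq_or_commutator_eq_bot hM hL).resolve_right fun h => ?_
      obtain ⟨x, hx⟩ := exists_prime_orderOf_dvd_card' p (hd M hM)
      obtain ⟨y, hy⟩ := exists_prime_orderOf_dvd_card' p (hd L hL)
      have hx' : Nat.card (zpowers (x : K)) = p := by rw [Nat.card_zpowers, orderOf_coe, hx]
      have hy' : Nat.card (zpowers (y : K)) = p := by rw [Nat.card_zpowers, orderOf_coe, hy]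
      have hc := commutator_eq_bot_iff_le_centralizer.1 h
      have h1 : IsPGroup p (zpowers (x : K) ⊔ zpowers (y : K) : Subgroup K) :=
        IsPGroup.to_sup_of_normal_right' (IsPGroup.of_card (n := 1) (by rw [hx', pow_one]))
          (IsPGroup.of_card (n := 1) (by rw [hy', pow_one]))
          (((zpowers_le.2 x.2).trans hc).trans ((centralizer_le (by
            exact_mod_cast zpowers_le.2 y.2)).trans (centralizer_le_normalizer _)))
      have h2 := cy_eq_of_card_eq (hcyc _ h1) le_sup_left le_sup_right (hx'.trans hy'.symm)
      have h3 : (y : K) ∈ L ⊓ centralizer (L : Set K) :=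
        ⟨y.2, hc (zpowers_le.2 x.2 (h2 ▸ mem_zpowers (y : K)))⟩
      rw [hZ L hL, mem_bot, OneMemClass.coe_eq_one] at h3
      rw [h3, orderOf_one] at hy
      exact hpp.one_lt.ne hy
    have hE : layer K = L :=
      le_antisymm (layer_le_iff.2 fun M hM => (huniq M hM).le) (IsComponent.le_layer hL)
    rw [hFs, hE]
    haveI hLn : L.Normal := hE ▸ layer_normal
    have hcen : center L = ⊥ := by
      rw [← map_eq_bot_iff_of_injective _ L.subtype_injective, map_center_subtype_eq_inf, hZ L hL]
    haveI := IsQuasisimple.nontrivial hL.2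
    refine ⟨⟨fun N hN => ((IsQuasisimple.normal_eq_top_or_le_center hL.2 N).symm.imp_left
      fun h => eq_bot_iff.2 (hcen ▸ h))⟩, fun h => IsQuasisimple.not_isSolvable hL.2
        (Group.isSolvable_of_comm h.1.1), ?_⟩
    have hPH : (P : Subgroup K) ≤ L ⊔ P := le_sup_right
    haveI : IsCyclic (P.subtype hPH : Subgroup (L ⊔ P : Subgroup K)) :=
      isCyclic_of_surjective _ (subgroupOfEquivOfLe hPH).symm.surjective
    rcases Sylow.normalizer_le_centralizer_or_le_commutator (P.subtype hPH) with h | h
    · exfalso
      have h1 := HasNormalPComplement.of_le (hasNormalPComplement_of_normalizer_le_centralizer _ h)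
        (le_sup_left : L ≤ L ⊔ P)
      haveI := IsQuasisimple.perfect hL.2
      rw [hasNormalPComplement_iff_not_dvd_pResidual, pResidual_eq_top_of_perfect, card_top] at h1
      exact h1 (hd L hL)
    · have h1 : (P : Subgroup K) ≤ L := by
        intro x hx
        have h2 : x ∈ ⁅L ⊔ P, L ⊔ P⁆ := by
          rw [← map_subtype_commutator]
          exact ⟨⟨x, hPH hx⟩, h (by exact hx), rfl⟩
        have h3 : (⁅L ⊔ P, L ⊔ P⁆ : Subgroup K).map (QuotientGroup.mk' L) = ⊥ := by
          rw [map_commutator, Subgroup.map_sup, (map_eq_bot_iff L).2 (QuotientGroup.ker_mk' L).ge,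
            bot_sup_eq, ← map_commutator, commutator_eq_bot_iff_le_centralizer.2 hPC, Subgroup.map_bot]
        rw [Subgroup.map_eq_bot_iff, QuotientGroup.ker_mk'] at h3
        exact h3 h2
      exact fun h2 => P.not_dvd_index (h2.trans (index_dvd_of_le h1))
  · left
    obtain ⟨Z, hZ, hZc⟩ := cy_exists_omega (pCore_isPGroup p K) hO'
    haveI hZn : Z.Normal := by
      rw [← normalizer_eq_top_iff, eq_top_iff]
      refine le_trans ?_ (cy_normalizer_le (hcyc _ (pCore_isPGroup p K)) hZ)
      rw [normalizer_eq_top]
    have hZP : Z ≤ P := hZ.trans (pCore_le_sylow P)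
    set C := centralizer (Z : Set K) with hC
    have hPC' : (P : Subgroup K) ≤ C := cy_le_centralizer_of_le hP hZP
    have hi : ¬ p ∣ (centralizer ((P : Subgroup K) : Set K)).relIndex
        (normalizer ((P : Subgroup K) : Set K)) := fun h => P.not_dvd_index
      ((h.trans (relIndex_dvd_index_of_le (centralizer_le_normalizer _))).trans (index_dvd_of_le hPC))
    have h1 : HasNormalPComplement p C := by
      refine hasNormalPComplement_of_normalizer_le_centralizer (P.subtype hPC') fun g hg => ?_
      have hg' : (g : K) ∈ normalizer ((P : Subgroup K) : Set K) := by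
        have := le_normalizer_map C.subtype (mem_map_of_mem C.subtype
          (show g ∈ normalizer (((P : Subgroup K).subgroupOf C : Subgroup C) : Set C) from hg))
        rwa [subgroupOf_map_subtype, inf_eq_left.2 hPC'] at this
      have := cy_mem_centralizer hP P.isPGroup' le_rfl hi hZP (cy_omega_ne_bot hZc) hg' g.2
      exact fun x hx => Subtype.ext (this x hx)
    have h2 : (pResidual p C).map C.subtype ≤ pPrimeCore p K := by
      refine le_pPrimeCore ?_
      rw [card_map_subtype]
      exact hasNormalPComplement_iff_coprime_pResidual.1 h1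
    rw [hO, le_bot_iff, map_eq_bot_iff_of_injective _ C.subtype_injective, pResidual_eq_bot_iff] at h2
    have h3 : C = P := P.3 h2 hPC'
    haveI : IsCyclic Z := isCyclic_of_prime_card hZc
    have hker : (MulAut.conjNormal : K →* MulAut Z).ker = P := by
      rw [← h3]
      ext g
      rw [MonoidHom.mem_ker, hC, mem_centralizer_iff]
      constructor
      · intro h z hz
        have := congrArg (fun φ : MulAut Z => ((φ ⟨z, hz⟩ : Z) : K)) h
        exact (mul_inv_eq_iff_eq_mul.1 this).symm
      · intro h
        ext z
        exact mul_inv_eq_iff_eq_mul.2 (h z z.2).symm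
    haveI : IsCyclic (MulAut Z) := by
      have e := IsCyclic.mulAutMulEquiv Z
      rw [hZc] at e
      exact isCyclic_of_injective e.toMonoidHom e.injective
    refine ⟨hker ▸ inferInstance, le_antisymm ((centralizer_le (by exact_mod_cast hZP)).trans h3.le) hPC,
      fun _ => ?_, ?_⟩
    · refine isCyclic_of_injective (QuotientGroup.lift _ MulAut.conjNormal hker.ge) ?_
      rw [injective_iff_map_eq_one]
      intro a ha
      induction a using QuotientGroup.induction_on with
      | H a => exact (QuotientGroup.eq_one_iff a).2 (hker ▸ ha)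
    · rw [← hker, index_ker, ← Nat.totient_prime hpp, ← hZc, ← IsCyclic.card_mulAut]
      exact card_subgroup_dvd_card _

end Cfsg.Agent.S4403
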