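import Cfsg.Statements.S4404
import Cfsg.Agent.Char.NG4404

set_option autoImplicit false
open Cfsg

namespace Cfsg.Agent.S4404

/-- Let S be a finite solvable group and M a normal elementary abelian 2-subgroup of S. Suppose S contains an elementary abelian subgroup of order p³ for some odd prime p, and a cyclic 3-subgroup Q such that the cubes of the elements of Q centralize M and the commutator subgroup [Q, M] has order 4 (a four-group inside M). Then S contains an elementary abelian subgroup F of order r³, for some odd prime r, whose centralizer of [Q, M] in F — the subgroup C_F([Q, M]) — is not cyclic. -/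
theorem result {S : Type*} [Group S] [Finite S]
    [Group.IsSolvable S] (M : Subgroup S) [M.Normal] (hM : Cfsg.IsElementaryAbelian 2 M)
    (p : ℕ) (hp : p.Prime) (hp2 : p ≠ 2) (E : Subgroup S) (hE : Cfsg.IsElementaryAbelian p E) (hE3 : Nat.card ↥E = p ^ 3)
    (Q : Subgroup S) (hQc : IsCyclic ↥Q) (hQ3 : IsPGroup 3 ↥Q)
    (hQ1 : ∀ x ∈ Q, x ^ 3 ∈ Subgroup.centralizer (M : Set S)) (hQM : Nat.card ↥⁅Q, M⁆ = 4) :
    ∃ (r : ℕ) (F : Subgroup S), r.Prime ∧ r ≠ 2 ∧ Cfsg.IsElementaryAbelian r F ∧ Nat.card ↥F = r ^ 3 ∧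
      ¬ IsCyclic ↥(F ⊓ Subgroup.centralizer ((⁅Q, M⁆ : Subgroup S) : Set S)) := by
  obtain ⟨x, rfl⟩ := CL.Odd.isCyclic_iff_exists_zpowers.1 hQc
  have := Fact.mk hp
  have : Fact (Nat.Prime 3) := ⟨Nat.prime_three⟩
  rw [Subgroup.commutator_comm] at hQM ⊢
  have hπ : ∀ {q : ℕ} {K : Subgroup S}, q = 3 ∨ q = p → IsPGroup q K → IsPiSubgroup {r | r = 3 ∨ r = p} K := by
    intro q K hq hK r hr hd
    have hq' : q.Prime := by rcases hq with rfl | rfl <;> exact Fact.out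
    have := Fact.mk hq'
    obtain ⟨n, hn⟩ := hK.exists_card_eq
    rwa [← (Nat.prime_dvd_prime_iff_eq hr hq').1 (hr.dvd_of_dvd_pow (hn ▸ hd))] at hq
  obtain ⟨H, hH, hQH⟩ := CL.Grp.exists_piHall_ge_of_solvable (hπ (Or.inl rfl) hQ3)
  obtain ⟨g, hg⟩ := (CL.Grp.hallD_of_solvable _ S).le_conj hH (hπ (Or.inr rfl) (CL.NG4404.ea_isP hE))
  have s : CL.NG4404.St M H := ⟨inferInstance, hM, Nat.not_even_iff_odd.1 fun h => by
    rcases hH.1 2 Nat.prime_two h.two_dvd with h | h <;> omega, fun h => by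
    have h5 := hH.1 5 Nat.prime_five (Dvd.dvd.trans (by norm_num) h)
    have h7 := hH.1 7 (by norm_num) (Dvd.dvd.trans (by norm_num) h)
    simp only [Set.mem_ofPred_eq] at h5 h7
    omega⟩
  have ex : CL.NG4404.El M H x := ⟨hQH (Subgroup.mem_zpowers x), hQ1 x (Subgroup.mem_zpowers x), hQM⟩
  have hE1 : E.map (MulAut.conj g⁻¹).toMonoidHom ≤ H := CL.Even.cj_le_iff.2 (by rw [inv_inv]; exact hg)
  have hE2 : IsElementaryAbelian p (E.map (MulAut.conj g⁻¹).toMonoidHom) := ⟨by have := hE.1; infer_instance, by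
    rintro _ ⟨a, ha, rfl⟩
    rw [← map_pow, hE.2 a ha, map_one]⟩
  have hE4 := (CL.Even.card_cj g⁻¹ E).trans hE3
  by_cases hp3 : p = 3
  swap
  · exact s.other ex hQ3 hp hp2 hp3 hE1 hE2 hE4
  subst hp3
  have h3 : IsPGroup 3 H := by
    have := Nat.eq_prime_pow_of_unique_prime_dvd (n := Nat.card H) (p := 3) Nat.card_pos.ne'
      fun hd hq => by simpa using hH.1 _ hd hq
    exact IsPGroup.of_card this
  obtain ⟨B, hn, hB, -, hc⟩ := CL.Odd.exists_normal_ea_three hp2 h3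
    (CL.Odd.not_pRankLE_subgroup_iff.2 ⟨_, hE1, hE2, hE4⟩) ⊥ ⟨inferInstance, by simp⟩ (by simp)
  have hB2 : IsElementaryAbelian 3 (B.map H.subtype) := ⟨by have := hB.1; infer_instance, by
    rintro _ ⟨a, ha, rfl⟩
    rw [← map_pow, hB.2 a ha, map_one]⟩
  have hc2 := (CL.Grp.hall_card_map_subtype B).trans hc
  refine ⟨3, _, hp, hp2, hB2, hc2, s.not_cyclic (s.le _) (by omega) le_rfl hp hp2 hB2 hc2
    (s.three h3 ex (Subgroup.map_subtype_le B) (CL.Even.le_norm_of_cj_le fun h hh => ?_) hB2)⟩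
  rintro _ ⟨_, ⟨b, hb, rfl⟩, rfl⟩
  exact ⟨_, hn.conj_mem b hb ⟨h, hh⟩, rfl⟩

end Cfsg.Agent.S4404
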