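import Cfsg.Statements.S4405
import Cfsg.Agent.Grp.ExtraIndex
import Cfsg.Agent.Inv.BaerSuzuki
import Cfsg.Agent.Grp.CoprimeAct
import Cfsg.Agent.Grp.Fitting
import Cfsg.Agent.Grp.Primitive
import Cfsg.Agent.Grp.PNilp

set_option autoImplicit false
open Cfsg

namespace Cfsg.Agent.S4405

open CL.Grp Subgroup
open scoped commutatorElement Pointwise

theorem card_inf_conj {G : Type*} [Group G] (Q : Subgroup G) [hQ : Q.Normal] (a c : G) :
    Nat.card (Q ⊓ centralizer {c * a * c⁻¹} : Subgroup G) = Nat.card (Q ⊓ centralizer {a} : Subgroup G) := by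
  rw [← card_conj_smul c (Q ⊓ centralizer {a})]
  congr 2
  ext x
  rw [mem_conj_smul_iff, mem_inf, mem_inf, mem_centralizer_singleton_iff,
    mem_centralizer_singleton_iff]
  refine and_congr ⟨fun h => ?_, fun h => ?_⟩ ⟨fun h => ?_, fun h => ?_⟩
  · simpa using hQ.conj_mem _ h c⁻¹
  · simpa [mul_assoc] using hQ.conj_mem _ h c
  · calc c⁻¹ * x * c * a = c⁻¹ * (x * (c * a * c⁻¹)) * c := by group
      _ = a * (c⁻¹ * x * c) := by rw [h]; group
  · calc x * (c * a * c⁻¹) = c * (c⁻¹ * x * c * a) * c⁻¹ := by group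
      _ = c * a * c⁻¹ * x := by rw [h]; group


/-- Let G be a finite group of order 320 = 64·5 whose largest normal 2-subgroup H = O₂(G) equals the Fitting subgroup F(G) and is extraspecial of order 32 containing no elementary abelian subgroup of order 8 (so H is the central product of a quaternion group and a dihedral group of order 8). If T is an involution of G outside H whose centralizer in H contains an elementary abelian subgroup of order 4, then C_H(T) itself is elementary abelian of order 4. -/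
theorem result {G : Type*} [Group G] [Finite G]
    (hG : Nat.card G = 320) (hHF : Cfsg.pCore 2 G = Cfsg.fittingSubgroup G)
    (hex : Cfsg.IsExtraspecial 2 ↥(Cfsg.pCore 2 G)) (h32 : Nat.card ↥(Cfsg.pCore 2 G) = 32)
    (hminus : ∀ A : Subgroup G, A ≤ Cfsg.pCore 2 G → Cfsg.IsElementaryAbelian 2 A → Nat.card ↥A ≤ 4)
    (T : G) (hT : orderOf T = 2) (hTH : T ∉ Cfsg.pCore 2 G)
    (V : Subgroup G) (hV : V ≤ Cfsg.pCore 2 G ⊓ Subgroup.centralizer ({T} : Set G)) (hV4 : Nat.card ↥V = 4) (hVe : Cfsg.IsElementaryAbelian 2 V) :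
    Nat.card ↥(Cfsg.pCore 2 G ⊓ Subgroup.centralizer ({T} : Set G)) = 4 ∧
      Cfsg.IsElementaryAbelian 2 (Cfsg.pCore 2 G ⊓ Subgroup.centralizer ({T} : Set G)) := by
  classical
  haveI : Fact (Nat.Prime 2) := ⟨Nat.prime_two⟩
  haveI : Fact (Nat.Prime 5) := ⟨Nat.prime_five⟩
  set H := pCore 2 G with hH
  set Z := H ⊓ centralizer (H : Set G) with hZ
  set C := H ⊓ centralizer ({T} : Set G) with hC
  have hTT : T * T = 1 := by rw [← sq, ← hT, pow_orderOf_eq_one]
  have hTi : T⁻¹ = T := inv_eq_of_mul_eq_one_right hTT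
  have hZc : Nat.card Z = 2 := extra_card_inf_centralizer hex
  have hZcen : Z ≤ center G := by
    intro z hz
    rw [mem_center_iff]
    intro g
    by_cases h1 : z = 1
    · rw [h1, mul_one, one_mul]
    obtain ⟨w, -, hw⟩ := (Nat.card_eq_two_iff' (1 : Z)).1 hZc
    have h2 := hw ⟨z, hz⟩ (fun h => h1 (congrArg Subtype.val h))
    have h3 := hw ⟨g * z * g⁻¹, (inferInstance : Z.Normal).conj_mem z hz g⟩
      (fun h => h1 (conj_eq_one_iff.1 (congrArg Subtype.val h)))
    exact mul_inv_eq_iff_eq_mul.1 (congrArg Subtype.val (h3.trans h2.symm))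
  have hsol : Group.IsSolvable G := by
    have h1 : Nat.card (G ⧸ H) = 10 := by
      have := H.card_mul_index
      rw [h32, hG] at this
      rw [← index_eq_card]; omega
    haveI : IsZGroup (G ⧸ H) := IsZGroup.of_squarefree (by
      rw [h1]; exact Nat.squarefree_mul_iff.2 ⟨by norm_num, Nat.prime_two.prime.squarefree,
        Nat.prime_five.prime.squarefree⟩)
    haveI := (pCore_isPGroup 2 G).isNilpotent
    exact (Group.isSolvable_iff_subgroup_quotient H).2 ⟨inferInstance, inferInstance⟩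
  have hCH : centralizer (H : Set G) ≤ H := by
    have := centralizer_fittingSubgroup_le G
    rwa [← hHF] at this
  obtain ⟨x, hx1, hxo, -, g, hxg⟩ := CL.Inv.invol_inverts_odd_of_not_mem hTT
    fun h => hTH (le_pCore h (subset_normalClosure rfl))
  have hx5 : orderOf x = 5 := by
    have h1 : orderOf x ∣ 2 ^ 6 * 5 := (show Nat.card G = 2 ^ 6 * 5 from hG) ▸ orderOf_dvd_natCard x
    have h2 := (Nat.Coprime.pow_right 6 (Nat.coprime_two_right.2 hxo)).dvd_of_dvd_mul_left h1
    exact ((Nat.dvd_prime Nat.prime_five).1 h2).resolve_left fun h => hx1 (orderOf_eq_one_iff.1 h)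
  set π := QuotientGroup.mk' Z with hπ
  have hker : π.ker = Z := QuotientGroup.ker_mk' Z
  set Hb := H.map π with hHb
  haveI : Hb.Normal := Normal.map inferInstance π (QuotientGroup.mk'_surjective Z)
  have hHb16 : Nat.card Hb = 16 := by
    have := card_eq_card_inf_ker_mul_card_map π H
    rw [hker, inf_eq_left.2 (inf_le_left : Z ≤ H), hZc, h32, ← hHb] at this
    omega
  have hcomm : Hb ≤ centralizer (Hb : Set (G ⧸ Z)) := by
    rw [← commutator_eq_bot_iff_le_centralizer, hHb, ← map_commutator, Subgroup.map_eq_bot_iff, hker,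
      extra_commutator_self_eq hex]
  have hsq : ∀ y ∈ Hb, y * y = 1 := by
    rintro _ ⟨y, hy, rfl⟩
    rw [← map_mul, ← MonoidHom.mem_ker, hker, ← sq]
    exact extra_pow_mem_inf hex hy
  have hfpf : Hb ⊓ centralizer ((zpowers (π x) : Subgroup (G ⧸ Z)) : Set (G ⧸ Z)) = ⊥ := by
    have h1 : IsPGroup 5 (zpowers (π x)) := by
      rw [← MonoidHom.map_zpowers]
      exact (IsPGroup.of_card (n := 1) (by rw [Nat.card_zpowers, hx5, pow_one])).map π
    have h2 := card_modEq_card_inf_centralizer h1 (K := Hb) le_normalizer_of_normal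
    have h3 := card_dvd_of_le (inf_le_left :
      Hb ⊓ centralizer ((zpowers (π x) : Subgroup (G ⧸ Z)) : Set (G ⧸ Z)) ≤ Hb)
    rw [hHb16] at h2 h3
    obtain ⟨k, hk, hk'⟩ := (Nat.dvd_prime_pow Nat.prime_two (m := 4)).1 h3
    rw [hk'] at h2
    interval_cases k
    · exact card_eq_one.1 hk'
    · exact absurd h2 (by decide)
    · exact absurd h2 (by decide)
    · exact absurd h2 (by decide)
    · exfalso
      have h4 := eq_of_le_of_card_ge (inf_le_left :
        Hb ⊓ centralizer ((zpowers (π x) : Subgroup (G ⧸ Z)) : Set (G ⧸ Z)) ≤ Hb) (by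
          rw [hHb16, hk']; norm_num)
      have h5 : ⁅H, zpowers x⁆ ≤ Z := by
        rw [← hker, ← Subgroup.map_eq_bot_iff, map_commutator, MonoidHom.map_zpowers,
          commutator_eq_bot_iff_le_centralizer]
        exact h4.ge.trans inf_le_right
      have h6 := le_centralizer_of_commutator_le_of_le_centralizer (A := zpowers x) (K := H)
        le_normalizer_of_normal (by rw [Nat.card_zpowers, hx5, h32]; norm_num) h5
        (le_centralizer_iff.1 (hZcen.trans (center_le_centralizer _)))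
      exact hx1 (eq_one_of_coprime_of_mem (pCore_isPGroup 2 G) (hCH (h6 (mem_zpowers x)))
        (Nat.coprime_two_right.2 hxo))
  set D := Hb ⊓ centralizer {π T} with hD
  have hD4 : Nat.card D ≤ 4 := by
    set D' := Hb ⊓ centralizer {π g * π T * (π g)⁻¹} with hD'
    have h1 : D ⊓ D' = ⊥ := by
      rw [eq_bot_iff, ← hfpf]
      rintro y ⟨hy1, hy2⟩
      refine ⟨hy1.1, mem_centralizer_iff.2 ?_⟩
      rintro _ ⟨k, rfl⟩
      obtain ⟨l, rfl⟩ := hxg
      have f1 : Commute (π T) y := (mem_centralizer_singleton_iff.1 hy1.2).symm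
      have f2 : Commute (π g * π T * (π g)⁻¹) y := (mem_centralizer_singleton_iff.1 hy2.2).symm
      simp only [map_zpow, map_mul, map_inv]
      exact (((f1.mul_left f2).zpow_left l).zpow_left k).eq
    have h2 := card_sup_of_inf_eq_bot (H := D) (K := D') ((inf_le_left.trans hcomm).trans
      ((centralizer_le (by exact_mod_cast inf_le_left)).trans (centralizer_le_normalizer _))) h1
    have h3 := card_le_of_le (sup_le inf_le_left inf_le_left : D ⊔ D' ≤ Hb)
    rw [h2, hD', card_inf_conj, ← hD, hHb16] at h3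
    nlinarith
  have hZC : Z ≤ C := le_inf inf_le_left (hZcen.trans (center_le_centralizer _))
  have hCD : C.map π ≤ D := by
    rintro _ ⟨y, hy, rfl⟩
    refine ⟨mem_map_of_mem π hy.1, mem_centralizer_singleton_iff.2 ?_⟩
    rw [← map_mul, ← map_mul, mem_centralizer_singleton_iff.1 hy.2]
  have hC4 : Nat.card C ≤ 4 := by
    by_contra hlt
    have h1 := card_eq_card_inf_ker_mul_card_map π C
    rw [hker, inf_eq_left.2 hZC, hZc] at h1
    have h2 := card_dvd_of_le (hCD.trans inf_le_left)
    have h3 := card_le_of_le hCD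
    rw [hHb16] at h2
    have h4 : Nat.card (C.map π) = 4 := by
      have : Nat.card (C.map π) ≠ 3 := fun h => by rw [h] at h2; exact absurd h2 (by decide)
      omega
    have h5 : Nat.card D = 4 := by omega
    let f : Hb →* G ⧸ Z := MonoidHom.mk' (fun h => h * π T * (h : G ⧸ Z)⁻¹ * (π T)⁻¹) fun a b => by
      have hb : (b : G ⧸ Z) * π T * (b : G ⧸ Z)⁻¹ * (π T)⁻¹ ∈ Hb := by
        have := mul_mem b.2 ((inferInstance : Hb.Normal).conj_mem _ (inv_mem b.2) (π T))
        simpa only [mul_assoc] using this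
      have hTa : π T * (a : G ⧸ Z)⁻¹ * (π T)⁻¹ ∈ Hb :=
        (inferInstance : Hb.Normal).conj_mem _ (inv_mem a.2) (π T)
      have := mem_centralizer_iff.1 (hcomm hb) _ hTa
      calc ((a * b : Hb) : G ⧸ Z) * π T * ((a * b : Hb) : G ⧸ Z)⁻¹ * (π T)⁻¹
          = a * ((b * π T * (b : G ⧸ Z)⁻¹ * (π T)⁻¹) * (π T * (a : G ⧸ Z)⁻¹ * (π T)⁻¹)) := by
            push_cast; group
        _ = _ := by rw [← this]; group
    have hf : ∀ h : Hb, f h = h * π T * (h : G ⧸ Z)⁻¹ * (π T)⁻¹ := fun h => rfl
    have hfk : f.ker = D.subgroupOf Hb := by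
      ext h
      rw [MonoidHom.mem_ker, hf, mem_subgroupOf, hD, mem_inf, mem_centralizer_singleton_iff,
        mul_inv_eq_one, mul_inv_eq_iff_eq_mul]
      exact ⟨fun e => ⟨h.2, e⟩, fun e => e.2⟩
    have hfr : f.range ≤ D := by
      rintro _ ⟨h, rfl⟩
      have hb : f h ∈ Hb := by
        have := mul_mem h.2 ((inferInstance : Hb.Normal).conj_mem _ (inv_mem h.2) (π T))
        simpa only [hf, mul_assoc] using this
      refine ⟨hb, mem_centralizer_singleton_iff.2 ?_⟩
      have e1 : (f h)⁻¹ = f h := inv_eq_of_mul_eq_one_right (hsq _ hb)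
      have e2 : (π T)⁻¹ = π T := by rw [← map_inv, hTi]
      conv_rhs => rw [← e1]
      rw [hf]
      simp only [mul_inv_rev, e2, mul_assoc]
      rw [← map_mul, hTT, map_one, mul_one, ← mul_assoc (π T) (π T), ← map_mul, hTT, map_one, one_mul]
      exact congrArg (· * _) (inv_inv _).symm
    have hfr' : f.range = D := by
      refine eq_of_le_of_card_ge hfr ?_
      have := f.ker.card_mul_index
      rw [index_ker, hfk, card_subgroupOf_of_le inf_le_left, h5, hHb16] at this
      omega
    have hsqC : ∀ c ∈ C, c * c = 1 := by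
      intro c hc
      obtain ⟨⟨_, h, hh, rfl⟩, e⟩ := hfr'.ge (hCD (mem_map_of_mem π hc))
      rw [hf] at e
      simp only [← map_mul, ← map_inv] at e
      obtain ⟨z, hz, e'⟩ := (QuotientGroup.mk'_eq_mk' Z).1 e
      have e1 : h * T * h⁻¹ * T⁻¹ ∈ C := by
        rw [eq_mul_inv_of_mul_eq e']
        exact mul_mem hc (inv_mem (hZC hz))
      have e2 := mem_centralizer_singleton_iff.1 e1.2
      have e3 : (h * T * h⁻¹ * T⁻¹) * (h * T * h⁻¹ * T⁻¹) = 1 := by
        have e6 : T * (h * T * h⁻¹ * T⁻¹) * T⁻¹ = (h * T * h⁻¹ * T⁻¹)⁻¹ := by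
          simp only [mul_inv_rev, inv_inv, hTi, mul_assoc, hTT, mul_one]
        rw [← e2, mul_inv_cancel_right] at e6
        exact mul_eq_one_iff_eq_inv.2 e6
      have e4 : z * z = 1 := by rw [← sq]; exact extra_pow_eq_one_of_mem_inf hex hz
      have e5 := mem_center_iff.1 (hZcen hz) (h * T * h⁻¹ * T⁻¹)
      rw [← e', mul_assoc, ← mul_assoc z, ← e5, mul_assoc _ z z, e4, mul_one, e3]
    have := hminus C inf_le_left ⟨⟨⟨fun a b => Subtype.ext (by
      have := hsqC _ (mul_mem a.2 b.2)
      rw [← mul_inv_eq_one, coe_mul, coe_mul, mul_inv_rev,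
        inv_eq_of_mul_eq_one_right (hsqC _ a.2), inv_eq_of_mul_eq_one_right (hsqC _ b.2)]
      exact this)⟩⟩, fun a ha => by rw [sq]; exact hsqC a ha⟩
    exact hlt this
  have hVC : V = C := eq_of_le_of_card_ge hV (hV4 ▸ hC4)
  exact hVC ▸ ⟨hV4, hVe⟩

end Cfsg.Agent.S4405
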