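import Cfsg.Statements.S4406
import Cfsg.Agent.Grp.SylowIn

set_option autoImplicit false
open Cfsg

namespace Cfsg.Agent.S4406

section Helpers
open Subgroup CL.Grp

abbrev A4 := ↥(alternatingGroup (Fin 4))

theorem f0 : ∀ u : A4, u ^ 2 = 1 ∨ u ^ 3 = 1 := by decide +kernel

theorem f1 : ∀ a : A4, a ^ 3 = 1 → a ≠ 1 → ∀ u : A4, u ^ 2 = 1 → u ≠ 1 → ∀ w : A4, w ^ 2 = 1 → w ≠ 1 →
    w ≠ u → (a * u * a⁻¹ = w ∧ a * w * a⁻¹ = u * w) ∨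
      (a⁻¹ * u * a⁻¹⁻¹ = w ∧ a⁻¹ * w * a⁻¹⁻¹ = u * w) := by decide +kernel

theorem f2 : ∀ u : A4, u ^ 2 = 1 → u ≠ 1 → ∀ w : A4, w ^ 2 = 1 → w ≠ 1 → w ≠ u → ∀ t : A4, t ^ 2 = 1 →
    t = 1 ∨ t = u ∨ t = w ∨ t = u * w := by decide +kernel

theorem f3 {p q k : ℕ} (h : p.Coprime q) {u : A4} (h1 : u ^ p ^ k = 1) (h2 : u ^ p = 1 ∨ u ^ q = 1) :
    u ^ p = 1 :=
  h2.elim id fun h2 => by
    rw [orderOf_eq_one_iff.1 (Nat.eq_one_of_dvd_coprimes (h.pow_left k) (orderOf_dvd_of_pow_eq_one h1)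
      (orderOf_dvd_of_pow_eq_one h2)), one_pow]

theorem f4 (Q : Sylow 3 (A4 × A4)) (N : Subgroup (A4 × A4)) [N.Normal] {x : A4 × A4} (hx : x ∈ N)
    (h3 : x ^ 3 = 1) (h1 : x ≠ 1) : ∃ y ∈ (Q : Subgroup (A4 × A4)), y ∈ N ∧ y ≠ 1 := by
  obtain ⟨g, hg⟩ := exists_conj_le_sylow Q (U := zpowers x) (IsPGroup.of_card (n := 1) (by
    rw [Nat.card_zpowers, orderOf_eq_prime h3 h1, pow_one]))
  exact ⟨_, hg (conj_mem_conj_smul g (mem_zpowers x)), Normal.conj_mem inferInstance x hx g,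
    by simpa using h1⟩

theorem f5 : ∃ a : A4, a ^ 3 = 1 ∧ a ≠ 1 := by decide +kernel

end Helpers

/-- In the direct product P = A₄ × A₄, let X be the Sylow 2-subgroup, X₁ and X₂ its intersections with the two direct factors, Q a Sylow 3-subgroup and Q₁, Q₂ its intersections with the two factors. Then every subgroup B of X of order 4 either meets X₁ or X₂ nontrivially, or is normalized by one of the two subgroups of Q of order 3 other than Q₁ and Q₂. -/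
theorem result
    (X : Sylow 2 (↥(alternatingGroup (Fin 4)) × ↥(alternatingGroup (Fin 4))))
    (Q : Sylow 3 (↥(alternatingGroup (Fin 4)) × ↥(alternatingGroup (Fin 4))))
    (B : Subgroup (↥(alternatingGroup (Fin 4)) × ↥(alternatingGroup (Fin 4)))) (hBX : B ≤ (X : Subgroup _)) (hB4 : Nat.card ↥B = 4) :
    B ⊓ ((X : Subgroup _) ⊓ Subgroup.prod ⊤ ⊥) ≠ ⊥ ∨ B ⊓ ((X : Subgroup _) ⊓ Subgroup.prod ⊥ ⊤) ≠ ⊥ ∨
      ∃ R : Subgroup (↥(alternatingGroup (Fin 4)) × ↥(alternatingGroup (Fin 4))), R ≤ (Q : Subgroup _) ∧ Nat.card ↥R = 3 ∧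
        R ≠ (Q : Subgroup _) ⊓ Subgroup.prod ⊤ ⊥ ∧ R ≠ (Q : Subgroup _) ⊓ Subgroup.prod ⊥ ⊤ ∧ R ≤ Subgroup.normalizer (B : Set _) := by
  by_contra hc
  push Not at hc
  obtain ⟨hc1, hc2, hc3⟩ := hc
  have hX : ∀ x ∈ B, x.1 ^ 2 = 1 ∧ x.2 ^ 2 = 1 := fun x hx => by
    obtain ⟨k, hk⟩ := X.isPGroup' ⟨x, hBX hx⟩
    have h1 : x ^ 2 ^ k = 1 := congrArg Subtype.val hk
    exact ⟨f3 (q := 3) (by norm_num) (congrArg Prod.fst h1) (f0 _),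
      f3 (q := 3) (by norm_num) (congrArg Prod.snd h1) (f0 _)⟩
  have hQ : ∀ x ∈ (Q : Subgroup (A4 × A4)), x.1 ^ 3 = 1 ∧ x.2 ^ 3 = 1 := fun x hx => by
    obtain ⟨k, hk⟩ := Q.isPGroup' ⟨x, hx⟩
    have h1 : x ^ 3 ^ k = 1 := congrArg Subtype.val hk
    exact ⟨f3 (q := 2) (by norm_num) (congrArg Prod.fst h1) (f0 _).symm,
      f3 (q := 2) (by norm_num) (congrArg Prod.snd h1) (f0 _).symm⟩
  have i1 : ∀ x ∈ B, ∀ y ∈ B, x.1 = y.1 → x = y := fun x hx y hy e => by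
    have h1 := mul_mem (inv_mem hx) hy
    have : x⁻¹ * y ∈ (⊥ : Subgroup (A4 × A4)) := hc2 ▸ ⟨h1, hBX h1, by simp [Subgroup.mem_prod, e]⟩
    exact inv_mul_eq_one.1 this
  have i2 : ∀ x ∈ B, ∀ y ∈ B, x.2 = y.2 → x = y := fun x hx y hy e => by
    have h1 := mul_mem (inv_mem hx) hy
    have : x⁻¹ * y ∈ (⊥ : Subgroup (A4 × A4)) := hc1 ▸ ⟨h1, hBX h1, by simp [Subgroup.mem_prod, e]⟩
    exact inv_mul_eq_one.1 this
  obtain ⟨a0, ha3, ha1⟩ := f5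
  obtain ⟨⟨a, a'⟩, haQ, ha, ha'⟩ := f4 Q (Subgroup.prod ⊤ ⊥) (x := (a0, 1)) (by simp [Subgroup.mem_prod])
    (by simp [ha3]) (by simp [ha1])
  obtain ⟨⟨b', b⟩, hbQ, hb, hb'⟩ := f4 Q (Subgroup.prod ⊥ ⊤) (x := (1, a0)) (by simp [Subgroup.mem_prod])
    (by simp [ha3]) (by simp [ha1])
  obtain rfl : a' = 1 := ha.2
  obtain rfl : b' = 1 := hb.1
  replace ha' : a ≠ 1 := by simpa using ha'
  replace hb' : b ≠ 1 := by simpa using hb'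
  obtain ⟨x, hx, y, hy, hx1, hy1, hxy⟩ : ∃ x ∈ B, ∃ y ∈ B, x ≠ 1 ∧ y ≠ 1 ∧ y ≠ x := by
    obtain ⟨x, hx, hx1⟩ := Set.exists_mem_notMem_of_ncard_lt_ncard (s := {1}) (t := (B : Set (A4 × A4)))
      (by rw [← Nat.card_coe_set_eq (B : Set (A4 × A4))]; simp [hB4])
    obtain ⟨y, hy, hy1⟩ := Set.exists_mem_notMem_of_ncard_lt_ncard (s := {1, x})
      (t := (B : Set (A4 × A4))) ((Set.ncard_insert_le _ _).trans_lt
        (by rw [← Nat.card_coe_set_eq (B : Set (A4 × A4))]; simp [hB4]))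
    exact ⟨x, hx, y, hy, hx1, fun e => hy1 (Or.inl e), fun e => hy1 (Or.inr e)⟩
  have n1 : ∀ z ∈ B, z ≠ 1 → z.1 ≠ 1 ∧ z.2 ≠ 1 := fun z hz h =>
    ⟨fun e => h (i1 z hz 1 B.one_mem e), fun e => h (i2 z hz 1 B.one_mem e)⟩
  obtain ⟨c, hcQ, hc1', e1, e2⟩ : ∃ c : A4, (c, 1) ∈ (Q : Subgroup (A4 × A4)) ∧ c ≠ 1 ∧
      c * x.1 * c⁻¹ = y.1 ∧ c * y.1 * c⁻¹ = x.1 * y.1 := by
    rcases f1 a (hQ _ haQ).1 ha' x.1 (hX x hx).1 (n1 x hx hx1).1 y.1 (hX y hy).1 (n1 y hy hy1).1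
      fun e => hxy (i1 y hy x hx e) with h | h
    · exact ⟨a, haQ, ha', h⟩
    · exact ⟨a⁻¹, by simpa using inv_mem haQ, inv_ne_one.2 ha', h⟩
  obtain ⟨d, hdQ, hd1', e3, e4⟩ : ∃ d : A4, (1, d) ∈ (Q : Subgroup (A4 × A4)) ∧ d ≠ 1 ∧
      d * x.2 * d⁻¹ = y.2 ∧ d * y.2 * d⁻¹ = x.2 * y.2 := by
    rcases f1 b (hQ _ hbQ).2 hb' x.2 (hX x hx).2 (n1 x hx hx1).2 y.2 (hX y hy).2 (n1 y hy hy1).2
      fun e => hxy (i2 y hy x hx e) with h | h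
    · exact ⟨b, hbQ, hb', h⟩
    · exact ⟨b⁻¹, by simpa using inv_mem hbQ, inv_ne_one.2 hb', h⟩
  have hr : (c, d) ∈ (Q : Subgroup (A4 × A4)) := by simpa using mul_mem hcQ hdQ
  have r1 : (c, d) * x * (c, d)⁻¹ = y := Prod.ext e1 e3
  have r2 : (c, d) * y * (c, d)⁻¹ = x * y := Prod.ext e2 e4
  refine hc3 (Subgroup.zpowers (c, d)) (Subgroup.zpowers_le.2 hr) ?_
    (fun e => hd1' (e.le (Subgroup.mem_zpowers _)).2.2) (fun e => hc1' (e.le (Subgroup.mem_zpowers _)).2.1)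
    (Subgroup.zpowers_le.2 (Subgroup.mem_normalizer_fintype fun z hz => ?_))
  · rw [Nat.card_zpowers, orderOf_eq_prime (Prod.ext (hQ _ hr).1 (hQ _ hr).2) (by simp [hc1'])]
  · rcases f2 x.1 (hX x hx).1 (n1 x hx hx1).1 y.1 (hX y hy).1 (n1 y hy hy1).1
      (fun e => hxy (i1 y hy x hx e)) z.1 (hX z hz).1 with h | h | h | h
    · rw [i1 z hz 1 B.one_mem h, mul_one, mul_inv_cancel]; exact B.one_mem
    · rw [i1 z hz x hx h, r1]; exact hy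
    · rw [i1 z hz y hy h, r2]; exact mul_mem hx hy
    · rw [i1 z hz (x * y) (mul_mem hx hy) h, ← conj_mul, r1, r2]; exact mul_mem hy (mul_mem hx hy)

end Cfsg.Agent.S4406
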