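import Cfsg.Statements.S4408
import Cfsg.Agent.Loc.DihLemma

set_option autoImplicit false
open Cfsg

namespace Cfsg.Agent.S4408

open CL.Grp CL.Loc Cfsg Subgroup

theorem eq_one_of_inv {G : Type*} [Group G] {z : G} (ho : Odd (orderOf z)) (h : z⁻¹ = z) : z = 1 := by
  have h2 : z ^ 2 = 1 := by rw [sq]; nth_rewrite 1 [← h]; exact inv_mul_cancel z
  have := (Nat.coprime_two_right.2 ho).eq_one_of_dvd (orderOf_dvd_of_pow_eq_one h2)
  exact orderOf_eq_one_iff.1 this


/-- Let S be a finite solvable group whose Fitting subgroup F(S) has odd order, and let I be an elementary abelian 2-subgroup of S of order 2ⁿ with n ≥ 1. Then F(S) contains subgroups A₁, …, Aₙ of prime order, each normalized by I, pairwise commuting and generating a subgroup A of order |A₁|⋯|Aₙ| (their internal direct product), such that no non-identity element of I centralizes A. -/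
theorem result {S : Type*} [Group S] [Finite S]
    [Group.IsSolvable S] (hF : Odd (Nat.card ↥(Cfsg.fittingSubgroup S)))
    (I : Subgroup S) (hI : Cfsg.IsElementaryAbelian 2 I) (n : ℕ) (hn : 1 ≤ n) (hIn : Nat.card ↥I = 2 ^ n) :
    ∃ f : Fin n → Subgroup S, (∀ i, (Nat.card ↥(f i)).Prime) ∧ (∀ i, f i ≤ Cfsg.fittingSubgroup S) ∧
      (∀ i, I ≤ Subgroup.normalizer ((f i) : Set S)) ∧ (∀ i j, i ≠ j → ∀ a ∈ f i, ∀ b ∈ f j, a * b = b * a) ∧
      Nat.card ↥(⨆ i, f i) = ∏ i, Nat.card ↥(f i) ∧ I ⊓ Subgroup.centralizer ((⨆ i, f i : Subgroup S) : Set S) = ⊥ := by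
  classical
  have hF2 : ¬ 2 ∣ Nat.card (fittingSubgroup S) := hF.not_two_dvd_nat
  have hfaith : I ⊓ centralizer (fittingSubgroup S : Set S) = ⊥ := by
    rw [eq_bot_iff, ← (disjoint_of_coprime_natCard (coprime_card_of_ea hI hF2)).eq_bot]
    exact inf_le_inf_left _ (centralizer_fittingSubgroup_le S)
  have hsol : Group.IsSolvable (fittingSubgroup S) := inferInstance
  obtain ⟨V, hV, hAV, hc, hf⟩ := exists_invariant_abelian_faithful hI hsol le_normalizer_of_normal hF2
  obtain ⟨b, x, h3, h4, h5⟩ := exists_dual_eig hI hAV (fun h => hF2 (h.trans (card_dvd_of_le hV)))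
    (eq_bot_iff.2 (hfaith ▸ le_inf inf_le_left hf)) n I le_rfl hIn
  have hx1 : ∀ i, orderOf (x i) ≠ 1 := fun i h => (h3 i).2.2.2.1 (by
    rw [orderOf_eq_one_iff.1 h, mem_centralizer_singleton_iff, mul_one, one_mul])
  set q : Fin n → ℕ := fun i => (orderOf (x i)).minFac with hq
  have hqp : ∀ i, (q i).Prime := fun i => Nat.minFac_prime (hx1 i)
  set y : Fin n → S := fun i => x i ^ (orderOf (x i) / q i) with hy
  have hyo : ∀ i, orderOf (y i) = q i := fun i =>
    orderOf_pow_orderOf_div (orderOf_pos _).ne' (Nat.minFac_dvd _)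
  have hyV : ∀ i, y i ∈ V := fun i => pow_mem (h3 i).2.1 _
  have hodd : ∀ z ∈ V, Odd (orderOf z) := fun z hz =>
    hF.of_dvd_nat ((fittingSubgroup S).orderOf_dvd_natCard (hV hz))
  have hy1 : ∀ i, y i ≠ 1 := fun i h => (hqp i).one_lt.ne' (by rw [← hyo, h, orderOf_one])
  have hcent : ∀ i a, a * x i * a⁻¹ = x i → a * y i * a⁻¹ = y i := fun i a h => by
    simp only [hy]; rw [← conj_pow, h]
  have hinv : ∀ i a, a * x i * a⁻¹ = (x i)⁻¹ → a * y i * a⁻¹ = (y i)⁻¹ := fun i a h => by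
    simp only [hy]; rw [← conj_pow, h, inv_pow]
  have heig : ∀ i, I ≤ eigStab (y i) := fun i a ha =>
    ((h3 i).2.2.1 ha).imp (hcent i a) (hinv i a)
  have hbi : ∀ i, b i * y i * (b i)⁻¹ = (y i)⁻¹ := fun i =>
    hinv i _ (((h3 i).2.2.1 (h3 i).1).resolve_left fun h =>
      (h3 i).2.2.2.1 (mem_centralizer_singleton_iff.2 (mul_inv_eq_iff_eq_mul.1 h)))
  have hbj : ∀ i j, j ≠ i → b j * y i * (b j)⁻¹ = y i := fun i j hij =>
    hcent i _ (by rw [mem_centralizer_singleton_iff.1 ((h3 i).2.2.2.2 j hij), mul_inv_cancel_right])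
  have hcomm : Pairwise fun i j : Fin n => ∀ a c : S, a ∈ zpowers (y i) → c ∈ zpowers (y j) →
      Commute a c := fun i j _ a c ha hc' =>
    (mem_centralizer_iff.1 (hc (zpowers_le.2 (hyV j) hc')) a (zpowers_le.2 (hyV i) ha))
  have hind : iSupIndep fun i => zpowers (y i) := by
    intro i
    rw [disjoint_iff_inf_le]
    rintro z ⟨hz1, hz2⟩
    have h6 : (⨆ j, ⨆ _ : j ≠ i, zpowers (y j)) ≤ centralizer {b i} := by
      refine iSup₂_le fun j hj => ?_
      rw [zpowers_le, mem_centralizer_singleton_iff]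
      exact (mul_inv_eq_iff_eq_mul.1 (hbj j i hj.symm)).symm
    have h7 : b i * z * (b i)⁻¹ = z := by
      rw [← mem_centralizer_singleton_iff.1 (h6 hz2), mul_inv_cancel_right]
    have h8 : b i * z * (b i)⁻¹ = z⁻¹ := by
      obtain ⟨k, rfl⟩ := hz1
      simp only
      rw [← conj_zpow, hbi, inv_zpow]
    exact eq_one_of_inv (hodd z (zpowers_le.2 (hyV i) hz1)) (h8.symm.trans h7)
  refine ⟨fun i => zpowers (y i), fun i => ?_, fun i => zpowers_le.2 (hV (hyV i)),
    fun i => (heig i).trans (eigStab_le_normalizer _), fun i j hij a ha c hc' => hcomm hij a c ha hc',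
    ?_, ?_⟩
  · rw [Nat.card_zpowers, hyo]; exact hqp i
  · rw [← Subgroup.noncommPiCoprod_range (hcomm := hcomm), ← Nat.card_pi]
    exact Nat.card_congr (MonoidHom.ofInjective
      (Subgroup.injective_noncommPiCoprod_of_iSupIndep hind)).toEquiv.symm
  · rw [eq_bot_iff, ← h5]
    rintro a ⟨ha, hac⟩
    refine ⟨ha, mem_iInf.2 fun i => ?_⟩
    have h6 : a * y i * a⁻¹ = y i := by
      rw [← mem_centralizer_iff.1 hac (y i)
        (le_iSup (fun i => zpowers (y i)) i (mem_zpowers _)), mul_inv_cancel_right]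
    rcases (h3 i).2.2.1 ha with h | h
    · exact mem_centralizer_singleton_iff.2 (mul_inv_eq_iff_eq_mul.1 h)
    · exact absurd (eq_one_of_inv (hodd _ (hyV i)) ((hinv i a h).symm.trans h6)) (hy1 i)

end Cfsg.Agent.S4408
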