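import Cfsg.Statements.S4410
import Cfsg.Agent.Grp.Fitting

set_option autoImplicit false
open Cfsg

namespace Cfsg.Agent.S4410
open scoped Pointwise commutatorElement

theorem zm3 : ∀ b : ZMod 3, b * b + 1 ≠ 0 := by decide
theorem zm7 : ∀ b : ZMod 7, b * b + 1 ≠ 0 := by decide

theorem card_dvd {U : Type*} [AddCommGroup U] [Module (ZMod 2) U] [Finite U]
    (h : Module.finrank (ZMod 2) U ≤ 3) : Nat.card (U ≃ₗ[ZMod 2] U) ∣ 168 := by
  have e : GL (Fin (Module.finrank (ZMod 2) U)) (ZMod 2) ≃* (U ≃ₗ[ZMod 2] U) :=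
    (Matrix.GeneralLinearGroup.toLin' (Module.finBasis (ZMod 2) U)).trans
      (LinearMap.GeneralLinearGroup.generalLinearEquiv _ _)
  rw [← Nat.card_congr e.toEquiv, Matrix.card_GL_field, ZMod.card]
  generalize Module.finrank (ZMod 2) U = n at h
  interval_cases n <;> simp [Fin.prod_univ_succ]


/-- Let V be a finite-dimensional vector space over the field with two elements and S a solvable group of linear automorphisms of V with O₂(S) = 1. If P ∈ S has order 4 and (P − 1)³ = 0 on V, then the image of (P − 1)² has at least 4 elements; equivalently, in the decomposition of V into indecomposable modules for the cyclic group generated by P, at least two summands have dimension 3. -/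
theorem result
    {V : Type*} [AddCommGroup V] [Module (ZMod 2) V] [Finite V]
    (S : Subgroup (V ≃ₗ[ZMod 2] V)) (hS : Group.IsSolvable ↥S) (hO2 : Cfsg.pCore 2 ↥S = ⊥)
    (P : V ≃ₗ[ZMod 2] V) (hPS : P ∈ S) (hP4 : orderOf P = 4)
    (hcub : ((P : V →ₗ[ZMod 2] V) - LinearMap.id) ^ 3 = 0) :
    4 ≤ Nat.card ↥(LinearMap.range (((P : V →ₗ[ZMod 2] V) - LinearMap.id) ^ 2)) := by
  by_contra hlt
  push Not at hlt
  have hfin : Finite (V ≃ₗ[ZMod 2] V) := Finite.of_injective (fun e : V ≃ₗ[ZMod 2] V => (e : V → V))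
    (fun a b h => DFunLike.coe_injective h)
  set W := LinearMap.range (((P : V →ₗ[ZMod 2] V) - LinearMap.id) ^ 2) with hW
  have hW1 : Module.finrank (ZMod 2) W ≤ 1 := by
    rw [Module.natCard_eq_pow_finrank (K := ZMod 2), Nat.card_zmod] at hlt
    by_contra h
    have := Nat.pow_le_pow_right two_pos (show 2 ≤ Module.finrank (ZMod 2) W by omega)
    omega
  have hadd : ∀ v : V, v + v = 0 := fun v => by
    rw [← two_smul (ZMod 2), show (2 : ZMod 2) = 0 from rfl, zero_smul]
  let x : S := ⟨P, hPS⟩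
  have hx4 : orderOf x = 4 := by rw [← hP4]; exact (Subgroup.orderOf_coe x).symm
  have hz : ∀ v, ((x * x : S) : V ≃ₗ[ZMod 2] V) v - v ∈ W := fun v => ⟨v, by
    change P (P v - v) - (P v - v) = P (P v) - v
    rw [map_sub, sub_sub, sub_right_inj, ← add_sub_assoc, hadd, zero_sub, neg_eq_iff_add_eq_zero, hadd]⟩
  have hz2 : (x * x) * (x * x) = 1 := by
    have := pow_orderOf_eq_one x
    rw [hx4] at this
    rw [← this]; simp only [pow_succ, pow_zero, one_mul, mul_assoc]
  have hz1 : x * x ≠ 1 := by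
    intro h
    have := orderOf_dvd_of_pow_eq_one (show x ^ 2 = 1 by rw [pow_two, h])
    rw [hx4] at this
    omega
  obtain ⟨r, hr, hf⟩ : ∃ r : ℕ, r.Prime ∧ ¬ pCore r S ≤ Subgroup.centralizer {x * x} := by
    by_contra hc
    push Not at hc
    have h1 : fittingSubgroup S ≤ Subgroup.centralizer {x * x} :=
      CL.Grp.fittingSubgroup_le_of_forall_pCore_le fun p hp => hc p hp.out
    have h2 : x * x ∈ fittingSubgroup S := CL.Grp.centralizer_fittingSubgroup_le S
      (Subgroup.mem_centralizer_iff.2 fun g hg => Subgroup.mem_centralizer_singleton_iff.1 (h1 hg))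
    have : Fact (Nat.Prime 2) := ⟨Nat.prime_two⟩
    have h3 := CL.Grp.le_pCore_of_le_fittingSubgroup (p := 2) (P := Subgroup.zpowers (x * x))
      (IsPGroup.of_card (n := 1) (by
        rw [Nat.card_zpowers, pow_one]; exact orderOf_eq_prime (by rw [pow_two, hz2]) hz1))
      (Subgroup.zpowers_le.2 h2)
    rw [hO2] at h3
    exact hz1 (h3 (Subgroup.mem_zpowers _))
  have : Fact r.Prime := ⟨hr⟩
  have hr2 : r ≠ 2 := by rintro rfl; exact hf (hO2 ▸ bot_le)
  obtain ⟨f, hfO, hf⟩ := SetLike.not_le_iff_exists.1 hf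
  rw [Subgroup.mem_centralizer_singleton_iff] at hf
  set z := x * x with hzdef
  have hn : (pCore r S).Normal := inferInstance
  have hgO : z * (f * z * f⁻¹) ∈ pCore r S := by
    have := mul_mem (hn.conj_mem f hfO z) (inv_mem hfO)
    rwa [show z⁻¹ = z from (eq_inv_of_mul_eq_one_right hz2).symm, mul_assoc, mul_assoc, ← mul_assoc f] at this
  set g := z * (f * z * f⁻¹) with hg
  have hg1 : g ≠ 1 := by
    intro h
    have h1 : f * z * f⁻¹ = z := by
      rw [eq_inv_of_mul_eq_one_right h, ← eq_inv_of_mul_eq_one_right hz2]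
    exact hf (mul_inv_eq_iff_eq_mul.1 h1)
  have hg' : x * g * x⁻¹ = z * ((x * f) * z * (x * f)⁻¹) := by rw [hg, hzdef]; group
  let U : Submodule (ZMod 2) V := W ⊔ W.map ((f : V ≃ₗ[ZMod 2] V) : V →ₗ[ZMod 2] V) ⊔
    W.map (((x * f : S) : V ≃ₗ[ZMod 2] V) : V →ₗ[ZMod 2] V)
  have hU : Module.finrank (ZMod 2) U ≤ 3 := by
    refine (Submodule.finrank_add_le_finrank_add_finrank _ _).trans ?_
    have h1 := Submodule.finrank_add_le_finrank_add_finrank W (W.map ((f : V ≃ₗ[ZMod 2] V) : V →ₗ[ZMod 2] V))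
    have h2 := Submodule.finrank_map_le ((f : V ≃ₗ[ZMod 2] V) : V →ₗ[ZMod 2] V) W
    have h3 := Submodule.finrank_map_le (((x * f : S) : V ≃ₗ[ZMod 2] V) : V →ₗ[ZMod 2] V) W
    omega
  let T : Subgroup S :=
    { carrier := {s | ∀ v, (s : V ≃ₗ[ZMod 2] V) v - v ∈ U}
      one_mem' := by intro v; simp
      mul_mem' := by
        intro a b ha hb v
        have := add_mem (ha ((b : V ≃ₗ[ZMod 2] V) v)) (hb v)
        simpa using this
      inv_mem' := by
        intro a ha v
        have := neg_mem (ha ((a⁻¹ : S) • v))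
        rw [neg_sub] at this
        change a⁻¹ • v - a • a⁻¹ • v ∈ U at this
        rwa [smul_inv_smul] at this }
  have hconj : ∀ y : S, W.map ((y : V ≃ₗ[ZMod 2] V) : V →ₗ[ZMod 2] V) ≤ U → y * z * y⁻¹ ∈ T := by
    intro y hy v
    refine hy ⟨_, hz ((y⁻¹ : S) • v), ?_⟩
    change y • (z • y⁻¹ • v - y⁻¹ • v) = (y * z * y⁻¹) • v - v
    rw [smul_sub, smul_inv_smul, mul_smul (y * z), mul_smul y z]
  have hzT : z ∈ T := fun v => (le_sup_left.trans le_sup_left : W ≤ U) (hz v)
  have hgT : g ∈ T := mul_mem hzT (hconj f (le_sup_right.trans le_sup_left))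
  have hgT' : x * g * x⁻¹ ∈ T := by rw [hg']; exact mul_mem hzT (hconj _ le_sup_right)
  let R := T ⊓ pCore r S
  have hR : IsPGroup r R := (CL.Grp.pCore_isPGroup r S).to_inf_right
  have hinv : ∀ (s : R) (u : V), u ∈ U → ((s : S) : V ≃ₗ[ZMod 2] V) u ∈ U := fun s u hu => by
    simpa using add_mem (s.2.1 u) hu
  let ψ : R →* Module.End (ZMod 2) U :=
    { toFun := fun s => (((s : S) : V ≃ₗ[ZMod 2] V) : V →ₗ[ZMod 2] V).restrict (hinv s)
      map_one' := by ext; simp
      map_mul' := fun a b => by ext; simp }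
  have hψ : Function.Injective ((LinearMap.GeneralLinearGroup.generalLinearEquiv _ _).toMonoidHom.comp
      ψ.toHomUnits) := by
    rw [injective_iff_map_eq_one]
    intro s hs
    have h1 : ψ s = 1 := congrArg Units.val ((LinearMap.GeneralLinearGroup.generalLinearEquiv _ _).injective
      (hs.trans (map_one _).symm))
    have h2 : s ^ 2 = 1 := by
      ext v
      have h3 := congrArg Subtype.val (LinearMap.congr_fun h1 ⟨_, s.2.1 v⟩)
      change ((s : S) : V ≃ₗ[ZMod 2] V) (((s : S) : V ≃ₗ[ZMod 2] V) v - v) = ((s : S) : V ≃ₗ[ZMod 2] V) v - v at h3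
      change ((s : S) : V ≃ₗ[ZMod 2] V) (((s : S) : V ≃ₗ[ZMod 2] V) v) = v
      rw [map_sub, sub_eq_iff_eq_add, sub_add_eq_add_sub, hadd, zero_sub] at h3
      rw [h3, neg_eq_iff_add_eq_zero, hadd]
    obtain ⟨k, hk⟩ := hR s
    exact orderOf_eq_one_iff.1 (Nat.Coprime.eq_one_of_dvd (Nat.Coprime.coprime_dvd_left
      (orderOf_dvd_of_pow_eq_one h2) (((Nat.coprime_primes Nat.prime_two hr).2 hr2.symm).pow_right k))
      (orderOf_dvd_of_pow_eq_one hk))
  have hd := (Subgroup.card_dvd_of_injective _ hψ).trans (card_dvd hU)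
  obtain ⟨k, hk⟩ := IsPGroup.iff_card.1 hR
  have hgR : g ∈ R := ⟨hgT, hgO⟩
  have hk0 : k ≠ 0 := by
    rintro rfl
    rw [pow_zero, Subgroup.card_eq_one] at hk
    exact hg1 (by simpa [hk] using hgR)
  rw [hk] at hd
  have hr37 : r = 3 ∨ r = 7 := by
    have h1 : r ∣ 2 ^ 3 * 3 * 7 := (dvd_pow_self r hk0).trans hd
    rcases (Nat.Prime.dvd_mul hr).1 h1 with h | h
    · rcases (Nat.Prime.dvd_mul hr).1 h with h | h
      · exact absurd ((Nat.prime_dvd_prime_iff_eq hr Nat.prime_two).1 (hr.dvd_of_dvd_pow h)) hr2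
      · exact Or.inl ((Nat.prime_dvd_prime_iff_eq hr Nat.prime_three).1 h)
    · exact Or.inr ((Nat.prime_dvd_prime_iff_eq hr (by norm_num)).1 h)
  have hk1 : k = 1 := by
    by_contra h
    have h1 : r ^ 2 ∣ 168 := (pow_dvd_pow r (by omega)).trans hd
    rcases hr37 with rfl | rfl <;> norm_num at h1
  rw [hk1, pow_one] at hk
  have ho : orderOf (⟨g, hgR⟩ : R) = r := orderOf_eq_prime (by rw [← hk]; exact pow_card_eq_one')
    (fun h => hg1 (congrArg Subtype.val h))
  have htop : Subgroup.zpowers (⟨g, hgR⟩ : R) = ⊤ :=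
    Subgroup.eq_top_of_card_eq _ (by rw [Nat.card_zpowers, ho, hk])
  obtain ⟨a, ha⟩ : (⟨x * g * x⁻¹, hgT', hn.conj_mem g hgO x⟩ : R) ∈ Subgroup.zpowers (⟨g, hgR⟩ : R) :=
    htop ▸ Subgroup.mem_top _
  have ha' : g ^ a = x * g * x⁻¹ := congrArg Subtype.val ha
  have h1 : g ^ (a * a + 1) = 1 := by
    rw [zpow_add_one, zpow_mul, ha', conj_zpow, ha', show x * (x * g * x⁻¹) * x⁻¹ = z * g * z⁻¹ by
      rw [hzdef]; group, hg, ← mul_assoc z z, hz2, show z⁻¹ = z from (eq_inv_of_mul_eq_one_right hz2).symm]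
    calc 1 * (f * z * f⁻¹) * z * (z * (f * z * f⁻¹)) = f * z * f⁻¹ * (z * z) * (f * z * f⁻¹) := by group
      _ = f * (z * z) * f⁻¹ := by
        nth_rewrite 1 [hz2]
        simp only [mul_one, mul_assoc, inv_mul_cancel_left]
      _ = 1 := by rw [hz2]; group
  have h2 : (r : ℤ) ∣ a * a + 1 := by
    rw [← ho, ← Subgroup.orderOf_coe]; exact orderOf_dvd_iff_zpow_eq_one.2 h1
  rcases hr37 with rfl | rfl
  · have h3 := (ZMod.intCast_zmod_eq_zero_iff_dvd _ 3).2 h2
    push_cast at h3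
    exact zm3 _ h3
  · have h3 := (ZMod.intCast_zmod_eq_zero_iff_dvd _ 7).2 h2
    push_cast at h3
    exact zm7 _ h3

end Cfsg.Agent.S4410
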