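import Cfsg.Statements.S4411
import Cfsg.Agent.Loc.HallPQ
import Cfsg.Agent.Even.CharP
import Cfsg.Agent.Grp.CoprimeAct

set_option autoImplicit false
open Cfsg

namespace Cfsg.Agent.S4411

open CL.Grp CL.Loc Subgroup
open scoped Pointwise

universe u

/-- some `q`-element normalises `H` without centralising it -/
def Mov {G : Type*} [Group G] (q : ℕ) (H : Subgroup G) : Prop :=
  ∃ x : G, (∃ k : ℕ, x ^ q ^ k = 1) ∧ x ∈ normalizer (H : Set G) ∧ x ∉ centralizer (H : Set G)

def AS (p : ℕ) (G : Type*) [Group G] : Prop :=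
  ∀ H X : Subgroup G, IsPGroup p H → X ≤ normalizer (H : Set G) →
    IsPSolvable p (X ⊓ centralizer (H : Set G) : Subgroup G) → IsPSolvable p X

section
variable {G : Type*} [Group G] [Finite G] {p q : ℕ}

theorem mov_iff [hq : Fact q.Prime] {H : Subgroup G} :
    Mov q H ↔ q ∣ (centralizer (H : Set G)).relIndex (normalizer (H : Set G)) := by
  constructor
  · rintro ⟨x, ⟨k, hk⟩, hn, hc⟩
    set y : normalizer (H : Set G) ⧸ (centralizer (H : Set G)).subgroupOf _ :=
      QuotientGroup.mk ⟨x, hn⟩ with hy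
    have h1 : y ^ q ^ k = 1 := by
      rw [hy, ← QuotientGroup.mk_pow, show (⟨x, hn⟩ : normalizer (H : Set G)) ^ q ^ k = 1 from
        Subtype.ext hk, QuotientGroup.mk_one]
    obtain ⟨j, -, hj⟩ := (Nat.dvd_prime_pow hq.out).1 (orderOf_dvd_of_pow_eq_one h1)
    have h2 : j ≠ 0 := by
      rintro rfl
      rw [pow_zero, orderOf_eq_one_iff, hy, QuotientGroup.eq_one_iff] at hj
      exact hc hj
    exact (dvd_pow_self q h2).trans (hj ▸ orderOf_dvd_natCard y)
  · intro h
    obtain ⟨Q, hQ⟩ := exists_isSylowIn q (normalizer (H : Set G))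
    by_contra hm
    have : Q ≤ centralizer (H : Set G) := fun x hx => by
      by_contra hc
      obtain ⟨k, hk⟩ := hQ.isPGroup ⟨x, hx⟩
      exact hm ⟨x, ⟨k, congrArg Subtype.val hk⟩, hQ.le hx, hc⟩
    exact hQ.not_dvd (h.trans (relIndex_dvd_of_le_left _ this))

omit [Finite G] in
theorem Mov.conj {H : Subgroup G} (h : Mov q H) (g : G) : Mov q (MulAut.conj g • H) := by
  obtain ⟨x, ⟨k, hk⟩, hn, hc⟩ := h
  refine ⟨g * x * g⁻¹, ⟨k, by rw [conj_pow, hk]; simp⟩, ?_, ?_⟩
  · rw [normalizer_conj_smul]; exact conj_mem_conj_smul g hn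
  · rw [centralizer_conj_smul, mem_conj_smul_iff]; simpa [mul_assoc] using hc

omit [Finite G] in
theorem Mov.map_subtype {X : Subgroup G} {K : Subgroup X} (h : Mov q K) : Mov q (K.map X.subtype) := by
  obtain ⟨x, ⟨k, hk⟩, hn, hc⟩ := h
  refine ⟨x, ⟨k, congrArg Subtype.val hk⟩, le_normalizer_map _ (mem_map_of_mem _ hn), fun h => hc ?_⟩
  exact fun y hy => Subtype.ext (h y (mem_map_of_mem _ hy))

omit [Finite G] in
theorem AS.subgroup [Fact p.Prime] (h : AS p G) (X : Subgroup G) : AS p X := by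
  intro H Y hH hY hs
  have h1 := h (H.map X.subtype) (Y.map X.subtype) (hH.map _)
    ((map_mono hY).trans (le_normalizer_map _)) (by
      refine isPSolvable_of_le (isPSolvable_map hs X.subtype) ?_
      rintro _ ⟨⟨y, hy, rfl⟩, hc⟩
      exact ⟨y, ⟨hy, fun z hz => Subtype.ext (hc z (mem_map_of_mem _ hz))⟩, rfl⟩)
  exact isPSolvable_of_equiv (Y.equivMapOfInjective _ X.subtype_injective).symm h1

theorem isPSolvable_comap [Fact p.Prime] {G' : Type*} [Group G'] (f : G →* G')
    (hk : IsPGroup p f.ker) {K : Subgroup G'} (h : IsPSolvable p K) : IsPSolvable p (K.comap f) := by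
  refine isPSolvable_of_ker (f.subgroupComap K) (isPSolvable_of_isPGroup ?_) h
  rintro ⟨⟨x, hx⟩, hx'⟩
  obtain ⟨k, hk'⟩ := hk ⟨x, congrArg Subtype.val hx'⟩
  have : x ^ p ^ k = 1 := congrArg Subtype.val hk'
  exact ⟨k, Subtype.ext (Subtype.ext this)⟩

theorem AS.quotient [Fact p.Prime] (h : AS p G) (N : Subgroup G) [N.Normal] (hN : IsPGroup p N) :
    AS p (G ⧸ N) := by
  intro H Y hH hY hs
  have hk : IsPGroup p (QuotientGroup.mk' N).ker := by rwa [QuotientGroup.ker_mk']
  have h1 := h (H.comap (QuotientGroup.mk' N)) (Y.comap (QuotientGroup.mk' N))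
    (hH.comap_of_ker_isPGroup _ hk) ((comap_mono hY).trans (le_normalizer_comap _)) (by
      refine isPSolvable_of_le (isPSolvable_comap _ hk hs) ?_
      rintro y ⟨hy, hc⟩
      refine ⟨hy, fun z hz => ?_⟩
      obtain ⟨z, rfl⟩ := QuotientGroup.mk'_surjective N z
      rw [← map_mul, ← map_mul, hc z hz])
  have h2 := isPSolvable_map h1 (QuotientGroup.mk' N)
  rwa [map_comap_eq_self_of_surjective (QuotientGroup.mk'_surjective N)] at h2

omit [Finite G] in
theorem fact_ambient [Fact p.Prime] {T L : Subgroup G} (hT : IsSylowIn p T L)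
    (hf : IsThompsonFactorizable p L) :
    L ≤ pPrimeCoreOf p L ⊔ (L ⊓ normalizer (omegaOne p (T ⊓ centralizer (T : Set G)) : Set G)) ⊔
      (L ⊓ normalizer (thompsonSubgroupOf p T : Set G)) := by
  intro g hg
  obtain ⟨x, hx, c, hc, n, hn, e⟩ := hf hT.toSylow ⟨g, hg⟩
  have e' : g = x * c * n := congrArg Subtype.val e
  rw [e']
  refine mul_mem (mul_mem (mem_sup_left (mem_sup_left (mem_map_of_mem _ hx)))
    (mem_sup_left (mem_sup_right ⟨c.2, ?_⟩))) (mem_sup_right ⟨n.2, ?_⟩)
  · have := le_normalizer_map L.subtype (mem_map_of_mem L.subtype (centralizer_le_normalizer _ hc))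
    rwa [map_omegaOne_center (inf_ker_eq_bot_of_injective _ L.subtype_injective),
      hT.map_toSylow] at this
  · have := le_normalizer_map L.subtype (mem_map_of_mem L.subtype hn)
    rwa [map_thompsonSubgroupOf_of_injective _ L.subtype_injective, hT.map_toSylow] at this

theorem local_step [hp : Fact p.Prime] [hq : Fact q.Prime] (hpq : p ≠ q)
    (h23 : ¬ ((p = 2 ∧ q = 3) ∨ (p = 3 ∧ q = 2))) (hAS : AS p G) {H T : Subgroup G}
    (hH : IsPGroup p H) (hT : IsSylowIn p T (normalizer (H : Set G))) (hm : Mov q H)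
    (hW : ∀ W : Subgroup G, W ≠ ⊥ → W ≤ T → normalizer (T : Set G) ≤ normalizer (W : Set G) →
      ∀ x : G, (∃ k : ℕ, x ^ q ^ k = 1) → x ∈ normalizer (W : Set G) → x ∈ normalizer (H : Set G) →
        x ∈ centralizer (H : Set G)) : False := by
  set N := normalizer (H : Set G) with hN
  set C := centralizer (H : Set G) with hC
  have hNC : N ≤ normalizer (C : Set G) := CL.Grp.le_normalizer_centralizer' le_rfl
  have hHT : H ≤ T := hT.le_of_normalized hH le_normalizer le_rfl
  have hT1 : T ≠ ⊥ := by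
    rintro rfl
    obtain ⟨x, -, -, hc⟩ := hm
    exact hc fun y hy => by rw [mem_bot.1 (hHT hy), one_mul, mul_one]
  have hT0 : IsSylowIn p (T ⊓ C) C := hT.inf_of_normalized (centralizer_le_normalizer _) hNC
  set Y := N ⊓ normalizer ((T ⊓ C : Subgroup G) : Set G) with hY
  have hTY : T ≤ Y := le_inf hT.le (CL.Grp.le_normalizer_inf' le_normalizer (hT.le.trans hNC))
  have hYs : IsPSolvable p Y := by
    refine hAS H Y hH inf_le_left ?_
    have h1 : T ⊓ C ≤ Y ⊓ C := inf_le_inf_right _ hTY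
    haveI : ((T ⊓ C).subgroupOf (Y ⊓ C)).Normal :=
      normal_subgroupOf_of_le_normalizer' (inf_le_left.trans inf_le_right)
    refine isPSolvable_of_normal ((T ⊓ C).subgroupOf (Y ⊓ C))
      (isPSolvable_of_isPGroup hT0.isPGroup.comap_subtype) (isPSolvable_of_not_dvd ?_)
    exact (hT0.of_le h1 inf_le_right).not_dvd
  have hNY : N = Y ⊔ C := by
    refine le_antisymm (fun g hg => ?_) (sup_le inf_le_left (centralizer_le_normalizer _))
    obtain ⟨c, hc, h⟩ := hT0.frattini hNC hg
    rw [← inv_mul_cancel_left c g]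
    exact mul_mem (mem_sup_right (inv_mem hc))
      (mem_sup_left ⟨mul_mem (centralizer_le_normalizer _ hc) hg, h⟩)
  have hqY : q ∣ C.relIndex Y := by
    have := mov_iff.1 hm
    rwa [← hN, ← hC, hNY, relIndex_sup_of_le_normalizer (inf_le_left.trans hNC)] at this
  have hTY' : IsSylowIn p T Y := hT.of_le hTY inf_le_left
  obtain ⟨L0, hL0, hTL0⟩ := exists_piHall_pair q hYs hTY'.toSylow
  set L := L0.map Y.subtype with hL
  have hLY : L ≤ Y := map_subtype_le _
  have hLN : L ≤ N := hLY.trans inf_le_left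
  have hTL : T ≤ L := hTY'.map_toSylow ▸ map_mono hTL0
  have hprimes : ∀ r : ℕ, r.Prime → r ∣ Nat.card L → r = p ∨ r = q := fun r hr hd =>
    hL0.1 r hr (by rwa [hL, card_map_subtype] at hd)
  have hqL : q ∣ C.relIndex L := by
    have h1 : C.relIndex Y ∣ (C ⊓ L).relIndex L * L.relIndex Y := by
      rw [relIndex_mul_relIndex _ _ _ inf_le_right hLY]
      exact relIndex_dvd_of_le_left _ inf_le_left
    rw [inf_relIndex_right] at h1
    refine ((Nat.Prime.dvd_mul hq.out).1 (hqY.trans h1)).resolve_right fun h => ?_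
    refine hL0.2 q hq.out (by simp) ?_
    rwa [hL, relIndex, subgroupOf, comap_map_eq_self_of_injective Y.subtype_injective] at h
  have hTL' : IsSylowIn p T L := hT.of_le hTL hLN
  have hf : IsThompsonFactorizable p L := by
    refine isThompsonFactorizable_of_not_six_dvd (isPSolvable_of_le hYs hLY) fun h6 => ?_
    have h2 := hprimes 2 Nat.prime_two (Dvd.dvd.trans (by norm_num) h6)
    have h3 := hprimes 3 Nat.prime_three (Dvd.dvd.trans (by norm_num) h6)
    omega
  have key : ∀ W : Subgroup G, W ≠ ⊥ → W ≤ T → normalizer (T : Set G) ≤ normalizer (W : Set G) →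
      L ⊓ normalizer (W : Set G) ≤ T ⊔ C := by
    intro W h1 h2 h3
    refine (CL.Even.syl_sup_res
      (hTL'.of_le (le_inf hTL (le_normalizer.trans h3)) inf_le_left)).ge.trans ?_
    refine sup_le_sup_left (CL.Even.res_le_of (L := L ⊓ normalizer (W : Set G))
      fun x hx hc => hW W h1 h2 h3 x ?_ hx.2 (hLN hx.1)) _
    have h4 : IsPGroup q (zpowers x) := by
      refine (isPGroup_iff_primeFactors_card_subset hq.out.ne_zero).2 fun r hr => ?_
      rw [Nat.card_zpowers] at hr
      have hr' := Nat.prime_of_mem_primeFactors hr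
      have hd := Nat.dvd_of_mem_primeFactors hr
      rcases hprimes r hr' (hd.trans (L.orderOf_dvd_natCard hx.1)) with rfl | rfl
      · exact absurd (Nat.eq_one_of_dvd_coprimes hc hd dvd_rfl) hr'.ne_one
      · exact hr'.mem_primeFactors_self
    obtain ⟨k, hk⟩ := h4 ⟨x, mem_zpowers x⟩
    exact ⟨k, congrArg Subtype.val hk⟩
  have hLTC : L ≤ T ⊔ C := by
    refine (fact_ambient hTL' hf).trans (sup_le (sup_le ?_ (key _ ?_ (omegaOne_center_le T) ?_))
      (key _ (thompsonSubgroupOf_ne_bot_of_isPGroup hT.isPGroup hT1) (thompsonSubgroupOf_le T)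
        (normalizer_le_normalizer_thompsonSubgroupOf T)))
    · refine le_sup_of_le_right ?_
      rw [le_centralizer_iff]
      refine (le_pCoreOf (hHT.trans hTL) hLN hH).trans ?_
      rw [← commutator_eq_bot_iff_le_centralizer, pCoreOf_def, ← map_commutator,
        commutator_pCore_pPrimeCore, Subgroup.map_bot]
    · exact CL.Even.ozc_ne_bot hT.isPGroup hT1
    · exact CL.Even.norm_le_norm_ozc T
  have h1 : C.relIndex L ∣ Nat.card T := by
    have h2 : T ⊔ C = L ⊔ C := le_antisymm (sup_le_sup_right hTL _) (sup_le hLTC le_sup_right)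
    rw [← relIndex_sup_of_le_normalizer (hLN.trans hNC), ← h2,
      relIndex_sup_of_le_normalizer (hT.le.trans hNC)]
    exact relIndex_dvd_card _ _
  obtain ⟨k, hk⟩ := IsPGroup.iff_card.1 hT.isPGroup
  exact hpq ((Nat.prime_dvd_prime_iff_eq hq.out hp.out).1
    (hq.out.dvd_of_dvd_pow (hk ▸ hqL.trans h1))).symm

end

theorem main {p q : ℕ} [hp : Fact p.Prime] [hq : Fact q.Prime] (hpq : p ≠ q)
    (h23 : ¬ ((p = 2 ∧ q = 3) ∨ (p = 3 ∧ q = 2))) (n : ℕ) :
    ∀ (G : Type u) [Group G] [Finite G], Nat.card G = n → AS p G →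
      ∀ H : Subgroup G, IsPGroup p H → Mov q H → ∀ P : Sylow p G,
        ∃ K : Subgroup G, K ≤ P ∧ (P : Subgroup G) ≤ normalizer (K : Set G) ∧ Mov q K := by
  induction n using Nat.strong_induction_on with
  | _ n ih =>
  intro G _ _ hn hAS H0 hH0 hm0 P
  by_cases hO : pCore p G = ⊥
  · obtain ⟨⟨H1, T1⟩, ⟨hH1, hm1, hT1⟩, hmax⟩ := Set.Finite.exists_maximalFor
      (fun x : Subgroup G × Subgroup G => Nat.card x.2)
      {x | IsPGroup p x.1 ∧ Mov q x.1 ∧ IsSylowIn p x.2 (normalizer (x.1 : Set G))} (Set.toFinite _)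
      (by obtain ⟨T, hT⟩ := exists_isSylowIn p (normalizer (H0 : Set G))
          exact ⟨(H0, T), hH0, hm0, hT⟩)
    simp only at hH1 hm1 hT1
    obtain ⟨g, hg⟩ := exists_conj_le_sylow P hT1.isPGroup
    set H := MulAut.conj g • H1 with hH'
    set T := MulAut.conj g • T1 with hT'
    have hH : IsPGroup p H := IsPGroup.conj_smul hH1 g
    have hm : Mov q H := hm1.conj g
    have hT : IsSylowIn p T (normalizer (H : Set G)) := by
      rw [hH', normalizer_conj_smul]; exact hT1.conj_smul g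
    have hHT : H ≤ T := hT.le_of_normalized hH le_normalizer le_rfl
    by_cases hTP : T = P
    · exact ⟨H, hTP ▸ hHT, hTP ▸ hT.le, hm⟩
    exfalso
    have hlt := lt_inf_normalizer_of_isPGroup P.isPGroup' (lt_of_le_of_ne hg hTP)
    refine local_step hpq h23 hAS hH hT hm fun W hW1 hWT hWn x hxq hxW hxH => ?_
    by_contra hxC
    set X := normalizer (W : Set G) with hX
    have hXt : X ≠ ⊤ := fun h => by
      haveI : W.Normal := normalizer_eq_top_iff.1 h
      exact hW1 (eq_bot_iff.2 (hO ▸ le_pCore (hT.isPGroup.to_le hWT)))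
    have hHX : H ≤ X := hHT.trans (le_normalizer.trans hWn)
    obtain ⟨S, hS, hS'⟩ := exists_isSylowIn_ge (P.isPGroup'.to_le inf_le_left)
      (inf_le_right.trans hWn : (P : Subgroup G) ⊓ normalizer (T : Set G) ≤ X)
    obtain ⟨K, hK1, hK2, hK3⟩ := ih _ (by
      rw [← hn, ← card_top (G := G)]
      exact CL.Loc.card_lt_card_of_lt (lt_top_iff_ne_top.2 hXt)) X rfl (hAS.subgroup X) (H.subgroupOf X)
      hH.comap_subtype (by
        obtain ⟨k, hk⟩ := hxq
        exact ⟨⟨x, hxW⟩, ⟨k, Subtype.ext hk⟩, le_normalizer_comap X.subtype hxH,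
          fun h => hxC fun y hy => congrArg Subtype.val (h ⟨y, hHX hy⟩ hy)⟩) hS.toSylow
    have h1 : S ≤ normalizer ((K.map X.subtype : Subgroup G) : Set G) :=
      hS.map_toSylow ▸ (map_mono hK2).trans (le_normalizer_map _)
    obtain ⟨U, hU, hSU⟩ := exists_isSylowIn_ge hS.isPGroup h1
    have h2 : Nat.card T1 < Nat.card U := by
      rw [← card_conj_smul g T1]
      exact CL.Loc.card_lt_card_of_lt (hlt.trans_le (hS'.trans hSU))
    exact absurd (hmax (j := (K.map X.subtype, U))
      ⟨(hS.toSylow.isPGroup'.to_le hK1).map _, hK3.map_subtype, hU⟩ h2.le) (not_le.2 h2)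
  by_cases hmO : Mov q (pCore p G)
  · exact ⟨_, pCore_le_sylow P, le_normalizer_of_normal, hmO⟩
  set π := QuotientGroup.mk' (pCore p G) with hπ
  have hsurj : Function.Surjective π := QuotientGroup.mk'_surjective _
  have hker : π.ker = pCore p G := QuotientGroup.ker_mk' _
  obtain ⟨x, ⟨k, hk⟩, hxn, hxc⟩ := hm0
  obtain ⟨K, hK1, hK2, y, ⟨l, hl⟩, hyn, hyc⟩ := ih _ (by
    rw [← hn, ← (pCore p G).card_mul_index, ← index_eq_card]
    exact lt_mul_of_one_lt_left (Nat.pos_of_ne_zero (pCore p G).index_ne_zero_of_finite)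
      ((pCore p G).one_lt_card_iff_ne_bot.2 hO)) (G ⧸ pCore p G) rfl
    (hAS.quotient _ (pCore_isPGroup p G)) (H0.map π) (hH0.map π)
    ⟨π x, ⟨k, by rw [← map_pow, hk, map_one]⟩, le_normalizer_map π (mem_map_of_mem π hxn), fun h => by
      have h1 : ⁅H0, zpowers x⁆ ≤ pCore p G := by
        rw [← hker, ← Subgroup.map_eq_bot_iff, map_commutator, MonoidHom.map_zpowers,
          Subgroup.commutator_comm, commutator_eq_bot_iff_le_centralizer, zpowers_le]
        exact h
      have h2 : x ∈ centralizer (pCore p G : Set G) := by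
        by_contra h2
        exact hmO ⟨x, ⟨k, hk⟩, by rw [normalizer_eq_top]; exact mem_top x, h2⟩
      refine hxc (le_centralizer_of_commutator_le_of_le_centralizer (zpowers_le.2 hxn) ?_ h1
        (zpowers_le.2 h2) (mem_zpowers x))
      refine (coprime_card_of_isPGroup hH0 ?_).symm
      rw [Nat.card_zpowers]
      exact Nat.Coprime.coprime_dvd_left (orderOf_dvd_of_pow_eq_one hk)
        (Nat.Coprime.pow_left _ ((Nat.coprime_primes hq.out hp.out).2 hpq.symm))⟩
    (P.mapSurjective hsurj)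
  obtain ⟨z, rfl⟩ := hsurj y
  obtain ⟨a, -, b, hb, ⟨j, hj⟩, hbc, rfl, -⟩ := exists_pPart_mul_pPrimePart hq.out z
  have hb1 : π b = 1 := by
    obtain ⟨m, hm⟩ := hb
    have h1 : (π b) ^ q ^ l = 1 := by
      rw [← hm]
      simp only
      rw [map_zpow, ← zpow_natCast, ← zpow_mul, mul_comm, zpow_mul, zpow_natCast, hl, one_zpow]
    exact orderOf_eq_one_iff.1 (Nat.eq_one_of_dvd_coprimes (hbc.pow_right l) (orderOf_map_dvd π b)
      (orderOf_dvd_of_pow_eq_one h1))
  rw [map_mul, hb1, mul_one] at hyn hyc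
  refine ⟨K.comap π, ?_, ?_, a, ⟨j, by rw [← hj, pow_orderOf_eq_one]⟩, le_normalizer_comap π hyn,
    fun h => hyc fun w hw => ?_⟩
  · refine (comap_mono hK1).trans ?_
    rw [Sylow.coe_mapSurjective, comap_map_eq, hker]
    exact sup_le le_rfl (pCore_le_sylow P)
  · exact (map_le_iff_le_comap.1 hK2).trans (le_normalizer_comap π)
  · obtain ⟨w, rfl⟩ := hsurj w
    rw [← map_mul, ← map_mul, h w hw]


/-- Let p and q be distinct primes with {p, q} ≠ {2, 3}, and let G be a finite group such that for every p-subgroup H of G the automizer N_G(H)/C_G(H) is p-solvable. If q divides the order of N_G(H)/C_G(H) for some p-subgroup H, then a Sylow p-subgroup of G has a normal subgroup K (normal in the Sylow subgroup) such that q divides the order of N_G(K)/C_G(K). -/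
theorem result {G : Type*} [Group G] [Finite G]
    (p q : ℕ) [Fact p.Prime] [Fact q.Prime] (hpq : p ≠ q) (h23 : ¬ ((p = 2 ∧ q = 3) ∨ (p = 3 ∧ q = 2)))
    (hsol : ∀ H : Subgroup G, IsPGroup p ↥H →
      Cfsg.IsPSolvable p (↥(Subgroup.normalizer (H : Set G)) ⧸ (Subgroup.centralizer (H : Set G)).subgroupOf (Subgroup.normalizer (H : Set G))))
    (H : Subgroup G) (hH : IsPGroup p ↥H)
    (hq : q ∣ ((Subgroup.centralizer (H : Set G)).subgroupOf (Subgroup.normalizer (H : Set G))).index)
    (Gp : Sylow p G) :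
    ∃ K : Subgroup G, K ≤ (Gp : Subgroup G) ∧ (Gp : Subgroup G) ≤ Subgroup.normalizer (K : Set G) ∧
      q ∣ ((Subgroup.centralizer (K : Set G)).subgroupOf (Subgroup.normalizer (K : Set G))).index := by
  have hAS : AS p G := fun H X hH hX hs => by
    refine isPSolvable_of_ker ((QuotientGroup.mk' ((centralizer (H : Set G)).subgroupOf
      (normalizer (H : Set G)))).comp (inclusion hX)) ?_ (hsol H hH)
    have : ((QuotientGroup.mk' ((centralizer (H : Set G)).subgroupOf
        (normalizer (H : Set G)))).comp (inclusion hX)).ker =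
        (X ⊓ centralizer (H : Set G)).subgroupOf X := by
      ext x
      simp [mem_subgroupOf]
    rw [this]
    exact isPSolvable_subgroupOf hs X
  obtain ⟨K, h1, h2, h3⟩ := main hpq h23 _ G rfl hAS H hH (mov_iff.2 hq) Gp
  exact ⟨K, h1, h2, mov_iff.1 h3⟩

end Cfsg.Agent.S4411
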