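import Cfsg.Statements.S4412
import Cfsg.Agent.Grp.CoprimeAct
import Cfsg.Agent.Grp.Coprime2
import Cfsg.Agent.Grp.PGroupMaxClass
import Cfsg.Agent.Grp.PGroupFrattini
import Cfsg.Agent.Grp.Fitting

set_option autoImplicit false
open Cfsg

namespace Cfsg.Agent.S4412
open scoped Pointwise commutatorElement

open Subgroup CL.Grp

theorem gen {A K : Type*} [Group A] [hA : IsMulCommutative A] [Group K] [MulDistribMulAction A K] [Finite A]
    [Finite K] (hcop : (Nat.card A).Coprime (Nat.card K)) {M : Subgroup K}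
    (hM : ∀ B : Subgroup A, (∃ a, B ⊔ zpowers a = ⊤) → ∀ x, (∀ b ∈ B, b • x = x) → x ∈ M) : M = ⊤ := by
  have : IsMulCommutative (sdInr A K).range := ⟨⟨by
    rintro ⟨_, a, rfl⟩ ⟨_, b, rfl⟩
    exact Subtype.ext (by change sdInr A K a * sdInr A K b = sdInr A K b * sdInr A K a
                          rw [← map_mul, hA.1.1, map_mul])⟩⟩
  have h := le_of_forall_cocyclic_centralizer_le (A := (sdInr A K).range) (K := (sdInl A K).range)
    range_sdInr_le_normalizer (by rwa [card_range_sdInr, card_range_sdInl]) (M := M.map (sdInl A K)) (by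
      rintro B hB ⟨_, ⟨a, rfl⟩, ha⟩ _ ⟨⟨x, rfl⟩, hx⟩
      refine ⟨x, hM (B.comap (sdInr A K)) ⟨a, ?_⟩ x fun b hb => sdInl_injective (A := A) ?_, rfl⟩
      · apply map_injective (sdInr_injective (A := A) (K := K))
        rw [Subgroup.map_sup, map_comap_eq_self hB, MonoidHom.map_zpowers, ha, MonoidHom.range_eq_map]
      · rw [sdInl_smul, mem_centralizer_iff.1 hx _ hb, mul_inv_cancel_right])
  rw [eq_top_iff]
  intro x _
  obtain ⟨y, hy, e⟩ := h ⟨x, rfl⟩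
  exact sdInl_injective (A := A) e ▸ hy

variable {P : Type*} [Group P] [Finite P] {p : ℕ} [hp : Fact p.Prime]

theorem gen_of_not_mem (hP : IsPGroup p P) {g x : P} (hx : x ∈ zpowers g) (h : x ∉ frattini P) :
    g ∈ zpowers x := by
  obtain ⟨k, rfl⟩ := (isOfFinOrder_of_finite g).mem_powers_iff_mem_zpowers.2 hx
  refine mem_zpowers_pow_iff.2 ?_
  obtain ⟨n, hn⟩ := (IsPGroup.iff_orderOf.1 hP) g
  rw [hn]
  refine Nat.Coprime.pow_right _ ((Nat.Prime.coprime_iff_not_dvd hp.out).2 ?_).symm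
  rintro ⟨m, rfl⟩
  exact h (by simp only; rw [mul_comm, pow_mul]; exact pow_mem_frattini hP _)

omit [Finite P] in
theorem mem_of_sq_mem (hp2 : p ≠ 2) (hP : IsPGroup p P) {N : Subgroup P} {c : P} (h : c ^ 2 ∈ N) : c ∈ N := by
  obtain ⟨n, hn⟩ := hP c
  obtain ⟨m, hm⟩ := (hp.out.odd_of_ne_two hp2).pow (n := n)
  have : c ^ (2 * m) * c = 1 := by rw [← pow_succ, ← hm, hn]
  rw [eq_inv_of_mul_eq_one_right this, pow_mul]
  exact inv_mem (pow_mem h _)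

omit [Finite P] in
theorem inv_of_zpow (hp2 : p ≠ 2) (hP : IsPGroup p P) {T : MulAut P} (hT : T ^ 2 = 1) {x : P}
    (hx : T x ∈ zpowers x) (h : T x ≠ x) : T x = x⁻¹ := by
  obtain ⟨m, hm⟩ := hx
  have hm : x ^ m = T x := hm
  obtain ⟨n, hn⟩ := (IsPGroup.iff_orderOf.1 hP) x
  have h1 : x ^ ((m - 1) * (m + 1)) = 1 := by
    have : T (T x) = x := by rw [← MulAut.mul_apply, ← pow_two, hT]; rfl
    rw [← hm, map_zpow, ← hm, ← zpow_mul] at this
    rw [show (m - 1) * (m + 1) = m * m - 1 by ring, zpow_sub_one, this, mul_inv_cancel]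
  rw [← orderOf_dvd_iff_zpow_eq_one, hn, Nat.cast_pow] at h1
  have hpi : Prime (p : ℤ) := Nat.prime_iff_prime_int.1 hp.out
  by_cases h2 : (p : ℤ) ∣ m + 1
  · have h3 : ¬ (p : ℤ) ∣ m - 1 := fun h3 => by
      have h4 : (p : ℤ) ∣ (2 : ℕ) := by have := dvd_sub h2 h3; ring_nf at this; exact_mod_cast this
      exact hp2 ((Nat.prime_dvd_prime_iff_eq hp.out Nat.prime_two).1 (Int.natCast_dvd_natCast.1 h4))
    have h5 := hpi.pow_dvd_of_dvd_mul_left n h3 h1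
    rw [← Nat.cast_pow, ← hn, orderOf_dvd_iff_zpow_eq_one, zpow_add_one] at h5
    rw [← hm, eq_inv_of_mul_eq_one_left h5]
  · have h5 := hpi.pow_dvd_of_dvd_mul_right n h2 h1
    rw [← Nat.cast_pow, ← hn, orderOf_dvd_iff_zpow_eq_one, zpow_sub_one, mul_inv_eq_one] at h5
    exact absurd (hm ▸ h5) h

omit [Finite P] in
theorem comm_mem (hp2 : p ≠ 2) (hP : IsPGroup p P) {S T : MulAut P} (hS : S ^ 2 = 1) {a b x : P}
    (h1 : S a = a⁻¹) (h2 : S b = b⁻¹) (h3 : T a = a) (h4 : T b = b) (h5 : T x = x⁻¹)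
    (h6 : ∀ d, S d = d → d ∈ zpowers x) : ⁅a, b⁆ ∈ ⁅commutator P, (⊤ : Subgroup P)⁆ := by
  set N := ⁅commutator P, (⊤ : Subgroup P)⁆
  have hc : ⁅a, b⁆ ∈ commutator P := commutator_mem_commutator (mem_top _) (mem_top _)
  have hn : ⁅a, b⁆⁻¹ * S ⁅a, b⁆ ∈ N := by
    have : ⁅a, b⁆⁻¹ * S ⁅a, b⁆ = ⁅⁅a, b⁆⁻¹, (b * a)⁻¹⁆ := by rw [map_commutatorElement, h1, h2]; group
    rw [this]
    exact commutator_mem_commutator (inv_mem hc) (mem_top _)
  set c := ⁅a, b⁆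
  set n := c⁻¹ * S c with hndef
  have hSS : S (S c) = c := by rw [← MulAut.mul_apply, ← pow_two, hS]; rfl
  have hSn : S n = n⁻¹ := by rw [hndef, map_mul, map_inv, hSS]; group
  obtain ⟨k, hk⟩ := hP n
  obtain ⟨m, hm⟩ := (hp.out.odd_of_ne_two hp2).pow (n := k)
  have hd : S (c * n ^ (m + 1)) = c * n ^ (m + 1) := by
    have e : S c = c * n := by rw [hndef]; group
    have e2 : n ^ (m + 1) * n ^ (m + 1) = n := by
      rw [← pow_add, show m + 1 + (m + 1) = p ^ k + 1 by omega, pow_succ, hk, one_mul]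
    rw [map_mul, map_pow, hSn, e, inv_pow, mul_assoc, mul_right_inj, mul_inv_eq_iff_eq_mul, e2]
  obtain ⟨j, hj⟩ := h6 _ hd
  have hj : x ^ j = c * n ^ (m + 1) := hj
  have e1 : T (c * n ^ (m + 1)) = (c * n ^ (m + 1))⁻¹ := by rw [← hj, map_zpow, h5, inv_zpow]
  have e2 : T c = c := by rw [map_commutatorElement, h3, h4]
  have e3 : T (n ^ (m + 1)) ∈ N := smul_mem_of_characteristic N T _ (pow_mem hn _)
  rw [map_mul, e2] at e1
  refine mem_of_sq_mem hp2 hP ?_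
  have e4 : c ^ 2 = (T (n ^ (m + 1)))⁻¹ * (c⁻¹ * (n ^ (m + 1))⁻¹ * c) := by
    have : T (n ^ (m + 1)) = c⁻¹ * (c * n ^ (m + 1))⁻¹ := by rw [← e1]; group
    rw [this, pow_two]
    simp only [mul_inv_rev, inv_inv, mul_assoc, mul_inv_cancel_left]
  rw [e4]
  exact mul_mem (inv_mem e3) (Normal.conj_mem' inferInstance _ (inv_mem (pow_mem hn _)) c)

/-- cyclic fixed points -/
def Cyc {P : Type*} [Group P] (T : MulAut P) : Prop := ∃ g : P, ∀ x : P, (T x = x ↔ x ∈ zpowers g)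

theorem main (hp2 : p ≠ 2) (hP : IsPGroup p P) (I : Subgroup (MulAut P)) (hI : IsElementaryAbelian 2 I)
    (hI8 : Nat.card I = 8) (I₀ : Subgroup (MulAut P)) (hdisj : ∀ T ∈ I₀, T ≠ 1 → Cyc T)
    (hprod : ∀ T ∈ I, ∀ T' ∈ I, T ≠ 1 → T' ≠ 1 → ¬ Cyc T → ¬ Cyc T' → T * T' ∈ I₀) :
    ∃ (T₁ T₂ T₃ : I) (B₁ B₂ B₃ : Subgroup I) (x₁ x₂ x₃ : P), B₁.index = 2 ∧ B₂.index = 2 ∧ B₃.index = 2 ∧
      T₁ ∉ B₁ ∧ T₁ ∈ B₂ ∧ T₁ ∈ B₃ ∧ T₂ ∈ B₁ ∧ T₂ ∉ B₂ ∧ T₂ ∈ B₃ ∧ T₃ ∈ B₁ ∧ T₃ ∈ B₂ ∧ T₃ ∉ B₃ ∧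
      B₁ ⊓ B₂ ⊓ B₃ = ⊥ ∧ ¬ Cyc T₁.1 ∧ ¬ Cyc T₂.1 ∧ ¬ Cyc T₃.1 ∧ x₁ ∉ frattini P ∧ x₂ ∉ frattini P ∧
      x₃ ∉ frattini P ∧ (∀ b ∈ B₁, b.1 x₁ = x₁) ∧ (∀ b ∈ B₂, b.1 x₂ = x₂) ∧ (∀ b ∈ B₃, b.1 x₃ = x₃) ∧
      (∀ x : P, (∀ b : I, b.1 x = x) → x ∈ frattini P) ∧
      ∀ M : Subgroup P, (∀ B : Subgroup I, B.index ∣ 2 → ∀ x, (∀ b ∈ B, b.1 x = x) → x ∈ M) → M = ⊤ := by
  have hfin : Finite I := Nat.finite_of_card_ne_zero (by omega)
  have hcomm := hI.1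
  have hsq : ∀ T : I, T ^ 2 = 1 := fun T => Subtype.ext (hI.2 T T.2)
  have hcop : (Nat.card I).Coprime (Nat.card P) := by
    obtain ⟨n, hn⟩ := IsPGroup.iff_card.1 hP
    rw [hI8, hn]
    exact Nat.Coprime.pow 3 n ((Nat.coprime_primes Nat.prime_two hp.out).2 hp2.symm)
  have hgen : ∀ M : Subgroup P, (∀ B : Subgroup I, B.index ∣ 2 → ∀ x, (∀ b ∈ B, b.1 x = x) → x ∈ M) → M = ⊤ := by
    intro M hM
    refine gen hcop fun B ⟨a, ha⟩ x hx => hM B ?_ x hx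
    rw [← relIndex_top_right, ← ha, relIndex_sup_zpowers]
    exact orderOf_dvd_of_pow_eq_one (by rw [← QuotientGroup.mk_pow, hsq]; rfl)
  have hcard : ∀ B : Subgroup I, Nat.card B * B.index = 8 := fun B => hI8 ▸ B.card_mul_index
  have hfaith : ∀ T : I, (∀ x, T.1 x = x) → T = 1 := fun T h => Subtype.ext (MulEquiv.ext h)
  -- every large subgroup contains a non-broad element
  have h1 : ∀ B : Subgroup I, B.index ∣ 2 → ∃ T ∈ B, T ≠ 1 ∧ Cyc T.1 := by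
    intro B hB
    have h2 := hcard B
    have h3 : 2 < Nat.card B := by
      have := Nat.le_of_dvd two_pos hB
      by_contra h
      nlinarith
    have := Fintype.ofFinite B
    rw [Nat.card_eq_fintype_card, Fintype.two_lt_card_iff] at h3
    obtain ⟨T, T', hT, hT', hne⟩ : ∃ T T' : B, T ≠ 1 ∧ T' ≠ 1 ∧ T ≠ T' := by
      obtain ⟨a, b, c, h1, h2, h3⟩ := h3
      by_cases ha : a = 1
      · exact ⟨b, c, ha ▸ h1.symm, ha ▸ h2.symm, h3⟩
      by_cases hb : b = 1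
      · exact ⟨a, c, ha, hb ▸ h3.symm, h2⟩
      · exact ⟨a, b, ha, hb, h1⟩
    have hT1 : (T : I) ≠ 1 := fun h => hT (Subtype.ext h)
    have hT1' : (T' : I) ≠ 1 := fun h => hT' (Subtype.ext h)
    by_cases c1 : Cyc T.1.1
    · exact ⟨T, T.2, hT1, c1⟩
    by_cases c2 : Cyc T'.1.1
    · exact ⟨T', T'.2, hT1', c2⟩
    have h4 : (T : I) * T' ≠ 1 := fun h => hne (Subtype.ext (by
      rw [eq_inv_of_mul_eq_one_left h, ← eq_inv_of_mul_eq_one_left (by rw [← pow_two]; exact hsq T')]))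
    exact ⟨T * T', mul_mem T.2 T'.2, h4, hdisj _ (hprod _ T.1.2 _ T'.1.2 (fun h => hT1 (Subtype.ext h))
      (fun h => hT1' (Subtype.ext h)) c1 c2) (fun h => h4 (Subtype.ext h))⟩
  have h2 : ∀ x : P, (∀ b : I, b.1 x = x) → x ∈ frattini P := by
    intro x hx
    by_contra hx'
    have := hgen (zpowers x) fun B hB y hy => by
      obtain ⟨T, hT, -, g, hg⟩ := h1 B hB
      exact zpowers_le.2 (gen_of_not_mem hP ((hg x).1 (hx T)) hx') ((hg y).1 (hy T hT))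
    have h3 : ∀ T : I, T = 1 := fun T => hfaith T fun y => by
      obtain ⟨k, rfl⟩ : y ∈ zpowers x := this ▸ mem_top y
      simp only [map_zpow, hx]
    have : Subsingleton I := ⟨fun a b => by rw [h3 a, h3 b]⟩
    rw [Nat.card_of_subsingleton (1 : I)] at hI8
    omega
  have h3 : ∀ T : I, T ≠ 1 → ∃ B : Subgroup I, B.index = 2 ∧ T ∉ B ∧ ∃ x ∉ frattini P, ∀ b ∈ B, b.1 x = x := by
    intro T hT
    by_contra hc
    push Not at hc
    have := hgen (frattini P ⊔ T.1.toMonoidHom.eqLocus (MonoidHom.id P)) fun B hB x hx => by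
      by_cases h : T ∈ B
      · exact mem_sup_right (hx T h)
      · have hi : B.index = 2 := by
          rcases (Nat.dvd_prime Nat.prime_two).1 hB with h' | h'
          · exact absurd (index_eq_one.1 h' ▸ mem_top T) h
          · exact h'
        by_contra hx'
        obtain ⟨b, hb, hb'⟩ := hc B hi h x (fun h => hx' (mem_sup_left h))
        exact hb' (hx b hb)
    have h4 := frattini_nongenerating (by rwa [sup_comm] at this)
    exact hT (hfaith T fun x => (h4 ▸ mem_top x : x ∈ T.1.toMonoidHom.eqLocus (MonoidHom.id P)))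
  have h4 : ∀ B B' : Subgroup I, B.index = 2 → B'.index = 2 → (∃ S ∈ B, S ∉ B') →
      (∃ x ∉ frattini P, ∀ b ∈ B, b.1 x = x) → (∃ x ∉ frattini P, ∀ b ∈ B', b.1 x = x) →
      ∃ T ∈ B, T ∈ B' ∧ T ≠ 1 ∧ ¬ Cyc T.1 ∧ ∀ S ∈ B, S ∈ B' → S = 1 ∨ S = T := by
    rintro B B' hB hB' ⟨S, hS, hS'⟩ ⟨x, hx, hx'⟩ ⟨y, hy, hy'⟩
    have e1 : B'.relIndex B = 2 := by
      have h5 : B'.relIndex B ∣ 2 := hB' ▸ relIndex_dvd_index_of_normal B' B
      exact ((Nat.dvd_prime Nat.prime_two).1 h5).resolve_left fun h => hS' (relIndex_eq_one.1 h hS)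
    have e2 : Nat.card (B ⊓ B' : Subgroup I) = 2 := by
      have := hcard (B ⊓ B')
      rw [← relIndex_mul_index (inf_le_left : B ⊓ B' ≤ B), inf_relIndex_left, e1, hB] at this
      omega
    obtain ⟨⟨T, hT⟩, hT1, hT2⟩ := (Nat.card_eq_two_iff' (1 : (B ⊓ B' : Subgroup I))).1 e2
    refine ⟨T, hT.1, hT.2, fun h => hT1 (Subtype.ext h), ?_, fun U hU hU' => ?_⟩
    · rintro ⟨g, hg⟩
      have e3 := gen_of_not_mem hP ((hg y).1 (hy' T hT.2)) hy
      obtain ⟨k, hk⟩ := zpowers_le.2 e3 ((hg x).1 (hx' T hT.1))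
      refine hx (h2 x fun b => ?_)
      have e4 : ∀ b ∈ B', b.1 x = x := fun b hb => by rw [← hk]; simp only [map_zpow, hy' b hb]
      by_cases hb : b ∈ B'
      · exact e4 b hb
      · have := e4 (b * S) ((mul_mem_iff_of_index_two hB').2 (by tauto))
        rwa [Subgroup.coe_mul, MulAut.mul_apply, hx' S hS] at this
    · by_cases h : U = 1
      · exact Or.inl h
      · exact Or.inr (congrArg Subtype.val (hT2 ⟨U, hU, hU'⟩ fun h' => h (congrArg Subtype.val h')))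
  have hnt : Nontrivial I := Finite.one_lt_card_iff_nontrivial.1 (by omega)
  obtain ⟨T₀, hT₀⟩ := exists_ne (1 : I)
  obtain ⟨B₁, i1, -, x₁, a1, a1'⟩ := h3 T₀ hT₀
  obtain ⟨S, hS, hS1, -⟩ := h1 B₁ i1.dvd
  obtain ⟨B₂, i2, hS2, x₂, a2, a2'⟩ := h3 S hS1
  obtain ⟨T₃, t31, t32, t3, c3, u3⟩ := h4 B₁ B₂ i1 i2 ⟨S, hS, hS2⟩ ⟨x₁, a1, a1'⟩ ⟨x₂, a2, a2'⟩
  obtain ⟨B₃, i3, t33, x₃, a3, a3'⟩ := h3 T₃ t3
  obtain ⟨T₂, t21, t23, t2, c2, -⟩ := h4 B₁ B₃ i1 i3 ⟨T₃, t31, t33⟩ ⟨x₁, a1, a1'⟩ ⟨x₃, a3, a3'⟩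
  obtain ⟨T₁, t12, t13, t1, c1, -⟩ := h4 B₂ B₃ i2 i3 ⟨T₃, t32, t33⟩ ⟨x₂, a2, a2'⟩ ⟨x₃, a3, a3'⟩
  refine ⟨T₁, T₂, T₃, B₁, B₂, B₃, x₁, x₂, x₃, i1, i2, i3, fun h => ?_, t12, t13, t21, fun h => ?_, t23, t31, t32,
    t33, ?_, c1, c2, c3, a1, a2, a3, a1', a2', a3', h2, hgen⟩
  · rcases u3 _ h t12 with h | h
    · exact t1 h
    · exact t33 (h ▸ t13)
  · rcases u3 _ t21 h with h | h
    · exact t2 h
    · exact t33 (h ▸ t23)
  · rw [eq_bot_iff]
    rintro U ⟨⟨h1, h2⟩, h3⟩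
    rcases u3 _ h1 h2 with h | h
    · exact h
    · exact absurd (h ▸ h3) t33

/-- Let p be an odd prime, P a finite p-group and I an elementary abelian subgroup of order 8 of Aut(P). Call T ∈ I, T ≠ 1, broad when its fixed-point subgroup C_P(T) is not cyclic. Suppose I has a proper subgroup I₀ containing no broad element such that the product of any two broad elements lies in I₀. Then P is abelian of rank exactly 3 (generated by three elements but not by two), there are exactly three broad elements and they generate I, and I₀ is exactly the set of products of two broad elements. -/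
theorem result
    {P : Type*} [Group P] [Finite P] (p : ℕ) (hp : p.Prime) (hp2 : p ≠ 2) (hP : IsPGroup p P)
    (I : Subgroup (MulAut P)) (hI : Cfsg.IsElementaryAbelian 2 I) (hI8 : Nat.card ↥I = 8)
    (I₀ : Subgroup (MulAut P)) (hI₀ : I₀ < I)
    (hdisj : ∀ T ∈ I₀, T ≠ 1 → ∃ g : P, ∀ x : P, (T x = x ↔ x ∈ Subgroup.zpowers g))
    (hprod : ∀ T ∈ I, ∀ T' ∈ I, T ≠ 1 → T' ≠ 1 → (¬ ∃ g : P, ∀ x : P, (T x = x ↔ x ∈ Subgroup.zpowers g)) →
      (¬ ∃ g : P, ∀ x : P, (T' x = x ↔ x ∈ Subgroup.zpowers g)) → T * T' ∈ I₀) :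
    IsMulCommutative P ∧ (∃ a b c : P, Subgroup.closure {a, b, c} = ⊤) ∧ (¬ ∃ a b : P, Subgroup.closure {a, b} = ⊤) ∧
      Nat.card {T : MulAut P // T ∈ I ∧ T ≠ 1 ∧ ¬ ∃ g : P, ∀ x : P, (T x = x ↔ x ∈ Subgroup.zpowers g)} = 3 ∧
      Subgroup.closure {T : MulAut P | T ∈ I ∧ T ≠ 1 ∧ ¬ ∃ g : P, ∀ x : P, (T x = x ↔ x ∈ Subgroup.zpowers g)} = I ∧
      (I₀ : Set (MulAut P)) = {S : MulAut P | ∃ T T' : MulAut P, T ∈ I ∧ T' ∈ I ∧ T ≠ 1 ∧ T' ≠ 1 ∧
        (¬ ∃ g : P, ∀ x : P, (T x = x ↔ x ∈ Subgroup.zpowers g)) ∧ (¬ ∃ g : P, ∀ x : P, (T' x = x ↔ x ∈ Subgroup.zpowers g)) ∧ S = T * T'} := by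
  have : Fact p.Prime := ⟨hp⟩
  obtain ⟨T₁, T₂, T₃, B₁, B₂, B₃, x₁, x₂, x₃, i1, i2, i3, t11, t12, t13, t21, t22, t23, t31, t32, t33, hB, c1, c2, c3,
    a1, a2, a3, b1, b2, b3, hC, hgen⟩ := main hp2 hP I hI hI8 I₀ hdisj hprod
  change IsMulCommutative P ∧ (∃ a b c : P, closure {a, b, c} = ⊤) ∧ (¬ ∃ a b : P, closure {a, b} = ⊤) ∧
      Nat.card {T : MulAut P // T ∈ I ∧ T ≠ 1 ∧ ¬ Cyc T} = 3 ∧ closure {T : MulAut P | T ∈ I ∧ T ≠ 1 ∧ ¬ Cyc T} = I ∧
      (I₀ : Set (MulAut P)) = {S : MulAut P | ∃ T T' : MulAut P, T ∈ I ∧ T' ∈ I ∧ T ≠ 1 ∧ T' ≠ 1 ∧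
        ¬ Cyc T ∧ ¬ Cyc T' ∧ S = T * T'}
  change ∀ T ∈ I₀, T ≠ 1 → Cyc T at hdisj
  change ∀ T ∈ I, ∀ T' ∈ I, T ≠ 1 → T' ≠ 1 → ¬ Cyc T → ¬ Cyc T' → T * T' ∈ I₀ at hprod
  have hcomm : ∀ a b : I, a * b = b * a := hI.1.1.1
  have hsq : ∀ T : I, T * T = 1 := fun T => Subtype.ext (by rw [← pow_two]; exact hI.2 T T.2)
  have m1 := fun a b => mul_mem_iff_of_index_two i1 (a := a) (b := b)
  have m2 := fun a b => mul_mem_iff_of_index_two i2 (a := a) (b := b)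
  have m3 := fun a b => mul_mem_iff_of_index_two i3 (a := a) (b := b)
  have hext : ∀ T U : I, (T ∈ B₁ ↔ U ∈ B₁) → (T ∈ B₂ ↔ U ∈ B₂) → (T ∈ B₃ ↔ U ∈ B₃) → T = U := by
    intro T U h1 h2 h3
    have : T * U ∈ B₁ ⊓ B₂ ⊓ B₃ := ⟨⟨(m1 _ _).2 h1, (m2 _ _).2 h2⟩, (m3 _ _).2 h3⟩
    rw [hB, mem_bot] at this
    rw [eq_inv_of_mul_eq_one_left this, ← eq_inv_of_mul_eq_one_left (hsq U)]
  have henum : ∀ T : I, T = 1 ∨ T = T₁ ∨ T = T₂ ∨ T = T₃ ∨ T = T₁ * T₂ ∨ T = T₁ * T₃ ∨ T = T₂ * T₃ ∨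
      T = T₁ * T₂ * T₃ := by
    intro T
    by_cases h1 : T ∈ B₁ <;> by_cases h2 : T ∈ B₂ <;> by_cases h3 : T ∈ B₃
    · left; apply hext <;> simp [*]
    · right; right; right; left; apply hext <;> simp [*]
    · right; right; left; apply hext <;> simp [*]
    · right; right; right; right; right; right; left; apply hext <;> simp [*]
    · right; left; apply hext <;> simp [*]
    · right; right; right; right; right; left; apply hext <;> simp [*]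
    · right; right; right; right; left; apply hext <;> simp [*]
    · right; right; right; right; right; right; right; apply hext <;> simp [*]
  have n1 : T₁.1 ≠ 1 := fun h => t11 (by rw [show T₁ = 1 from Subtype.ext h]; exact one_mem _)
  have n2 : T₂.1 ≠ 1 := fun h => t22 (by rw [show T₂ = 1 from Subtype.ext h]; exact one_mem _)
  have n3 : T₃.1 ≠ 1 := fun h => t33 (by rw [show T₃ = 1 from Subtype.ext h]; exact one_mem _)
  have p12 := hprod _ T₁.2 _ T₂.2 n1 n2 c1 c2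
  have p13 := hprod _ T₁.2 _ T₃.2 n1 n3 c1 c3
  have p23 := hprod _ T₂.2 _ T₃.2 n2 n3 c2 c3
  have key : ∀ (S T U : I) (B : Subgroup I) (x : P), S.1 * T.1 ∈ I₀ → S ∈ B → T ∈ B → U ∉ B → B.index = 2 →
      S ≠ T → x ∉ frattini P → (∀ b ∈ B, b.1 x = x) →
      Cyc (S.1 * T.1) ∧ (∀ d, (S.1 * T.1) d = d → d ∈ zpowers x) ∧ U.1 x = x⁻¹ := by
    intro S T U B x h0 hS hT hU hi hne hx hx'
    have hc := hdisj _ h0 (fun h => hne (by
      have : S * T = 1 := Subtype.ext h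
      rw [eq_inv_of_mul_eq_one_left this, ← eq_inv_of_mul_eq_one_left (hsq T)]))
    obtain ⟨g, hg⟩ := id hc
    have e1 := gen_of_not_mem hP ((hg x).1 (hx' _ (mul_mem hS hT))) hx
    have e2 : ∀ d, (S.1 * T.1) d = d → d ∈ zpowers x := fun d hd => zpowers_le.2 e1 ((hg d).1 hd)
    refine ⟨hc, e2, inv_of_zpow hp2 hP (hI.2 _ U.2) (e2 _ ?_) fun h => hx (hC x fun b => ?_)⟩
    · change ((S * T * U : I) : MulAut P) x = _
      rw [hcomm, Subgroup.coe_mul, MulAut.mul_apply, hx' _ (mul_mem hS hT)]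
    · by_cases hb : b ∈ B
      · exact hx' b hb
      · have := hx' (b * U) ((mul_mem_iff_of_index_two hi).2 (by tauto))
        rwa [Subgroup.coe_mul, MulAut.mul_apply, h] at this
  obtain ⟨d12, e12, f3⟩ := key T₁ T₂ T₃ B₃ x₃ p12 t13 t23 t33 i3 (fun h => t11 (h ▸ t21)) a3 b3
  obtain ⟨d13, e13, f2⟩ := key T₁ T₃ T₂ B₂ x₂ p13 t12 t32 t22 i2 (fun h => t11 (h ▸ t31)) a2 b2
  obtain ⟨d23, e23, f1⟩ := key T₂ T₃ T₁ B₁ x₁ p23 t21 t31 t11 i1 (fun h => t22 (h ▸ t32)) a1 b1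
  have g21 := b1 _ t21
  have g31 := b1 _ t31
  have g12 := b2 _ t12
  have g32 := b2 _ t32
  have g13 := b3 _ t13
  have g23 := b3 _ t23
  have hcl : closure {x₁, x₂, x₃} = ⊤ := by
    refine hgen _ fun B hi x hx => ?_
    have hm : ∀ a b : I, (a ∈ B ↔ b ∈ B) → a * b ∈ B := by
      rcases (Nat.dvd_prime Nat.prime_two).1 hi with h | h
      · intro a b _; rw [index_eq_one.1 h]; trivial
      · exact fun a b => (mul_mem_iff_of_index_two h).2
    rcases (by tauto : (T₁ ∈ B ↔ T₂ ∈ B) ∨ (T₁ ∈ B ↔ T₃ ∈ B) ∨ (T₂ ∈ B ↔ T₃ ∈ B)) with h | h | h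
    · exact zpowers_le.2 (subset_closure (by simp)) (e12 x (hx _ (hm _ _ h)))
    · exact zpowers_le.2 (subset_closure (by simp)) (e13 x (hx _ (hm _ _ h)))
    · exact zpowers_le.2 (subset_closure (by simp)) (e23 x (hx _ (hm _ _ h)))
  have hsq2 : ∀ S T : I, (S.1 * T.1) ^ 2 = 1 := fun S T => hI.2 _ (mul_mem S.2 T.2)
  have k12 := comm_mem hp2 hP (hsq2 T₁ T₂) (a := x₁) (b := x₂) (by simp [g21, f1]) (by simp [f2, g12]) g31 g32 f3 e12
  have k13 := comm_mem hp2 hP (hsq2 T₁ T₃) (a := x₁) (b := x₃) (by simp [g31, f1]) (by simp [f3, g13]) g21 g23 f2 e13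
  have k23 := comm_mem hp2 hP (hsq2 T₂ T₃) (a := x₂) (b := x₃) (by simp [g32, f2]) (by simp [f3, g23]) g12 g13 f1 e23
  have hab : commutator P = ⊥ := by
    refine eq_bot_of_le_commutator (H := ⊤) (by have := hP.isNilpotent; infer_instance) le_top ?_
    set N := ⁅commutator P, (⊤ : Subgroup P)⁆
    have q : ∀ a b : P, ⁅a, b⁆ ∈ N ↔ Commute (QuotientGroup.mk' N a) (QuotientGroup.mk' N b) := fun a b => by
      rw [← commutatorElement_eq_one_iff_commute, ← map_commutatorElement, QuotientGroup.mk'_apply,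
        QuotientGroup.eq_one_iff]
    have hc : IsMulCommutative (closure (QuotientGroup.mk' N '' {x₁, x₂, x₃})) := isMulCommutative_closure (by
      rw [q] at k12 k13 k23
      rintro _ ⟨a, ha, rfl⟩ _ ⟨b, hb, rfl⟩
      rcases ha with rfl | rfl | rfl <;> rcases hb with rfl | rfl | rfl <;>
        first | rfl | exact k12 | exact k13 | exact k23 | exact k12.symm | exact k13.symm | exact k23.symm)
    rw [← MonoidHom.map_closure, hcl] at hc
    rw [_root_.commutator_def, commutator_le]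
    intro a _ b _
    rw [q]
    exact congrArg Subtype.val (hc.1.1 ⟨_, a, trivial, rfl⟩ ⟨_, b, trivial, rfl⟩)
  have hPc : ∀ a b : P, a * b = b * a := fun a b => commutatorElement_eq_one_iff_mul_comm.1 (by
    rw [← mem_bot, ← hab]; exact commutator_mem_commutator (mem_top _) (mem_top _))
  have c123 : Cyc (T₁ * T₂ * T₃ : I).1 := by
    refine ⟨1, fun x => ?_⟩
    have h1 : ∀ y : P, (T₁ * T₂ * T₃ : I).1 y = y⁻¹ := by
      intro y
      have hy : y ∈ closure {x₁, x₂, x₃} := hcl ▸ mem_top y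
      induction hy using closure_induction with
      | mem y hy => rcases hy with rfl | rfl | rfl <;> simp [*]
      | one => simp
      | mul a b _ _ ha hb => rw [map_mul, ha, hb, mul_inv_rev, hPc]
      | inv a _ ha => rw [map_inv, ha]
    rw [h1, zpowers_one_eq_bot]
    refine ⟨fun h => mem_of_sq_mem hp2 hP ?_, fun h => by rw [mem_bot.1 h, inv_one]⟩
    rw [pow_two]; nth_rewrite 1 [← h]; simp
  have hbroad : {T : MulAut P | T ∈ I ∧ T ≠ 1 ∧ ¬ Cyc T} = {T₁.1, T₂.1, T₃.1} := by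
    ext T
    constructor
    · rintro ⟨h1, h2, h3⟩
      rcases henum ⟨T, h1⟩ with h | h | h | h | h | h | h | h <;> obtain rfl : T = _ := congrArg Subtype.val h
      · exact absurd rfl h2
      · simp
      · simp
      · simp
      · exact absurd d12 h3
      · exact absurd d13 h3
      · exact absurd d23 h3
      · exact absurd c123 h3
    · rintro (rfl | rfl | rfl)
      exacts [⟨T₁.2, n1, c1⟩, ⟨T₂.2, n2, c2⟩, ⟨T₃.2, n3, c3⟩]
  have hclI : closure {T : MulAut P | T ∈ I ∧ T ≠ 1 ∧ ¬ Cyc T} = I := by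
    refine le_antisymm ((closure_le _).2 fun T hT => hT.1) fun T hT => ?_
    rw [hbroad]
    have s1 : T₁.1 ∈ closure {T₁.1, T₂.1, T₃.1} := subset_closure (by simp)
    have s2 : T₂.1 ∈ closure {T₁.1, T₂.1, T₃.1} := subset_closure (by simp)
    have s3 : T₃.1 ∈ closure {T₁.1, T₂.1, T₃.1} := subset_closure (by simp)
    rcases henum ⟨T, hT⟩ with h | h | h | h | h | h | h | h <;> obtain rfl : T = _ := congrArg Subtype.val h
    exacts [one_mem _, s1, s2, s3, mul_mem s1 s2, mul_mem s1 s3, mul_mem s2 s3, mul_mem (mul_mem s1 s2) s3]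
  refine ⟨⟨⟨hPc⟩⟩, ⟨_, _, _, hcl⟩, ?_, ?_, hclI, ?_⟩
  · rintro ⟨a, b, h⟩
    classical
    obtain ⟨n, hn⟩ := IsPGroup.iff_card.1 (hP.to_quotient (frattini P))
    have h1 := (le_card_of_closure_eq_top hP hn {a, b} (by simpa using h)).trans Finset.card_le_two
    let K : I → Subgroup P := fun T =>
      { carrier := {y | y⁻¹ * T.1 y ∈ frattini P}
        one_mem' := by simp
        mul_mem' := by
          intro u v hu hv
          have := (frattini P).mul_mem hu hv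
          change (u * v)⁻¹ * T.1 (u * v) ∈ frattini P
          rwa [map_mul, mul_inv_rev, hPc v⁻¹, mul_assoc, ← mul_assoc v⁻¹, hPc v⁻¹, mul_assoc, ← mul_assoc]
        inv_mem' := by
          intro u hu
          have := (frattini P).inv_mem hu
          change u⁻¹⁻¹ * T.1 u⁻¹ ∈ frattini P
          rwa [map_inv, ← mul_inv_rev, hPc] }
    have hin : ∀ (T : I) (y : P), T.1 y = y → y ∈ K T := fun T y h => by
      change y⁻¹ * T.1 y ∈ frattini P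
      rw [h, inv_mul_cancel]; exact one_mem _
    have hout : ∀ (T : I) (y : P), T.1 y = y⁻¹ → y ∉ frattini P → y ∉ K T := fun T y h h' h'' => by
      change y⁻¹ * T.1 y ∈ frattini P at h''
      rw [h, ← pow_two] at h''
      exact h' (inv_mem_iff.1 (mem_of_sq_mem hp2 hP h''))
    have hfr : ∀ T : I, frattini P ≤ K T := fun T y hy =>
      mul_mem (inv_mem hy) (smul_mem_of_characteristic (frattini P) T.1 y hy)
    have l1 : K T₁ < ⊤ := lt_top_iff_ne_top.2 fun h => hout _ _ f1 a1 (h ▸ mem_top _)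
    have l2 : K T₁ ⊓ K T₂ < K T₁ := inf_lt_left.2 fun h => hout _ _ f2 a2 (h (hin _ _ g12))
    have l3 : K T₁ ⊓ K T₂ ⊓ K T₃ < K T₁ ⊓ K T₂ :=
      inf_lt_left.2 fun h => hout _ _ f3 a3 (h ⟨hin _ _ g13, hin _ _ g23⟩)
    have d1 := mul_index_dvd_index_of_lt hP l1
    have d2 := mul_index_dvd_index_of_lt hP l2
    have d3 := mul_index_dvd_index_of_lt hP l3
    have d4 := index_dvd_of_le (le_inf (le_inf (hfr T₁) (hfr T₂)) (hfr T₃))
    rw [index_top, mul_one] at d1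
    have d5 := ((mul_dvd_mul_left p ((mul_dvd_mul_left p d1).trans d2)).trans d3).trans d4
    rw [show (frattini P).index = p ^ n from hn, show p * (p * p) = p ^ 3 by ring,
      Nat.pow_dvd_pow_iff_le_right hp.one_lt] at d5
    omega
  · change Nat.card ({T : MulAut P | T ∈ I ∧ T ≠ 1 ∧ ¬ Cyc T} : Set (MulAut P)) = 3
    rw [hbroad, Nat.card_coe_set_eq, Set.ncard_eq_three]
    exact ⟨_, _, _, fun h => t11 ((Subtype.ext h : T₁ = T₂) ▸ t21), fun h => t11 ((Subtype.ext h : T₁ = T₃) ▸ t31),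
      fun h => t22 ((Subtype.ext h : T₂ = T₃) ▸ t32), rfl⟩
  · ext S
    constructor
    · intro hS
      have hn : ∀ T : I, T.1 ≠ 1 → ¬ Cyc T.1 → T.1 ∉ I₀ := fun T h1 h2 h3 => h2 (hdisj _ h3 h1)
      rcases henum ⟨S, hI₀.le hS⟩ with h | h | h | h | h | h | h | h <;>
        obtain rfl : S = _ := congrArg Subtype.val h
      · exact ⟨_, _, T₁.2, T₁.2, n1, n1, c1, c1, congrArg Subtype.val (hsq T₁).symm⟩
      · exact absurd hS (hn _ n1 c1)
      · exact absurd hS (hn _ n2 c2)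
      · exact absurd hS (hn _ n3 c3)
      · exact ⟨_, _, T₁.2, T₂.2, n1, n2, c1, c2, rfl⟩
      · exact ⟨_, _, T₁.2, T₃.2, n1, n3, c1, c3, rfl⟩
      · exact ⟨_, _, T₂.2, T₃.2, n2, n3, c2, c3, rfl⟩
      · exact absurd ((I₀.mul_mem_cancel_left p12).1 hS) (hn _ n3 c3)
    · rintro ⟨T, T', h1, h2, h3, h4, h5, h6, rfl⟩
      exact hprod _ h1 _ h2 h3 h4 h5 h6

end Cfsg.Agent.S4412
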