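import Cfsg.Statements.S4414
import Cfsg.Agent.Perm.Module

set_option autoImplicit false
open Cfsg

namespace Cfsg.Agent.S4414

open scoped Pointwise commutatorElement TensorProduct IsMulCommutative
open Module

section

variable {S k M : Type*} [Group S] [Field k] [AddCommGroup M] [Module k M] (ρ : Representation k S M)
  {V : Subgroup S} [V.Normal]

/-- the action on the linear characters of a normal subgroup -/
@[reducible] def chAct : MulAction S (V →* kˣ) where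
  smul s l := l.comp (MulAut.conjNormal s⁻¹ : MulAut V).toMonoidHom
  one_smul l := MonoidHom.ext fun v => congrArg l (Subtype.ext (by simp))
  mul_smul s t l := MonoidHom.ext fun v => congrArg l (Subtype.ext (by simp [mul_assoc]))

attribute [local instance] chAct

theorem smul_app (s : S) (l : V →* kˣ) (v : V) : (s • l) (MulAut.conjNormal s v) = l v :=
  congrArg l (Subtype.ext (by simp))

variable [Fintype V]

/-- the projection to a weight space -/
noncomputable def pr (l : V →* kˣ) : M →ₗ[k] M := ∑ v : V, (l v⁻¹ : k) • ρ v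

omit [V.Normal] in
theorem pr_app (l : V →* kˣ) (m : M) : pr ρ l m = ∑ v : V, (l v⁻¹ : k) • ρ v m := by simp [pr]

theorem pr_smul (s : S) (l : V →* kˣ) (m : M) : pr ρ (s • l) (ρ s m) = ρ s (pr ρ l m) := by
  rw [pr_app, pr_app, map_sum, ← (MulAut.conjNormal s : MulAut V).toEquiv.sum_comp]
  refine Finset.sum_congr rfl fun v _ => ?_
  rw [map_smul, MulEquiv.toEquiv_eq_coe, MulEquiv.coe_toEquiv, ← map_inv, smul_app, ← End.mul_apply, ← End.mul_apply,
    ← map_mul, ← map_mul, MulAut.conjNormal_apply, inv_mul_cancel_right]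

omit [V.Normal] in
theorem rho_pr (l : V →* kˣ) (w : V) (m : M) : ρ w (pr ρ l m) = (l w : k) • pr ρ l m := by
  rw [pr_app, map_sum, Finset.smul_sum, ← Equiv.sum_comp (Equiv.mulLeft w) fun v => (l w : k) • (l v⁻¹ : k) • ρ v m]
  refine Finset.sum_congr rfl fun v _ => ?_
  rw [map_smul, smul_smul, ← End.mul_apply, ← map_mul, Equiv.coe_mulLeft, ← Units.val_mul, mul_comm (l w), ← map_mul,
    mul_inv_rev, inv_mul_cancel_right, Subgroup.coe_mul]

omit [V.Normal] in
theorem pr_pr {l l' : V →* kˣ} (h : l ≠ l') (m : M) : pr ρ l (pr ρ l' m) = 0 := by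
  rw [pr_app]
  simp only [rho_pr, smul_smul, ← Finset.sum_smul]
  have := sum_hom_units_eq_zero ((Units.coeHom k).comp (l⁻¹ * l')) fun e => h (MonoidHom.ext fun v => Units.ext (by
    simpa [inv_mul_eq_one₀] using congrArg (· v) e))
  rw [show ∑ v : V, (l v⁻¹ : k) * l' v = 0 by simpa using this, zero_smul]

variable [IsMulCommutative V] [HasEnoughRootsOfUnity k (Monoid.exponent V)] [CharP k 2] (hV : Odd (Nat.card V))
include hV

omit [V.Normal] in
theorem sum_pr [Fintype (V →* kˣ)] (m : M) : ∑ l : V →* kˣ, pr ρ l m = m := by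
  simp only [pr_app]
  rw [Finset.sum_comm, Finset.sum_eq_single 1 (fun v _ hv => ?_) (by simp)]
  · obtain ⟨n, hn⟩ := hV
    rw [← CommGroup.card_monoidHom_of_hasEnoughRootsOfUnity V k, Nat.card_eq_fintype_card] at hn
    simp [hn, ← Nat.cast_smul_eq_nsmul k, CharTwo.two_eq_zero]
  · obtain ⟨l, hl⟩ := CommGroup.exists_apply_ne_one_of_hasEnoughRootsOfUnity V k (inv_ne_one.2 hv)
    rw [← Finset.sum_smul, show ∑ l : V →* kˣ, (l v⁻¹ : k) = 0 from sum_hom_units_eq_zero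
      ((Units.coeHom k).comp (MonoidHom.eval v⁻¹)) fun e => hl (Units.ext (congrArg (· l) e)), zero_smul]

theorem main [Finite S] {T Q : Subgroup S} (hT : IsPGroup 2 T) {q : ℕ} [hq : Fact q.Prime] (h2 : q ≠ 2)
    (hQ : IsPGroup q Q) (hc : ⁅V, Q⁆ = V) (hf : ∃ v ∈ V, ρ v ≠ 1) {W : Submodule k M} [FiniteDimensional k W]
    (hW : ∀ w, w ∈ W ↔ ∀ t ∈ T, ρ t w = w) (hd : finrank k W ≤ 2) :
    2 ≤ finrank k W ∧ ¬ ∀ x ∈ Q, ∀ w ∈ W, ρ x w ∈ W := by
  have := Finite.of_equiv _ (CommGroup.monoidHom_mulEquiv_of_hasEnoughRootsOfUnity V k).some.symm.toEquiv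
  have := Fintype.ofFinite (V →* kˣ)
  have e0 : ∀ m, (∀ l : V →* kˣ, pr ρ l m = 0) → m = 0 := fun m h => by rw [← sum_pr ρ hV m]; simp [h]
  have e1 : ∀ s (l : V →* kˣ) m, pr ρ (s • l) (ρ s m) ≠ 0 ↔ pr ρ l m ≠ 0 := fun s l m => by
    rw [pr_smul]; exact (map_ne_zero_iff _ (ρ.apply_bijective s).1)
  have k1 : ∀ (l : V →* kˣ) m, pr ρ l m ≠ 0 → ∃ w ∈ W, ∀ l', pr ρ l' w ≠ 0 ↔ l' ∈ MulAction.orbit T l := fun l m h => by
    obtain ⟨w, h1, h3, h4⟩ := CL.Perm.exists_ne_zero_fixed_of_isPGroup hT (ρ.comp T.subtype)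
      (⨅ l' ∉ MulAction.orbit T l, LinearMap.ker (pr ρ l')) (fun t v hv => by
        simp only [Submodule.mem_iInf, LinearMap.mem_ker] at hv ⊢
        exact fun l' e => by_contra fun e' => (e1 t (t⁻¹ • l') v).1 (by rwa [← Subgroup.smul_def, smul_inv_smul])
          (hv _ fun e'' => e (by simpa using MulAction.mapsTo_smul_orbit t l e'')))
      ((Submodule.ne_bot_iff _).2 ⟨_, by
        simp only [Submodule.mem_iInf, LinearMap.mem_ker]
        exact fun l' e => pr_pr ρ (by rintro rfl; exact e (MulAction.mem_orbit_self _)) m, h⟩)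
    simp only [Submodule.mem_iInf, LinearMap.mem_ker] at h1
    obtain ⟨l₀, h5⟩ := not_forall.1 (mt (e0 w) h3)
    refine ⟨w, (hW w).2 fun t ht => h4 ⟨t, ht⟩, fun l' => ⟨fun e => by_contra fun e' => e (h1 l' e'), fun e => ?_⟩⟩
    rw [← MulAction.orbit_eq_iff.2 (by_contra fun e' => h5 (h1 l₀ e'))] at e
    obtain ⟨t, rfl⟩ := e
    exact h4 t ▸ (e1 t l₀ w).2 h5
  have k2 : ∀ l : V →* kˣ, l ≠ 1 → ¬ ∀ x ∈ Q, ∀ l' ∈ MulAction.orbit T l, x • l' ∈ MulAction.orbit T l := fun l h1 h => by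
    let O : SubMulAction Q (V →* kˣ) := ⟨MulAction.orbit T l, fun x _ e => h x x.2 _ e⟩
    obtain ⟨n, hn⟩ := hT.card_orbit l
    obtain ⟨⟨_, t, rfl⟩, h3⟩ := hQ.nonempty_fixed_point_of_prime_not_dvd_card O fun e =>
      h2 ((Nat.prime_dvd_prime_iff_eq hq.out Nat.prime_two).1 (hq.out.dvd_of_dvd_pow (hn ▸ e :)))
    have h4 : V ≤ (t • l).ker.map V.subtype := hc.ge.trans (Subgroup.commutator_le.2 fun v hv x hx =>
      ⟨⟨v, hv⟩ * MulAut.conjNormal x ⟨v, hv⟩⁻¹, by
        have := smul_app x (t • l) ⟨v, hv⟩⁻¹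
        rw [show x • t • l = t • l from congrArg Subtype.val (h3 ⟨x, hx⟩)] at this
        rw [SetLike.mem_coe, MonoidHom.mem_ker, map_mul, this, map_inv, mul_inv_cancel], by
        simp [commutatorElement_def, mul_assoc]⟩)
    refine h1 (MonoidHom.ext fun v => ?_)
    obtain ⟨y, hy, e⟩ := h4 (MulAut.conjNormal (t : S) v).2
    rw [← smul_app t.1 l v, ← show y = _ from Subtype.ext e]
    exact hy
  obtain ⟨l, h1, m, hm⟩ : ∃ l : V →* kˣ, l ≠ 1 ∧ ∃ m, pr ρ l m ≠ 0 := by_contra fun e => by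
    obtain ⟨v, hv, h⟩ := hf
    refine h (LinearMap.ext fun m => ?_)
    rw [← sum_pr ρ hV m, Finset.sum_eq_single 1 (fun l _ h => by_contra fun h' => e ⟨l, h, m, h'⟩) (by simp)]
    simpa using rho_pr ρ 1 ⟨v, hv⟩ m
  obtain ⟨w₁, a1, b1⟩ := k1 l m hm
  obtain ⟨x, hx, l', h3, h4⟩ : ∃ x ∈ Q, ∃ l' ∈ MulAction.orbit T l, x • l' ∉ MulAction.orbit T l := by
    simpa using k2 l h1
  obtain ⟨w₂, a2, b2⟩ := k1 _ _ ((e1 x l' w₁).2 ((b1 _).2 h3))
  have h5 : ∀ μ ∈ MulAction.orbit T l, pr ρ μ w₂ = 0 := fun μ e => by_contra fun e' => h4 (by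
    rw [← MulAction.orbit_eq_iff.2 e, MulAction.orbit_eq_iff.2 ((b2 μ).1 e')]; exact MulAction.mem_orbit_self _)
  have h6 : LinearIndependent k ![w₁, w₂] := LinearIndependent.pair_iff.2 fun a b e => by
    have := congrArg (pr ρ l) e
    rw [map_add, map_smul, map_smul, h5 l (MulAction.mem_orbit_self _), smul_zero, add_zero, map_zero] at this
    obtain rfl := (smul_eq_zero.1 this).resolve_right ((b1 l).2 (MulAction.mem_orbit_self _))
    rw [zero_smul, zero_add] at e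
    exact ⟨rfl, (smul_eq_zero.1 e).resolve_right fun e => (b2 _).2 (MulAction.mem_orbit_self _) (by rw [e, map_zero])⟩
  have h7 : Submodule.span k (Set.range ![w₁, w₂]) ≤ W := Submodule.span_le.2 (by simp [Set.insert_subset_iff, a1, a2])
  have h8 := finrank_span_eq_card h6
  refine ⟨h8.ge.trans (Submodule.finrank_mono h7), fun h => k2 l h1 fun y hy => ?_⟩
  rw [← Submodule.eq_of_le_of_finrank_le h7 (hd.trans h8.ge), Matrix.range_cons_cons_empty] at h
  have key : ∀ y ∈ Q, (∀ μ ∈ MulAction.orbit T l, y • μ ∈ MulAction.orbit T l) ∨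
      ∀ μ, y • μ ∈ MulAction.orbit T l ↔ pr ρ μ w₂ ≠ 0 := fun y hy => by
    obtain ⟨a, b, e⟩ := Submodule.mem_span_pair.1 (h _ (inv_mem hy) w₁ (Submodule.subset_span (by simp)))
    have e2 : ∀ μ, y • μ ∈ MulAction.orbit T l ↔ a • pr ρ μ w₁ + b • pr ρ μ w₂ ≠ 0 := fun μ => by
      rw [← b1, ← e1 y⁻¹, inv_smul_smul, ← e, map_add, map_smul, map_smul]
    by_cases ha : a = 0
    · have hb : b ≠ 0 := fun hb => (e2 (y⁻¹ • l)).1 (by simp) (by simp [ha, hb])
      exact .inr fun μ => by simp [e2, ha, hb]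
    · exact .inl fun μ e => (e2 μ).2 (by simpa [h5 μ e, ha] using (b1 μ).2 e)
  obtain ⟨n, hn⟩ := hQ ⟨y, hy⟩
  obtain ⟨j, hj⟩ := (hq.out.odd_of_ne_two h2).pow (n := n)
  have e3 : y ^ (j + 1) * y ^ (j + 1) = y := by
    rw [← pow_add, show j + 1 + (j + 1) = q ^ n + 1 by omega, pow_succ, show y ^ q ^ n = 1 from congrArg Subtype.val hn,
      one_mul]
  rcases key _ (pow_mem hy (j + 1)) with e | e
  · exact fun μ e' => by rw [← e3, mul_smul]; exact e _ (e _ e')
  · refine (key y hy).resolve_right fun e' => (e l).1 ?_ (h5 l (MulAction.mem_orbit_self _))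
    have := (e' ((y ^ (j + 1))⁻¹ • l)).2 ((e _).1 (by simp))
    rwa [smul_smul, ← eq_mul_inv_iff_mul_eq.2 e3] at this

end

/-- Let S be a finite solvable group whose order is divisible only by the primes 2, p, q (p, q distinct odd primes), with a Sylow system S₂, S_p, S_q (pairwise permutable Sylow subgroups) such that: S_p is a minimal normal subgroup of S of order p or p²; S_q has order q and [S_p, S_q] = S_p; and O₂(S) = 1. Let E be an irreducible module for S over the field with two elements on which S_p acts faithfully, and E₀ the subspace of fixed points of S₂. Then either E₀ has at least 8 elements, or E₀ has exactly 4 elements and S_q does not leave E₀ invariant. -/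
theorem result {S : Type*} [Group S] [Finite S]
    [Group.IsSolvable S] (p q : ℕ) (hp : p.Prime) (hq : q.Prime) (hp2 : p ≠ 2) (hq2 : q ≠ 2) (hpq : p ≠ q)
    (hπ : ∀ r : ℕ, r.Prime → r ∣ Nat.card S → r = 2 ∨ r = p ∨ r = q)
    (S₂ : Sylow 2 S) (Sp : Sylow p S) (Sq : Sylow q S)
    (h2q : Nat.card ↥((S₂ : Subgroup S) ⊔ (Sq : Subgroup S)) = Nat.card ↥S₂ * Nat.card ↥Sq)
    (h2p : Nat.card ↥((S₂ : Subgroup S) ⊔ (Sp : Subgroup S)) = Nat.card ↥S₂ * Nat.card ↥Sp)
    (hpq' : Nat.card ↥((Sp : Subgroup S) ⊔ (Sq : Subgroup S)) = Nat.card ↥Sp * Nat.card ↥Sq)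
    (hSpN : (Sp : Subgroup S).Normal) (hSpmin : ∀ N : Subgroup S, N.Normal → N ≤ (Sp : Subgroup S) → N = ⊥ ∨ N = (Sp : Subgroup S))
    (hSpcard : Nat.card ↥Sp = p ∨ Nat.card ↥Sp = p ^ 2)
    (hSq : Nat.card ↥Sq = q) (hcomm : ⁅(Sp : Subgroup S), (Sq : Subgroup S)⁆ = (Sp : Subgroup S))
    (hO2 : Cfsg.pCore 2 S = ⊥)
    {E : Type*} [AddCommGroup E] [Module (ZMod 2) E] [Finite E] (ρ : Representation (ZMod 2) S E) (hE : Nontrivial E)
    (hirr : ∀ N : Submodule (ZMod 2) E, (∀ s : S, ∀ m ∈ N, ρ s m ∈ N) → N = ⊥ ∨ N = ⊤)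
    (hfaith : ∀ x ∈ (Sp : Subgroup S), ρ x = 1 → x = 1) :
    8 ≤ Nat.card {v : E // ∀ s ∈ (S₂ : Subgroup S), ρ s v = v} ∨
      (Nat.card {v : E // ∀ s ∈ (S₂ : Subgroup S), ρ s v = v} = 4 ∧
        ∃ x ∈ (Sq : Subgroup S), ∃ v : E, (∀ s ∈ (S₂ : Subgroup S), ρ s v = v) ∧ ¬ ∀ s ∈ (S₂ : Subgroup S), ρ s (ρ x v) = ρ x v) := by
  classical
  have := Fact.mk hp
  have := Fact.mk hq
  have := Fintype.ofFinite Sp
  let k := AlgebraicClosure (ZMod 2)
  change Nat.card (Sp : Subgroup S) = p ∨ Nat.card (Sp : Subgroup S) = p ^ 2 at hSpcard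
  have ho : Odd (Nat.card (Sp : Subgroup S)) := by
    rcases hSpcard with e | e <;> rw [e]
    exacts [hp.odd_of_ne_two hp2, (hp.odd_of_ne_two hp2).pow]
  have : IsMulCommutative Sp := hSpcard.elim (fun e => (isCyclic_of_prime_card e).isMulCommutative)
    IsPGroup.isMulCommutative_of_card_eq_prime_sq
  have : NeZero ((Monoid.exponent Sp : ℕ) : ZMod 2) := ⟨fun e => (Nat.not_even_iff_odd.2
    (ho.of_dvd_nat Group.exponent_dvd_nat_card)) (ZMod.natCast_eq_zero_iff_even.1 e)⟩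
  let ρ' : Representation k S (k ⊗[ZMod 2] E) := (End.baseChangeHom (ZMod 2) k E).toMonoidHom.comp ρ
  let E₀ := Representation.invariants (ρ.comp (S₂ : Subgroup S).subtype)
  have h0 : ∀ v, v ∈ E₀ ↔ ∀ s ∈ (S₂ : Subgroup S), ρ s v = v := fun v => Subtype.forall
  have h1 : Nat.card {v : E // ∀ s ∈ (S₂ : Subgroup S), ρ s v = v} = 2 ^ finrank (ZMod 2) E₀ := by
    rw [← Nat.card_congr (Equiv.subtypeEquivRight h0), natCard_eq_pow_finrank (K := ZMod 2), Nat.card_zmod]
  let e := TensorProduct.equivFinsuppOfBasisLeft (N := E) (Basis.ofVectorSpace (ZMod 2) k)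
  have h2 : ∀ s w i, e (ρ' s w) i = ρ s (e w i) := fun s w i => by
    induction w with
    | zero => simp
    | tmul a v => rw [show ρ' s (a ⊗ₜ v) = a ⊗ₜ ρ s v from rfl]; simp [e]
    | add a b ha hb => simp [ha, hb]
  have h3 : ∀ w, w ∈ E₀.baseChange k ↔ ∀ i, e w i ∈ E₀ := fun w => by
    constructor
    · rintro ⟨w, rfl⟩ i
      induction w with
      | zero => simp
      | tmul a v => simpa [e] using E₀.smul_mem _ v.2
      | add a b ha hb => simpa using add_mem ha hb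
    · intro h
      rw [← e.symm_apply_apply w, TensorProduct.equivFinsuppOfBasisLeft_symm_apply]
      exact sum_mem fun i _ => Submodule.tmul_mem_baseChange_of_mem _ (h i)
  have h4 : finrank k (E₀.baseChange k) ≤ finrank (ZMod 2) E₀ :=
    (LinearMap.finrank_range_le _).trans Module.finrank_baseChange.le
  rw [h1]
  refine or_iff_not_imp_left.2 fun h5 => ?_
  have h6 : finrank (ZMod 2) E₀ ≤ 2 := by_contra fun h => h5 (Nat.pow_le_pow_right two_pos (show 3 ≤ _ by omega))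
  obtain ⟨h7, h8⟩ := main ρ' ho S₂.isPGroup' hq2 Sq.isPGroup' hcomm (W := E₀.baseChange k) (by
    obtain ⟨v, hv, h⟩ := (Subgroup.bot_or_exists_ne_one Sp.1).resolve_left fun e => by
      rw [e, Subgroup.card_bot] at hSpcard
      exact hp.ne_one (hSpcard.elim Eq.symm fun e => (pow_eq_one_iff.1 e.symm).resolve_right two_ne_zero)
    exact ⟨v, hv, fun e => h (hfaith v hv (LinearMap.baseChangeHom_injective (ZMod 2) E k
      (e.trans (map_one (End.baseChangeHom (ZMod 2) k E)).symm)))⟩) (fun w => by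
    simp only [h3, h0, ← h2]
    exact ⟨fun h t ht => e.injective (Finsupp.ext fun i => h i t ht), fun h i t ht => by rw [h t ht]⟩) (h4.trans h6)
  refine ⟨by rw [le_antisymm h6 (h7.trans h4)]; rfl, by_contra fun h => h8 fun x hx w hw => (h3 _).2 fun i => ?_⟩
  exact h2 x w i ▸ (h0 _).2 (by_contra fun e' => h ⟨x, hx, _, (h0 _).1 ((h3 w).1 hw i), e'⟩)

end Cfsg.Agent.S4414
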