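import Cfsg.Statements.S4415
import Cfsg.Agent.Fgs.ThoF
import Cfsg.Agent.Grp.Coprime

set_option autoImplicit false
open Cfsg
open scoped commutatorElement

namespace Cfsg.Agent.S4415

/-- Let S be a finite solvable group acting faithfully on a finite-dimensional space E over the field with three elements, with O₃(S) = 1. Let B ≤ S have order 3 and suppose: E = E₀ ⊕ E₁ with B fixing E₁ pointwise, E₀ B-invariant of order 27 and indecomposable under B (a generator of B has a single Jordan block on E₀); B normalizes but does not centralize some subgroup Q of S that is elementary abelian of order 4; and B is the centre of a Sylow 3-subgroup of S. Put R = [O_{3'}(S), B]. Then R is elementary abelian of order 4 or extraspecial of order 32 containing an elementary abelian subgroup of order 8 (a central product of two quaternion groups), and E is the direct sum of a subspace fixed pointwise by R and an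 RB-invariant subspace on which the subgroup RB acts faithfully and irreducibly. -/
theorem result {S : Type*} [Group S] [Finite S]
    [Group.IsSolvable S] {E : Type*} [AddCommGroup E] [Module (ZMod 3) E] [Finite E] (ρ : Representation (ZMod 3) S E)
    (hfaith : Function.Injective ρ) (hO3 : Cfsg.pCore 3 S = ⊥)
    (B : Subgroup S) (hB : Nat.card ↥B = 3) (b : S) (hb : Subgroup.zpowers b = B)
    (E₀ E₁ : Submodule (ZMod 3) E) (hE01 : E₀ ⊓ E₁ = ⊥) (hE01' : E₀ ⊔ E₁ = ⊤)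
    (hE1 : ∀ v ∈ E₁, ρ b v = v) (hE0inv : ∀ v ∈ E₀, ρ b v ∈ E₀) (hE0 : Nat.card ↥E₀ = 27)
    (hind : ∃ v ∈ E₀, ρ b (ρ b v - v) - (ρ b v - v) ≠ 0)
    (Q : Subgroup S) (hQ : Cfsg.IsElementaryAbelian 2 Q) (hQ4 : Nat.card ↥Q = 4)
    (hBQ : B ≤ Subgroup.normalizer (Q : Set S)) (hBQ' : ¬ B ≤ Subgroup.centralizer (Q : Set S))
    (P : Sylow 3 S) (hBZ : (Subgroup.center ↥(P : Subgroup S)).map (P : Subgroup S).subtype = B) :
    ((Cfsg.IsElementaryAbelian 2 ⁅Cfsg.pPrimeCore 3 S, B⁆ ∧ Nat.card ↥⁅Cfsg.pPrimeCore 3 S, B⁆ = 4) ∨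
      (Cfsg.IsExtraspecial 2 ↥⁅Cfsg.pPrimeCore 3 S, B⁆ ∧ Nat.card ↥⁅Cfsg.pPrimeCore 3 S, B⁆ = 32 ∧
        ∃ A : Subgroup S, A ≤ ⁅Cfsg.pPrimeCore 3 S, B⁆ ∧ Cfsg.IsElementaryAbelian 2 A ∧ Nat.card ↥A = 8)) ∧
    ∃ F₀ F₁ : Submodule (ZMod 3) E, F₀ ⊓ F₁ = ⊥ ∧ F₀ ⊔ F₁ = ⊤ ∧
      (∀ r ∈ ⁅Cfsg.pPrimeCore 3 S, B⁆, ∀ v ∈ F₁, ρ r v = v) ∧ (∀ r ∈ ⁅Cfsg.pPrimeCore 3 S, B⁆ ⊔ B, ∀ v ∈ F₀, ρ r v ∈ F₀) ∧
      (∀ r ∈ ⁅Cfsg.pPrimeCore 3 S, B⁆ ⊔ B, (∀ v ∈ F₀, ρ r v = v) → r = 1) ∧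
      (∀ N : Submodule (ZMod 3) E, N ≤ F₀ → (∀ r ∈ ⁅Cfsg.pPrimeCore 3 S, B⁆ ⊔ B, ∀ v ∈ N, ρ r v ∈ N) → N = ⊥ ∨ N = F₀) := by
  set H := Cfsg.pPrimeCore 3 S with hH
  have hbB : b ∈ B := hb ▸ Subgroup.mem_zpowers b
  have b3 : b * b * b = 1 := by
    have := pow_orderOf_eq_one b
    rwa [← Nat.card_zpowers, hb, hB, pow_succ, sq] at this
  have cH : (Nat.card B).Coprime (Nat.card H) := hB ▸ (CL.Grp.pPrimeCore_coprime 3 S).symm
  have RH : ⁅H, B⁆ ≤ H := Subgroup.commutator_le_left _ _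
  have BN := Subgroup.normalizer_commutator_ge_right H B
  have eR := Subgroup.subgroupOfEquivOfLe (le_sup_left : ⁅H, B⁆ ≤ ⁅H, B⁆ ⊔ B)
  have RR := CL.Grp.commutator_commutator_eq (K := H) (A := B) Subgroup.le_normalizer_of_normal cH
    (Or.inl inferInstance)
  have hpow : ∀ β ∈ B, ∃ i : ℕ, b ^ i = β := fun β hβ => by
    rw [← hb, ← mem_powers_iff_mem_zpowers] at hβ; exact hβ
  let D : CL.Tho3.MS ↥(⁅H, B⁆ ⊔ B) E :=
    { R := ⁅H, B⁆.subgroupOf _
      nR := (Subgroup.normal_subgroupOf_iff_le_normalizer le_sup_left).mpr (sup_le Subgroup.le_normalizer BN)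
      cop := by
        rw [Nat.card_congr eR.toEquiv, ← hB]
        exact cH.coprime_dvd_right (Subgroup.card_dvd_of_le RH)
      b := ⟨b, Subgroup.mem_sup_right hbB⟩
      b3 := Subtype.ext b3
      dec := fun γ => by
        have h := γ.2
        rw [← SetLike.mem_coe, Subgroup.coe_mul_of_right_le_normalizer_left _ _ BN] at h
        obtain ⟨r, hr, β, hβ, e⟩ := h
        obtain ⟨i, rfl⟩ := hpow β hβ
        exact ⟨⟨r, Subgroup.mem_sup_left hr⟩, hr, i, Subtype.ext e.symm⟩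
      ρ := ρ.comp (Subgroup.subtype _)
      faith := fun g hg => Subtype.ext (hfaith (by rw [Subgroup.coe_one, map_one]; exact LinearMap.ext hg))
      comm := fun M hM h => by
        have : ⁅⁅H, B⁆, B⁆ ≤ M.map (Subgroup.subtype _) := Subgroup.commutator_le.mpr fun r hr β hβ => by
          obtain ⟨i, rfl⟩ := hpow β hβ
          refine ⟨⁅(⟨r, Subgroup.mem_sup_left hr⟩ : ↥(⁅H, B⁆ ⊔ B)), (⟨b, Subgroup.mem_sup_right hbB⟩ : ↥(⁅H, B⁆ ⊔ B)) ^ i⁆, ?_, rfl⟩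
          have h1 := (QuotientGroup.eq_one_iff (N := M) _).mpr (h ⟨r, Subgroup.mem_sup_left hr⟩ hr)
          rw [← QuotientGroup.mk'_apply, map_commutatorElement, commutatorElement_eq_one_iff_commute] at h1
          rw [SetLike.mem_coe, ← QuotientGroup.eq_one_iff, ← QuotientGroup.mk'_apply, map_commutatorElement,
            commutatorElement_eq_one_iff_commute, map_pow]
          exact h1.pow_right i
        intro r hr
        obtain ⟨m, hm, e⟩ := this (RR.ge hr)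
        exact (Subtype.ext e : m = r) ▸ hm
      rk := CL.Tho3.rank_two (β := ρ b) (fun v => by
        rw [← Module.End.mul_apply, ← Module.End.mul_apply, ← map_mul, ← map_mul, b3, map_one]; rfl)
        hE01' hE1 hE0inv hE0 }
  have cQ : ∀ y ∈ Q, ⁅y, b⁆ ∈ Q := fun y hy => by
    rw [commutatorElement_def, mul_assoc, mul_assoc, ← mul_assoc b]
    exact mul_mem hy ((Subgroup.mem_normalizer_iff.mp (hBQ hbB) _).mp (inv_mem hy))
  have tel : ∀ y : S, ⁅y, b⁆ * (b * ⁅y, b⁆ * b⁻¹) * (b * (b * ⁅y, b⁆ * b⁻¹) * b⁻¹) = 1 := fun y => by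
    calc _ = y * (b * b * b) * y⁻¹ * (b * b * b)⁻¹ := by simp only [commutatorElement_def]; group
      _ = 1 := by rw [b3]; group
  obtain ⟨y0, hy0, hne⟩ : ∃ y ∈ Q, ⁅y, b⁆ ≠ 1 := by
    by_contra hc
    push Not at hc
    exact hBQ' (hb ▸ Subgroup.zpowers_le.mpr fun y hy => (commutatorElement_eq_one_iff_commute.mp (hc y hy)).eq)
  have hy := cQ _ hy0
  have hyH : ⁅y0, b⁆ ∈ H := CL.Tho3.comm_mem_core P (fun g hg => by
    obtain ⟨c, hc, rfl⟩ := hBZ.ge hbB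
    exact congrArg Subtype.val (Subgroup.mem_center_iff.mp hc ⟨g, hg⟩)) (hQ.2 _ hy)
  have hq : ⁅⁅y0, b⁆, b⁆ ∈ ⁅H, B⁆ := Subgroup.commutator_mem_commutator hyH hbB
  have h4 : D.Four ⟨_, Subgroup.mem_sup_left hq⟩ :=
    ⟨fun e => hne (by
      have e1 := mul_inv_eq_iff_eq_mul.mpr (commutatorElement_eq_one_iff_commute.mp (congrArg Subtype.val e)).symm.eq
      have e2 := tel y0
      rwa [e1, e1, ← sq, hQ.2 _ hy, one_mul] at e2),
      Subtype.ext ((sq _).symm.trans (hQ.2 _ (cQ _ hy))), Subtype.ext (tel _)⟩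
  have el : ∀ A : Subgroup ↥(⁅H, B⁆ ⊔ B), IsElementaryAbelian 2 A →
      IsElementaryAbelian 2 (A.map (Subgroup.subtype _)) := fun A hA =>
    CL.Tho3.MS.elem_of_sq (by rintro _ ⟨a, ha, rfl⟩; rw [← map_mul, ← sq, hA.2 a ha, map_one])
  have mR : D.R.map (Subgroup.subtype _) = ⁅H, B⁆ := Subgroup.map_subgroupOf_eq_of_le le_sup_left
  refine ⟨?_, ?_⟩
  · rcases CL.Tho3.MS.main h4 hq with ⟨h1, h2⟩ | ⟨h1, h2, A, h3, h5, h6⟩
    · exact Or.inl ⟨mR ▸ el _ h1, (Nat.card_congr eR.toEquiv).symm.trans h2⟩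
    · exact Or.inr ⟨CL.Grp.extra_of_mulEquiv h1 eR, (Nat.card_congr eR.toEquiv).symm.trans h2, _,
        (Subgroup.map_mono h3).trans mR.le, el _ h5, (CL.Grp.card_map_subtype A).trans h6⟩
  · obtain ⟨F₀, F₁, h1, h2, h3, h5, h6, h7⟩ := CL.Tho3.MS.module h4 hq
    exact ⟨F₀, F₁, h1, h2, fun r hr => h3 ⟨r, Subgroup.mem_sup_left hr⟩ hr, fun r hr => h5 ⟨r, hr⟩,
      fun r hr h => congrArg Subtype.val (h6 ⟨r, hr⟩ h), fun N hN h => h7 N hN fun g => h g.1 g.2⟩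

end Cfsg.Agent.S4415
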