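import Cfsg.Statements.S4420
import Cfsg.Agent.Base

set_option autoImplicit false
open Cfsg

namespace Cfsg.Agent.S4420

theorem inverts {H : Type*} [Group H] (A : Subgroup H) (hD : ∀ x : H, x ∉ A → x ^ 2 = 1)
    {x a : H} (hx : x ∉ A) (ha : a ∈ A) : x * a * x⁻¹ = a⁻¹ := by
  have h1 : x * a ∉ A := fun h => hx (by simpa using A.mul_mem h (A.inv_mem ha))
  have h2 := hD _ h1
  have h3 := hD _ hx
  rw [pow_two] at h2 h3
  have h4 : x⁻¹ = x := inv_eq_of_mul_eq_one_right h3
  rw [h4, eq_inv_iff_mul_eq_one, mul_assoc]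
  exact h2

theorem comm_of_inverts {H : Type*} [Group H] (A : Subgroup H) {x : H}
    (hx : ∀ a ∈ A, x * a * x⁻¹ = a⁻¹) : IsMulCommutative A := by
  refine ⟨⟨fun a b => Subtype.ext ?_⟩⟩
  have h1 := hx _ (A.mul_mem a.2 b.2)
  have h2 : x * ((a : H) * b) * x⁻¹ = (x * a * x⁻¹) * (x * b * x⁻¹) := by group
  rw [h2, hx _ a.2, hx _ b.2, ← mul_inv_rev, inv_inj] at h1
  exact h1.symm

theorem comm_of_sq {H : Type*} [Group H] (h : ∀ x : H, x ^ 2 = 1) (a b : H) : a * b = b * a := by
  have h1 : ∀ x : H, x⁻¹ = x := fun x => inv_eq_of_mul_eq_one_right (by rw [← pow_two, h])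
  rw [← h1 (a * b), mul_inv_rev, h1, h1]

/-- Structure of groups in which every element outside some proper subgroup has square 1. Let H be a finite group with a proper subgroup A such that every element outside A has square 1. Then H has an abelian normal subgroup B of index 2 such that every element outside B is an involution inverting every element of B; and if H is not an elementary abelian 2-group, B is the only abelian normal subgroup of index 2 with this property. -/
theorem result {H : Type*} [Group H] [Finite H] (A : Subgroup H) (hA : A ≠ ⊤) (hD : ∀ x : H, x ∉ A → x ^ 2 = 1) :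
    ∃ B : Subgroup H, B.Normal ∧ IsMulCommutative ↥B ∧ B.index = 2 ∧
      (∀ x : H, x ∉ B → x ^ 2 = 1 ∧ ∀ b ∈ B, x * b * x⁻¹ = b⁻¹) ∧
      (¬ (IsMulCommutative H ∧ ∀ x : H, x ^ 2 = 1) →
        ∀ B' : Subgroup H, B'.Normal → IsMulCommutative ↥B' → B'.index = 2 →
          (∀ x : H, x ∉ B' → x ^ 2 = 1 ∧ ∀ b ∈ B', x * b * x⁻¹ = b⁻¹) → B' = B) := by
  by_cases hall : ∀ x : H, x ^ 2 = 1
  · have hcomm := comm_of_sq hall
    obtain ⟨M, hM, hAM⟩ := (eq_top_or_exists_le_coatom A).resolve_left hA
    have hMn : M.Normal := ⟨fun n hn g => by rw [hcomm g n]; simpa using hn⟩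
    have h1 : ∀ x : H, x⁻¹ = x := fun x => inv_eq_of_mul_eq_one_right (by rw [← pow_two, hall])
    refine ⟨M, hMn, ⟨⟨fun a b => Subtype.ext (hcomm _ _)⟩⟩, ?_, ?_, ?_⟩
    · obtain ⟨a, ha⟩ : ∃ a, a ∉ M := by
        by_contra h
        push Not at h
        exact hM.1 (eq_top_iff.2 fun x _ => h x)
      rw [Subgroup.index_eq_two_iff]
      refine ⟨a, fun b => ?_⟩
      have htop : M ⊔ Subgroup.zpowers a = ⊤ := hM.2 _ (lt_of_le_of_ne le_sup_left (fun h => ha (by
        rw [h]; exact Subgroup.mem_sup_right (Subgroup.mem_zpowers a))))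
      have hb : b ∈ M ⊔ Subgroup.zpowers a := htop ▸ Subgroup.mem_top b
      obtain ⟨m, hm, z, hz, rfl⟩ := Subgroup.mem_sup_of_normal_left.1 hb
      obtain ⟨k, rfl⟩ := Subgroup.mem_zpowers_iff.1 hz
      have ha2 : a ^ (2 : ℤ) = 1 := by exact_mod_cast hall a
      rcases Int.even_or_odd' k with ⟨j, rfl | rfl⟩
      · rw [zpow_mul, ha2, one_zpow, mul_one]
        exact Or.inr ⟨hm, fun h => ha (by simpa using M.mul_mem (M.inv_mem hm) h)⟩
      · rw [zpow_add, zpow_mul, ha2, one_zpow, one_mul, zpow_one]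
        refine Or.inl ⟨?_, fun h => ha (by simpa using M.mul_mem (M.inv_mem hm) h)⟩
        rw [mul_assoc, ← pow_two, hall, mul_one]
        exact hm
    · intro x _
      refine ⟨hall x, fun b _ => ?_⟩
      rw [hcomm x b, h1 b]; simp
    · intro h
      exact absurd ⟨⟨⟨hcomm⟩⟩, hall⟩ h
  · push Not at hall
    obtain ⟨a, ha⟩ := hall
    have haA : a ∈ A := by
      by_contra h
      exact ha (hD a h)
    obtain ⟨x, hx⟩ : ∃ x, x ∉ A := by
      by_contra h
      push Not at h
      exact hA (eq_top_iff.2 fun x _ => h x)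
    have hmul : ∀ y z : H, y ∉ A → z ∉ A → y * z ∈ A := by
      intro y z hy hz
      by_contra hyz
      have e1 := inverts A hD hyz haA
      have e2 : y * z * a * (y * z)⁻¹ = y * (z * a * z⁻¹) * y⁻¹ := by group
      rw [e2, inverts A hD hz haA, inverts A hD hy (A.inv_mem haA), inv_inv] at e1
      apply ha
      rw [pow_two]
      nth_rewrite 2 [e1]
      simp
    have hidx : A.index = 2 := by
      rw [Subgroup.index_eq_two_iff]
      refine ⟨x, fun b => ?_⟩
      by_cases hb : b ∈ A
      · exact Or.inr ⟨hb, fun h => hx (by simpa using A.mul_mem (A.inv_mem hb) h)⟩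
      · exact Or.inl ⟨hmul b x hb hx, hb⟩
    refine ⟨A, A.normal_of_index_eq_two hidx, comm_of_inverts A (fun a ha => inverts A hD hx ha), hidx,
      fun y hy => ⟨hD y hy, fun b hb => inverts A hD hy hb⟩, ?_⟩
    intro _ B' _ hBc hBi hB'
    have haB : a ∈ B' := by
      by_contra h
      exact ha (hB' a h).1
    have hle : B' ≤ A := by
      intro y hy
      by_contra hyA
      have e1 := inverts A hD hyA haA
      have e2 : y * a = a * y := congrArg Subtype.val (hBc.is_comm.comm (⟨y, hy⟩ : B') ⟨a, haB⟩)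
      rw [e2, mul_inv_cancel_right] at e1
      apply ha
      rw [pow_two]
      nth_rewrite 2 [e1]
      simp
    exact Subgroup.eq_of_le_of_card_ge hle (by
      have h1 := A.index_mul_card
      have h2 := B'.index_mul_card
      rw [hidx] at h1
      rw [hBi] at h2
      omega)

end Cfsg.Agent.S4420
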