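import Cfsg.Statements.S4508
import Cfsg.Agent.Inv.SCGroup
import Cfsg.Agent.Inv.SymSq

set_option autoImplicit false
open Cfsg
open CL.Inv CL.Inv.PO CL.Char CL.Blk Finset

namespace Cfsg.Agent.S4508

/-- Let the finite group G contain an element x of prime order p with C_G(x) = ⟨x⟩, and let t be the number of conjugacy classes of elements of order p. If G has an irreducible character of degree p − 1, then t is even or the commutator subgroup has even index. -/
theorem result {G : Type*} [Group G] [Finite G] (p : ℕ) (hp : p.Prime) (x : G) (hx : orderOf x = p) (hC : Subgroup.centralizer ({x} : Set G) = Subgroup.zpowers x) (t : ℕ) (ht : Nat.card {C : ConjClasses G // ∃ g ∈ C.carrier, orderOf g = p} = t) (χ : Cfsg.IrrCharacter G) (hχ : Cfsg.charDegree (χ : G → ℂ) + 1 = p) : Even t ∨ Even (commutator G).index := by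
  have : Fact p.Prime := ⟨hp⟩
  have := Fintype.ofFinite G
  obtain ⟨K⟩ := nonempty_ctx_of_self hx hC
  have h := K.card_classes
  rw [ht] at h
  have hp2 := hp.two_le
  by_cases h2 : p = 2
  · right
    have hf : K.f = 1 := Nat.eq_one_of_mul_eq_one_left (m := t) (by omega)
    rw [(K.index_commutator_eq hf).1, h2]
    exact even_two
  rw [or_iff_not_imp_left]
  intro hto
  have hfe : Even K.f := (Nat.even_mul.1 (h ▸ hp.even_sub_one h2)).resolve_left hto
  obtain ⟨M, hM⟩ := exists_isPModular' hp
  obtain ⟨D, -, -⟩ := K.exists_data_principal hM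
  have hd : charDegree (χ : G → ℂ) = p - 1 := by omega
  have hdc : (charDegree (χ : G → ℂ) : ℂ) = p - 1 := by rw [hd, Nat.cast_sub hp.one_le]; simp
  have hsum : ∑ j : ZMod p, (χ : G → ℂ) (x ^ j.val) = 0 := by
    by_cases hB : χ ∈ principalBlock M G
    swap
    · have := Nat.le_of_dvd χ.2.charDegree_pos (dvd_degree_of_apply_eq_zero
        χ.2.isGeneralizedCharacter hp (k := 1) (by rw [pow_one, K.x_pow])
        (D.apply_eq_zero_of_notMem le_rfl hB K.sing_x) χ.2.cast_charDegree.symm)
      omega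
    rcases (D.mem_iff χ).1 hB with hX | ⟨k, rfl⟩
    · have h1 := (D.deg_X_one hX).dvd
      rcases D.hs χ hX with e | e
      · have := Int.le_of_dvd (by omega) ((dvd_neg).2 h1)
        omega
      · rw [D.sum_X_P hX, hdc, e]; simp
    · have h1 := (D.deg_μ_one k).dvd
      have h3 := Nat.le_of_dvd (by omega) K.f_dvd
      have h4 := K.f_pos
      rcases D.hε with e | e <;> rw [e, hd] at h1
      · have h5 : K.f = p - 1 := by
          by_contra h5
          have := Int.le_of_dvd (by omega) ((dvd_neg).2 h1)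
          omega
        rw [D.sum_μ_P, hd, h5, e]; simp
      · obtain ⟨c, hc⟩ := h1
        obtain ⟨j, hj⟩ := hfe
        have : c = -1 := by nlinarith
        subst this
        omega
  obtain ⟨γ, hγ, e1, e2, -⟩ := K.exists_fixed_part le_rfl χ.2.isCharacter
  have h0 : γ = 0 := hγ.eq_zero_of_one_eq_zero
    ((mul_eq_zero.1 (e1.trans hsum)).resolve_left (Nat.cast_ne_zero.2 hp.ne_zero))
  obtain ⟨y, hy⟩ := K.exists_orderOf_a
  have hyP : ∀ k, 0 < k → k < K.f → (y : G) ^ k ∉ Subgroup.zpowers x := fun k h1 h3 h4 =>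
    pow_ne_one_of_lt_orderOf h1.ne' (hy ▸ h3) ((map_pow _ _ _).symm.trans
      ((K.a_eq_one_iff (y ^ k)).2 h4))
  have hf2 : 2 ≤ K.f := Nat.le_of_dvd K.f_pos hfe.two_dvd
  have hy1 := K.pow_f_eq_one le_rfl y.2 (by simpa using hyP 1 one_pos hf2)
  obtain ⟨δ, hδ⟩ := exists_det_hom χ.2.isCharacter
  obtain ⟨n, μ, h1, h3, h4⟩ := hδ y
  rw [prod_eq_of_power_sums (t := t) (c := 0) K.f_pos.ne' hfe μ
    (fun i => orderOf_dvd_iff_pow_eq_one.1 ((orderOf_dvd_of_pow_eq_one (h1 i)).trans
      (orderOf_dvd_of_pow_eq_one hy1))) (one_pow _)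
    (by have := h3 0
        simp only [pow_zero, sum_const, card_univ, nsmul_eq_mul, mul_one] at this
        rw [← this, ← χ.2.cast_charDegree, hd, ← h]; simp)
    (fun k h5 h6 => by rw [← h3, ← Subgroup.coe_pow, ← e2 _ (hyP k h5 h6), h0]; simp),
    (Nat.not_even_iff_odd.1 hto).neg_one_pow] at h4
  have h5 : δ (y ^ (commutator G).index) = 1 :=
    Abelianization.commutator_subset_ker δ (Subgroup.pow_index_mem _ _)
  have h6 := congrArg Units.val h5
  rw [map_pow, Units.val_pow_eq_pow_val, h4, pow_zero, mul_one, Units.val_one] at h6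
  exact (neg_one_pow_eq_one_iff_even (by norm_num)).1 h6

end Cfsg.Agent.S4508
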