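import Cfsg.Statements.S4520
import Cfsg.Agent.Blk.PrincCrit2
import Cfsg.Agent.Blk.Quot
import Cfsg.Agent.Blk.Defect2

set_option autoImplicit false
open Cfsg

namespace Cfsg.Agent.S4520

/-- Let N be a normal subgroup of odd index in the finite group G, M a maximal ideal of the algebraic integers containing 2, and k coprime to the order of G with k ^ (2 ^ e) ≡ 1 modulo the order of G for some e and g ^ k = g⁻¹ for every element g of odd order. Let θ be an irreducible character of N and χ an irreducible character of G over θ, both unchanged by composing with g ↦ g ^ k. Then χ lies in the principal 2-block of G if and only if θ lies in the principal 2-block of N. -/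
theorem result {G : Type*} [Group G] [Fintype G] (M : Ideal Cfsg.AlgInt) (hM : Cfsg.IsPModular 2 M) (N : Subgroup G) [N.Normal] [Fintype N] (hidx : Odd N.index) (k e : ℕ) (hk : Nat.Coprime k (Nat.card G)) (hke : k ^ (2 ^ e) ≡ 1 [MOD Nat.card G]) (hk₂ : ∀ g : G, Odd (orderOf g) → g ^ k = g⁻¹) (θ : Cfsg.IrrCharacter N) (hθ : ∀ n : N, (θ : N → ℂ) (n ^ k) = (θ : N → ℂ) n) (χ : Cfsg.IrrCharacter G) (hχ : ∀ g : G, (χ : G → ℂ) (g ^ k) = (χ : G → ℂ) g) (hover : Cfsg.classInner (fun n : N => (χ : G → ℂ) n) (θ : N → ℂ) ≠ 0) : χ ∈ Cfsg.principalBlock M G ↔ θ ∈ Cfsg.principalBlock M N := by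
  refine ⟨fun h => CL.Blk.mem_principal_of_over hM h hover, fun h => ?_⟩
  have hB := CL.Blk.isPBlock_blockOf_irr M χ
  have hcov : CL.Blk.Covers N (Cfsg.blockOf M (χ : G → ℂ)) (Cfsg.principalBlock M N) :=
    (CL.Blk.over_iff.2 hover).covers (CL.Blk.self_mem_blockOf hM χ) h
  obtain ⟨ψ, hψ, hψ1⟩ := hcov.exists_over_of_mem_right hM (CL.Blk.blockIdem_mem_OG hM hB)
    (CL.Blk.isPBlock_principal M) (CL.Blk.irrOne_mem_principal hM)
  rw [CL.Blk.over_irrOne_iff] at hψ1
  have hd : Cfsg.charDegree (ψ : G → ℂ) ∣ N.index :=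
    CL.Blk.charDegree_dvd_index_of_le_charKer ψ.2 fun n hn => ψ.2.mem_charKer.2 (hψ1 n hn)
  refine CL.Blk.mem_principal_of_real hM (CL.Blk.blockDefect_eq_full_of_not_dvd hψ fun h2 => ?_)
    fun g hg => ?_
  · exact (Nat.not_even_iff_odd.2 hidx) (even_iff_two_dvd.2 (h2.trans hd))
  · have h1 : (χ : G → ℂ) g⁻¹ = (χ : G → ℂ) g := by
      rw [← hk₂ g (Nat.not_even_iff_odd.1 fun h2 => hg (even_iff_two_dvd.1 h2)), hχ]
    simp only [Cfsg.centralChar, CL.Blk.centralizer_singleton_inv, h1]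

end Cfsg.Agent.S4520
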