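import Cfsg.Statements.S4521
import Cfsg.Agent.Blk.PrincCrit2

set_option autoImplicit false
open Cfsg

namespace Cfsg.Agent.S4521

/-- Let the finite group G be generated by subgroups U₁ and U₂ that commute elementwise and whose intersection is a p-group, and let M be a maximal ideal of the algebraic integers containing the prime p. If the irreducible character χ of G has the irreducible constituents ψ₁ on U₁ and ψ₂ on U₂, then χ lies in the principal block of G if and only if ψ₁ and ψ₂ lie in the principal blocks of U₁ and U₂. -/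
theorem result {G : Type*} [Group G] [Fintype G] (p : ℕ) [Fact p.Prime] (M : Ideal Cfsg.AlgInt) (hM : Cfsg.IsPModular p M) (U₁ U₂ : Subgroup G) [Fintype U₁] [Fintype U₂] (hcomm : ∀ u ∈ U₁, ∀ v ∈ U₂, u * v = v * u) (hgen : U₁ ⊔ U₂ = ⊤) (hZ : IsPGroup p ↥(U₁ ⊓ U₂)) (χ : Cfsg.IrrCharacter G) (ψ₁ : Cfsg.IrrCharacter U₁) (ψ₂ : Cfsg.IrrCharacter U₂) (h₁ : Cfsg.classInner (fun u : U₁ => (χ : G → ℂ) u) (ψ₁ : U₁ → ℂ) ≠ 0) (h₂ : Cfsg.classInner (fun u : U₂ => (χ : G → ℂ) u) (ψ₂ : U₂ → ℂ) ≠ 0) : χ ∈ Cfsg.principalBlock M G ↔ (ψ₁ ∈ Cfsg.principalBlock M U₁ ∧ ψ₂ ∈ Cfsg.principalBlock M U₂) := by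
  obtain ⟨φ, ψ, hφ, hψ, h⟩ := χ.2.exists_of_commute U₁ U₂ hcomm hgen
  have e1 : φ = ψ₁ := by
    refine CL.Char.eq_of_classInner_smul_ne_zero hφ ψ₁.2 (c := ψ 1) ?_
    convert h₁ using 2
    funext u
    have := h u 1
    simp only [OneMemClass.coe_one, mul_one] at this
    rw [this, Pi.smul_apply, smul_eq_mul, mul_comm]
  have e2 : ψ = ψ₂ := by
    refine CL.Char.eq_of_classInner_smul_ne_zero hψ ψ₂.2 (c := φ 1) ?_
    convert h₂ using 2
    funext u
    have := h 1 u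
    simp only [OneMemClass.coe_one, one_mul] at this
    rw [this, Pi.smul_apply, smul_eq_mul]
  let f : U₁ × U₂ →* G := MonoidHom.noncommCoprod U₁.subtype U₂.subtype
    fun a b => hcomm a a.2 b b.2
  have hf : ∀ x : U₁ × U₂, f x = x.1 * x.2 := fun _ => rfl
  have hsurj : Function.Surjective f := by
    rw [← MonoidHom.range_eq_top]
    refine (MonoidHom.noncommCoprod_range _ _ _).trans ?_
    rw [Subgroup.range_subtype, Subgroup.range_subtype, hgen]
  have hk : ∀ x ∈ f.ker, (x.1 : G) ∈ U₂ ∧ (x.2 : G) = (x.1 : G)⁻¹ := fun x hx => by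
    have h1 : (x.1 : G) * x.2 = 1 := hx
    have h2 : (x.2 : G) = (x.1 : G)⁻¹ := eq_inv_of_mul_eq_one_right h1
    refine ⟨?_, h2⟩
    rw [← inv_mem_iff, ← h2]; exact x.2.2
  have hkp : IsPGroup p f.ker := by
    intro x
    obtain ⟨h1, h2⟩ := hk x x.2
    obtain ⟨k, hk'⟩ := hZ ⟨_, ⟨x.1.1.2, h1⟩⟩
    have h3 : ((x : U₁ × U₂).1 : G) ^ p ^ k = 1 := congrArg Subtype.val hk'
    refine ⟨k, Subtype.ext (Prod.ext (Subtype.ext ?_) (Subtype.ext ?_))⟩
    · simpa using h3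
    · simp [h2, h3]
  have hkc : f.ker ≤ Subgroup.center _ := fun x hx => by
    obtain ⟨h1, h2⟩ := hk x hx
    refine Subgroup.mem_center_iff.2 fun y => Prod.ext (Subtype.ext ?_) (Subtype.ext ?_)
    · exact hcomm _ y.1.2 _ h1
    · exact (hcomm _ (h2 ▸ inv_mem x.1.2) _ y.2.2).symm
  rw [← CL.Blk.mem_principal_comp_iff_of_central hM f hsurj hkp hkc
    (χ := ⟨_, χ.2.comp_of_surjective f hsurj⟩) fun _ => rfl]
  exact CL.Blk.mem_principal_prod_iff hM fun x => by rw [← e1, ← e2]; exact h x.1 x.2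

end Cfsg.Agent.S4521
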