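import Cfsg.Statements.S4534
import Cfsg.Agent.Sym.Rank

set_option autoImplicit false
open Cfsg

namespace Cfsg.Agent.S4534

/-- Let B be a p-block of a finite symmetric group (relative to a maximal ideal M of the algebraic integers containing p) with a nontrivial defect group D all of whose sections have p-rank at most s. Then the p-regular rank of B is less than p ^ s. -/
theorem result (n : ℕ) (p : ℕ) [Fact p.Prime] (M : Ideal Cfsg.AlgInt) (hM : Cfsg.IsPModular p M) (B : Set (Cfsg.IrrCharacter (Equiv.Perm (Fin n)))) (hB : Cfsg.IsPBlock M B) (D : Subgroup (Equiv.Perm (Fin n))) (hD : Cfsg.IsDefectGroup p M B D) (hD1 : D ≠ ⊥) (s : ℕ) (hs : Cfsg.SectionalPRankLE p s D) : Cfsg.blockRank p B < p ^ s := by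
  obtain ⟨κ, w, h, rfl⟩ := CL.Sym.exists_isCore (N := Fintype.card (Fin n)) hM hB le_rfl
  obtain ⟨z, hz⟩ := h.exists_z
  obtain ⟨x, hx⟩ := h.exists_conj_le hM hB le_rfl hD hz
  have hp : p.Prime := Fact.out
  have h1 := CL.Sym.card_le_of_secRank hs x hx (fun _ ha _ hb => have := CL.Sym.Ez_comm z; setLike_mul_comm ha hb)
    fun _ => CL.Sym.Ez_pow hz
  rw [CL.Sym.card_Ez hz] at h1
  have h2 := CL.Sym.one_le_of_secRank (.of_card (CL.Blk.card_defectGroup hM hB hD)) hs hD1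
  obtain ⟨f, hf, hf'⟩ := h.exists_code
  refine lt_of_le_of_lt (CL.Sym.finrank_le_ncard ((Set.toFinite (CL.Sym.Blk0 (Fin n) p κ (p - 1))).image _)
    (Set.image_subset_iff.2 fun χ hχ => h.mem_span (Nat.sub_one_lt hp.ne_zero) hχ))
    ((Set.ncard_image_le (Set.toFinite _)).trans_lt ?_)
  have h3 : f '' CL.Sym.Blk0 (Fin n) p κ (p - 1) ⊆ CL.Sym.Mt (p - 1) w := fun _ ⟨χ, hχ, e⟩ => e ▸ ⟨(hf' χ hχ).1, (hf' χ hχ).2.le⟩
  have h4 := CL.Sym.ncard_Mt_le (p - 1) w
  rw [Nat.sub_add_cancel hp.one_le] at h4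
  rw [← hf.ncard_image]
  rcases Nat.eq_zero_or_pos w with rfl | hw
  · exact ((Set.ncard_le_ncard h3 (CL.Sym.Mt_finite _ _)).trans h4).trans_lt (Nat.pow_lt_pow_right hp.one_lt h2)
  · refine (Set.ncard_lt_ncard ⟨h3, fun h5 => ?_⟩ (CL.Sym.Mt_finite _ _)).trans_le (h4.trans h1)
    obtain ⟨χ, hχ, e⟩ := h5 (show 0 ∈ CL.Sym.Mt (p - 1) w by simp [CL.Sym.Mt])
    exact hw.ne (by simpa [e] using (hf' χ hχ).2)

end Cfsg.Agent.S4534
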