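import Cfsg.Statements.S4539
import Cfsg.Agent.Blk.CMin

set_option autoImplicit false
open Cfsg

namespace Cfsg.Agent.S4539

open CL.Blk CL.Blk.Rk

/-- Let B be a p-block of the finite group G (relative to a maximal ideal M of the algebraic integers containing p) of defect d with defect group D. Let z be an element of D commuting with every element of D, and let b be a block of the centralizer C of z with defect group D that induces B (a major subsection (z, b)). If b has p-regular rank at most two, then B contains at most p ^ d irreducible characters. -/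
theorem result {G : Type*} [Group G] [Finite G] (p : ℕ) [Fact p.Prime] (M : Ideal Cfsg.AlgInt) (hM : Cfsg.IsPModular p M) (B : Set (Cfsg.IrrCharacter G)) (hB : Cfsg.IsPBlock M B) (D : Subgroup G) (hD : Cfsg.IsDefectGroup p M B D) (z : G) (hzD : z ∈ D) (hzc : ∀ d ∈ D, d * z = z * d) (b : Set (Cfsg.IrrCharacter ↥(Subgroup.centralizer ({z} : Set G)))) (hb : Cfsg.IsInducedBlock M (Subgroup.centralizer ({z} : Set G)) b B) (hbD : Cfsg.IsDefectGroup p M b (D.subgroupOf (Subgroup.centralizer ({z} : Set G)))) (hl : Cfsg.blockRank p b ≤ 2) : Nat.card B ≤ p ^ Cfsg.blockDefect p B := by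
  classical
  letI := Fintype.ofFinite G
  exact card_le_pow_of_rank_le_two hM (isCent_centralizer z)
    (pElt_of_mem_defectGroup hM hB hD hzD) hb
    (blockDefect_eq_of_subgroupOf hM hb hD (le_centralizer_singleton_of_comm hzc) hbD) hl

end Cfsg.Agent.S4539
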