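import Cfsg.Statements.S4541
import Cfsg.Agent.Blk.CData

set_option autoImplicit false
open Cfsg

namespace Cfsg.Agent.S4541

open CL.Blk CL.Blk.Rk

/-- Let B be a 2-block of the finite group G (relative to a maximal ideal M of the algebraic integers containing 2), u a 2-element, and b a block of the centralizer of u inducing B (a subsection (u, b)), of defect q and 2-regular rank l; write s for the integer square root of l and k₀(B) for the number of members of B of height zero. If s is odd then k₀(B) ≤ s·2 ^ q, and otherwise (s + 1)·k₀(B) ≤ l·2 ^ q; in particular k₀(B) ≤ 2 ^ q when l ≤ 3. -/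
theorem result {G : Type*} [Group G] [Finite G] (M : Ideal Cfsg.AlgInt) (hM : Cfsg.IsPModular 2 M) (B : Set (Cfsg.IrrCharacter G)) (hB : Cfsg.IsPBlock M B) (u : G) (hu : ∃ j : ℕ, orderOf u = 2 ^ j) (b : Set (Cfsg.IrrCharacter ↥(Subgroup.centralizer ({u} : Set G)))) (hb : Cfsg.IsInducedBlock M (Subgroup.centralizer ({u} : Set G)) b B) : (Odd (Nat.sqrt (Cfsg.blockRank 2 b)) → Nat.card {χ : Cfsg.IrrCharacter G // χ ∈ B ∧ Cfsg.blockHeight 2 B (χ : G → ℂ) = 0} ≤ Nat.sqrt (Cfsg.blockRank 2 b) * 2 ^ Cfsg.blockDefect 2 b) ∧ (¬ Odd (Nat.sqrt (Cfsg.blockRank 2 b)) → (Nat.sqrt (Cfsg.blockRank 2 b) + 1) * Nat.card {χ : Cfsg.IrrCharacter G // χ ∈ B ∧ Cfsg.blockHeight 2 B (χ : G → ℂ) = 0} ≤ Cfsg.blockRank 2 b * 2 ^ Cfsg.blockDefect 2 b) ∧ (Cfsg.blockRank 2 b ≤ 3 → Nat.card {χ : Cfsg.IrrCharacter G // χ ∈ B ∧ Cfsg.blockHeight 2 B (χ : G → ℂ) = 0} ≤ 2 ^ Cfsg.blockDefect 2 b) := by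
  classical
  letI := Fintype.ofFinite G
  have hH := isCent_centralizer u
  obtain ⟨k, hk⟩ := exists_pow_succ_eq_one hu
  have hl : 0 < blockRank 2 b := blockRank_pos hM.1 (tr_nonempty hM hb.1)
  rw [natCard_subtype_eq]
  set s' := Finset.univ.filter fun χ : IrrCharacter G =>
    χ ∈ B ∧ blockHeight 2 B (χ : G → ℂ) = 0 with hs'
  obtain ⟨m, hm, h1, h2⟩ : ∃ m : ℕ, Odd m ∧ s'.card ≤ 2 ^ blockDefect 2 b * m ∧
      s'.card * m ≤ 2 ^ blockDefect 2 b * blockRank 2 b := by
    rcases s'.eq_empty_or_nonempty with he | hne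
    · exact ⟨1, odd_one, by simp [he], by simp [he]⟩
    refine (cData_cMat hM hH hk hb).exists_odd_bound hM (fun χ hχ => ?_) hne fun χ hχ ψ hψ => ?_
    · exact Finset.mem_filter.2 ⟨Finset.mem_univ _, (Finset.mem_filter.1 hχ).2.1⟩
    · simp only [pow_one]
      exact (val_cMat_eq_one_iff hM hH hu hb χ ψ).2
        ⟨(Finset.mem_filter.1 hχ).2, (Finset.mem_filter.1 hψ).2⟩
  generalize s'.card = n at h1 h2 ⊢
  generalize blockRank 2 b = l at hl h2 ⊢
  have hq : 0 < 2 ^ blockDefect 2 b := by positivity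
  generalize 2 ^ blockDefect 2 b = q at hq h1 h2 ⊢
  have hr1 := Nat.sqrt_le l
  have hr2 := Nat.lt_succ_sqrt l
  have key : Odd l.sqrt → n ≤ l.sqrt * q := by
    generalize l.sqrt = r at hr1 hr2 ⊢
    intro hr
    by_cases hmr : m ≤ r
    · calc n ≤ q * m := h1
        _ ≤ r * q := by rw [mul_comm]; exact Nat.mul_le_mul_right _ hmr
    · have h3 : r + 2 ≤ m := by
        obtain ⟨a, rfl⟩ := hm
        obtain ⟨c, rfl⟩ := hr
        omega
      have h4 : l ≤ r * (r + 2) := by simp only [Nat.succ_eq_add_one] at hr2; nlinarith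
      refine Nat.le_of_mul_le_mul_right (c := r + 2) ?_ (by omega)
      calc n * (r + 2) ≤ n * m := Nat.mul_le_mul_left _ h3
        _ ≤ q * l := h2
        _ ≤ q * (r * (r + 2)) := Nat.mul_le_mul_left _ h4
        _ = _ := by ring
  refine ⟨key, fun hr => ?_, fun h3 => ?_⟩
  · generalize l.sqrt = r at hr1 hr2 hr ⊢
    by_cases hmr : r + 1 ≤ m
    · calc (r + 1) * n ≤ n * m := by rw [mul_comm]; exact Nat.mul_le_mul_left _ hmr
        _ ≤ l * q := by rw [mul_comm l]; exact h2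
    · have h3 : m + 1 ≤ r := by
        obtain ⟨a, rfl⟩ := hm
        obtain ⟨c, rfl⟩ := Nat.not_odd_iff_even.1 hr
        omega
      have h4 : (r + 1) * m ≤ l := by nlinarith
      calc (r + 1) * n ≤ (r + 1) * (q * m) := Nat.mul_le_mul_left _ h1
        _ = (r + 1) * m * q := by ring
        _ ≤ l * q := Nat.mul_le_mul_right _ h4
  · have h4 : l.sqrt = 1 := by
      simp only [Nat.succ_eq_add_one] at hr2
      generalize l.sqrt = r at hr1 hr2
      by_contra hr
      rcases (by omega : r = 0 ∨ 2 ≤ r) with h | h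
      · subst h; omega
      · nlinarith
    have := key (h4 ▸ odd_one)
    rwa [h4, one_mul] at this

end Cfsg.Agent.S4541
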