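import Cfsg.Statements.S4549
import Cfsg.Agent.Blk.PrincFix

set_option autoImplicit false
open Cfsg

namespace Cfsg.Agent.S4549

/-- Let G be a finite group and M a maximal ideal of the algebraic integers containing 2. Let k be a natural number with g ^ k = g ^ 3 for every 2-element g and g ^ k = g for every element g of odd order (such k exist); an irreducible character χ is unchanged by g ↦ g ^ k exactly when it is fixed by the field automorphism that cubes the 2-power roots of unity and fixes the roots of unity of odd order. Then G has a normal 2-complement if and only if every member χ of the principal 2-block of odd degree with χ (g ^ k) = χ g for all g has degree one. -/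
theorem result {G : Type*} [Group G] [Finite G] (M : Ideal Cfsg.AlgInt) (hM : Cfsg.IsPModular 2 M) (k : ℕ) (hk₁ : ∀ g : G, (∃ j : ℕ, orderOf g = 2 ^ j) → g ^ k = g ^ 3) (hk₂ : ∀ g : G, Odd (orderOf g) → g ^ k = g) : Cfsg.HasNormalPComplement 2 G ↔ ∀ χ ∈ Cfsg.principalBlock M G, Odd (Cfsg.charDegree (χ : G → ℂ)) → (∀ g : G, (χ : G → ℂ) (g ^ k) = (χ : G → ℂ) g) → Cfsg.charDegree (χ : G → ℂ) = 1 := by
  have hodd : ∀ n : ℕ, Odd n ↔ ¬ 2 ∣ n := fun n => by rw [← Nat.not_even_iff_odd, even_iff_two_dvd]
  simp only [hodd] at hk₂ ⊢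
  exact ⟨fun h χ hχ hd _ => CL.Blk.charDegree_eq_one_of_hasNormalPComplement hM h hχ hd,
    CL.Blk.hasNormalPComplement_of_principal_fixed hM hk₁ hk₂⟩

end Cfsg.Agent.S4549
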