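import Cfsg.Statements.S4550
import Cfsg.Agent.Blk.PrincRes

set_option autoImplicit false
open Cfsg

namespace Cfsg.Agent.S4550

/-- Let G be a finite group of even order and M a maximal ideal of the algebraic integers containing 2. Let k be a natural number with g ^ k = g ^ 3 for every 2-element g and g ^ k = g for every element g of odd order (such k exist); an irreducible character χ is unchanged by g ↦ g ^ k exactly when it is fixed by the field automorphism that cubes the 2-power roots of unity and fixes the roots of unity of odd order. Then the number of members χ of the principal 2-block of odd degree with χ (g ^ k) = χ g for all g is even. -/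
theorem result {G : Type*} [Group G] [Finite G] (M : Ideal Cfsg.AlgInt) (hM : Cfsg.IsPModular 2 M) (hev : Even (Nat.card G)) (k : ℕ) (hk₁ : ∀ g : G, (∃ j : ℕ, orderOf g = 2 ^ j) → g ^ k = g ^ 3) (hk₂ : ∀ g : G, Odd (orderOf g) → g ^ k = g) : Even (Nat.card {χ : Cfsg.IrrCharacter G // χ ∈ Cfsg.principalBlock M G ∧ Odd (Cfsg.charDegree (χ : G → ℂ)) ∧ ∀ g : G, (χ : G → ℂ) (g ^ k) = (χ : G → ℂ) g}) := by
  classical
  have h := CL.Blk.card_principal_fixed_modEq (p := 2) hM hk₁
    fun g hg => hk₂ g (Nat.not_even_iff_odd.1 fun h2 => hg (even_iff_two_dvd.1 h2))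
  have hodd : ∀ n : ℕ, Odd n ↔ ¬ 2 ∣ n := fun n => by rw [← Nat.not_even_iff_odd, even_iff_two_dvd]
  simp only [hodd]
  rw [even_iff_two_dvd, ← h.dvd_iff dvd_rfl, ← ZMod.natCast_eq_zero_iff]
  have h1 := (ZMod.natCast_eq_zero_iff _ _).2 (CL.Blk.dvd_sum_principal_sq hM (even_iff_two_dvd.1 hev))
  rw [← h1, Nat.cast_sum, Nat.card_eq_fintype_card, Fintype.card_subtype, Finset.card_filter,
    Finset.sum_filter, Nat.cast_sum]
  refine Finset.sum_congr rfl fun χ _ => ?_
  by_cases h2 : χ ∈ Cfsg.principalBlock M G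
  · by_cases h3 : 2 ∣ Cfsg.charDegree (χ : G → ℂ)
    · simp [h2, h3, (ZMod.natCast_eq_zero_iff _ _).2 h3]
    · simp [h2, h3, ((hodd _).2 h3).natCast_zmod_two]
  · simp [h2]

end Cfsg.Agent.S4550
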