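import Cfsg.Statements.S4551
import Cfsg.Agent.Blk.Dade

set_option autoImplicit false
open Cfsg

namespace Cfsg.Agent.S4551

/-- Let N be a normal subgroup of the finite group G of index prime to p, P a Sylow p-subgroup of G with G = N·C_G(P), and M a maximal ideal of the algebraic integers containing p. Then restriction to N is a bijection from the principal p-block of G onto the principal p-block of N: every member of the principal block of G restricts to a member of the principal block of N, and every member of the principal block of N is the restriction of exactly one member of the principal block of G. -/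
theorem result {G : Type*} [Group G] [Finite G] (p : ℕ) [Fact p.Prime] (M : Ideal Cfsg.AlgInt) (hM : Cfsg.IsPModular p M) (N : Subgroup G) [N.Normal] (hidx : ¬ p ∣ N.index) (P : Sylow p G) (hsup : N ⊔ Subgroup.centralizer ((P : Subgroup G) : Set G) = ⊤) : (∀ χ ∈ Cfsg.principalBlock M G, ∃ θ ∈ Cfsg.principalBlock M ↥N, ∀ n : N, (χ : G → ℂ) n = (θ : N → ℂ) n) ∧ ∀ θ ∈ Cfsg.principalBlock M ↥N, ∃! χ : Cfsg.IrrCharacter G, χ ∈ Cfsg.principalBlock M G ∧ ∀ n : N, (χ : G → ℂ) n = (θ : N → ℂ) n := by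
  have := Fintype.ofFinite N
  have hPN : (P : Subgroup G) ≤ N := by
    obtain ⟨Q, hQ⟩ := CL.Blk.exists_sylow_le_of_not_dvd_index' hidx
    obtain ⟨g, rfl⟩ := MulAction.exists_smul_eq G Q P
    rw [Sylow.coe_subgroup_smul, ← Subgroup.Normal.conj_smul_eq_self g N]
    exact Subgroup.pointwise_smul_le_pointwise_smul_iff.2 hQ
  have hcov : CL.Blk.CosetCov p N := CL.Blk.cosetCov_of_sup_centralizer (fun h => P.not_dvd_index
    (h.trans (Subgroup.relIndex_dvd_index_of_le hPN))) hsup
  have hcov' : ∀ g : G, ∃ x : G, (x : G ⧸ N) = g ∧ ¬ p ∣ (Subgroup.centralizer ({x} : Set G)).index := by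
    intro g
    have hg : g ∈ ((Subgroup.centralizer ((P : Subgroup G) : Set G) ⊔ N : Subgroup G) : Set G) := by
      rw [sup_comm, hsup]; trivial
    rw [Subgroup.mul_normal] at hg
    obtain ⟨c, hc, n, hn, rfl⟩ := hg
    exact ⟨c, QuotientGroup.eq.2 (by simpa using hn),
      CL.Blk.not_dvd_index_centralizer_of_mem_center_sylow P hc⟩
  have key : ∀ θ ∈ Cfsg.principalBlock M N, ∃ χ ∈ Cfsg.principalBlock M G,
      (∀ n : N, (χ : G → ℂ) n = (θ : N → ℂ) n) ∧ ∀ ψ ∈ Cfsg.principalBlock M G,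
        Cfsg.classInner (fun n : N => (ψ : G → ℂ) n) (θ : N → ℂ) ≠ 0 → ψ = χ := fun θ hθ => by
    obtain ⟨χ, h1, h2⟩ := CL.Blk.exists_isDadeExt_of_not_dvd hM hcov hidx hθ
    refine ⟨χ, h1.mem_principal_top hM, h2, fun ψ hψ h => ?_⟩
    exact CL.Blk.eq_of_mem_principal_of_over hM hidx hcov' (h1.mem_principal_top hM) hψ
      (by rw [funext h2]; exact θ.2) (by rwa [funext h2])
  refine ⟨fun χ hχ => ?_, fun θ hθ => ?_⟩
  · obtain ⟨θ, h⟩ := CL.Blk.exists_over N χ
    have hθ := CL.Blk.mem_principal_of_over hM hχ (CL.Blk.over_iff.1 h)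
    obtain ⟨χ', -, h1, h2⟩ := key θ hθ
    exact ⟨θ, hθ, h2 χ hχ (CL.Blk.over_iff.1 h) ▸ h1⟩
  · obtain ⟨χ, h0, h1, h2⟩ := key θ hθ
    refine ⟨χ, ⟨h0, h1⟩, fun ψ hψ => h2 ψ hψ.1 ?_⟩
    rw [funext hψ.2, θ.2.classInner_self]
    exact one_ne_zero

end Cfsg.Agent.S4551
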