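import Cfsg.Statements.S4553
import Cfsg.Agent.Blk.PrincRes
import Cfsg.Agent.Char.Schur

set_option autoImplicit false
open Cfsg

namespace Cfsg.Agent.S4553

open Cfsg CL.Blk CL.Char

/-- Let G be a finite group, p a prime, P a Sylow p-subgroup, N the p-residual of G (the subgroup generated by the elements of order prime to p, the smallest normal subgroup with G/N a p-group), and M a maximal ideal of the algebraic integers containing p; suppose G/N is cyclic and nontrivial. Let k be a natural number with g ^ k = g ^ (1 + p) for every p-element g and g ^ k = g for every element g of order prime to p (so that χ (g ^ k) is the image of χ g under the field automorphism that raises p-power roots of unity to the power 1 + p and fixes the roots of unity of order prime to p). Then the number of members χ of the principal block of G of degree prime to p with χ (g ^ k) = χ g for all g equals p times the number of members θ of the principal block of N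 of degree prime to p that are invariant under conjugation by P and satisfy θ (n ^ k) = θ n for all n. -/
theorem result {G : Type*} [Group G] [Finite G] (p : ℕ) [Fact p.Prime] (M : Ideal Cfsg.AlgInt) (hM : Cfsg.IsPModular p M) (P : Sylow p G) (N : Subgroup G) [hN : N.Normal] (hNres : N = Cfsg.pResidual p G) (hcyc : IsCyclic (G ⧸ N)) (hnt : N ≠ ⊤) (k : ℕ) (hk₁ : ∀ g : G, (∃ j : ℕ, orderOf g = p ^ j) → g ^ k = g ^ (1 + p)) (hk₂ : ∀ g : G, Nat.Coprime (orderOf g) p → g ^ k = g) : Nat.card {χ : Cfsg.IrrCharacter G // χ ∈ Cfsg.principalBlock M G ∧ ¬ p ∣ Cfsg.charDegree (χ : G → ℂ) ∧ ∀ g : G, (χ : G → ℂ) (g ^ k) = (χ : G → ℂ) g} = p * Nat.card {θ : Cfsg.IrrCharacter ↥N // θ ∈ Cfsg.principalBlock M ↥N ∧ ¬ p ∣ Cfsg.charDegree (θ : ↥N → ℂ) ∧ (∀ x ∈ (P : Subgroup G), ∀ n : ↥N, (θ : ↥N → ℂ) ⟨x * n * x⁻¹, hN.conj_mem n n.2 x⟩ = (θ : ↥N → ℂ) n) ∧ ∀ n : ↥N, (θ : ↥N → ℂ) (n ^ k) = (θ : ↥N → ℂ) n} := by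
  have hp : p.Prime := Fact.out
  have hk₂' : ∀ g : G, ¬ p ∣ orderOf g → g ^ k = g := fun g hg =>
    hk₂ g ((Nat.Prime.coprime_iff_not_dvd hp).2 hg).symm
  have hk := coprime_card_of_pow_eq hp hk₁ hk₂'
  have hreg : ∀ g : G, ¬ p ∣ orderOf g → g ∈ N := fun g hg =>
    hNres ▸ CL.Grp.mem_pResidual_of_coprime ((Nat.Prime.coprime_iff_not_dvd hp).2 hg).symm
  obtain ⟨a, ha⟩ : ∃ a, N.index = p ^ a := hNres ▸ CL.Grp.index_pResidual p G
  have hres : pResidual p N = ⊤ := by subst hNres; exact CL.Grp.pResidual_pResidual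
  have hcop : ∀ {m : ℕ}, ¬ p ∣ m → N.index.Coprime m := fun hm => by
    rw [ha]
    exact Nat.Coprime.pow_left _ ((Nat.Prime.coprime_iff_not_dvd hp).mpr hm)
  have hpd : p ∣ N.index := by
    rw [ha]
    refine dvd_pow_self p fun h0 => hnt ?_
    rwa [h0, pow_zero, Subgroup.index_eq_one] at ha
  obtain ⟨σ, hσ⟩ := exists_ringEquiv_map_genChar_eq_pow (G := G) hk
  have hcard := card_monoidHom_pow_eq_one hp N hcyc hpd
  set B := {θ : IrrCharacter ↥N // θ ∈ principalBlock M ↥N ∧ ¬ p ∣ charDegree (θ : ↥N → ℂ) ∧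
    (∀ x ∈ (P : Subgroup G), ∀ n : ↥N, (θ : ↥N → ℂ) ⟨x * n * x⁻¹, hN.conj_mem n n.2 x⟩ = (θ : ↥N → ℂ) n) ∧
    ∀ n : ↥N, (θ : ↥N → ℂ) (n ^ k) = (θ : ↥N → ℂ) n}
  have hext : ∀ θ : B, ∃ χ : G → ℂ, IsIrrCharacter G χ ∧ (∀ n : N, χ n = (θ.1 : N → ℂ) n) ∧
      ∀ g, χ (g ^ k) = χ g := fun ⟨θ, _, h2, h3, h4⟩ => by
    have hinv : inertia N (θ : N → ℂ) = ⊤ := by
      rw [eq_top_iff, ← CL.Grp.pResidual_sup_sylow P, ← hNres]
      exact sup_le (le_inertia θ.2.isClassFunction) fun g hg n => h3 g hg n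
    have hdet := not_dvd_detOrder_of_pResidual_eq_top hp hres (θ : N → ℂ)
    obtain ⟨χ, ⟨h5, h6, h7⟩, h8⟩ := exists_canonical_extension θ.2 (inertia_eq_top_iff.1 hinv)
      θ.2.cast_charDegree.symm (Nat.Coprime.mul_right (hcop hdet) (hcop h2))
    refine ⟨χ, h5, h6, fun g => ?_⟩
    rw [← hσ χ h5.isGeneralizedCharacter]
    refine congrFun (h8 _ (isIrr_gal h5 σ.toRingHom) (fun n => ?_) (hcop fun h9 => hdet ?_)) g
    · change σ (χ n) = _
      rw [hσ χ h5.isGeneralizedCharacter, ← h4, ← h6, Subgroup.coe_pow]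
    · rw [← h7]
      refine h9.trans (orderOf_dvd_of_pow_eq_one (funext fun x => ?_))
      rw [Pi.pow_apply, gl_detChar_gal h5, ← map_pow, detChar_pow_detOrder, map_one, Pi.one_apply]
  choose ext hext1 hext2 hext3 using hext
  have hirr : ∀ θ : B, IsIrrCharacter N fun n : N => ext θ n := fun θ => by
    rw [funext (hext2 θ)]; exact θ.1.2
  have hker : ∀ {lam : G →* ℂˣ}, (∀ n ∈ N, lam n = 1) → N ≤ charKer fun g => (lam g : ℂ) :=
    fun h => by rw [charKer_monoidHom]; exact h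
  conv_rhs => rw [← hcard]
  rw [← Nat.card_prod]
  symm
  refine Nat.card_congr (Equiv.ofBijective (fun x => ⟨⟨_, (hext1 x.2).monoidHom_mul x.1.1⟩,
    (mem_principal_iff_of_res_eq hM hreg (θ := x.2.1) fun n => ?_).2 x.2.2.1, ?_, fun g => ?_⟩) ⟨?_, ?_⟩)
  · simp only [x.1.2.1 n n.2, hext2, Units.val_one, one_mul]
  · rw [charDegree_congr (ψ := (x.2.1 : N → ℂ)) (by
      simp only [map_one, Units.val_one, one_mul]; exact hext2 x.2 1)]
    exact x.2.2.2.1
  · simp only [hext3, (monoidHom_pow_eq_iff hp hk₁ hk₂' fun g hg => x.1.2.1 g (hreg g hg)).2 x.1.2.2 g]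
  · rintro ⟨lam, θ⟩ ⟨mu, θ'⟩ h
    have h1 : ∀ g, (lam.1 g : ℂ) * ext θ g = (mu.1 g : ℂ) * ext θ' g :=
      congrFun (congrArg (fun x => (x.1 : G → ℂ)) h)
    have h2 : θ = θ' := Subtype.ext (Subtype.ext (funext fun n => by
      have := h1 n
      rwa [lam.2.1 n n.2, mu.2.1 n n.2, Units.val_one, one_mul, one_mul, hext2, hext2] at this))
    subst h2
    have h3 := gallagher_inj (hext1 θ).isCharacter (hirr θ) (hker lam.2.1) (hker mu.2.1) (funext h1)
    rw [Subtype.ext (monoidHom_coe_injective h3 : lam.1 = mu.1)]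
  · rintro ⟨χ, h1, h2, h3⟩
    let θ : B := ⟨⟨_, isIrrCharacter_restrict_of_coprime (N := N) χ.2 χ.2.cast_charDegree.symm
      (hcop h2).symm⟩, mem_principal_of_res_eq hM h1 fun _ => rfl, h2,
      fun x _ n => χ.2.isClassFunction _ _, fun n => h3 n⟩
    obtain ⟨lam, h4, h5⟩ := exists_linear_mul_of_restrict_eq N (hext1 θ).isCharacter χ.2.isCharacter
      (hirr θ) fun n => (hext2 θ n).symm
    refine ⟨⟨⟨lam, h4, (monoidHom_pow_eq_iff hp hk₁ hk₂' fun g hg => h4 g (hreg g hg)).1 fun g => ?_⟩, θ⟩,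
      Subtype.ext (Subtype.ext h5.symm)⟩
    have h6 := gallagher_inj (hext1 θ).isCharacter (hirr θ) (hker (lam := lam ^ k) fun n hn => by
      simp [h4 n hn]) (hker h4) (funext fun x => by
        have := h3 x
        rw [h5] at this
        simpa [hext3] using this)
    rw [map_pow, ← MonoidHom.pow_apply, monoidHom_coe_injective h6]

end Cfsg.Agent.S4553
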