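import Cfsg.Statements.S4560
import Cfsg.Agent.Sym.Alt0

set_option autoImplicit false
open Cfsg

namespace Cfsg.Agent.S4560

open CL.Sym Multiset Finset

theorem X10 : Xc ![1, 0] 0 ≠ 0 := by
  rw [show ![1, 0] = Fin.val ∘ Equiv.swap (0 : Fin 2) 1 by decide, Xc_val]; simp

theorem X120 : Xc ![1, 2, 0] 0 ≠ 0 := by
  rw [show ![1, 2, 0] = Fin.val ∘ finRotate 3 by decide, Xc_val]; simp

theorem X2 (a b m : ℕ) (s : Multiset ℕ) : Xc ![a, b] (m ::ₘ s) =
    (if m ≤ a then Xc ![a - m, b] s else 0) + if m ≤ b then Xc ![a, b - m] s else 0 := by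
  rw [Xc_cons, Fin.sum_univ_two]
  congr <;> ext i <;> fin_cases i <;> simp

theorem X3 (b m : ℕ) (s : Multiset ℕ) (h : 2 < m) (hb : m ≤ b) : Xc ![1, 2, b] (m ::ₘ s) = Xc ![1, 2, b - m] s := by
  rw [Xc_cons, Fin.sum_univ_three, if_neg (by simp; omega), if_neg (by simp; omega), if_pos (by simpa using hb), zero_add, zero_add]
  congr; ext i; fin_cases i <;> simp

/-- the three characters do not vanish on all odd permutations. -/
theorem odd1 {n : ℕ} (hn : 7 ≤ n) : ∃ s : Multiset ℕ, (∀ a ∈ s, 0 < a) ∧ s.sum = n ∧ Odd (n + s.card) ∧ Xc ![1, n] s ≠ 0 := by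
  rcases n.even_or_odd with h | h
  · exact ⟨n ::ₘ 0, by simp; omega, by simp, h.add_one, by
      rw [X2, if_neg (by omega), if_pos le_rfl]; simpa using X10⟩
  · refine ⟨(n - 2) ::ₘ 2 ::ₘ 0, by simp; omega, by simp; omega, by simpa [Nat.odd_add] using h, ?_⟩
    rw [X2, if_neg (by omega), if_pos (by omega), show n - (n - 2) = 2 by omega, X2]; simpa using X10

theorem odd2 {n : ℕ} (hn : 7 ≤ n) : ∃ s : Multiset ℕ, (∀ a ∈ s, 0 < a) ∧ s.sum = n ∧ Odd (n + s.card) ∧ Xc ![2, n - 1] s ≠ 0 := by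
  have h0 : Xc ![2, 0] (1 ::ₘ 0) ≠ 0 := by rw [X2]; simpa using X10
  rcases n.even_or_odd with h | h
  · refine ⟨(n - 2) ::ₘ 1 ::ₘ 1 ::ₘ 0, by simp; omega, by simp; omega, h.add_odd (show Odd 3 by decide), ?_⟩
    have h1 : Xc ![1, 1] (1 ::ₘ 0) = 0 := by_contra fun e => absurd (Xc_inj e (a₁ := 0) (a₂ := 1) rfl) (by decide)
    rw [X2, if_neg (by omega), if_pos (by omega), show n - 1 - (n - 2) = 1 by omega, X2]
    simpa [-Multiset.cons_zero, h1] using h0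
  · refine ⟨(n - 1) ::ₘ 1 ::ₘ 0, by simp; omega, by simp; omega, by simpa [Nat.odd_add] using h, ?_⟩
    rw [X2, if_neg (by omega), if_pos le_rfl]; simpa using h0

theorem odd3 {n : ℕ} (hn : 7 ≤ n) : ∃ s : Multiset ℕ, (∀ a ∈ s, 0 < a) ∧ s.sum = n ∧ Odd (n + s.card) ∧ Xc ![1, 2, n] s ≠ 0 := by
  rcases n.even_or_odd with h | h
  · exact ⟨n ::ₘ 0, by simp; omega, by simp, h.add_one, by
      rw [X3 n n 0 (by omega) le_rfl]; simpa using X120⟩
  · refine ⟨(n - 3) ::ₘ 3 ::ₘ 0, by simp; omega, by simp; omega, by simpa [Nat.odd_add] using h, ?_⟩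
    rw [X3 _ _ _ (by omega) (by omega), show n - (n - 3) = 3 by omega, X3 _ _ _ (by omega) le_rfl]; exact X120

theorem van {n N q : ℕ} {β : Fin N → ℕ} (h : ∃ s : Multiset ℕ, (∀ a ∈ s, 0 < a) ∧ s.sum = n ∧ Odd (n + s.card) ∧ Xc β s ≠ 0)
    (a b f : ℕ) (hq : 0 < q) (h1 : a * q + b * (2 * q) + f = n) (h2 : Even (n + (a + b + f)))
    (h3 : ∀ γ : Fin N → ℕ, (∀ i, γ i % q = β i % q) → ∑ i, γ i + n = ∑ i, β i + f → ¬ γ.Injective) :
    ∃ χ : Cfsg.IrrCharacter (alternatingGroup (Fin n)), (∃ x : alternatingGroup (Fin n),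
      orderOf x = (replicate a q + replicate b (2 * q) + replicate f 1).lcm ∧ χ.1 x = 0) ∧
      ∃ ψ : Cfsg.IrrCharacter (Equiv.Perm (Fin n)), ∀ x : alternatingGroup (Fin n), ψ.1 x = χ.1 x := by
  obtain ⟨s, hs, hs1, hs2, hs3⟩ := h
  refine exists_vanish hs (fun x hx => ?_) hs1 (by simpa using h1) hs2 (by simpa using h2) hs3
    (Xc_eq_zero (q := q) (fun x hx => ?_) _ fun γ h4 h5 => h3 γ h4 (by simp at h5; omega))
  all_goals simp only [Multiset.mem_add, mem_replicate] at hx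
  · omega
  · rcases hx with ⟨-, rfl⟩ | ⟨-, rfl⟩ <;> simp

theorem lcm_pow (a b f j : ℕ) : ∃ k, (replicate a (2 ^ j) + replicate b (2 * 2 ^ j) + replicate f 1).lcm = 2 ^ k := by
  obtain ⟨k, -, h⟩ := (Nat.dvd_prime_pow Nat.prime_two (m := j + 1)).1 (Multiset.lcm_dvd.2 fun x
    (hx : x ∈ replicate a (2 ^ j) + replicate b (2 * 2 ^ j) + replicate f 1) => by
      simp only [Multiset.mem_add, mem_replicate] at hx
      rcases hx with (⟨-, rfl⟩ | ⟨-, rfl⟩) | ⟨-, rfl⟩ <;> simp [pow_succ'])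
  exact ⟨k, h⟩

theorem lcm_three {a : ℕ} (ha : a ≠ 0) (f : ℕ) : (replicate a 3 + replicate 0 (2 * 3) + replicate f 1).lcm = 3 :=
  Nat.dvd_antisymm (Multiset.lcm_dvd.2 fun x hx => by
    simp only [Multiset.mem_add, mem_replicate] at hx
    rcases hx with (⟨-, rfl⟩ | ⟨h, -⟩) | ⟨-, rfl⟩ <;> simp at *) (Multiset.dvd_lcm (by simp [mem_replicate, ha]))

/-- For n ≥ 7 the alternating group on n letters has an irreducible character that vanishes at some 2-element and is the restriction of an irreducible character of the symmetric group, and an irreducible character that vanishes at some element of order 3 and is the restriction of an irreducible character of the symmetric group. -/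
theorem result (n : ℕ) (hn : 7 ≤ n) : (∃ χ : Cfsg.IrrCharacter (alternatingGroup (Fin n)), (∃ x : alternatingGroup (Fin n), (∃ j : ℕ, orderOf x = 2 ^ j) ∧ (χ : alternatingGroup (Fin n) → ℂ) x = 0) ∧ ∃ ψ : Cfsg.IrrCharacter (Equiv.Perm (Fin n)), ∀ x : alternatingGroup (Fin n), (ψ : Equiv.Perm (Fin n) → ℂ) x = (χ : alternatingGroup (Fin n) → ℂ) x) ∧ (∃ χ : Cfsg.IrrCharacter (alternatingGroup (Fin n)), (∃ y : alternatingGroup (Fin n), orderOf y = 3 ∧ (χ : alternatingGroup (Fin n) → ℂ) y = 0) ∧ ∃ ψ : Cfsg.IrrCharacter (Equiv.Perm (Fin n)), ∀ x : alternatingGroup (Fin n), (ψ : Equiv.Perm (Fin n) → ℂ) x = (χ : alternatingGroup (Fin n) → ℂ) x) := by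
  have h2 : ∀ γ : Fin 2 → ℕ, γ 0 = γ 1 → ¬ γ.Injective := fun γ e h => absurd (h e) (by decide)
  have h3 : ∀ γ : Fin 3 → ℕ, γ 1 = γ 2 → ¬ γ.Injective := fun γ e h => absurd (h e) (by decide)
  constructor
  · have : n % 2 = 1 ∨ n % 4 = 0 ∨ n % 4 = 2 := by omega
    rcases this with h | h | h
    · obtain ⟨χ, ⟨x, h1, h4⟩, h5⟩ := van (q := 2 ^ 1) (odd1 hn) (n / 2 - 2 * (n / 2 % 2)) (n / 2 % 2) 1 (by simp) (by omega)
        (Nat.even_iff.2 (by omega)) fun γ e e' => h2 γ (by have := e 0; have := e 1; simp at *; omega)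
      exact ⟨χ, ⟨x, h1 ▸ lcm_pow _ _ _ _, h4⟩, h5⟩
    · obtain ⟨χ, ⟨x, h1, h4⟩, h5⟩ := van (q := 2 ^ 2) (odd2 hn) (n / 4 - 2 * (n / 4 % 2)) (n / 4 % 2) 0 (by simp) (by omega)
        (Nat.even_iff.2 (by omega)) fun γ e e' => h2 γ (by have := e 0; have := e 1; simp at *; omega)
      exact ⟨χ, ⟨x, h1 ▸ lcm_pow _ _ _ _, h4⟩, h5⟩
    · obtain ⟨χ, ⟨x, h1, h4⟩, h5⟩ := van (q := 2 ^ 2) (odd3 hn) (n / 4 - 2 * (n / 4 % 2)) (n / 4 % 2) 2 (by simp) (by omega)
        (Nat.even_iff.2 (by omega)) fun γ e e' => h3 γ (by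
          have := e 0; have := e 1; have := e 2; simp [Fin.sum_univ_three] at *; omega)
      exact ⟨χ, ⟨x, h1 ▸ lcm_pow _ _ _ _, h4⟩, h5⟩
  · have : n % 3 = 1 ∨ n % 3 = 0 ∨ n % 3 = 2 := by omega
    rcases this with h | h | h
    · obtain ⟨χ, ⟨x, h1, h4⟩, h5⟩ := van (q := 3) (odd1 hn) (n / 3) 0 1 (by simp) (by omega)
        (Nat.even_iff.2 (by omega)) fun γ e e' => h2 γ (by have := e 0; have := e 1; simp at *; omega)
      exact ⟨χ, ⟨x, h1.trans (lcm_three (by omega) _), h4⟩, h5⟩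
    · obtain ⟨χ, ⟨x, h1, h4⟩, h5⟩ := van (q := 3) (odd2 hn) (n / 3) 0 0 (by simp) (by omega)
        (Nat.even_iff.2 (by omega)) fun γ e e' => h2 γ (by have := e 0; have := e 1; simp at *; omega)
      exact ⟨χ, ⟨x, h1.trans (lcm_three (by omega) _), h4⟩, h5⟩
    · obtain ⟨χ, ⟨x, h1, h4⟩, h5⟩ := van (q := 3) (odd3 hn) (n / 3) 0 2 (by simp) (by omega)
        (Nat.even_iff.2 (by omega)) fun γ e e' => h3 γ (by
          have := e 0; have := e 1; have := e 2; simp [Fin.sum_univ_three] at *; omega)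
      exact ⟨χ, ⟨x, h1.trans (lcm_three (by omega) _), h4⟩, h5⟩

end Cfsg.Agent.S4560
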