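import Cfsg.Statements.S4567
import Cfsg.Agent.Char.GoodClass

set_option autoImplicit false
open Cfsg

namespace Cfsg.Agent.S4567

/-- Let N be a central subgroup of the finite group G and ψ a faithful irreducible (hence degree-one) character of N. Call a coset g N special when every x ∈ G whose commutator x⁻¹ g⁻¹ x g lies in N actually commutes with g (this depends only on the coset). Then the number of irreducible characters of G whose restriction to N contains ψ equals the number of conjugacy classes of G/N consisting of special cosets. -/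
theorem result {G : Type*} [Group G] [Fintype G] (N : Subgroup G) [N.Normal] [Fintype N] (hN : N ≤ Subgroup.center G) (ψ : Cfsg.IrrCharacter ↥N) (hfaith : ∀ n : ↥N, (ψ : ↥N → ℂ) n = (ψ : ↥N → ℂ) 1 → n = 1) : Nat.card {χ : Cfsg.IrrCharacter G // Cfsg.classInner (fun n : ↥N => (χ : G → ℂ) n) (ψ : ↥N → ℂ) ≠ 0} = Nat.card {C : ConjClasses (G ⧸ N) // ∃ g : G, ConjClasses.mk (g : G ⧸ N) = C ∧ ∀ x : G, x⁻¹ * g⁻¹ * x * g ∈ N → x * g = g * x} := by
  obtain ⟨lam, hl⟩ := ψ.2.exists_monoidHom_of_comm fun a b =>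
    Subtype.ext (Subgroup.mem_center_iff.1 (hN b.2) a)
  rw [hl, CL.Char.good_card_irr_central N hN lam]
  refine Nat.card_congr (Equiv.subtypeEquivRight fun C => exists_congr fun g =>
    and_congr_right fun _ => ⟨fun h x hx => ?_, fun h x hx => ?_⟩)
  · have h1 : x⁻¹ * g * x⁻¹⁻¹ * g⁻¹ ∈ N := by
      have h2 := ‹N.Normal›.conj_mem _ (N.inv_mem hx) (x⁻¹ * g * x)
      convert h2 using 1
      group
    have h2 := hfaith ⟨_, h1⟩ (by rw [hl]; simp only [h _ h1, map_one])
    have h3 : x⁻¹ * g * x⁻¹⁻¹ * g⁻¹ = 1 := congrArg Subtype.val h2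
    calc x * g = x * (x⁻¹ * g * x⁻¹⁻¹ * g⁻¹) * g := by rw [h3, mul_one]
      _ = g * x := by group
  · have h1 : x⁻¹⁻¹ * g⁻¹ * x⁻¹ * g ∈ N := by
      have h2 := ‹N.Normal›.conj_mem _ (N.inv_mem hx) g⁻¹
      convert h2 using 1
      group
    have h2 := h _ h1
    have h3 : (⟨_, hx⟩ : N) = 1 := Subtype.ext (by
      change x * g * x⁻¹ * g⁻¹ = 1
      rw [mul_assoc x, ← h2]; group)
    rw [h3, map_one]

end Cfsg.Agent.S4567
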