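import Cfsg.Statements.S4574
import Cfsg.Agent.Char.Galois
import Cfsg.Agent.Char.Linear

set_option autoImplicit false
open Cfsg

namespace Cfsg.Agent.S4574

/-- Let χ be an irreducible character of the finite group G, of degree d, and let Z(χ) be the set of elements g with |χ g| = d (the centre of χ). Then χ vanishes on at least (d ^ 2 - 1) · |Z(χ)| elements of G, with equality when every value |χ g| is 0, 1 or d. -/
theorem result {G : Type*} [Group G] [Fintype G] [DecidableEq G] (χ : G → ℂ) (hχ : Cfsg.IsIrrCharacter G χ) : (Cfsg.charDegree χ ^ 2 - 1) * (Finset.univ.filter (fun g : G => ‖χ g‖ = (Cfsg.charDegree χ : ℝ))).card ≤ (Finset.univ.filter (fun g : G => χ g = 0)).card ∧ ((∀ g : G, ‖χ g‖ = 0 ∨ ‖χ g‖ = 1 ∨ ‖χ g‖ = (Cfsg.charDegree χ : ℝ)) → (Cfsg.charDegree χ ^ 2 - 1) * (Finset.univ.filter (fun g : G => ‖χ g‖ = (Cfsg.charDegree χ : ℝ))).card = (Finset.univ.filter (fun g : G => χ g = 0)).card) := by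
  classical
  set d := charDegree χ with hd
  have hd0 : 0 < d := hχ.charDegree_pos
  set Z := Finset.univ.filter (fun g : G => ‖χ g‖ = (d : ℝ)) with hZ
  set V := Finset.univ.filter (fun g : G => χ g = 0) with hV
  set S := Finset.univ.filter (fun g : G => χ g ≠ 0 ∧ ‖χ g‖ ≠ (d : ℝ)) with hS
  have hsplit : ∀ f : G → ℝ, ∑ g, f g = ∑ g ∈ Z, f g + ∑ g ∈ V, f g + ∑ g ∈ S, f g := by
    intro f
    rw [hZ, hV, hS, Finset.sum_filter, Finset.sum_filter, Finset.sum_filter,
      ← Finset.sum_add_distrib, ← Finset.sum_add_distrib]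
    refine Finset.sum_congr rfl fun g _ => ?_
    by_cases h1 : χ g = 0
    · have : ¬ (0 : ℝ) = d := by exact_mod_cast hd0.ne
      simp [h1, this]
    · by_cases h2 : ‖χ g‖ = (d : ℝ) <;> simp [h1, h2]
  have h1 := hsplit fun _ => 1
  have h2 := hsplit fun g => ‖χ g‖ ^ 2
  rw [hχ.sum_norm_sq] at h2
  simp only [Finset.sum_const, Finset.card_univ, nsmul_eq_mul, mul_one,
    ← Nat.card_eq_fintype_card] at h1
  have h3 : ∑ g ∈ Z, ‖χ g‖ ^ 2 = Z.card * (d : ℝ) ^ 2 := by
    rw [Finset.sum_congr rfl (g := fun _ => (d : ℝ) ^ 2) fun g hg => by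
      rw [(Finset.mem_filter.1 hg).2]]
    simp
  have h4 : ∑ g ∈ V, ‖χ g‖ ^ 2 = 0 :=
    Finset.sum_eq_zero fun g hg => by rw [(Finset.mem_filter.1 hg).2]; simp
  have h5 : (S.card : ℝ) ≤ ∑ g ∈ S, ‖χ g‖ ^ 2 := by
    refine CL.Char.card_le_sum_norm_sq hχ.isGeneralizedCharacter S (fun m hm s hs => ?_)
      fun s hs => (Finset.mem_filter.1 hs).2.1
    obtain ⟨h6, h7⟩ := (Finset.mem_filter.1 hs).2
    have hm' : m.Coprime (orderOf s) := hm.coprime_dvd_right (orderOf_dvd_natCard s)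
    refine Finset.mem_filter.2 ⟨Finset.mem_univ _, ?_, fun h8 => h7 ?_⟩
    · rwa [Ne, CL.Char.genChar_pow_eq_zero_iff hχ.isGeneralizedCharacter hm']
    · rw [← hχ.isCharacter.norm_one, ← hχ.isCharacter.mem_charCenter] at h8 ⊢
      obtain ⟨k, hk⟩ := exists_pow_eq_self_of_coprime hm'
      rw [← hk]
      exact Subgroup.pow_mem _ h8 k
  have h6 : 1 ≤ d ^ 2 := Nat.one_le_pow _ _ hd0
  constructor
  · have : (((d ^ 2 - 1) * Z.card : ℕ) : ℝ) ≤ V.card := by
      push_cast [Nat.cast_sub h6]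
      linarith
    exact_mod_cast this
  · intro h
    have h7 : ∑ g ∈ S, ‖χ g‖ ^ 2 = S.card := by
      rw [Finset.sum_congr rfl (g := fun _ => (1 : ℝ)) fun g hg => ?_]
      · simp
      · obtain ⟨h8, h9⟩ := (Finset.mem_filter.1 hg).2
        rcases h g with h' | h' | h'
        · exact absurd (norm_eq_zero.1 h') h8
        · rw [h']; simp
        · exact absurd h' h9
    have : (((d ^ 2 - 1) * Z.card : ℕ) : ℝ) = V.card := by
      push_cast [Nat.cast_sub h6]
      linarith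
    exact_mod_cast this

end Cfsg.Agent.S4574
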