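import Cfsg.Statements.S4575
import Cfsg.Agent.Blk.CMajor

set_option autoImplicit false
open Cfsg

namespace Cfsg.Agent.S4575

open CL.Blk CL.Blk.Rk

/-- Let B be a 2-block of the finite group G (relative to a maximal ideal M of the algebraic integers containing 2) of defect d with defect group D. Let z be an element of D commuting with every element of D, and let b be a block of the centralizer of z with defect group D that induces B (a major subsection (z, b)). If the number of irreducible characters in B exceeds the 2-regular rank of b by at most three, then B contains at most 2 ^ d irreducible characters. -/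
theorem result {G : Type*} [Group G] [Finite G] (M : Ideal Cfsg.AlgInt) (hM : Cfsg.IsPModular 2 M) (B : Set (Cfsg.IrrCharacter G)) (hB : Cfsg.IsPBlock M B) (D : Subgroup G) (hD : Cfsg.IsDefectGroup 2 M B D) (z : G) (hzD : z ∈ D) (hzc : ∀ d ∈ D, d * z = z * d) (b : Set (Cfsg.IrrCharacter ↥(Subgroup.centralizer ({z} : Set G)))) (hb : Cfsg.IsInducedBlock M (Subgroup.centralizer ({z} : Set G)) b B) (hbD : Cfsg.IsDefectGroup 2 M b (D.subgroupOf (Subgroup.centralizer ({z} : Set G)))) (h : Nat.card B ≤ Cfsg.blockRank 2 b + 3) : Nat.card B ≤ 2 ^ Cfsg.blockDefect 2 B := by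
  classical
  letI := Fintype.ofFinite G
  haveI : Fact (Nat.Prime 2) := ⟨Nat.prime_two⟩
  by_cases hd0 : blockDefect 2 B = 0
  · have := four_mul_card_le hM hB
    rw [hd0] at this ⊢
    omega
  have h1 := weighted_le_of_card_le_rank_add_three hM (isCent_centralizer z)
    (pElt_of_mem_defectGroup hM hB hD hzD) hb
    (blockDefect_eq_of_subgroupOf hM hb hD (le_centralizer_singleton_of_comm hzc) hbD) hd0 h
  have h' := three_mul_card_le_weighted B fun χ => blockHeight 2 B (χ : G → ℂ)
  exact Nat.le_of_mul_le_mul_left (h'.trans h1) (by norm_num)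

end Cfsg.Agent.S4575
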