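import Cfsg.Statements.S4580
import Cfsg.Agent.Blk.PrincCrit2
import Cfsg.Agent.Blk.Defect2
import Cfsg.Agent.Char.Schur

set_option autoImplicit false
open Cfsg

namespace Cfsg.Agent.S4580

/-- Let N be a normal subgroup of the finite group G, M a maximal ideal of the algebraic integers containing 2, and θ a real-valued irreducible character of N of odd degree that extends to G (some irreducible character of G restricts to θ). Then θ has an extension to G lying in the principal 2-block of G. -/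
theorem result {G : Type*} [Group G] [Finite G] (N : Subgroup G) [N.Normal] (M : Ideal Cfsg.AlgInt) (hM : Cfsg.IsPModular 2 M) (θ : Cfsg.IrrCharacter N) (hreal : ∀ n : N, ((θ : N → ℂ) n).im = 0) (hodd : Odd (Cfsg.charDegree (θ : N → ℂ))) (hext : ∃ η : Cfsg.IrrCharacter G, ∀ n : N, (η : G → ℂ) n = (θ : N → ℂ) n) :
    ∃ η : Cfsg.IrrCharacter G, (∀ n : N, (η : G → ℂ) n = (θ : N → ℂ) n) ∧ η ∈ Cfsg.principalBlock M G := by
  obtain ⟨η, hη⟩ := hext
  have hres : (fun n : N => (η : G → ℂ) n) = (θ : N → ℂ) := funext hη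
  obtain ⟨mu, hmu1, hmu⟩ := CL.Char.exists_linear_mul_of_restrict_eq N η.2.isCharacter
    η.2.isCharacter.conj (by rw [hres]; exact θ.2) fun n => by
      rw [hη, Complex.conj_eq_iff_im.2 (hreal n)]
  obtain ⟨j, hj⟩ : Odd (ordCompl[2] (Nat.card G)) :=
    Nat.not_even_iff_odd.1 fun h =>
      Nat.not_dvd_ordCompl Nat.prime_two Nat.card_pos.ne' (even_iff_two_dvd.1 h)
  let ψ : Cfsg.IrrCharacter G := ⟨_, η.2.monoidHom_mul (mu ^ (j + 1))⟩
  have hψ : ∀ g, (ψ : G → ℂ) g = ((mu g : ℂˣ) : ℂ) ^ (j + 1) * (η : G → ℂ) g := fun g => by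
    simp [ψ]
  have hψN : ∀ n : N, (ψ : G → ℂ) n = (θ : N → ℂ) n := fun n => by
    rw [hψ, hmu1 n n.2, hη]; simp
  refine ⟨ψ, hψN, CL.Blk.mem_principal_of_real hM
    (CL.Blk.blockDefect_eq_full_of_not_dvd (CL.Blk.self_mem_blockOf hM ψ) fun h2 => ?_)
    fun g hg => ?_⟩
  · have : Cfsg.charDegree (ψ : G → ℂ) = Cfsg.charDegree (θ : N → ℂ) := by
      unfold Cfsg.charDegree
      rw [← hψN 1]; rfl
    rw [this] at h2
    exact (Nat.not_even_iff_odd.2 hodd) (even_iff_two_dvd.2 h2)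
  · have h1 : (ψ : G → ℂ) g⁻¹ = (ψ : G → ℂ) g := by
      have h3 : ((mu g : ℂˣ) : ℂ) ^ (2 * j + 1) = 1 := by
        rw [← hj, ← Units.val_pow_eq_pow_val, ← map_pow, orderOf_dvd_iff_pow_eq_one.1
          (Nat.dvd_ordCompl_of_dvd_not_dvd (orderOf_dvd_natCard g) hg), map_one, Units.val_one]
      have h4 := congrFun hmu g
      rw [hψ, hψ, ← η.2.conj_apply, h4, map_inv, Units.val_inv_eq_inv_val]
      have h5 : ((mu g : ℂˣ) : ℂ) ≠ 0 := Units.ne_zero _
      rw [inv_pow, inv_mul_eq_iff_eq_mul₀ (pow_ne_zero _ h5)]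
      linear_combination (-(mu g : ℂ) * (η : G → ℂ) g) * h3
    simp only [Cfsg.centralChar, CL.Blk.centralizer_singleton_inv, h1]

end Cfsg.Agent.S4580
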