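import Cfsg.Statements.S4582
import Cfsg.Agent.Transfer.Control
import Cfsg.Agent.Grp.MinNormal

set_option autoImplicit false
open Cfsg

namespace Cfsg.Agent.S4582

/-- Let N be a normal subgroup of the finite group G, P a Sylow 2-subgroup of G and Q = P ∩ N. Suppose that P/QP' and Q/Q' are elementary abelian (every square of an element of P lies in the subgroup generated by Q and the derived subgroup of P, and every square of an element of Q lies in the derived subgroup of Q), and that the commutator factor group N/N' has odd order. Then P/P' is elementary abelian. -/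
theorem result {G : Type*} [Group G] [Finite G] (N : Subgroup G) [N.Normal] (P : Sylow 2 G)
    (hP : ∀ x ∈ (P : Subgroup G), x ^ 2 ∈ ((P : Subgroup G) ⊓ N) ⊔ ⁅(P : Subgroup G), (P : Subgroup G)⁆)
    (hQ : ∀ x ∈ (P : Subgroup G) ⊓ N, x ^ 2 ∈ ⁅(P : Subgroup G) ⊓ N, (P : Subgroup G) ⊓ N⁆)
    (hodd : Odd (Nat.card (Abelianization N))) :
    ∀ x ∈ (P : Subgroup G), x ^ 2 ∈ ⁅(P : Subgroup G), (P : Subgroup G)⁆ := by
  classical
  set Q := (P : Subgroup G) ⊓ N with hQdef
  set P' := ⁅(P : Subgroup G), (P : Subgroup G)⁆ with hP'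
  let G₀ : Subgroup G := (P : Subgroup G) ⊔ N
  have hPG : (P : Subgroup G) ≤ G₀ := le_sup_left
  have hNG : N ≤ G₀ := le_sup_right
  let H : Subgroup G₀ := (P : Subgroup G).subgroupOf G₀
  let φ : H →* Abelianization (P : Subgroup G) :=
    Abelianization.of.comp (Subgroup.subgroupOfEquivOfLe hPG).toMonoidHom
  let ψ : H →* Abelianization (P : Subgroup G) := (powMonoidHom 2).comp φ
  have hof : ∀ y : (P : Subgroup G), Abelianization.of y = 1 ↔ (y : G) ∈ P' := by
    intro y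
    rw [← MonoidHom.mem_ker, Abelianization.ker_of, hP', ← Subgroup.map_subtype_commutator]
    exact ⟨fun h => ⟨y, h, rfl⟩, fun ⟨z, hz, e⟩ => Subtype.ext e ▸ hz⟩
  have hQN : ∀ q : N, (q : G) ∈ (P : Subgroup G) → q ∈ commutator N := by
    intro q hq
    obtain ⟨k, hk⟩ := P.2 ⟨q, hq⟩
    have h1 : q ^ 2 ^ k = 1 := by
      have h0 : (q : G) ^ 2 ^ k = 1 := congrArg Subtype.val hk
      exact Subtype.ext h0
    rw [← Abelianization.ker_of, MonoidHom.mem_ker, ← orderOf_eq_one_iff]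
    refine Nat.eq_one_of_dvd_coprimes (hodd.coprime_two_left.pow_left k)
      (orderOf_dvd_of_pow_eq_one (by rw [← map_pow, h1, map_one])) (orderOf_dvd_natCard _)
  have hV : ∀ V : G₀ →* Abelianization (P : Subgroup G), Q ⊔ P' ≤ V.ker.map G₀.subtype := by
    intro V
    refine sup_le (fun q hq => ⟨⟨q, hNG hq.2⟩, ?_, rfl⟩) ?_
    · exact Abelianization.commutator_subset_ker
        (V.comp (Subgroup.inclusion hNG)) (hQN ⟨q, hq.2⟩ hq.1)
    · rw [hP', ← Subgroup.map_subtype_commutator]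
      rintro _ ⟨y, hy, rfl⟩
      exact ⟨⟨y, hPG y.2⟩, Abelianization.commutator_subset_ker
        (V.comp (Subgroup.inclusion hPG)) hy, rfl⟩
  have hψ : Q ⊔ P' ≤ (((powMonoidHom 2).comp Abelianization.of :
      (P : Subgroup G) →* Abelianization (P : Subgroup G)).ker).map (P : Subgroup G).subtype := by
    refine sup_le (fun q hq => ⟨⟨q, hq.1⟩, ?_, rfl⟩) (fun y hy => ⟨⟨y, ?_⟩, ?_, rfl⟩)
    · change Abelianization.of _ ^ 2 = 1
      rw [← map_pow, hof]
      exact Subgroup.commutator_mono inf_le_left inf_le_left (hQ q hq)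
    · exact Subgroup.commutator_le_self _ hy
    · change Abelianization.of _ ^ 2 = 1
      rw [(hof _).mpr hy, one_pow]
  intro x hx
  have h1 : MonoidHom.transfer ψ ⟨x, hPG hx⟩ = MonoidHom.transfer φ ⟨x, hPG hx⟩ ^ 2 := by
    haveI := Fintype.ofFinite (Quotient (MulAction.orbitRel
      (Subgroup.zpowers (⟨x, hPG hx⟩ : G₀)) (G₀ ⧸ H)))
    rw [MonoidHom.transfer_eq_prod_quotient_orbitRel_zpowers_quot,
      MonoidHom.transfer_eq_prod_quotient_orbitRel_zpowers_quot, ← Finset.prod_pow]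
    rfl
  have h2 : MonoidHom.transfer φ ⟨x, hPG hx⟩ ^ 2 = 1 := by
    obtain ⟨y, hy, e⟩ := hV (MonoidHom.transfer φ) (hP x hx)
    rw [← map_pow, ← MonoidHom.mem_ker.mp hy]
    congr 1
    exact Subtype.ext e.symm
  have h3 := CL.Transfer.transfer_eq_pow_of_conj ψ ⟨x, hPG hx⟩
    (Abelianization.of (⟨x, hx⟩ : (P : Subgroup G)) ^ 2) (by
      rintro k ⟨g, hg⟩ h
      obtain ⟨u, hu, n, hn, rfl⟩ := Subgroup.mem_sup_of_normal_right.mp hg
      have h4 : (u * n)⁻¹ * x ^ k * (u * n) ∈ (P : Subgroup G) := h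
      have hxk := (P : Subgroup G).pow_mem hx k
      have h5 : (x ^ k)⁻¹ * u⁻¹ * x ^ k * u ∈ P' := by
        have := Subgroup.commutator_mem_commutator ((P : Subgroup G).inv_mem hxk)
          ((P : Subgroup G).inv_mem hu)
        rwa [commutatorElement_def, inv_inv, inv_inv] at this
      have h6 : (u⁻¹ * x ^ k * u)⁻¹ * ((u * n)⁻¹ * x ^ k * (u * n)) ∈ Q := by
        refine ⟨(P : Subgroup G).mul_mem ((P : Subgroup G).inv_mem ((P : Subgroup G).mul_mem
          ((P : Subgroup G).mul_mem ((P : Subgroup G).inv_mem hu) hxk) hu)) h4, ?_⟩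
        have : (u⁻¹ * x ^ k * u)⁻¹ * ((u * n)⁻¹ * x ^ k * (u * n)) =
            (u⁻¹ * x ^ k * u)⁻¹ * n⁻¹ * (u⁻¹ * x ^ k * u)⁻¹⁻¹ * n := by group
        rw [this]
        exact N.mul_mem ((inferInstance : N.Normal).conj_mem _ (N.inv_mem hn) _) hn
      obtain ⟨y, hy, e⟩ := hψ ((Q ⊔ P').mul_mem (Subgroup.mem_sup_right h5)
        (Subgroup.mem_sup_left h6))
      have h7 : (⟨_, h4⟩ : (P : Subgroup G)) = ⟨x, hx⟩ ^ k * y := by
        apply Subtype.ext
        change _ = x ^ k * (P : Subgroup G).subtype y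
        rw [e]
        group
      change Abelianization.of (⟨_, h4⟩ : (P : Subgroup G)) ^ 2 = _
      have h8 : Abelianization.of y ^ 2 = 1 := hy
      rw [h7, map_mul, mul_pow, h8, mul_one, map_pow, ← pow_mul, ← pow_mul, mul_comm])
  rw [h1, h2, ← map_pow, ← map_pow, eq_comm, hof] at h3
  refine CL.Transfer.mem_of_pow_mem_of_coprime h3 ?_
  obtain ⟨k, hk⟩ := P.2 ⟨x ^ 2, (P : Subgroup G).pow_mem hx 2⟩
  have h4 : orderOf (x ^ 2) ∣ 2 ^ k := orderOf_dvd_of_pow_eq_one (congrArg Subtype.val hk)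
  refine Nat.Coprime.coprime_dvd_right h4 (Nat.Coprime.pow_right k ?_)
  exact (Nat.prime_two.coprime_iff_not_dvd.mpr (P.subtype hPG).not_dvd_index).symm

end Cfsg.Agent.S4582
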