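import Cfsg.Statements.S4584
import Cfsg.Agent.Char.ExtraspecialChar
import Cfsg.Agent.Char.Faithful
import Cfsg.Agent.Grp.PGroupMaxClass

set_option autoImplicit false
open Cfsg

namespace Cfsg.Agent.S4584

/-- Let p be a prime and P a group of order p^4. Then the derived subgroup P' has order p if and only if the centre Z(P) has index p^2 in P. -/
theorem result {P : Type*} [Group P] [Finite P] (p : ℕ) [Fact p.Prime] (hP : Nat.card P = p ^ 4) :
    Nat.card (commutator P) = p ↔ (Subgroup.center P).index = p ^ 2 := by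
  have hp : p.Prime := Fact.out
  have hG : IsPGroup p P := IsPGroup.of_card hP
  constructor
  · intro h
    have hne : commutator P ≠ ⊥ := fun e => hp.ne_one (by rw [← h, e, Subgroup.card_bot])
    obtain ⟨⟨z, hz⟩, hz1⟩ := Subgroup.ne_bot_iff_exists_ne_one.mp hne
    obtain ⟨χ, hχ, hzχ⟩ := CL.Char.exists_irr_not_mem_charKer (g := z)
      (fun e => hz1 (Subtype.ext e))
    have h1 : commutator P ⊓ CL.Char.charKer χ = ⊥ := by
      rcases (hp.eq_one_or_self_of_dvd _ (h ▸ Subgroup.card_dvd_of_le
        (inf_le_left : commutator P ⊓ CL.Char.charKer χ ≤ commutator P))) with e | e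
      · exact Subgroup.card_eq_one.mp e
      · exact absurd ((Subgroup.eq_of_le_of_card_ge inf_le_left (by rw [e, h])).ge hz).2 hzχ
    have h2 := CL.Char.irr_charDegree_sq_eq_index_charCenter hχ
      ((CL.Grp.le_center_of_normal_card_prime hG _ h).trans hχ.center_le_charCenter)
    rw [CL.Char.irr_charCenter_eq_center_of_commutator hχ h1] at h2
    obtain ⟨k, hk⟩ := hχ.exists_charDegree_eq_pow hG
    rw [hk, ← pow_mul] at h2
    haveI : Nontrivial P := CL.Grp.nontrivial_of_card_eq_pow_succ (n := 3) hP
    have h3 : p ^ (k * 2 + 1) ∣ p ^ 4 := by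
      rw [← hP, ← (Subgroup.center P).index_mul_card, pow_succ, h2]
      exact Nat.mul_dvd_mul_left _ (CL.Grp.dvd_card_center hG)
    have h4 := (Nat.pow_dvd_pow_iff_le_right hp.one_lt).mp h3
    have h5 : k ≠ 0 := by
      rintro rfl
      rw [zero_mul, pow_zero, eq_comm, Subgroup.index_eq_one] at h2
      exact hne ((commutator_eq_bot_iff_center_eq_top P).mpr h2)
    rw [← h2, show k = 1 by omega]
  · intro h
    refine (hp.eq_one_or_self_of_dvd _
      (CL.Grp.card_commutator_dvd_of_le_center hG h.dvd)).resolve_left fun e => ?_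
    rw [Subgroup.card_eq_one, commutator_eq_bot_iff_center_eq_top] at e
    rw [e, Subgroup.index_top] at h
    exact (Nat.one_lt_pow two_ne_zero hp.one_lt).ne h

end Cfsg.Agent.S4584
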