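import Cfsg.Statements.S4585
import Cfsg.Agent.Grp.PGroupMaxClass

set_option autoImplicit false
open Cfsg

namespace Cfsg.Agent.S4585

/-- Let p be a prime and P a group of order p^4. Then P' has index p^2 in P if and only if P has maximal nilpotency class, that is, nilpotency class exactly 3. -/
theorem result {P : Type*} [Group P] [Finite P] (p : ℕ) [Fact p.Prime] (hP : Nat.card P = p ^ 4) :
    (commutator P).index = p ^ 2 ↔ Group.nilpotencyClass P = 3 := by
  refine ⟨fun h => ?_, fun h => CL.Grp.index_commutator_of_maxClass hP (by omega) h⟩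
  have hG := IsPGroup.of_card hP
  have := hG.isNilpotent
  have hp := (Fact.out : p.Prime)
  refine le_antisymm (CL.Grp.nilpotencyClass_le_of_card_dvd_pow 2 P hP.dvd) ?_
  by_contra hcon
  have h1 := Subgroup.lowerCentralSeries_eq_bot_iff_nilpotencyClass_le.2 (Nat.le_of_lt_succ (not_le.1 hcon))
  have h2 : commutator P ≤ Subgroup.center P := by
    rw [← Subgroup.centralizer_univ, ← Subgroup.coe_top, ← Subgroup.commutator_eq_bot_iff_le_centralizer,
      ← Subgroup.top_lowerCentralSeries_one]
    exact h1
  have h3 := CL.Grp.card_commutator_dvd_of_le_center hG (h ▸ Subgroup.index_dvd_of_le h2)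
  have h4 := (commutator P).index_mul_card
  rw [h, hP] at h4
  have h5 : p ^ 4 ∣ p ^ 3 := h4 ▸ mul_dvd_mul_left (p ^ 2) h3
  exact absurd ((Nat.pow_dvd_pow_iff_le_right hp.one_lt).1 h5) (by omega)

end Cfsg.Agent.S4585
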