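import Cfsg.Statements.S4586
import Cfsg.Agent.Grp.AbelIndex

set_option autoImplicit false
open Cfsg

namespace Cfsg.Agent.S4586

/-- Let p be a prime, P a finite p-group and N a normal subgroup of P of index p. For x ∈ P write c(x) for the number of elements n of N whose commutator x n x⁻¹ n⁻¹ lies in the derived subgroup N' (so c(x)/#N' is the order of the centralizer of x acting on N/N'). Then [P : P'] = p² if and only if c(x) = p·#N' for every x ∈ P outside N, and also if and only if c(x) = p·#N' for some x ∈ P outside N. -/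
theorem result {P : Type*} [Group P] [Finite P] (p : ℕ) [Fact p.Prime] (hP : IsPGroup p P) (N : Subgroup P) [N.Normal] (hN : N.index = p) :
    ((commutator P).index = p ^ 2 ↔ ∀ x : P, x ∉ N →
        Nat.card {n : N // x * n * x⁻¹ * (n : P)⁻¹ ∈ (commutator N).map N.subtype} = p * Nat.card (commutator N)) ∧
    ((commutator P).index = p ^ 2 ↔ ∃ x : P, x ∉ N ∧
        Nat.card {n : N // x * n * x⁻¹ * (n : P)⁻¹ ∈ (commutator N).map N.subtype} = p * Nat.card (commutator N)) := by
  have hp : p.Prime := Fact.out
  have key : ∀ x : P, x ∉ N → ((commutator P).index = p ^ 2 ↔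
      Nat.card {n : N // x * n * x⁻¹ * (n : P)⁻¹ ∈ (commutator N).map N.subtype} =
        p * Nat.card (commutator N)) := by
    intro x hx
    have h := CL.Grp.index_commutator_mul_card N x
      (CL.Grp.sup_zpowers_eq_top_of_index_prime (hN ▸ hp) hx)
    rw [← Subgroup.map_subtype_commutator, CL.Grp.card_map_subtype, hN] at h
    constructor
    · intro e
      rw [e, sq, mul_assoc] at h
      exact (Nat.eq_of_mul_eq_mul_left hp.pos h).symm
    · intro e
      rw [e, ← mul_assoc, ← sq] at h
      exact Nat.eq_of_mul_eq_mul_right Nat.card_pos h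
  obtain ⟨x, hx⟩ : ∃ x, x ∉ N := by
    by_contra h
    push Not at h
    rw [(Subgroup.eq_top_iff' N).mpr h, Subgroup.index_top] at hN
    exact hp.ne_one hN.symm
  exact ⟨⟨fun h y hy => (key y hy).mp h, fun h => (key x hx).mpr (h x hx)⟩,
    ⟨fun h => ⟨x, hx, (key x hx).mp h⟩, fun ⟨y, hy, h⟩ => (key y hy).mpr h⟩⟩

end Cfsg.Agent.S4586
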