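import Cfsg.Statements.S4587
import Cfsg.Agent.Grp.AbelIndex
import Cfsg.Agent.Grp.SylowIn
import Cfsg.Agent.Transfer.Tate
import Cfsg.Agent.Transfer.Mackey

set_option autoImplicit false
open Cfsg

namespace Cfsg.Agent.S4587

section Aux

open Subgroup CL.Grp CL.Transfer
open scoped commutatorElement Pointwise IsMulCommutative

variable {p : ℕ} [hp : Fact p.Prime]

section PGroup

variable {X : Type*} [Group X] [Finite X]

omit [Finite X] in
theorem comm_le_of_cyclic (D : Subgroup X) [D.Normal] (h : IsCyclic (X ⧸ D)) : commutator X ≤ D :=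
  Normal.quotient_commutative_iff_commutator_le.1 inferInstance

theorem le_or_ge (hX : IsPGroup p X) (h : (commutator X).index = p ^ 2) (D : Subgroup X) [D.Normal] :
    D ≤ commutator X ∨ (commutator X ≤ D ∧ D.index ∣ p) := by
  by_cases hc : IsCyclic (X ⧸ D)
  · have h1 := comm_le_of_cyclic D hc
    refine h1.eq_or_lt.imp (·.ge) fun h2 => ⟨h1, ?_⟩
    have := mul_index_dvd_index_of_lt hX h2
    rwa [h, pow_two, Nat.mul_dvd_mul_iff_left hp.out.pos] at this
  · left
    have h1 := sq_dvd_index_commutator (hX.to_quotient D) hc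
    rw [commutator_def, ← map_top_of_surjective _ (QuotientGroup.mk'_surjective D), ← map_commutator, index_map,
      MonoidHom.range_eq_top.2 (QuotientGroup.mk'_surjective D), index_top, mul_one, QuotientGroup.ker_mk',
      ← commutator_def, ← h] at h1
    by_contra h2
    have h3 := (mul_index_dvd_index_of_lt hX (left_lt_sup.2 h2)).trans h1
    have := Nat.le_of_dvd (Nat.pos_of_ne_zero index_ne_zero_of_finite) h3
    have h4 := Nat.pos_of_ne_zero (index_ne_zero_of_finite (H := commutator X ⊔ D))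
    nlinarith [hp.out.two_le]

theorem comm_le_of_transfer (hX : IsPGroup p X) (h : (commutator X).index = p ^ 2) (Q R S : Subgroup X) [Q.Normal]
    (hQ : Q.index = p) {x : X} (hx : x ∉ Q) (hS : Q ≤ normalizer (S : Set X)) (hSQ : S ≤ Q)
    (hRS : ∀ q ∈ Q, ∃ r ∈ R, r ∈ Q ∧ r⁻¹ * q ∈ S)
    (hi : ∀ i, 0 < i → i < p → ∀ r ∈ R, (x ^ i)⁻¹ * r * x ^ i ∈ S) : ⁅Q, Q⁆ ≤ S := by
  have := normal_subgroupOf_of_le_normalizer' hS
  set ϕ : Q →* Abelianization (Q ⧸ S.subgroupOf Q) := Abelianization.of.comp (QuotientGroup.mk' _) with hϕ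
  have h0 : ∀ s ∈ S, extOne ϕ s = 1 := fun s hs => by
    rw [extOne_of_mem ϕ (hSQ hs), hϕ, MonoidHom.comp_apply, QuotientGroup.mk'_apply,
      (QuotientGroup.eq_one_iff _).2 (mem_subgroupOf.2 hs), map_one]
  have h1 : Q.map (MonoidHom.transfer ϕ) = ⊤ := by
    refine eq_top_iff.2 fun a _ => ?_
    obtain ⟨b, rfl⟩ : ∃ b, Abelianization.of b = a := QuotientGroup.mk_surjective a
    obtain ⟨q, rfl⟩ := QuotientGroup.mk_surjective b
    obtain ⟨r, hr, hrQ, h2⟩ := hRS q q.2
    refine ⟨r, hrQ, ?_⟩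
    rw [transfer_eq_prod_range_of_index_prime ϕ hp.out hQ hx hrQ,
      Finset.prod_eq_single_of_mem 0 (Finset.mem_range.2 hp.out.pos) fun i hi' h3 =>
        h0 _ (hi i (Nat.pos_of_ne_zero h3) (Finset.mem_range.1 hi') r hr)]
    have h4 := extOne_mul ϕ hrQ (hSQ h2)
    rw [h0 _ h2, mul_one, mul_inv_cancel_left, extOne_coe] at h4
    simpa [hϕ] using h4.symm
  have h2 : Nat.card (Abelianization (Q ⧸ S.subgroupOf Q)) ∣ p := by
    have h3 := card_eq_card_inf_ker_mul_card_map (MonoidHom.transfer ϕ) Q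
    rw [h1, card_top, ← card_inf_mul_relIndex (MonoidHom.transfer ϕ).ker Q] at h3
    rw [← Nat.eq_of_mul_eq_mul_left Nat.card_pos h3]
    have h4 := relIndex_mul_index (commutator_le_of_index_prime (H := Q) (hQ ▸ hp.out))
    rw [h, hQ, pow_two] at h4
    exact Nat.eq_of_mul_eq_mul_right hp.out.pos h4 ▸
      relIndex_dvd_of_le_left Q (Abelianization.commutator_subset_ker _)
  have h3 : IsCyclic (Q ⧸ S.subgroupOf Q) := by
    by_contra hc
    have := Nat.le_of_dvd hp.out.pos ((sq_dvd_index_commutator ((hX.to_subgroup Q).to_quotient _) hc).trans h2)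
    nlinarith [hp.out.two_le]
  rw [← map_subtype_commutator, map_le_iff_le_comap]
  exact comm_le_of_cyclic (S.subgroupOf Q) h3

theorem card_cent (h : (commutator X).index = p ^ 2) (Q : Subgroup X) [Q.Normal] (hQ : Q.index = p)
    (hc : ⁅Q, Q⁆ = ⊥) {y : X} (hy : y ∉ Q) : Nat.card (centralizer ({y} : Set X)) = p ^ 2 := by
  have h0 := sup_zpowers_eq_top_of_index_prime (hQ ▸ hp.out) hy
  have h1 := index_commutator_mul_card Q y h0
  rw [hc, h, hQ, card_bot, mul_one, pow_two] at h1
  have h2 : Q.relIndex (centralizer {y}) = p := by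
    rw [← relIndex_sup_left, eq_top_iff.2 (h0.ge.trans (sup_le_sup_left ((zpowers_le).2
      (mem_centralizer_singleton_iff.2 rfl)) Q)), relIndex_top_right, hQ]
  rw [← card_inf_mul_relIndex Q, h2, pow_two]
  congr 1
  rw [Nat.eq_of_mul_eq_mul_left hp.out.pos h1]
  refine Nat.card_congr ⟨fun n => ⟨⟨n.1, n.2.1⟩, ?_⟩, fun n => ⟨n.1, n.1.2, ?_⟩, fun _ => rfl, fun _ => rfl⟩
  · rw [mem_bot, ← mem_centralizer_singleton_iff.1 n.2.2]
    simp
  · have := mem_bot.1 n.2
    rw [mul_inv_eq_one, mul_inv_eq_iff_eq_mul] at this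
    exact mem_centralizer_singleton_iff.2 this.symm

end PGroup

variable {G : Type*} [Group G] [Finite G]

theorem exists_conj_cent (P : Sylow p G) {x : G} (hx : IsPGroup p (zpowers x)) :
    ∃ (g : G) (y : P), (y : G) = g * x * g⁻¹ ∧
      Nat.card (centralizer ({y} : Set P)) = p ^ (Nat.card (centralizer ({x} : Set G))).factorization p := by
  obtain ⟨S, hS, h1⟩ := exists_isSylowIn_ge hx (zpowers_le.2 (mem_centralizer_singleton_iff.2 (rfl : x * x = x * x)))
  obtain ⟨g, hg⟩ := exists_conj_le_sylow P hS.isPGroup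
  have h2 : MulAut.conj g • centralizer ({x} : Set G) = centralizer {g * x * g⁻¹} := by
    ext a
    rw [mem_conj_smul_iff, mem_centralizer_singleton_iff, mem_centralizer_singleton_iff]
    refine ⟨fun h => ?_, fun h => ?_⟩
    · calc a * (g * x * g⁻¹) = g * (g⁻¹ * a * g * x) * g⁻¹ := by group
        _ = _ := by rw [h]; group
    · calc g⁻¹ * a * g * x = g⁻¹ * (a * (g * x * g⁻¹)) * g := by group
        _ = _ := by rw [h]; group
  have h3 := hS.conj_smul g
  rw [h2] at h3
  refine ⟨g, ⟨_, hg (conj_mem_conj_smul g (h1 (mem_zpowers x)))⟩, rfl, ?_⟩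
  rw [← hS.card_eq_pow, ← card_conj_smul g S,
    ← h3.eq_of_le (P.2.to_inf_right (H := centralizer {g * x * g⁻¹})) (le_inf h3.le hg) inf_le_left,
    ← card_subgroupOf_eq]
  congr 2
  ext a
  simp only [mem_centralizer_singleton_iff, mem_subgroupOf, Subtype.ext_iff, coe_mul]

theorem not_le_comm (P : Sylow p G) (hO : pPrimeCore p G = ⊥)
    (hc : (⁅(P : Subgroup G), (P : Subgroup G)⁆).normalCore = ⊥) (A : Subgroup G) [A.Normal] (hA : A ≠ ⊥) :
    ¬ A.subgroupOf P ≤ commutator P := fun h => by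
  have h1 : A ⊓ P ≤ ⁅(P : Subgroup G), (P : Subgroup G)⁆ := by
    rw [← map_subtype_commutator, ← subgroupOf_map_subtype]
    exact map_mono h
  have h2 := inf_pResidual_eq_bot_of_le_frattini P A
    (h1.trans (map_subtype_commutator (P : Subgroup G) ▸ map_mono (commutator_le_frattini P.2)))
  have := CL.Transfer.pResidual_characteristic (G := A) p
  have h3 := (isSylowIn_inf_normal P ((pResidual p A).map A.subtype)).not_dvd
  rw [inf_comm, h2, relIndex_bot_left] at h3
  have h4 := (le_pPrimeCore_of_not_dvd h3).trans hO.le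
  rw [le_bot_iff, map_eq_bot_iff_of_injective _ A.subtype_injective] at h4
  have h5 : IsPGroup p A := fun g => (exists_pow_mem_pResidual p g).imp fun k hk => by rwa [h4, mem_bot] at hk
  rw [inf_eq_left.2 ((le_pCore h5).trans (pCore_le_sylow P))] at h1
  exact hA (le_bot_iff.1 (hc ▸ normal_le_normalCore.2 h1))

/-- minimal normal subgroups of `N`, seen in `G`. -/
structure MN (N T : Subgroup G) : Prop where
  le : T ≤ N
  norm : N ≤ normalizer (T : Set G)
  ne : T ≠ ⊥
  min : ∀ U : Subgroup G, U ≤ T → N ≤ normalizer (U : Set G) → U = ⊥ ∨ U = T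

omit [Finite G] in
theorem MN.conj {N T : Subgroup G} [hN : N.Normal] (h : MN N T) (g : G) : MN N (MulAut.conj g • T) := by
  have h0 : ∀ (a : G) (U : Subgroup G), N ≤ normalizer (U : Set G) →
      N ≤ normalizer ((MulAut.conj a • U : Subgroup G) : Set G) := fun a U hU n hn => by
    rw [normalizer_conj_smul, mem_conj_smul_iff]
    exact hU (hN.conj_mem' n hn a)
  refine ⟨(conj_smul_le_iff _ _ _).2 fun t ht => hN.conj_mem t (h.le ht) g, h0 g T h.norm,
    fun e => h.ne (by simpa using congrArg (MulAut.conj g⁻¹ • ·) e), fun U hU hn => ?_⟩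
  have h1 : MulAut.conj g⁻¹ • U ≤ T := (conj_smul_le_iff _ _ _).2 fun u hu => by
    simpa using (mem_conj_smul_iff _ _ _).1 (hU hu)
  refine (h.min _ h1 (h0 _ U hn)).imp (fun e => ?_) fun e => ?_
  · simpa using congrArg (MulAut.conj g • ·) e
  · rw [← e, conj_smul_conj_smul, mul_inv_cancel, map_one, one_smul]

omit [Finite G] in
theorem MN.le_cent {N T U : Subgroup G} (h : MN N T) (h' : MN N U) (e : U ≠ T) : U ≤ centralizer (T : Set G) := by
  have h1 : U ⊓ T = ⊥ := ((h'.min _ inf_le_left (le_normalizer_inf h'.norm h.norm)).resolve_right fun e' =>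
    ((h.min U (inf_eq_left.1 e') h'.norm).elim h'.ne e))
  rw [← commutator_eq_bot_iff_le_centralizer, eq_bot_iff, ← h1, commutator_le]
  intro u hu t ht
  refine ⟨?_, ?_⟩
  · rw [commutatorElement_def, mul_assoc, mul_assoc]
    refine mul_mem hu ?_
    rw [← mul_assoc]
    exact (mem_normalizer_iff.1 (h'.norm (h.le ht)) _).1 (U.inv_mem hu)
  · exact T.mul_mem ((mem_normalizer_iff.1 (h.norm (h'.le hu)) _).1 ht) (T.inv_mem ht)

omit [Finite G] in
theorem MN.le_of {N T Y : Subgroup G} (hN : IsMinNormal N) (h : MN N T) (hY : ∀ g : G, MulAut.conj g • T ≤ Y) :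
    N ≤ Y := by
  have := hN.normal
  rw [← hN.eq_of_le (K := normalClosure (T : Set G)) (fun e => h.ne (le_bot_iff.1 (e ▸ le_normalClosure)))
    (normalClosure_le_normal h.le)]
  refine (closure_le _).2 fun a ha => ?_
  obtain ⟨t, ht, h1⟩ := Group.mem_conjugatesOfSet_iff.1 ha
  obtain ⟨g, rfl⟩ := isConj_iff.1 h1
  exact hY g (conj_mem_conj_smul g ht)

theorem exists_mn (N : Subgroup G) (h : N ≠ ⊥) : ∃ T, MN N T := by
  obtain ⟨T, hT, h1⟩ := (wellFounded_lt (α := Subgroup G)).has_min
    {T | T ≤ N ∧ N ≤ normalizer (T : Set G) ∧ T ≠ ⊥} ⟨N, le_rfl, le_normalizer, h⟩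
  exact ⟨T, hT.1, hT.2.1, hT.2.2, fun U hU hn => or_iff_not_imp_left.2 fun h0 =>
    hU.eq_or_lt.resolve_right (h1 U ⟨hU.trans hT.1, hn, h0⟩)⟩

theorem MN.step (P : Sylow p G) (hO : pPrimeCore p G = ⊥)
    (hc : (⁅(P : Subgroup G), (P : Subgroup G)⁆).normalCore = ⊥) (h : (commutator P).index = p ^ 2)
    (h0 : commutator P ≠ ⊥) {N T : Subgroup G} (hN : IsMinNormal N) (hC : centralizer (N : Set G) = ⊥)
    (hT : MN N T) (hTN : T ≠ N) : (N.subgroupOf P).index = p ∧
      ⁅N.subgroupOf P, N.subgroupOf P⁆ ≤ (centralizer (T : Set G)).subgroupOf P := by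
  have := hN.normal
  set L := N ⊓ centralizer (T : Set G) with hL
  have hdvd : ∀ C : Subgroup G, C ≤ N → N ≤ normalizer (C : Set G) → C ≠ ⊥ → p ∣ Nat.card C := by
    intro C hCN hC hC1
    by_contra hn
    have h1 : C ≤ pPrimeCoreOf p N := le_pPrimeCoreOf hCN hC ((hp.out.coprime_iff_not_dvd.mpr hn).symm)
    have : (pPrimeCoreOf p N).Normal := by
      rw [← normalizer_eq_top_iff, eq_top_iff]
      refine le_trans ?_ (normalizer_le_normalizer_pPrimeCoreOf p N)
      rw [normalizer_eq_top_iff.mpr ‹N.Normal›]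
    exact hC1 (le_bot_iff.mp (h1.trans ((le_pPrimeCore (pPrimeCoreOf_coprime p N)).trans hO.le)))
  have hn : ∀ H : Subgroup G, H ≤ normalizer (T : Set G) → H ≤ normalizer (L : Set G) := fun H hH =>
    le_normalizer_inf (le_normalizer_of_normal) (CL.Grp.le_normalizer_centralizer' hH)
  have h1 : N ≤ T ⊔ L := hT.le_of hN fun g => by
    by_cases e : MulAut.conj g • T = T
    · exact e.le.trans le_sup_left
    · exact (le_inf (hT.conj g).le (hT.le_cent (hT.conj g) e)).trans le_sup_right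
  have h2 : T ⊓ L = ⊥ := (hT.min _ inf_le_left (le_normalizer_inf hT.norm (hn N hT.norm))).resolve_right fun e => by
    have h3 : N ≤ centralizer (T : Set G) :=
      h1.trans (sup_le ((inf_eq_left.1 e).trans inf_le_right) inf_le_right)
    exact hT.ne (le_bot_iff.1 (hC ▸ le_centralizer_iff.1 h3))
  have hL0 : L ≠ ⊥ := fun e => hTN (le_antisymm hT.le (by simpa [e] using h1))
  have hS := isSylowIn_inf_normal P N
  have hR := hS.inf_of_normalized hT.le hT.norm
  have hR' := hS.inf_of_normalized (N := L) inf_le_left (hn N hT.norm)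
  have h3 : (P : Subgroup G) ⊓ N ⊓ T ⊔ (P : Subgroup G) ⊓ N ⊓ L = (P : Subgroup G) ⊓ N := by
    refine eq_of_le_of_card_ge (sup_le inf_le_left inf_le_left) (le_of_eq ?_)
    rw [card_sup_of_inf_eq_bot (le_normalizer_inf (inf_le_left.trans le_normalizer)
      ((inf_le_right.trans hT.le).trans (hn N hT.norm))) (le_bot_iff.1 (h2 ▸ inf_le_inf inf_le_right inf_le_right)),
      hR.card_eq_pow, hR'.card_eq_pow, hS.card_eq_pow, ← le_antisymm (sup_le hT.le inf_le_left) h1,
      card_sup_of_inf_eq_bot (hT.le.trans (hn N hT.norm)) h2, Nat.factorization_mul Nat.card_pos.ne' Nat.card_pos.ne',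
      Finsupp.add_apply, pow_add]
  have h4 : ∀ q ∈ N.subgroupOf P, ∃ r ∈ T.subgroupOf P, r ∈ N.subgroupOf (P : Subgroup G) ∧
      r⁻¹ * q ∈ L.subgroupOf P := fun q hq => by
    obtain ⟨a, ha, b, hb, e⟩ := (mem_sup_of_le_normalizer (le_normalizer_inf (inf_le_left.trans le_normalizer)
      ((inf_le_right.trans hT.le).trans (hn N hT.norm)))).1 (h3.ge ⟨q.2, hq⟩)
    exact ⟨⟨a, ha.1.1⟩, ha.2, ha.1.2, mem_subgroupOf.2 (by simpa [← e] using hb.2)⟩
  have h5 : ¬ (P : Subgroup G) ≤ normalizer (T : Set G) := fun hP => by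
    have := normal_subgroupOf_of_le_normalizer' hP
    have := normal_subgroupOf_of_le_normalizer' (hn _ hP)
    have h6 : T.subgroupOf P ⊓ L.subgroupOf (P : Subgroup G) = ⊥ := by
      rw [subgroupOf, subgroupOf, ← comap_inf, h2, MonoidHom.comap_bot, ker_subtype]
    have h7 : ∀ C : Subgroup G, C.subgroupOf P = ⊥ → (P : Subgroup G) ⊓ N ⊓ C = ⊥ := fun C e =>
      eq_bot_iff.2 fun a ha => congrArg Subtype.val (mem_bot.1 (e.le (show (⟨a, ha.1.1⟩ : P) ∈ _ from ha.2)))
    rcases le_or_ge P.2 h (T.subgroupOf P) with a | a <;> rcases le_or_ge P.2 h (L.subgroupOf P) with b | b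
    · refine not_le_comm P hO hc N hN.ne_bot fun q hq => ?_
      obtain ⟨r, hr, -, h8⟩ := h4 q hq
      simpa using mul_mem (a hr) (b h8)
    · exact hR.ne_bot_of_dvd (hdvd T hT.le hT.norm hT.ne) (h7 T (by rw [← h6, inf_eq_left.2 (a.trans b.1)]))
    · exact hR'.ne_bot_of_dvd (hdvd L inf_le_left (hn N hT.norm) hL0)
        (h7 L (by rw [← h6, inf_eq_right.2 (b.trans a.1)]))
    · exact h0 (le_bot_iff.1 (h6 ▸ le_inf a.1 b.1))
  obtain ⟨x, hx, hx'⟩ := SetLike.not_le_iff_exists.1 h5
  have h6 : (⟨x, hx⟩ : (P : Subgroup G)) ∉ N.subgroupOf P := fun e => hx' (hT.norm e)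
  have h7 : (N.subgroupOf P).index = p :=
    ((Nat.dvd_prime hp.out).1 ((le_or_ge P.2 h _).resolve_left (not_le_comm P hO hc N hN.ne_bot)).2).resolve_left
      fun e => h6 (index_eq_one.1 e ▸ mem_top _)
  refine ⟨h7, (comm_le_of_transfer P.2 h _ (T.subgroupOf P) (L.subgroupOf P) h7 h6 (fun q hq => ?_)
    (comap_mono inf_le_left) h4 fun i hi hi' r hr => ?_).trans (comap_mono inf_le_right)⟩
  · exact mem_normalizer_iff.2 fun a => mem_normalizer_iff.1 (hn N hT.norm hq) a
  · have h8 : MulAut.conj (x ^ i)⁻¹ • T ≠ T := fun e => by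
      have h9 : (⟨x, hx⟩ : (P : Subgroup G)) ^ i ∉ N.subgroupOf P := fun e' => by
        replace e' := (QuotientGroup.eq_one_iff _).2 e'
        rw [QuotientGroup.mk_pow, ← orderOf_dvd_iff_pow_eq_one] at e'
        rcases (Nat.dvd_prime hp.out).1 ((orderOf_dvd_natCard ((⟨x, hx⟩ : (P : Subgroup G)) : (P : Subgroup G) ⧸ N.subgroupOf P)).trans
          (dvd_of_eq h7)) with a | a
        · exact h6 ((QuotientGroup.eq_one_iff _).1 (orderOf_eq_one_iff.1 a))
        · exact (Nat.le_of_dvd hi (a ▸ e')).not_gt hi'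
      have h10 : (⟨x, hx⟩ : (P : Subgroup G)) ∈ (normalizer (T : Set G)).subgroupOf P :=
        (sup_zpowers_eq_top_of_index_prime (h7.symm ▸ hp.out) h9).ge.trans (sup_le (comap_mono hT.norm)
          (zpowers_le.2 (inv_mem_iff.1 ((conj_smul_eq_self_iff _ _).1 e)))) (mem_top _)
      exact hx' h10
    have := le_inf (hT.conj _).le (hT.le_cent (hT.conj _) h8) (conj_mem_conj_smul (x ^ i)⁻¹ hr)
    rw [inv_inv] at this
    exact this

theorem exists_normal (P : Sylow p G) (hO : pPrimeCore p G = ⊥)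
    (hc : (⁅(P : Subgroup G), (P : Subgroup G)⁆).normalCore = ⊥) (h : (commutator P).index = p ^ 2)
    (h0 : commutator P ≠ ⊥) (hnas : ¬ ∃ S : Subgroup G, S.Normal ∧ IsSimpleGroup S ∧ ¬ IsMulCommutative S ∧
      centralizer (S : Set G) = ⊥) : ∃ N : Subgroup G, N.Normal ∧ (N.subgroupOf P).index = p ∧
      ⁅N.subgroupOf P, N.subgroupOf (P : Subgroup G)⁆ = ⊥ := by
  have hA := fun (A : Subgroup G) [A.Normal] (hA : A ≠ ⊥) =>
    (le_or_ge P.2 h _).resolve_left (not_le_comm P hO hc A hA)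
  by_cases hp0 : pCore p G = ⊥
  · have : Nontrivial G := by
      by_contra hG
      rw [not_nontrivial_iff_subsingleton] at hG
      exact h0 (Subsingleton.elim _ _)
    obtain ⟨N, hN⟩ := exists_isMinNormal G
    have := hN.normal
    have h1 : ¬ IsMulCommutative N := fun hc => by
      obtain ⟨q, hq, h2, -⟩ := hN.exists_isPGroup inferInstance
      by_cases e : q = p
      · exact hN.ne_bot (le_bot_iff.1 (hp0 ▸ le_pCore (e ▸ h2)))
      · exact hN.ne_bot (le_bot_iff.1 (hO ▸ le_pPrimeCore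
          (coprime_card_of_isPGroup h2 ((Nat.coprime_primes hq hp.out).2 e))))
    have h2 : centralizer (N : Set G) = ⊥ := by
      by_contra h2
      rcases hN.le_or_inf_eq_bot (centralizer (N : Set G)) with h3 | h3
      · exact h1 (le_centralizer_iff_isMulCommutative.1 h3)
      · refine h0 (le_bot_iff.1 ((le_inf (hA N hN.ne_bot).1 (hA _ h2).1).trans ?_))
        rw [subgroupOf, subgroupOf, ← comap_inf, h3, MonoidHom.comap_bot, ker_subtype]
    have h3 : ∀ T, MN N T → T ≠ N := fun T hT e => by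
      subst e
      have := hN.nontrivial
      refine hnas ⟨T, hN.normal, ⟨fun U hU => ?_⟩, h1, h2⟩
      refine (hT.min _ (map_subtype_le U) (le_normalizer_map_subtype U)).imp (fun e => ?_) fun e => ?_
      · exact (map_eq_bot_iff_of_injective _ T.subtype_injective).1 e
      · exact map_injective T.subtype_injective (by rw [e, ← MonoidHom.range_eq_map, range_subtype])
    obtain ⟨T, hT⟩ := exists_mn N hN.ne_bot
    refine ⟨N, hN.normal, (hT.step P hO hc h h0 hN h2 (h3 T hT)).1, eq_bot_iff.2 fun a ha => ?_⟩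
    have h4 : N ≤ centralizer {(a : G)} := hT.le_of hN fun g t ht => mem_centralizer_singleton_iff.2
      (mem_subgroupOf.1 (((hT.conj g).step P hO hc h h0 hN h2 (h3 _ (hT.conj g))).2 ha) t ht)
    exact Subtype.ext (mem_bot.1 (h2.le fun n hn => mem_centralizer_singleton_iff.1 (h4 hn)))
  · have h1 : ⁅(pCore p G).subgroupOf P, (pCore p G).subgroupOf (P : Subgroup G)⁆ = ⊥ := by
      rw [← map_eq_bot_iff_of_injective _ (P : Subgroup G).subtype_injective, map_commutator, subgroupOf_map_subtype,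
        inf_eq_left.2 (pCore_le_sylow P), ← le_bot_iff, ← hc]
      exact normal_le_normalCore.2 (commutator_mono (pCore_le_sylow P) (pCore_le_sylow P))
    refine ⟨_, inferInstance, ((Nat.dvd_prime hp.out).1 (hA _ hp0).2).resolve_left fun e => h0 ?_, h1⟩
    rwa [index_eq_one.1 e] at h1

end Aux


/-- Let G be a finite group, p a prime and P a Sylow p-subgroup of order at least p². Assume that G has no nontrivial normal subgroup of order prime to p, that the derived subgroup P' of P contains no nontrivial normal subgroup of G, and that G is not almost simple (there is no non-abelian simple normal subgroup of G with trivial centralizer). Then [P : P'] = p² if and only if some p-element x of G has centralizer whose order has p-part exactly p². -/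
theorem result {G : Type*} [Group G] [Finite G] (p : ℕ) [Fact p.Prime] (P : Sylow p G) (hbig : p ^ 2 ∣ Nat.card G) (hcore : Cfsg.pPrimeCore p G = ⊥)
    (hcore' : (⁅(P : Subgroup G), (P : Subgroup G)⁆).normalCore = ⊥) (hnas : ¬ ∃ S : Subgroup G, S.Normal ∧ IsSimpleGroup S ∧ ¬ IsMulCommutative S ∧ Subgroup.centralizer (S : Set G) = ⊥) :
    (⁅(P : Subgroup G), (P : Subgroup G)⁆).relIndex (P : Subgroup G) = p ^ 2 ↔
      ∃ x : G, (∃ k : ℕ, orderOf x = p ^ k) ∧ (Nat.card (Subgroup.centralizer ({x} : Set G))).factorization p = 2 := by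
  have e : (⁅(P : Subgroup G), (P : Subgroup G)⁆).relIndex (P : Subgroup G) = (commutator P).index := by
    rw [Subgroup.relIndex, ← Subgroup.map_subtype_commutator, Subgroup.subgroupOf,
      Subgroup.comap_map_eq_self_of_injective (Subgroup.subtype_injective _)]
  have hp : p.Prime := Fact.out
  rw [e]
  refine ⟨fun h => ?_, fun ⟨x, ⟨k, hk⟩, h⟩ => ?_⟩
  · by_cases h0 : commutator P = ⊥
    · refine ⟨1, ⟨0, by simp⟩, ?_⟩
      rw [h0, Subgroup.index_bot, P.card_eq_multiplicity] at h
      rw [Subgroup.centralizer_eq_top_iff_subset.2 (by simp), Subgroup.card_top]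
      exact Nat.pow_right_injective hp.two_le h
    · obtain ⟨N, hN, h1, h2⟩ := exists_normal P hcore hcore' h h0 hnas
      obtain ⟨x, hx⟩ : ∃ x, x ∉ N.subgroupOf P := by
        by_contra! h3
        exact hp.one_lt.ne' (h1 ▸ Subgroup.index_eq_one.2 (eq_top_iff.2 fun x _ => h3 x))
      obtain ⟨k, hk⟩ := IsPGroup.iff_orderOf.1 P.2 x
      rw [← Subgroup.orderOf_coe] at hk
      obtain ⟨g, y, h3, h4⟩ := exists_conj_cent P (x := x) (IsPGroup.of_card (by rw [Nat.card_zpowers, hk]))
      refine ⟨x, ⟨k, hk⟩, Nat.pow_right_injective hp.two_le (h4.symm.trans (card_cent h _ h1 h2 fun h5 => hx ?_))⟩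
      rw [Subgroup.mem_subgroupOf, h3] at h5
      simpa [mul_assoc, Subgroup.mem_subgroupOf] using hN.conj_mem' _ h5 g
  · obtain ⟨g, y, -, h4⟩ := exists_conj_cent P (x := x) (IsPGroup.of_card (by rw [Nat.card_zpowers, hk]))
    have h1 := CL.Grp.card_centralizer_quotient_le (commutator P) y
    have h2 : p ^ 2 ∣ (commutator P).index := by
      by_cases hc : IsCyclic P
      · rw [commutator_eq_bot, Subgroup.index_bot, P.card_eq_multiplicity]
        exact pow_dvd_pow p ((hp.pow_dvd_iff_le_factorization Nat.card_pos.ne').1 hbig)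
      · exact CL.Grp.sq_dvd_index_commutator P.2 hc
    have h3 := Subgroup.Normal.quotient_commutative_iff_commutator_le.2 (le_refl (commutator P))
    have h5 : Subgroup.centralizer {(y : P ⧸ commutator P)} = ⊤ :=
      eq_top_iff.2 fun a _ => Subgroup.mem_centralizer_singleton_iff.2 (h3.is_comm.comm _ _)
    rw [h4, h, h5, Subgroup.card_top] at h1
    exact le_antisymm h1 (Nat.le_of_dvd (Nat.pos_of_ne_zero Subgroup.index_ne_zero_of_finite) h2)

end Cfsg.Agent.S4587
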