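import Cfsg.Statements.S4588
import Cfsg.Agent.Blk.CycMin

set_option autoImplicit false
open Cfsg

namespace Cfsg.Agent.S4588

open CL.Blk CL.Blk.Rk CL.Blk.Pair CL.Char Subgroup


/-- Let G be a finite group, p a prime and M a maximal ideal of the algebraic integers containing p. If some p-element x of G (possibly x = 1) has centralizer whose order has p-part at most p², then the principal p-block of G contains at most p² irreducible characters of degree prime to p. -/
theorem result {G : Type*} [Group G] [Finite G] (p : ℕ) [Fact p.Prime] (M : Ideal Cfsg.AlgInt) (hM : Cfsg.IsPModular p M)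
    (hx : ∃ x : G, (∃ k : ℕ, orderOf x = p ^ k) ∧ (Nat.card (Subgroup.centralizer ({x} : Set G))).factorization p ≤ 2) :
    Nat.card {χ : Cfsg.IrrCharacter G // χ ∈ Cfsg.principalBlock M G ∧ ¬ p ∣ Cfsg.charDegree (χ : G → ℂ)} ≤ p ^ 2 := by
  obtain ⟨x, hx, h2⟩ := hx
  have hp : p.Prime := hM.1
  have := Fintype.ofFinite G
  have hH := isCent_centralizer x
  set H := centralizer ({x} : Set G)
  have := Fintype.ofFinite H
  by_cases h1 : x = 1
  · have h3 : H = ⊤ := eq_top_iff.2 fun g _ => (hH g).2 (by simp [h1])
    rw [h3, card_top, ← blockDefect_principal hM] at h2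
    exact (Nat.card_le_card_of_injective _ (Subtype.map_injective (f := id) (fun _ h => h.1)
      Function.injective_id)).trans
      ((card_le_pow_of_defect_le_two hM tr_isPBlock_principalBlock h2).trans
        (Nat.pow_le_pow_right hp.pos h2))
  have hb : IsPBlock M (principalBlock M H) := tr_isPBlock_principalBlock
  obtain ⟨B, hind⟩ := inducedBlockDefined_centralizer_singleton hM hx hb
  obtain rfl := (eq_principal_iff_of_isInducedBlock_centralizer hM hx hind).2 rfl
  rw [← blockDefect_principal hM] at h2
  obtain ⟨D, hD⟩ := exists_isDefectGroup hM hb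
  have hZ := centralizer_zpowers_self x
  set N := zpowers (⟨x, hH.self_mem⟩ : H) with hN
  have : N.Normal := normalizer_eq_top_iff.1 (top_le_iff.1 (hZ ▸ centralizer_le_normalizer _))
  have := Fintype.ofFinite (H ⧸ N)
  have hNp : IsPGroup p N := isPGroup_zpowers_of_orderOf (by simpa using hx)
  obtain ⟨h3, h4, h5, -⟩ := isDefectGroup_preimage_of_central hM hb hNp hZ hD
  have h6 := lt_of_pow_mul_eq h5 (by
    obtain ⟨k, hk⟩ := hx
    rw [Nat.card_zpowers, orderOf_mk, hk]
    exact dvd_pow_self p fun h => h1 (orderOf_eq_one_iff.1 (by rw [hk, h, pow_zero])))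
  have h7 := ((rankMin_of_isCyclic hM h3 h4
    (isCyclic_of_blockDefect_le_one hM h3 h4 (by omega))).of_quot hM hb hNp hZ).card_height_zero_le
    hM hH hx hind
  refine le_trans (Nat.card_le_card_of_injective _ (Subtype.map_injective (f := id)
    (fun χ h => ⟨h.1, ?_⟩) Function.injective_id)) (h7.trans (Nat.pow_le_pow_right hp.pos h2))
  rw [id, blockHeight_def, Nat.factorization_eq_zero_of_not_dvd h.2, Nat.zero_sub]

end Cfsg.Agent.S4588
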