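import Cfsg.Statements.S4601
import Cfsg.Agent.Grp.AbelIndex

set_option autoImplicit false
open Cfsg

namespace Cfsg.Agent.S4601

/-- Let p and q be primes and G a finite group that is p-solvable or q-solvable, in which no q-element has conjugacy class size divisible by p. Then some Sylow p-subgroup of G normalizes some Sylow q-subgroup of G. -/
theorem result {G : Type*} [Group G] [Finite G] (p q : ℕ) [Fact p.Prime] [Fact q.Prime] (hsolv : Cfsg.IsPSolvable p G ∨ Cfsg.IsPSolvable q G)
    (h : ∀ y : G, (∃ k : ℕ, orderOf y = q ^ k) → ¬ p ∣ (Subgroup.centralizer ({y} : Set G)).index) :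
    ∃ (P : Sylow p G) (Q : Sylow q G), (P : Subgroup G) ≤ Subgroup.normalizer ((Q : Subgroup G) : Set G) := by
  rcases hsolv with hs | hs
  · by_cases hpq : p = q
    · subst hpq
      obtain ⟨P⟩ : Nonempty (Sylow p G) := inferInstance
      exact ⟨P, P, Subgroup.le_normalizer⟩
    obtain ⟨Q⟩ : Nonempty (Sylow q G) := inferInstance
    refine CL.Grp.exists_sylow_normalizes_of_not_dvd
      (CL.Grp.not_dvd_index_pPrimeCore_of_sylow_le Q fun y hy => ?_)
    refine CL.Grp.mem_pPrimeCore_of_centralizes hs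
      (CL.Grp.coprime_orderOf_of_mem_sylow hpq Q hy) fun u hu => ?_
    obtain ⟨k, hk⟩ := IsPGroup.iff_orderOf.mp Q.2 ⟨y, hy⟩
    obtain ⟨P, hP⟩ := CL.Grp.exists_sylow_le_of_not_dvd_index
      (h y ⟨k, by rw [← hk, Subgroup.orderOf_mk]⟩)
    obtain ⟨v, hv, rfl⟩ := CL.Grp.pCore_le_sylow
      (P.mapSurjective (QuotientGroup.mk'_surjective (Cfsg.pPrimeCore p G))) hu
    exact congrArg (QuotientGroup.mk' (Cfsg.pPrimeCore p G))
      (Subgroup.mem_centralizer_singleton_iff.mp (hP hv))
  · exact CL.Grp.exists_sylow_normalizes_of_qSolvable G hs h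

end Cfsg.Agent.S4601
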