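import Cfsg.Statements.S4604
import Cfsg.Agent.Char.PiSection2
import Cfsg.Agent.Char.Congruence
import Cfsg.Agent.Blk.TildeInt

set_option autoImplicit false
open Cfsg

namespace Cfsg.Agent.S4604

/-- Let G be a finite group, p a prime and p^a the p-part of the order of G. Let x, y ∈ G and let x′, y′ be their p-regular parts: x′ has order prime to p, commutes with x·x′⁻¹, and x·x′⁻¹ has p-power order (likewise for y). Then x′ and y′ are conjugate in G if and only if for every irreducible character χ of G the algebraic integer χ(x)^(p^a) − χ(y)^(p^a) is p times an algebraic integer. -/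
theorem result {G : Type*} [Group G] [Finite G] (p : ℕ) [Fact p.Prime] (x y x' y' : G)
    (hx : (∃ k : ℕ, orderOf (x * x'⁻¹) = p ^ k) ∧ Commute (x * x'⁻¹) x' ∧ ¬ p ∣ orderOf x')
    (hy : (∃ k : ℕ, orderOf (y * y'⁻¹) = p ^ k) ∧ Commute (y * y'⁻¹) y' ∧ ¬ p ∣ orderOf y') :
    IsConj x' y' ↔ ∀ χ : Cfsg.IrrCharacter G, ∃ γ : Cfsg.AlgInt,
      (χ : G → ℂ) x ^ (p ^ (Nat.card G).factorization p) - (χ : G → ℂ) y ^ (p ^ (Nat.card G).factorization p) = (p : ℂ) * (γ : ℂ) := by
  have hp : p.Prime := Fact.out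
  have key : ∀ x x' : G, ((∃ k : ℕ, orderOf (x * x'⁻¹) = p ^ k) ∧ Commute (x * x'⁻¹) x' ∧
      ¬ p ∣ orderOf x') → x ^ p ^ (Nat.card G).factorization p =
        x' ^ p ^ (Nat.card G).factorization p ∧ CL.Fgs.piPart ({p}ᶜ : Set ℕ) x = x' := by
    rintro x x' ⟨⟨k, hk⟩, hc, hx'⟩
    constructor
    · have h1 : (x * x'⁻¹) ^ p ^ (Nat.card G).factorization p = 1 := by
        rw [← orderOf_dvd_iff_pow_eq_one, hk]
        exact Nat.pow_dvd_pow _ ((hp.pow_dvd_iff_le_factorization Nat.card_pos.ne').1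
          (hk ▸ orderOf_dvd_natCard _))
      conv_lhs => rw [← inv_mul_cancel_right x x', hc.mul_pow, h1, one_mul]
    · rw [(CL.Char.piPart_eq_of_isPPart hp (a := x * x'⁻¹)
        ⟨x', inv_mul_cancel_right x x', hc, ⟨k, hk⟩, hx'⟩).2]
      group
  obtain ⟨h1, h2⟩ := key x x' hx
  obtain ⟨h3, h4⟩ := key y y' hy
  constructor
  · intro h χ
    have h5 := CL.Char.isChar_congMod_pow χ.2.isCharacter hp x ((Nat.card G).factorization p)
    have h6 := CL.Char.isChar_congMod_pow χ.2.isCharacter hp y ((Nat.card G).factorization p)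
    rw [h1, χ.2.isClassFunction.apply_eq_of_isConj (h.pow _), ← h3] at h5
    obtain ⟨r, hr, h7⟩ := h5.trans h6.symm
    exact ⟨⟨r, hr⟩, by rw [h7]; ring⟩
  · intro h
    obtain ⟨M, hM⟩ := CL.Blk.exists_isPModular hp
    rw [← h2, ← h4, CL.Char.isConj_piPart_iff_val hM]
    intro χ
    obtain ⟨γ, hγ⟩ := h χ
    obtain ⟨r, hr, h5⟩ := CL.Char.congMod_sub_pow hp (CL.Char.isChar_isIntegral χ.2.isCharacter x)
      (CL.Char.isChar_isIntegral χ.2.isCharacter y) ((Nat.card G).factorization p)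
    rw [hγ, ← mul_add] at h5
    have h6 := congrArg (CL.Blk.val M) h5
    rw [map_pow, map_mul] at h6
    have h7 := (CL.Blk.val_natCast_lt_one_iff hM p).2 dvd_rfl
    have h8 := CL.Blk.val_le_one_iff.2 (CL.Blk.mem_valRing_of_isIntegral M (γ.2.add hr))
    by_contra h9
    rw [not_lt] at h9
    have h10 := one_le_pow₀ (n := p ^ (Nat.card G).factorization p) h9
    rw [h6] at h10
    exact absurd (mul_lt_one_of_nonneg_of_lt_one_left zero_le h7 h8) (not_lt.2 h10)

end Cfsg.Agent.S4604
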