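import Cfsg.Statements.S4611
import Cfsg.Agent.Blk.FongP2

set_option autoImplicit false
open Cfsg

namespace Cfsg.Agent.S4611

/-- Let G be a finite solvable group and π a nonempty set of primes, each dividing the order of G; fix for each p in π a maximal ideal M p of the algebraic integers containing p. Then the only irreducible character lying in the principal p-block for every p in π is the principal character if and only if G is generated by the subgroups O_{p'}(G), p in π (the largest normal subgroups of order prime to p). -/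
theorem result {G : Type*} [Group G] [Finite G] [Group.IsSolvable G] (π : Set ℕ) (hπ : ∀ p ∈ π, p.Prime ∧ p ∣ Nat.card G) (hne : π.Nonempty) (M : ℕ → Ideal Cfsg.AlgInt) (hM : ∀ p ∈ π, Cfsg.IsPModular p (M p)) :
    (∀ χ : Cfsg.IrrCharacter G, (∀ p ∈ π, χ ∈ Cfsg.principalBlock (M p) G) → (χ : G → ℂ) = fun _ => 1) ↔
      ⨆ p ∈ π, Cfsg.pPrimeCore p G = ⊤ := by
  have key : ∀ χ : IrrCharacter G, (∀ p ∈ π, χ ∈ principalBlock (M p) G) ↔
      ⨆ p ∈ π, pPrimeCore p G ≤ CL.Char.charKer (χ : G → ℂ) := by
    intro χ
    simp only [iSup_le_iff]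
    refine forall₂_congr fun p hp => ?_
    have : Fact p.Prime := ⟨(hπ p hp).1⟩
    rw [CL.Blk.mem_principalBlock_iff_of_isPConstrained (hM p hp)
      (CL.Loc.isPConstrained_of_isSolvable inferInstance)]
    exact forall₂_congr fun n _ => χ.2.isCharacter.mem_charKer.symm
  constructor
  · intro h
    have : (⨆ p ∈ π, pPrimeCore p G).Normal := inferInstance
    rw [eq_top_iff]
    intro g _
    rw [← QuotientGroup.eq_one_iff, ← isConj_one_left, CL.Char.isConj_iff_forall_irr]
    intro χ
    have h1 := h (CL.Blk.inflIrr _ χ) ((key _).2 (CL.Blk.le_charKer_inflIrr χ))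
    have h2 := congrFun h1 g
    have h3 := congrFun h1 1
    rw [CL.Blk.inflIrr_apply] at h2
    rw [CL.Blk.inflIrr_apply_one] at h3
    rw [h2, h3]
  · intro h χ hχ
    have h1 := (key χ).1 hχ
    rw [h] at h1
    have h2 : (χ : G → ℂ) 1 = 1 := χ.2.one_eq_one_iff.2 (le_top.trans h1)
    funext g
    rw [← h2]
    exact χ.2.isCharacter.mem_charKer.1 (h1 (Subgroup.mem_top g))

end Cfsg.Agent.S4611
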