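import Cfsg.Statements.S4620
import Cfsg.Agent.Grp.AbelIndex

set_option autoImplicit false
open scoped Pointwise
open Cfsg

namespace Cfsg.Agent.S4620

/-- Let H be a finite group with no nontrivial normal p-subgroup and no nontrivial normal subgroup of order prime to p, whose Sylow p-subgroup P is nontrivial and a trivial-intersection set (P meets its conjugates by elements outside N_H(P) trivially). Then H has a unique minimal normal subgroup N; N is non-abelian simple with trivial centralizer in H (so H embeds in Aut(N)), and a Sylow p-subgroup of N is again a nontrivial trivial-intersection set in N. -/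
theorem result {H : Type*} [Group H] [Finite H] (p : ℕ) [Fact p.Prime] (hOp : Cfsg.pCore p H = ⊥) (hOp' : Cfsg.pPrimeCore p H = ⊥) (P : Sylow p H) (hP1 : (P : Subgroup H) ≠ ⊥)
    (hTI : ∀ g : H, g ∉ Subgroup.normalizer ((P : Subgroup H) : Set H) → (P : Subgroup H) ⊓ (MulAut.conj g • (P : Subgroup H)) = ⊥) :
    ∃ N : Subgroup H, N.Normal ∧ N ≠ ⊥ ∧ (∀ K : Subgroup H, K.Normal → K ≠ ⊥ → N ≤ K) ∧
      IsSimpleGroup N ∧ ¬ IsMulCommutative N ∧ Subgroup.centralizer (N : Set H) = ⊥ ∧
      ∀ Q : Sylow p N, (Q : Subgroup N) ≠ ⊥ ∧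
        ∀ n : N, n ∉ Subgroup.normalizer ((Q : Subgroup N) : Set N) → (Q : Subgroup N) ⊓ (MulAut.conj n • (Q : Subgroup N)) = ⊥ := by
  have key := fun {N A B : Subgroup H} [N.Normal] =>
    CL.Grp.eq_bot_of_commute_of_TI hOp hOp' P hTI (N := N) (A := A) (B := B)
  haveI : Nontrivial H := by
    by_contra h
    haveI := not_nontrivial_iff_subsingleton.mp h
    exact hP1 (Subsingleton.elim _ _)
  obtain ⟨N, hN⟩ := CL.Grp.exists_isMinNormal H
  haveI := hN.normal
  have hcent : Subgroup.centralizer (N : Set H) = ⊥ :=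
    key (N := ⊤) le_top le_top Subgroup.le_normalizer_of_normal Subgroup.le_normalizer_of_normal
      (Subgroup.commutator_eq_bot_iff_le_centralizer.mpr
        (Subgroup.le_centralizer_iff.mp le_rfl)) hN.ne_bot
  have hdvd : p ∣ Nat.card N := by
    by_contra h
    exact hN.ne_bot (le_bot_iff.mp (hOp' ▸ CL.Grp.le_pPrimeCore_of_not_dvd h))
  refine ⟨N, hN.normal, hN.ne_bot, fun K hK hK1 => ?_, ?_, fun h => ?_, hcent, fun Q => ⟨?_, ?_⟩⟩
  · refine (hN.le_or_commutator_eq_bot K).resolve_right fun h => hK1 ?_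
    rw [Subgroup.commutator_comm, Subgroup.commutator_eq_bot_iff_le_centralizer, hcent] at h
    exact le_bot_iff.mp h
  · haveI := hN.nontrivial
    refine ⟨fun L hL => ?_⟩
    by_cases hL1 : L = ⊥
    · exact Or.inl hL1
    right
    obtain ⟨K, hK, hKL⟩ := CL.Grp.exists_isMinNormal_le L hL1
    haveI := hK.normal
    have hK1 : K.map N.subtype ≠ ⊥ := fun e =>
      hK.ne_bot ((Subgroup.map_eq_bot_iff_of_injective _ N.subtype_injective).mp e)
    have h1 : (K.map N.subtype).Normal := by
      rw [← Subgroup.normalizer_eq_top_iff, Subgroup.eq_top_iff']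
      intro g
      have h2 := hK.map_equiv (MulAut.conjNormal g : N ≃* N)
      haveI := h2.normal
      by_cases e : K = K.map ((MulAut.conjNormal g : N ≃* N) : N →* N)
      · refine Subgroup.mem_normalizer_fintype ?_
        rintro _ ⟨x, hx, rfl⟩
        exact ⟨MulAut.conjNormal g x, e ▸ ⟨x, e ▸ hx, rfl⟩, rfl⟩
      · exfalso
        have h3 := congrArg (Subgroup.map N.subtype) (hK.commutator_eq_bot_of_ne h2 e)
        rw [Subgroup.map_commutator, Subgroup.map_bot] at h3
        have h4 := key (Subgroup.map_subtype_le _) (Subgroup.map_subtype_le _)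
          (CL.Grp.le_normalizer_map_subtype _) (CL.Grp.le_normalizer_map_subtype _) h3 hK1
        exact h2.ne_bot ((Subgroup.map_eq_bot_iff_of_injective _ N.subtype_injective).mp h4)
    have h2 := hN.eq_of_le hK1 (Subgroup.map_subtype_le _)
    rw [eq_top_iff]
    intro x _
    obtain ⟨y, hy, e⟩ := h2.ge x.2
    exact hKL (Subtype.ext e ▸ hy)
  · apply hN.ne_bot
    rw [eq_bot_iff, ← hcent]
    exact Subgroup.le_centralizer N
  · exact Q.ne_bot_of_dvd_card hdvd
  · intro n hn
    obtain ⟨P₁, hP₁⟩ := (CL.Grp.isSylowIn_map_subtype Q).exists_sylow_inf_eq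
    obtain ⟨g, rfl⟩ := MulAction.exists_smul_eq H P P₁
    rw [eq_bot_iff]
    rintro x ⟨hx, y, hy, e⟩
    by_contra hx1
    apply hn
    have hmem : ∀ z : N, z ∈ (Q : Subgroup N) ↔ g⁻¹ * z * g ∈ (P : Subgroup H) := by
      intro z
      rw [← CL.Grp.mem_conj_smul_iff]
      constructor
      · intro hz
        exact (hP₁.ge ⟨z, hz, rfl⟩).1
      · intro hz
        obtain ⟨w, hw, e⟩ := hP₁.le ⟨hz, z.2⟩
        exact Subtype.ext e ▸ hw
    have h1 : g⁻¹ * n * g ∈ Subgroup.normalizer ((P : Subgroup H) : Set H) := by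
      by_contra h1
      have h2 : g⁻¹ * x * g ∈ (P : Subgroup H) ⊓ (MulAut.conj (g⁻¹ * n * g) • (P : Subgroup H)) := by
        refine ⟨(hmem x).mp hx, g⁻¹ * y * g, (hmem y).mp hy, ?_⟩
        rw [← e]
        change g⁻¹ * n * g * (g⁻¹ * y * g) * (g⁻¹ * n * g)⁻¹ = g⁻¹ * (n * y * (n : H)⁻¹) * g
        group
      rw [hTI _ h1, Subgroup.mem_bot] at h2
      apply hx1
      rw [Subgroup.mem_bot]
      apply Subtype.ext
      have : (x : H) = g * (g⁻¹ * x * g) * g⁻¹ := by group
      rw [this, h2]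
      simp
    refine Subgroup.mem_normalizer_fintype fun z hz => (hmem _).mpr ?_
    have h2 := (Subgroup.mem_normalizer_iff.mp h1 _).mp ((hmem z).mp hz)
    convert h2 using 1
    push_cast
    group

end Cfsg.Agent.S4620
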