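import Cfsg.Statements.S4742
import Cfsg.Agent.Blk.Robinson

set_option autoImplicit false
open Cfsg

namespace Cfsg.Agent.S4742

/-- Let p ≠ q be primes dividing the order of the finite group G, and suppose the centralizer of every non-identity p-element of G has order prime to q. Then either G has an irreducible character of p-defect zero, or for every non-identity q-element z of G there are conjugates g, h of z such that g h⁻¹ is a non-identity p-element. -/
theorem result {G : Type*} [Group G] [Finite G] (p q : ℕ) [Fact p.Prime] [Fact q.Prime] (hppq : p ≠ q) (hpG : p ∣ Nat.card G) (hqG : q ∣ Nat.card G) (hC : ∀ g : G, g ≠ 1 → (∃ k : ℕ, orderOf g = p ^ k) → ¬ q ∣ Nat.card ↥(Subgroup.centralizer ({g} : Set G))) : (∃ χ : Cfsg.IrrCharacter G, (Cfsg.charDegree (χ : G → ℂ)).factorization p = (Nat.card G).factorization p) ∨ ∀ z : G, z ≠ 1 → (∃ k : ℕ, orderOf z = q ^ k) → ∃ g h : G, IsConj z g ∧ IsConj z h ∧ g * h⁻¹ ≠ 1 ∧ ∃ k : ℕ, orderOf (g * h⁻¹) = p ^ k := by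
  rw [or_iff_not_imp_left]
  intro h z hz1 ⟨k, hk⟩
  have hp : p.Prime := Fact.out
  obtain ⟨y, w, hy, hw, ho⟩ := CL.Blk.exists_orderOf_eq_of_no_defect_zero h (x := z) (by
    intro hd
    obtain ⟨g, hg⟩ := exists_prime_orderOf_dvd_card' p hd
    have hg' : orderOf (g : G) = p := by rw [Subgroup.orderOf_coe, hg]
    refine hC g (fun h1 => ?_) ⟨1, by rw [hg', pow_one]⟩ ?_
    · rw [h1, orderOf_one] at hg'
      exact hp.ne_one hg'.symm
    · refine Dvd.dvd.trans ?_ (Subgroup.orderOf_dvd_natCard _
        (Subgroup.mem_centralizer_singleton_iff.2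
          (Subgroup.mem_centralizer_singleton_iff.1 g.2).symm))
      rcases k with _ | k
      · exact absurd (orderOf_eq_one_iff.1 (by simpa using hk)) hz1
      · exact hk ▸ dvd_pow_self q k.succ_ne_zero)
  refine ⟨w, y, hw, hy, fun h1 => ?_, 1, by rw [ho, pow_one]⟩
  rw [h1, orderOf_one] at ho
  exact hp.ne_one ho.symm

end Cfsg.Agent.S4742
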