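import Cfsg.Statements.S4743
import Cfsg.Agent.Blk.Robinson
import Cfsg.Agent.Grp.Cores

set_option autoImplicit false
open Cfsg

namespace Cfsg.Agent.S4743

theorem aux {G : Type*} [Group G] [Finite G] {p q : ℕ} [Fact p.Prime] [Fact q.Prime]
    (hC : ∀ a b : G, orderOf a = p → orderOf b = q → a * b ≠ b * a)
    (h : ¬ ∃ χ : Cfsg.IrrCharacter G,
      (Cfsg.charDegree (χ : G → ℂ)).factorization p = (Nat.card G).factorization p)
    (N : Subgroup G) [hN : N.Normal] (hq : q ∣ Nat.card N) : p ∣ Nat.card N := by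
  obtain ⟨z, hz⟩ := exists_prime_orderOf_dvd_card' q hq
  obtain ⟨y, w, hy, hw, ho⟩ := CL.Blk.exists_orderOf_eq_of_no_defect_zero h (x := (z : G)) (by
    intro hd
    obtain ⟨g, hg⟩ := exists_prime_orderOf_dvd_card' p hd
    exact hC g z (by rw [Subgroup.orderOf_coe, hg]) (by rw [Subgroup.orderOf_coe, hz])
      (Subgroup.mem_centralizer_singleton_iff.1 g.2))
  obtain ⟨c, rfl⟩ := isConj_iff.1 hy
  obtain ⟨d, rfl⟩ := isConj_iff.1 hw
  exact ho ▸ Subgroup.orderOf_dvd_natCard N
    (mul_mem (hN.conj_mem _ z.2 d) (inv_mem (hN.conj_mem _ z.2 c)))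

theorem aux2 {G : Type*} [Group G] [Finite G] {p q : ℕ} (hp : p.Prime) (hq : q.Prime)
    (hpq : p ≠ q) (h : ∀ N : Subgroup G, N.Normal → (p ∣ Nat.card N ↔ q ∣ Nat.card N))
    (hs : Cfsg.IsPSolvable p G) : ¬ p ∣ Nat.card G := by
  obtain ⟨n, H, h0, h1, hm, hn, hf⟩ := hs
  have key : ∀ i : Fin (n + 1), ¬ p ∣ Nat.card (H i) := by
    intro i
    induction i using Fin.induction with
    | zero => rw [h0, Subgroup.card_bot]; exact hp.not_dvd_one
    | succ i ih =>
      intro hd
      have hd' := (h _ (hn _)).1 hd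
      have ih' := mt (h _ (hn _)).2 ih
      rw [← CL.Grp.card_mul_relIndex (hm (Fin.castSucc_lt_succ (i := i)).le)] at hd hd'
      rcases hf i with ⟨m, hm⟩ | hc
      · have := (hq.dvd_mul.1 hd').resolve_left ih'
        rw [hm] at this
        exact hpq ((Nat.prime_dvd_prime_iff_eq hq hp).1 (hq.dvd_of_dvd_pow this)).symm
      · exact (hp.coprime_iff_not_dvd.1 hc.symm) ((hp.dvd_mul.1 hd).resolve_left ih)
  have := key (Fin.last n)
  rwa [h1, Subgroup.card_top] at this

/-- Let p ≠ q be primes dividing the order of the finite group G, suppose the centralizer of every non-identity p-element has order prime to q, and suppose G is p-solvable or q-solvable. Then G has an irreducible character of p-defect zero or an irreducible character of q-defect zero. -/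
theorem result {G : Type*} [Group G] [Finite G] (p q : ℕ) [Fact p.Prime] [Fact q.Prime] (hppq : p ≠ q) (hpG : p ∣ Nat.card G) (hqG : q ∣ Nat.card G) (hC : ∀ g : G, g ≠ 1 → (∃ k : ℕ, orderOf g = p ^ k) → ¬ q ∣ Nat.card ↥(Subgroup.centralizer ({g} : Set G))) (hsolv : Cfsg.IsPSolvable p G ∨ Cfsg.IsPSolvable q G) : (∃ χ : Cfsg.IrrCharacter G, (Cfsg.charDegree (χ : G → ℂ)).factorization p = (Nat.card G).factorization p) ∨ (∃ χ : Cfsg.IrrCharacter G, (Cfsg.charDegree (χ : G → ℂ)).factorization q = (Nat.card G).factorization q) := by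
  by_contra hcon
  rw [not_or] at hcon
  have hp : p.Prime := Fact.out
  have hC' : ∀ a b : G, orderOf a = p → orderOf b = q → a * b ≠ b * a := by
    intro a b ha hb hab
    refine hC a (fun h1 => hp.ne_one (by rw [← ha, h1, orderOf_one])) ⟨1, by rw [ha, pow_one]⟩ ?_
    exact hb ▸ Subgroup.orderOf_dvd_natCard _
      (Subgroup.mem_centralizer_singleton_iff.2 hab.symm)
  have h1 : ∀ N : Subgroup G, N.Normal → (p ∣ Nat.card N ↔ q ∣ Nat.card N) := fun N _ =>
    ⟨aux (fun a b ha hb hab => hC' b a hb ha hab.symm) hcon.2 N, aux hC' hcon.1 N⟩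
  rcases hsolv with hs | hs
  · exact aux2 hp Fact.out hppq h1 hs hpG
  · exact aux2 Fact.out hp hppq.symm (fun N hN => (h1 N hN).symm) hs hqG

end Cfsg.Agent.S4743
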