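import Cfsg.Statements.S4746
import Cfsg.Agent.Blk.DefZero

set_option autoImplicit false
open Cfsg

namespace Cfsg.Agent.S4746

/-- Let p be an odd prime and G a finite group of even order divisible by p in which the centralizer of every non-identity p-element has odd order. Then G has an irreducible character of p-defect zero or an irreducible character of even degree. -/
theorem result {G : Type*} [Group G] [Finite G] (p : ℕ) [Fact p.Prime] (hp2 : p ≠ 2) (hpG : p ∣ Nat.card G) (h2G : 2 ∣ Nat.card G) (hC : ∀ g : G, g ≠ 1 → (∃ k : ℕ, orderOf g = p ^ k) → Odd (Nat.card ↥(Subgroup.centralizer ({g} : Set G)))) : (∃ χ : Cfsg.IrrCharacter G, (Cfsg.charDegree (χ : G → ℂ)).factorization p = (Nat.card G).factorization p) ∨ ∃ χ : Cfsg.IrrCharacter G, Even (Cfsg.charDegree (χ : G → ℂ)) := by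
  classical
  rw [or_iff_not_imp_left]
  intro h
  by_contra hodd
  simp only [not_exists, Nat.not_even_iff_odd] at hodd
  obtain ⟨t, ht⟩ := exists_prime_orderOf_dvd_card' (G := G) 2 h2G
  obtain ⟨u, hu, htu⟩ := CL.Blk.dz_exists_inverted hC h ht
  have hu1 : u ≠ 1 := by
    rintro rfl
    exact (Fact.out : p.Prime).ne_one (by rw [← hu, orderOf_one])
  obtain ⟨M, hM⟩ := CL.Blk.exists_isPModular' Nat.prime_two
  haveI := CL.Blk.charP_resField hM
  have h1 := congrArg (CL.Blk.red M) (CL.Char.sum_irr_one_mul_apply u)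
  have h2 := congrArg (CL.Blk.red M) (CL.Char.sum_irr_mul_conj_self u)
  rw [CL.Char.regChar_of_ne_one hu1, CL.Blk.red_zero, CL.Blk.red_sum _ _ fun χ _ =>
    mul_mem (CL.Blk.irr_mem_valRing χ _) (CL.Blk.irr_mem_valRing χ _)] at h1
  have h3 : ∀ χ : Cfsg.IrrCharacter G, (starRingEnd ℂ) ((χ : G → ℂ) u) = (χ : G → ℂ) u := by
    intro χ
    rw [← CL.Blk.dualIrr_apply_conj, CL.Blk.dualIrr_apply, ← htu]
    exact χ.2.isClassFunction u t
  simp only [h3] at h2
  rw [CL.Blk.red_sum _ _ fun χ _ =>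
    mul_mem (CL.Blk.irr_mem_valRing χ _) (CL.Blk.irr_mem_valRing χ _), CL.Blk.red_natCast] at h2
  have h4 : ∀ χ : Cfsg.IrrCharacter G, CL.Blk.red M ((χ : G → ℂ) 1 * (χ : G → ℂ) u) =
      CL.Blk.red M ((χ : G → ℂ) u) := by
    intro χ
    obtain ⟨k, hk⟩ := hodd χ
    rw [CL.Blk.red_mul (CL.Blk.irr_mem_valRing χ _) (CL.Blk.irr_mem_valRing χ _),
      ← CL.Blk.charDegree_cast_irr, CL.Blk.red_natCast, hk]
    push_cast
    rw [CharTwo.two_eq_zero, zero_mul, zero_add, one_mul]
  simp only [h4] at h1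
  simp only [CL.Blk.red_mul (CL.Blk.irr_mem_valRing _ _) (CL.Blk.irr_mem_valRing _ _)] at h2
  rw [← CharTwo.sum_mul_self, h1, mul_zero, eq_comm, CL.Blk.natCast_resField_eq_zero_iff hM] at h2
  exact Nat.not_even_iff_odd.2 (hC u hu1 ⟨1, by rw [hu, pow_one]⟩) (even_iff_two_dvd.2 h2)

end Cfsg.Agent.S4746
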