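import Cfsg.Statements.S4748
import Cfsg.Agent.Char.TISmall
import Cfsg.Agent.Char.Linear
import Cfsg.Agent.Loc.FFHol

set_option autoImplicit false
open scoped Pointwise
open Cfsg

namespace Cfsg.Agent.S4748

/-- Let G be a finite p-solvable group whose Sylow p-subgroup P meets each conjugate g P g⁻¹ with g outside N_G(P) trivially, and let χ be a faithful character of G (χ g = χ 1 only for g = 1) whose degree d satisfies d² ≤ |P|. Then P is normal in G. -/
theorem result {G : Type*} [Group G] [Finite G] (p : ℕ) [Fact p.Prime] (hsolv : Cfsg.IsPSolvable p G) (P : Sylow p G) (hTI : ∀ g : G, g ∉ Subgroup.normalizer ((P : Subgroup G) : Set G) → (P : Subgroup G) ⊓ (MulAut.conj g • (P : Subgroup G)) = ⊥) (χ : G → ℂ) (hχ : Cfsg.IsCharacter G χ) (hfaith : ∀ g : G, χ g = χ 1 → g = 1) (hdeg : Cfsg.charDegree χ ^ 2 ≤ Nat.card ↥(P : Subgroup G)) : (P : Subgroup G).Normal := by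
  classical
  letI := Fintype.ofFinite G
  by_contra hn
  have hne : (P : Subgroup G) ≠ ⊥ := fun e => hn (e ▸ inferInstance)
  obtain ⟨g, hg⟩ : ∃ g, g ∉ Subgroup.normalizer ((P : Subgroup G) : Set G) := by
    by_contra h
    push Not at h
    exact hn (Subgroup.normalizer_eq_top_iff.mp (eq_top_iff.mpr fun g _ => h g))
  have hO : pCore p G = ⊥ :=
    le_bot_iff.mp ((le_inf (CL.Grp.pCore_le_sylow P) (CL.Grp.pCore_le_sylow (g • P))).trans (hTI g hg).le)
  have hC := CL.Loc.centralizer_pPrimeCore_le_of_isPSolvable hsolv hO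
  set K := pPrimeCore p G with hK
  have hKP : ∀ x ∈ K, x ∈ (P : Subgroup G) → x = 1 := fun x hx hx' =>
    Subgroup.mem_bot.mp ((CL.Grp.inf_pPrimeCore_eq_bot P.isPGroup').le ⟨hx', hx⟩)
  haveI : Nontrivial (P : Subgroup G) := (Subgroup.nontrivial_iff_ne_bot _).mpr hne
  haveI := P.isPGroup'.center_nontrivial
  obtain ⟨⟨z, hz⟩, hz1⟩ := exists_ne (1 : Subgroup.center (P : Subgroup G))
  refine hz1 (Subtype.ext (Subtype.ext (hKP z (hC ?_) z.2)))
  set L := K ⊔ (P : Subgroup G) with hL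
  have hPL : (P : Subgroup G) ≤ L := le_sup_right
  set H := (Subgroup.normalizer ((P : Subgroup G) : Set G)).subgroupOf L with hH
  have hzH : (⟨z, hPL z.2⟩ : L) ∈ H := Subgroup.le_normalizer z.2
  have hcen : (⟨_, hzH⟩ : H) ∈ Subgroup.center H := by
    rw [Subgroup.mem_center_iff]
    rintro ⟨⟨h, hhL⟩, hh⟩
    obtain ⟨k, hk, y, hy, rfl⟩ := Subgroup.mem_sup_of_normal_left.mp hhL
    have hkN : k ∈ Subgroup.normalizer ((P : Subgroup G) : Set G) :=
      (Subgroup.mul_mem_cancel_right _ (Subgroup.le_normalizer hy)).mp hh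
    have h1 : k * z * k⁻¹ * (z : G)⁻¹ = 1 := by
      refine hKP _ ?_ (mul_mem ((Subgroup.mem_normalizer_iff.mp hkN _).mp z.2) (inv_mem z.2))
      rw [mul_assoc, mul_assoc, ← mul_assoc (z : G)]
      exact mul_mem hk (Subgroup.Normal.conj_mem inferInstance _ (inv_mem hk) _)
    have h2 : y * z = z * y := congrArg Subtype.val (Subgroup.mem_center_iff.mp hz ⟨y, hy⟩)
    refine Subtype.ext (Subtype.ext ?_)
    change k * y * z = z * (k * y)
    rw [mul_inv_eq_one, mul_inv_eq_iff_eq_mul] at h1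
    rw [mul_assoc, h2, ← mul_assoc, h1, mul_assoc]
  have hres := hχ.restrict L
  intro k hk
  have hker : (⟨z, hPL z.2⟩ * ⟨k, Subgroup.mem_sup_left hk⟩ * (⟨z, hPL z.2⟩ : L)⁻¹ *
      (⟨k, Subgroup.mem_sup_left hk⟩ : L)⁻¹ : L) ∈ CL.Char.charKer fun x : L => χ x := by
    rw [hres.mem_charKer_iff_forall]
    intro ψ hψ hne'
    refine CL.Char.commutator_mem_charKer_of_mem_charCenter hψ.isClassFunction ?_ _
    have hd : charDegree ψ ^ 2 ≤ Nat.card ((P : Subgroup G).subgroupOf L) := by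
      rw [Nat.card_congr (Subgroup.subgroupOfEquivOfLe hPL).toEquiv]
      exact (Nat.pow_le_pow_left (hres.charDegree_le_of_classInner_ne_zero hψ hne') 2).trans hdeg
    have h1 := CL.Char.classInner_res_eq_of_free (H := H) (P := (P : Subgroup G).subgroupOf L) P.isPGroup'.comap_subtype
      (Subgroup.subgroupOf_mono L Subgroup.le_normalizer)
      (fun u hu x hx => (CL.Char.mem_of_TI P hTI le_rfl hu x hx).imp_left Subtype.ext)
      (fun e => hne (le_bot_iff.mp fun x hx => Subgroup.mem_bot.mpr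
        (congrArg Subtype.val (Subgroup.mem_bot.mp (e.le (show (⟨x, hPL hx⟩ : L) ∈ _ from hx))))))
      hψ.isCharacter hd
    rw [hψ.classInner_self] at h1
    have h2 := (hψ.isCharacter.restrict H).isIrrCharacter_of_norm_one h1.symm
    exact hψ.isCharacter.mem_charCenter.mpr (h2.isCharacter.mem_charCenter.mp (h2.center_le_charCenter hcen))
  have h3 := hfaith _ (hres.mem_charKer.mp hker)
  exact (mul_inv_eq_iff_eq_mul.mp (mul_inv_eq_one.mp h3)).symm

end Cfsg.Agent.S4748
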