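import Cfsg.Statements.S4755
import Cfsg.Agent.Char.SchurAvg
import Cfsg.Agent.Char.Linear

set_option autoImplicit false
open Cfsg

namespace Cfsg.Agent.S4755

/-- Let x, y be non-identity elements of the finite group G such that χ(x' y') = χ(x') χ(y') for all conjugates x' of x, y' of y and every irreducible character χ. Then the conjugacy class of x y is the set of all products of a conjugate of x with a conjugate of y; every irreducible character of degree greater than 1 vanishes at x y; and the conjugacy class of x y is the coset of the commutator subgroup containing x y. -/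
theorem result {G : Type*} [Group G] [Finite G] (x y : G) (hx : x ≠ 1) (hy : y ≠ 1) (h : ∀ (a b : G) (χ : Cfsg.IrrCharacter G), (χ : G → ℂ) (a * x * a⁻¹ * (b * y * b⁻¹)) = (χ : G → ℂ) (a * x * a⁻¹) * (χ : G → ℂ) (b * y * b⁻¹)) : (∀ z : G, IsConj (x * y) z ↔ ∃ a b : G, z = a * x * a⁻¹ * (b * y * b⁻¹)) ∧ (∀ χ : Cfsg.IrrCharacter G, (χ : G → ℂ) 1 ≠ 1 → (χ : G → ℂ) (x * y) = 0) ∧ (∀ z : G, IsConj (x * y) z ↔ (x * y)⁻¹ * z ∈ commutator G) := by
  classical
  have := Fintype.ofFinite G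
  have hc : ∀ (a b : G) (χ : IrrCharacter G), (χ : G → ℂ) (a * x * a⁻¹ * (b * y * b⁻¹)) =
      (χ : G → ℂ) x * (χ : G → ℂ) y := fun a b χ => by
    rw [h, χ.2.isClassFunction, χ.2.isClassFunction]
  have hxy : ∀ χ : IrrCharacter G, (χ : G → ℂ) (x * y) = (χ : G → ℂ) x * (χ : G → ℂ) y :=
    fun χ => by simpa using hc 1 1 χ
  have hzero : ∀ χ : IrrCharacter G, (χ : G → ℂ) 1 ≠ 1 → (χ : G → ℂ) (x * y) = 0 := by
    intro χ hχ
    have h1 := CL.Char.schurAvg_sum_char_conj_mul χ.2 x y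
    have h2 : ∀ g : G, (χ : G → ℂ) (g * x * g⁻¹ * y) = (χ : G → ℂ) x * (χ : G → ℂ) y :=
      fun g => by simpa using hc g 1 χ
    simp only [h2, Finset.sum_const, Finset.card_univ, nsmul_eq_mul, ← Nat.card_eq_fintype_card] at h1
    have h3 : (Nat.card G : ℂ) ≠ 0 := CL.Char.natCard_ne_zero
    have h4 := χ.2.one_ne_zero
    rw [hxy]
    field_simp at h1
    have h5 : ((χ : G → ℂ) 1 - 1) * ((χ : G → ℂ) x * (χ : G → ℂ) y) = 0 := by
      linear_combination h1
    exact (mul_eq_zero.1 h5).resolve_left (sub_ne_zero.2 hχ)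
  refine ⟨fun z => ⟨fun hz => ?_, ?_⟩, hzero, fun z => ⟨fun hz => ?_, fun hz => ?_⟩⟩
  · obtain ⟨c, rfl⟩ := isConj_iff.1 hz
    exact ⟨c, c, by group⟩
  · rintro ⟨a, b, rfl⟩
    rw [CL.Char.isConj_iff_forall_irr]
    intro χ
    rw [hc, hxy]
  · obtain ⟨c, rfl⟩ := isConj_iff.1 hz
    have : (x * y)⁻¹ * (c * (x * y) * c⁻¹) = (x * y)⁻¹ * c * (x * y)⁻¹⁻¹ * c⁻¹ := by group
    rw [this]
    exact Subgroup.commutator_mem_commutator (Subgroup.mem_top _) (Subgroup.mem_top _)
  · by_contra hn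
    have h1 := CL.Char.sum_irr_mul_conj_of_not_isConj (fun h' => hn h'.symm : ¬ IsConj z (x * y))
    have h2 := CL.Char.sum_irr_mul_conj_self (x * y)
    have h3 : ∀ χ : IrrCharacter G, (χ : G → ℂ) z * (starRingEnd ℂ) ((χ : G → ℂ) (x * y)) =
        (χ : G → ℂ) (x * y) * (starRingEnd ℂ) ((χ : G → ℂ) (x * y)) := by
      intro χ
      by_cases h1 : (χ : G → ℂ) 1 = 1
      · have h4 := CL.Char.commutator_le_charKer_of_one_eq_one χ.2.isCharacter h1 hz
        have h5 := CL.Char.apply_mul_of_mem_charKer h4 (x * y)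
        rw [χ.2.isCharacter.mul_comm, mul_inv_cancel_left] at h5
        rw [h5]
      · rw [hzero χ h1]; simp
    simp only [h3] at h1
    rw [h1] at h2
    exact CL.Char.natCard_ne_zero h2.symm

end Cfsg.Agent.S4755
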