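import Cfsg.Statements.S4757
import Cfsg.Agent.Char.Burnside
import Cfsg.Agent.Char.Linear
import Cfsg.Agent.Grp.Frob2
import Cfsg.Agent.Grp.CoresPi

set_option autoImplicit false
open Cfsg

namespace Cfsg.Agent.S4757

/-- Let u ≠ 1 be an element of the finite group G and c a complex number such that every non-principal irreducible character χ satisfies χ(1) − χ(u) = c or χ(u) = 0. Then the following are equivalent: (a) u has order 2, G is generated by u together with O(G), the largest normal subgroup of G of odd order, and the centralizer of u is {1, u}; (b) G is not perfect; (c) c = 2. -/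
theorem result {G : Type*} [Group G] [Finite G] (u : G) (hu : u ≠ 1) (c : ℂ) (hyp : ∀ χ : Cfsg.IrrCharacter G, (χ : G → ℂ) ≠ (fun _ => (1 : ℂ)) → ((χ : G → ℂ) 1 - (χ : G → ℂ) u = c ∨ (χ : G → ℂ) u = 0)) : ((orderOf u = 2 ∧ Subgroup.zpowers u ⊔ Cfsg.oddCore G = ⊤ ∧ Subgroup.centralizer ({u} : Set G) = Subgroup.zpowers u) ↔ commutator G ≠ ⊤) ∧ (commutator G ≠ ⊤ ↔ c = 2) := by
  classical
  have := Fintype.ofFinite G
  have hsum := congrArg Complex.re (CL.Char.burnside_sum_degree_mul hu)
  rw [Complex.re_sum, Complex.zero_re] at hsum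
  have hone : ∀ χ : IrrCharacter G, χ ≠ CL.Char.irrOne G → (χ : G → ℂ) ≠ fun _ => 1 :=
    fun χ h h' => h (Subtype.ext h')
  have hc0 : c ≠ 0 := by
    rintro rfl
    refine absurd hsum (Finset.sum_pos' (fun χ _ => ?_)
      ⟨CL.Char.irrOne G, Finset.mem_univ _, by simp⟩).ne'
    by_cases h : χ = CL.Char.irrOne G
    · simp [h]
    rcases hyp χ (hone χ h) with h3 | h3
    · rw [← sub_eq_zero.1 h3, ← χ.2.cast_charDegree, ← Nat.cast_mul, Complex.natCast_re]
      positivity
    · simp [h3]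
  have hlin0 : ∀ lam : G →* ℂˣ, lam ≠ 1 → 1 - (lam u : ℂ) = c := by
    intro lam hl
    have h1 := hyp ⟨_, CL.Char.isIrrCharacter_linear lam⟩ fun h => hl (by
      ext g
      exact congrFun h g)
    simpa using h1
  have hlin : ∀ lam : G →* ℂˣ, lam ≠ 1 → (lam u : ℂ) = -1 ∧ c = 2 := by
    intro lam hl
    have h1 := hlin0 lam hl
    have h2 := hlin0 lam⁻¹ (fun h' => hl (MonoidHom.ext fun g => by
      simpa using DFunLike.congr_fun h' g))
    have h3 : (lam u : ℂ) ≠ 0 := Units.ne_zero _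
    simp only [MonoidHom.inv_apply, Units.val_inv_eq_inv_val] at h2
    have h4 : (lam u : ℂ) = (lam u : ℂ)⁻¹ := by linear_combination h2 - h1
    have h5 : ((lam u : ℂ) - 1) * ((lam u : ℂ) + 1) = 0 := by
      field_simp at h4
      linear_combination h4
    rcases mul_eq_zero.1 h5 with h6 | h6
    · exact absurd (by linear_combination -h1 - h6) hc0
    · exact ⟨by linear_combination h6, by linear_combination -h1 - h6⟩
  have hex : commutator G ≠ ⊤ → ∃ lam : G →* ℂˣ, lam ≠ 1 := by
    intro h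
    obtain ⟨g, -, hg⟩ := SetLike.exists_of_lt (lt_top_iff_ne_top.2 h)
    obtain ⟨lam, -, h3⟩ := CL.Char.exists_monoidHom_of_not_mem le_rfl hg
    exact ⟨lam, fun h' => h3 (by rw [h']; rfl)⟩
  -- nonlinear characters contribute nonnegatively when `c = 2`
  have hnl : c = 2 → ∀ χ : IrrCharacter G, (χ : G → ℂ) 1 ≠ 1 →
      0 ≤ ((χ : G → ℂ) 1 * (χ : G → ℂ) u).re ∧
      (((χ : G → ℂ) 1 * (χ : G → ℂ) u).re = 0 → (χ : G → ℂ) u = 0) := by
    intro hc χ h1
    rcases hyp χ (fun h => h1 (by rw [h])) with h3 | h3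
    · have h4 : (χ : G → ℂ) u = (χ : G → ℂ) 1 - 2 := by rw [← hc]; linear_combination -h3
      have h5 := χ.2.charDegree_pos
      have h6 : charDegree (χ : G → ℂ) ≠ 1 := fun h => h1 (χ.2.isCharacter.charDegree_eq_one_iff.1 h)
      obtain ⟨k, hk⟩ : ∃ k, charDegree (χ : G → ℂ) = k + 2 := ⟨charDegree (χ : G → ℂ) - 2, by omega⟩
      have h7 : (χ : G → ℂ) u = k := by rw [h4, ← χ.2.cast_charDegree, hk]; push_cast; ring
      rw [h7, ← χ.2.cast_charDegree, ← Nat.cast_mul, Complex.natCast_re]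
      refine ⟨by positivity, fun h8 => ?_⟩
      have h9 : charDegree (χ : G → ℂ) * k = 0 := by exact_mod_cast h8
      rw [(Nat.mul_eq_zero.1 h9).resolve_left h5.ne', Nat.cast_zero]
    · simp [h3]
  refine ⟨⟨?_, fun h => ?_⟩, fun h => ?_, fun hc h => ?_⟩
  · rintro ⟨h1, h2, -⟩ h3
    have h4 := Subgroup.Normal.commutator_le_of_self_sup_commutative_eq_top
      (N := oddCore G) (H := Subgroup.zpowers u) (by rw [sup_comm, h2]) inferInstance
    have h5 := CL.Grp.coprime_of_le_pPrimeCore (h3 ▸ h4)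
    rw [Subgroup.card_top] at h5
    have h6 := Nat.Coprime.coprime_dvd_left (h1 ▸ orderOf_dvd_natCard u) h5
    simp at h6
  · obtain ⟨lam, hl⟩ := hex h
    obtain ⟨hlu, hc⟩ := hlin lam hl
    have huniq : ∀ mu : G →* ℂˣ, mu ≠ 1 → mu = lam := by
      intro mu hm
      by_contra h1
      have h2 := (hlin (mu * lam⁻¹) (fun h' => h1 (mul_inv_eq_one.1 h'))).1
      simp only [MonoidHom.mul_apply, MonoidHom.inv_apply, Units.val_mul,
        Units.val_inv_eq_inv_val, hlu, (hlin mu hm).1] at h2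
      norm_num at h2
    set L : IrrCharacter G := ⟨_, CL.Char.isIrrCharacter_linear lam⟩ with hL
    have hne : L ≠ CL.Char.irrOne G := fun h' => hl (by
      ext g
      exact congrFun (congrArg Subtype.val h') g)
    have hnl' : ∀ χ ∈ (Finset.univ.erase (CL.Char.irrOne G)).erase L, (χ : G → ℂ) 1 ≠ 1 := by
      intro χ hχ h1
      obtain ⟨mu, hmu⟩ := χ.2.isCharacter.exists_monoidHom_of_one h1
      by_cases h2 : mu = 1
      · exact Finset.ne_of_mem_erase (Finset.mem_of_mem_erase hχ)
          (Subtype.ext (by rw [hmu, h2]; rfl))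
      · exact Finset.ne_of_mem_erase hχ (Subtype.ext (by rw [hmu, huniq mu h2]))
    have hsplit : ∀ f : IrrCharacter G → ℝ, ∑ χ, f χ = f (CL.Char.irrOne G) + f L +
        ∑ χ ∈ (Finset.univ.erase (CL.Char.irrOne G)).erase L, f χ := fun f => by
      rw [add_assoc, Finset.add_sum_erase _ _ (Finset.mem_erase.2 ⟨hne, Finset.mem_univ _⟩),
        Finset.add_sum_erase _ _ (Finset.mem_univ _)]
    have hLu : (L : G → ℂ) u = -1 := hlu
    have hL1 : (L : G → ℂ) 1 = 1 := by simp [hL]
    rw [hsplit] at hsum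
    simp only [CL.Char.irrOne_apply, hLu, hL1, one_mul, Complex.one_re, Complex.neg_re,
      add_neg_cancel, zero_add] at hsum
    rw [Finset.sum_eq_zero_iff_of_nonneg fun χ hχ => (hnl hc χ (hnl' χ hχ)).1] at hsum
    have h1 := CL.Char.sum_irr_norm_sq u
    rw [hsplit, Finset.sum_eq_zero fun χ hχ => by
      rw [(hnl hc χ (hnl' χ hχ)).2 (hsum χ hχ)]; simp] at h1
    simp only [CL.Char.irrOne_apply, hLu, norm_one, norm_neg] at h1
    have h2 : Nat.card (Subgroup.centralizer ({u} : Set G)) = 2 := by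
      have : (Nat.card (Subgroup.centralizer ({u} : Set G)) : ℝ) = 2 := by rw [← h1]; norm_num
      exact_mod_cast this
    have huC : u ∈ Subgroup.centralizer ({u} : Set G) := by
      rintro _ rfl; rfl
    have h3 : ∀ a ∈ Subgroup.centralizer ({u} : Set G), a ≠ 1 → a = u := by
      intro a ha ha1
      obtain ⟨y, -, hy⟩ := (Nat.card_eq_two_iff' (1 : Subgroup.centralizer ({u} : Set G))).1 h2
      have h4 := hy ⟨a, ha⟩ fun h' => ha1 (congrArg Subtype.val h')
      have h5 := hy ⟨u, huC⟩ fun h' => hu (congrArg Subtype.val h')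
      exact congrArg Subtype.val (h4.trans h5.symm)
    have hle : Subgroup.zpowers u ≤ Subgroup.centralizer ({u} : Set G) :=
      (Subgroup.zpowers_le).2 huC
    have ho : orderOf u = 2 := by
      have h4 := Subgroup.card_dvd_of_le hle
      rw [h2, Nat.card_zpowers] at h4
      exact ((Nat.dvd_prime Nat.prime_two).1 h4).resolve_left (orderOf_eq_one_iff.not.2 hu)
    have huK : u ∉ lam.ker := fun h' => by
      rw [MonoidHom.mem_ker.1 h'] at hlu
      norm_num at hlu
    refine ⟨ho, ?_, (Subgroup.eq_of_le_of_card_ge hle (by rw [h2, Nat.card_zpowers, ho])).symm⟩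
    have h4 := CL.Grp.coprime_card_of_fpf (A := Subgroup.zpowers u) (K := lam.ker)
      (by rw [Subgroup.normalizer_eq_top]; exact le_top) fun a ha ha1 => by
        rw [h3 a (hle ha) ha1, eq_bot_iff]
        rintro x ⟨hx1, hx2⟩
        by_contra h5
        exact huK (h3 x hx2 h5 ▸ hx1)
    rw [Nat.card_zpowers, ho] at h4
    have h5 : lam.ker ≤ oddCore G := CL.Grp.le_pPrimeCore h4.symm
    have h6 : lam * lam = 1 := by
      by_contra h7
      have h8 := (hlin _ h7).1
      simp only [MonoidHom.mul_apply, Units.val_mul, hlu] at h8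
      norm_num at h8
    rw [eq_top_iff]
    intro g _
    have h7 : ((lam g : ℂ) - 1) * ((lam g : ℂ) + 1) = 0 := by
      have h8 : (lam g : ℂ) * lam g = 1 := by
        rw [← Units.val_mul, ← MonoidHom.mul_apply, h6]; rfl
      linear_combination h8
    rcases mul_eq_zero.1 h7 with h8 | h8
    · exact Subgroup.mem_sup_right (h5 (Units.ext (sub_eq_zero.1 h8)))
    · rw [← mul_inv_cancel_left u g]
      refine Subgroup.mul_mem_sup (Subgroup.mem_zpowers u) (h5 (Units.ext ?_))
      rw [map_mul, map_inv, Units.val_mul, Units.val_inv_eq_inv_val, hlu,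
        eq_neg_of_add_eq_zero_left h8]
      norm_num
  · obtain ⟨lam, hl⟩ := hex h
    exact (hlin lam hl).2
  · refine absurd hsum (Finset.sum_pos' (fun χ _ => ?_)
      ⟨CL.Char.irrOne G, Finset.mem_univ _, by simp⟩).ne'
    by_cases h1 : (χ : G → ℂ) 1 = 1
    · have h2 := CL.Char.commutator_le_charKer_of_one_eq_one χ.2.isCharacter h1
      rw [h, top_le_iff, χ.2.charKer_eq_top_iff] at h2
      simp [h2]
    · exact (hnl hc χ h1).1

end Cfsg.Agent.S4757
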