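import Cfsg.Statements.S4765
import Cfsg.Agent.Known.SL2Irr2

set_option autoImplicit false
open Cfsg

namespace Cfsg.Agent.S4765

open CL.GL2

/-- Let F be a finite field of characteristic p with at least 4 elements. Then PSL(2,F) has exactly one irreducible complex character of degree divisible by p, and its degree is the order of F. -/
theorem result (p : ℕ) [Fact p.Prime] (F : Type*) [Field F] [Fintype F] [CharP F p] (hF : 4 ≤ Fintype.card F) : Nat.card {χ : Cfsg.IrrCharacter (Matrix.ProjectiveSpecialLinearGroup (Fin 2) F) // p ∣ Cfsg.charDegree (χ : Matrix.ProjectiveSpecialLinearGroup (Fin 2) F → ℂ)} = 1 ∧ ∀ χ : Cfsg.IrrCharacter (Matrix.ProjectiveSpecialLinearGroup (Fin 2) F), p ∣ Cfsg.charDegree (χ : Matrix.ProjectiveSpecialLinearGroup (Fin 2) F → ℂ) → Cfsg.charDegree (χ : Matrix.ProjectiveSpecialLinearGroup (Fin 2) F → ℂ) = Fintype.card F := by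
  classical
  have hp : p.Prime := Fact.out
  obtain ⟨n, -, hn⟩ := FiniteField.card F p
  have hpq : p ∣ Fintype.card F := hn ▸ dvd_pow_self p n.ne_zero
  have key : ∀ χ : PSL2 F → ℂ, IsIrrCharacter (PSL2 F) χ → p ∣ charDegree χ →
      charDegree χ = Fintype.card F := fun χ hχ h => by
    have h1 : ¬ p ∣ 1 := hp.one_lt.ne' ∘ Nat.dvd_one.1
    rcases charDegrees_SL2_cases (charDegrees_PSL2_subset ⟨⟨χ, hχ⟩, rfl⟩) with
      h2 | h2 | h2 | h2 | h2 | h2 <;> simp only at h2
    · exact absurd (h2 ▸ h) h1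
    · exact h2
    · exact absurd ((Nat.dvd_add_right hpq).1 (h2 ▸ h)) h1
    · exact absurd ((Nat.dvd_add_right h).1 (h2 ▸ hpq)) h1
    · exact absurd ((Nat.dvd_add_right hpq).1 (h2 ▸ h.mul_left 2)) h1
    · exact absurd ((Nat.dvd_add_right (h.mul_left 2)).1 (h2 ▸ hpq)) h1
  refine ⟨?_, fun χ => key χ χ.2⟩
  obtain ⟨ψ, h1, h2⟩ := exists_irr_PSL2 (F := F) isIrr_StSL StSL_neg_one
  refine card_irr_eq_one h1 (fun χ => p ∣ charDegree χ) fun χ hχ => ⟨fun h => ?_, ?_⟩
  · have h3 := SL_irr_of_deg_card hχ.inflate (by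
      rw [← key χ hχ h, hχ.cast_charDegree]; rfl)
    ext x
    obtain ⟨g, rfl⟩ := QuotientGroup.mk_surjective x
    exact (congrFun h3 g).trans (congrFun h2 g)
  · rintro rfl
    rwa [CL.Char.charDegree_eq_of_eq ((congrFun h2 1).symm.trans StSL_one)]

end Cfsg.Agent.S4765
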