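import Cfsg.Statements.S4775
import Cfsg.Agent.Chev.SzChar4
import Cfsg.Agent.Chev.SzInst

set_option autoImplicit false
open Cfsg

namespace Cfsg.Agent.S4775

/-- Let F be a finite field with q = 2^(2m+1) ≥ 8 elements and let S be isomorphic to the Suzuki group over F. Then the vertices of the character degree graph of S are 2 and the primes dividing (q − 1)(q² + 1); the primes dividing (q − 1)(q² + 1) are pairwise adjacent, and 2 is adjacent exactly to the primes dividing q − 1. -/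
theorem result (F : Type*) [Field F] [Fintype F] (m : ℕ) (hm : 1 ≤ m) (q : ℕ) (hq : Fintype.card F = q) (hqm : q = 2 ^ (2 * m + 1)) {S : Type*} [Group S] [Finite S] (hS : Nonempty (S ≃* ↥(Cfsg.Lie.Sz F (2 ^ (m + 1))))) : Cfsg.degreePrimes S = {r : ℕ | r.Prime ∧ (r = 2 ∨ r ∣ (q - 1) * (q ^ 2 + 1))} ∧ ∀ r s : ℕ, (Cfsg.degreeGraph S).Adj r s ↔ (r ≠ s ∧ r.Prime ∧ s.Prime ∧ ((r ∣ (q - 1) * (q ^ 2 + 1) ∧ s ∣ (q - 1) * (q ^ 2 + 1)) ∨ (r = 2 ∧ s ∣ q - 1) ∨ (s = 2 ∧ r ∣ q - 1))) := by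
  obtain ⟨e⟩ := hS
  have hF : Fintype.card F = 2 ^ (2 * m + 1) := hq.trans hqm
  have key : ∀ d, d ∈ charDegrees S ↔ _ := fun d =>
    ((CL.Chev.Sz.modelLie hm hF).ofEquiv e).mem_charDegrees hm (by rw [Nat.card_eq_fintype_card, hF]) (d := d)
  have hn := CL.Chev.Sz.nplus_mul_nminus m
  rw [← hqm] at key hn
  obtain ⟨a, ha⟩ : ∃ a, a = q + 2 ^ (m + 1) + 1 := ⟨_, rfl⟩
  obtain ⟨b, hb⟩ : ∃ b, b = q - 2 ^ (m + 1) + 1 := ⟨_, rfl⟩
  obtain ⟨c, hc⟩ : ∃ c, c = q - 1 := ⟨_, rfl⟩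
  rw [← ha, ← hb] at key hn
  rw [← hn, ← hc] at key ⊢
  have h2 : ∀ {r : ℕ}, r.Prime → r ∣ q ^ 2 → r = 2 := fun hr h =>
    (Nat.prime_dvd_prime_iff_eq hr Nat.prime_two).1 (hr.dvd_of_dvd_pow (hqm ▸ hr.dvd_of_dvd_pow h))
  have h3 : ∀ {r : ℕ}, r.Prime → r ∣ 2 ^ m * c → r = 2 ∨ r ∣ c := fun hr h =>
    ((Nat.Prime.dvd_mul hr).1 h).imp_left fun h => (Nat.prime_dvd_prime_iff_eq hr Nat.prime_two).1 (hr.dvd_of_dvd_pow h)
  have h4 : ∀ {r : ℕ}, r.Prime → r ∣ c * (a * b) → r ∣ c ∨ r ∣ a ∨ r ∣ b := fun hr h =>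
    ((Nat.Prime.dvd_mul hr).1 h).imp_right (Nat.Prime.dvd_mul hr).1
  have d1 : q ^ 2 ∈ charDegrees S := (key _).2 (by simp)
  have d2 : 2 ^ m * c ∈ charDegrees S := (key _).2 (by simp)
  have d3 : a * b ∈ charDegrees S := (key _).2 (by simp)
  have d4 : b * c ∈ charDegrees S := (key _).2 (by simp)
  have d5 : a * c ∈ charDegrees S := (key _).2 (by simp)
  have h2m : 2 ∣ 2 ^ m * c := Dvd.dvd.mul_right (dvd_pow_self 2 (by omega)) c
  have e3 : a * b ∣ c * (a * b) := Dvd.intro_left _ rfl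
  have e4 : b * c ∣ c * (a * b) := ⟨a, by ring⟩
  have e5 : a * c ∣ c * (a * b) := ⟨b, by ring⟩
  constructor
  · ext r
    constructor
    · rintro ⟨hr, d, hd, h⟩
      refine ⟨hr, ?_⟩
      rcases (key d).1 hd with rfl | rfl | rfl | rfl | rfl | rfl
      · exact absurd (Nat.dvd_one.1 h) hr.ne_one
      · exact Or.inl (h2 hr h)
      · exact (h3 hr h).imp_right fun h => h.mul_right _
      · exact Or.inr (h.trans e3)
      · exact Or.inr (h.trans e4)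
      · exact Or.inr (h.trans e5)
    · rintro ⟨hr, rfl | h⟩
      · exact ⟨hr, _, d2, h2m⟩
      · rcases h4 hr h with h | h | h
        · exact ⟨hr, _, d2, h.mul_left _⟩
        · exact ⟨hr, _, d3, h.mul_right _⟩
        · exact ⟨hr, _, d3, h.mul_left _⟩
  · intro r s
    change (r ≠ s ∧ r.Prime ∧ s.Prime ∧ ∃ d ∈ charDegrees S, r * s ∣ d) ↔ _
    refine and_congr_right fun hne => and_congr_right fun hr => and_congr_right fun hs => ?_
    have hco : r.Coprime s := (Nat.coprime_primes hr hs).2 hne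
    constructor
    · rintro ⟨d, hd, h⟩
      have k1 : r ∣ d := (dvd_mul_right r s).trans h
      have k2 : s ∣ d := (dvd_mul_left s r).trans h
      rcases (key d).1 hd with rfl | rfl | rfl | rfl | rfl | rfl
      · exact absurd (Nat.dvd_one.1 k1) hr.ne_one
      · exact absurd ((h2 hr k1).trans (h2 hs k2).symm) hne
      · rcases h3 hr k1 with k1 | k1 <;> rcases h3 hs k2 with k2 | k2
        · exact absurd (k1.trans k2.symm) hne
        · exact Or.inr (Or.inl ⟨k1, k2⟩)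
        · exact Or.inr (Or.inr ⟨k2, k1⟩)
        · exact Or.inl ⟨k1.mul_right _, k2.mul_right _⟩
      · exact Or.inl ⟨k1.trans e3, k2.trans e3⟩
      · exact Or.inl ⟨k1.trans e4, k2.trans e4⟩
      · exact Or.inl ⟨k1.trans e5, k2.trans e5⟩
    · rintro (⟨k1, k2⟩ | ⟨rfl, k2⟩ | ⟨rfl, k1⟩)
      · rcases h4 hr k1 with k1 | k1 | k1 <;> rcases h4 hs k2 with k2 | k2 | k2
        · exact ⟨_, d4, hco.mul_dvd_of_dvd_of_dvd (k1.mul_left _) (k2.mul_left _)⟩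
        · exact ⟨_, d5, hco.mul_dvd_of_dvd_of_dvd (k1.mul_left _) (k2.mul_right _)⟩
        · exact ⟨_, d4, hco.mul_dvd_of_dvd_of_dvd (k1.mul_left _) (k2.mul_right _)⟩
        · exact ⟨_, d5, hco.mul_dvd_of_dvd_of_dvd (k1.mul_right _) (k2.mul_left _)⟩
        · exact ⟨_, d3, hco.mul_dvd_of_dvd_of_dvd (k1.mul_right _) (k2.mul_right _)⟩
        · exact ⟨_, d3, hco.mul_dvd_of_dvd_of_dvd (k1.mul_right _) (k2.mul_left _)⟩
        · exact ⟨_, d4, hco.mul_dvd_of_dvd_of_dvd (k1.mul_right _) (k2.mul_left _)⟩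
        · exact ⟨_, d3, hco.mul_dvd_of_dvd_of_dvd (k1.mul_left _) (k2.mul_right _)⟩
        · exact ⟨_, d3, hco.mul_dvd_of_dvd_of_dvd (k1.mul_left _) (k2.mul_left _)⟩
      · exact ⟨_, d2, hco.mul_dvd_of_dvd_of_dvd h2m (k2.mul_left _)⟩
      · exact ⟨_, d2, hco.mul_dvd_of_dvd_of_dvd (k1.mul_left _) h2m⟩

end Cfsg.Agent.S4775
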