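import Cfsg.Statements.S4782
import Cfsg.Agent.Char.DegTaketa
import Cfsg.Agent.Char.Burnside

set_option autoImplicit false
open Cfsg

namespace Cfsg.Agent.S4782

open CL.Char Module

universe u

theorem ex_cent {G : Type u} [Group G] [Finite G] [Nontrivial G] {q : ℕ} (hq : q.Prime) :
    ∃ z : G, z ≠ 1 ∧ ¬ q ∣ (Subgroup.centralizer ({z} : Set G)).index := by
  haveI := Fact.mk hq
  obtain ⟨Q⟩ : Nonempty (Sylow q G) := inferInstance
  rcases subsingleton_or_nontrivial (Q : Subgroup G) with hQ | hQ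
  · obtain ⟨z, hz⟩ := exists_ne (1 : G)
    refine ⟨z, hz, fun h => Q.not_dvd_index ?_⟩
    rw [Subgroup.eq_bot_of_subsingleton (Q : Subgroup G), Subgroup.index_bot]
    exact h.trans (Subgroup.index_dvd_card _)
  · haveI := Q.isPGroup'.center_nontrivial
    obtain ⟨⟨z, hz⟩, hz1⟩ := exists_ne (1 : Subgroup.center (Q : Subgroup G))
    refine ⟨z, fun e => hz1 (Subtype.ext (Subtype.ext e)), fun h => Q.not_dvd_index (h.trans
      (Subgroup.index_dvd_of_le fun x hx => Subgroup.mem_centralizer_singleton_iff.2 ?_))⟩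
    exact congrArg Subtype.val (Subgroup.mem_center_iff.mp hz ⟨x, hx⟩)

theorem simple {G : Type u} [Group G] [Finite G] [IsSimpleGroup G] {p q : ℕ} (hp : p.Prime) (hq : q.Prime)
    (h : ∀ d ∈ cdSet G, ∀ r : ℕ, r.Prime → r ∣ d → r = p ∨ r = q) : Group.IsSolvable G := by
  obtain ⟨z, hz, hi⟩ := ex_cent (G := G) hq
  obtain ⟨χ, hχ, h1, h0, m, hm, hpm⟩ := exists_irr_not_dvd_degree_ne_zero hp hz
  have hd : m ∈ cdSet G := charDegree_eq_of_eq hm ▸ hχ.charDegree_mem_cdSet
  obtain ⟨n, ρ, hρ, rfl⟩ := hχ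
  have hmn : finrank ℂ (Fin n → ℂ) = m := by rw [ρ.char_one] at hm; exact_mod_cast hm
  obtain ⟨ω, hω⟩ := (norm_char_eq_iff ρ z).mp ((char_eq_zero_or_norm_eq_of_coprime ρ z (hmn ▸
    Nat.coprime_of_dvd fun r hr h1 h2 => (h m hd r hr h1).elim (fun e => hpm (e ▸ h1)) fun e => hi (e ▸ h2))).resolve_left h0)
  haveI := Fact.mk (prime_card_of_mem_center hz (Subgroup.mem_center_iff.mpr fun x => by
    apply injective_of_isSimpleGroup ρ h1
    rw [map_mul, map_mul, hω, mul_smul_comm, smul_mul_assoc]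
    rfl))
  haveI : IsCyclic G := isCyclic_of_prime_card rfl
  exact Group.isSolvable_of_comm fun a b => mul_comm' a b

theorem solv {p q : ℕ} (hp : p.Prime) (hq : q.Prime) (n : ℕ) : ∀ (G : Type u) [Group G] [Finite G], Nat.card G = n →
    (∀ d ∈ cdSet G, ∀ r : ℕ, r.Prime → r ∣ d → r = p ∨ r = q) → Group.IsSolvable G := by
  induction n using Nat.strong_induction_on with
  | _ n ih =>
  intro G _ _ hn h
  rcases subsingleton_or_nontrivial G with hG | hG
  · infer_instance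
  by_cases hs : IsSimpleGroup G
  · exact simple hp hq h
  have : ∃ N : Subgroup G, N.Normal ∧ N ≠ ⊥ ∧ N ≠ ⊤ := by
    by_contra! hcon
    exact hs ⟨fun N hN => (eq_or_ne N ⊥).imp_right (hcon N hN)⟩
  obtain ⟨N, hN, hb, ht⟩ := this
  have hcard := N.card_mul_index
  have h1 : 1 < Nat.card N := (Subgroup.one_lt_card_iff_ne_bot N).mpr hb
  have h2 : 1 < N.index := Subgroup.one_lt_index_of_ne_top ht
  haveI : Group.IsSolvable N := ih _ (by rw [← hn, ← hcard]; nlinarith) N rfl fun d hd r hr k => by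
    obtain ⟨c, -, hc⟩ := exists_dvd_of_mem_cdSet_normal hd
    exact h _ hc r hr (k.mul_left c)
  haveI : Group.IsSolvable (G ⧸ N) := ih _ (by rw [← hn, ← hcard]; change N.index < _; nlinarith)
    (G ⧸ N) rfl fun d hd => h d (cdSet_quotient_subset N hd)
  exact Group.isSolvable_of_ker_le_range N.subtype (QuotientGroup.mk' N) (by simp)

/-- If the finite group G is not solvable, then at least three distinct primes each divide some irreducible complex character degree of G. -/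
theorem result {G : Type*} [Group G] [Finite G] (hG : ¬ Group.IsSolvable G) : ∃ p q r : ℕ, p ≠ q ∧ q ≠ r ∧ p ≠ r ∧ p ∈ Cfsg.degreePrimes G ∧ q ∈ Cfsg.degreePrimes G ∧ r ∈ Cfsg.degreePrimes G := by
  by_contra! hc
  obtain ⟨p, q, hp, hq, h⟩ : ∃ p q : ℕ, p.Prime ∧ q.Prime ∧ ∀ r ∈ degreePrimes G, r = p ∨ r = q := by
    by_cases h1 : ∃ p, p ∈ degreePrimes G
    · obtain ⟨p, hp⟩ := h1
      by_cases h2 : ∃ q ∈ degreePrimes G, p ≠ q
      · obtain ⟨q, hq, hpq⟩ := h2
        exact ⟨p, q, hp.1, hq.1, fun r hr => by_contra fun k =>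
          hc p q r hpq (fun e => k (.inr e.symm)) (fun e => k (.inl e.symm)) hp hq hr⟩
      · exact ⟨p, p, hp.1, hp.1, fun r hr => .inl (by_contra fun k => h2 ⟨r, hr, Ne.symm k⟩)⟩
    · exact ⟨2, 2, Nat.prime_two, Nat.prime_two, fun r hr => (h1 ⟨r, hr⟩).elim⟩
  exact hG (solv hp hq _ G rfl fun d hd r hr k => h r ⟨hr, d, mem_charDegrees_iff.2 hd, k⟩)

end Cfsg.Agent.S4782
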