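import Cfsg.Statements.S4796
import Cfsg.Agent.Char.Codeg
import Cfsg.Agent.Grp.Frob2

set_option autoImplicit false
open Cfsg

namespace Cfsg.Agent.S4796

/-- Let G be a finite group with a faithful irreducible complex character χ whose codegree #G / χ(1) is a prime p (for a faithful character the kernel is trivial, so the codegree is #G / χ(1)). Then either G is cyclic of order p, or G is a Frobenius group whose Frobenius kernel has order p: some proper non-trivial subgroup H satisfies H ∩ gHg⁻¹ = 1 for every element g outside H, and the set of elements lying in no conjugate of H, together with the identity, has exactly p elements. -/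
theorem result {G : Type*} [Group G] [Finite G] (χ : Cfsg.IrrCharacter G) (hfaith : ∀ g : G, (χ : G → ℂ) g = (χ : G → ℂ) 1 → g = 1) (p : ℕ) (hp : p.Prime) (hcod : Nat.card G = p * Cfsg.charDegree (χ : G → ℂ)) : (IsCyclic G ∧ Nat.card G = p) ∨ ∃ H : Subgroup G, Cfsg.IsFrobeniusComplement H ∧ Nat.card ↥(Cfsg.frobeniusKernel H) = p := by
  obtain ⟨P, hn, hP, hi, hd, hC⟩ := CL.Char.codeg_exists_of_prime χ.2 hp hcod
  by_cases h1 : charDegree (χ : G → ℂ) = 1
  · rw [h1, mul_one] at hcod
    have := Fact.mk hp
    exact Or.inl ⟨isCyclic_of_prime_card hcod, hcod⟩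
  right
  have hcop : (Nat.card P).Coprime P.index := by
    rw [hP, hi]
    exact (Nat.coprime_of_lt_prime χ.2.charDegree_pos.ne' hd hp).symm.symm
  obtain ⟨H, hH⟩ := Subgroup.exists_right_complement'_of_coprime hcop
  have hF : IsFrobeniusComplement H := by
    refine CL.Grp.frob_of_fpf hH ?_ ?_ fun h hh h2 => ?_
    · rintro rfl
      rw [Subgroup.card_bot] at hP
      exact hp.one_lt.ne hP
    · rintro rfl
      have := hH.symm.index_eq_card
      rw [Subgroup.card_bot, hi] at this
      exact h1 this
    · have := Fact.mk hp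
      have h3 : Nat.card (P ⊓ Subgroup.centralizer {h} : Subgroup G) ∣ p :=
        hP ▸ Subgroup.card_dvd_of_le inf_le_left
      rcases (Nat.dvd_prime hp).1 h3 with h4 | h4
      · exact Subgroup.eq_bot_of_card_eq _ h4
      · have h5 : P ⊓ Subgroup.centralizer {h} = P :=
          Subgroup.eq_of_le_of_card_ge inf_le_left (by rw [h4, hP])
        have h6 : h ∈ P := hC fun x hx => by
          rw [← h5] at hx
          exact (hx.2 h rfl).symm
        exact absurd (hH.disjoint.le_bot ⟨h6, hh⟩) h2
  refine ⟨H, hF, ?_⟩
  rw [(CL.Grp.isMalnormal_of_frob hF).card_kernel, hH.index_eq_card, hP]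

end Cfsg.Agent.S4796
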