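import Cfsg.Statements.S4797
import Cfsg.Agent.Char.Codeg
import Cfsg.Agent.Char.LinGrp1
import Cfsg.Agent.Grp.Supersolv

set_option autoImplicit false
open Cfsg

namespace Cfsg.Agent.S4797

/-- The codegree of an irreducible complex character χ of a finite group G is [G : ker χ] / χ(1), where ker χ is the set of elements at which χ takes the value χ(1). A non-trivial finite group is perfect if and only if no irreducible complex character of it has prime codegree. -/
theorem result {G : Type*} [Group G] [Finite G] [Nontrivial G] : commutator G = ⊤ ↔ ∀ χ : Cfsg.IrrCharacter G, ¬ ((Nat.card G / (Nat.card {g : G // (χ : G → ℂ) g = (χ : G → ℂ) 1} * Cfsg.charDegree (χ : G → ℂ)))).Prime := by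
  constructor
  · intro hG χ hp
    have h1 := CL.Char.codeg_index_eq χ.2
    set p := Nat.card G / (Nat.card {g : G // (χ : G → ℂ) g = (χ : G → ℂ) 1} *
      charDegree (χ : G → ℂ))
    have := χ.2.charKer_normal
    obtain ⟨ψ, hψ, he⟩ := χ.2.exists_quotient (CL.Char.charKer (χ : G → ℂ)) le_rfl
    have h2 : charDegree ψ = charDegree (χ : G → ℂ) := by
      rw [hψ.isCharacter.charDegree_eq_iff, χ.2.cast_charDegree, congrFun he 1]; rfl
    obtain ⟨P, hn, hP, hi, hd, hC⟩ := CL.Char.codeg_exists_of_prime hψ hp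
      (by rw [h2, mul_comm, ← h1]; rfl)
    have := Fact.mk hp
    have hcyc : IsCyclic P := isCyclic_of_prime_card hP
    have h3 : commutator (G ⧸ CL.Char.charKer (χ : G → ℂ)) = ⊤ := by
      have h4 := Subgroup.map_commutator (⊤ : Subgroup G) ⊤
        (QuotientGroup.mk' (CL.Char.charKer (χ : G → ℂ)))
      rw [← commutator_def, hG, Subgroup.map_top_of_surjective _ (QuotientGroup.mk'_surjective _)]
        at h4
      exact h4.symm
    have h4 := CL.Grp.commutator_le_centralizer_of_isCyclic P
    have h5 : P = ⊤ := top_le_iff.1 (h3 ▸ h4.trans hC)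
    have h6 : commutator (G ⧸ CL.Char.charKer (χ : G → ℂ)) = ⊥ := by
      rw [commutator_def, Subgroup.commutator_eq_bot_iff_le_centralizer]
      rw [h3, h5] at h4
      exact h4
    rw [h5, ← h3, h6, Subgroup.card_bot] at hP
    exact hp.one_lt.ne hP
  · intro h
    by_contra hG
    obtain ⟨p, N, hp, hn, hN, hi⟩ := CL.Char.exists_normal_index_prime_of_commutator_ne_top hG
    have h1 : N ≠ ⊤ := by
      rintro rfl
      rw [Subgroup.index_top] at hi
      exact hp.one_lt.ne hi
    obtain ⟨g, -, hg⟩ := SetLike.exists_of_lt (lt_top_iff_ne_top.2 h1)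
    obtain ⟨lam, h2, h3⟩ := CL.Char.exists_monoidHom_of_not_mem hN hg
    have h4 := CL.Char.codeg_index_eq (CL.Char.isIrrCharacter_linear lam)
    refine h ⟨_, CL.Char.isIrrCharacter_linear lam⟩ ?_
    have h5 : charDegree (fun g => (lam g : ℂ)) = 1 := CL.Char.charDegree_eq_of_eq (by simp)
    rw [CL.Char.charKer_monoidHom, h5, one_mul] at h4
    have h6 : lam.ker.index = p := by
      refine ((Nat.dvd_prime hp).1 (hi ▸ Subgroup.index_dvd_of_le h2)).resolve_left fun h7 => h3 ?_
      rw [Subgroup.index_eq_one] at h7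
      exact (h7 ▸ Subgroup.mem_top g : g ∈ lam.ker)
    change Nat.Prime (Nat.card G / (Nat.card {g : G // (lam g : ℂ) = (lam 1 : ℂ)} *
      charDegree (fun g => (lam g : ℂ))))
    rw [h5, ← h4, h6]
    exact hp

end Cfsg.Agent.S4797
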