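import Cfsg.Statements.S4798
import Cfsg.Agent.Char.Codeg
import Cfsg.Agent.Char.GoingDown2

set_option autoImplicit false
open Cfsg

namespace Cfsg.Agent.S4798

/-- Let p be a prime and χ a faithful irreducible complex character of the finite group G (χ(g) = χ(1) only for g = 1), so that its codegree is #G / χ(1). Then #G / χ(1) is a power of p if and only if χ is induced from a character of a Sylow p-subgroup of G. -/
theorem result {G : Type*} [Group G] [Fintype G] (p : ℕ) [Fact p.Prime] (χ : Cfsg.IrrCharacter G) (hfaith : ∀ g : G, (χ : G → ℂ) g = (χ : G → ℂ) 1 → g = 1) : (∃ k : ℕ, Nat.card G = p ^ k * Cfsg.charDegree (χ : G → ℂ)) ↔ ∃ (P : Sylow p G) (θ : ↥(P : Subgroup G) → ℂ), Cfsg.IsCharacter ↥(P : Subgroup G) θ ∧ (χ : G → ℂ) = Cfsg.indFun (P : Subgroup G) θ := by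
  classical
  have hp : p.Prime := Fact.out
  constructor
  · rintro ⟨k, hk⟩
    obtain ⟨P⟩ : Nonempty (Sylow p G) := inferInstance
    refine ⟨P, ?_⟩
    obtain ⟨n, hn⟩ := IsPGroup.iff_card.1 P.isPGroup'
    have h1 := (P : Subgroup G).card_mul_index
    have hni := P.not_dvd_index
    have h2 : (P : Subgroup G).index ∣ charDegree (χ : G → ℂ) :=
      (Nat.Coprime.pow_right k ((Nat.Prime.coprime_iff_not_dvd hp).2 hni).symm).dvd_of_dvd_mul_left
        (hk ▸ (P : Subgroup G).index_dvd_card)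
    obtain ⟨m, hm⟩ := h2
    have hi0 : 0 < (P : Subgroup G).index := Nat.pos_of_ne_zero Subgroup.index_ne_zero_of_finite
    have h3 : m ∣ p ^ n := by
      refine ⟨p ^ k, Nat.eq_of_mul_eq_mul_right hi0 ?_⟩
      rw [← hn, h1, hk, hm]; ring
    obtain ⟨a, -, rfl⟩ := (Nat.dvd_prime_pow hp).1 h3
    have hres := χ.2.isCharacter.restrict (P : Subgroup G)
    obtain ⟨c, hc, -⟩ := hres.exists_eq_sum_nat
    have h4 := hres.charDegree_eq_sum c hc
    have h5 : charDegree (fun x : (P : Subgroup G) => (χ : G → ℂ) x) = charDegree (χ : G → ℂ) := rfl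
    have h6 : ∃ θ : IrrCharacter (P : Subgroup G), c θ ≠ 0 ∧
        ¬ p ^ (a + 1) ∣ charDegree θ.1 := by
      by_contra h7
      push Not at h7
      have h8 : p ^ (a + 1) ∣ charDegree (χ : G → ℂ) := by
        rw [← h5, h4]
        refine Finset.dvd_sum fun θ _ => ?_
        by_cases h9 : c θ = 0
        · simp [h9]
        · exact (h7 θ h9).mul_left _
      rw [hm, pow_succ, mul_comm _ (p ^ a)] at h8
      exact hni (Nat.dvd_of_mul_dvd_mul_left (Nat.pow_pos hp.pos) h8)
    obtain ⟨θ, hθ, hθ'⟩ := h6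
    have hne : classInner (fun x : (P : Subgroup G) => (χ : G → ℂ) x) θ.1 ≠ 0 := by
      rw [hc]; exact_mod_cast hθ
    have h7 := CL.Char.codeg_degree_le_index_mul χ.2 θ.2.isCharacter hne
    obtain ⟨b, hb⟩ := θ.2.exists_charDegree_eq_pow P.isPGroup'
    rw [hm, hb] at h7
    rw [hb, Nat.pow_dvd_pow_iff_le_right hp.one_lt] at hθ'
    have h8 := (Nat.pow_le_pow_iff_right hp.one_lt).1 (Nat.le_of_mul_le_mul_left h7 hi0)
    have h9 : b = a := by omega
    refine ⟨θ.1, θ.2.isCharacter, ((CL.Char.isCharacter_indFun θ.2.isCharacter).eq_of_classInner_ne_zero_of_one_eq χ.2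
      (by rwa [CL.Char.classInner_indFun_eq_res θ.2.isCharacter χ.2.isCharacter]) ?_).symm⟩
    rw [CL.Char.indFun_one, ← θ.2.cast_charDegree, ← χ.2.cast_charDegree, hm, hb, h9, Nat.cast_mul]
  · rintro ⟨P, θ, hθ, he⟩
    have h1 := CL.Char.isIrrCharacter_of_indFun hθ (he ▸ χ.2)
    obtain ⟨m, hm⟩ := h1.charDegree_dvd_card
    obtain ⟨n, hn⟩ := IsPGroup.iff_card.1 P.isPGroup'
    obtain ⟨a, -, rfl⟩ := (Nat.dvd_prime_pow hp).1 (hn ▸ Dvd.intro_left _ hm.symm : m ∣ p ^ n)
    refine ⟨a, ?_⟩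
    rw [CL.Char.charDegree_eq_of_eq (χ := (χ : G → ℂ)) (n := (P : Subgroup G).index * charDegree θ)
      (by rw [he, CL.Char.indFun_one, Nat.cast_mul, hθ.cast_charDegree]),
      ← (P : Subgroup G).card_mul_index, hm]
    ring

end Cfsg.Agent.S4798
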