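import Cfsg.Statements.S4801
import Cfsg.Agent.Char.Codeg

set_option autoImplicit false
open Cfsg

namespace Cfsg.Agent.S4801

/-- The codegree of an irreducible complex character χ of a finite group G is [G : ker χ] / χ(1), where ker χ is the set of elements at which χ takes the value χ(1). Let S be a finite simple group and G a finite group such that every codegree of an irreducible character of S is a codegree of an irreducible character of G. Then the order of S divides the order of G. -/
theorem result {S : Type*} [Group S] [Finite S] (hS : IsSimpleGroup S) {G : Type*} [Group G] [Finite G] (hsub : ∀ χ : Cfsg.IrrCharacter S, ∃ ψ : Cfsg.IrrCharacter G, (Nat.card S / (Nat.card {g : S // (χ : S → ℂ) g = (χ : S → ℂ) 1} * Cfsg.charDegree (χ : S → ℂ))) = (Nat.card G / (Nat.card {g : G // (ψ : G → ℂ) g = (ψ : G → ℂ) 1} * Cfsg.charDegree (ψ : G → ℂ)))) : Nat.card S ∣ Nat.card G := by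
  classical
  have h1 : ∀ χ : IrrCharacter S, χ ≠ CL.Char.irrOne S →
      Nat.card S ∣ charDegree (χ : S → ℂ) ^ 2 * Nat.card G := by
    intro χ hχ
    obtain ⟨ψ, hψ⟩ := hsub χ
    have h2 := CL.Char.codeg_index_eq χ.2
    rw [χ.2.charKer_eq_bot_of_simple (fun h => hχ (Subtype.ext h)), Subgroup.index_bot, hψ] at h2
    rw [h2, sq, mul_assoc]
    exact Nat.mul_dvd_mul_left _ (Dvd.dvd.mul_left (CL.Char.codeg_dvd_card ψ.2) _)
  have h2 := CL.Char.sum_charDegree_sq (G := S)
  rw [← Finset.add_sum_erase _ _ (Finset.mem_univ (CL.Char.irrOne S)),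
    CL.Char.charDegree_eq_of_eq (n := 1) (by simp)] at h2
  have h3 : Nat.card S ∣ (∑ χ ∈ Finset.univ.erase (CL.Char.irrOne S),
      charDegree (χ : S → ℂ) ^ 2) * Nat.card G := by
    rw [Finset.sum_mul]
    exact Finset.dvd_sum fun χ hχ => h1 χ (Finset.ne_of_mem_erase hχ)
  have h4 : Nat.card S ∣ Nat.card G + (∑ χ ∈ Finset.univ.erase (CL.Char.irrOne S),
      charDegree (χ : S → ℂ) ^ 2) * Nat.card G := by
    refine ⟨Nat.card G, ?_⟩
    rw [← h2]; ring
  exact (Nat.dvd_add_left h3).1 h4

end Cfsg.Agent.S4801
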