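import Cfsg.Statements.S4802
import Cfsg.Agent.Char.Gallagher

set_option autoImplicit false
open Cfsg

namespace Cfsg.Agent.S4802

/-- Let N < M be normal subgroups of the finite group G and g ∈ M ∖ N. Then the conjugacy class of g is exactly M ∖ N if and only if every irreducible complex character of G whose kernel contains N takes the same value at all elements of M ∖ N, and every irreducible complex character of G whose kernel does not contain N vanishes at g. -/
theorem result {G : Type*} [Group G] [Finite G] (N M : Subgroup G) [N.Normal] [M.Normal] (hNM : N < M) (g : G) (hgM : g ∈ M) (hgN : g ∉ N) : {h : G | IsConj g h} = (M : Set G) \ (N : Set G) ↔ ((∀ χ : Cfsg.IrrCharacter G, (∀ x ∈ N, (χ : G → ℂ) x = (χ : G → ℂ) 1) → ∀ x ∈ M, x ∉ N → ∀ y ∈ M, y ∉ N → (χ : G → ℂ) x = (χ : G → ℂ) y) ∧ (∀ χ : Cfsg.IrrCharacter G, (∃ x ∈ N, (χ : G → ℂ) x ≠ (χ : G → ℂ) 1) → (χ : G → ℂ) g = 0)) := by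
  classical
  have := Fintype.ofFinite G
  have := Fintype.ofFinite N
  constructor
  · intro h
    have hc : ∀ x ∈ M, x ∉ N → IsConj g x := fun x h1 h2 => by
      have : x ∈ (M : Set G) \ (N : Set G) := ⟨h1, h2⟩
      rw [← h] at this; exact this
    refine ⟨fun χ _ x hx hx' y hy hy' => ?_, fun χ ⟨x, hx, hx'⟩ => ?_⟩
    · rw [← χ.2.isClassFunction.apply_eq_of_isConj (hc x hx hx'),
        ← χ.2.isClassFunction.apply_eq_of_isConj (hc y hy hy')]
    · have h1 : ¬ N ≤ CL.Char.charKer (χ : G → ℂ) := fun h' =>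
        hx' (CL.Char.apply_eq_one_of_mem_charKer (h' hx))
      have h2 := congrFun (CL.Char.cosetAvg_irr_of_not_le χ.2 h1) g
      rw [CL.Char.cosetAvg_apply] at h2
      have h3 : ∀ n : N, (χ : G → ℂ) (n * g) = (χ : G → ℂ) g := fun n =>
        (χ.2.isClassFunction.apply_eq_of_isConj (hc _ (M.mul_mem (hNM.le n.2) hgM)
          (fun h' => hgN ((N.mul_mem_cancel_left n.2).1 h')))).symm
      simp only [h3, Finset.sum_const, Finset.card_univ, nsmul_eq_mul,
        ← Nat.card_eq_fintype_card] at h2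
      have h4 : (Nat.card N : ℂ) ≠ 0 := CL.Char.natCard_ne_zero
      rw [← mul_assoc, inv_mul_cancel₀ h4, one_mul] at h2
      exact h2
  · rintro ⟨h1, h2⟩
    ext y
    constructor
    · intro hy
      obtain ⟨c, rfl⟩ := isConj_iff.1 hy
      refine ⟨‹M.Normal›.conj_mem g hgM c, fun h' => hgN ?_⟩
      have := ‹N.Normal›.conj_mem _ h' c⁻¹
      simpa [mul_assoc] using this
    · rintro ⟨hy, hy'⟩
      by_contra hn
      have h3 := CL.Char.sum_irr_mul_conj_of_not_isConj (fun h' => hn h'.symm : ¬ IsConj y g)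
      have h4 := CL.Char.sum_irr_mul_conj_self g
      have h5 : ∀ χ : IrrCharacter G, (χ : G → ℂ) y * (starRingEnd ℂ) ((χ : G → ℂ) g) =
          (χ : G → ℂ) g * (starRingEnd ℂ) ((χ : G → ℂ) g) := by
        intro χ
        by_cases h6 : ∀ x ∈ N, (χ : G → ℂ) x = (χ : G → ℂ) 1
        · rw [h1 χ h6 y hy hy' g hgM hgN]
        · push Not at h6
          rw [h2 χ h6]; simp
      simp only [h5] at h3
      rw [h3] at h4
      exact CL.Char.natCard_ne_zero h4.symm

end Cfsg.Agent.S4802
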