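import Cfsg.Statements.S4808
import Cfsg.Agent.Char.Codeg
import Cfsg.Agent.Char.PiSection
import Cfsg.Agent.Char.Burnside

set_option autoImplicit false
open Cfsg

namespace Cfsg.Agent.S4808

/-- The codegree of an irreducible complex character χ of a finite group G is [G : ker χ] / χ(1), where ker χ is the set of elements at which χ takes the value χ(1). A prime divides the order of G if and only if it divides the codegree of some irreducible complex character of G. -/
theorem result {G : Type*} [Group G] [Finite G] (p : ℕ) (hp : p.Prime) : p ∣ Nat.card G ↔ ∃ χ : Cfsg.IrrCharacter G, p ∣ (Nat.card G / (Nat.card {g : G // (χ : G → ℂ) g = (χ : G → ℂ) 1} * Cfsg.charDegree (χ : G → ℂ))) := by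
  classical
  refine ⟨fun h => ?_, fun ⟨χ, h⟩ => h.trans (CL.Char.codeg_dvd_card χ.2)⟩
  by_contra hn
  push Not at hn
  have := Fact.mk hp
  obtain ⟨x, hx⟩ := exists_prime_orderOf_dvd_card' p h
  have hx1 : x ≠ 1 := by
    rintro rfl
    rw [orderOf_one] at hx
    exact hp.one_lt.ne hx
  have h1 : ∀ χ : IrrCharacter G, (χ : G → ℂ) x = (χ : G → ℂ) 1 ∨ (χ : G → ℂ) x = 0 := by
    intro χ
    by_cases h2 : x ∈ CL.Char.charKer (χ : G → ℂ)
    · exact Or.inl (CL.Char.apply_eq_one_of_mem_charKer h2)
    right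
    have := χ.2.charKer_normal
    obtain ⟨ψ, hψ, he⟩ := χ.2.exists_quotient (CL.Char.charKer (χ : G → ℂ)) le_rfl
    have h3 : ψ 1 = charDegree (χ : G → ℂ) := by
      rw [χ.2.cast_charDegree, congrFun he 1]; rfl
    rw [congrFun he x]
    refine CL.Char.irr_eq_zero_of_defect_zero hp hψ h3 (CL.Char.codeg_index_eq χ.2) (hn χ) ?_
    have h4 := orderOf_map_dvd (QuotientGroup.mk' (CL.Char.charKer (χ : G → ℂ))) x
    rw [hx] at h4
    rcases (Nat.dvd_prime hp).1 h4 with h5 | h5
    · rw [orderOf_eq_one_iff, QuotientGroup.mk'_apply, QuotientGroup.eq_one_iff] at h5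
      exact absurd h5 h2
    · exact h5 ▸ dvd_rfl
  have h2 := congrArg Complex.re (CL.Char.burnside_sum_degree_mul hx1)
  rw [Complex.re_sum, Complex.zero_re] at h2
  refine absurd h2 (Finset.sum_pos' (fun χ _ => ?_) ⟨CL.Char.irrOne G, Finset.mem_univ _, ?_⟩).ne'
  · rcases h1 χ with h3 | h3
    · rw [h3, ← χ.2.cast_charDegree, ← Nat.cast_mul, Complex.natCast_re]; positivity
    · simp [h3]
  · simp

end Cfsg.Agent.S4808
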