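import Cfsg.Statements.S4814
import Cfsg.Agent.Char.ClassAlg
import Cfsg.Agent.Char.Values

set_option autoImplicit false
open Cfsg

namespace Cfsg.Agent.S4814

/-- Let G be a finite group such that the sum, over the irreducible complex characters χ of G, of 1/χ(1)² is less than 2. Then every element of G is a product of two commutators. -/
theorem result {G : Type*} [Group G] [Finite G]
    (h : ∑ᶠ χ : Cfsg.IrrCharacter G, 1 / ‖(χ : G → ℂ) 1‖ ^ 2 < (2 : ℝ)) (g : G) :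
    ∃ a b c d : G, (a * b * a⁻¹ * b⁻¹) * (c * d * c⁻¹ * d⁻¹) = g := by
  classical
  have := Fintype.ofFinite G
  by_contra hn
  push Not at hn
  rw [CL.Char.finsum_irr_eq_sum] at h
  set f : G → ℂ := fun z => ∑ χ : IrrCharacter G, (χ : G → ℂ) z / (χ : G → ℂ) 1 with hf
  have hG : (Nat.card G : ℂ) ≠ 0 := CL.Char.natCard_ne_zero
  have h1 : ∀ z, f z ≠ 0 → ∃ a b : G, z = a * b * a⁻¹ * b⁻¹ := by
    intro z hz
    have h2 := CL.Char.classAlg_card_commutator z
    have h3 : Nat.card {p : G × G // z = p.1 * p.2 * p.1⁻¹ * p.2⁻¹} ≠ 0 := by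
      intro h4
      rw [h4, Nat.cast_zero] at h2
      exact mul_ne_zero hG hz h2.symm
    obtain ⟨⟨p, hp⟩⟩ := (Nat.card_ne_zero.1 h3).1
    exact ⟨p.1, p.2, hp⟩
  have h2 : ∑ z, f z⁻¹ * f (z * g) = 0 := by
    refine Finset.sum_eq_zero fun z _ => ?_
    by_contra h3
    obtain ⟨a, b, hab⟩ := h1 _ (left_ne_zero_of_mul h3)
    obtain ⟨c, d, hcd⟩ := h1 _ (right_ne_zero_of_mul h3)
    exact hn a b c d (by rw [← hab, ← hcd]; group)
  have h3 : ∑ z, f z⁻¹ * f (z * g) = (Nat.card G : ℂ) *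
      ∑ χ : IrrCharacter G, (χ : G → ℂ) g / (χ : G → ℂ) 1 ^ 3 := by
    simp only [hf, Finset.sum_mul_sum]
    rw [Finset.sum_comm]
    simp only [Finset.sum_comm (s := (Finset.univ : Finset G))]
    rw [Finset.sum_comm, Finset.mul_sum]
    refine Finset.sum_congr rfl fun χ _ => ?_
    have h4 : ∀ ψ : IrrCharacter G, ∑ z : G, (ψ : G → ℂ) z⁻¹ / (ψ : G → ℂ) 1 *
        ((χ : G → ℂ) (z * g) / (χ : G → ℂ) 1) = if χ = ψ then
        (Nat.card G : ℂ) * ((χ : G → ℂ) g / (χ : G → ℂ) 1 ^ 3) else 0 := by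
      intro ψ
      simp only [div_mul_div_comm]
      rw [← Finset.sum_div, χ.2.sum_apply_inv_mul_apply_mul ψ.2.isCharacter, CL.Char.classInner_irr]
      split_ifs with h5
      · subst h5
        have := χ.2.one_ne_zero
        field_simp
      · simp
    simp only [h4, Finset.sum_ite_eq, Finset.mem_univ, if_true]
  rw [h2] at h3
  have h4 := (mul_eq_zero.1 h3.symm).resolve_left hG
  rw [← Finset.add_sum_erase _ _ (Finset.mem_univ (CL.Char.irrOne G))] at h h4
  simp only [CL.Char.irrOne_apply, one_pow, div_one, norm_one] at h h4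
  have h5 : ‖∑ χ ∈ Finset.univ.erase (CL.Char.irrOne G), (χ : G → ℂ) g / (χ : G → ℂ) 1 ^ 3‖ ≤
      ∑ χ ∈ Finset.univ.erase (CL.Char.irrOne G), 1 / ‖(χ : G → ℂ) 1‖ ^ 2 := by
    refine (norm_sum_le _ _).trans (Finset.sum_le_sum fun χ _ => ?_)
    have h6 := CL.Char.isChar_norm_le χ.2.isCharacter g
    have h7 : 0 < ‖(χ : G → ℂ) 1‖ := norm_pos_iff.2 χ.2.one_ne_zero
    rw [norm_div, norm_pow, div_le_div_iff₀ (by positivity) (by positivity)]
    nlinarith [sq_nonneg ‖(χ : G → ℂ) 1‖]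
  rw [eq_neg_of_add_eq_zero_right h4, norm_neg, norm_one] at h5
  linarith

end Cfsg.Agent.S4814
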