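import Cfsg.Statements.S4825
import Cfsg.Agent.Blk.PrincCrit2
import Cfsg.Agent.Char.PiSection2

set_option autoImplicit false
open Cfsg

namespace Cfsg.Agent.S4825

open Cfsg CL.Blk
open scoped ComplexConjugate

open Classical in
theorem dvd_sum_sq {G : Type*} [Group G] [Fintype G] {p : ℕ} {M : Ideal AlgInt} (hM : IsPModular p M)
    {B : Set (IrrCharacter G)} (hB : IsPBlock M B) {N : Subgroup G} [N.Normal] {x : G} {k : ℕ}
    (hx : x ^ p ^ k = 1) (hxN : x ∉ N) (A : Set (IrrCharacter N)) :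
    p ∣ ∑ χ : IrrCharacter G with χ ∈ B ∩ overSet N A, charDegree (χ : G → ℂ) ^ 2 := by
  have hp : p.Prime := hM.1
  have h1 : blockCoeff (B ∩ overSet N A) x⁻¹ = 0 := by
    rw [← coeff_blockIdem, ← blockIdem_mul_blockIdem, ← incl_blockIdem_orbitSet, coeff_mul_sum]
    refine Finset.sum_eq_zero fun s _ => ?_
    by_cases hs : p ∣ orderOf s
    · rw [coeff_blockIdem, blockCoeff_eq_zero_of_dvd_orderOf hM (blockIdem_mem_OG hM hB) hs, zero_mul]
    · rw [coeff_incl_of_notMem _ _ fun h => hxN ?_, mul_zero]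
      have h2 : (s : G ⧸ N) = (x⁻¹ : G) := QuotientGroup.eq.2 h
      have h3 : orderOf (s : G ⧸ N) ∣ p ^ k := by
        rw [h2, orderOf_dvd_iff_pow_eq_one, ← QuotientGroup.mk_pow, inv_pow, hx, inv_one,
          QuotientGroup.mk_one]
      have h4 : orderOf (s : G ⧸ N) = 1 := Nat.Coprime.eq_one_of_dvd (Nat.Coprime.pow_right _
        ((Nat.Prime.coprime_iff_not_dvd hp).2 fun h =>
          hs (h.trans (orderOf_map_dvd (QuotientGroup.mk' N) s))).symm) h3
      rwa [orderOf_eq_one_iff, h2, QuotientGroup.eq_one_iff, inv_mem_iff] at h4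
  rw [blockCoeff_eq_sum, mul_eq_zero,
    or_iff_right (inv_ne_zero (Nat.cast_ne_zero.2 Nat.card_pos.ne'))] at h1
  replace h1 : ∑ χ : IrrCharacter G with χ ∈ B ∩ overSet N A,
      (χ : G → ℂ) 1 * conj ((χ : G → ℂ) x⁻¹) = 0 := by convert h1
  rw [← val_natCast_lt_one_iff hM, ← sub_zero (Nat.cast _), ← h1]
  push_cast
  rw [← Finset.sum_sub_distrib]
  refine val_sum_lt_one _ _ fun χ _ => ?_
  rw [charDegree_cast_irr, sq, ← mul_sub, irr_conj, inv_inv]
  refine val_mul_lt_one_right (mem_valRing_of_isIntegral M (irr_isIntegral χ 1)) ?_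
  have := CL.Char.val_char_mul_sub_lt_one hM χ.2.isCharacter (Commute.one_right x) hx
  rwa [mul_one, Valuation.map_sub_swap] at this

/-- Let p be a prime, G a finite group with Sylow p-subgroup P, M a maximal ideal of the algebraic integers containing p, and B a p-block of G with defect group P. Let N be a normal subgroup of G not containing P and θ an irreducible character of N. Then the number of irreducible characters in B of degree prime to p lying over θ (having θ as a constituent on restriction to N) is either 0 or at least 2, and when p ≤ 3 it is divisible by p. -/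
theorem result {G : Type*} [Group G] [Fintype G] (p : ℕ) [Fact p.Prime] (P : Sylow p G) (M : Ideal Cfsg.AlgInt) (hM : Cfsg.IsPModular p M) (B : Set (Cfsg.IrrCharacter G)) (hB : Cfsg.IsPBlock M B) (hBP : Cfsg.IsDefectGroup p M B P) (N : Subgroup G) [N.Normal] [Fintype N] (hPN : ¬ (P : Subgroup G) ≤ N) (θ : Cfsg.IrrCharacter N) :
    (Nat.card {χ : Cfsg.IrrCharacter G // χ ∈ B ∧ ¬ p ∣ Cfsg.charDegree (χ : G → ℂ) ∧ Cfsg.classInner (fun n : N => (χ : G → ℂ) n) (θ : N → ℂ) ≠ 0} = 0 ∨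
      2 ≤ Nat.card {χ : Cfsg.IrrCharacter G // χ ∈ B ∧ ¬ p ∣ Cfsg.charDegree (χ : G → ℂ) ∧ Cfsg.classInner (fun n : N => (χ : G → ℂ) n) (θ : N → ℂ) ≠ 0}) ∧
    (p ≤ 3 → p ∣ Nat.card {χ : Cfsg.IrrCharacter G // χ ∈ B ∧ ¬ p ∣ Cfsg.charDegree (χ : G → ℂ) ∧ Cfsg.classInner (fun n : N => (χ : G → ℂ) n) (θ : N → ℂ) ≠ 0}) := by
  classical
  have hp : p.Prime := Fact.out
  obtain ⟨x, hxP, hxN⟩ := SetLike.not_le_iff_exists.1 hPN
  obtain ⟨k, hk⟩ := P.isPGroup' ⟨x, hxP⟩
  have h := (ZMod.natCast_eq_zero_iff _ _).2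
    (dvd_sum_sq hM hB (k := k) (congrArg Subtype.val hk) hxN {θ})
  set S := Finset.univ.filter fun χ : IrrCharacter G => χ ∈ B ∧ ¬ p ∣ charDegree (χ : G → ℂ) ∧
    classInner (fun n : N => (χ : G → ℂ) n) (θ : N → ℂ) ≠ 0 with hS
  have hc : Nat.card {χ : IrrCharacter G // χ ∈ B ∧ ¬ p ∣ charDegree (χ : G → ℂ) ∧
      classInner (fun n : N => (χ : G → ℂ) n) (θ : N → ℂ) ≠ 0} = S.card := by
    rw [Nat.card_eq_fintype_card, Fintype.card_subtype]
  have h1 : ∑ χ ∈ S, (charDegree (χ : G → ℂ) : ZMod p) ^ 2 = 0 := by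
    rw [← h, Nat.cast_sum, hS, Finset.sum_filter, Finset.sum_filter]
    refine Finset.sum_congr rfl fun χ _ => ?_
    by_cases h2 : p ∣ charDegree (χ : G → ℂ)
    · simp [(ZMod.natCast_eq_zero_iff _ _).2 h2]
    · simp [h2, mem_overSet, over_iff]
  have h2 : ∀ χ ∈ S, (charDegree (χ : G → ℂ) : ZMod p) ≠ 0 := fun χ hχ h3 =>
    (Finset.mem_filter.1 hχ).2.2.1 ((ZMod.natCast_eq_zero_iff _ _).1 h3)
  rw [hc]
  refine ⟨?_, fun h3 => ?_⟩
  · by_contra h3
    obtain ⟨χ, hχ⟩ := Finset.card_eq_one.1 (show S.card = 1 by omega)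
    rw [hχ, Finset.sum_singleton] at h1
    exact h2 χ (hχ ▸ Finset.mem_singleton_self χ) (pow_eq_zero_iff two_ne_zero |>.1 h1)
  · rw [← ZMod.natCast_eq_zero_iff, ← h1, Finset.card_eq_sum_ones, Nat.cast_sum]
    refine Finset.sum_congr rfl fun χ hχ => ?_
    have h4 := ZMod.pow_card_sub_one_eq_one (h2 χ hχ)
    have h5 := hp.two_le
    obtain rfl | rfl : p = 2 ∨ p = 3 := by omega
    · rw [show 2 - 1 = 1 from rfl, pow_one] at h4
      rw [h4]; simp
    · rw [Nat.cast_one]; exact h4.symm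

end Cfsg.Agent.S4825
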