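import Cfsg.Statements.S4828
import Cfsg.Agent.Blk.PairWt
-- import your own Cfsg.Agent.* helpers here

set_option autoImplicit false
open Cfsg

namespace Cfsg.Agent.S4828

/-- Let p be a prime, M a maximal ideal of the algebraic integers containing p, and (Q, e) a Brauer pair of the finite group G (Q a p-subgroup, e a block of C_G(Q)). Then (Q, e) is a maximal Brauer pair of some block of G if and only if e contains an irreducible character θ such that θ takes the value θ(1) at every element of Z(Q) = Q ∩ C_G(Q), the p-part of θ(1) times the p-part of the order of Z(Q) equals the p-part of the order of C_G(Q) (θ has defect zero as a character of C_G(Q)/Z(Q)), and every element of N_G(Q) of p-power order that stabilizes e lies in Q·C_G(Q) (the stabilizer of e in N_G(Q) has index prime to p over Q·C_G(Q)). -/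
theorem result {G : Type*} [Group G] [Finite G] (p : ℕ) [Fact p.Prime] (M : Ideal Cfsg.AlgInt) (hM : Cfsg.IsPModular p M) (Q : Subgroup G) (e : Set (Cfsg.IrrCharacter (Subgroup.centralizer (Q : Set G)))) (he : Cfsg.IsBrauerPair p M Q e) :
    (∃ B : Set (Cfsg.IrrCharacter G), Cfsg.IsMaximalBrauerPair p M B Q e) ↔
      ∃ θ ∈ e, (∀ z : Subgroup.centralizer (Q : Set G), (z : G) ∈ Q → (θ : Subgroup.centralizer (Q : Set G) → ℂ) z = (θ : Subgroup.centralizer (Q : Set G) → ℂ) 1) ∧
        (Cfsg.charDegree (θ : Subgroup.centralizer (Q : Set G) → ℂ)).factorization p + (Nat.card ↥(Q ⊓ Subgroup.centralizer (Q : Set G))).factorization p = (Nat.card (Subgroup.centralizer (Q : Set G))).factorization p ∧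
        (∀ g : G, g ∈ Subgroup.normalizer (Q : Set G) → Cfsg.StabilizesBlock (Subgroup.centralizer (Q : Set G)) e g → (∃ k : ℕ, orderOf g = p ^ k) → g ∈ Q ⊔ Subgroup.centralizer (Q : Set G)) := by
  open CL.Blk CL.Blk.Pair in
  have := charP_resField hM
  have : IsAlgClosed (resField M) := inferInstance
  have hf := isPair_hat hM he
  have hZ : (Q ⊓ Subgroup.centralizer (Q : Set G)).subgroupOf (Subgroup.centralizer (Q : Set G)) ≤
      Subgroup.center _ := fun z hz =>
    Subgroup.mem_center_iff.2 fun y => Subtype.ext (y.2 z hz.1).symm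
  have hc := factorization_card_eq_add p
    ((Q ⊓ Subgroup.centralizer (Q : Set G)).subgroupOf (Subgroup.centralizer (Q : Set G)))
  rw [Nat.card_congr (Subgroup.subgroupOfEquivOfLe inf_le_right).toEquiv] at hc
  constructor
  · rintro ⟨B, hB⟩
    have h := isMax_of_isMaximal hM hB
    have hD := h.isDef_inf_self (cen_top Q).le hf.centralizer_le_nst
      (inf_le_right.trans (normalizer_le_normalizer_centralizer Q))
    obtain ⟨θ, hθ, h1, h2, -⟩ := dc_exists_canon hM he.2
      ((isDefectGroup_subgroupOf_iff_isDef hM he.2 inf_le_right).2 hD) (dc_of_le_center hZ)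
    refine ⟨θ, hθ, fun z hz => h1 z ⟨hz, z.2⟩, by omega, fun g hg1 hg2 ⟨k, hk⟩ => ?_⟩
    refine h.le_sup_centralizer (U := Subgroup.zpowers g) (pExt_of_isPGroup ?_)
      ((Subgroup.zpowers_le (G := G)).2 ((mem_nst_top_iff hM he.2).2 ⟨hg1, hg2⟩))
      (Subgroup.mem_zpowers g)
    exact IsPGroup.of_card (by rw [Nat.card_zpowers, hk])
  · rintro ⟨θ, hθ, -, h2, h3⟩
    have hD := (laradji (D := (Q ⊓ Subgroup.centralizer (Q : Set G)).subgroupOf _) hM
      ((hf.pgroup.to_le inf_le_left).comap_of_injective _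
      (Subgroup.subtype_injective _)) hZ θ (by omega)).1
    rw [← tr_eq_blockOf hM he.2 hθ, isDefectGroup_subgroupOf_iff_isDef hM he.2 inf_le_right] at hD
    obtain ⟨b, hb, hbf⟩ := hf.exists_isBlk le_rfl le_top
    obtain ⟨B, hB, rfl⟩ := exists_eBlk_eq hM hb
    refine ⟨B, (isMaximalBrauerPair_iff hM).2 ⟨(isBrauerPairOf_iff hM).2 ⟨he, hB, hbf⟩, ?_⟩⟩
    refine isDef_of_maximal hb le_rfl top_le_normalizer_top hf le_top hbf
      fun R hR hQR hRN hfix => ?_
    by_contra h0
    have h4 := hD.max (R ⊓ Subgroup.centralizer (Q : Set G)) (hR.to_le inf_le_left)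
      (inf_le_inf hQR.le le_rfl) inf_le_right fun h => h0 (br_eq_zero_of_le inf_le_left h)
    refine hQR.not_ge fun g hg => ?_
    have h5 : g ∈ nst ⊤ Q (hat M _ e) := ⟨hRN hg, mem_stab.2 (hfix g hg)⟩
    obtain ⟨h6, h7⟩ := (mem_nst_top_iff hM he.2).1 h5
    obtain ⟨u, hu, c, hc, rfl⟩ := (mem_sup_iff_of_le_normalizer
      (Subgroup.le_normalizer.trans (normalizer_le_normalizer_centralizer Q))).1
      (h3 g h6 h7 (exists_orderOf_eq_of_mem hR hg))
    have h8 : c ∈ R ⊓ Subgroup.centralizer (Q : Set G) :=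
      ⟨(R.mul_mem_cancel_left (hQR.le hu)).1 hg, hc⟩
    rw [h4] at h8
    exact Q.mul_mem hu h8.1


end Cfsg.Agent.S4828
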