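import Cfsg.Statements.S4836
import Cfsg.Agent.Char.Gagola

set_option autoImplicit false
open Cfsg

namespace Cfsg.Agent.S4836

/-- Let G be a finite group of order greater than 2 with an irreducible character χ that is nonzero on exactly two conjugacy classes. Then χ is faithful (it takes the value χ(1) only at the identity), it is the only faithful irreducible character of G, and it is the only irreducible character of G that is nonzero on exactly two conjugacy classes. -/
theorem result {G : Type*} [Group G] [Finite G] (hG : 2 < Nat.card G) (χ : Cfsg.IrrCharacter G) (hχ : Nat.card {C : ConjClasses G // ∃ g ∈ C.carrier, (χ : G → ℂ) g ≠ 0} = 2) :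
    (∀ g : G, (χ : G → ℂ) g = (χ : G → ℂ) 1 → g = 1) ∧
      (∀ ψ : Cfsg.IrrCharacter G, (∀ g : G, (ψ : G → ℂ) g = (ψ : G → ℂ) 1 → g = 1) → ψ = χ) ∧
      (∀ ψ : Cfsg.IrrCharacter G, Nat.card {C : ConjClasses G // ∃ g ∈ C.carrier, (ψ : G → ℂ) g ≠ 0} = 2 → ψ = χ) := by
  obtain ⟨N, h⟩ := CL.Char.exists_gagola hG χ.2 hχ
  refine ⟨fun g hg => ?_, fun ψ hψ => Subtype.ext (h.eq_of_faithful ψ.2
    (eq_bot_iff.2 fun g hg => hψ g (ψ.2.mem_charKer.1 hg))), fun ψ hψ => ?_⟩
  · exact Subgroup.mem_bot.1 (h.faithful ▸ χ.2.mem_charKer.2 hg)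
  · obtain ⟨M, h'⟩ := CL.Char.exists_gagola hG ψ.2 hψ
    exact Subtype.ext (h.eq_of_faithful ψ.2 h'.faithful)

end Cfsg.Agent.S4836
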