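import Cfsg.Statements.S4838
import Cfsg.Agent.Char.Gagola

set_option autoImplicit false
open Cfsg

namespace Cfsg.Agent.S4838

/-- Let G be a finite group of order greater than 2 with an irreducible character χ nonzero on exactly two conjugacy classes, N the normal p-subgroup of elements where χ is nonzero, and P a Sylow p-subgroup of G. Then (a) for every x outside N the centralizer of x in G has the same order as the centralizer of xN in G/N; (b) the centre of P lies in N, and equals N exactly when P is normal in G; (c) N, viewed inside P, is a term of the upper central series of P. -/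
theorem result {G : Type*} [Group G] [Finite G] (hG : 2 < Nat.card G) (χ : Cfsg.IrrCharacter G) (hχ : Nat.card {C : ConjClasses G // ∃ g ∈ C.carrier, (χ : G → ℂ) g ≠ 0} = 2) (p : ℕ) [Fact p.Prime] (N : Subgroup G) [N.Normal] (hN : ∀ g : G, g ∈ N ↔ (χ : G → ℂ) g ≠ 0) (hNp : IsPGroup p N) (hN1 : N ≠ ⊥) (P : Sylow p G) :
    (∀ x : G, x ∉ N → Nat.card (Subgroup.centralizer ({x} : Set G)) = Nat.card (Subgroup.centralizer ({(x : G ⧸ N)} : Set (G ⧸ N)))) ∧
      ((Subgroup.center ↥(P : Subgroup G)).map (P : Subgroup G).subtype ≤ N ∧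
        ((Subgroup.center ↥(P : Subgroup G)).map (P : Subgroup G).subtype = N ↔ (P : Subgroup G).Normal)) ∧
      (∃ i : ℕ, Subgroup.upperCentralSeries ↥(P : Subgroup G) i = N.subgroupOf (P : Subgroup G)) := by
  obtain ⟨M, h⟩ := CL.Char.exists_gagola hG χ.2 hχ
  obtain rfl : N = M := Subgroup.ext fun g => (hN g).trans (h.mem g).symm
  have hNP : N ≤ P := hNp.le_sylow_of_normal P
  have h1 : (Subgroup.center (P : Subgroup G)).map (P : Subgroup G).subtype ≤ N := by
    rintro _ ⟨z, hz, rfl⟩
    refine h.mem_of_commutator_mem hNp P (Z := ⊥) (by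
      rw [Subgroup.card_bot]; exact (Subgroup.one_lt_card_iff_ne_bot N).2 hN1) fun y => ?_
    rw [← Subgroup.mem_center_iff.1 hz y, mul_inv_cancel_right, mul_inv_cancel]
    exact Subgroup.one_mem _
  refine ⟨fun x hx => h.card_centralizer hx, ⟨h1, fun h2 => ?_, fun h2 => le_antisymm h1 ?_⟩,
    h.exists_upperCentralSeries hNp P⟩
  · obtain ⟨⟨x, hx⟩, hx1⟩ := Subgroup.ne_bot_iff_exists_ne_one.1 hN1
    have h3 : (P : Subgroup G) ≤ Subgroup.centralizer (N : Set G) := fun y hy n hn => by
      obtain ⟨z, hz, rfl⟩ := h2.ge hn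
      exact (congrArg Subtype.val (Subgroup.mem_center_iff.1 hz ⟨y, hy⟩)).symm
    rw [← P.is_maximal' ((h.isPGroup_centralizer hNp hx fun h4 => hx1 (Subtype.ext h4)).to_le
      (Subgroup.centralizer_le (Set.singleton_subset_iff.2 hx))) h3]
    infer_instance
  · refine h.le_of_normal _ fun h3 => ?_
    have := (Subgroup.nontrivial_iff_ne_bot _).2 (ne_bot_of_le_ne_bot hN1 hNP)
    have := P.isPGroup'.center_nontrivial
    exact (Subgroup.nontrivial_iff_ne_bot _).1 this
      ((Subgroup.map_eq_bot_iff_of_injective _ (Subgroup.subtype_injective _)).1 h3)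

end Cfsg.Agent.S4838
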