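import Cfsg.Statements.S4839
import Cfsg.Agent.Char.GagolaFrob
-- import your own Cfsg.Agent.* helpers here

set_option autoImplicit false
open Cfsg

namespace Cfsg.Agent.S4839

/-- Let G be a finite group of order greater than 2 with an irreducible character χ nonzero on exactly two conjugacy classes, and let N be the normal p-subgroup of elements where χ is nonzero. Then N is the whole p-core O_p(G) if and only if G is a doubly transitive Frobenius group with kernel N: G has a Frobenius complement H whose Frobenius kernel is N and whose order is one less than that of N. -/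
theorem result {G : Type*} [Group G] [Finite G] (hG : 2 < Nat.card G) (χ : Cfsg.IrrCharacter G) (hχ : Nat.card {C : ConjClasses G // ∃ g ∈ C.carrier, (χ : G → ℂ) g ≠ 0} = 2) (p : ℕ) [Fact p.Prime] (N : Subgroup G) [N.Normal] (hN : ∀ g : G, g ∈ N ↔ (χ : G → ℂ) g ≠ 0) (hNp : IsPGroup p N) (hN1 : N ≠ ⊥) :
    N = Cfsg.pCore p G ↔ ∃ H : Subgroup G, Cfsg.IsFrobeniusComplement H ∧ Cfsg.frobeniusKernel H = (N : Set G) ∧ Nat.card H + 1 = Nat.card N := by
  obtain ⟨N', h⟩ := CL.Char.exists_gagola hG χ.2 hχ
  obtain rfl : N = N' := Subgroup.ext fun g => (hN g).trans (h.mem g).symm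
  refine ⟨h.exists_frob hNp hG, fun ⟨H, h1, h2, h3⟩ => ?_⟩
  have h4 := (CL.Grp.isMalnormal_of_frob h1).card_kernel
  have h5 : N.index = Nat.card H := by
    have h5 := N.card_mul_index
    rw [h2] at h4
    rw [← H.index_mul_card, ← h4] at h5
    exact Nat.eq_of_mul_eq_mul_left Nat.card_pos h5
  exact ((hNp.toSylow (h5 ▸ h.not_dvd hNp h3)).is_maximal' (CL.Grp.pCore_isPGroup p G)
    (CL.Grp.le_pCore (N := N) hNp)).symm


end Cfsg.Agent.S4839
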