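import Cfsg.Statements.S4840
import Cfsg.Agent.Char.Gagola
import Cfsg.Agent.Inv.Misc1
import Cfsg.Agent.Grp.Supersolv
import Cfsg.Agent.Grp.FrobCompl
import Cfsg.Agent.Grp.PNilp

set_option autoImplicit false
open Cfsg

namespace Cfsg.Agent.S4840

open scoped IsMulCommutative commutatorElement in
theorem aux1 {H V : Type*} [Group H] [Finite H] [Group V] [Finite V] [IsMulCommutative V]
    [MulDistribMulAction H V] (h3 : ∀ v : V, v ^ 3 = 1) {a b : H} (ha : ∀ v : V, (a * a) • v = v⁻¹)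
    (hb : b * b = a * a) (hab : b * a * b⁻¹ = a⁻¹) [Nontrivial V] :
    ∃ W : Subgroup V, W ≠ ⊥ ∧ Nat.card W ^ 2 ≤ Nat.card V ∧
      ∀ c : H, Commute c a → Commute c b → ∀ w ∈ W, c • w ∈ W := by
  let T : V →* V := MulDistribMulAction.toMonoidHom V a * MulDistribMulAction.toMonoidHom V b
  have hT : ∀ v, T v = a • v * b • v := fun v => rfl
  have h4 : a * a * (a * a) = 1 := by
    have h5 : b * (a * a) * b⁻¹ = (a * a)⁻¹ := by
      rw [mul_inv_rev, ← hab]; group
    rw [← hb, show b * (b * b) * b⁻¹ = b * b by group] at h5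
    rw [← hb]
    exact mul_eq_one_iff_eq_inv.2 h5
  have h5 : a⁻¹ = a * a * a := inv_eq_of_mul_eq_one_right (by rw [← h4]; group)
  have hba : b * a = a * a * (a * b) := by rw [← mul_assoc, ← h5, ← hab]; group
  have hinv : ∀ v : V, v⁻¹ * v⁻¹ = v := fun v => by
    rw [← mul_inv_rev, inv_eq_iff_mul_eq_one, ← h3 v, pow_three, mul_assoc]
  have hTT : ∀ v, T (T v) = v := fun v => by
    rw [hT, hT, smul_mul', smul_mul', smul_smul, smul_smul, smul_smul, smul_smul, hb, hba,
      mul_smul (a * a), ha, ha, mul_assoc, mul_inv_cancel_left, hinv]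
  have hk : ∀ v, T ((a * b) • v) = ((a * b) • T v)⁻¹ := fun v => by
    rw [hT, hT, ← ha, smul_mul', smul_mul', smul_smul, smul_smul, smul_smul, smul_smul, smul_smul,
      smul_smul, ← mul_assoc b, hba, mul_assoc (a * a) (a * b) a, mul_assoc a b a, hba,
      show a * a * (a * (a * a * (a * b))) = a * a * (a * a) * (a * (a * b)) by
        simp only [mul_assoc], h4, one_mul]
  let W : Subgroup V := T.eqLocus (MonoidHom.id V)
  have hW : ∀ v, v ∈ W ↔ T v = v := fun v => Iff.rfl
  refine ⟨W, fun h => ?_, ?_, fun c hca hcb w hw => ?_⟩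
  · obtain ⟨v, hv⟩ := exists_ne (1 : V)
    have h6 : ∀ v : V, T v = v⁻¹ := fun v => by
      have h7 : v * T v ∈ W := by rw [hW, map_mul, hTT, mul_comm]
      rw [h, Subgroup.mem_bot] at h7
      exact eq_inv_of_mul_eq_one_right h7
    have h7 := hk v
    rw [h6, h6, smul_inv', inv_inv] at h7
    have h8 := hinv ((a * b) • v)
    rw [h7, mul_eq_left, smul_eq_iff_eq_inv_smul, smul_one] at h8
    exact hv h8
  · rw [sq, ← Nat.card_prod]
    refine Nat.card_le_card_of_injective (fun x : W × W => x.1.1 * (a * b) • x.2.1) fun x y hxy => ?_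
    have h6 := congrArg T hxy
    simp only [map_mul, hk, (hW _).1 x.1.2, (hW _).1 x.2.2, (hW _).1 y.1.2, (hW _).1 y.2.2] at h6
    have h7 : ∀ u v : V, (u * v * (u * v⁻¹))⁻¹ = u := fun u v => by
      rw [mul_mul_mul_comm, mul_inv_cancel, mul_one, mul_inv_rev, hinv]
    have h8 : x.1.1 = y.1.1 := by rw [← h7 x.1.1 ((a * b) • x.2.1), ← h7 y.1.1 ((a * b) • y.2.1), h6,
      show x.1.1 * (a * b) • x.2.1 = y.1.1 * (a * b) • y.2.1 from hxy]
    refine Prod.ext (Subtype.ext h8) (Subtype.ext ?_)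
    simpa [h8] using hxy
  · rw [hW, hT, smul_smul, smul_smul, ← hca.eq, ← hcb.eq, mul_smul, mul_smul, ← smul_mul', ← hT,
      (hW w).1 hw]

theorem aux2 {H V : Type*} [Group H] [Finite H] [Group V] [Finite V] [MulDistribMulAction H V]
    (C : Subgroup H) (W : Subgroup V) (hW : ∀ c ∈ C, ∀ w ∈ W, c • w ∈ W) {w : V} (hw : w ∈ W)
    (h1 : w ≠ 1) : (MulAction.stabilizer H w).relIndex C + 1 ≤ Nat.card W := by
  rw [show (MulAction.stabilizer H w).relIndex C = (MulAction.stabilizer C w).index from rfl,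
    MulAction.index_stabilizer, ← Nat.card_coe_set_eq, ← Finite.card_option]
  refine Nat.card_le_card_of_injective (fun o => o.elim 1 fun y => ⟨y.1, ?_⟩) ?_
  · obtain ⟨c, hc⟩ := y.2
    exact hc ▸ hW c c.2 w hw
  · have h2 : ∀ y : MulAction.orbit C w, y.1 ≠ 1 := fun ⟨_, c, rfl⟩ h3 =>
      h1 (by simpa [smul_eq_iff_eq_inv_smul] using h3)
    rintro (_ | a) (_ | b) hab
    · rfl
    · exact absurd (congrArg Subtype.val hab).symm (h2 b)
    · exact absurd (congrArg Subtype.val hab) (h2 a)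
    · exact congrArg some (Subtype.ext (congrArg (Subtype.val : W → V) hab))

open scoped commutatorElement in
theorem aux3 {H V : Type*} [Group H] [Finite H] [Group.IsSolvable H] [Group V] [Finite V]
    [IsMulCommutative V] [Nontrivial V] [MulDistribMulAction H V] {p : ℕ} [hp : Fact p.Prime]
    (hV : ∀ v : V, v ^ p = 1) (hst : ∀ v : V, v ≠ 1 → IsPGroup p (MulAction.stabilizer H v))
    (htr : ∀ v : V, v ≠ 1 → (MulAction.stabilizer H v).index + 1 = Nat.card V)
    (hO : pCore p H = ⊥) (P : Sylow p H) {u : H} (hu : u ∈ P) (g : H) :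
    ⁅u, g⁆ ∈ fittingSubgroup H := by
  have hF : (Nat.card (fittingSubgroup H)).Coprime p := CL.Grp.coprime_of_le_pPrimeCore
    ((CL.Grp.fittingSubgroup_le_pCore_sup_pPrimeCore p).trans (by rw [hO, bot_sup_eq]))
  have hfpf : ∀ a ∈ fittingSubgroup H, a ≠ 1 → ∀ v : V, a • v = v → v = 1 := fun a ha h1 v hv => by
    by_contra h2
    exact h1 (CL.Grp.eq_one_of_coprime_of_mem (hst v h2) hv
      (hF.coprime_dvd_left ((fittingSubgroup H).orderOf_dvd_natCard ha)))
  have hPQ : CL.Grp.PQCyclic (fittingSubgroup H) := CL.Grp.pqCyclic_of_fpf_action (K := V)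
    fun a h1 => hfpf a a.2 fun h2 => h1 (Subtype.ext h2)
  have hc : ∀ (r : ℕ) [Fact r.Prime], IsCyclic (pCore r H) ∨
      (r = 2 ∧ ∃ n : ℕ, Nonempty (pCore r H ≃* QuaternionGroup (2 ^ n))) := fun r _ => by
    have e := Subgroup.subgroupOfEquivOfLe (CL.Grp.pCore_le_fittingSubgroup (G := H) r)
    exact (hPQ.isCyclic_or_quaternion ((CL.Grp.pCore_isPGroup r H).of_equiv e.symm)).imp
      (fun h => e.isCyclic.1 h) fun ⟨h1, n, ⟨f⟩⟩ => ⟨h1, n, ⟨e.symm.trans f⟩⟩
  have hcomm : ⁅u, g⁆ ∈ commutator H :=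
    Subgroup.commutator_mem_commutator (Subgroup.mem_top u) (Subgroup.mem_top g)
  have key : ⁅u, g⁆ ∈ Subgroup.centralizer (pCore 2 H : Set H) → ⁅u, g⁆ ∈ fittingSubgroup H :=
    fun h => CL.Grp.centralizer_fittingSubgroup_le H (Subgroup.le_centralizer_iff.1
      (CL.Grp.fittingSubgroup_le_of_forall_pCore_le fun r _ => Subgroup.le_centralizer_iff.1
        ((Subgroup.zpowers_le (g := ⁅u, g⁆)).2 (by
          rcases hc r with h1 | ⟨rfl, -⟩
          · exact CL.Grp.commutator_le_centralizer_of_isCyclic _ hcomm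
          · exact h))) (Subgroup.mem_zpowers _))
  by_cases hcyc : IsCyclic (pCore 2 H)
  · exact key (CL.Grp.commutator_le_centralizer_of_isCyclic _ hcomm)
  obtain ⟨-, n, ⟨e⟩⟩ := (hc 2).resolve_left hcyc
  have hp2 : p ≠ 2 := by
    rintro rfl
    exact hcyc (hO ▸ inferInstance)
  set Q := pCore 2 H with hQ
  have hker : (MulAut.conjNormal : H →* MulAut Q).ker = Subgroup.centralizer (Q : Set H) := by
    ext x
    simp only [MonoidHom.mem_ker, MulEquiv.ext_iff, Subtype.ext_iff, MulAut.conjNormal_apply,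
      Subgroup.mem_centralizer_iff, MulAut.one_apply, Subtype.forall, SetLike.mem_coe,
      mul_inv_eq_iff_eq_mul]
    exact forall₂_congr fun _ _ => eq_comm
  have key2 : ¬ p ∣ Nat.card (MulAut Q) → ⁅u, g⁆ ∈ fittingSubgroup H := fun h => key
    (CL.Grp.commutatorElement_mem_of_normal_left (by
      obtain ⟨k, hk⟩ := P.isPGroup'.exists_orderOf_eq_pow ⟨u, hu⟩
      rw [← hker, MonoidHom.mem_ker, ← orderOf_eq_one_iff]
      rw [Subgroup.orderOf_mk] at hk
      exact Nat.eq_one_of_dvd_coprimes (Nat.Coprime.pow_left k (hp.out.coprime_iff_not_dvd.2 h))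
        (hk ▸ orderOf_map_dvd _ u) (orderOf_dvd_natCard _)) g)
  rcases n with _ | _ | n
  · have := QuaternionGroup.quaternionGroup_one_isCyclic
    exact absurd (isCyclic_of_surjective e.symm e.symm.surjective) hcyc
  swap
  · obtain ⟨k, hk⟩ := IsPGroup.iff_card.1 (CL.Inv.isPGroup_mulAut_of_quaternion (by omega) e)
    exact key2 fun h => hp2 ((Nat.prime_dvd_prime_iff_eq hp.out Nat.prime_two).1
      (hp.out.dvd_of_dvd_pow (hk ▸ h)))
  have h24 : Nat.card (MulAut Q) = 24 := CL.Inv.card_mulAut_of_quaternion e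
  by_cases hp3 : p = 3
  swap
  · refine key2 fun h => ?_
    rw [h24, show 24 = 2 ^ 3 * 3 from rfl, hp.out.dvd_mul] at h
    exact h.elim (fun h => hp2 ((Nat.prime_dvd_prime_iff_eq hp.out Nat.prime_two).1
      (hp.out.dvd_of_dvd_pow h))) fun h => hp3 ((Nat.prime_dvd_prime_iff_eq hp.out Nat.prime_three).1 h)
  subst hp3
  have hQF : Q ≤ fittingSubgroup H := CL.Grp.pCore_le_fittingSubgroup 2
  have hQ8 : Nat.card Q = 8 := by
    rw [Nat.card_congr e.toEquiv, Nat.card_eq_fintype_card]; rfl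
  have hC : (Subgroup.centralizer (Q : Set H)).index ∣ 24 := by
    rw [← hker, Subgroup.index_ker, ← h24]
    exact Subgroup.card_subgroup_dvd_card _
  let a : Q := e.symm (QuaternionGroup.a 1)
  let b : Q := e.symm (QuaternionGroup.xa 0)
  have hz1 : (a : H) * a ≠ 1 := fun h => by
    have h1 : a * a = 1 := Subtype.ext h
    rw [← map_mul, map_eq_one_iff _ e.symm.injective] at h1
    exact absurd h1 (by decide)
  have hz2 : (a : H) * a * (a * a) = 1 := by
    rw [← Subgroup.coe_mul, ← Subgroup.coe_mul, ← map_mul, ← map_mul, ← OneMemClass.coe_one Q,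
      ← map_one e.symm]
    rfl
  obtain ⟨W, hW, hWc, hWi⟩ := aux1 hV (a := (a : H)) (b := (b : H)) (fun v => by
    refine eq_inv_of_mul_eq_one_right (hfpf _ (hQF (a * a).2) hz1 _ ?_)
    rw [smul_mul', smul_smul, Subgroup.coe_mul, hz2, one_smul]
    exact IsMulCommutative.is_comm.comm _ _)
    (by rw [← Subgroup.coe_mul, ← Subgroup.coe_mul, ← map_mul, ← map_mul]; rfl)
    (by rw [← Subgroup.coe_inv, ← Subgroup.coe_inv, ← Subgroup.coe_mul, ← Subgroup.coe_mul,
      ← map_inv, ← map_inv, ← map_mul, ← map_mul]; rfl)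
  obtain ⟨⟨w, hw⟩, hw1⟩ := Subgroup.ne_bot_iff_exists_ne_one.1 hW
  replace hw1 : w ≠ 1 := fun h => hw1 (Subtype.ext h)
  have h1 := aux2 (Subgroup.centralizer (Q : Set H)) W (fun c hc => hWi c (hc a a.2).symm
    (hc b b.2).symm) hw hw1
  have h2 := htr w hw1
  obtain ⟨k, hk⟩ := IsPGroup.iff_card.1 (show IsPGroup 3 V from fun v => ⟨1, by rw [pow_one, hV]⟩)
  have hk0 : k ≠ 0 := by
    rintro rfl
    exact Finite.one_lt_card.ne' hk
  set i := (MulAction.stabilizer H w).index with hi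
  have h3 : Nat.Coprime i 3 := Nat.Coprime.symm (Nat.prime_three.coprime_iff_not_dvd.2 fun h =>
    absurd ((Nat.dvd_add_right h).1 (h2 ▸ hk ▸ dvd_pow_self 3 hk0)) (by decide))
  have h4 : i ∣ 8 * (MulAction.stabilizer H w).relIndex (Subgroup.centralizer (Q : Set H)) := by
    refine h3.dvd_of_dvd_mul_left ((Subgroup.index_dvd_of_le
      (inf_le_left (b := Subgroup.centralizer (Q : Set H)))).trans ?_)
    rw [← Subgroup.relIndex_mul_index inf_le_right, Subgroup.inf_relIndex_right, ← mul_assoc, mul_comm]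
    exact Nat.mul_dvd_mul_right hC _
  have h5 : i ≤ 8 * (MulAction.stabilizer H w).relIndex (Subgroup.centralizer (Q : Set H)) :=
    Nat.le_of_dvd (Nat.mul_pos (by norm_num) (Nat.pos_of_ne_zero
    Subgroup.index_ne_zero_of_finite)) h4
  have h6 := (Subgroup.one_lt_card_iff_ne_bot W).2 hW
  obtain ⟨j, hj⟩ := IsPGroup.iff_card.1 (hst w hw1)
  have h7 := (MulAction.stabilizer H w).index_mul_card
  have h8 : 8 ∣ i := (Nat.Coprime.pow_right j (by decide : Nat.Coprime 8 3)).dvd_of_dvd_mul_right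
    (by rw [← hj, h7, ← hQ8]; exact Subgroup.card_subgroup_dvd_card Q)
  have h9 : i = 8 := by
    have h10 : Nat.card W ≤ 7 := by nlinarith
    have h11 : 3 ^ k < 3 ^ 4 := by omega
    have := (Nat.pow_lt_pow_iff_right (by norm_num)).1 h11
    interval_cases k <;> omega
  have h10 : Q = fittingSubgroup H := Subgroup.eq_of_le_of_card_ge hQF (Nat.le_of_dvd (by omega)
    ((hF.pow_right j).dvd_of_dvd_mul_right (by
      rw [hQ8, ← h9, ← hj, h7]; exact Subgroup.card_subgroup_dvd_card _)))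
  have h11 : (fittingSubgroup H).index = 3 ^ j := by
    have := Q.card_mul_index
    rw [hQ8, ← h7, ← hi, h9, hj, h10] at this
    omega
  have h12 : (fittingSubgroup H).index ∣ 3 := by
    have := (Subgroup.index_dvd_of_le (CL.Grp.centralizer_fittingSubgroup_le H)).trans (h10 ▸ hC)
    rw [h11] at this ⊢
    exact (Nat.Coprime.pow_left j (by decide : Nat.Coprime 3 8)).dvd_of_dvd_mul_left this
  have := isCyclic_of_card_dvd_prime (α := H ⧸ fittingSubgroup H) h12
  rw [← QuotientGroup.eq_one_iff, ← QuotientGroup.mk'_apply, map_commutatorElement,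
    commutatorElement_eq_one_iff_mul_comm]
  exact IsCyclic.isMulCommutative.is_comm.comm _ _


/-- Let G be a finite solvable group of order greater than 2 with an irreducible character nonzero on exactly two conjugacy classes. Then there is exactly one prime p with O_p(G) ≠ 1, and the quotient G/O_p(G) has a normal p-complement and commutative Sylow p-subgroups. -/
theorem result {G : Type*} [Group G] [Finite G] [hs : Group.IsSolvable G] (hG : 2 < Nat.card G) (χ : Cfsg.IrrCharacter G) (hχ : Nat.card {C : ConjClasses G // ∃ g ∈ C.carrier, (χ : G → ℂ) g ≠ 0} = 2) :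
    ∃ p : ℕ, p.Prime ∧ (∀ q : ℕ, q.Prime → (Cfsg.pCore q G ≠ ⊥ ↔ q = p)) ∧
      Cfsg.HasNormalPComplement p (G ⧸ Cfsg.pCore p G) ∧ ∀ Q : Sylow p (G ⧸ Cfsg.pCore p G), IsMulCommutative (Q : Subgroup (G ⧸ Cfsg.pCore p G)) := by
  obtain ⟨N, h⟩ := CL.Char.exists_gagola hG χ.2 hχ
  obtain ⟨p, hp, hN⟩ := h.exists_isElementaryAbelian
  have := Fact.mk hp
  have := h.normal
  have hNp := CL.Grp.isPGroup_of_isElementaryAbelian hN
  have := (Subgroup.nontrivial_iff_ne_bot N).2 h.ne_bot
  have := hN.1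
  let φ : G ⧸ pCore p G →* MulAut N := QuotientGroup.lift _ MulAut.conjNormal fun x hx =>
    MulEquiv.ext fun n => Subtype.ext (by
      rw [MulAut.conjNormal_apply, ← h.isMinNormal.pCore_le_centralizer p hx n n.2,
        mul_inv_cancel_right]; rfl)
  let _ : MulDistribMulAction (G ⧸ pCore p G) N := MulDistribMulAction.compHom N φ
  have hst : ∀ v : N, (MulAction.stabilizer (G ⧸ pCore p G) v).comap (QuotientGroup.mk' _) =
      Subgroup.centralizer {(v : G)} := fun v => by
    ext x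
    rw [Subgroup.mem_centralizer_singleton_iff, ← mul_inv_eq_iff_eq_mul]
    exact Subtype.ext_iff
  have key := fun P u hu g => aux3 (H := G ⧸ pCore p G) (V := N) (p := p)
    (fun v => Subtype.ext (hN.2 v v.2)) (fun v hv => by
      rw [← Subgroup.map_comap_eq_self_of_surjective (QuotientGroup.mk'_surjective _)
        (MulAction.stabilizer (G ⧸ pCore p G) v), hst]
      exact (h.isPGroup_centralizer hNp v.2 fun h1 => hv (Subtype.ext h1)).map _) (fun v hv => by
      rw [← Subgroup.index_comap_of_surjective _ (QuotientGroup.mk'_surjective _), hst]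
      exact h.index_add_one v.2 fun h1 => hv (Subtype.ext h1))
    (CL.Grp.pCore_quotient_pCore p G) P (u := u) hu g
  have hF : (Nat.card (fittingSubgroup (G ⧸ pCore p G))).Coprime p := CL.Grp.coprime_of_le_pPrimeCore
    ((CL.Grp.fittingSubgroup_le_pCore_sup_pPrimeCore p).trans (by
      rw [CL.Grp.pCore_quotient_pCore, bot_sup_eq]))
  refine ⟨p, hp, fun q hq => ⟨fun h1 => ?_, ?_⟩, ?_, fun Q => ⟨⟨fun a b => Subtype.ext ?_⟩⟩⟩
  · by_contra h2
    have := Fact.mk hq
    exact h.ne_bot (disjoint_self.1 (IsPGroup.disjoint_of_ne q p h2 N N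
      (CL.Grp.isPGroup_of_le_pCore (h.le_of_normal _ h1)) hNp))
  · rintro rfl
    exact ne_bot_of_le_ne_bot h.ne_bot (CL.Grp.le_pCore hNp)
  · obtain ⟨P⟩ : Nonempty (Sylow p (G ⧸ pCore p G)) := inferInstance
    refine CL.Grp.hasNormalPComplement_of_quotient_coprime hF
      (CL.Grp.hasNormalPComplement_of_sylow_le_center
        (P.mapSurjective (QuotientGroup.mk'_surjective _)) ?_)
    rintro _ ⟨u, hu, rfl⟩
    refine Subgroup.mem_center_iff.2 fun y => ?_
    obtain ⟨g, rfl⟩ := QuotientGroup.mk'_surjective _ y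
    rw [eq_comm, ← commutatorElement_eq_one_iff_mul_comm, ← map_commutatorElement]
    exact (QuotientGroup.eq_one_iff _).2 (key P u hu g)
  · refine commutatorElement_eq_one_iff_mul_comm.1 (CL.Grp.eq_one_of_coprime_of_mem Q.isPGroup' ?_
      (hF.coprime_dvd_left (Subgroup.orderOf_dvd_natCard _ (key Q a a.2 b))))
    rw [commutatorElement_def]
    exact mul_mem (mul_mem (mul_mem a.2 b.2) (inv_mem a.2)) (inv_mem b.2)

end Cfsg.Agent.S4840
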