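import Cfsg.Statements.S4843
import Cfsg.Agent.Char.SchurAvg
import Cfsg.Agent.Char.Linear
import Cfsg.Agent.Char.Prod
import Cfsg.Agent.Char.Galois
import Cfsg.Agent.Grp.Fitting

set_option autoImplicit false
open Cfsg

namespace Cfsg.Agent.S4843

open scoped commutatorElement

theorem sum_conj {G Γ : Type*} [Group G] [Fintype G] [Group Γ] (ι : G →* Γ) {Ξ : Γ → ℂ}
    (h : IsCharacter Γ Ξ) (h' : IsIrrCharacter G fun g => Ξ (ι g)) (u w : Γ) :
    ∑ g : G, Ξ (ι g * u * (ι g)⁻¹ * w) = (Nat.card G : ℂ) * Ξ u * Ξ w / Ξ 1 := by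
  obtain ⟨n, ρ, rfl⟩ := h
  have : Representation.IsIrreducible (ρ.comp ι : Representation ℂ G (Fin n → ℂ)) :=
    CL.Char.isIrreducible_of_isIrrCharacter _ h'
  have h1 := congrArg (fun T => LinearMap.trace ℂ _ (T * ρ w))
    (CL.Char.schurAvg_sum_conj (ρ.comp ι : Representation ℂ G (Fin n → ℂ)) (ρ u))
  simp only [Finset.sum_mul, map_sum, smul_mul_assoc, one_mul, map_smul, smul_eq_mul] at h1
  simp only [Representation.character, map_mul, map_one, LinearMap.trace_one, ← map_inv]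
  refine Eq.trans h1 ?_
  ring

theorem central_of {G : Type*} [Group G] [Finite G] {χ : G → ℂ} (hχ : IsIrrCharacter G χ)
    (hfaith : ∀ g : G, χ g = χ 1 → g = 1) (k : ℕ) (hk : Nat.Coprime k (Nat.card G))
    (hirr : IsIrrCharacter G (fun g => χ g * χ (g ^ k))) (a : G)
    (ha : ∀ g : G, ⁅g * a * g⁻¹, a⁆ ∈ Subgroup.center G) : a ∈ Subgroup.center G := by
  classical
  have := Fintype.ofFinite G
  have hψ := CL.Char.isIrr_pow_coprime hχ hk
  obtain ⟨j, hj⟩ : ∃ j : ℕ, ∀ x : G, (x ^ j) ^ k = x⁻¹ := by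
    obtain ⟨m, hm⟩ : ∃ m : ℕ, ∀ x : G, (x ^ k) ^ m = x := by
      obtain ⟨m, hm⟩ := Nat.exists_mul_mod_eq_of_coprime 1 hk Nat.card_pos.ne'
      refine ⟨m, fun x => ?_⟩
      rw [← pow_mul, ← pow_mod_natCard, hm.2, pow_mod_natCard, pow_one]
    refine ⟨m * (Nat.card G - 1), fun x => ?_⟩
    rw [← pow_mul, mul_comm, ← mul_assoc, pow_mul, pow_mul, hm, eq_inv_iff_mul_eq_one, ← pow_succ,
      Nat.sub_add_cancel Nat.card_pos, pow_card_eq_one']
  have h1 := sum_conj ((MonoidHom.id G).prod (MonoidHom.id G))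
    (hχ.isCharacter.prod hψ.isCharacter) hirr (a, a ^ j) (a⁻¹, (a ^ j)⁻¹)
  simp only [MonoidHom.prod_apply, MonoidHom.id_apply, Prod.mk_mul_mk, Prod.inv_mk, Prod.fst_one,
    Prod.snd_one, one_pow, inv_pow, hj, inv_inv] at h1
  have h2 : ∀ g : G, χ (g * a * g⁻¹ * a⁻¹) * χ ((g * a ^ j * g⁻¹ * (a ^ j)⁻¹) ^ k) =
      χ (g * a * g⁻¹ * a⁻¹) * (starRingEnd ℂ) (χ (g * a * g⁻¹ * a⁻¹)) := by
    intro g
    by_cases h3 : ⁅g * a * g⁻¹, a⁆ = 1
    · have h4 : Commute (g * a * g⁻¹) a⁻¹ := (commutatorElement_eq_one_iff_commute.1 h3).inv_right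
      rw [hχ.conj_apply, ← hj (g * a * g⁻¹ * a⁻¹), h4.mul_pow, conj_pow, inv_pow]
    · have h4 : χ (g * a * g⁻¹ * a⁻¹) = 0 := by
        have h5 : ⁅a, g * a * g⁻¹ * a⁻¹⁆ = ⁅g * a * g⁻¹, a⁆⁻¹ := by
          simp only [commutatorElement_def]; group
        refine hχ.isCharacter.apply_eq_zero_of_commutator (y := a) ?_ ?_
        · rw [h5]; exact Subgroup.inv_mem _ (hχ.center_le_charCenter (ha g))
        · rw [h5, Subgroup.inv_mem_iff, hχ.mem_charKer]
          exact fun h6 => h3 (hfaith _ h6)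
      rw [h4, zero_mul, zero_mul]
  simp only [h2] at h1
  have h3 := CL.Char.schurAvg_sum_char_conj_mul hχ a a⁻¹
  set m := χ a * χ a⁻¹ / χ 1 with hm
  have hmc : (starRingEnd ℂ) m = m := by
    rw [hm, map_div₀, map_mul, hχ.conj_apply, hχ.conj_apply, hχ.conj_apply, inv_inv, inv_one,
      mul_comm]
  have h10 := hχ.one_ne_zero
  have h4 : ∑ g : G, (χ (g * a * g⁻¹ * a⁻¹) - m) * (starRingEnd ℂ) (χ (g * a * g⁻¹ * a⁻¹) - m)
      = 0 := by
    have h5 := congrArg (starRingEnd ℂ) h3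
    rw [mul_assoc, mul_div_assoc, ← hm, map_mul, hmc, map_natCast, map_sum] at h5
    rw [mul_assoc, mul_div_assoc, ← hm] at h3
    simp only [map_sub, hmc, sub_mul, mul_sub, Finset.sum_sub_distrib, ← Finset.sum_mul,
      ← Finset.mul_sum, h1, h3, h5, Finset.sum_const, Finset.card_univ, nsmul_eq_mul,
      ← Nat.card_eq_fintype_card]
    rw [hm]
    field_simp
    ring
  simp only [Complex.mul_conj] at h4
  have h5 : ∑ g : G, Complex.normSq (χ (g * a * g⁻¹ * a⁻¹) - m) = 0 := by exact_mod_cast h4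
  rw [Finset.sum_eq_zero_iff_of_nonneg fun _ _ => Complex.normSq_nonneg _] at h5
  simp only [Finset.mem_univ, Complex.normSq_eq_zero, sub_eq_zero, true_imp_iff] at h5
  have h6 := h5 1
  simp only [one_mul, inv_one, mul_one, mul_inv_cancel] at h6
  rw [Subgroup.mem_center_iff]
  intro g
  have h7 := hfaith _ ((h5 g).trans h6.symm)
  calc g * a = g * a * g⁻¹ * a⁻¹ * (a * g) := by group
    _ = a * g := by rw [h7, one_mul]


/-- Let G be a finite group with a faithful irreducible character χ (taking the value χ(1) only at the identity) and let k be prime to the order of G, so that g ↦ χ(g^k) is a Galois conjugate of χ. If the pointwise product g ↦ χ(g)·χ(g^k) is again an irreducible character, then the Fitting subgroup of G equals its centre. -/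
theorem result {G : Type*} [Group G] [Finite G] (χ : Cfsg.IrrCharacter G) (hfaith : ∀ g : G, (χ : G → ℂ) g = (χ : G → ℂ) 1 → g = 1) (k : ℕ) (hk : Nat.Coprime k (Nat.card G)) (hirr : Cfsg.IsIrrCharacter G (fun g => (χ : G → ℂ) g * (χ : G → ℂ) (g ^ k))) : Cfsg.fittingSubgroup G = Subgroup.center G := by
  refine le_antisymm ?_ CL.Grp.center_le_fittingSubgroup
  by_contra hn
  set f := QuotientGroup.mk' (Subgroup.center G)
  have h1 : Group.IsNilpotent ((fittingSubgroup G).map f) :=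
    CL.Grp.isNilpotent_map (CL.Grp.fittingSubgroup_isNilpotent G) f
  have h2 : Nontrivial ((fittingSubgroup G).map f) := by
    rw [Subgroup.nontrivial_iff_ne_bot, Ne, Subgroup.map_eq_bot_iff, QuotientGroup.ker_mk']
    exact hn
  obtain ⟨⟨z, hz⟩, hz1⟩ := Subgroup.ne_bot_iff_exists_ne_one.1
    (Group.IsNilpotent.center_ne_bot ((fittingSubgroup G).map f))
  obtain ⟨_, a, ha, rfl⟩ := z
  refine hz1 (Subtype.ext (Subtype.ext ?_))
  refine (QuotientGroup.eq_one_iff a).2 (central_of χ.2 hfaith k hk hirr a fun g => ?_)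
  rw [← QuotientGroup.eq_one_iff]
  change f _ = 1
  rw [map_commutatorElement, commutatorElement_eq_one_iff_mul_comm]
  exact congrArg Subtype.val (Subgroup.mem_center_iff.1 hz
    ⟨_, g * a * g⁻¹, (CL.Grp.fittingSubgroup_normal G).conj_mem a ha g, rfl⟩)

end Cfsg.Agent.S4843
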