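import Cfsg.Statements.S4850
import Cfsg.Agent.Char.VanOrd
-- import your own Cfsg.Agent.* helpers here

set_option autoImplicit false
open Cfsg

namespace Cfsg.Agent.S4850

/-- Let p be a prime and G a finite solvable group whose vanishing elements (elements at which some irreducible character is zero) of order divisible by p all have the same order, with at least one such element. Let P be a Sylow p-subgroup of G. Then the derived subgroup of P is subnormal in G and the image of P in G/O_p(G) is cyclic. -/
theorem result {G : Type*} [Group G] [Finite G] [hs : Group.IsSolvable G] (p : ℕ) [Fact p.Prime] (b : ℕ) (hvo : {n : ℕ | p ∣ n ∧ ∃ (g : G) (χ : Cfsg.IrrCharacter G), orderOf g = n ∧ (χ : G → ℂ) g = 0} = {b}) (P : Sylow p G) :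
    ((commutator ↥(P : Subgroup G)).map (P : Subgroup G).subtype).IsSubnormal ∧ IsCyclic ↥((P : Subgroup G).map (QuotientGroup.mk' (Cfsg.pCore p G))) := by
  open CL.Char.VanOrd CL.Grp in
  have key : ∀ x : G, Van x → p ∣ orderOf x → orderOf x = b := fun x ⟨χ, h1, h2⟩ h3 =>
    hvo.le (show orderOf x ∈ _ from ⟨h3, x, ⟨χ, h1⟩, rfl, h2⟩)
  have h := card_map_le hs (fun x y hx hy h1 h2 => (key x hx h1).trans (key y hy h2).symm) P
  have hp : p.Prime := Fact.out
  have hc : IsCyclic ↥((P : Subgroup G).map (QuotientGroup.mk' (pCore p G))) := by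
    obtain ⟨n, hn⟩ := IsPGroup.iff_card.1 (P.isPGroup'.map (QuotientGroup.mk' (pCore p G)))
    refine isCyclic_of_card_dvd_prime (p := p) ?_
    rw [hn] at h ⊢
    have : n ≤ 1 := (Nat.pow_le_pow_iff_right hp.one_lt).1 (by rwa [pow_one])
    simpa using pow_dvd_pow p this
  refine ⟨(subnIn_of_isPGroup (pCore_isPGroup p G) ?_).isSubnormal_of (Subgroup.Normal.isSubnormal inferInstance), hc⟩
  rw [_root_.commutator_def, Subgroup.map_commutator, top_map_subtype, Subgroup.commutator_le]
  intro a ha c hc'
  rw [← QuotientGroup.eq_one_iff, ← QuotientGroup.mk'_apply, map_commutatorElement,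
    commutatorElement_eq_one_iff_mul_comm]
  exact congrArg Subtype.val (hc.isMulCommutative.is_comm.comm ⟨_, Subgroup.mem_map_of_mem _ ha⟩
    ⟨_, Subgroup.mem_map_of_mem _ hc'⟩)


end Cfsg.Agent.S4850
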