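import Cfsg.Statements.S4871
import Cfsg.Agent.Char.AvgDeg
import Cfsg.Agent.Grp.MinNormal

set_option autoImplicit false
open Cfsg

namespace Cfsg.Agent.S4871

theorem aux {α : Type*} [Finite α] (d : α → ℕ) (Q : α → Prop) (hd : ∀ a, 0 < d a) {m : ℕ}
    (h2 : 2 ∣ m) (h0 : 2 ≤ m)
    (h : Nat.card {a // d a = 1 ∧ Q a} ≤ m * Nat.card {a // d a = m ∧ Q a}) :
    4 * Nat.card {a // (d a = 1 ∨ 2 ∣ d a) ∧ Q a} ≤
      3 * ∑ᶠ a : {a // (d a = 1 ∨ 2 ∣ d a) ∧ Q a}, d a.1 := by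
  classical
  have := Fintype.ofFinite α
  rw [finsum_eq_sum_of_fintype]
  simp only [Nat.card_eq_fintype_card, Fintype.card_subtype] at h ⊢
  rw [← Finset.sum_subtype (Finset.univ.filter fun a => (d a = 1 ∨ 2 ∣ d a) ∧ Q a) (by simp) d]
  simp only [Finset.card_filter, Finset.sum_filter, Finset.mul_sum] at h ⊢
  have h8 : ∀ a, 4 * (if (d a = 1 ∨ 2 ∣ d a) ∧ Q a then 1 else 0) +
      m * (if d a = m ∧ Q a then 1 else 0) ≤ 3 * (if (d a = 1 ∨ 2 ∣ d a) ∧ Q a then d a else 0)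
      + if d a = 1 ∧ Q a then 1 else 0 := fun a => by
    have := hd a
    by_cases hQ : Q a
    · simp only [hQ, and_true]
      split_ifs <;> omega
    · simp [hQ]
  have h9 := Finset.sum_le_sum fun a (_ : a ∈ Finset.univ) => h8 a
  rw [Finset.sum_add_distrib, Finset.sum_add_distrib] at h9
  omega


/-- Let G be a finite group that is the semidirect product of a normal elementary abelian subgroup N of odd order by a non-trivial 2-subgroup P, with N the unique minimal normal subgroup of G. Consider the strongly real irreducible complex characters of G (Frobenius–Schur indicator +1) whose degree is 1 or even. Then their average degree is at least 4/3: four times their number is at most three times the sum of their degrees. -/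
theorem result {G : Type*} [Group G] [Finite G] (N P : Subgroup G) (hN : N.Normal) (q : ℕ) [Fact q.Prime] (hq : q ≠ 2) (hNel : Cfsg.IsElementaryAbelian q N) (hP : IsPGroup 2 ↥P) (hP1 : P ≠ ⊥) (hdisj : N ⊓ P = ⊥) (hprod : N ⊔ P = ⊤) (hmin : N ≠ ⊥ ∧ ∀ M : Subgroup G, M.Normal → M ≠ ⊥ → N ≤ M) : 4 * Nat.card {χ : Cfsg.IrrCharacter G // (Cfsg.charDegree (χ : G → ℂ) = 1 ∨ 2 ∣ Cfsg.charDegree (χ : G → ℂ)) ∧ (Nat.card G : ℂ)⁻¹ * ∑ᶠ g : G, (χ : G → ℂ) (g * g) = 1} ≤ 3 * (∑ᶠ χ : {χ : Cfsg.IrrCharacter G // (Cfsg.charDegree (χ : G → ℂ) = 1 ∨ 2 ∣ Cfsg.charDegree (χ : G → ℂ)) ∧ (Nat.card G : ℂ)⁻¹ * ∑ᶠ g : G, (χ : G → ℂ) (g * g) = 1}, Cfsg.charDegree (χ.1 : G → ℂ)) := by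
  classical
  have := Fintype.ofFinite G
  have := Fintype.ofFinite N
  obtain ⟨hN1, hmin⟩ := hmin
  have hq' : q.Prime := Fact.out
  have hcomm : ∀ a ∈ N, ∀ b ∈ N, a * b = b * a := fun a ha b hb =>
    congrArg Subtype.val (hNel.1.is_comm.comm (⟨a, ha⟩ : N) ⟨b, hb⟩)
  have hdec : ∀ g : G, ∃ n ∈ N, ∃ x ∈ P, n * x = g := fun g => by
    have : g ∈ ((N ⊔ P : Subgroup G) : Set G) := hprod ▸ Subgroup.mem_top g
    rw [Subgroup.normal_mul] at this
    exact this
  have hnP : ∀ M : Subgroup G, M.Normal → M ≤ P → M = ⊥ := fun M hM hMP => by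
    by_contra h
    exact hN1 (by rw [← hdisj, inf_eq_left.2 ((hmin M hM h).trans hMP)])
  have hNG : N ≤ commutator G := hmin _ inferInstance fun h => by
    have h1 : ∀ a b : G, a * b = b * a := fun a b =>
      (Subgroup.mem_center_iff.1 ((Subgroup.commutator_eq_bot_iff_le_centralizer.1 h).trans
        (Subgroup.centralizer_univ (G := G)).le (Subgroup.mem_top b)) a)
    exact hP1 (hnP P ⟨fun x hx g => by rwa [h1 g x, mul_inv_cancel_right]⟩ le_rfl)
  have : Nontrivial P := (Subgroup.nontrivial_iff_ne_bot P).2 hP1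
  have := hP.center_nontrivial
  obtain ⟨z, hz⟩ : ∃ z : Subgroup.center P, orderOf z = 2 := by
    obtain ⟨k, hk0, hk⟩ := (hP.to_subgroup (Subgroup.center P)).nontrivial_iff_card.1 this
    exact exists_prime_orderOf_dvd_card' 2 (hk ▸ dvd_pow_self 2 hk0.ne')
  set w : G := z.1.1 with hw
  have hw2 : w * w = 1 := by
    have := pow_orderOf_eq_one z
    rw [hz, sq] at this
    exact congrArg (fun x : Subgroup.center P => x.1.1) this
  have hw1 : w ≠ 1 := fun h => by
    rw [show z = 1 from Subtype.ext (Subtype.ext h), orderOf_one] at hz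
    exact absurd hz (by norm_num)
  have hwP : ∀ x ∈ P, x * w = w * x := fun x hx =>
    congrArg Subtype.val (Subgroup.mem_center_iff.1 z.2 ⟨x, hx⟩)
  have hC : N ⊓ Subgroup.centralizer {w} = ⊥ := by
    by_contra h
    have h1 := hmin (N ⊓ Subgroup.centralizer {w}) ⟨fun y hy g => Subgroup.mem_inf.2
      ⟨hN.conj_mem y hy.1 g, by
      obtain ⟨n, hn, x, hx, rfl⟩ := hdec g
      have h2 := hN.conj_mem y hy.1 x
      rw [show n * x * y * (n * x)⁻¹ = n * (x * y * x⁻¹) * n⁻¹ by group, hcomm n hn _ h2,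
        mul_inv_cancel_right]
      exact Subgroup.mul_mem _ (Subgroup.mul_mem _ (Subgroup.mem_centralizer_singleton_iff.2
        (hwP x hx)) hy.2) (Subgroup.inv_mem _ (Subgroup.mem_centralizer_singleton_iff.2
        (hwP x hx)))⟩⟩ h
    have h2 : ∀ g : G, g * w = w * g := fun g => by
      obtain ⟨n, hn, x, hx, rfl⟩ := hdec g
      rw [mul_assoc, hwP x hx, ← mul_assoc, Subgroup.mem_centralizer_singleton_iff.1 (h1 hn).2,
        mul_assoc]
    refine hw1 (Subgroup.zpowers_eq_bot.1 (hnP _ ⟨fun y hy g => ?_⟩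
      ((Subgroup.zpowers_le).2 z.1.2)))
    obtain ⟨k, rfl⟩ := hy
    have h3 : Commute g w := h2 g
    rw [(h3.zpow_right k).eq, mul_inv_cancel_right]
    exact ⟨k, rfl⟩
  have hinv : ∀ n ∈ N, w * n * w⁻¹ = n⁻¹ := fun n hn => by
    have h1 := hN.conj_mem n hn w
    have h2 : n * (w * n * w⁻¹) ∈ N ⊓ Subgroup.centralizer {w} := Subgroup.mem_inf.2
      ⟨N.mul_mem hn h1, by
      rw [Subgroup.mem_centralizer_singleton_iff]
      conv_rhs => rw [hcomm n hn _ h1]
      rw [inv_eq_of_mul_eq_one_right hw2]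
      simp only [← mul_assoc, hw2, one_mul]
      rw [mul_assoc _ w w, hw2, mul_one]⟩
    rw [hC, Subgroup.mem_bot] at h2
    exact eq_inv_of_mul_eq_one_right h2
  obtain ⟨⟨n0, hn0⟩, hn1⟩ := (Subgroup.ne_bot_iff_exists_ne_one).1 hN1
  obtain ⟨lam, -, hlam⟩ := CL.Char.exists_monoidHom_of_not_mem (G := N) (N := ⊥) (g := ⟨n0, hn0⟩)
    (by have := hNel.1; exact (commutator_eq_bot N).le) (by simpa using hn1)
  have hφ := CL.Char.isIrrCharacter_linear lam
  have hconj : CL.Char.conjChar N w (fun n => (lam n : ℂ)) =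
      fun n => (starRingEnd ℂ) (lam n : ℂ) := funext fun n => by
    rw [hφ.isCharacter.conj_apply, CL.Char.conjChar_apply]
    exact congrArg (fun x : N => (lam x : ℂ)) (Subtype.ext (hinv n n.2))
  have h2 : IsPGroup 2 (G ⧸ N) := hP.of_surjective ((QuotientGroup.mk' N).comp P.subtype) fun x => by
    obtain ⟨g, rfl⟩ := QuotientGroup.mk_surjective x
    obtain ⟨n, hn, y, hy, rfl⟩ := hdec g
    refine ⟨⟨y, hy⟩, ?_⟩
    rw [QuotientGroup.mk_mul, (QuotientGroup.eq_one_iff n).2 hn, one_mul]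
    rfl
  obtain ⟨k, hk⟩ := IsPGroup.iff_card.1 (CL.Grp.isPGroup_of_isElementaryAbelian hNel)
  obtain ⟨χ, hχ, hfs, hm⟩ := CL.Char.avg_exists_strongly_real h2 hφ (by
    rw [hk, hq'.factorization_pow, Finsupp.single_eq_of_ne hq.symm, pow_zero]; exact one_dvd _) hconj
  set T := CL.Char.inertia N (fun n => (lam n : ℂ)) with hT
  have hNT : N ≤ T := CL.Char.le_inertia hφ.isClassFunction
  obtain ⟨ψ, hψ, rfl, hm'⟩ := CL.Char.clifford_corr_surj hφ le_rfl hNT hχ (hm ▸ one_ne_zero)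
  have he := CL.Char.res_eq_smul_of_le_inertia hNT hφ le_rfl hψ (by rw [hm', hm]; exact one_ne_zero)
  rw [hm', hm, one_smul] at he
  have hmain := CL.Char.avg_card_le hNG hφ le_rfl hNT hψ (congrFun he)
    (fun χ => CL.Char.fsInd χ = 1) (fun χ => CL.Char.fsInd χ = 1) fun mu hmu => by
      rw [CL.Char.fsInd_mul_linear _ (lam := fun g => (mu g : ℂ)) (fun g => by
        rw [(CL.Char.fsInd_monoidHom_eq_one_iff mu).1 hmu g, Units.val_one]), hfs]
  rw [CL.Char.charDegree_eq_of_eq (χ := fun n => (lam n : ℂ)) (n := 1) (by simp), one_mul,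
    ← hT] at hmain
  have hT2 : 2 ∣ T.index := by
    obtain ⟨a, ha⟩ := IsPGroup.iff_card.1 h2
    have h3 := Subgroup.index_dvd_of_le hNT
    rw [show N.index = 2 ^ a from ha] at h3
    obtain ⟨b, -, hb⟩ := (Nat.dvd_prime_pow Nat.prime_two).1 h3
    rw [hb]
    refine dvd_pow_self 2 ?_
    rintro rfl
    have h4 : w ∈ T := (Subgroup.index_eq_one.1 hb) ▸ Subgroup.mem_top w
    have h5 := CL.Char.mem_inertia.1 h4 ⟨n0, hn0⟩
    have h6 : lam ⟨n0, hn0⟩⁻¹ = lam ⟨n0, hn0⟩ := Units.ext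
      ((congrArg (fun x : N => (lam x : ℂ)) (Subtype.ext (hinv n0 hn0).symm)).trans h5)
    rw [map_inv, inv_eq_iff_mul_eq_one, ← sq] at h6
    have h7 : lam ⟨n0, hn0⟩ ^ q = 1 := by
      rw [← map_pow, show (⟨n0, hn0⟩ : N) ^ q = 1 from Subtype.ext (hNel.2 n0 hn0), map_one]
    exact hlam (by
      rw [← orderOf_eq_one_iff]
      exact Nat.eq_one_of_dvd_coprimes ((Nat.coprime_primes Nat.prime_two hq').2 hq.symm)
        (orderOf_dvd_of_pow_eq_one h6) (orderOf_dvd_of_pow_eq_one h7))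
  have hT0 : 2 ≤ T.index := Nat.le_of_dvd (Nat.pos_of_ne_zero T.index_ne_zero_of_finite) hT2
  simp only [← CL.Char.fsInd_finsum] at hmain
  exact aux (fun χ : IrrCharacter G => charDegree (χ : G → ℂ)) _ (fun χ => χ.2.charDegree_pos)
    hT2 hT0 hmain

end Cfsg.Agent.S4871
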