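import Cfsg.Statements.S4873
import Cfsg.Agent.Char.GalFix

set_option autoImplicit false
open Cfsg

namespace Cfsg.Agent.S4873

/-- Let N be a normal subgroup of odd index in the finite group G. Then every irreducible complex character of N with Frobenius–Schur indicator +1 lies under exactly one irreducible character of G with Frobenius–Schur indicator +1. -/
theorem result {G : Type*} [Group G] [Finite G] (N : Subgroup G) [N.Normal] (hodd : Odd N.index) (φ : Cfsg.IrrCharacter ↥N) (hφ : (Nat.card ↥N : ℂ)⁻¹ * ∑ᶠ g : ↥N, (φ : ↥N → ℂ) (g * g) = 1) : ∃! χ : Cfsg.IrrCharacter G, (Nat.card G : ℂ)⁻¹ * ∑ᶠ g : G, (χ : G → ℂ) (g * g) = 1 ∧ (∑ᶠ n : ↥N, (χ : G → ℂ) n * (starRingEnd ℂ) ((φ : ↥N → ℂ) n)) ≠ 0 := by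
  have := Fintype.ofFinite G
  have := Fintype.ofFinite N
  rw [CL.Char.fsInd_finsum] at hφ
  have hr := CL.Char.fsInd_real φ.2 (hφ ▸ one_ne_zero)
  obtain ⟨χ, hχ, hχr, h1, h2⟩ := CL.Char.exists_unique_real_over hodd φ.2 hr
  have h3 : ∀ ψ : G → ℂ, (∑ᶠ n : N, ψ n * (starRingEnd ℂ) ((φ : N → ℂ) n)) ≠ 0 ↔
      classInner (fun n : N => ψ n) φ ≠ 0 := fun ψ => by
    rw [finsum_eq_sum_of_fintype, CL.Char.classInner_def, mul_ne_zero_iff,
      and_iff_right (inv_ne_zero CL.Char.natCard_ne_zero)]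
  simp only [CL.Char.fsInd_finsum, h3]
  refine ⟨⟨χ, hχ⟩, ⟨?_, h1 ▸ one_ne_zero⟩, fun χ' ⟨h4, h5⟩ =>
    Subtype.ext (h2 _ χ'.2 (CL.Char.fsInd_real χ'.2 (h4 ▸ one_ne_zero)) h5)⟩
  rw [← hφ]
  exact CL.Char.fsInd_eq_of_odd N.subtype hχ hχr φ.2 hr (m := 1) (h1.trans Nat.cast_one.symm)
    odd_one

end Cfsg.Agent.S4873
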