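import Cfsg.Statements.S4885
import Cfsg.Agent.Blk.NavWolf
-- import your own Cfsg.Agent.* helpers here

set_option autoImplicit false
open Cfsg

namespace Cfsg.Agent.S4885

/-- Let p and q be primes dividing the order of the finite group G, and suppose G is p-solvable and q-solvable. Fix maximal ideals of the algebraic integers containing p and q, defining the principal p-block and the principal q-block. If the irreducible characters of degree prime to p in the principal p-block are exactly the irreducible characters of degree prime to q in the principal q-block, then p = q. -/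
theorem result {G : Type*} [Group G] [Finite G] (p q : ℕ) [Fact p.Prime] [Fact q.Prime] (hp : p ∣ Nat.card G) (hq : q ∣ Nat.card G) (hps : Cfsg.IsPSolvable p G) (hqs : Cfsg.IsPSolvable q G) (Mp Mq : Ideal Cfsg.AlgInt) (hMp : Cfsg.IsPModular p Mp) (hMq : Cfsg.IsPModular q Mq) (h : ∀ χ : Cfsg.IrrCharacter G, (χ ∈ Cfsg.principalBlock Mp G ∧ ¬ p ∣ Cfsg.charDegree (χ : G → ℂ)) ↔ (χ ∈ Cfsg.principalBlock Mq G ∧ ¬ q ∣ Cfsg.charDegree (χ : G → ℂ))) : p = q := by
  by_contra hpq
  have h2 := CL.Blk.NW.not_dvd_index_core hMq (Ne.symm hpq) hqs hps fun χ h1 h2 => ((h χ).2 ⟨h1, h2⟩).2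
  obtain ⟨P⟩ : Nonempty (Sylow p G) := inferInstance
  obtain ⟨χ, h3, h4, h5⟩ := CL.Blk.NW.exists_principal_not_le hMp hps hp P
  refine h5 ((CL.Blk.NW.sylow_le_core h2 P).trans fun n hn => χ.2.mem_charKer.2 ?_)
  exact (CL.Blk.mem_principalBlock_iff_of_isPConstrained hMq (CL.Loc.isPConstrained_of_isPSolvable hqs)).1
    ((h χ).1 ⟨h3, h4⟩).1 n hn


end Cfsg.Agent.S4885
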