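import Cfsg.Statements.S4888
import Cfsg.Agent.Blk.PrincRes

set_option autoImplicit false
open Cfsg

namespace Cfsg.Agent.S4888

/-- Let G be a finite group, p a prime and M a maximal ideal of the algebraic integers containing p. Then all height-zero irreducible characters of the principal p-block of G (equivalently, all its characters of degree prime to p) have the same degree if and only if G has a normal p-complement. -/
theorem result {G : Type*} [Group G] [Finite G] (p : ℕ) [Fact p.Prime] (M : Ideal Cfsg.AlgInt) (hM : Cfsg.IsPModular p M) : (∃ d : ℕ, ∀ χ : Cfsg.IrrCharacter G, χ ∈ (Cfsg.principalBlock M G) → Cfsg.blockHeight p (Cfsg.principalBlock M G) (χ : G → ℂ) = 0 → Cfsg.charDegree (χ : G → ℂ) = d) ↔ Cfsg.HasNormalPComplement p G := by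
  have hp : p.Prime := Fact.out
  refine ⟨fun ⟨d, hd⟩ => CL.Blk.hasNormalPComplement_of_principal_linear hM fun χ hχ h => ?_,
    fun h => ⟨1, fun χ hχ h0 => CL.Blk.charDegree_eq_one_of_hasNormalPComplement hM h hχ
      ((CL.Blk.blockHeight_principal_eq_zero_iff hM hχ).1 h0)⟩⟩
  have h1 : Cfsg.charDegree (CL.Char.irrOne G : G → ℂ) = 1 := by simp [Cfsg.charDegree, CL.Char.coe_irrOne]
  rw [hd χ hχ ((CL.Blk.blockHeight_principal_eq_zero_iff hM hχ).2 h), ← h1,
    hd _ (CL.Blk.irrOne_mem_principal hM) ((CL.Blk.blockHeight_principal_eq_zero_iff hM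
      (CL.Blk.irrOne_mem_principal hM)).2 (by rw [h1]; exact hp.not_dvd_one))]

end Cfsg.Agent.S4888
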