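import Cfsg.Statements.S4892
import Cfsg.Agent.Blk.Dade2

set_option autoImplicit false
open Cfsg

namespace Cfsg.Agent.S4892

open Cfsg CL.Blk CL.Char

/-- Let p be an odd prime, M a maximal ideal of the algebraic integers containing p, N a normal subgroup of the finite group G, and θ an irreducible character of N that is G-invariant, of degree prime to p, p-rational (values in the field generated over ℚ by a root of unity of order prime to p) and lies in the principal p-block of N. Let Q be a Sylow p-subgroup of N and suppose the index of N·C_G(Q) in G is a power of p. Then θ extends to a p-rational irreducible character of G lying in the principal p-block of G. -/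
theorem result {G : Type*} [Group G] [Finite G] (p : ℕ) [Fact p.Prime] (hp : p ≠ 2) (M : Ideal Cfsg.AlgInt) (hM : Cfsg.IsPModular p M) (N : Subgroup G) [N.Normal] (θ : Cfsg.IrrCharacter ↥N) (hinv : ∀ g : G, ∀ n n' : ↥N, (n' : G) = g * (n : G) * g⁻¹ → (θ : ↥N → ℂ) n' = (θ : ↥N → ℂ) n) (hdeg : ¬ p ∣ Cfsg.charDegree (θ : ↥N → ℂ)) (hrat : ∃ m : ℕ, ¬ p ∣ m ∧ ∀ n : ↥N, (θ : ↥N → ℂ) n ∈ IntermediateField.adjoin ℚ ({Complex.exp (2 * Real.pi * Complex.I / m)} : Set ℂ)) (hB : θ ∈ Cfsg.principalBlock M ↥N) (Q : Sylow p ↥N) (hidx : ∃ a : ℕ, (N ⊔ Subgroup.centralizer (((Q : Subgroup ↥N).map N.subtype : Subgroup G) : Set G)).index = p ^ a) : ∃ χ : Cfsg.IrrCharacter G, χ ∈ (Cfsg.principalBlock M G) ∧ (∃ n : ℕ, ¬ p ∣ n ∧ ∀ g : G, (χ : G → ℂ) g ∈ IntermediateField.adjoin ℚ ({Complex.exp (2 * Real.pi * Complex.I / n)} : Set ℂ)) ∧ ∀ n : ↥N, (χ : G → ℂ) n = (θ : ↥N → ℂ) n := by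
  have hp' : p.Prime := Fact.out
  obtain ⟨m, hm, hrat⟩ := hrat
  obtain ⟨a, ha⟩ := hidx
  have hθ := isPRat_of_mem_adjoin (Nat.pos_of_ne_zero fun h : m = 0 => hm (h ▸ dvd_zero p)) hm hrat
  obtain ⟨χ, h1, h2, h3, h4⟩ := exists_principal_extension hM Q ha hB (fun g n => hinv g n _ rfl) hdeg
    (not_dvd_detOrder_of_isPRat hp' hp θ.2 hθ)
  refine ⟨χ, h1, mem_adjoin_of_isPRat (irr_isIntegral χ) ?_, h2⟩
  obtain ⟨r, h0, hr, hθ⟩ := hθ
  have hKn := normal_sup_centralizer_sylow Q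
  have hc := Nat.not_dvd_ordCompl hp' (Nat.card_pos (α := G)).ne'
  refine ⟨r * detOrder (χ : G → ℂ) * ordCompl[p] (Nat.card G), Nat.mul_pos (Nat.mul_pos h0 (detOrder_pos _))
    (Nat.ordCompl_pos p Nat.card_pos.ne'), fun h => ((Nat.Prime.dvd_mul hp').1 h).elim
      (fun h => ((Nat.Prime.dvd_mul hp').1 h).elim hr h3) hc, fun σ hσ => ?_⟩
  obtain ⟨mu, h5, h6⟩ := exists_linear_mul_of_restrict_eq N χ.2.isCharacter
    (isChar_gal χ.2.isCharacter σ.toRingHom) (by rw [funext h2]; exact θ.2) fun n => by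
      rw [h2]
      exact hθ σ (fix_roots_of_dvd ((dvd_mul_right _ _).trans (dvd_mul_right _ _)) hσ) n
  have h7 : mu ^ charDegree (χ : G → ℂ) = 1 := by
    ext g
    have e1 := gl_detChar_gal χ.2 σ.toRingHom g
    obtain ⟨δ, hδ⟩ := exists_monoidHom_detChar (χ : G → ℂ)
    rw [h6, detChar_linear_mul χ.2 χ.2.cast_charDegree.symm] at e1
    have e2 : σ.toRingHom (detChar (χ : G → ℂ) g) = detChar (χ : G → ℂ) g :=
      fix_roots_of_dvd ((dvd_mul_left _ _).trans (dvd_mul_right _ _)) hσ _ (detChar_pow_detOrder _ g)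
    rw [e2, hδ] at e1
    simpa using e1
  have h8 : ¬ p ∣ orderOf mu := fun h => hdeg (by
    rw [← charDegree_congr (χ := (χ : G → ℂ)) (h2 1)]
    exact h.trans (orderOf_dvd_of_pow_eq_one h7))
  have h9 : ∀ u : G, (∃ k : ℕ, orderOf u = p ^ k) → mu u = 1 := fun u ⟨k, hk⟩ =>
    monoidHom_apply_eq_one_of_coprime
      (hk ▸ Nat.Coprime.pow_right k ((Nat.Prime.coprime_iff_not_dvd hp').2 h8).symm)
  have h10 : N ⊔ Subgroup.centralizer (((Q : Subgroup ↥N).map N.subtype : Subgroup G) : Set G) ≤ mu.ker := by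
    refine sup_le h5 fun g hg => ?_
    obtain ⟨u, hu⟩ := exists_isPPart hp' g
    have huC := isPPart_mem hp' hu hg
    obtain ⟨x, rfl, -, hu, hx⟩ := hu
    have hxC := (Subgroup.mul_mem_cancel_left _ huC).1 hg
    have e1 := congrFun h6 x
    have e2 : σ.toRingHom ((χ : G → ℂ) x) = (χ : G → ℂ) x := genChar_map_eq_self χ.2.isGeneralizedCharacter
      ((orderOf_dvd_ordCompl hp' hx).trans (dvd_mul_left _ _)) hσ
    simp only [e2] at e1
    rw [MonoidHom.mem_ker, map_mul, h9 u hu, one_mul]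
    exact Units.ext ((mul_eq_right₀ (h4 x hxC)).1 e1.symm)
  have h11 : ∀ g, mu g = 1 := fun g => by
    obtain ⟨u, x, rfl, -, hu, hx⟩ := exists_isPPart hp' g
    rw [map_mul, h9 u hu, one_mul]
    exact h10 (mem_of_index_eq_pow_of_not_dvd_orderOf hp' ha hx)
  intro g
  simpa [h11] using congrFun h6 g

end Cfsg.Agent.S4892
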