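import Cfsg.Statements.S4911
import Cfsg.Agent.Char.GlaubSolv
import Cfsg.Agent.S0160

set_option autoImplicit false
open Cfsg

namespace Cfsg.Agent.S4911

open CL.Char
open scoped ComplexConjugate

theorem card_real {A G : Type*} [Group A] [Group G] [Finite A] [Finite G] {p : ℕ} (hp : p.Prime)
    (hA : IsPGroup p A) (hG : ¬ p ∣ Nat.card G) (φ : A →* MulAut G) :
    Nat.card {θ : IrrCharacter G // (∀ k, ((θ : G → ℂ) k).im = 0) ∧
      ∀ a g, (θ : G → ℂ) (φ a g) = (θ : G → ℂ) g} =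
    Nat.card {c : ConjClasses G // (∀ k, ConjClasses.mk k = c → IsConj k k⁻¹) ∧
      ∀ a g, ConjClasses.mk g = c → ConjClasses.mk (φ a g) = c} := by
  have := Fact.mk hp
  obtain ⟨k, hk⟩ := IsPGroup.iff_card.1 hA
  have hcop : (Nat.card A).Coprime (Nat.card G) :=
    hk ▸ Nat.Coprime.pow_left k (hp.coprime_iff_not_dvd.2 hG)
  have := hA.isNilpotent
  have hs : Group.IsSolvable A ∨ Group.IsSolvable G := Or.inl inferInstance
  have hr : ∀ {H : Type _} (χ : H → ℂ), (∀ _ : Unit, (fun g => conj (χ g)) = χ) ↔ ∀ g, (χ g).im = 0 :=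
    fun χ => by simp [funext_iff, Complex.conj_eq_iff_im]
  have h1 := (((isGlCorr_pgroup hp hA hG φ (glFix φ ⊤).subtype Subtype.val_injective fun g => by
    simp [mem_glFix]).fixed hp (fun (_ : Unit) χ g => conj (χ g)) (fun _ χ g => conj (χ g))
    (fun _ χ h1 h2 => ⟨h1.conj, fun a g => congrArg conj (h2 a g)⟩) (fun _ β h => h.conj)
    fun _ χ β h => h.conj).congr (fun χ _ => (and_congr_right fun _ => hr χ).trans and_comm)
    fun β _ => (and_iff_right trivial).trans (hr β)).card_eq hp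
  rw [h1, Cfsg.Agent.S0160.result]
  have h2 : ∀ x y : glFix φ ⊤, IsConj (x : G) y → IsConj x y := fun x y h => by
    obtain ⟨c, h3, h4⟩ := gl_exists_fixed_conj_eq φ hcop hs (fun a => x.2 a trivial)
      (fun a => y.2 a trivial) h
    exact isConj_iff.2 ⟨⟨c, fun a _ => h3 a⟩, Subtype.ext h4⟩
  refine Nat.card_congr (Equiv.ofBijective (fun c => ⟨ConjClasses.map (glFix φ ⊤).subtype c.1, ?_⟩)
    ⟨fun c c' h => ?_, fun c => ?_⟩)
  · obtain ⟨c, hc⟩ := c
    obtain ⟨x, rfl⟩ := c.exists_rep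
    refine ⟨fun k hk => ?_, fun a g hg => ?_⟩
    · obtain ⟨u, hu⟩ := isConj_iff.1 (ConjClasses.mk_eq_mk_iff_isConj.1 hk.symm)
      have h3 : IsConj (x : G) (x : G)⁻¹ := (glFix φ ⊤).subtype.map_isConj (hc x rfl)
      exact (ConjClasses.mk_eq_mk_iff_isConj.1 hk).trans (h3.trans (isConj_iff.2
        ⟨u, by rw [← hu]; simp [mul_assoc]⟩))
    · have h3 := (φ a).toMonoidHom.map_isConj (ConjClasses.mk_eq_mk_iff_isConj.1 hg)
      exact ConjClasses.mk_eq_mk_iff_isConj.2 (by simpa [x.2 a trivial] using h3)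
  · obtain ⟨c, hc⟩ := c
    obtain ⟨x, rfl⟩ := c.exists_rep
    obtain ⟨c', hc'⟩ := c'
    obtain ⟨y, rfl⟩ := c'.exists_rep
    exact Subtype.ext (ConjClasses.mk_eq_mk_iff_isConj.2 (h2 x y
      (ConjClasses.mk_eq_mk_iff_isConj.1 (congrArg Subtype.val h))))
  · obtain ⟨c, h3, h4⟩ := c
    obtain ⟨y, rfl⟩ := c.exists_rep
    obtain ⟨x, h5, h6⟩ := gl_exists_fixed_isConj φ hcop hs (y := y) fun a =>
      (ConjClasses.mk_eq_mk_iff_isConj.1 (h4 a y rfl)).symm
    refine ⟨⟨ConjClasses.mk ⟨x, fun a _ => h5 a⟩, fun k hk => h2 k k⁻¹ (h3 k ?_)⟩,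
      Subtype.ext (ConjClasses.mk_eq_mk_iff_isConj.2 h6.symm)⟩
    exact ConjClasses.mk_eq_mk_iff_isConj.2 (((glFix φ ⊤).subtype.map_isConj
      (ConjClasses.mk_eq_mk_iff_isConj.1 hk)).trans h6.symm)


/-- Let P and K be subgroups of a finite group with P a p-group normalizing K and K of order prime to p. Then the number of P-invariant real-valued irreducible complex characters of K equals the number of conjugacy classes of K that are real (closed under inversion) and P-invariant. Moreover, if every real-valued irreducible character of K is P-invariant, then every real element of K (one conjugate in K to its inverse) is conjugate in K to an element centralized by P. -/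
theorem result {G : Type*} [Group G] [Finite G] (p : ℕ) [Fact p.Prime] (P K : Subgroup G) (hP : IsPGroup p ↥P) (hK : ¬ p ∣ Nat.card ↥K) (hPK : P ≤ Subgroup.normalizer (K : Set G)) : Nat.card {θ : Cfsg.IrrCharacter ↥K // (∀ k : ↥K, ((θ : ↥K → ℂ) k).im = 0) ∧ (∀ x ∈ P, ∀ k k' : ↥K, (k' : G) = x * (k : G) * x⁻¹ → (θ : ↥K → ℂ) k' = (θ : ↥K → ℂ) k)} = Nat.card {c : ConjClasses ↥K // (∀ k : ↥K, ConjClasses.mk k = c → IsConj k k⁻¹) ∧ ∀ k : ↥K, ConjClasses.mk k = c → ∀ x ∈ P, ∀ k' : ↥K, (k' : G) = x * (k : G) * x⁻¹ → ConjClasses.mk k' = c} ∧ ((∀ θ : Cfsg.IrrCharacter ↥K, (∀ k : ↥K, ((θ : ↥K → ℂ) k).im = 0) → (∀ x ∈ P, ∀ k k' : ↥K, (k' : G) = x * (k : G) * x⁻¹ → (θ : ↥K → ℂ) k' = (θ : ↥K → ℂ) k)) → ∀ k : ↥K, IsConj k k⁻¹ → ∃ k' : ↥K, IsConj k k' ∧ ∀ x ∈ P, x * (k' : G) * x⁻¹ = (k' : G)) := by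
  have hp : p.Prime := Fact.out
  have h1 : ∀ s ∈ P, ∀ g ∈ K, s * g * s⁻¹ ∈ K := fun s hs g hg =>
    (Subgroup.mem_normalizer_iff.1 (hPK hs) g).1 hg
  have h2 := card_real hp hP hK (glConjHom h1)
  refine ⟨(Nat.card_congr (Equiv.subtypeEquivRight fun θ => and_congr_right fun _ =>
    (glConjHom_inv_iff h1 _).symm)).trans (h2.trans (Nat.card_congr (Equiv.subtypeEquivRight fun c =>
      and_congr_right fun _ => ⟨fun h k hk x hx k' e => ?_, fun h a g hg => h g hg a a.2 _ rfl⟩))),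
    fun h k hk => ?_⟩
  · rw [show k' = glConjHom h1 ⟨x, hx⟩ k from Subtype.ext e]
    exact h _ k hk
  rw [Nat.card_congr (Equiv.subtypeEquivRight fun θ => and_iff_left_of_imp fun h3 =>
    (glConjHom_inv_iff h1 _).2 (h θ h3)), Cfsg.Agent.S0160.result] at h2
  have h3 := (Set.eq_of_subset_of_ncard_le (s := {c : ConjClasses K | (∀ k, ConjClasses.mk k = c →
    IsConj k k⁻¹) ∧ ∀ a g, ConjClasses.mk g = c → ConjClasses.mk (glConjHom h1 a g) = c})
    (t := {c | ∀ k, ConjClasses.mk k = c → IsConj k k⁻¹}) (fun _ h => h.1) h2.le).ge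
    (show ConjClasses.mk k ∈ _ from fun y hy => by
      obtain ⟨u, rfl⟩ := isConj_iff.1 (ConjClasses.mk_eq_mk_iff_isConj.1 hy.symm)
      exact (ConjClasses.mk_eq_mk_iff_isConj.1 hy).trans (hk.trans (isConj_iff.2
        ⟨u, by simp [mul_assoc]⟩)))
  obtain ⟨a, ha⟩ := IsPGroup.iff_card.1 hP
  have := hP.isNilpotent
  obtain ⟨c, h4, h5⟩ := gl_exists_fixed_isConj (glConjHom h1)
    (ha ▸ Nat.Coprime.pow_left a (hp.coprime_iff_not_dvd.2 hK)) (Or.inl inferInstance) (y := k)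
    fun a => (ConjClasses.mk_eq_mk_iff_isConj.1 (h3.2 a k rfl)).symm
  exact ⟨c, h5, fun x hx => congrArg Subtype.val (h4 ⟨x, hx⟩)⟩

end Cfsg.Agent.S4911
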