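import Cfsg.Statements.S4914
import Cfsg.Agent.Char.GlaubRelQ

set_option autoImplicit false
open Cfsg

namespace Cfsg.Agent.S4914

open CL.Char

/-- Let P and K be subgroups of a finite group G with P a p-group normalizing K, and suppose K has a normal Sylow p-subgroup Q. Let C be the subgroup of those k ∈ K whose commutator with every element of P lies in Q (so that C/Q is the fixed-point subgroup of P on K/Q). Then there is a bijection f from the P-invariant irreducible complex characters of K onto the P-invariant irreducible complex characters of C such that, for every P-invariant irreducible character χ of K, the multiplicity of f(χ) in the restriction of χ to C is a natural number congruent to 1 or to −1 modulo p, every other P-invariant irreducible character of C occurs in that restriction with multiplicity divisible by p, and the degrees of χ and f(χ) are congruent modulo p up to sign. -/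
theorem result {G : Type*} [Group G] [Finite G] (p : ℕ) [Fact p.Prime] (P K Q C : Subgroup G) (hP : IsPGroup p ↥P) (hPK : P ≤ Subgroup.normalizer (K : Set G)) (hQK : Q ≤ K) (hQn : ∀ k ∈ K, ∀ q ∈ Q, k * q * k⁻¹ ∈ Q) (hQp : ∃ a : ℕ, Nat.card ↥Q = p ^ a) (hQsyl : ¬ p ∣ Q.relIndex K) (hCK : C ≤ K) (hC : ∀ k : G, k ∈ C ↔ (k ∈ K ∧ ∀ x ∈ P, x * k * x⁻¹ * k⁻¹ ∈ Q)) : ∃ f : {χ : Cfsg.IrrCharacter ↥K // (∀ x ∈ P, ∀ k k' : ↥K, (k' : G) = x * (k : G) * x⁻¹ → (χ : ↥K → ℂ) k' = (χ : ↥K → ℂ) k)} → {ξ : Cfsg.IrrCharacter ↥C // (∀ x ∈ P, ∀ k k' : ↥C, (k' : G) = x * (k : G) * x⁻¹ → (ξ : ↥C → ℂ) k' = (ξ : ↥C → ℂ) k)}, Function.Bijective f ∧ ∀ χ, (∀ ξ : {ξ : Cfsg.IrrCharacter ↥C // (∀ x ∈ P, ∀ k k' : ↥C, (k' : G) = x * (k : G) * x⁻¹ → (ξ : ↥C → ℂ) k' = (ξ : ↥C → ℂ) k)}, ∃ m : ℕ, (Nat.card ↥C : ℂ)⁻¹ * ∑ᶠ c : ↥C, (χ.1 : ↥K → ℂ) (Subgroup.inclusion hCK c) * (starRingEnd ℂ) ((ξ.1 : ↥C → ℂ) c) = (m : ℂ) ∧ (ξ = f χ → ((m : ZMod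 p) = 1 ∨ (m : ZMod p) = -1)) ∧ (ξ ≠ f χ → p ∣ m)) ∧ ((Cfsg.charDegree ((f χ).1 : ↥C → ℂ) : ZMod p) = (Cfsg.charDegree (χ.1 : ↥K → ℂ) : ZMod p) ∨ (Cfsg.charDegree ((f χ).1 : ↥C → ℂ) : ZMod p) = -(Cfsg.charDegree (χ.1 : ↥K → ℂ) : ZMod p)) := by
  classical
  have hp : p.Prime := Fact.out
  have := Fintype.ofFinite K
  have := Fintype.ofFinite C
  obtain ⟨a, ha⟩ := hQp
  have hn : (Q.subgroupOf K).Normal := ⟨fun q hq k => hQn k k.2 q hq⟩
  have h1 : ∀ s ∈ P, ∀ g ∈ K, s * g * s⁻¹ ∈ K := fun s hs g hg =>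
    (Subgroup.mem_normalizer_iff.1 (hPK hs) g).1 hg
  have h2 : ∀ s ∈ P, ∀ g ∈ Q, s * g * s⁻¹ ∈ Q := fun s hs g hg => by
    have h3 : ((⟨_, h1 s hs g (hQK hg)⟩ : K) : K ⧸ Q.subgroupOf K) ^ p ^ a = 1 := by
      rw [← QuotientGroup.mk_pow, show (⟨_, h1 s hs g (hQK hg)⟩ : K) ^ p ^ a = 1 from Subtype.ext (by
        have := congrArg Subtype.val (pow_card_eq_one' (x := (⟨g, hg⟩ : Q)))
        rw [ha] at this
        simpa [conj_pow] using this), QuotientGroup.mk_one]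
    exact (QuotientGroup.eq_one_iff (N := Q.subgroupOf K) ⟨_, h1 s hs g (hQK hg)⟩).1
      (orderOf_eq_one_iff.1 (Nat.eq_one_of_dvd_coprimes
      (Nat.Coprime.pow_left a (hp.coprime_iff_not_dvd.2 hQsyl)) (orderOf_dvd_of_pow_eq_one h3)
      (orderOf_dvd_natCard _)))
  have h3 : ∀ s ∈ P, ∀ g ∈ C, s * g * s⁻¹ ∈ C := fun s hs g hg => by
    refine (hC _).2 ⟨h1 s hs g (hCK hg), fun x hx => ?_⟩
    convert h2 s hs _ (((hC g).1 hg).2 _ (mul_mem (mul_mem (inv_mem hs) hx) hs)) using 1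
    group
  have h : GlqSetup p (glConjHom h1) (Q.subgroupOf K) (glConjHom h3) (Subgroup.inclusion hCK) :=
    ⟨hp, hP, (IsPGroup.of_card ha).of_equiv (Subgroup.subgroupOfEquivOfLe hQK).symm, hQsyl,
      fun s n hn => h2 s s.2 n hn, Subgroup.inclusion_injective hCK, fun _ _ => rfl, fun k => by
        rw [Subgroup.inclusion_range, Subgroup.mem_subgroupOf, hC]
        refine ⟨fun h x => ?_, fun h => ⟨k.2, fun x hx => ?_⟩⟩
        · rw [Subgroup.mem_subgroupOf]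
          convert hQn _ (inv_mem k.2) _ (h.2 x x.2) using 1
          simp [mul_assoc]
        · convert hQn _ k.2 _ (h ⟨x, hx⟩) using 1
          simp [mul_assoc]⟩
  obtain ⟨f, hf, hr⟩ := h.exists_bijective
  let e1 := Equiv.subtypeEquivRight fun χ : IrrCharacter K => (glConjHom_inv_iff h1 (χ : K → ℂ)).symm
  let e2 := Equiv.subtypeEquivRight fun χ : IrrCharacter C => glConjHom_inv_iff h3 (χ : C → ℂ)
  refine ⟨e2 ∘ f ∘ e1, e2.bijective.comp (hf.comp e1.bijective), fun χ => ⟨fun ξ => ?_,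
    (hr (e1 χ)).degree hp hP χ.1.2.isCharacter (fun s c => (e1 χ).2 s (Subgroup.inclusion hCK c)) (f _).1.2 (f _).2⟩⟩
  obtain ⟨m, hm⟩ := (χ.1.2.isCharacter.comp (Subgroup.inclusion hCK)).exists_nat_classInner
    ξ.1.2.isCharacter
  refine ⟨m, by rw [finsum_eq_sum_of_fintype]; exact hm, ?_, fun hne => ?_⟩
  · rintro rfl
    exact (hr (e1 χ)).mult_self (f _).1.2 (f _).2 hm
  · exact (hr (e1 χ)).dvd_mult (f _).1.2 ξ.1.2 (e2.symm ξ).2
      (fun e => hne (Subtype.ext (Subtype.ext e.symm))) hm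

end Cfsg.Agent.S4914
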