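import Cfsg.Statements.S4923
import Cfsg.Agent.Grp.PGroupMaxClass
import Cfsg.Agent.Char.Orth2
import Cfsg.Agent.Char.Galois

set_option autoImplicit false
open Cfsg

namespace Cfsg.Agent.S4923

open Subgroup IntermediateField CL.Char

theorem fix_of_mem {A : Set ℂ} (σ : ℂ ≃+* ℂ) (h : ∀ a ∈ A, σ a = a) {x : ℂ} (hx : x ∈ adjoin ℚ A) : σ x = x := by
  induction hx using adjoin_induction with
  | mem a ha => exact h a ha
  | algebraMap q => simp
  | add a b _ _ h1 h2 => rw [map_add, h1, h2]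
  | inv a _ h1 => rw [map_inv₀, h1]
  | mul a b _ _ h1 h2 => rw [map_mul, h1, h2]

theorem adjoin_le_of_fix {A B : Set ℂ} (hB : ∀ b ∈ B, IsIntegral ℚ b)
    (h : ∀ σ : ℂ ≃+* ℂ, (∀ a ∈ A, σ a = a) → ∀ b ∈ B, σ b = b) : adjoin ℚ B ≤ adjoin ℚ A :=
  adjoin_le_iff.2 fun b hb => by
    obtain ⟨y, rfl⟩ := mem_bot_of_forall_algEquiv (F := adjoin ℚ A) (hB b hb).tower_top fun σ =>
      h σ.toRingEquiv (fun a ha => σ.commutes ⟨a, subset_adjoin ℚ A ha⟩) b hb
    exact y.2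

theorem field_iff {G : Type*} [Group G] [Finite G] {g : G} {n : ℕ} (hg : g ^ 2 ^ n = 1) {ζ ε : ℂ}
    (hζ : ζ ^ 2 ^ n = 1) (hε : ε = 1 ∨ ε = -1) :
    adjoin ℚ {z : ℂ | ∃ χ : IrrCharacter G, (χ : G → ℂ) g = z} = adjoin ℚ ({ζ + ε * ζ⁻¹} : Set ℂ) ↔
      ∀ k : ℕ, k.Coprime (2 ^ n) → (IsConj g (g ^ k) ↔ ζ ^ k = ζ ∨ ζ ^ (k + 1) = ε) := by
  have z0 : ζ ≠ 0 := fun e => by simp [e] at hζ
  have e2 : ε * ε = 1 := by rcases hε with rfl | rfl <;> simp
  have h1 : ∀ (σ : ℂ ≃+* ℂ) (k : ℕ), (∀ z : ℂ, z ^ 2 ^ n = 1 → σ z = z ^ k) →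
      ((∀ a ∈ {z : ℂ | ∃ χ : IrrCharacter G, (χ : G → ℂ) g = z}, σ a = a) ↔ IsConj g (g ^ k)) ∧
      ((∀ a ∈ ({ζ + ε * ζ⁻¹} : Set ℂ), σ a = a) ↔ ζ ^ k = ζ ∨ ζ ^ (k + 1) = ε) := fun σ k h => by
    have h2 : ∀ χ : IrrCharacter G, σ ((χ : G → ℂ) g) = (χ : G → ℂ) (g ^ k) := fun χ =>
      isChar_map_eq_pow (isChar_of_isIrr χ.2) g σ.toRingHom k fun z hz => h z (by
        obtain ⟨c, hc⟩ := orderOf_dvd_of_pow_eq_one hg
        rw [hc, pow_mul, hz, one_pow])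
    refine ⟨⟨fun e => (isConj_iff_forall_irr _ _).2 fun χ => by rw [← h2, e _ ⟨χ, rfl⟩], ?_⟩, ?_⟩
    · rintro e _ ⟨χ, rfl⟩
      rw [h2, (isConj_iff_forall_irr _ _).1 e]
    · have h3 : σ ε = ε := by rcases hε with rfl | rfl <;> simp
      have h4 : ζ ^ k ≠ 0 := pow_ne_zero k z0
      simp only [Set.mem_singleton_iff, forall_eq]
      rw [map_add, map_mul, map_inv₀, h ζ hζ, h3, ← sub_eq_zero, ← sub_eq_zero (a := ζ ^ k),
        ← sub_eq_zero (a := ζ ^ (k + 1)), ← mul_eq_zero, show ζ ^ k + ε * (ζ ^ k)⁻¹ - (ζ + ε * ζ⁻¹) =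
          (ζ ^ k - ζ) * (ζ ^ (k + 1) - ε) * (ζ ^ (k + 1))⁻¹ by field_simp; ring, mul_eq_zero,
        or_iff_left (inv_ne_zero (pow_ne_zero _ z0))]
  have n0 : 2 ^ n ≠ 0 := by positivity
  refine ⟨fun e k hk => ?_, fun e => le_antisymm (adjoin_le_of_fix ?_ fun σ h => ?_) (adjoin_le_of_fix ?_ fun σ h => ?_)⟩
  · obtain ⟨σ, hσ⟩ := exists_ringEquiv_pow n0 hk
    rw [← (h1 σ k hσ).1, ← (h1 σ k hσ).2]
    exact ⟨fun h a ha => fix_of_mem σ h (e.ge (subset_adjoin ℚ _ ha)),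
      fun h a ha => fix_of_mem σ h (e.le (subset_adjoin ℚ _ ha))⟩
  · rintro _ ⟨χ, rfl⟩
    exact (isChar_isIntegral (isChar_of_isIrr χ.2) g).tower_top
  · obtain ⟨k, hk, hσ⟩ := exists_pow_of_ringHom σ.toRingHom n0
    exact (h1 σ k hσ).1.2 ((e k hk).2 ((h1 σ k hσ).2.1 h))
  · rintro _ rfl
    have h2 : IsIntegral ℚ ζ := IsIntegral.of_pow (Nat.pos_of_ne_zero n0) (hζ ▸ isIntegral_one)
    exact h2.add ((IsIntegral.of_pow two_pos (by rw [sq, e2]; exact isIntegral_one)).mul h2.inv)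
  · obtain ⟨k, hk, hσ⟩ := exists_pow_of_ringHom σ.toRingHom n0
    exact (h1 σ k hσ).2.2 ((e k hk).1 ((h1 σ k hσ).1.1 h))

theorem relIndex_two {G : Type*} [Group G] [Finite G] (P : Sylow 2 G) {N : ℕ} (hP : Nat.card P = 2 ^ (N + 1))
    {g b : G} (hg : orderOf g = 2 ^ N) (hb : b ∈ normalizer (zpowers g : Set G))
    (hc : b ∉ centralizer (zpowers g : Set G)) :
    (centralizer (zpowers g : Set G)).relIndex (normalizer (zpowers g : Set G)) = 2 := by
  have h1 : (centralizer (zpowers g : Set G)).relIndex (normalizer (zpowers g : Set G)) ∣ 2 ^ (N - 1) := by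
    rw [relIndex, ← normalizerMonoidHom_ker, index_ker]
    refine (card_subgroup_dvd_card _).trans ?_
    rw [IsCyclic.card_mulAut, Nat.card_zpowers, hg]
    rcases N with _ | N
    · simp
    · simp [Nat.totient_prime_pow_succ Nat.prime_two]
  obtain ⟨j, -, hj⟩ := (Nat.dvd_prime_pow Nat.prime_two).1 h1
  have h2 : 2 ^ (N + j) ∣ 2 ^ (N + 1) := hP ▸ P.pow_dvd_card_of_pow_dvd_card (by
    refine dvd_trans ?_ (card_subgroup_dvd_card (normalizer (zpowers g : Set G)))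
    rw [← ((centralizer (zpowers g : Set G)).subgroupOf (normalizer (zpowers g : Set G))).card_mul_index, pow_add, ← hj,
      Nat.card_congr (subgroupOfEquivOfLe (centralizer_le_normalizer _)).toEquiv, ← hg, ← Nat.card_zpowers]
    exact Nat.mul_dvd_mul_right (card_dvd_of_le (le_centralizer _)) _)
  have h3 := (Nat.pow_dvd_pow_iff_le_right one_lt_two).1 h2
  rcases (by omega : j = 0 ∨ j = 1) with rfl | rfl
  · exact absurd (relIndex_eq_one.1 hj hb) hc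
  · exact hj

theorem cent_zp {G : Type*} [Group G] (x : G) : centralizer (zpowers x : Set G) = centralizer {x} := by
  rw [zpowers_eq_closure, centralizer_closure]

theorem mem_norm {G : Type*} [Group G] [Finite G] {g x : G} (h : x * g * x⁻¹ ∈ zpowers g) :
    x ∈ normalizer (zpowers g : Set G) :=
  mem_normalizer_fintype fun _ ⟨n, e⟩ => by rw [← e, ← conj_zpow]; exact zpow_mem h n


/-- Let G be a finite group with Sylow 2-subgroup P of order 2^n ≥ 8, and let ζ be a primitive 2^(n−1)-th root of unity in ℂ. Then the commutator subgroup of P has index 4 in P if and only if there is an element g of P whose conjugacy class in G has even size and such that the field generated over ℚ by the values at g of all irreducible complex characters of G equals ℚ(ζ + ζ⁻¹) or ℚ(ζ − ζ⁻¹). -/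
theorem result {G : Type*} [Group G] [Finite G] (P : Sylow 2 G) (n : ℕ) (hn : 3 ≤ n) (hP : Nat.card P = 2 ^ n) (ζ : ℂ) (hζ : IsPrimitiveRoot ζ (2 ^ (n - 1))) :
    (commutator ↥P).index = 4 ↔
      ∃ g : G, g ∈ (P : Subgroup G) ∧ 2 ∣ (Subgroup.centralizer ({g} : Set G)).index ∧
        (IntermediateField.adjoin ℚ {z : ℂ | ∃ χ : Cfsg.IrrCharacter G, (χ : G → ℂ) g = z} = IntermediateField.adjoin ℚ ({ζ + ζ⁻¹} : Set ℂ) ∨
          IntermediateField.adjoin ℚ {z : ℂ | ∃ χ : Cfsg.IrrCharacter G, (χ : G → ℂ) g = z} = IntermediateField.adjoin ℚ ({ζ - ζ⁻¹} : Set ℂ)) := by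
  obtain ⟨N, rfl⟩ : ∃ N, n = N + 1 := ⟨n - 1, by omega⟩
  rw [Nat.add_sub_cancel] at hζ
  have z1 : ζ ^ 2 ^ (N + 1) = 1 := by rw [pow_succ, pow_mul, hζ.pow_eq_one, one_pow]
  have gP : ∀ g ∈ (P : Subgroup G), g ^ 2 ^ (N + 1) = 1 := fun g hg =>
    congrArg Subtype.val (hP ▸ pow_card_eq_one' : (⟨g, hg⟩ : P) ^ 2 ^ (N + 1) = 1)
  have zm : ζ ^ 2 ^ (N - 1) = -1 := (hζ.pow (by positivity) (b := 2) (by
    rw [← pow_succ, Nat.sub_add_cancel (by omega)])).eq_neg_one_of_two_right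
  have zz : ∀ i j, ζ ^ i = ζ ^ j ↔ i ≡ j [MOD 2 ^ N] := fun i j => by
    rw [hζ.eq_orderOf]; exact (hζ.isOfFinOrder (by positivity)).pow_eq_pow_iff_modEq
  rw [show ζ + ζ⁻¹ = ζ + 1 * ζ⁻¹ by ring, show ζ - ζ⁻¹ = ζ + -1 * ζ⁻¹ by ring]
  constructor
  · intro h
    obtain ⟨a, b, h⟩ := CL.Grp.exists_dqsGen_of_index_commutator_le (by omega) P hP h.le
    have og : orderOf (a : G) = 2 ^ N := by rw [orderOf_coe, h.ord]
    have gg : ∀ i j, (a : G) ^ i = (a : G) ^ j ↔ ζ ^ i = ζ ^ j := fun i j => by rw [zz, pow_eq_pow_iff_modEq, og]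
    have hb : (b : G) ∈ normalizer (zpowers (a : G) : Set G) := mem_norm (by
      obtain ⟨r, e, -⟩ := h.exists_conj
      exact ⟨r, (congrArg Subtype.val e).symm⟩)
    have h1 := relIndex_two P hP og hb fun e => h.not_commute (Subtype.ext (e a (mem_zpowers _)))
    have h2 : ∀ k, IsConj (a : G) (a ^ k) ↔ (a : G) ^ k = a ∨ (a : G) ^ k = b * a * (b : G)⁻¹ := fun k => by
      refine ⟨fun e => ?_, fun e => e.elim (fun e => by rw [e]) fun e => isConj_iff.2 ⟨_, e.symm⟩⟩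
      obtain ⟨x, e⟩ := isConj_iff.1 e
      have hx := mem_norm (e ▸ pow_mem (mem_zpowers (a : G)) k)
      rw [← e]
      by_cases h3 : x ∈ centralizer (zpowers (a : G) : Set G)
      · exact .inl (mul_inv_eq_iff_eq_mul.2 (h3 a (mem_zpowers _)).symm)
      · have h4 := (mul_mem_iff_of_index_two h1 (a := ⟨b, hb⟩⁻¹) (b := ⟨x, hx⟩)).2 (iff_of_false
          (fun e => h.not_commute (Subtype.ext (inv_mem_iff.1 e a (mem_zpowers _)))) h3) a (mem_zpowers _)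
        have h4 : a * ((b : G)⁻¹ * x) = (b : G)⁻¹ * x * a := h4
        exact .inr (by rw [show x * a * x⁻¹ = b * ((b : G)⁻¹ * x * a) * x⁻¹ by group, ← h4]; group)
    refine ⟨a, a.2, by rw [← cent_zp, ← relIndex_mul_index (centralizer_le_normalizer _), h1]; simp, ?_⟩
    have h3 : ∀ k, (a : G) ^ k = a ↔ ζ ^ k = ζ := fun k => by simpa using gg k 1
    rw [field_iff (gP _ a.2) z1 (.inl rfl), field_iff (gP _ a.2) z1 (.inr rfl)]
    rcases h.rel with ⟨-, e⟩ | ⟨-, e⟩ | ⟨-, -, e⟩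
    iterate 2
      refine .inl fun k _ => ?_
      rw [h2, h3, show (b : G) * a * (b : G)⁻¹ = (a : G)⁻¹ from congrArg Subtype.val e, ← mul_eq_one_iff_eq_inv,
        ← pow_succ, ← pow_zero (a : G), gg, pow_zero]
    refine .inr fun k _ => ?_
    rw [h2, h3, show (b : G) * a * (b : G)⁻¹ = (a : G) ^ (2 ^ (N - 1) - 1) from congrArg Subtype.val e,
      ← mul_left_inj (a : G), ← pow_succ, ← pow_succ, Nat.sub_add_cancel Nat.one_le_two_pow, gg, zm]
  · rintro ⟨g, hg, h1, h2⟩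
    have hna : ¬ IsMulCommutative P := fun e => P.not_dvd_index (h1.trans (index_dvd_of_le fun u hu =>
      mem_centralizer_singleton_iff.2 (congrArg Subtype.val (e.is_comm.comm (⟨u, hu⟩ : P) ⟨g, hg⟩))))
    rcases (by omega : N = 2 ∨ 3 ≤ N) with rfl | hN
    · exact (CL.Grp.exists_dqsGen_of_card_eight hP hna).choose_spec.choose_spec.index_commutator
    obtain ⟨ε, hε, h2⟩ : ∃ ε : ℂ, ε * ε = 1 ∧ (∀ k : ℕ, k.Coprime (2 ^ (N + 1)) →
        (IsConj g (g ^ k) ↔ ζ ^ k = ζ ∨ ζ ^ (k + 1) = ε)) ∧ ∃ k : ℕ, 4 ∣ k + 1 ∧ k * k ≡ 1 [MOD 2 ^ N] ∧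
          ζ ^ (k + 1) = ε := by
      obtain ⟨M, rfl⟩ : ∃ M, N = M + 3 := ⟨N - 3, by omega⟩
      obtain ⟨c, hc⟩ : ∃ c, 2 ^ M = c + 1 := ⟨2 ^ M - 1, (Nat.sub_add_cancel Nat.one_le_two_pow).symm⟩
      have h8 : 2 ^ (M + 3) = 8 * c + 8 := by rw [pow_add, hc]; ring
      rcases h2 with e | e
      · refine ⟨1, one_mul 1, (field_iff (gP _ hg) z1 (.inl rfl)).1 e, 8 * c + 7, by omega,
          ((Nat.modEq_iff_dvd' (by nlinarith)).2 ⟨8 * c + 6, ?_⟩).symm, by rw [← hζ.pow_eq_one, h8]⟩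
        rw [h8, Nat.sub_eq_iff_eq_add (by nlinarith)]; ring
      · refine ⟨-1, by simp, (field_iff (gP _ hg) z1 (.inr rfl)).1 e, 4 * c + 3, by omega,
          ((Nat.modEq_iff_dvd' (by nlinarith)).2 ⟨2 * c + 1, ?_⟩).symm, ?_⟩
        · rw [h8, Nat.sub_eq_iff_eq_add (by nlinarith)]; ring
        · rw [← zm, show M + 3 - 1 = M + 2 from rfl, pow_add 2, hc]; ring_nf
    obtain ⟨h2, k, h4, hk, h5⟩ := h2
    have nd : ∀ i, i < N → ζ ^ 2 ^ i ≠ 1 := fun i hi e =>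
      absurd ((Nat.pow_dvd_pow_iff_le_right one_lt_two).1 (hζ.dvd_of_pow_eq_one _ e)) (by omega)
    have cop : ∀ k : ℕ, Odd k → k.Coprime (2 ^ (N + 1)) := fun k hk => Nat.Coprime.pow_right _ (Nat.coprime_two_right.2 hk)
    obtain ⟨m, hm, og⟩ := (Nat.dvd_prime_pow Nat.prime_two).1 (orderOf_dvd_of_pow_eq_one (gP g hg))
    have z0 := hζ.ne_zero (by positivity)
    obtain rfl : m = N := by
      by_contra e
      rcases lt_or_gt_of_ne e with e | e
      · rcases (h2 (2 ^ (N - 1) + 1) (cop _ (Even.add_one (Nat.even_pow.2 ⟨even_two, by omega⟩)))).1 (by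
          rw [pow_succ, orderOf_dvd_iff_pow_eq_one.1 (og ▸ Nat.pow_dvd_pow 2 (show m ≤ N - 1 by omega)), one_mul]) with e | e
        · exact nd (N - 1) (by omega) (mul_right_cancel₀ z0 (by rw [← pow_succ, e, one_mul]))
        · rw [pow_succ, pow_succ, zm] at e
          exact nd 2 (by omega) (by rw [← hε, ← e]; ring)
      · refine hna ⟨⟨fun a b => ?_⟩⟩
        have h6 : zpowers g = P := eq_of_le_of_card_ge (zpowers_le.2 hg) (by
          rw [hP, Nat.card_zpowers, og]; exact Nat.pow_le_pow_right two_pos e)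
        exact Subtype.ext (le_centralizer (zpowers g) (h6.ge b.2) a (h6.ge a.2))
    obtain ⟨x, hx⟩ := isConj_iff.1 ((h2 k (cop k (by rw [Nat.odd_iff]; omega))).2 (.inr h5))
    have h6 : x ^ 2 * g * (x ^ 2)⁻¹ = g := by
      rw [show x ^ 2 * g * (x ^ 2)⁻¹ = x * (x * g * x⁻¹) * x⁻¹ by rw [sq]; group, hx, ← conj_pow, hx, ← pow_mul,
        pow_eq_pow_iff_modEq.2 (og ▸ hk), pow_one]
    obtain ⟨s, t, ht, e⟩ := Nat.exists_eq_two_pow_mul_odd (orderOf_pos x).ne'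
    have h7 : x ^ t * g * (x ^ t)⁻¹ = g ^ k := by
      obtain ⟨u, rfl⟩ := ht
      rw [← hx, pow_succ', pow_mul, show x * (x ^ 2) ^ u * g * (x * (x ^ 2) ^ u)⁻¹ =
        x * ((x ^ 2) ^ u * g * ((x ^ 2) ^ u)⁻¹) * x⁻¹ by group,
        (Commute.pow_left (mul_inv_eq_iff_eq_mul.1 h6) u).eq, mul_inv_cancel_right]
    have pg : ∀ {u : G} {i : ℕ}, u ^ 2 ^ i = 1 → IsPGroup 2 (zpowers u) := fun hu => by
      obtain ⟨j, -, hj⟩ := (Nat.dvd_prime_pow Nat.prime_two).1 (orderOf_dvd_of_pow_eq_one hu)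
      exact IsPGroup.of_card (by rw [Nat.card_zpowers, hj])
    obtain ⟨S, hS⟩ := ((pg (gP g hg)).to_sup_of_normal_left' (pg (u := x ^ t) (i := s) (by
      rw [← pow_mul, mul_comm, ← e, pow_orderOf_eq_one])) (zpowers_le.2 (mem_norm (h7 ▸ pow_mem (mem_zpowers g) k)))
      ).exists_le_sylow
    have g1 : g ∈ (S : Subgroup G) := hS (mem_sup_left (mem_zpowers _))
    have x1 : x ^ t ∈ (S : Subgroup G) := hS (mem_sup_right (mem_zpowers _))
    have oa : orderOf (⟨g, g1⟩ : (S : Subgroup G)) = 2 ^ m := by rw [← orderOf_coe]; exact og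
    obtain ⟨b, hb⟩ := CL.Grp.exists_dqsGen_of_conj (n := m) (a := (⟨g, g1⟩ : (S : Subgroup G))) (b := ⟨x ^ t, x1⟩) (by omega) oa
      (Nat.eq_of_mul_eq_mul_left (Nat.two_pow_pos m) (by
        rw [← pow_succ, ← hP, Nat.card_congr (P.equiv S).toEquiv, ← card_mul_index (zpowers (⟨g, g1⟩ : (S : Subgroup G))),
          Nat.card_zpowers, oa]))
      (fun ⟨i, e⟩ => nd 2 (by omega) (by
        have e : g ^ i = x ^ t := congrArg Subtype.val e
        rw [← e, (Commute.zpow_left (Commute.refl g) i).eq, mul_inv_cancel_right, ← pow_one g, ← pow_mul, one_mul,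
          pow_eq_pow_iff_modEq, og, ← zz, pow_one] at h7
        rw [pow_succ, ← h7] at h5
        rw [← hε, ← h5]; ring)) (r := k) (Subtype.ext (by simpa using h7)) (by exact_mod_cast h4)
    exact (hb.map_equiv (S.equiv P)).index_commutator

end Cfsg.Agent.S4923
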