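import Cfsg.Statements.S4989
import Cfsg.Agent.Char.Galois
import Cfsg.Agent.Char.Linear

set_option autoImplicit false
open Cfsg

namespace Cfsg.Agent.S4989

/-- Let H be a subgroup of the finite group G and χ an irreducible complex character of G. Then the inner product of the restriction of χ to H with itself, (1/#H)·Σ_{h ∈ H} |χ(h)|², is at most 1 + #(Z ∖ H)/#H, where Z is the set of zeros of χ in G. -/
theorem result {G : Type*} [Group G] [Finite G] (H : Subgroup G) (χ : Cfsg.IrrCharacter G) : (Nat.card ↥H : ℝ)⁻¹ * ∑ᶠ h : ↥H, ‖(χ : G → ℂ) h‖ ^ 2 ≤ 1 + (Set.ncard ({x : G | (χ : G → ℂ) x = 0} \ (H : Set G)) : ℝ) / (Nat.card ↥H : ℝ) := by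
  classical
  have := Fintype.ofFinite G
  rw [finsum_eq_sum_of_fintype]
  set V := Finset.univ.filter (fun g : G => (χ : G → ℂ) g = 0 ∧ g ∉ H) with hV
  set S := Finset.univ.filter (fun g : G => (χ : G → ℂ) g ≠ 0 ∧ g ∉ H) with hS
  have hsplit : ∀ f : G → ℝ, ∑ g, f g = ∑ h : H, f h + ∑ g ∈ V, f g + ∑ g ∈ S, f g := by
    intro f
    rw [← Finset.sum_subtype (Finset.univ.filter (· ∈ H)) (p := (· ∈ H)) (by simp) f,
      hV, hS, Finset.sum_filter, Finset.sum_filter, Finset.sum_filter,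
      ← Finset.sum_add_distrib, ← Finset.sum_add_distrib]
    refine Finset.sum_congr rfl fun g _ => ?_
    by_cases h1 : (χ : G → ℂ) g = 0 <;> by_cases h2 : g ∈ H <;> simp [h1, h2]
  have h1 := hsplit fun _ => 1
  have h2 := hsplit fun g => ‖(χ : G → ℂ) g‖ ^ 2
  rw [χ.2.sum_norm_sq] at h2
  simp only [Finset.sum_const, Finset.card_univ, nsmul_eq_mul, mul_one,
    ← Nat.card_eq_fintype_card] at h1
  have h4 : ∑ g ∈ V, ‖(χ : G → ℂ) g‖ ^ 2 = 0 :=
    Finset.sum_eq_zero fun g hg => by rw [(Finset.mem_filter.1 hg).2.1]; simp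
  have h5 : (S.card : ℝ) ≤ ∑ g ∈ S, ‖(χ : G → ℂ) g‖ ^ 2 := by
    refine CL.Char.card_le_sum_norm_sq χ.2.isGeneralizedCharacter S (fun m hm s hs => ?_)
      fun s hs => (Finset.mem_filter.1 hs).2.1
    obtain ⟨h6, h7⟩ := (Finset.mem_filter.1 hs).2
    have hm' : m.Coprime (orderOf s) := hm.coprime_dvd_right (orderOf_dvd_natCard s)
    refine Finset.mem_filter.2 ⟨Finset.mem_univ _, ?_, fun h8 => h7 ?_⟩
    · rwa [Ne, CL.Char.genChar_pow_eq_zero_iff χ.2.isGeneralizedCharacter hm']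
    · obtain ⟨k, hk⟩ := exists_pow_eq_self_of_coprime hm'
      rw [← hk]
      exact Subgroup.pow_mem _ h8 k
  have h6 : ({x : G | (χ : G → ℂ) x = 0} \ (H : Set G)).ncard = V.card := by
    rw [← Set.ncard_coe_finset]
    congr 1
    ext x; simp [hV]
  have h7 : (0 : ℝ) < Nat.card H := by exact_mod_cast Nat.card_pos
  rw [h6, inv_mul_le_iff₀ h7, mul_add, mul_one, mul_div_cancel₀ _ h7.ne']
  linarith

end Cfsg.Agent.S4989
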