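import Cfsg.Statements.S4993
import Cfsg.Agent.Char.PrimClass2

set_option autoImplicit false
open Cfsg

namespace Cfsg.Agent.S4993

/-- Let G be a group of odd order whose order has exactly two prime divisors and whose quotient by its Fitting subgroup is nilpotent (G is metanilpotent), and let χ be a primitive irreducible complex character of G (not induced from a character of any proper subgroup). Then χ(1) divides the size of some conjugacy class of G. -/
theorem result {G : Type*} [Group G] [Fintype G] (hodd : Odd (Nat.card G)) (h2 : (Nat.card G).primeFactors.card = 2) [hF : (Cfsg.fittingSubgroup G).Normal] (hmeta : Group.IsNilpotent (G ⧸ Cfsg.fittingSubgroup G)) (χ : Cfsg.IrrCharacter G) (hprim : ¬ ∃ (H : Subgroup G), H ≠ ⊤ ∧ ∃ θ : ↥H → ℂ, Cfsg.IsCharacter ↥H θ ∧ Cfsg.indFun H θ = (χ : G → ℂ)) : ∃ g : G, Cfsg.charDegree (χ : G → ℂ) ∣ (Subgroup.centralizer ({g} : Set G)).index := by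
  have hN := CL.Grp.fittingSubgroup_isNilpotent G
  haveI : Group.IsSolvable G := solvable_of_ker_le_range (Cfsg.fittingSubgroup G).subtype
    (QuotientGroup.mk' (Cfsg.fittingSubgroup G)) (by simp)
  obtain ⟨p, q, -, hpq⟩ := Finset.card_eq_two.1 h2
  have hm : ∀ r : ℕ, r.Prime → r ∣ Nat.card G → r = p ∨ r = q := fun r hr hd => by
    have : r ∈ (Nat.card G).primeFactors := Nat.mem_primeFactors.2 ⟨hr, hd, Nat.card_pos.ne'⟩
    rw [hpq] at this
    simpa using this
  haveI : Fact p.Prime := ⟨Nat.prime_of_mem_primeFactors (n := Nat.card G) (by rw [hpq]; simp)⟩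
  haveI : Fact q.Prime := ⟨Nat.prime_of_mem_primeFactors (n := Nat.card G) (by rw [hpq]; simp)⟩
  have hn : ∀ (r : ℕ) [Fact r.Prime] (P : Sylow r G),
      (Cfsg.fittingSubgroup G ⊔ P).Normal := fun r _ P => by
    have h := (inferInstance : (Cfsg.pCore r (G ⧸ Cfsg.fittingSubgroup G)).Normal).comap
      (QuotientGroup.mk' (Cfsg.fittingSubgroup G))
    rwa [← CL.Grp.sylow_eq_pCore_of_isNilpotent (P.mapSurjective (QuotientGroup.mk'_surjective _)),
      Sylow.coe_mapSurjective, QuotientGroup.comap_map_mk'] at h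
  obtain ⟨P⟩ : Nonempty (Sylow p G) := inferInstance
  obtain ⟨Q⟩ : Nonempty (Sylow q G) := inferInstance
  haveI := hn p P
  haveI := hn q Q
  obtain ⟨x, hx⟩ := CL.Char.FixAvg.exists_coset_of_primitive χ.2 hprim hN P.isPGroup'
  obtain ⟨y, hy⟩ := CL.Char.FixAvg.exists_coset_of_primitive χ.2 hprim hN Q.isPGroup'
  have ht : (Cfsg.fittingSubgroup G ⊔ P) ⊔ (Cfsg.fittingSubgroup G ⊔ Q) = ⊤ := by
    rw [← Subgroup.index_eq_one]
    by_contra h
    obtain ⟨r, hr, hd⟩ := Nat.exists_prime_and_dvd h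
    rcases hm r hr (hd.trans (Subgroup.index_dvd_card _)) with rfl | rfl
    · exact P.not_dvd_index (hd.trans (Subgroup.index_dvd_of_le (le_sup_right.trans le_sup_left)))
    · exact Q.not_dvd_index (hd.trans (Subgroup.index_dvd_of_le (le_sup_right.trans le_sup_right)))
  obtain ⟨a, ha, b, hb, hab⟩ := Subgroup.mem_sup_of_normal_left.1 (ht ▸ Subgroup.mem_top (x⁻¹ * y))
  refine ⟨x * a, (Nat.factorization_prime_le_iff_dvd χ.2.charDegree_pos.ne'
    Subgroup.index_ne_zero_of_finite).1 fun r hr => ?_⟩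
  by_cases hd : r ∣ Nat.card G
  · rcases hm r hr hd with rfl | rfl
    · exact hx _ (by simpa using ha)
    · refine hy _ ?_
      rw [eq_mul_inv_of_mul_eq hab]
      simpa [mul_assoc] using hb
  · rw [Nat.factorization_eq_zero_of_not_dvd fun h => hd (h.trans χ.2.charDegree_dvd_card)]
    exact Nat.zero_le _

end Cfsg.Agent.S4993
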