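import Cfsg.Statements.S4996
import Cfsg.Agent.Char.Gallagher
import Cfsg.Agent.Char.Congruence
import Cfsg.Agent.Char.Linear

set_option autoImplicit false
open Cfsg

namespace Cfsg.Agent.S4996

/-- Let N be a normal subgroup of the finite group G and χ an irreducible complex character of G. Then the restriction of χ to N is not irreducible if and only if χ vanishes on some whole coset Nx of N in G. -/
theorem result {G : Type*} [Group G] [Finite G] (N : Subgroup G) [N.Normal] (χ : Cfsg.IrrCharacter G) : ¬ Cfsg.IsIrrCharacter ↥N (fun n : ↥N => (χ : G → ℂ) n) ↔ ∃ x : G, ∀ n : ↥N, (χ : G → ℂ) ((n : G) * x) = 0 := by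
  classical
  have := Fintype.ofFinite G
  have := Fintype.ofFinite N
  have hN : (Nat.card N : ℂ) ≠ 0 := CL.Char.natCard_ne_zero
  have hNr : (0 : ℝ) < Nat.card N := by exact_mod_cast Nat.card_pos
  constructor
  · intro h
    by_contra hn
    push Not at hn
    apply h
    set a := CL.Char.cosetAvg N ((χ : G → ℂ) * fun g => (starRingEnd ℂ) ((χ : G → ℂ) g)) with ha
    have hac : IsCharacter G a :=
      CL.Char.isCharacter_cosetAvg (χ.2.isCharacter.mul χ.2.isCharacter.conj)
    set r : G → ℝ := fun g => (Nat.card N : ℝ)⁻¹ * ∑ n : N, ‖(χ : G → ℂ) (n * g)‖ ^ 2 with hr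
    have har : ∀ g, a g = r g := fun g => by
      rw [ha, CL.Char.cosetAvg_apply, hr]
      push_cast
      congr 1
      refine Finset.sum_congr rfl fun n _ => ?_
      rw [Pi.mul_apply, Complex.mul_conj, Complex.normSq_eq_norm_sq]; push_cast; rfl
    have hr0 : ∀ g, 0 < r g := fun g => by
      obtain ⟨n, hn'⟩ := hn g
      refine mul_pos (inv_pos.2 hNr) (Finset.sum_pos' (fun _ _ => by positivity)
        ⟨n, Finset.mem_univ _, by positivity⟩)
    have h1 := CL.Char.one_le_prod_norm_sq hac.isGeneralizedCharacter Finset.univ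
      (fun _ _ _ _ => Finset.mem_univ _) fun s _ => by
        rw [har]; exact_mod_cast (hr0 s).ne'
    have h2 : ∀ g, ‖a g‖ = r g := fun g => by
      rw [har, Complex.norm_real, Real.norm_of_nonneg (hr0 g).le]
    simp only [h2, Finset.prod_pow] at h1
    have h3 : 1 ≤ ∏ g, r g := by
      have h4 : 0 ≤ ∏ g, r g := Finset.prod_nonneg fun g _ => (hr0 g).le
      nlinarith
    have h4 : ∑ g, r g = Nat.card G := by
      have h5 : ∑ g, a g = ∑ g, ((‖(χ : G → ℂ) g‖ ^ 2 : ℝ) : ℂ) := by
        rw [ha, CL.Char.sum_cosetAvg]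
        refine Finset.sum_congr rfl fun g _ => ?_
        rw [Pi.mul_apply, Complex.mul_conj, Complex.normSq_eq_norm_sq]
      simp only [har] at h5
      rw [← χ.2.sum_norm_sq]
      exact_mod_cast h5
    have h5 := CL.Char.eq_one_of_one_le_prod_of_sum_le Finset.univ r (fun g _ => (hr0 g).le) h3
      (by rw [h4, Finset.card_univ, Nat.card_eq_fintype_card]) 1 (Finset.mem_univ _)
    refine (χ.2.isCharacter.restrict N).isIrrCharacter_of_norm_one ?_
    rw [← CL.Char.cosetAvg_mul_conj_one, ← ha, har, h5, Complex.ofReal_one]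
  · rintro ⟨x, hx⟩ h
    have h1 := CL.Char.sum_coset_mul_conj χ.2.isCharacter h x
    simp only [hx, zero_mul, Finset.sum_const_zero] at h1
    exact hN h1.symm

end Cfsg.Agent.S4996
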