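import Cfsg.Statements.S5011
import Cfsg.Agent.Char.Linear

set_option autoImplicit false
open Cfsg

namespace Cfsg.Agent.S5011

/-- Let G be a finite non-abelian simple group and ρ an irreducible complex representation of G on a space of dimension greater than one (irreducible in the sense that the only subspaces invariant under every ρ(x) are 0 and the whole space). Then for every non-identity element g of G, the centralizer of g does not act irreducibly: there is a non-zero proper subspace invariant under ρ(c) for every c commuting with g. -/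
theorem result {G : Type*} [Group G] [Finite G] [IsSimpleGroup G]
    (hG : ¬ IsMulCommutative G) {V : Type*} [AddCommGroup V] [Module ℂ V] [FiniteDimensional ℂ V]
    (ρ : Representation ℂ G V)
    (hirr : ∀ W : Submodule ℂ V, (∀ x : G, ∀ v ∈ W, ρ x v ∈ W) → W = ⊥ ∨ W = ⊤)
    (hdim : 1 < Module.finrank ℂ V) (g : G) (hg : g ≠ 1) :
    ∃ W : Submodule ℂ V, W ≠ ⊥ ∧ W ≠ ⊤ ∧ ∀ c ∈ Subgroup.centralizer ({g} : Set G), ∀ v ∈ W, ρ c v ∈ W := by
  have : Nontrivial V := Module.nontrivial_of_finrank_pos (R := ℂ) (by omega)
  obtain ⟨ω, hω⟩ := Module.End.exists_eigenvalue (ρ g)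
  refine ⟨Module.End.eigenspace (ρ g) ω, hω, fun htop => ?_, fun c hc v hv => ?_⟩
  · have h1 : g ∈ CL.Char.charCenter ρ.character := by
      rw [CL.Char.mem_charCenter_character]
      refine ⟨ω, LinearMap.ext fun v => ?_⟩
      have : v ∈ Module.End.eigenspace (ρ g) ω := htop ▸ Submodule.mem_top
      simpa using Module.End.mem_eigenspace_iff.1 this
    have h2 := (CL.Char.isCharacter_character ρ).charCenter_normal
    rcases h2.eq_bot_or_eq_top with h3 | h3
    · rw [h3] at h1; exact hg h1
    · obtain ⟨v, hv⟩ := exists_ne (0 : V)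
      have h4 := hirr (ℂ ∙ v) fun x w hw => by
        obtain ⟨c, hc⟩ := (CL.Char.mem_charCenter_character ρ).1
          (h3 ▸ Subgroup.mem_top x : x ∈ CL.Char.charCenter ρ.character)
        rw [hc]
        exact Submodule.smul_mem _ _ hw
      rcases h4 with h4 | h4
      · exact hv (Submodule.span_singleton_eq_bot.1 h4)
      · have h5 := finrank_span_singleton (K := ℂ) hv
        rw [h4, finrank_top] at h5
        omega
  · rw [Module.End.mem_eigenspace_iff] at hv ⊢
    have h1 : g * c = c * g := (Subgroup.mem_centralizer_iff.1 hc) g rfl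
    rw [← Module.End.mul_apply, ← map_mul, h1, map_mul, Module.End.mul_apply, hv, map_smul]

end Cfsg.Agent.S5011
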