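import Cfsg.Statements.S5075
import Cfsg.Agent.Chev.McL3

set_option autoImplicit false
open Cfsg

namespace Cfsg.Agent.S5075

open CL.McL CL.SLn Module

theorem full {p : ℕ} [Fact p.Prime] {V : Type*} [AddCommGroup V] [Module (ZMod p) V]
    (H : Subgroup (V ≃ₗ[ZMod p] V)) : Full H := by
  intro v φ c h
  obtain ⟨k, rfl⟩ := ZMod.natCast_zmod_surjective c
  induction k with
  | zero => simpa using Tv.zero_left
  | succ k ih => rw [Nat.cast_succ, add_smul, one_smul]; exact ih.add_left h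

theorem exists_pair {p : ℕ} [hp : Fact p.Prime] {V : Type*} [AddCommGroup V] [Module (ZMod p) V] [Finite V]
    {t : V ≃ₗ[ZMod p] V} (h1 : orderOf t = p)
    (h2 : finrank (ZMod p) ↥(LinearMap.ker ((t : V →ₗ[ZMod p] V) - LinearMap.id)) + 1 = finrank (ZMod p) V) :
    ∃ (v : V) (φ : Dual (ZMod p) V), v ≠ 0 ∧ φ ≠ 0 ∧ φ v = 0 ∧ ∀ y, t y = y + φ y • v := by
  have h3 := LinearMap.finrank_range_add_finrank_ker ((t : V →ₗ[ZMod p] V) - LinearMap.id)
  obtain ⟨φ, v, h4⟩ := (LinearEquiv.mem_dilatransvections_iff_finrank (e := t)).2 (by omega)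
  have h5 : ∀ y, t y = y + φ y • v := fun y => (LinearMap.congr_fun h4 y).trans (LinearMap.transvection.apply _ _ _)
  have h6 : t ≠ 1 := by
    rintro rfl
    rw [orderOf_one] at h1
    exact hp.out.one_lt.ne h1
  have hv : v ≠ 0 := by
    rintro rfl
    exact h6 (LinearEquiv.ext fun y => by simp [h5])
  refine ⟨v, φ, hv, ?_, ?_, h5⟩
  · rintro rfl
    exact h6 (LinearEquiv.ext fun y => by simp [h5])
  · have key : ∀ k : ℕ, (t ^ k) v = (1 + φ v) ^ k • v := by
      intro k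
      induction k with
      | zero => simp
      | succ k ih => rw [pow_succ', LinearEquiv.mul_apply, ih, map_smul, h5, pow_succ, mul_smul, add_smul, one_smul]
    have h7 := key p
    rw [ZMod.pow_card, add_smul, one_smul] at h7
    have h8 := pow_orderOf_eq_one t
    rw [h1] at h8
    rw [h8] at h7
    exact (smul_eq_zero.1 (left_eq_add.1 h7)).resolve_right hv

/-- Let p be an odd prime, V a finite-dimensional vector space over the field with p elements, and H a group of linear automorphisms of V generated by transvections (elements of order p fixing a hyperplane pointwise) and having no nontrivial normal p-subgroup. Then for some n ≥ 1 there are a decomposition V = V₀ ⊕ V₁ ⊕ ⋯ ⊕ Vₙ into H-invariant subspaces and a decomposition of H as the internal direct product of normal subgroups H₁, …, Hₙ such that Hⱼ acts trivially on every Vᵢ with i ≠ j, and Hⱼ induces on Vⱼ exactly the special linear group of Vⱼ or exactly the isometry group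 of a non-degenerate alternating form on Vⱼ. -/
theorem result {p : ℕ} [Fact p.Prime] (hp : Odd p) {V : Type*} [AddCommGroup V] [Module (ZMod p) V] [Finite V]
    (H : Subgroup (V ≃ₗ[ZMod p] V)) (T : Set (V ≃ₗ[ZMod p] V)) (hHT : H = Subgroup.closure T)
    (hT : ∀ t ∈ T, orderOf t = p ∧
      Module.finrank (ZMod p) ↥(LinearMap.ker ((t : V →ₗ[ZMod p] V) - LinearMap.id)) + 1 =
        Module.finrank (ZMod p) V)
    (hOp : Cfsg.pCore p ↥H = ⊥) :
    ∃ (n : ℕ) (W : Fin (n + 1) → Submodule (ZMod p) V) (K : Fin n → Subgroup (V ≃ₗ[ZMod p] V)),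
      1 ≤ n ∧ DirectSum.IsInternal W ∧
      (∀ h ∈ H, ∀ i, (W i).map (h : V →ₗ[ZMod p] V) = W i) ∧
      (∀ j, K j ≤ H ∧ ((K j).subgroupOf H).Normal) ∧ ⨆ j, K j = H ∧
      (∀ j, K j ⊓ (⨆ j' ∈ {j' : Fin n | j' ≠ j}, K j') = ⊥) ∧
      (∀ j j', j ≠ j' → ∀ a ∈ K j, ∀ b ∈ K j', a * b = b * a) ∧
      (∀ j, ∀ h ∈ K j, ∀ i : Fin (n + 1), i ≠ j.succ → ∀ v ∈ W i, h v = v) ∧
      (∀ j, ∃ ρ : ↥(K j) →* (↥(W j.succ) ≃ₗ[ZMod p] ↥(W j.succ)),
        (∀ (h : ↥(K j)) (v : ↥(W j.succ)), ((ρ h v : ↥(W j.succ)) : V) = (h : V ≃ₗ[ZMod p] V) (v : V)) ∧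
        ((ρ.range : Set (↥(W j.succ) ≃ₗ[ZMod p] ↥(W j.succ))) =
            {f : ↥(W j.succ) ≃ₗ[ZMod p] ↥(W j.succ) | LinearMap.det (f : ↥(W j.succ) →ₗ[ZMod p] ↥(W j.succ)) = 1} ∨
          ∃ B : LinearMap.BilinForm (ZMod p) ↥(W j.succ), B.IsAlt ∧ B.Nondegenerate ∧
            (ρ.range : Set (↥(W j.succ) ≃ₗ[ZMod p] ↥(W j.succ))) = {f : ↥(W j.succ) ≃ₗ[ZMod p] ↥(W j.succ) | ∀ x y, B (f x) (f y) = B x y})) := by
  have h2 : (2 : ZMod p) ≠ 0 := by
    intro h
    have h3 : p ∣ 2 := (ZMod.natCast_eq_zero_iff 2 p).1 (by exact_mod_cast h)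
    rw [(Nat.prime_dvd_prime_iff_eq Fact.out Nat.prime_two).1 h3] at hp
    exact absurd hp (by decide)
  have S : Setup H := by
    refine ⟨full H, ?_, fun x hx => (full H).exists_opp (p := p) (fun N hN hP => ?_) hx⟩
    · nth_rw 1 [hHT]
      refine Subgroup.closure_mono fun t ht => ?_
      obtain ⟨v, φ, h3, h4, h5, h6⟩ := exists_pair (hT t ht).1 (hT t ht).2
      exact ⟨(v, φ), ⟨h3, h4, h5, t, hHT ▸ Subgroup.subset_closure ht, h6⟩, h6⟩
    · exact le_bot_iff.1 (hOp ▸ le_sSup ⟨hN, hP⟩)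
  have : Finite (Dual (ZMod p) V) := Finite.of_injective _ DFunLike.coe_injective
  have : Nonempty {C // IsComp H C} := ⟨⟨∅, isComp_empty⟩⟩
  let e := (Finite.equivFin {C // IsComp H C}).symm
  have hne : ∀ {i j}, i ≠ j → (e i).1 ≠ (e j).1 := fun h h' => h (e.injective (Subtype.ext h'))
  have hint := S.isInternal h2 e
  have hfix : ∀ j, ∀ h ∈ KC (e j).1, ∀ i : Fin (Nat.card {C // IsComp H C} + 1), i ≠ j.succ →
      ∀ v ∈ (Fin.cons (fixSp H) fun j => cen (e j).1 : Fin _ → Submodule (ZMod p) V) i, h v = v := by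
    intro j h hh
    refine Fin.cases (fun _ v hv => KC_fix hh ((e j).2.fixSp_le_ann hv)) fun i hi v hv => ?_
    exact KC_fix hh ((e j).2.cen_le_ann (e i).2 (hne fun h => hi (by rw [h])) hv)
  refine ⟨_, Fin.cons (fixSp H) fun j => cen (e j).1, fun j => KC (e j).1, Nat.card_pos, hint, fun h hh => ?_,
    fun j => ⟨(e j).2.KC_le, ⟨fun a ha g => (e j).2.conj_mem_KC S g.2 ha⟩⟩, ?_, fun j => ?_,
    fun i j hij a ha b hb => (e i).2.commute (e j).2 (hne hij) ha hb, hfix,
    fun j => (e j).2.exists_restrict S h2⟩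
  · refine Fin.cases ?_ fun j => (e j).2.map_cen S hh
    refine le_antisymm ?_ fun v hv => ⟨v, hv, S.fix hh hv⟩
    rintro _ ⟨v, hv, rfl⟩
    exact (S.fix hh hv).symm ▸ hv
  · refine le_antisymm (iSup_le fun j => (e j).2.KC_le) (S.gen.trans ((Subgroup.closure_le _).2 ?_))
    rintro g ⟨x, hx, hg⟩
    obtain ⟨C, hC, hxC⟩ := exists_isComp hx
    obtain ⟨j, hj⟩ := e.surjective ⟨C, hC⟩
    exact Subgroup.mem_iSup_of_mem j (Subgroup.subset_closure ⟨x, by rw [hj]; exact hxC, hg⟩)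
  · refine (Subgroup.eq_bot_iff_forall _).2 fun g ⟨h3, h4⟩ => LinearEquiv.ext fun v => ?_
    have h5 : v ∈ LinearMap.eqLocus (g : V →ₗ[ZMod p] V) LinearMap.id := by
      refine (hint.submodule_iSup_eq_top.ge.trans (iSup_le fun i w hw => ?_)) Submodule.mem_top
      by_cases hi : i = j.succ
      · refine (iSup₂_le fun j' hj' g' hg' => ?_ :
          _ ≤ MulAction.stabilizer (V ≃ₗ[ZMod p] V) w) h4
        exact hfix j' g' hg' i (by rw [hi]; exact fun h => hj' (Fin.succ_injective _ h).symm) w hw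
      · exact hfix j g h3 i hi w hw
    exact h5

end Cfsg.Agent.S5075
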