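import Cfsg.Statements.S5089
import Cfsg.Agent.Fus.NormalCrit

set_option autoImplicit false
open Cfsg

namespace Cfsg.Agent.S5089

open CL.Fus

/-- A saturated fusion system over a finite p-group has a nontrivial subgroup that is normal in the system (O_p(F) ≠ 1) if and only if some nontrivial abelian subgroup is strongly closed in the system. -/
theorem result {Ω : Type*} [Group Ω] {S : Subgroup Ω} [Finite S] (p : ℕ) [Fact p.Prime] (hS : IsPGroup p S) (F : Cfsg.FusionSystem S) (hF : F.IsSaturated p) : F.core ≠ ⊥ ↔ ∃ Q : Subgroup Ω, Q ≠ ⊥ ∧ IsMulCommutative Q ∧ F.StronglyClosed Q := by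
  constructor
  · intro h
    refine ⟨zSer F.core 1, fun e => h ?_, ?_, IsNormal.stronglyClosed (IsNormal.zSer (isNormal_core F) 1)⟩
    · obtain ⟨n, hn⟩ := exists_zSer_eq_of_le hS (core_le F)
      have key : ∀ i, zSer F.core i = ⊥ := by
        intro i
        induction i with
        | zero => exact zSer_zero _
        | succ i ih =>
          rw [eq_bot_iff, ← e]
          intro x hx
          rw [mem_zSer_succ, zSer_zero, ← ih]
          exact mem_zSer_succ.1 hx
      rw [← hn, key]
    · rw [zSer_one]
      exact ⟨⟨fun x y => Subtype.ext (y.2.2 x x.2.1)⟩⟩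
  · rintro ⟨Q, hQ, hc, hs⟩ e
    have := IsNormal.le_core (isNormal_of_stronglyClosed_comm hS hF hs fun x hx y hy =>
      congrArg Subtype.val (hc.is_comm.comm ⟨x, hx⟩ ⟨y, hy⟩))
    exact hQ (le_bot_iff.1 (e ▸ this))

end Cfsg.Agent.S5089
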