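import Cfsg.Statements.S5150
import Cfsg.Agent.Fus.CompLayer

set_option autoImplicit false
open Cfsg

namespace Cfsg.Agent.S5150

/-- Let F be a saturated fusion system over a finite p-group S and E its layer (over T). Then O_p(F), the largest subgroup normal in F, centralizes E: every map of E extends to a map of F on the subgroup generated by its source and O_p(F) that fixes O_p(F) elementwise (so E is a subsystem of the centralizer system of O_p(F), and T commutes with O_p(F)). -/
theorem result {Ω : Type*} [Group Ω] {S : Subgroup Ω} [Finite S] (p : ℕ) [Fact p.Prime] (hS : IsPGroup p S) (F : Cfsg.FusionSystem S) (hF : F.IsSaturated p) {T : Subgroup Ω} (E : Cfsg.FusionSystem T) (hE : E.IsLayerOf F p) (P : Subgroup Ω) : E.Hom P ⊆ F.centralizerHom F.core P := by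
  exact CL.Fus.cenBy_iff.1 (CL.Fus.IsLayerOf.cenBy_of_isNormal hS hE (CL.Fus.isNormal_core F)) P

end Cfsg.Agent.S5150
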