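import Cfsg.Statements.S5196
import Cfsg.Agent.Fus.GlaubFun

set_option autoImplicit false
universe u
open Cfsg

namespace Cfsg.Agent.S5196

/-- Let p be an odd prime and W a positive characteristic p-functor: W assigns to every finite p-group Q (in a fixed universe) a subgroup W(Q), nontrivial when Q is, carried to W(R) by every isomorphism Q ≅ R; assume also Z(Q) ≤ W(Q) for every finite p-group Q. Suppose W satisfies the local condition: for every finite group G with Sylow p-subgroup P, O_p(G) ∩ Z(G) = O_p(G) ∩ Z(N_G(W(P))). Then W controls weak closure of elements in every saturated fusion system F over a finite p-group S: the centre of the normalizer fusion system of W(S) in F equals the centre of F. (For p = 2 no functor satisfies the local condition, so p is taken odd.) -/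
theorem result {p : ℕ} [Fact p.Prime] (hp : p ≠ 2) (W : ∀ (Q : Type u) [Group Q], Subgroup Q) (hW1 : ∀ (Q : Type u) [Group Q] [Finite Q], IsPGroup p Q → Nontrivial Q → W Q ≠ ⊥) (hW2 : ∀ (Q R : Type u) [Group Q] [Group R] [Finite Q], IsPGroup p Q → ∀ φ : Q ≃* R, (W Q).map φ.toMonoidHom = W R) (hWZ : ∀ (Q : Type u) [Group Q] [Finite Q], IsPGroup p Q → Subgroup.center Q ≤ W Q) (hC : ∀ (G : Type u) [Group G] [Finite G] (P : Sylow p G), Cfsg.pCore p G ⊓ Subgroup.center G = Cfsg.pCore p G ⊓ (Subgroup.center ↥(Subgroup.normalizer (((W ↥(P : Subgroup G)).map (P : Subgroup G).subtype : Subgroup G) : Set G))).map (Subgroup.normalizer (((W ↥(P : Subgroup G)).map (P : Subgroup G).subtype : Subgroup G) : Set G)).subtype) {Ω : Type u} [Group Ω] {S : Subgroup Ω} [Finite S] (hS : IsPGroup p S) (F : Cfsg.FusionSystem S) (hF : F.IsSaturated p) (N : Cfsg.FusionSystem (Cfsg.FusionSystem.normalizerIn S ((W ↥S).map S.subtype))) (hN : F.IsNormalizerSystem ((W ↥S).map S.subtype) N) : N.center = F.center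 := by
  have hW : CL.Fus.UFun p W := ⟨hW1, hW2⟩
  have hn := (hW.fFun hS F).top_le_normalizer
  have hN' := CL.Fus.IsNormalizerSystem.isSaturated hS hF
    (CL.Fus.isFullyNormalized_of_normalizerIn_eq F (CL.Fus.wsub_le W S) hn) hN
  have hT := hS.to_le (CL.Fus.normalizerIn_le S (CL.Fus.wsub W S))
  refine le_antisymm (fun z hz => ?_) fun z hz => ?_
  · obtain ⟨hzS, hz⟩ := (CL.Fus.mem_center_iff hT hN').1 hz
    rw [← pow_one z]
    refine hW.fix_of_free 1 (fun L _ _ T hT hc _ y hy h => ?_) hS hF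
      (CL.Fus.isSectionFree_of_infinite (X := Multiplicative ℤ) F p) ⟨hzS.1, fun x hx => ?_⟩ fun P f hf => ?_
    · obtain ⟨P, rfl⟩ := CL.Fus.sylIn_top_iff.1 hT
      simp only [pow_one] at h ⊢
      refine ((hC L P).ge ⟨hc fun x hx => hy.2 x (CL.Fus.pCore_le_of_sylIn_top hT hx),
        ⟨y, hW.le_normalizer hT.isPGroup (Subgroup.le_normalizer hy.1)⟩, Subgroup.mem_center_iff.2 fun g => ?_, rfl⟩).2
      exact Subtype.ext (mul_inv_eq_iff_eq_mul.1 (h g g.2))
    · exact mul_inv_eq_iff_eq_mul.1 (hz _ _ (CL.Fus.mor_conj N le_rfl ⟨hx, hn hx⟩) hzS)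
    · rw [pow_one]
      exact hz P f ((CL.Fus.isNormalizerSystem_iff.1 hN P f).2 hf)
  · obtain ⟨hzS, hz⟩ := (CL.Fus.mem_center_iff hS hF).1 hz
    exact (CL.Fus.mem_center_iff hT hN').2 ⟨⟨hzS, hn hzS⟩, fun P f hf =>
      hz P f (hf.of_subsystem (CL.Fus.IsNormalizerSystem.isSubsystemOf hN))⟩

end Cfsg.Agent.S5196
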