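import Cfsg.Statements.S5203
import Cfsg.Agent.Fus.PIndex

set_option autoImplicit false
open Cfsg

namespace Cfsg.Agent.S5203

open CL.Fus Cfsg.FusionSystem

section Aux

variable {Ω : Type*} [Group Ω] {p : ℕ}

theorem index_of_hom_eq {S T : Subgroup Ω} {F : FusionSystem S} {E : FusionSystem T} (h : ∀ P, E.Hom P = F.Hom P) :
    E.HasPPowerIndexIn F p := by
  obtain rfl : T = S := le_antisymm (le_of_isSubsystemOf fun P => (h P).le) (le_of_isSubsystemOf fun P => (h P).ge)
  obtain rfl : E = F := fusionSystem_ext h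
  exact hasPPowerIndexIn_self E p

theorem pPrime_hom_eq {S T : Subgroup Ω} {F F' : FusionSystem S} {E E' : FusionSystem T} (h : ∀ P, E.Hom P = F.Hom P)
    (hF : F.IsPPrimeResidual p F') (hE : E.IsPPrimeResidual p E') : ∀ P, E'.Hom P = F'.Hom P := by
  obtain rfl : T = S := le_antisymm (le_of_isSubsystemOf fun P => (h P).le) (le_of_isSubsystemOf fun P => (h P).ge)
  obtain rfl : E = F := fusionSystem_ext h
  exact fun P => Set.Subset.antisymm (hE.2.2 _ hF.1 hF.2.1 P) (hF.2.2 _ hE.1 hE.2.1 P)

theorem pPrime_self_of_hom_eq {S T : Subgroup Ω} {F : FusionSystem S} {E : FusionSystem T}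
    (h : ∀ P, E.Hom P = F.Hom P) (hF : F.IsPPrimeResidual p F) : E.IsPPrimeResidual p E := by
  obtain rfl : T = S := le_antisymm (le_of_isSubsystemOf fun P => (h P).le) (le_of_isSubsystemOf fun P => (h P).ge)
  obtain rfl : E = F := fusionSystem_ext h
  exact hF

theorem index_hom_eq [Fact p.Prime] {S T U : Subgroup Ω} [Finite S] {F : FusionSystem S} {E : FusionSystem T}
    {D : FusionSystem U} (hS : IsPGroup p S) (hE : E.IsSaturated p) (hD : D.IsSaturated p)
    (h₁ : E.HasPPowerIndexIn F p) (h₂ : D.HasPPowerIndexIn F p) (e : T = U) : ∀ P, E.Hom P = D.Hom P := fun P =>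
  Set.Subset.antisymm (HasPPowerIndexIn.isSubsystemOf_of_le hS h₂ hE h₁.1 e.le P)
    (HasPPowerIndexIn.isSubsystemOf_of_le hS h₁ hD h₂.1 e.ge P)

theorem limit_of_stable {V T : Subgroup Ω} {Y : FusionSystem V} {E : FusionSystem T} (h : Y.IsResidualLimitOf E p) :
    ∀ [Fact p.Prime] [Finite T], IsPGroup p T → E.IsSaturated p → E.hyperfocalSubgroup p = T →
      E.IsPPrimeResidual p E → ∀ P, Y.Hom P = E.Hom P := by
  induction h with
  | stable => exact fun _ _ _ _ _ => rfl
  | step F p D D' hD hD' _ ih =>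
    intro _ _ hS hF h1 h2 P
    have := finite_of_le (hyperfocalSubgroup_le F p)
    have h3 := index_hom_eq hS hD.1 hF hD.2 (hasPPowerIndexIn_self F p) h1
    have h4 := pPrime_hom_eq h3 h2 hD'
    rw [ih (hS.to_le (hyperfocalSubgroup_le F p)) hD'.1
      (HasPPowerIndexIn.hyperfocal_eq hS (index_of_hom_eq h4)) (pPrime_self_of_hom_eq h4 h2) P, h4 P]

theorem limit_eq {U S : Subgroup Ω} {X : FusionSystem U} {F : FusionSystem S} (h : X.IsResidualLimitOf F p) :
    ∀ [Fact p.Prime] [Finite S], IsPGroup p S → F.IsSaturated p → ∀ {V T : Subgroup Ω} {Y : FusionSystem V}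
      {E : FusionSystem T}, Y.IsResidualLimitOf E p → E.IsSaturated p → E.HasPPowerIndexIn F p →
        ∀ P, X.Hom P = Y.Hom P := by
  induction h with
  | stable F p h1 h2 =>
    intro _ _ hS hF V T Y E hY hE hi P
    have hT := le_antisymm (le_of_isSubsystemOf hi.1) (h1.ge.trans hi.2.1)
    have h3 := index_hom_eq hS hE hF hi (hasPPowerIndexIn_self F p) hT
    have := finite_of_le hT.le
    rw [limit_of_stable hY (hS.to_le hT.le) hE (by rw [HasPPowerIndexIn.hyperfocal_eq hS hi, h1, hT])
      (pPrime_self_of_hom_eq h3 h2) P, h3 P]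
  | step F p D D' hD hD' _ ih =>
    intro _ _ hS hF V T Y E hY hE hi
    have := finite_of_le (hyperfocalSubgroup_le F p)
    have hH := hS.to_le (hyperfocalSubgroup_le F p)
    have h0 := HasPPowerIndexIn.hyperfocal_eq hS hi
    cases hY with
    | stable _ _ h1 h2 =>
      have h3 := index_hom_eq hS hE hD.1 hi hD.2 (h1.symm.trans h0)
      exact ih hH hD'.1 (IsResidualLimitOf.stable _ _ h1 h2) hE (index_of_hom_eq (pPrime_hom_eq h3 hD' h2))
    | step _ _ D₂ D₂' hD₂ hD₂' hY =>
      have h3 := index_hom_eq hS hD₂.1 hD.1 (HasPPowerIndexIn.trans hS hD₂.2 hi) hD.2 h0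
      exact ih hH hD'.1 hY hD₂'.1 (index_of_hom_eq (pPrime_hom_eq h3 hD' hD₂'))

end Aux

/-- Let F be a saturated fusion system over a finite p-group S and E a normal subsystem of F over T that has p-power index in F. Then every residual limit of E has the same maps as every residual limit of F (the residual limit is reached by alternately passing to the p-residual and the p'-residual subsystem until nothing changes). -/
theorem result {Ω : Type*} [Group Ω] {S : Subgroup Ω} [Finite S] (p : ℕ) [Fact p.Prime] (hS : IsPGroup p S) (F : Cfsg.FusionSystem S) (hF : F.IsSaturated p) {T : Subgroup Ω} (E : Cfsg.FusionSystem T) (hE : E.IsNormalIn F p) (hidx : E.HasPPowerIndexIn F p) {U V : Subgroup Ω} (Finf : Cfsg.FusionSystem U) (hFinf : Finf.IsResidualLimitOf F p) (Einf : Cfsg.FusionSystem V) (hEinf : Einf.IsResidualLimitOf E p) : ∀ P : Subgroup Ω, Finf.Hom P = Einf.Hom P := by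
  exact limit_eq hFinf hS hF hEinf hE.1.1 hidx

end Cfsg.Agent.S5203
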