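import Cfsg.Statements.S5212
import Cfsg.Agent.Fus.Meta2Aut

set_option autoImplicit false
open Cfsg

namespace Cfsg.Agent.S5212

/-- Let S be a finite metacyclic 2-group that is not homocyclic abelian (a direct product of cyclic groups of one common order), not dihedral, not semidihedral and not generalized quaternion. Then every saturated fusion system over S is the inner fusion system of S. -/
theorem result {Ω : Type*} [Group Ω] {S : Subgroup Ω} [Finite S] (hS : IsPGroup 2 S) (F : Cfsg.FusionSystem S) (hF : F.IsSaturated 2) (hm : Cfsg.IsMetacyclic ↥S) (hh : ¬ ∃ n k : ℕ, Nonempty (↥S ≃* Multiplicative (Fin k → ZMod (2 ^ n)))) (hd : ¬ ∃ m : ℕ, Nonempty (↥S ≃* DihedralGroup m)) (hq : ¬ ∃ m : ℕ, Nonempty (↥S ≃* QuaternionGroup m)) (hsd : ¬ Cfsg.IsQuasiDihedral ↥S) : ∀ P : Subgroup Ω, F.Hom P = (Cfsg.innerFusionSystem S).Hom P := by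
  have hn := CL.Fus.isNormal_of_metacyclic_two hS hF (CL.Fus.stronglyClosed_self F) hm fun n a b h => by
    rcases h.cases with h | h | h
    exacts [hd ⟨_, h⟩, hq ⟨_, h⟩, hsd h.2]
  have h2 : IsPGroup 2 (MulAut S) := CL.Fus.isPGroup_of_forall_coprime fun α hα => by_contra fun h1 => by
    rcases CL.Fus.quaternion_or_homocyclic_of_mc hS hm hα h1 with h | ⟨n, -, ⟨e⟩⟩
    · exact hq ⟨_, h⟩
    · exact hh ⟨n, 2, ⟨e.trans ((MulEquiv.prodMultiplicative _ _).symm.trans
        (AddEquiv.toMultiplicative (LinearEquiv.finTwoArrow ℤ (ZMod (2 ^ n))).symm.toAddEquiv))⟩⟩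
  intro P
  rw [CL.Fus.eq_inner_of_isNormal hS hF hn (h2.to_subgroup _)]

end Cfsg.Agent.S5212
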