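import Cfsg.Statements.S5217
import Cfsg.Agent.Fus.BiC
import Cfsg.Agent.Fus.SmallEss
import Cfsg.Agent.Fus.Realized

set_option autoImplicit false
open Cfsg

namespace Cfsg.Agent.S5217

open CL.Fus CL.Fus.Bi

/-- Let S be a finite bicyclic 2-group (S = ⟨x⟩⟨y⟩) that is not metacyclic. Then S supports a saturated fusion system other than its inner fusion system if and only if the commutator subgroup of S is cyclic. -/
theorem result {Ω : Type*} [Group Ω] {S : Subgroup Ω} [Finite S] (hS : IsPGroup 2 S) (hb : ∃ x y : ↥S, ∀ g : ↥S, ∃ i j : ℤ, g = x ^ i * y ^ j) (hm : ¬ Cfsg.IsMetacyclic ↥S) : (∃ F : Cfsg.FusionSystem S, F.IsSaturated 2 ∧ ¬ ∀ P : Subgroup Ω, F.Hom P = (Cfsg.innerFusionSystem S).Hom P) ↔ IsCyclic ↥(commutator ↥S) := by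
  obtain ⟨x, y, hb⟩ := hb
  have h : St x := st_of_bic hS hm hb
  constructor
  · rintro ⟨F, hF, hn⟩
    by_contra hc
    obtain ⟨F', θ, e, -⟩ := exists_fIso_top F
    exact hn fun P => by rw [e.symm.eq_inner (h.eq_inner hc (e.isSaturated hF))]
  · intro hc
    obtain ⟨F', hF, hn⟩ := h.sat hc
    obtain ⟨F₀, θ, e, -⟩ := exists_fIso_top (innerFusionSystem S)
    have e' := e.toGIso.symm.fIso_transport F'
    exact ⟨_, e'.isSaturated hF, fun h1 => hn fun P => by rw [e'.symm.eq_inner (fusionSystem_ext h1)]⟩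

end Cfsg.Agent.S5217
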