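import Cfsg.Statements.S5218
import Cfsg.Agent.Fus.JQuad

set_option autoImplicit false
open Cfsg

namespace Cfsg.Agent.S5218

/-- Let p be a prime, n a natural number, S a nontrivial finite p-group of nilpotence class at most n(p−1)+1, and F a saturated fusion system over S. Then the subgroup generated by the pⁿ-th powers of the elements of Z(S) is normal in F. -/
theorem result {Ω : Type*} [Group Ω] {S : Subgroup Ω} [Finite S] (p : ℕ) [Fact p.Prime] (hS : IsPGroup p S) (F : Cfsg.FusionSystem S) (hF : F.IsSaturated p) (n : ℕ) (hS1 : S ≠ ⊥) (hcl : Subgroup.lowerCentralSeries S (n * (p - 1) + 1) = ⊥) : F.IsNormal (Cfsg.powerClosure p n (S ⊓ Subgroup.centralizer (S : Set Ω))) := by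
  rw [CL.Fus.powerClosure_center_eq]
  have hV := CL.Fus.zpw_le (p ^ n) 0 S
  have hN := CL.Fus.isNormalizerSystem_normalizerSystem F hV
  refine CL.Fus.isNormal_of_isSubsystemOf_normalizer hV hN (CL.Fus.uFun_top.isSubsystemOf_of_fact (p ^ n) 0
    (fun Q _ => Subgroup.lowerCentralSeries (⊤ : Subgroup Q) (n * (p - 1) + 1) = ⊥) ?_
    (fun L _ _ T hT hc _ h => CL.Fus.exists_fact_of_cent hT hc fun H hTH hH => ?_)
    hS hF (CL.Fus.isSectionFree_of_infinite (X := Multiplicative ℤ) F p) ?_ (fun P f hf => ?_)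
    (CL.Fus.NLe.cLe fun P f hf => (CL.Fus.isNormalizerSystem_iff.1 hN P f).2 hf))
  · rintro Q R _ _ ⟨K, M, _, ⟨e⟩⟩ h
    have h1 : Subgroup.lowerCentralSeries (⊤ : Subgroup K) (n * (p - 1) + 1) = ⊥ := by
      rw [← Subgroup.map_subtype_inj, Subgroup.top_subtype_lowerCentralSeries, Subgroup.map_bot, eq_bot_iff, ← h]
      exact Subgroup.lowerCentralSeries_mono _ le_top
    rw [← Subgroup.map_top_of_surjective (e.toMonoidHom.comp (QuotientGroup.mk' _))
      (e.surjective.comp (QuotientGroup.mk'_surjective _)), ← Subgroup.map_lowerCentralSeries, h1, Subgroup.map_bot]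
  · rw [CL.Fus.wsub_top] at hH
    obtain ⟨g, hg, hgQ⟩ := SetLike.not_le_iff_exists.1 fun e : T ≤ pCoreOf p H => hH (by
      rw [← hT.eq_of_le (CL.Grp.pCoreOf_isPGroup p H) e le_top]
      exact CL.Grp.le_normalizer_pCoreOf p H)
    refine CL.Fus.exists_cent_of_iterComm hT hTH hg hgQ (le_bot_iff.1 ((CL.Loc.iterComm_le_lowerCentralSeries
      (inf_le_left.trans (hT.le_of_normalizes (CL.Grp.pCoreOf_isPGroup p H) le_top
        (hTH.trans (CL.Grp.le_normalizer_pCoreOf p H)))) (Subgroup.zpowers_le.2 hg) _).trans_eq ?_))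
    rw [← Subgroup.top_subtype_lowerCentralSeries, h, Subgroup.map_bot]
  · rw [← Subgroup.map_subtype_inj, Subgroup.top_subtype_lowerCentralSeries, hcl, Subgroup.map_bot]
  · rw [CL.Fus.wsub_top] at hf
    obtain ⟨hP, g, hg, e1, e2⟩ := CL.Fus.nMor_top_iff.1 hf
    have hPS := hP.trans (CL.Fus.normalizerIn_le S S)
    rw [sup_eq_right.2 hPS] at hg
    obtain ⟨g', -, h2⟩ := hg.exists_gIso
    rw [e2] at h2
    exact (CL.Fus.isNormalizerSystem_iff.1 hN P f).2 (CL.Fus.nMor_top_iff.2 ⟨le_inf hPS (hPS.trans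
      (Subgroup.le_normalizer.trans (CL.Fus.normalizer_le_normalizer_zpw _ _ S))), g, hg.mono (sup_le hPS hV), e1,
        h2.img_zpw _ _⟩)

end Cfsg.Agent.S5218
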