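import Cfsg.Statements.S5219
import Cfsg.Agent.S5218
import Cfsg.Agent.Loc.QuadBasic

set_option autoImplicit false
open Cfsg

namespace Cfsg.Agent.S5219

open scoped commutatorElement in
theorem pow_mem_upperCentralSeries {G : Type*} [Group G] {m : ℕ} (h : ∀ z ∈ Subgroup.center G, z ^ m = 1) (i : ℕ) :
    ∀ x ∈ Subgroup.upperCentralSeries G (i + 1), x ^ m ∈ Subgroup.upperCentralSeries G i := by
  induction i with
  | zero => exact fun x hx => h x (by rwa [← Subgroup.upperCentralSeries_one])
  | succ i ih =>
    intro x hx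
    refine Subgroup.mem_upperCentralSeries_succ_iff.2 fun y => ?_
    have hc := Subgroup.mem_upperCentralSeries_succ_iff.1 hx y
    rw [← commutatorElement_inv] at hc ⊢
    rw [Subgroup.inv_mem_iff] at hc ⊢
    rw [← QuotientGroup.eq_one_iff, ← QuotientGroup.mk'_apply, map_commutatorElement, map_pow,
      CL.Loc.commutatorElement_pow_right_of_commute, ← map_commutatorElement, ← map_pow, QuotientGroup.mk'_apply,
      QuotientGroup.eq_one_iff]
    · exact ih _ hc
    · rw [← commutatorElement_eq_one_iff_commute, ← map_commutatorElement, ← map_commutatorElement,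
        QuotientGroup.mk'_apply, QuotientGroup.eq_one_iff]
      exact Subgroup.mem_upperCentralSeries_succ_iff.1 hc x

/-- Let p be a prime, n a natural number, S a nontrivial finite p-group of nilpotence class at most n(p−1)+1, and F a saturated fusion system over S with no nontrivial normal subgroup (O_p(F) = 1). Then S has exponent dividing p^(n²(p−1)+n). -/
theorem result {Ω : Type*} [Group Ω] {S : Subgroup Ω} [Finite S] (p : ℕ) [Fact p.Prime] (hS : IsPGroup p S) (F : Cfsg.FusionSystem S) (hF : F.IsSaturated p) (n : ℕ) (hS1 : S ≠ ⊥) (hcl : Subgroup.lowerCentralSeries S (n * (p - 1) + 1) = ⊥) (hcore : F.core = ⊥) : Monoid.exponent ↥S ∣ p ^ (n ^ 2 * (p - 1) + n) := by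
  have h1 := CL.Fus.IsNormal.le_core (Cfsg.Agent.S5218.result p hS F hF n hS1 hcl)
  rw [hcore] at h1
  have h2 : ∀ i, ∀ x ∈ Subgroup.upperCentralSeries S i, x ^ (p ^ n) ^ i = 1 := fun i => by
    induction i with
    | zero => exact fun x hx => by simpa using hx
    | succ i ih =>
      intro x hx
      rw [pow_succ', pow_mul]
      exact ih _ (pow_mem_upperCentralSeries (fun z hz => Subtype.ext (h1 (Subgroup.subset_closure
        ⟨z, ⟨z.2, fun y hy => congrArg Subtype.val (Subgroup.mem_center_iff.1 hz ⟨y, hy⟩)⟩, rfl⟩))) i x hx)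
  rw [← Subgroup.top_subtype_lowerCentralSeries, Subgroup.map_eq_bot_iff_of_injective _ S.subtype_injective,
    Subgroup.lowerCentralSeries_eq_bot_iff_upperCentralSeries_eq_top] at hcl
  refine Monoid.exponent_dvd_of_forall_pow_eq_one fun x => ?_
  rw [show n ^ 2 * (p - 1) + n = n * (n * (p - 1) + 1) by ring, pow_mul]
  exact h2 _ x (hcl ▸ Subgroup.mem_top x)

end Cfsg.Agent.S5219
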