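import Cfsg.Statements.S5220
import Cfsg.Agent.Fus.JQuad

set_option autoImplicit false
open Cfsg

namespace Cfsg.Agent.S5220

/-- Let F be a saturated fusion system over a nontrivial finite p-group S, let J(S) be the subgroup generated by the abelian subgroups of S of largest order, and let V be the subgroup generated by the p-th powers of the elements of Z(S). Then F is generated by the centralizer fusion system of V and the normalizer fusion system of J(S): every fusion system over S containing the maps of both contains every map of F. -/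
theorem result {Ω : Type*} [Group Ω] {S : Subgroup Ω} [Finite S] (p : ℕ) [Fact p.Prime] (hS : IsPGroup p S) (F : Cfsg.FusionSystem S) (hF : F.IsSaturated p) (hS1 : S ≠ ⊥) (C : Cfsg.FusionSystem (Cfsg.FusionSystem.centralizerIn S (Cfsg.powerClosure p 1 (S ⊓ Subgroup.centralizer (S : Set Ω))))) (hC : F.IsCentralizerSystem (Cfsg.powerClosure p 1 (S ⊓ Subgroup.centralizer (S : Set Ω))) C) (N : Cfsg.FusionSystem (Cfsg.FusionSystem.normalizerIn S (Cfsg.thompsonSubgroupAOf S))) (hN : F.IsNormalizerSystem (Cfsg.thompsonSubgroupAOf S) N) (E : Cfsg.FusionSystem S) (hCE : C.IsSubsystemOf E) (hNE : N.IsSubsystemOf E) : F.IsSubsystemOf E := by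
  revert C
  rw [CL.Fus.powerClosure_center_eq]
  intro C hC hCE
  exact CL.Fus.uFun_thompson.isSubsystemOf_of_fact (p ^ 1) 0 (fun _ _ => True) (fun _ _ _ _ _ _ => trivial)
    (fun L _ _ T hT hc _ _ => CL.Fus.exists_fact_of_cent hT hc fun H hTH h => by
      obtain ⟨g, hg, hgQ, hq⟩ := CL.Fus.exists_quadratic_thompson (hT.mono hTH le_top) h
      have := (Fact.out : p.Prime).two_le
      exact CL.Fus.exists_cent_of_iterComm hT hTH hg hgQ (CL.Fus.iterComm_eq_bot_of_quadratic hq (by omega)))
    hS hF (CL.Fus.isSectionFree_of_infinite (X := Multiplicative ℤ) F p) trivial ((CL.Fus.nLe_iff hN).2 hNE)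
    ((CL.Fus.cLe_iff hC).2 hCE)

end Cfsg.Agent.S5220
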