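import Cfsg.Statements.S5222
import Cfsg.Agent.Fus.Yoshida

set_option autoImplicit false
open Cfsg

namespace Cfsg.Agent.S5222

/-- Let F be a saturated fusion system over a finite p-group S whose normalizer fusion system of S is the inner fusion system of S (Aut_F(S) is a p-group). Then for every subgroup Q of S with [S, S] ≤ Q ≤ Φ(S), the normalizer fusion system of Q in F is the inner fusion system of N_S(Q) = S. -/
theorem result {Ω : Type*} [Group Ω] {S : Subgroup Ω} [Finite S] (p : ℕ) [Fact p.Prime] (hS : IsPGroup p S) (F : Cfsg.FusionSystem S) (hF : F.IsSaturated p) (hN : ∀ N : Cfsg.FusionSystem (Cfsg.FusionSystem.normalizerIn S S), F.IsNormalizerSystem S N → ∀ P : Subgroup Ω, N.Hom P = (Cfsg.innerFusionSystem (Cfsg.FusionSystem.normalizerIn S S)).Hom P) (Q : Subgroup Ω) (h1 : (commutator ↥S).map S.subtype ≤ Q) (h2 : Q ≤ (frattini ↥S).map S.subtype) : ∀ N : Cfsg.FusionSystem (Cfsg.FusionSystem.normalizerIn S Q), F.IsNormalizerSystem Q N → ∀ P : Subgroup Ω, N.Hom P = (Cfsg.innerFusionSystem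 (Cfsg.FusionSystem.normalizerIn S Q)).Hom P := by
  intro N hNQ P
  have hQS : Q ≤ S := h2.trans (Subgroup.map_subtype_le _)
  rw [Subgroup.map_subtype_commutator] at h1
  have hn := CL.Fus.le_normalizer_of_commutator_le h1 hQS
  have hsat := CL.Fus.IsNormalizerSystem.isSaturated hS hF (CL.Fus.isFullyNormalized_of_normalizerIn_eq F hQS hn) hNQ
  have hsc := CL.Fus.IsNormal.stronglyClosed (CL.Fus.IsNormalizerSystem.isNormal hNQ hQS)
  have hsub := CL.Fus.IsNormalizerSystem.isSubsystemOf hNQ
  have hT : FusionSystem.normalizerIn S Q = S := le_antisymm (CL.Fus.normalizerIn_le S Q) fun x hx => ⟨hx, hn hx⟩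
  have key : ∀ (T : Subgroup Ω) (_ : T = S) (N : FusionSystem T), N.IsSaturated p → N.StronglyClosed Q →
      N.IsSubsystemOf F → N = innerFusionSystem T := by
    rintro T rfl N h3 h4 h5
    exact CL.Fus.eq_inner_of_stronglyClosed_le_frattini hS h3 h4 h1 h2 fun f hf =>
      CL.Fus.conj_of_normalizer_top_inner hN (hf.of_subsystem h5)
  rw [← key _ hT N hsat hsc hsub]

end Cfsg.Agent.S5222
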