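import Cfsg.Statements.S5223
import Cfsg.Agent.Fus.NormalCrit

set_option autoImplicit false
open Cfsg

namespace Cfsg.Agent.S5223

open CL.Fus

/-- Let F be a saturated fusion system over a finite p-group S. Suppose there are subgroups Q₀ = S, Q₁, …, Qₙ = 1 (not required to be nested) such that for each i < n the focal subgroup of Qᵢ (generated by the elements x⁻¹φ(x), x ∈ Qᵢ, φ a map of F defined on the cyclic group generated by x) lies in Qᵢ₊₁. Then F is the inner fusion system of S. -/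
theorem result {Ω : Type*} [Group Ω] {S : Subgroup Ω} [Finite S] (p : ℕ) [Fact p.Prime] (hS : IsPGroup p S) (F : Cfsg.FusionSystem S) (hF : F.IsSaturated p) (n : ℕ) (Q : Fin (n + 1) → Subgroup Ω) (hQ0 : Q 0 = S) (hQn : Q (Fin.last n) = ⊥) (hstep : ∀ i : Fin n, Subgroup.closure {y : Ω | ∃ x ∈ Q i.castSucc, ∃ φ ∈ F.Hom (Subgroup.zpowers x), y = x⁻¹ * φ ⟨x, Subgroup.mem_zpowers x⟩} ≤ Q i.succ) : ∀ P : Subgroup Ω, F.Hom P = (Cfsg.innerFusionSystem S).Hom P := by
  have hstep' : ∀ i : Fin n, ∀ P f, Mor F P f → ∀ x ∈ P, x ∈ Q i.castSucc → x⁻¹ * f x ∈ Q i.succ := by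
    intro i P f hf x hx hxQ
    have h1 := hf.mono (Subgroup.zpowers_le_of_mem hx)
    exact hstep i (Subgroup.subset_closure ⟨x, hxQ, _, h1.toHom_mem, rfl⟩)
  have key : F = Cfsg.innerFusionSystem S := by
    refine eq_inner_of_isPGroup hS hF fun P hP => ?_
    have hPS : P ≤ S := hP.elim le_of_eq fun h => h.1.1
    have := finite_of_le hPS
    rintro ⟨α, hα⟩
    obtain ⟨k, hk⟩ := exists_pow_eq_one_of_chain (hS.to_le hPS) α n (fun i => Q ⟨n - i, by omega⟩)
      (by simp only [Nat.sub_self]; exact hPS.trans hQ0.ge)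
      (fun i hi x hx hxC m => by
        have := hstep' ⟨n - (i + 1), by omega⟩ P _ (mor_autFun hPS ((F.autGroup P).pow_mem hα m)) x hx hxC
        convert this using 2
        ext
        simp only [Fin.val_succ]
        omega)
      ⟨0, fun x hx hx0 => by
        have : x ∈ (⊥ : Subgroup Ω) := hQn ▸ hx0
        rw [Subgroup.mem_bot.1 this, (homOn_autFun _).map_one]⟩
    exact ⟨k, Subtype.ext hk⟩
  intro P
  rw [← key]

end Cfsg.Agent.S5223
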