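import Cfsg.Statements.S5225
import Cfsg.Agent.Fus.Yoshida

set_option autoImplicit false
open Cfsg

namespace Cfsg.Agent.S5225

/-- Yoshida's Theorem for fusion systems. Let F be a saturated fusion system over a finite p-group S and N the normalizer fusion system of S in F. If the focal subgroups of F and N differ (N does not control transfer in F), then S has a quotient isomorphic to the wreath product C_p ≀ C_p (realised as a Sylow p-subgroup of the symmetric group of degree p²). -/
theorem result {Ω : Type*} [Group Ω] {S : Subgroup Ω} [Finite S] (p : ℕ) [Fact p.Prime] (hS : IsPGroup p S) (F : Cfsg.FusionSystem S) (hF : F.IsSaturated p) (N : Cfsg.FusionSystem (Cfsg.FusionSystem.normalizerIn S S)) (hN : F.IsNormalizerSystem S N) (hne : N.focalSubgroup ≠ F.focalSubgroup) : ∃ (W : Sylow p (Equiv.Perm (Fin (p ^ 2)))) (f : ↥S →* ↥(W : Subgroup (Equiv.Perm (Fin (p ^ 2))))), Function.Surjective f := by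
  refine CL.Fus.yoshida hS hF (CL.Fus.normalizerIn_self S)
    (CL.Fus.IsNormalizerSystem.isSaturated hS hF (CL.Fus.isFullyNormalized_top F) hN)
    (CL.Fus.IsNormalizerSystem.isSubsystemOf hN) (fun f hf => ?_) hne
  exact (CL.Fus.IsNormalizerSystem.mor_iff hN).2 ⟨CL.Fus.le_normalizerIn le_rfl, f, hf.mono (sup_le le_rfl le_rfl),
    fun _ _ => rfl, hf.img_eq_self le_rfl fun _ => hf.mem⟩

end Cfsg.Agent.S5225
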