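import Cfsg.Statements.S5226
import Cfsg.Agent.Fus.NormalCrit

set_option autoImplicit false
open Cfsg

namespace Cfsg.Agent.S5226

open CL.Fus

/-- Let F be a saturated fusion system over a finite p-group S and Q a subgroup of S. Then Q is normal in F (F equals the normalizer system of Q) if and only if Q is strongly closed in F and admits a central series 1 = Q₀ ≤ Q₁ ≤ ⋯ ≤ Qₙ = Q ([Qᵢ₊₁, Q] ≤ Qᵢ) all of whose proper terms are weakly closed in F. -/
theorem result {Ω : Type*} [Group Ω] {S : Subgroup Ω} [Finite S] (p : ℕ) [Fact p.Prime] (hS : IsPGroup p S) (F : Cfsg.FusionSystem S) (hF : F.IsSaturated p) (Q : Subgroup Ω) : F.IsNormal Q ↔ F.StronglyClosed Q ∧ ∃ (n : ℕ) (C : Fin (n + 1) → Subgroup Ω), C 0 = ⊥ ∧ C (Fin.last n) = Q ∧ Monotone C ∧ (∀ i : Fin n, ⁅C i.succ, Q⁆ ≤ C i.castSucc) ∧ ∀ i : Fin n, F.WeaklyClosed (C i.castSucc) := by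
  constructor
  · intro h
    obtain ⟨n, hn⟩ := exists_zSer_eq_of_le hS h.1
    exact ⟨IsNormal.stronglyClosed h, n, fun i => zSer Q i, zSer_zero Q, hn, fun i j hij => zSer_mono Q hij,
      fun i => commutator_zSer_le Q i, fun i => IsNormal.weaklyClosed (IsNormal.zSer h _)⟩
  · rintro ⟨hQ, n, C, h0, hn, hm, h, hw⟩
    refine isNormal_of_weaklyClosed_chain hS hF hQ n (fun i => C ⟨min i n, by omega⟩) (fun i hi => ?_) ?_ ?_ ?_ ?_
    · simp only [min_eq_left hi.le]
      exact hw ⟨i, hi⟩
    · simpa using h0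
    · simp only [min_self]; exact hn
    · intro i j hij
      exact hm (show min i n ≤ min j n from min_le_min_right n hij)
    · intro i hi
      simp only [min_eq_left hi.le, min_eq_left (show i + 1 ≤ n from hi)]
      exact h ⟨i, hi⟩

end Cfsg.Agent.S5226
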