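import Cfsg.Statements.S5227
import Cfsg.Agent.Fus.C3Top
import Cfsg.Agent.Fus.C3L1
import Cfsg.Agent.Fus.C3V12
import Cfsg.Agent.Fus.C3N4b
import Cfsg.Agent.Fus.Realized

set_option autoImplicit false
open Cfsg

namespace Cfsg.Agent.S5227

/-- Let S be a finite 3-group isomorphic to a Sylow 3-subgroup of the Conway group Co₁ and F a saturated fusion system over S with no nontrivial normal subgroup (O₃(F) = 1). Then F is realizable: it is the fusion system of a finite group on a Sylow 3-subgroup. -/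
theorem result {Ω : Type*} [Group Ω] {S : Subgroup Ω} [Finite S] (hS : IsPGroup 3 S) (F : Cfsg.FusionSystem S) (hF : F.IsSaturated 3) [Fact (Nat.Prime 3)] (T : Sylow 3 Cfsg.Spor.Co1) (e : ↥S ≃* ↥(T : Subgroup Cfsg.Spor.Co1)) (hcore : F.core = ⊥) : F.IsRealizable 3 := by
  obtain ⟨e'⟩ := CL.C3.sylow_iso T
  have i := (CL.Fus.gIso_of_mulEquiv (e.trans e')).fIso_transport F
  exact i.symm.isRealizable (CL.C3.fin_of (CL.C3.stL1 CL.C3.stB0) CL.C3.MM.stN4b (CL.C3.stV1 CL.C3.stI (CL.C3.stX CL.C3.stI) CL.C3.stN) (CL.C3.stV2 CL.C3.stI (CL.C3.stX CL.C3.stI) CL.C3.stN) _ (i.isSaturated hF) (by rw [← i.img_core, hcore, i.toGIso.img_bot]))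

end Cfsg.Agent.S5227
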