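import Cfsg.Statements.S5236
import Cfsg.Agent.Fus.SmallCtrl
import Cfsg.Agent.Fus.FactorSat

set_option autoImplicit false
open Cfsg

namespace Cfsg.Agent.S5236

open CL.Fus

/-- Let p be an odd prime, F a saturated fusion system over a finite p-group S and P a subgroup of S strongly closed in F. Then P is normal in F if and only if Ω₁(P) (the subgroup generated by the elements of order p of P) has a chain of subgroups 1 = Q₀ ≤ Q₁ ≤ ⋯ ≤ Qₙ = Ω₁(P), each strongly closed in F, with [Qᵢ₊₁, P] ≤ Qᵢ for all i. -/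
theorem result {Ω : Type*} [Group Ω] {S : Subgroup Ω} [Finite S] (p : ℕ) [Fact p.Prime] (hS : IsPGroup p S) (F : Cfsg.FusionSystem S) (hF : F.IsSaturated p) (hp : p ≠ 2) (P : Subgroup Ω) (hP : F.StronglyClosed P) : F.IsNormal P ↔ ∃ (n : ℕ) (Q : Fin (n + 1) → Subgroup Ω), Q 0 = ⊥ ∧ Q (Fin.last n) = Cfsg.omegaOne p P ∧ Monotone Q ∧ (∀ i : Fin (n + 1), F.StronglyClosed (Q i)) ∧ ∀ i : Fin n, ⁅Q i.succ, P⁆ ≤ Q i.castSucc := by
  constructor
  · intro h
    obtain ⟨n, hn⟩ := exists_zSer_eq_of_le hS h.1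
    have hO : Cfsg.omegaOne p P ≤ P := (Subgroup.closure_le _).2 fun _ hx => hx.1
    have hOn : F.IsNormal (Cfsg.omegaOne p P) := by
      refine IsNormal.of_invariant h hO fun f hf hi => hf.img_eq_self hO fun x hx => ?_
      induction hx using Subgroup.closure_induction with
      | mem x hx =>
        refine Subgroup.subset_closure ⟨hi ▸ mem_img_of_mem f hx.1, ?_⟩
        rw [← hf.homOn.map_pow hx.1, hx.2, hf.homOn.map_one]
      | one => rw [hf.homOn.map_one]; exact Subgroup.one_mem _
      | mul x y hx hy h1 h2 => rw [hf.homOn.map_mul (hO hx) (hO hy)]; exact Subgroup.mul_mem _ h1 h2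
      | inv x hx h1 => rw [hf.homOn.map_inv (hO hx)]; exact Subgroup.inv_mem _ h1
    refine ⟨n, fun i => Cfsg.omegaOne p P ⊓ zSer P i, ?_, ?_, fun i j hij => inf_le_inf_left _ (zSer_mono P hij),
      fun i => StronglyClosed.inf (IsNormal.stronglyClosed hOn) (IsNormal.stronglyClosed (IsNormal.zSer h i)),
      fun i => le_inf ?_ ?_⟩
    · show Cfsg.omegaOne p P ⊓ zSer P 0 = ⊥
      rw [zSer_zero, inf_bot_eq]
    · show Cfsg.omegaOne p P ⊓ zSer P n = _
      rw [hn, inf_eq_left.2 hO]
    · exact (Subgroup.commutator_mono inf_le_left le_rfl).trans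
        (Subgroup.le_normalizer_iff_commutator_le_left.1 (h.1.trans (IsNormal.le_normalizer hOn)))
    · exact (Subgroup.commutator_mono inf_le_right le_rfl).trans (commutator_zSer_le P i)
  · rintro ⟨n, Q, h0, hn, -, hsc, h⟩
    refine isNormal_of_stronglyClosed hS hF hP fun A hA => ?_
    have := finite_of_le hA.1.1
    refine le_of_inf_normalizer_le_of_normalizes hS hA.1.1 hP.1 (hA.1.1.trans (StronglyClosed.le_normalizer hP))
      fun a ha haN => ?_
    refine mem_of_chain_pred hS hA.1 (IsEssential.isRadical hS hA) n (fun i => Q ⟨min i n, by omega⟩) ?_ ?_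
      (fun γ => γ ∈ autModT A P) (Subgroup.one_mem _) (fun _ _ _ _ => Subgroup.mul_mem _) ?_ ?_ (hP.1 ha) haN ?_ ?_
    · intro i _ γ hγ x hx hxC
      exact (mor_autFun hA.1.1 hγ).mem_of_stronglyClosed (hsc _) hx hxC
    · intro x _ hx
      have : x ∈ Q 0 := by simpa using hx
      rwa [h0, Subgroup.mem_bot] at this
    · intro g hg α _ hα
      exact conj_mem_autModT (fun x hx hxP => (mor_autFun hA.1.1 hg).mem_of_stronglyClosed hP hx hxP) hα
    · intro α _ hα hc hfix
      refine eq_one_of_fix_small (hS.to_le hA.1.1) hc hα fun x hx hxP hs => hfix x hx ?_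
      simp only [min_self]
      exact hn.ge (Subgroup.subset_closure ⟨hxP, hs.resolve_right fun h => hp h.1⟩)
    · intro x hx
      rw [autFun_conjAut haN hx]
      exact inv_mul_conj_mem_of_normalizer (StronglyClosed.le_normalizer hP (hA.1.1 hx)) ha
    · intro i hi x _ hxC
      simp only [min_eq_left hi.le, min_eq_left (show i + 1 ≤ n from hi)] at hxC ⊢
      exact h ⟨i, hi⟩ (inv_mul_conj_mem_commutator hxC ha)

end Cfsg.Agent.S5236
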