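import Cfsg.Statements.S5243
import Cfsg.Agent.Fus.KerSub

set_option autoImplicit false
open Cfsg

namespace Cfsg.Agent.S5243

/-- Let F be a saturated fusion system over a finite p-group S, E a normal subsystem of F over T ≤ S, and χ a surjective homomorphism from Aut_F(T) onto a nontrivial finite group Δ of order prime to p whose kernel contains Aut_E(T). Then there is a proper normal subsystem F₀ of F over S containing E such that Aut_{F₀}(S) consists of those α ∈ Aut_F(S) whose restriction to T is an element of Aut_F(T) in the kernel of χ; moreover every p'-residual subsystem O^{p'}(F) of F is contained in F₀. -/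
theorem result {Ω : Type*} [Group Ω] {S : Subgroup Ω} [Finite S] (p : ℕ) [Fact p.Prime] (hS : IsPGroup p S) (F : Cfsg.FusionSystem S) (hF : F.IsSaturated p) {T : Subgroup Ω} (hTS : T ≤ S) (E : Cfsg.FusionSystem T) (hE : E.IsNormalIn F p) {Δ : Type*} [Group Δ] [Finite Δ] [Nontrivial Δ] (hΔ : (Nat.card Δ).Coprime p) (χ : ↥(F.autGroup T) →* Δ) (hχ : Function.Surjective χ) (hker : (E.autGroup T).subgroupOf (F.autGroup T) ≤ χ.ker) : ∃ F₀ : Cfsg.FusionSystem S, F₀.IsNormalIn F p ∧ ¬ (∀ P : Subgroup Ω, F₀.Hom P = F.Hom P) ∧ E.IsSubsystemOf F₀ ∧ (∀ α : MulAut ↥S, α ∈ F₀.autGroup S ↔ α ∈ F.autGroup S ∧ ∃ β : ↥(F.autGroup T), χ β = 1 ∧ ∀ t : ↥T, (((β : MulAut ↥T) t : ↥T) : Ω) = ((α ⟨(t : Ω), hTS t.2⟩ : ↥S) : Ω)) ∧ ∀ R : Cfsg.FusionSystem S, F.IsPPrimeResidual p R → R.IsSubsystemOf F₀ := by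
  open CL.Fus in
  have hT : F.StronglyClosed T := hE.1.2.2.2.1
  set K : Subgroup (MulAut T) := χ.ker.map (F.autGroup T).subtype with hKdef
  have hmem : ∀ β : F.autGroup T, (β : MulAut T) ∈ K ↔ χ β = 1 := fun β =>
    (Subgroup.mem_map_iff_mem (F.autGroup T).subtype_injective).trans MonoidHom.mem_ker
  have hKF : K ≤ F.autGroup T := Subgroup.map_subtype_le _
  have hn : F.autGroup T ≤ Subgroup.normalizer (K : Set (MulAut T)) := CL.Grp.le_normalizer_map_subtype _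
  have hK : Cfsg.autInducedBy S T ≤ K := fun α hα => by
    have hαF := autInducedBy_le_autGroup F hTS hα
    obtain ⟨k, hk⟩ := isPGroup_autInducedBy hS T ⟨α, hα⟩
    refine (hmem ⟨α, hαF⟩).2 (eq_one_of_pow_of_coprime hΔ pow_card_eq_one' (k := k) ?_)
    have hk' : α ^ p ^ k = 1 := congrArg Subtype.val hk
    rw [← map_pow, show (⟨α, hαF⟩ : F.autGroup T) ^ p ^ k = 1 from Subtype.ext hk', map_one]
  have hEK : E.autGroup T ≤ K := fun α hα =>
    (hmem ⟨α, autGroup_mono hE.1.2.2.1 T hα⟩).2 (hker (Subgroup.mem_subgroupOf.2 hα))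
  obtain ⟨F₀, h1, h2, -, h3⟩ := exists_normal_of_normal_autGroup hS hE.1 hKF hn hK hEK
  refine ⟨F₀, h1, fun h => ?_, h2, fun α => ?_, fun R hR => hR.2.2 F₀ h1.1.1
    ((IsInvariantIn.strongInv h1.1.2.2).hasPrimeToPIndexIn hS hF h1.1.2.2.1)⟩
  · obtain ⟨d, hd⟩ := exists_ne (1 : Δ)
    obtain ⟨β, rfl⟩ := hχ d
    obtain ⟨κ, hκ, g, hg, e⟩ := exists_extension_top_mod hS hF hT hKF hn hK β.2
    obtain ⟨κ', hκ', e'⟩ := ((h3 S g hTS).1 (hom_subset_iff.1 (h S).ge g hg)).2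
    have h4 : κ * β = κ' := aut_ext fun x hx => by rw [← e x hx, e' x hx]
    refine hd ((hmem β).1 ?_)
    rw [show (β : MulAut T) = κ⁻¹ * κ' by rw [← h4]; group]
    exact K.mul_mem (K.inv_mem hκ) hκ'
  · rw [mem_autGroup_iff le_rfl, mem_autGroup_iff le_rfl, h3 S _ hTS]
    refine and_congr_right fun _ => ⟨fun ⟨κ, hκ, e⟩ => ⟨⟨κ, hKF hκ⟩, (hmem _).1 hκ, fun t => ?_⟩,
      fun ⟨β, hβ, e⟩ => ⟨β, (hmem β).2 hβ, fun x hx => ?_⟩⟩
    · rw [← autFun_coe, ← e t t.2, autFun_apply _ (hTS t.2)]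
    · rw [autFun_apply _ hx, e, autFun_apply _ (hTS hx)]

end Cfsg.Agent.S5243
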