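import Cfsg.Statements.S5244
import Cfsg.Agent.Fus.AbelIdx
import Cfsg.Agent.S0112

set_option autoImplicit false
open Cfsg

namespace Cfsg.Agent.S5244

open CL.Fus Subgroup

/-- Let p be an odd prime, S a finite nonabelian p-group with a unique abelian subgroup A of index p, and F a saturated fusion system over S with no nontrivial normal subgroup (O_p(F) = 1) in which A is not F-essential. Then some subgroup Z(S)⟨x⟩ with x ∈ S outside A is F-essential, the centre Z(S) is contained in the commutator subgroup of S, and S has maximal nilpotency class (if S has order pⁿ with n ≥ 3, the term of index n − 2 of its lower central series, counting S itself as the term of index 0, is nontrivial). -/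
theorem result {Ω : Type*} [Group Ω] {S : Subgroup Ω} [Finite S] (p : ℕ) [Fact p.Prime] (hS : IsPGroup p S) (F : Cfsg.FusionSystem S) (hF : F.IsSaturated p) (hp : p ≠ 2) (hna : ¬ IsMulCommutative ↥S) (A : Subgroup Ω) (hA : A ≤ S ∧ IsMulCommutative ↥A ∧ (A.subgroupOf S).index = p) (huniq : ∀ B : Subgroup Ω, B ≤ S → IsMulCommutative ↥B → (B.subgroupOf S).index = p → B = A) (hcore : F.core = ⊥) (hAe : ¬ F.IsEssential p A) : (∃ x ∈ S, x ∉ A ∧ F.IsEssential p ((S ⊓ Subgroup.centralizer (S : Set Ω)) ⊔ Subgroup.zpowers x)) ∧ (S ⊓ Subgroup.centralizer (S : Set Ω)) ≤ (commutator ↥S).map S.subtype ∧ ∀ n : ℕ, Nat.card S = p ^ n → 3 ≤ n → Subgroup.lowerCentralSeries S (n - 2) ≠ ⊥ := by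
  have h := AbIdx.of_hyp hS hna hA
  have hp' : p.Prime := Fact.out
  have := finite_of_le (inf_le_left : zen S ≤ S)
  have hx : ∀ E, F.IsEssential p E → ∃ x ∈ E, x ∉ A := fun E hE =>
    SetLike.not_le_iff_exists.1 fun k => hAe (h.eq_of_le hE.1 k ▸ hE)
  obtain ⟨E, hE, hab⟩ : ∃ E, F.IsEssential p E ∧ ∀ x ∈ E, ∀ y ∈ E, x * y = y * x := by
    by_contra! k
    have hn : F.IsNormal (zen S) := isNormal_of_essential hS hF inf_le_left (fun E hE => zen_le_of_centric hE.1)
      fun E a hE ha e => by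
        have e' : zen E = zen S := by
          rcases hE with rfl | hE
          · rfl
          · obtain ⟨x, hx, hxA⟩ := hx E hE
            exact (h.nonabelian_ess hF hE (by simpa using k E hE) hx hxA).2.2.2.2.1
        rw [← e', ha.img_inf_centralizer, e]
    have h1 := IsNormal.le_core hn
    rw [hcore, le_bot_iff, zen_eq_map, map_eq_bot_iff_of_injective _ S.subtype_injective] at h1
    have : Nontrivial S := by
      by_contra k
      have := not_nontrivial_iff_subsingleton.1 k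
      exact hna ⟨⟨fun a b => Subsingleton.elim _ _⟩⟩
    have h2 := CL.Grp.dvd_card_center hS
    rw [h1, card_bot] at h2
    exact hp'.ne_one (Nat.dvd_one.1 h2)
  obtain ⟨x, hxE, hxA⟩ := hx E hE
  obtain ⟨h1, h2⟩ := h.axisEss hE hab hxE hxA
  obtain ⟨h3, h4⟩ := h.zSer_of_axisEss hF h1 (fun k => hAe (k ▸ hE)) huniq
  have h5 := (h.counts h3 h4).1
  have h6 : zen S ≤ ⁅S, S⁆ := zen_le_commutator hp hS hF hcore h5 (fun E hE => by
    obtain ⟨x, hxE, hxA⟩ := hx E hE
    by_cases hab : ∀ x ∈ E, ∀ y ∈ E, x * y = y * x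
    · exact Or.inl (h.axisEss hE hab hxE hxA).1
    · obtain ⟨-, -, -, -, e1, e2⟩ := h.nonabelian_ess hF hE hab hxE hxA
      have e3 : ⁅E, E⁆ = zen S ⊓ ⁅S, S⁆ := by
        have hle : ⁅E, E⁆ ≤ zen S ⊓ ⁅S, S⁆ := le_inf e2 (commutator_mono hE.1.1 hE.1.1)
        refine (CL.Grp.eq_or_eq_of_relIndex_prime bot_le hle (by rwa [relIndex_bot_left, h5])).resolve_left fun k => ?_
        exact hab fun x hx y hy => commutatorElement_eq_one_iff_mul_comm.1
          (mem_bot.1 (k ▸ commutator_mem_commutator hx hy))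
      exact Or.inr fun γ _ => ⟨fun y hy => e1 ▸ autFun_mem_zen γ (e1 ▸ hy),
        fun y hy => e3 ▸ autFun_mem_commutator γ (e3 ▸ hy)⟩) h1
  refine ⟨⟨x, hE.1.1 hxE, hxA, h2 ▸ hE⟩, by rwa [commutator_self_eq_map], fun n hn h3n => ?_⟩
  refine lowerCentralSeries_ne_bot_of_class hS (Cfsg.Agent.S0112.result n hn (E.subgroupOf S) ?_ ?_) (by omega)
  · rw [inf_eq_left.2 h6] at h5
    rw [Nat.card_congr (subgroupOfEquivOfLe hE.1.1).toEquiv, CL.Grp.card_eq_relIndex_mul_card h1.le, h1.idx, h5, sq]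
  · ext y
    refine ⟨fun k => IsCentric.centralizerIn_le hE.1 ⟨y.2, fun z hz => congrArg Subtype.val (k ⟨z, hE.1.1 hz⟩ hz)⟩,
      fun k z hz => Subtype.ext (hab z hz y k)⟩

end Cfsg.Agent.S5244
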