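import Cfsg.Statements.S5245
import Cfsg.Agent.Fus.SuperS
import Cfsg.Agent.Fus.Nilp
import Cfsg.Agent.Fus.Hyperfocal
import Cfsg.Agent.Fus.CopAut
import Cfsg.Agent.Fus.KerSub
import Cfsg.Agent.Fus.Iso2

set_option autoImplicit false
open Cfsg CL.Fus

namespace Cfsg.Agent.S5245

/-- Let F be an extremely sparse fusion system over a finite p-group S (saturated, not the inner system, and every saturated fusion system over any subgroup T of S contained in F is F itself or the inner system of T). Then S is normal in F, the focal and hyperfocal subgroups of F are both S, and Aut_F(S) is generated by the inner automorphisms of S together with a single automorphism of prime order q ≠ p (F is the fusion system of the semidirect product of S by a cyclic group of prime order). -/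
theorem result {Ω : Type*} [Group Ω] {S : Subgroup Ω} [Finite S] (p : ℕ) [Fact p.Prime] (hS : IsPGroup p S) (F : Cfsg.FusionSystem S) (hF : F.IsSaturated p) (hxs : ¬ (∀ P : Subgroup Ω, F.Hom P = (Cfsg.innerFusionSystem S).Hom P) ∧ ∀ (T : Subgroup Ω) (E : Cfsg.FusionSystem T), E.IsSaturated p → E.IsSubsystemOf F → (T = S ∧ ∀ P : Subgroup Ω, E.Hom P = F.Hom P) ∨ (∀ P : Subgroup Ω, E.Hom P = (Cfsg.innerFusionSystem T).Hom P)) : F.IsNormal S ∧ F.focalSubgroup = S ∧ F.hyperfocalSubgroup p = S ∧ ∃ (q : ℕ) (β : MulAut ↥S), q.Prime ∧ q ≠ p ∧ β ∈ F.autGroup S ∧ orderOf β = q ∧ (F.autGroup S : Subgroup (MulAut ↥S)) = Cfsg.Inn ↥S ⊔ Subgroup.zpowers β := by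

  obtain ⟨hne, hx⟩ := hxs
  have hp : p.Prime := Fact.out
  -- key step
  have key : ∀ (T : Subgroup Ω) (hT : T ≤ S) (β : MulAut T) (q : ℕ), q.Prime → q ≠ p → β ∈ F.autGroup T →
      orderOf β = q → T = S ∧ ∀ P f, Mor F P f →
        Mor (autMul (innerFusionSystem T) (Subgroup.zpowers β) (autInv_inner _)) P f := by
    intro T hT β q hq hqp hβ ho
    have : Finite T := Finite.of_injective _ (Subgroup.inclusion_injective hT)
    have hTp : IsPGroup p T := hS.to_le hT
    have hcop : q.Coprime p := (Nat.coprime_primes hq hp).2 hqp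
    have hsat : (autMul (innerFusionSystem T) (Subgroup.zpowers β) (autInv_inner _)).IsSaturated p :=
      isSaturated_autMul (GS.isSaturated_inner hTp) fun α hα => by
        obtain ⟨k, rfl⟩ := Subgroup.mem_zpowers_iff.1 hα
        refine ⟨q, hcop, ?_⟩
        rw [← zpow_natCast, ← zpow_mul, mul_comm, zpow_mul, zpow_natCast, ← ho, pow_orderOf_eq_one, one_zpow]
        exact one_mem _
    have hsub : (autMul (innerFusionSystem T) (Subgroup.zpowers β) (autInv_inner _)).IsSubsystemOf F := by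
      refine autMul_isSubsystemOf (isSubsystemOf_iff.2 fun P f hf => ?_) (Subgroup.zpowers_le.2 hβ)
      obtain ⟨h1, a, ha, h3⟩ := mor_inner_iff.1 hf
      exact (mor_conj F (h1.trans hT) (hT ha)).congr fun x hx => (h3 x hx).symm
    rcases hx T _ hsat hsub with ⟨h1, h2⟩ | h2
    · exact ⟨h1, fun P f hf => hom_subset_iff.1 (h2 P).ge f hf⟩
    · exfalso
      have hm := hom_subset_iff.1 (h2 T).le _ (mor_autMul_autFun (Subgroup.mem_zpowers β))
      obtain ⟨k, hk⟩ := exists_pow_eq_one_of_mor_inner hTp hm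
      have h3 := orderOf_dvd_of_pow_eq_one hk
      rw [ho] at h3
      exact hqp ((Nat.prime_dvd_prime_iff_eq hq hp).1 (hq.dvd_of_dvd_pow h3))
  -- an automorphism of prime order `q ≠ p`
  obtain ⟨T, β, q, hT, hq, hqp, hβ, ho⟩ : ∃ (T : Subgroup Ω) (β : MulAut T) (q : ℕ), T ≤ S ∧ q.Prime ∧ q ≠ p ∧
      β ∈ F.autGroup T ∧ orderOf β = q := by
    by_contra hcon
    refine hne fun P => by
      rw [eq_inner_of_forall_pow hS hF fun T α hα => ?_]
      have : Finite T := Finite.of_injective _ (Subgroup.inclusion_injective hα.le)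
      have h0 : orderOf α ≠ 0 := (orderOf_pos α).ne'
      refine ⟨(orderOf α).primeFactorsList.length, ?_⟩
      rw [← Nat.eq_prime_pow_of_unique_prime_dvd h0 fun {q} hq hd => ?_, pow_orderOf_eq_one]
      by_contra hqp
      exact hcon ⟨T, α ^ (orderOf α / q), q, hα.le, hq, hqp,
        Subgroup.pow_mem _ ((mem_autGroup_iff hα.le).2 hα) _, orderOf_pow_orderOf_div h0 hd⟩
  obtain ⟨rfl, hm⟩ := key T hT β q hq hqp hβ ho
  have hcop : (orderOf β).Coprime p := ho ▸ (Nat.coprime_primes hq hp).2 hqp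
  have hhyp : F.hyperfocalSubgroup p = T := by
    have hH := hyperfocalSubgroup_le F p
    obtain ⟨ρ, hρ, e⟩ := (mor_autFun le_rfl hβ).exists_aut' hH fun x hx =>
      (mor_autFun le_rfl hβ).mem_hyperfocal hx
    refine (key _ hH ρ q hq hqp hρ ?_).1
    have h1 : ρ ^ q = 1 := by
      refine pow_eq_one_of_res hH (fun x hx => (e x hx).symm) ?_
      rw [← ho, pow_orderOf_eq_one]
    have : Fact q.Prime := ⟨hq⟩
    refine orderOf_eq_prime h1 fun h2 => ?_
    have h3 : β = 1 := aut_ext fun x hx => by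
      rw [autFun_one hx]
      refine fix_of_coprime hS hcop hx ?_
      have h4 := inv_mul_mem_hyperfocal' le_rfl hβ hcop hx
      rw [← e _ h4, h2, autFun_one h4]
    rw [h3, orderOf_one] at ho
    exact hq.one_lt.ne ho
  refine ⟨isNormal_iff.2 ⟨le_rfl, fun P f hf => ?_⟩, le_antisymm (focal_le_iff.2 fun P f hf x hx => T.mul_mem (T.inv_mem (hf.le hx)) (hf.mem hx)) (hhyp.ge.trans (hyperfocal_le_focal F p)),
    hhyp, q, β, hq, hqp, hβ, ho, le_antisymm (fun γ hγ => ?_)
      (sup_le (Inn_le_autGroup F le_rfl) (Subgroup.zpowers_le.2 hβ))⟩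
  · obtain ⟨α, hα, f₀, hf₀, e⟩ := mor_autMul.1 (hm P f hf)
    obtain ⟨hP, a, ha, e'⟩ := mor_inner_iff.1 hf₀
    have hαF : α ∈ F.autGroup T := Subgroup.zpowers_le.2 hβ hα
    have h1 : Mor F T fun x => autFun α (a * x * a⁻¹) :=
      (mor_conj F le_rfl ha).comp (mor_autFun le_rfl hαF) fun x hx =>
        T.mul_mem (T.mul_mem ha hx) (T.inv_mem ha)
    refine ⟨_, h1.mono (sup_le hP le_rfl), fun x hx => by rw [e x hx, e' x hx], ?_⟩
    exact h1.img_eq_self le_rfl fun x hx => h1.mem hx
  · have h1 := (mem_autGroup_iff le_rfl).2 (hm T _ (mor_autFun le_rfl hγ))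
    obtain ⟨α, hα, δ, hδ, rfl⟩ := mem_autGroup_autMul_iff.1 h1
    refine Subgroup.mul_mem _ (Subgroup.mem_sup_right hα) (Subgroup.mem_sup_left ?_)
    obtain ⟨-, a, ha, e'⟩ := mor_inner_iff.1 (mor_autFun le_rfl hδ)
    exact mem_Inn_iff.2 ⟨a, ha, e'⟩

end Cfsg.Agent.S5245
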