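import Cfsg.Statements.S5251
import Cfsg.Agent.Fus.TCentric

set_option autoImplicit false
open Cfsg

namespace Cfsg.Agent.S5251

/-- Let F be a saturated fusion system over a finite p-group S, E a normal subsystem of F over T, and P an F-centric subgroup of S such that P ∩ T is not E-centric. Then some F-conjugate P* of P satisfies Out_S(P*) ∩ O_p(Out_F(P*)) ≠ 1: there is an element of N_S(P*) outside P* whose conjugation action on P* lies in O_p(Aut_F(P*)). In particular P is not both centric and radical in F. -/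
theorem result {Ω : Type*} [Group Ω] {S : Subgroup Ω} [Finite S] (p : ℕ) [Fact p.Prime] (hS : IsPGroup p S) (F : Cfsg.FusionSystem S) (hF : F.IsSaturated p) {T : Subgroup Ω} (E : Cfsg.FusionSystem T) (hE : E.IsNormalIn F p) (P : Subgroup Ω) (hP : F.IsCentric P) (hPT : ¬ E.IsCentric (P ⊓ T)) : (∃ φ ∈ F.Hom P, ∃ x ∈ S ⊓ Subgroup.normalizer (φ.range : Set Ω), x ∉ φ.range ∧ ∃ α ∈ ((Cfsg.pCore p ↥(F.autGroup φ.range)).map (F.autGroup φ.range).subtype : Subgroup (MulAut ↥φ.range)), ∀ y : ↥φ.range, ((α y : ↥φ.range) : Ω) = x * (y : Ω) * x⁻¹) ∧ ¬ F.IsRadical p P := by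
  open CL.Fus in
  have hT : F.StronglyClosed T := hE.1.2.2.2.1
  rw [centric_iff_tCentric hE.1.2.2] at hPT
  refine ⟨?_, fun hr => hPT (tCentric_inf_of_centric_radical hS hF hT hP hr)⟩
  obtain ⟨Q, ⟨φ, hφ, rfl⟩, h⟩ := exists_not_normK_le_of_not_tCentric hS hF hT hP.1 hPT
  obtain ⟨x, hx, hxQ⟩ := SetLike.not_le_iff_exists.1 h
  obtain ⟨hxS, α, hα, e⟩ := mem_normK.1 hx
  exact ⟨φ, hφ, x, normK_le_normalizerIn hx, hxQ, α, hα, fun y => by rw [e y y.2, autFun_coe]⟩

end Cfsg.Agent.S5251
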