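import Cfsg.Statements.S5253
import Cfsg.Agent.Fus.GlaubFun

set_option autoImplicit false
universe u
open Cfsg

namespace Cfsg.Agent.S5253

/-- Let p be a prime and W a positive characteristic p-functor with Z(Q) ≤ W(Q): W assigns to every finite p-group Q (in a fixed universe) a subgroup W(Q), nontrivial when Q is, carried to W(R) by every isomorphism Q ≅ R, and containing the centre of Q. Suppose that for every finite group G with Sylow p-subgroup P in which W(P) is not normal there is g ∈ P outside O_p(G) with [Z(O_p(G)), g, g] = 1. Then for every saturated fusion system F over a finite p-group S and every normalizer fusion system N of W(S) in F, every p-th power of an element of Z(S) that lies in the centre of N lies in the centre of F. -/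
theorem result {p : ℕ} [Fact p.Prime] (W : ∀ (Q : Type u) [Group Q], Subgroup Q) (hW1 : ∀ (Q : Type u) [Group Q] [Finite Q], IsPGroup p Q → Nontrivial Q → W Q ≠ ⊥) (hW2 : ∀ (Q R : Type u) [Group Q] [Group R] [Finite Q], IsPGroup p Q → ∀ φ : Q ≃* R, (W Q).map φ.toMonoidHom = W R) (hWZ : ∀ (Q : Type u) [Group Q] [Finite Q], IsPGroup p Q → Subgroup.center Q ≤ W Q) (hq : ∀ (G : Type u) [Group G] [Finite G] (P : Sylow p G), ¬ (((W ↥(P : Subgroup G)).map (P : Subgroup G).subtype : Subgroup G)).Normal → ∃ g : G, g ∈ (P : Subgroup G) ∧ g ∉ Cfsg.pCore p G ∧ ⁅⁅Subgroup.center ↥(Cfsg.pCore p G) |>.map (Cfsg.pCore p G).subtype, Subgroup.zpowers g⁆, Subgroup.zpowers g⁆ = ⊥) {Ω : Type u} [Group Ω] {S : Subgroup Ω} [Finite S] (hS : IsPGroup p S) (F : Cfsg.FusionSystem S) (hF : F.IsSaturated p) (N : Cfsg.FusionSystem (Cfsg.FusionSystem.normalizerIn S ((W ↥S).map S.subtype))) (hN : F.IsNormalizerSystem ((W ↥S).map S.subtype) N) : Subgroup.closure ((fun z => z ^ p) ''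 ((S ⊓ Subgroup.centralizer (S : Set Ω) : Subgroup Ω) : Set Ω)) ⊓ N.center ≤ F.center := by
  have hW : CL.Fus.UFun p W := ⟨hW1, hW2⟩
  have hn := (hW.fFun hS F).top_le_normalizer
  have hN' := CL.Fus.IsNormalizerSystem.isSaturated hS hF
    (CL.Fus.isFullyNormalized_of_normalizerIn_eq F (CL.Fus.wsub_le W S) hn) hN
  rintro z ⟨hz1, hz2⟩
  obtain ⟨y, hy, rfl⟩ : ∃ y ∈ S ⊓ Subgroup.centralizer (S : Set Ω), y ^ p = z := by
    clear hz2
    induction hz1 using Subgroup.closure_induction with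
    | mem x hx => exact hx
    | one => exact ⟨1, Subgroup.one_mem _, one_pow _⟩
    | mul x y _ _ hx hy =>
      obtain ⟨a, ha, rfl⟩ := hx
      obtain ⟨b, hb, rfl⟩ := hy
      exact ⟨a * b, Subgroup.mul_mem _ ha hb, (show Commute a b from hb.2 a ha.1).mul_pow p⟩
    | inv x _ hx =>
      obtain ⟨a, ha, rfl⟩ := hx
      exact ⟨a⁻¹, Subgroup.inv_mem _ ha, inv_pow a p⟩
  refine hW.fix_of_free p (fun L _ _ T hT hc _ y hy h => ?_) hS hF
    (CL.Fus.isSectionFree_of_infinite (X := Multiplicative ℤ) F p) hy fun P f hf =>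
      ((CL.Fus.mem_center_iff (hS.to_le (CL.Fus.normalizerIn_le S _)) hN').1 hz2).2 P f
        ((CL.Fus.isNormalizerSystem_iff.1 hN P f).2 hf)
  refine CL.Fus.pow_mem_center_of_quadratic hT hc (fun H hTH hH => ?_) hy h
  have hT' := hT.mono hTH le_top
  obtain ⟨g, hg1, hg2, hg3⟩ := hq H hT'.toSylow fun hn => hH (by
    have e := hW.img_eq (P := T.subgroupOf H) hT'.toSylow.isPGroup' (CL.Fus.homOn_hom H.subtype _)
      fun _ _ _ _ e => Subtype.ext e
    rw [CL.Fus.img_hom, CL.Fus.img_hom, Subgroup.map_subgroupOf_eq_of_le hTH] at e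
    rw [← e]
    exact CL.Fus.le_normalizer_of_conj_mem (by
      rintro a ha _ ⟨x, hx, rfl⟩
      exact ⟨_, hn.conj_mem x hx ⟨a, ha⟩, rfl⟩))
  refine ⟨g, hg1, fun h => hg2 ((CL.Grp.pCoreOf_subgroupOf p H).le h), ?_⟩
  have e := congrArg (Subgroup.map H.subtype) hg3
  rw [Subgroup.map_commutator, Subgroup.map_commutator, MonoidHom.map_zpowers, Subgroup.map_bot] at e
  refine eq_bot_iff.2 (le_trans (Subgroup.commutator_mono (Subgroup.commutator_mono ?_ le_rfl) le_rfl) e.le)
  rintro _ ⟨⟨x, hx, rfl⟩, hx'⟩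
  exact ⟨x, ⟨⟨x, hx⟩, Subgroup.mem_center_iff.2 fun w => Subtype.ext (Subtype.ext (hx' _ ⟨w, w.2, rfl⟩)), rfl⟩, rfl⟩

end Cfsg.Agent.S5253
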