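import Cfsg.Statements.S5271
import Cfsg.Agent.Fus.WeakEmb

set_option autoImplicit false
open Cfsg

namespace Cfsg.Agent.S5271

open CL.Fus Subgroup

/-- A nilpotency criterion for fusion systems. Let F be a saturated fusion system over a finite p-group S of order at least p². Call a subgroup Q of S weakly embedded in F when there is a subgroup P of S strongly closed in F such that both the product QP and the intersection Q ∩ P are strongly closed in F. Then F is the inner fusion system of S if and only if there is a subgroup D of S with 1 < D < S such that every subgroup of S of the same order as D is weakly embedded in F and, for every fully normalized subgroup H of S of that order, the normalizer fusion system of H in F is the inner fusion system of N_S(H). -/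
theorem result {Ω : Type*} [Group Ω] {S : Subgroup Ω} [Finite S] (p : ℕ) [Fact p.Prime] (hS : IsPGroup p ↥S) (F : Cfsg.FusionSystem S) (hF : F.IsSaturated p) (hcard : p ^ 2 ≤ Nat.card S) : (∀ P : Subgroup Ω, F.Hom P = (Cfsg.innerFusionSystem S).Hom P) ↔ ∃ D : Subgroup Ω, ⊥ < D ∧ D < S ∧ (∀ Q : Subgroup Ω, Q ≤ S → Nat.card ↥Q = Nat.card ↥D → ∃ P : Subgroup Ω, F.StronglyClosed P ∧ F.StronglyClosed (Q ⊔ P) ∧ F.StronglyClosed (Q ⊓ P)) ∧ (∀ H : Subgroup Ω, F.IsFullyNormalized H → Nat.card ↥H = Nat.card ↥D → ∀ N : Cfsg.FusionSystem (Cfsg.FusionSystem.normalizerIn S H), F.IsNormalizerSystem H N → ∀ P : Subgroup Ω, N.Hom P = (Cfsg.innerFusionSystem (Cfsg.FusionSystem.normalizerIn S H)).Hom P) := by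
  have hp : p.Prime := Fact.out
  refine ⟨fun h => ?_, ?_⟩
  · obtain rfl : F = innerFusionSystem S := fusionSystem_ext h
    obtain ⟨n, hn⟩ := IsPGroup.iff_card.1 hS
    have h2 : 2 ≤ n := (Nat.pow_le_pow_iff_right hp.one_lt).1 (hn ▸ hcard)
    obtain ⟨D, -, hD, -, hD1⟩ := exists_normalized_card_eq hS bot_le le_rfl le_normalizer_of_normal le_normalizer
      (b := n - 1) (card_bot.trans_le (pow_pos hp.pos _)) (hn ▸ Nat.pow_le_pow_right hp.pos (by omega))
    refine ⟨D, bot_lt_iff_ne_bot.2 fun e => ?_, lt_of_le_of_ne hD fun e => ?_, fun Q hQ hQ1 => ?_,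
      fun H hH _ N hN P => ?_⟩
    · rw [e, card_bot] at hD1
      exact (one_lt_pow₀ hp.one_lt (by omega)).ne hD1
    · rw [e, hn] at hD1
      have := Nat.pow_right_injective hp.two_le hD1
      omega
    · have h1 : (Q.subgroupOf S).index = p := by
        have := (Q.subgroupOf S).index_mul_card
        rw [Nat.card_congr (subgroupOfEquivOfLe hQ).toEquiv, hQ1, hD1, hn, show n = n - 1 + 1 by omega, pow_succ'] at this
        exact Nat.eq_of_mul_eq_mul_right (pow_pos hp.pos _) this
      have h3 := stronglyClosed_of_hyperfocal_le hS hF (T := Q) (hyperfocal_le_iff.2 fun P hP α hα hc x hx => by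
        obtain ⟨k, hk⟩ := exists_pow_eq_one_of_mor_inner hS ((mem_autGroup_iff hP).1 hα)
        rw [show α = 1 from orderOf_eq_one_iff.1 (Nat.eq_one_of_dvd_coprimes (hc.pow_right k) dvd_rfl
          (orderOf_dvd_of_pow_eq_one hk)), autFun_one hx, inv_mul_cancel]
        exact one_mem _) hQ ((normal_subgroupOf_iff_le_normalizer hQ).1
          (CL.Grp.normal_of_index_eq_pGroup hS h1))
      exact ⟨Q, h3, (sup_idem Q).symm ▸ h3, (inf_idem Q).symm ▸ h3⟩
    · rw [IsNormalizerSystem.eq hN hH.1, (pLoc_of_eq_inner hS rfl H ⊤).normalizerSystem_eq hS hF hH]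
  · rintro ⟨D, -, hD, h1, h2⟩ P
    have := finite_of_le hD.le
    obtain ⟨k, hk⟩ := IsPGroup.iff_card.1 (hS.to_le hD.le)
    rw [eq_inner_of_weakEmb hS hF (k := k) (by rw [pow_succ', ← hk]; exact mul_card_le_of_lt hS hD)
      (fun Q hQ e => h1 Q hQ (e.trans hk.symm)) fun H hH e => pLoc_of_normalizerSystem hS
        (isNormalizerSystem_normalizerSystem F hH.1) (fusionSystem_ext (h2 H
          (WeaklyClosed.isFullyNormalized (StronglyClosed.weaklyClosed hH)) (e.trans hk.symm) _
            (isNormalizerSystem_normalizerSystem F hH.1)))]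

end Cfsg.Agent.S5271
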