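import Cfsg.Statements.S5274
import Cfsg.Agent.Fus.NormalCrit

set_option autoImplicit false
open Cfsg

namespace Cfsg.Agent.S5274

open CL.Fus

theorem exists_sub {Ω : Type*} [Group Ω] (S : Subgroup Ω) (n : ℕ)
    (h : ∀ x ∈ S, x ^ n = 1 → ∀ y ∈ S, y ^ n = 1 → x * y = y * x) :
    ∃ N : Subgroup Ω, ∀ x, x ∈ N ↔ x ∈ S ∧ x ^ n = 1 :=
  ⟨{ carrier := {x | x ∈ S ∧ x ^ n = 1}
     one_mem' := ⟨S.one_mem, one_pow n⟩
     mul_mem' := fun {x y} hx hy => ⟨S.mul_mem hx.1 hy.1, by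
       rw [(show Commute x y from h x hx.1 hx.2 y hy.1 hy.2).mul_pow, hx.2, hy.2, one_mul]⟩
     inv_mem' := fun {x} hx => ⟨S.inv_mem hx.1, by rw [inv_pow, hx.2, inv_one]⟩ }, fun _ => Iff.rfl⟩

theorem normal_of_comm {Ω : Type*} [Group Ω] {S : Subgroup Ω} [Finite S] (hS : IsPGroup 2 ↥S)
    {F : Cfsg.FusionSystem S} (hF : F.IsSaturated 2) {n : ℕ} {N : Subgroup Ω} (hN : ∀ x, x ∈ N ↔ x ∈ S ∧ x ^ n = 1)
    (h : ∀ x ∈ S, x ^ n = 1 → ∀ y ∈ S, y ^ n = 1 → x * y = y * x) : F.IsNormal N :=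
  isNormal_of_stronglyClosed_comm hS hF (stronglyClosed_iff.2 ⟨fun x hx => ((hN x).1 hx).1, fun _ f hf x hx hxN =>
    (hN _).2 ⟨hf.mem hx, by rw [← hf.homOn.map_pow hx, ((hN x).1 hxN).2, hf.homOn.map_one]⟩⟩)
    fun x hx y hy => h x ((hN x).1 hx).1 ((hN x).1 hx).2 y ((hN y).1 hy).1 ((hN y).1 hy).2

/-- Let F be a saturated fusion system over a finite 2-group S. Suppose that every element of S is F-conjugate to an element of the centre Z(S) (some map of F defined on the cyclic subgroup it generates sends it into Z(S)). Then S is abelian. -/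
theorem result {Ω : Type*} [Group Ω] {S : Subgroup Ω} [Finite S] (hS : IsPGroup 2 ↥S) (F : Cfsg.FusionSystem S) (hF : F.IsSaturated 2) (h : ∀ x ∈ S, ∃ z ∈ S ⊓ Subgroup.centralizer (S : Set Ω), F.IsConjElt x z) : IsMulCommutative ↥S := by
  have hext : ∀ N, F.IsNormal N → ∀ x ∈ S, ∃ g, Mor F (Subgroup.zpowers x ⊔ N) g ∧ img g N = N ∧
      g x ∈ Subgroup.centralizer (S : Set Ω) := by
    intro N hN x hx
    obtain ⟨z, hz, hxz⟩ := h x hx
    obtain ⟨f, hf, rfl⟩ := isConjElt_iff.1 hxz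
    obtain ⟨g, hg, e, hi⟩ := IsNormal.extend hN hf
    exact ⟨g, hg, hi, by rw [e x (Subgroup.mem_zpowers x)]; exact hz.2⟩
  have key : ∀ i : ℕ, ∀ x ∈ S, x ^ 2 ^ i = 1 → ∀ s ∈ S, s * x = x * s := by
    intro i
    induction i with
    | zero => intro x _ hx s _; rw [pow_zero, pow_one] at hx; rw [hx, one_mul, mul_one]
    | succ i ih =>
      obtain ⟨N, hN⟩ := exists_sub S (2 ^ i) fun x hx _ y hy hy' => ih y hy hy' x hx
      have hNn := normal_of_comm hS hF hN fun x hx _ y hy hy' => ih y hy hy' x hx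
      have hNZ : N ≤ Subgroup.centralizer (S : Set Ω) := fun x hx s hs => ih x ((hN x).1 hx).1 ((hN x).1 hx).2 s hs
      have hsq : ∀ x ∈ S, x ^ 2 ^ (i + 1) = 1 → x * x ∈ N := fun x hx hx' =>
        (hN _).2 ⟨S.mul_mem hx hx, by rw [← sq, ← pow_mul, ← pow_succ', hx']⟩
      have hcomm : ∀ a ∈ S, a ^ 2 ^ (i + 1) = 1 → ∀ b ∈ S, b ^ 2 ^ (i + 1) = 1 → a * b = b * a := by
        intro a ha ha' b hb hb'
        obtain ⟨g, hg, hi, hz⟩ := hext N hNn (a * b) (S.mul_mem ha hb)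
        have hx : a * b ∈ Subgroup.zpowers (a * b) ⊔ N := Subgroup.mem_sup_left (Subgroup.mem_zpowers _)
        have hZ : img g (Subgroup.zpowers (a * b) ⊔ N) ≤ Subgroup.centralizer (S : Set Ω) := by
          rw [hg.homOn.img_sup, hi, hg.homOn.img_zpowers hx]
          exact sup_le (Subgroup.zpowers_le_of_mem hz) hNZ
        have hfn : F.IsFullyNormalized (img g (Subgroup.zpowers (a * b) ⊔ N)) :=
          isFullyNormalized_of_normalizerIn_eq F hg.img_le
            ((Subgroup.le_centralizer_iff.1 hZ).trans (Subgroup.centralizer_le_normalizer _))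
        obtain ⟨k, hk, e⟩ := exists_mor_normalizerIn hS hF hfn hg.isConj
        have := hg.finite
        have haN : a ∈ Cfsg.FusionSystem.normalizerIn S (Subgroup.zpowers (a * b) ⊔ N) := by
          refine ⟨ha, mem_normalizer_of_finite (img_le_iff.1 ?_)⟩
          rw [(homOn_conj _ a).img_sup, (homOn_conj _ a).img_zpowers hx,
            img_conj_of_mem_normalizer (IsNormal.le_normalizer hNn ha)]
          refine sup_le (Subgroup.zpowers_le_of_mem ?_) le_sup_right
          have h1 := hNZ (hsq b hb hb') a⁻¹ (S.inv_mem ha)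
          have h2 : a * (a * b) * a⁻¹ = (a * a) * (b * b) * (a * b)⁻¹ := by group
          rw [h2]
          exact Subgroup.mul_mem _ (Subgroup.mem_sup_right (N.mul_mem (hsq a ha ha') (hsq b hb hb')))
            (Subgroup.inv_mem _ hx)
        have hxN := le_normalizerIn hg.le hx
        have h3 : k (a * (a * b)) = k (a * b * a) := by
          rw [hk.homOn.map_mul haN hxN, hk.homOn.map_mul hxN haN]
          exact hZ (e ▸ mem_img_of_mem k hx) _ (hk.mem haN)
        have h4 := hk.injOn (Subgroup.mul_mem _ haN hxN) (Subgroup.mul_mem _ hxN haN) h3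
        rw [mul_assoc] at h4
        exact mul_left_cancel h4
      obtain ⟨M, hM⟩ := exists_sub S (2 ^ (i + 1)) hcomm
      have hMn := normal_of_comm hS hF hM hcomm
      intro x hx hx' s hs
      obtain ⟨g, hg, hi, hz⟩ := hext M hMn s hs
      have h1 : s ∈ Subgroup.zpowers s ⊔ M := Subgroup.mem_sup_left (Subgroup.mem_zpowers _)
      have h2 : x ∈ Subgroup.zpowers s ⊔ M := Subgroup.mem_sup_right ((hM x).2 ⟨hx, hx'⟩)
      refine hg.injOn (Subgroup.mul_mem _ h1 h2) (Subgroup.mul_mem _ h2 h1) ?_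
      rw [hg.homOn.map_mul h1 h2, hg.homOn.map_mul h2 h1]
      exact (hz _ (hg.mem h2)).symm
  refine ⟨⟨fun x y => Subtype.ext ?_⟩⟩
  obtain ⟨i, hi⟩ := hS y
  exact key i y y.2 (congrArg Subtype.val hi) x x.2

end Cfsg.Agent.S5274
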