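import Cfsg.Statements.S5276
import Cfsg.Agent.Fus.Yoshida

set_option autoImplicit false
open Cfsg

namespace Cfsg.Agent.S5276

/-- Let p be a prime and F a saturated fusion system over a finite p-group S. Then F is the inner fusion system of S if and only if the normalizer fusion system of S itself in F is the inner fusion system (equivalently, Aut_F(S) is induced by S) and the Frattini subgroup Φ(S) is strongly closed in F. -/
theorem result {Ω : Type*} [Group Ω] {S : Subgroup Ω} [Finite S] (p : ℕ) [Fact p.Prime] (hS : IsPGroup p ↥S) (F : Cfsg.FusionSystem S) (hF : F.IsSaturated p) : (∀ P : Subgroup Ω, F.Hom P = (Cfsg.innerFusionSystem S).Hom P) ↔ (∀ N : Cfsg.FusionSystem (Cfsg.FusionSystem.normalizerIn S S), F.IsNormalizerSystem S N → ∀ P : Subgroup Ω, N.Hom P = (Cfsg.innerFusionSystem (Cfsg.FusionSystem.normalizerIn S S)).Hom P) ∧ F.StronglyClosed ((frattini ↥S).map S.subtype) := by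
  constructor
  · intro h
    obtain rfl := CL.Fus.fusionSystem_ext h
    refine ⟨fun N hN P => ?_, CL.Fus.stronglyClosed_iff.2 ⟨Subgroup.map_subtype_le _, fun P f hf x hx hxΦ => ?_⟩⟩
    · rw [CL.Fus.fusionSystem_le_antisymm (CL.Fus.le_iff_mor.2 fun P f hf => ?_) (CL.Fus.inner_le N)]
      obtain ⟨-, a, ha, e⟩ := CL.Fus.mor_inner_iff.1 (hf.of_subsystem (CL.Fus.IsNormalizerSystem.isSubsystemOf hN))
      exact CL.Fus.mor_inner_iff.2 ⟨hf.le, a, CL.Fus.le_normalizerIn le_rfl ha, e⟩
    · obtain ⟨-, a, ha, e⟩ := CL.Fus.mor_inner_iff.1 hf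
      obtain ⟨y, hy, rfl⟩ := hxΦ
      rw [e _ hx]
      exact ⟨_, (inferInstance : (frattini S).Normal).conj_mem y hy ⟨a, ha⟩, rfl⟩
  · rintro ⟨hN, hΦ⟩ P
    rw [← CL.Fus.eq_inner_of_stronglyClosed_le_frattini hS hF hΦ (CL.Fus.commutator_le_map_frattini hS) le_rfl
      fun f hf => CL.Fus.conj_of_normalizer_top_inner hN hf]

end Cfsg.Agent.S5276
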