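import Cfsg.Statements.S5278
import Cfsg.Agent.Fus.FlavFus

set_option autoImplicit false
open Cfsg

namespace Cfsg.Agent.S5278

/-- Let p be an odd prime, F a saturated fusion system over a finite p-group S, and T a subgroup of Z(S) such that the normalizer fusion system of J(S) in F is contained in the normalizer fusion system of T, J(S) being the subgroup generated by the abelian subgroups of S of largest order. Then either T is weakly closed in F, or Aut_F(T) has a nontrivial cyclic subgroup X of order prime to p that permutes transitively the non-identity elements of the commutator [T, X] (the subgroup of T generated by the elements ψ(t)·t⁻¹ with ψ in X and t in T). -/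
theorem result {Ω : Type*} [Group Ω] {S : Subgroup Ω} [Finite S] (p : ℕ) [Fact p.Prime] (hS : IsPGroup p ↥S) (F : Cfsg.FusionSystem S) (hF : F.IsSaturated p) (hp : p ≠ 2) (T : Subgroup Ω) (hT : T ≤ S ⊓ Subgroup.centralizer (S : Set Ω)) (hJT : ∀ NJ : Cfsg.FusionSystem (Cfsg.FusionSystem.normalizerIn S (Cfsg.thompsonSubgroupAOf S)), F.IsNormalizerSystem (Cfsg.thompsonSubgroupAOf S) NJ → ∀ NT : Cfsg.FusionSystem (Cfsg.FusionSystem.normalizerIn S T), F.IsNormalizerSystem T NT → NJ.IsSubsystemOf NT) : F.WeaklyClosed T ∨ ∃ X : Subgroup (MulAut ↥T), X ≤ F.autGroup T ∧ X ≠ ⊥ ∧ IsCyclic ↥X ∧ (Nat.card ↥X).Coprime p ∧ ∀ a b : ↥T, a ∈ Subgroup.closure {y : ↥T | ∃ ψ ∈ X, ∃ t : ↥T, y = ψ t * t⁻¹} → b ∈ Subgroup.closure {y : ↥T | ∃ ψ ∈ X, ∃ t : ↥T, y = ψ t * t⁻¹} → a ≠ 1 → b ≠ 1 → ∃ ψ ∈ X, ψ a = b := by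
  have hTS : T ≤ S := hT.trans inf_le_left
  by_cases h : ∀ f, CL.Fus.Mor F T f → CL.Fus.img f T = T → ¬ CL.Grp.Flav p T f
  · refine Or.inl (CL.Fus.IsNormal.weaklyClosed (CL.Fus.isNormal_of_not_flav hp hS hF hT (fun P f hf hP => ?_) h))
    have hN := CL.Fus.isNormalizerSystem_normalizerSystem F (Subgroup.map_subtype_le _ : thompsonSubgroupAOf S ≤ S)
    have h1 := ((CL.Fus.isNormalizerSystem_iff.1 hN P f).2 hf).of_subsystem
      (hJT _ hN _ (CL.Fus.isNormalizerSystem_normalizerSystem F hTS))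
    obtain ⟨-, g, -, e1, e2⟩ := CL.Fus.mor_normalizerSystem.1 h1
    exact (CL.Fus.img_congr fun x hx => (e1 x (hP hx)).symm).trans e2
  · push Not at h
    obtain ⟨f, hf, e, hfl⟩ := h
    obtain ⟨α, hα, e'⟩ := hf.exists_aut e
    have := CL.Fus.finite_of_le hTS
    have hc : ∀ x ∈ T, ∀ y ∈ T, x * y = y * x := fun x hx y hy => (hT hy).2 x (hTS hx)
    have hfl' : CL.Grp.Flav p T (CL.Fus.autFun α) := CL.Fus.flav_of_img (hS.to_le hTS) hc (CL.Fus.homOn_autFun α)
      (fun x hx => CL.Fus.autFun_mem α hx) ((CL.Fus.mor_autFun hTS hα).exists_iterate_of_central hS hF hT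
        (CL.Fus.img_autFun α)) (CL.Fus.homOn_id T) (fun x hx h => by
          rw [show x = 1 from h, (CL.Fus.homOn_autFun α).map_one]) (fun x hx => (e' x hx).symm)
      (by rwa [CL.Fus.img_id])
    obtain ⟨h1, h2, h3⟩ := CL.Fus.exists_cyclic_of_flav hc hfl'
    exact Or.inr ⟨Subgroup.zpowers α, Subgroup.zpowers_le.2 hα, h1, inferInstance, h2, h3⟩

end Cfsg.Agent.S5278
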