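import Cfsg.Statements.S5291
import Cfsg.Agent.Fus.WeakNormal

set_option autoImplicit false
open Cfsg

namespace Cfsg.Agent.S5291

open CL.Fus

/-- Let F be a saturated fusion system over a finite p-group S and E a weakly normal subsystem of F over a subgroup T. Suppose a subgroup R of T is normal in E (E = N_E(R)), and let R* be the subgroup of T generated by the images of R under all maps of F with source R. Then R* is normal in F (F = N_F(R*)). -/
theorem result {Ω : Type*} [Group Ω] {S : Subgroup Ω} [Finite S] (p : ℕ) [Fact p.Prime] (hS : IsPGroup p S)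
    (F : Cfsg.FusionSystem S) (hF : F.IsSaturated p)
    {T : Subgroup Ω} (E : Cfsg.FusionSystem T) (hE : E.IsWeaklyNormalIn F p)
    (R : Subgroup Ω) (hR : E.IsNormal R) :
    F.IsNormal (Subgroup.closure {x : Ω | ∃ φ ∈ F.Hom R, ∃ r : R, x = φ r}) := by
  obtain ⟨-, hT, hinv, hfr⟩ := isInvariantIn_iff_mor.1 hE.2.2
  have := finite_of_le hT.1
  set X := Subgroup.closure {x : Ω | ∃ φ ∈ F.Hom R, ∃ r : R, x = φ r} with hX
  have hmem : ∀ f, Mor F R f → ∀ r ∈ R, f r ∈ X := fun f hf r hr =>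
    Subgroup.subset_closure ⟨_, hf.toHom_mem, ⟨r, hr⟩, rfl⟩
  have hXT : X ≤ T := (Subgroup.closure_le _).2 (by
    rintro _ ⟨φ, hφ, r, rfl⟩
    rw [← ext_coe φ r]
    exact (mor_ext hφ).mem_of_stronglyClosed hT r.2 (hR.1 r.2))
  have hXn : E.IsNormal X := by
    have h1 := sSup_mem_of_sup_closed (S := T) (fun Y => E.IsNormal Y ∧ Y ≤ X) (fun _ h => h.1.1)
      ⟨isNormal_bot E, bot_le⟩ fun _ _ h h' => ⟨IsNormal.sup h.1 h'.1, sup_le h.2 h'.2⟩
    have h2 : X ≤ sSup {Y | E.IsNormal Y ∧ Y ≤ X} := (Subgroup.closure_le _).2 (by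
      rintro _ ⟨φ, hφ, r, rfl⟩
      obtain ⟨a, ha, hi, f₀, hf₀, e⟩ := hfr R _ hR.1 (mor_ext hφ)
      have h3 : img a R ≤ sSup {Y | E.IsNormal Y ∧ Y ≤ X} :=
        le_sSup ⟨InvCond.isNormal_img hinv ha hi hR, img_le_iff.2 (hmem a (ha.mono hR.1))⟩
      rw [← ext_coe φ r, e r r.2]
      exact h3 (mem_img_of_mem a (hf₀.mem_of_stronglyClosed (IsNormal.stronglyClosed hR) r.2 r.2)))
    rw [le_antisymm h2 h1.2]
    exact h1.1
  refine FratCond.isNormal hS hF hfr hT.1 hXn fun a ha hi => ha.img_eq_self hXT fun x hx => ?_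
  induction hx using Subgroup.closure_induction with
  | mem x hx =>
    obtain ⟨φ, hφ, r, rfl⟩ := hx
    rw [← ext_coe φ r]
    exact hmem _ ((mor_ext hφ).comp ha fun y hy => (mor_ext hφ).mem_of_stronglyClosed hT hy (hR.1 hy)) r r.2
  | one => rw [ha.homOn.map_one]; exact X.one_mem
  | mul x y hx hy h1 h2 => rw [ha.homOn.map_mul (hXT hx) (hXT hy)]; exact X.mul_mem h1 h2
  | inv x hx h1 => rw [ha.homOn.map_inv (hXT hx)]; exact X.inv_mem h1

end Cfsg.Agent.S5291
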