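import Cfsg.Statements.S5294
import Cfsg.Agent.Fus.NormalCrit
import Cfsg.Agent.Fus.Trace

set_option autoImplicit false
universe u
open Cfsg

namespace Cfsg.Agent.S5294

open CL.Fus Cfsg.FusionSystem

/-- Let F be a saturated fusion system over a finite p-group S whose centre Z(S) lies in the largest subgroup O_p(F) normal in F. Then the centre Z(F) of F is a direct factor of Z(S): there is a subgroup K of Z(S) with Z(F) ∩ K = 1 and Z(F)K = Z(S). -/
theorem result {Ω : Type u} [Group Ω] {S : Subgroup Ω} [Finite S] (p : ℕ) [Fact p.Prime] (hS : IsPGroup p S)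
    (F : Cfsg.FusionSystem S) (hF : F.IsSaturated p) (hZ : (S ⊓ Subgroup.centralizer (S : Set Ω)) ≤ F.core) :
    ∃ K : Subgroup Ω, K ≤ (S ⊓ Subgroup.centralizer (S : Set Ω)) ∧ F.center ⊓ K = ⊥ ∧ F.center ⊔ K = (S ⊓ Subgroup.centralizer (S : Set Ω)) := by
  set V := zSer F.core 1 with hVdef
  have hVn : F.IsNormal V := IsNormal.zSer (isNormal_core F) 1
  have hV1 : V = F.core ⊓ Subgroup.centralizer (F.core : Set Ω) := zSer_one _
  have hV : ∀ x ∈ V, ∀ y ∈ V, x * y = y * x := fun x hx y hy => (hV1 ▸ hy).2 x (hV1 ▸ hx).1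
  have hZV : S ⊓ Subgroup.centralizer (S : Set Ω) ≤ V :=
    hV1 ▸ le_inf hZ (inf_le_right.trans (Subgroup.centralizer_le (core_le F)))
  have := finite_of_le hVn.1
  obtain ⟨t, h1, h2, h3, h4, -⟩ := exists_relTrace_aut hV (autInducedBy S V) (F.autGroup V)
  have hn : ((autInducedBy S V).relIndex (F.autGroup V)).Coprime p := by
    have := finite_autGroup F V
    exact ((Nat.Prime.coprime_iff_not_dvd Fact.out).2
      (sylIn_of_fullyNormalized hS hF (IsNormal.isFullyNormalized hVn)).not_dvd_relIndex).symm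
  set n := (autInducedBy S V).relIndex (F.autGroup V)
  have hZF : F.center ≤ S ⊓ Subgroup.centralizer (S : Set Ω) := le_inf (center_le F) F.center_le_centralizer
  have hfix : ∀ x ∈ F.center, t x = x ^ n := fun x hx => h4 x (hZV (hZF hx)) fun γ hγ =>
    IsCentral.fix (isCentral_center F) (mor_autFun hVn.1 hγ) (hZV (hZF hx)) hx
  have ht : ∀ x ∈ S ⊓ Subgroup.centralizer (S : Set Ω), t x ∈ F.center := by
    intro x hx
    have h5 := h3 x (hZV hx) fun α hα => by
      obtain ⟨a, ha, e⟩ := mem_autInducedBy.1 hα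
      rw [e x (hZV hx), hx.2 a ha, mul_inv_cancel_right]
    refine (mem_center_iff hS hF).2 ⟨hVn.1 (h2 x (hZV hx)), fun P f hf hP => ?_⟩
    obtain ⟨g, hg, e, hi⟩ := IsNormal.extend hVn hf
    obtain ⟨γ, hγ, e'⟩ := (hg.mono le_sup_right).exists_aut hi
    rw [← e _ hP, ← e' _ (h2 x (hZV hx)), h5 γ hγ]
  refine ⟨(S ⊓ Subgroup.centralizer (S : Set Ω)) ⊓ h1.toHom.ker.map V.subtype, inf_le_left, ?_, ?_⟩
  · rw [eq_bot_iff]
    rintro _ ⟨hx, -, x, hx', rfl⟩
    refine mem_of_pow_mem_pGroup hS hn (center_le F hx) ?_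
    rw [← hfix _ hx]
    exact hx'
  · refine le_antisymm (sup_le hZF inf_le_left) fun x hx => mem_of_pow_mem_pGroup hS hn hx.1 ?_
    have h5 := ht x hx
    rw [show x ^ n = t x * ((t x)⁻¹ * x ^ n) by group]
    have h6 : (t x)⁻¹ * x ^ n ∈ S ⊓ Subgroup.centralizer (S : Set Ω) :=
      Subgroup.mul_mem _ (Subgroup.inv_mem _ (hZF h5)) (Subgroup.pow_mem _ hx n)
    refine Subgroup.mul_mem_sup h5 ⟨h6, ⟨_, hZV h6⟩, ?_, rfl⟩
    show t ((t x)⁻¹ * x ^ n) = 1
    rw [h1.map_mul (V.inv_mem (h2 x (hZV hx))) (V.pow_mem (hZV hx) n), h1.map_inv (h2 x (hZV hx)), hfix _ h5,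
      h1.map_pow (hZV hx), inv_mul_cancel]

end Cfsg.Agent.S5294
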