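import Cfsg.Statements.S5295
import Cfsg.Agent.S5294
import Cfsg.Agent.Fus.JQuad

set_option autoImplicit false
universe u
open Cfsg

namespace Cfsg.Agent.S5295

/-- Let F be a saturated fusion system over a finite p-group S with p odd. Then the centre Z(F) of F is a direct factor of Z(S): there is a subgroup K of Z(S) with Z(F) ∩ K = 1 and Z(F)K = Z(S). (At the prime 2 this can fail.) -/
theorem result {Ω : Type u} [Group Ω] {S : Subgroup Ω} [Finite S] (p : ℕ) [Fact p.Prime] (hp : p ≠ 2) (hS : IsPGroup p S)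
    (F : Cfsg.FusionSystem S) (hF : F.IsSaturated p) :
    ∃ K : Subgroup Ω, K ≤ (S ⊓ Subgroup.centralizer (S : Set Ω)) ∧ F.center ⊓ K = ⊥ ∧ F.center ⊔ K = (S ⊓ Subgroup.centralizer (S : Set Ω)) := by
  have hW : CL.Fus.UFun.{u} p kInfLower := ⟨(CL.Loc.isCharPFunctor_kInfLower p).1, (CL.Loc.isCharPFunctor_kInfLower p).2⟩
  have hN := CL.Fus.isNormalizerSystem_normalizerSystem F (CL.Fus.wsub_le kInfLower S)
  have hn := (hW.fFun hS F).top_le_normalizer
  have e : FusionSystem.normalizerIn S (CL.Fus.wsub kInfLower S) = S := inf_eq_left.2 hn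
  have h1 := Cfsg.Agent.S5294.result p (hS.to_le (CL.Fus.normalizerIn_le S _)) _
    (CL.Fus.IsNormalizerSystem.isSaturated hS hF
      (CL.Fus.isFullyNormalized_of_normalizerIn_eq F (CL.Fus.wsub_le _ S) hn) hN) (le_trans (by
        rw [e]
        exact CL.Fus.center_le_wsub (fun _ _ _ _ => CL.Loc.center_le_kInfLower) hS)
          (CL.Fus.IsNormal.le_core (CL.Fus.IsNormalizerSystem.isNormal hN (CL.Fus.wsub_le _ S))))
  rw [hW.center_eq (fun L _ _ T hT hc _ y hy h => CL.Fus.mem_center_of_quadratic hp hT hc (fun H hTH hH =>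
    CL.Loc.exists_quadratic_of_not_le_normalizer_kInf ⟨hTH, hT.isPGroup, (hT.mono hTH le_top).not_dvd_relIndex⟩
      (Or.inl hH)) hy h) hS hF (CL.Fus.isSectionFree_of_infinite (X := Multiplicative ℤ) F p) hN, e] at h1
  exact h1

end Cfsg.Agent.S5295
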