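import Cfsg.Statements.S5296
import Cfsg.Agent.Fus.SmallCtrl
import Cfsg.Agent.Fus.Hyperfocal

set_option autoImplicit false
universe u
open Cfsg

namespace Cfsg.Agent.S5296

open CL.Fus

/-- Small-exponent abelian subgroups of the hyperfocal subgroup control fusion. Let E and F be saturated fusion systems over the same finite p-group S with E contained in F. Suppose that E and F have the same maps between A and B for all subgroups A, B of the hyperfocal subgroup of F that are elementary abelian when p is odd, respectively abelian of exponent dividing 4 when p = 2. Then E = F. -/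
theorem result {Ω : Type u} [Group Ω] {S : Subgroup Ω} [Finite S] (p : ℕ) [Fact p.Prime] (hS : IsPGroup p S)
    (E F : Cfsg.FusionSystem S) (hE : E.IsSaturated p) (hF : F.IsSaturated p) (hEF : E.IsSubsystemOf F)
    (hodd : p ≠ 2 → ∀ A B : Subgroup Ω, A ≤ (F.hyperfocalSubgroup p) → B ≤ (F.hyperfocalSubgroup p) →
      Cfsg.IsElementaryAbelian p A → Cfsg.IsElementaryAbelian p B → E.homSet A B = F.homSet A B)
    (htwo : p = 2 → ∀ A B : Subgroup Ω, A ≤ (F.hyperfocalSubgroup p) → B ≤ (F.hyperfocalSubgroup p) →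
      IsMulCommutative ↥A → IsMulCommutative ↥B → (∀ a ∈ A, a ^ 4 = 1) → (∀ b ∈ B, b ^ 4 = 1) → E.homSet A B = F.homSet A B) :
    ∀ P : Subgroup Ω, E.Hom P = F.Hom P := by
  have hT := stronglyClosed_hyperfocal hS hF
  have key : F ≤ E := by
    refine subsystem_of_small_abelian hS hE hF hEF hT (containsHyp_hyperfocal F p) ?_
    intro A hA hc hs f hf
    have hA' : img f A ≤ F.hyperfocalSubgroup p := img_le_iff.2 fun x hx => hf.mem_of_stronglyClosed hT hx (hA hx)
    have hcomm : ∀ X : Subgroup Ω, (∀ x ∈ X, ∀ y ∈ X, x * y = y * x) → IsMulCommutative X := fun X h =>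
      ⟨⟨fun x y => Subtype.ext (h x x.2 y y.2)⟩⟩
    have hc' : ∀ x ∈ img f A, ∀ y ∈ img f A, x * y = y * x := by
      intro x hx y hy
      obtain ⟨x, hx', rfl⟩ := hf.mem_img.1 hx
      obtain ⟨y, hy', rfl⟩ := hf.mem_img.1 hy
      rw [← hf.homOn.map_mul hx' hy', hc x hx' y hy', hf.homOn.map_mul hy' hx']
    have hpow : ∀ n : ℕ, (∀ x ∈ A, x ^ n = 1) → ∀ x ∈ img f A, x ^ n = 1 := by
      intro n h x hx
      obtain ⟨x, hx', rfl⟩ := hf.mem_img.1 hx
      rw [← hf.homOn.map_pow hx', h x hx', hf.homOn.map_one]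
    have h1 : E.homSet A (img f A) = F.homSet A (img f A) := by
      by_cases hp : p = 2
      · have h4 : ∀ x ∈ A, x ^ 4 = 1 := fun x hx => (hs x hx).elim
          (fun h => by rw [show 4 = p * 2 by omega, pow_mul, h, one_pow]) fun h => h.2
        exact htwo hp A _ hA hA' (hcomm A hc) (hcomm _ hc') h4 (hpow 4 h4)
      · have h4 : ∀ x ∈ A, x ^ p = 1 := fun x hx => (hs x hx).resolve_right fun h => hp h.1
        exact hodd hp A _ hA hA' ⟨hcomm A hc, h4⟩ ⟨hcomm _ hc', hpow p h4⟩
    have h2 : hf.homOn.toHom ∈ E.homSet A (img f A) := by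
      rw [h1]; exact ⟨hf.toHom_mem, fun x => mem_img_of_mem f x.2⟩
    exact ⟨_, h2.1, fun _ => rfl⟩
  exact fun P => Set.Subset.antisymm (hEF P) (key P)

end Cfsg.Agent.S5296
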