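import Cfsg.Statements.S5297
import Cfsg.Agent.Fus.SmallCtrl
import Cfsg.Agent.Fus.Hyperfocal

set_option autoImplicit false
universe u
open Cfsg

namespace Cfsg.Agent.S5297

open CL.Fus

theorem card_small {Ω : Type*} [Group Ω] {p : ℕ} [hp : Fact p.Prime] {x : Ω} (h1 : x ≠ 1)
    (hx : x ^ p = 1 ∨ (p = 2 ∧ x ^ 4 = 1)) :
    Nat.card (Subgroup.zpowers x) = p ∨ Nat.card (Subgroup.zpowers x) = 4 := by
  rw [Nat.card_zpowers]
  rcases hx with hx | ⟨rfl, hx⟩
  · exact Or.inl (orderOf_eq_prime hx h1)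
  · by_cases h2 : x ^ 2 = 1
    · exact Or.inl (orderOf_eq_prime h2 h1)
    · exact Or.inr (orderOf_eq_prime_pow (p := 2) (n := 1) h2 hx)

theorem homSet_small {Ω : Type*} [Group Ω] {S T : Subgroup Ω} {p : ℕ} [Fact p.Prime] {F : Cfsg.FusionSystem S}
    (hT : F.StronglyClosed T) (X : (A : Subgroup Ω) → Set (A →* Ω))
    (h : ∀ A B : Subgroup Ω, A ≤ T → B ≤ T → IsCyclic ↥A → (Nat.card ↥A = p ∨ Nat.card ↥A = 4) → IsCyclic ↥B →
      (Nat.card ↥B = p ∨ Nat.card ↥B = 4) → F.homSet A B ⊆ X A) {f : Ω → Ω} {x : Ω}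
    (hf : Mor F (Subgroup.zpowers x) f) (hxT : x ∈ T) (h1 : x ≠ 1) (hx : x ^ p = 1 ∨ (p = 2 ∧ x ^ 4 = 1)) :
    hf.homOn.toHom ∈ X (Subgroup.zpowers x) := by
  have e := hf.homOn.img_zpowers (Subgroup.mem_zpowers x)
  refine h _ (Subgroup.zpowers (f x)) (Subgroup.zpowers_le_of_mem hxT)
    (Subgroup.zpowers_le_of_mem (hf.mem_of_stronglyClosed hT (Subgroup.mem_zpowers x) hxT)) inferInstance
    (card_small h1 hx) inferInstance ?_ ⟨hf.toHom_mem, fun y => e ▸ mem_img_of_mem f y.2⟩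
  rw [← e, hf.card_img]
  exact card_small h1 hx

/-- Let F be a saturated fusion system over a finite p-group S. If every map of F between cyclic subgroups of the hyperfocal subgroup of F of order p or 4 is a map of the normalizer system of S (it extends to a map of F defined on all of S), then S is normal in F. -/
theorem result {Ω : Type u} [Group Ω] {S : Subgroup Ω} [Finite S] (p : ℕ) [Fact p.Prime] (hS : IsPGroup p S)
    (F : Cfsg.FusionSystem S) (hF : F.IsSaturated p)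
    (h : ∀ A B : Subgroup Ω, A ≤ (F.hyperfocalSubgroup p) → B ≤ (F.hyperfocalSubgroup p) → IsCyclic ↥A → (Nat.card ↥A = p ∨ Nat.card ↥A = 4) → IsCyclic ↥B → (Nat.card ↥B = p ∨ Nat.card ↥B = 4) →
      F.homSet A B ⊆ F.normalizerHom S A) :
    F.IsNormal S := by
  have hT := stronglyClosed_hyperfocal hS hF
  refine isNormal_top_of_small hS hF hT (containsHyp_hyperfocal F p) fun P f hf x hx hxT hs => ?_
  by_cases h1 : x = 1
  · exact ⟨_, mor_id F le_rfl, by rw [h1, hf.homOn.map_one]⟩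
  obtain ⟨-, g, hg, e, -⟩ := (mem_normalizerHom_iff (f := f) fun _ => rfl).1
    (homSet_small hT (F.normalizerHom S) h (hf.mono (Subgroup.zpowers_le_of_mem hx)) hxT h1 hs)
  exact ⟨g, hg.mono le_sup_right, e x (Subgroup.mem_zpowers x)⟩

end Cfsg.Agent.S5297
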