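import Cfsg.Statements.S5300
import Cfsg.Agent.Fus.SmallCtrl
import Cfsg.Agent.Fgs.PSmall

set_option autoImplicit false
universe u
open Cfsg

namespace Cfsg.Agent.S5300

open CL.Fus

theorem conj_eq_pow {Ω : Type*} [Group Ω] {S : Subgroup Ω} {p : ℕ} [hp : Fact p.Prime] (hS : IsPGroup p S) {x s : Ω}
    (hx : x ^ p = 1 ∨ (p = 2 ∧ x ^ 4 = 1)) (hs : s ∈ S) (h : ∀ s ∈ S, s * x * s⁻¹ ∈ Subgroup.zpowers x) :
    ∃ k : ℤ, s * x * s⁻¹ = x ^ (1 + p * k) := by
  rcases hx with hx | ⟨rfl, hx⟩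
  · have hfin : IsOfFinOrder x := isOfFinOrder_iff_pow_eq_one.2 ⟨p, hp.out.pos, hx⟩
    have : Finite (Subgroup.zpowers x) := finite_zpowers.2 hfin
    have h1 := CL.Fgs.le_centralizer_of_card_le_prime hS (Z := Subgroup.zpowers x)
      (by rw [Nat.card_zpowers]; exact Nat.le_of_dvd hp.out.pos (orderOf_dvd_of_pow_eq_one hx))
      (fun t ht => mem_normalizer_of_finite (by
        rintro _ ⟨n, rfl⟩
        rw [← conj_zpow]
        exact Subgroup.zpow_mem _ (h t ht) n))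
    exact ⟨0, by rw [conj_eq_of_mem_centralizer (h1 hs) (Subgroup.mem_zpowers x)]; simp⟩
  · obtain ⟨n, hn⟩ := h s hs
    obtain ⟨k, rfl | rfl⟩ := Int.even_or_odd' n
    · have h1 : (s * x * s⁻¹) ^ 2 = 1 := by
        rw [← hn]
        show (x ^ (2 * k)) ^ 2 = 1
        rw [← zpow_natCast, ← zpow_mul, show 2 * k * ((2 : ℕ) : ℤ) = ((4 : ℕ) : ℤ) * k by push_cast; ring, zpow_mul,
          zpow_natCast, hx, one_zpow]
      rw [conj_pow, conj_eq_one_iff] at h1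
      have h2 : s * x * s⁻¹ = 1 := by
        rw [← hn]
        show x ^ (2 * k) = 1
        rw [zpow_mul, zpow_ofNat, h1, one_zpow]
      rw [conj_eq_one_iff] at h2
      exact ⟨0, by simp [h2]⟩
    · exact ⟨k, by rw [← hn]; show x ^ (2 * k + 1) = _; rw [add_comm]; rfl⟩

theorem fix_of_pow {Ω : Type*} [Group Ω] {A : Subgroup Ω} {p : ℕ} (hA : IsPGroup p A) {α : MulAut A}
    (hc : (orderOf α).Coprime p) {x : Ω} (hxA : x ∈ A) (hx : x ^ p = 1 ∨ (p = 2 ∧ x ^ 4 = 1)) {k : ℤ}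
    (h : autFun α x = x ^ (1 + p * k)) : autFun α x = x := by
  refine autFun_eq_of_coprime hA hc hxA ?_
  have h1 : x⁻¹ * autFun α x = (x ^ p) ^ k := by
    rw [h, zpow_add, zpow_one, inv_mul_cancel_left, zpow_mul, zpow_natCast]
  have h2 : (x ^ p) ^ p = 1 := by
    rcases hx with hx | ⟨rfl, hx⟩
    · rw [hx, one_pow]
    · rw [← pow_mul]; exact hx
  have h3 : (x ^ (1 + p * k)) ^ p = x ^ p := by
    have : (x ^ (1 + p * k)) ^ p = x ^ p * ((x ^ p) ^ p) ^ k := by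
      simp only [← zpow_natCast, ← zpow_mul, ← zpow_add]
      congr 1; ring
    rw [this, h2, one_zpow, mul_one]
  rw [h1, (homOn_autFun α).map_zpow (A.pow_mem hxA p), (homOn_autFun α).map_pow hxA, h, h3]

/-- Let F be a saturated fusion system over a finite p-group S. If every cyclic subgroup of the focal subgroup of F of order p (of order 2 or 4 when p = 2) is normal in S, then S is normal in F. -/
theorem result {Ω : Type u} [Group Ω] {S : Subgroup Ω} [Finite S] (p : ℕ) [Fact p.Prime] (hS : IsPGroup p S)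
    (F : Cfsg.FusionSystem S) (hF : F.IsSaturated p)
    (hnorm : ∀ x ∈ F.focalSubgroup, (x ^ p = 1 ∨ (p = 2 ∧ x ^ 4 = 1)) → ∀ s ∈ S, s * x * s⁻¹ ∈ Subgroup.zpowers x) :
    F.IsNormal S := by
  refine (isNormal_top_iff hS hF).2 fun A hA => ?_
  obtain ⟨a, haS, ha, haA⟩ := exists_mem_normalizer_not_mem hS
    (IsEssential.lt hA (fullyAutomized_of_fullyNormalized hS hF (isFullyNormalized_top F)))
  have := finite_of_le hA.1.1
  have hsm : ∀ γ : MulAut A, ∀ x ∈ A, (x ^ p = 1 ∨ (p = 2 ∧ x ^ 4 = 1)) →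
      (autFun γ x ^ p = 1 ∨ (p = 2 ∧ autFun γ x ^ 4 = 1)) := fun γ x hx h =>
    h.imp (fun h => by rw [← (homOn_autFun γ).map_pow hx, h, (homOn_autFun γ).map_one])
      fun h => ⟨h.1, by rw [← (homOn_autFun γ).map_pow hx, h.2, (homOn_autFun γ).map_one]⟩
  refine haA (mem_of_pred hA.1 (IsEssential.isRadical hS hA) (fun γ => ∀ x ∈ A, x ∈ F.focalSubgroup →
    (x ^ p = 1 ∨ (p = 2 ∧ x ^ 4 = 1)) → ∃ k : ℤ, autFun γ x = x ^ (1 + p * k)) ?_ ?_ ?_ ?_ haS ha ?_)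
  · intro x hx _ _
    exact ⟨0, by rw [autFun_one hx]; simp⟩
  · intro α _ β _ h1 h2 x hx hxT hs
    obtain ⟨k, hk⟩ := h1 x hx hxT hs
    obtain ⟨j, hj⟩ := h2 x hx hxT hs
    exact ⟨k + j + p * k * j, by
      rw [autFun_mul _ _ hx, hj, (homOn_autFun α).map_zpow hx, hk, ← zpow_mul]; congr 1; ring⟩
  · intro γ hγ α _ h1 x hx hxT hs
    have hy := autFun_mem γ⁻¹ hx
    obtain ⟨k, hk⟩ := h1 _ hy ((mor_autFun hA.1.1 ((F.autGroup A).inv_mem hγ)).mem_of_stronglyClosed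
      (stronglyClosed_focal F) hx hxT) (hsm _ x hx hs)
    exact ⟨k, by rw [autFun_mul _ _ hx, autFun_mul _ _ hy, hk, (homOn_autFun γ).map_zpow hy, autFun_apply_inv _ hx]⟩
  · intro α hα h1 hc
    refine eq_one_of_fix_small (hS.to_le hA.1.1) hc (containsHyp_focal F p A hA.1.1 α hα hc) fun x hx hxT hs => ?_
    obtain ⟨k, hk⟩ := h1 x hx hxT hs
    exact fix_of_pow (hS.to_le hA.1.1) hc hx hs hk
  · intro x hx hxT hs
    rw [autFun_conjAut ha hx]
    exact conj_eq_pow hS hs haS (hnorm x hxT hs)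

end Cfsg.Agent.S5300
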