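import Cfsg.Statements.S5301
import Cfsg.Agent.Fus.NormalCrit

set_option autoImplicit false
universe u
open Cfsg

namespace Cfsg.Agent.S5301

open CL.Fus

/-- Let F be a saturated fusion system over a finite p-group S. If for every subgroup P of S that is fully normalized, centric and radical in F the automorphism group that F induces on P has a normal Sylow p-subgroup, then S is normal in F. -/
theorem result {Ω : Type u} [Group Ω] {S : Subgroup Ω} [Finite S] (p : ℕ) [Fact p.Prime] (hS : IsPGroup p S)
    (F : Cfsg.FusionSystem S) (hF : F.IsSaturated p)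
    (hcl : ∀ P : Subgroup Ω, F.IsFullyNormalized P → F.IsCentric P → F.IsRadical p P →
      ∃ R : Sylow p ↥(F.autGroup P), (R : Subgroup ↥(F.autGroup P)).Normal) :
    F.IsNormal S := by
  refine (isNormal_top_iff hS hF).2 fun A hA => ?_
  have hr := IsEssential.isRadical hS hA
  obtain ⟨R, hR⟩ := hcl A hA.2.1 hA.1 hr
  have hlt := IsEssential.lt hA (fullyAutomized_of_fullyNormalized hS hF (isFullyNormalized_top F))
  obtain ⟨a, haS, ha, haA⟩ := exists_mem_normalizer_not_mem hS hlt
  refine haA (mem_of_conjAut_mem_pCore hA.1 hr haS ha (le_pCore_of_normal hR R.isPGroup' ?_))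
  obtain ⟨-, R', hR'⟩ := fullyAutomized_of_fullyNormalized hS hF hA.2.1
  have := finite_autGroup F A
  have e : R = R' := by
    have := Sylow.unique_of_normal R hR
    exact Subsingleton.elim _ _
  rw [e, hR']
  exact conjAut_mem_autInducedBy ha haS

end Cfsg.Agent.S5301
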