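import Cfsg.Statements.S5310
import Cfsg.Agent.Fus.LocCon

set_option autoImplicit false
open Cfsg

namespace Cfsg.Agent.S5310

/-- A saturated fusion system F over a finite p-group S is constrained (its largest normal subgroup O_p(F) is centric) if and only if the inner fusion system of O_p(F) is itself a generalized Fitting subsystem of F (that is, F*(F) = O_p(F)). -/
theorem result {Ω : Type*} [Group Ω] {S : Subgroup Ω} [Finite S] (p : ℕ) [Fact p.Prime] (hS : IsPGroup p S) (F : Cfsg.FusionSystem S) (hF : F.IsSaturated p) :
    F.IsConstrained p ↔ (Cfsg.innerFusionSystem F.core).IsGeneralizedFittingOf F p := by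
  exact CL.Fus.isConstrained_iff_isGeneralizedFittingOf hS hF

end Cfsg.Agent.S5310
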