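import Cfsg.Statements.S5315
import Cfsg.Agent.Fus.Transfer
import Cfsg.Agent.Fus.Hyperfocal
import Cfsg.Agent.Fus.NormalCrit
import Cfsg.Agent.Fus.FactorSat2
import Cfsg.Agent.Fus.CentricExt

set_option autoImplicit false
open Cfsg

namespace Cfsg.Agent.S5315

/-- An analogue of Grün's lemma for fusion systems. Let F be a saturated fusion system over a finite p-group S that is perfect in the sense that its hyperfocal subgroup is all of S (F coincides with its p-residual subsystem). Then the second centre of F equals its centre: every fusion system over S/(Z(F) ∩ S) that is the factor system of F modulo its centre Z(F), read through the quotient map, has trivial centre. -/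
theorem result {Ω : Type*} [Group Ω] {S : Subgroup Ω} [Finite S] (p : ℕ) [Fact p.Prime] (hS : IsPGroup p S) (F : Cfsg.FusionSystem S) (hF : F.IsSaturated p)
    (hperf : F.hyperfocalSubgroup p = S)
    (E : Cfsg.FusionSystem (⊤ : Subgroup (↥S ⧸ (F.center).subgroupOf S)))
    (hE : F.IsFactorSystem F.center (QuotientGroup.mk' ((F.center).subgroupOf S)) E) : E.center = ⊥ := by
  open CL.Fus in
  have hZ := isCentral_center F
  have hZs := IsNormal.stronglyClosed (IsCentral.isNormal hZ)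
  haveI := IsFactorSystem.finite hE
  have hEZ := isCentral_center E
  have hZ₂ := IsFactorSystem.stronglyClosed_pre hS hF hZs hE (IsNormal.stronglyClosed (IsCentral.isNormal hEZ))
  have hcen : ∀ z ∈ F.center, ∀ a ∈ S, a * z = z * a := fun z hz a ha => F.center_le_centralizer hz a ha
  set θ := QuotientGroup.mk' ((F.center).subgroupOf S) with hθ
  have hlift : ∀ P f, Mor F P f → ∃ g, Mor F (P ⊔ FusionSystem.preimageAlong θ E.center) g ∧
      (∀ y ∈ P, (f y)⁻¹ * g y ∈ F.center) ∧ ∀ x ∈ FusionSystem.preimageAlong θ E.center, x⁻¹ * g x ∈ F.center := by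
    intro P f hf
    obtain ⟨f', hf', e⟩ := IsMorphism.exists_mor (IsFactorSystem.isMorphism hS hF hZs hE) hf
    obtain ⟨g', hg', e1, e2⟩ := IsCentral.extend hEZ hf'
    obtain ⟨g, hg, e3⟩ := IsFactorSystem.lift hE hg'
    have l1 : P ≤ _ := (le_preimageAlong_img θ hf.le).trans (preimageAlong_mono θ (le_sup_left (b := E.center)))
    have l2 := preimageAlong_mono θ (le_sup_right (a := img (ext θ) P) (b := E.center))
    refine ⟨g, hg.mono (sup_le l1 l2), fun y hy => ?_, fun x hx => ?_⟩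
    · rw [← IsFactorSystem.ext_eq_iff hE (hf.mem hy) (hg.mem (l1 hy)), ← e3 y (l1 hy), e1 _ (mem_img_of_mem _ hy), e y hy]
    · rw [← IsFactorSystem.ext_eq_iff hE (hZ₂.1 hx) (hg.mem (l2 hx)), ← e3 x (l2 hx), e2 _ (mem_preimageAlong.1 hx).2]
  have hc : ∀ x ∈ FusionSystem.preimageAlong θ E.center, ∀ y ∈ S, x * y = y * x := by
    intro x hx y hy
    have hxS := hZ₂.1 hx
    have h1 : ∀ y ∈ S, x * y * x⁻¹ * y⁻¹ ∈ F.center := fun y hy => by
      rw [← IsFactorSystem.ext_eq_one_iff hE (S.mul_mem (S.mul_mem (S.mul_mem hxS hy) (S.inv_mem hxS)) (S.inv_mem hy)),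
        (homOn_ext θ).map_mul (S.mul_mem (S.mul_mem hxS hy) (S.inv_mem hxS)) (S.inv_mem hy),
        (homOn_ext θ).map_conj hxS hy, (homOn_ext θ).map_inv hy,
        ← E.center_le_centralizer (mem_preimageAlong.1 hx).2 _ (Subgroup.mem_top _)]
      group
    let μ : S →* Ω := MonoidHom.mk' (fun y => x * y * x⁻¹ * (y : Ω)⁻¹) fun a b => by
      have := hcen _ (h1 b b.2) _ (S.inv_mem a.2)
      rw [Subgroup.coe_mul, mul_assoc _ (a : Ω)⁻¹, this]; group
    have h2 := Tr.eq_one_of_mem_focal (F := F) μ (fun P f hf a b ha e => ?_) (x := ⟨y, hy⟩)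
      (hyperfocal_le_focal F p (hperf.ge hy))
    · exact mul_inv_eq_iff_eq_mul.1 (mul_inv_eq_one.1 h2)
    obtain ⟨g, hg, e1, e2⟩ := hlift P f hf
    have ha' := Subgroup.mem_sup_left (T := FusionSystem.preimageAlong θ E.center) ha
    have hx' := Subgroup.mem_sup_right (S := P) hx
    have h3 := IsCentral.fix hZ hg (Subgroup.mul_mem _ (Subgroup.mul_mem _ (Subgroup.mul_mem _ hx' ha')
      (Subgroup.inv_mem _ hx')) (Subgroup.inv_mem _ ha')) (h1 a a.2)
    rw [hg.homOn.map_mul (Subgroup.mul_mem _ (Subgroup.mul_mem _ hx' ha') (Subgroup.inv_mem _ hx'))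
      (Subgroup.inv_mem _ ha'), hg.homOn.map_conj hx' ha', hg.homOn.map_inv ha'] at h3
    show x * b * x⁻¹ * (b : Ω)⁻¹ = x * a * x⁻¹ * (a : Ω)⁻¹
    have k1 := hcen _ (e2 x hx) _ (hg.mem ha')
    have k2 := hcen _ (e1 a ha) _ (S.inv_mem hxS)
    rw [e] at k2
    have key : ∀ x b c d : Ω, c * (x⁻¹ * d) = x⁻¹ * d * c → x⁻¹ * (b⁻¹ * c) = b⁻¹ * c * x⁻¹ →
        x * b * x⁻¹ * b⁻¹ = d * c * d⁻¹ * c⁻¹ := fun x b c d k1 k2 => by
      calc x * b * x⁻¹ * b⁻¹ = x * b * (x⁻¹ * (b⁻¹ * c)) * c⁻¹ := by group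
        _ = x * (c * (x⁻¹ * d)) * d⁻¹ * c⁻¹ := by rw [k2]; group
        _ = d * c * d⁻¹ * c⁻¹ := by rw [k1]; group
    rw [← h3]
    exact key _ _ _ _ k1 k2
  have hn := isNormal_of_stronglyClosed_comm hS hF hZ₂ fun x hx y hy => hc x hx y (hZ₂.1 hy)
  have hle : FusionSystem.preimageAlong θ E.center ≤ F.center := fun x hx => by
    refine (mem_center_iff hS hF).2 ⟨hZ₂.1 hx, fun P f hf hxP => ?_⟩
    obtain ⟨g, hg, e1, e2⟩ := IsNormal.extend_aut hn (Subgroup.zpowers_le.2 hx) (hf.mono (Subgroup.zpowers_le.2 hxP))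
    obtain ⟨α, hα, e3⟩ := hg.exists_aut e1
    haveI := finite_of_le hZ₂.1
    have hp : IsPGroup p (F.autGroup (FusionSystem.preimageAlong θ E.center)) := fun β => by
      obtain ⟨k, hk, e4, e5⟩ := hlift _ _ (mor_autFun hZ₂.1 β.2)
      obtain ⟨n, hn⟩ := exists_pow_eq_one_of_fix (Q := F.center) (α := β.1)
        (hS.of_injective _ (Subgroup.inclusion_injective hZ₂.1))
        (fun y hy hyZ => IsCentral.fix hZ (mor_autFun hZ₂.1 β.2) hy hyZ) fun y hy => by
          have := F.center.mul_mem (e5 y hy) (F.center.inv_mem (e4 y hy))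
          rwa [mul_inv_rev, inv_inv, mul_assoc, mul_inv_cancel_left] at this
      exact ⟨n, Subtype.ext hn⟩
    rw [(sylIn_of_fullyNormalized hS hF (IsNormal.isFullyNormalized hn)).eq_of_le hp
      (autInducedBy_le_autGroup F hZ₂.1) le_rfl] at hα
    obtain ⟨a, ha, e4⟩ := mem_autInducedBy.1 hα
    rw [← e2 x (Subgroup.mem_zpowers x), ← e3 x hx, e4 x hx, ← hc x hx a ha, mul_inv_cancel_right]
  rw [eq_bot_iff, ← IsFactorSystem.img_pre hE (P' := E.center) le_top, img_le_iff]
  exact fun x hx => (IsFactorSystem.ext_eq_one_iff hE (hZ₂.1 hx)).2 (hle hx)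

end Cfsg.Agent.S5315
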