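import Cfsg.Statements.S5317
import Cfsg.Agent.Fus.SimpleTwo
import Cfsg.Agent.S3116
import Cfsg.Agent.Cls.SL2Quat

set_option autoImplicit false
open Cfsg

namespace Cfsg.Agent.S5317

/-- Let F be a finite field of odd order q with q² ≡ 1 mod 16 (so that a Sylow 2-subgroup of PSL(2,q), dihedral of order the 2-part of (q²−1)/2, has order at least 8). Then the 2-fusion system of PSL(2,F) on a Sylow 2-subgroup is simple: saturated, over a nontrivial 2-group, with no normal subsystem other than the trivial one and itself. -/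
theorem result {F : Type*} [Field F] [Fintype F] (hodd : Fintype.card F % 2 = 1) (h16 : 16 ∣ Fintype.card F ^ 2 - 1)
    (S : Sylow 2 (Matrix.ProjectiveSpecialLinearGroup (Fin 2) F)) :
    (Cfsg.groupFusionSystem (S : Subgroup (Matrix.ProjectiveSpecialLinearGroup (Fin 2) F))).IsSimple 2 := by
  have h2 : (2 : F) ≠ 0 := CL.GL2.two_ne_zero_of_odd (Nat.odd_iff.2 hodd)
  have hT := CL.Fus.sylIn_top S
  have h8 : 2 ^ 3 ∣ Nat.card S := S.pow_dvd_card_of_pow_dvd_card (by
    have h1 := CL.SL2.card_psl_mul (F := F)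
    rw [CL.SL2.gcd_two_of_ne h2] at h1
    exact Nat.dvd_of_mul_dvd_mul_right two_pos (h1 ▸ h16.mul_left _))
  rcases CL.Fus.cyclic_or_dih_of_pgl2 h2 S.isPGroup'
    (Matrix.ProjectiveSpecialLinearGroup.toPGL.comp S.1.subtype)
    (Matrix.ProjectiveSpecialLinearGroup.toPGL_injective.comp S.1.subtype_injective) with h | ⟨n, ⟨e⟩⟩
  · obtain ⟨a, b, hab⟩ := CL.SL2.exists_qpair_of_finite (F := F)
    have hV := (hab.cpair h2).isKleinFour
    obtain ⟨y, -, hy⟩ := hT.exists_map_conj_le (IsPGroup.of_card (p := 2) (n := 2) hV.card_four) le_top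
    have := Subgroup.isCyclic_of_le hy
    exact absurd ((Subgroup.equivMapOfInjective _ (MulAut.conj y).toMonoidHom (MulAut.conj y).injective).isCyclic.2 this)
      IsKleinFour.not_isCyclic
  have hn : 4 ≤ n := by
    have h0 := Nat.le_of_dvd Nat.card_pos h8
    rw [Nat.card_congr e.toEquiv, DihedralGroup.nat_card] at h0
    omega
  rw [CL.Fus.GS.groupFusionSystem_eq]
  refine CL.Fus.isSimple_of_autP hT (fun h => ?_)
    (CL.Fus.autP_of_isPGroup (S3116.result S.isPGroup' (Or.inl ⟨n, hn, ⟨e⟩⟩))) fun R hR h0 x hx => ?_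
  · rw [h, Subgroup.card_bot] at h8
    omega
  obtain ⟨z, hz, hz2, -⟩ := hR.exists_central_prime hT h0
  have key : ∀ i, (e.symm (.sr i)).1 ∈ R := fun i => by
    obtain ⟨g, hg⟩ := isConj_iff.1 (CL.SL2.psl_isConj_of_orderOf_two h2 (x := (e.symm (.sr i)).1)
      (by rw [Subgroup.orderOf_coe, MulEquiv.orderOf_eq, DihedralGroup.orderOf_sr]) hz2)
    exact hR.of_conj (Subgroup.mem_top g) (e.symm (.sr i)).2 (hg ▸ hz)
  obtain ⟨y, hy⟩ := e.symm.surjective ⟨x, hx⟩
  obtain rfl : (e.symm y).1 = x := congrArg Subtype.val hy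
  rcases y with i | i
  · have := R.mul_mem (key 0) (key i)
    rwa [← Subgroup.coe_mul, ← map_mul, DihedralGroup.sr_mul_sr, sub_zero] at this
  · exact key i

end Cfsg.Agent.S5317
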