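import Cfsg.Statements.S5321
import Cfsg.Agent.Fus.SimpleJ2
import Cfsg.Agent.Spor.J2Main

set_option autoImplicit false
open Cfsg

namespace Cfsg.Agent.S5321

/-- For a finite group G isomorphic to the Hall–Janko group J₂ (as constructed in the problem's definitions), the 2-fusion system of G on a Sylow 2-subgroup is simple: saturated, over a nontrivial 2-group, with no normal subsystem other than the trivial one and itself. -/
theorem result {G : Type*} [Group G] [Finite G] (hG : Cfsg.Spor.IsoJ2 G) (S : Sylow 2 G) : (Cfsg.groupFusionSystem (S : Subgroup G)).IsSimple 2 := by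
  obtain ⟨f⟩ := hG
  have hc : Nat.card (CL.J2.ρJ.model.gen CL.J2.gens) = 604800 := by
    rw [CL.J2.gen_gens, Subgroup.card_top, CL.J2.card_J2]
  refine CL.FusC.J2.simple CL.J2.gens_top hc (f.symm.toMonoidHom.comp (Subgroup.subtype _))
    (f.symm.surjective.comp fun x => ⟨⟨x, CL.J2.gen_gens ▸ trivial⟩, rfl⟩) (fun x hx => ?_) S
  rw [show x = 1 from Subtype.ext ((map_eq_one_iff _ f.symm.injective).1 hx), one_pow]

end Cfsg.Agent.S5321
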