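import Cfsg.Statements.S5330
import Cfsg.Agent.Fus.SmallCtrl
import Cfsg.Agent.Fus.Trace

set_option autoImplicit false
open Cfsg

namespace Cfsg.Agent.S5330

open CL.Fus Cfsg.FusionSystem

/-- Let F be a saturated fusion system over a finite abelian p-group S. Then S is the internal direct product of the centre of the system and the focal subgroup: Z(F) ∩ foc(F) = 1 and Z(F)·foc(F) = S. -/
theorem result {Ω : Type*} [Group Ω] {S : Subgroup Ω} [Finite S] (p : ℕ) [Fact p.Prime] (hS : IsPGroup p S) (F : Cfsg.FusionSystem S) (hF : F.IsSaturated p) (hab : ∀ x ∈ S, ∀ y ∈ S, x * y = y * x) : F.center ⊓ F.focalSubgroup = ⊥ ∧ F.center ⊔ F.focalSubgroup = S := by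
  have hn := isNormal_of_stronglyClosed_comm hS hF (stronglyClosed_self F) hab
  obtain ⟨t, h1, h2, h3, h4, h5, h6⟩ := exists_relTrace_aut hab ⊥ (F.autGroup S)
  have hc : ((⊥ : Subgroup (MulAut S)).relIndex (F.autGroup S)).Coprime p := by
    have := finite_autGroup F S
    have h := (sylIn_Inn_top hS hF).not_dvd_relIndex
    have e : Cfsg.Inn S = ⊥ := by
      rw [eq_bot_iff]
      intro α hα
      obtain ⟨a, ha, e⟩ := mem_Inn_iff.1 hα
      exact aut_ext fun x hx => by rw [e x hx, autFun_one hx, hab a ha x hx, mul_inv_cancel_right]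
    rw [e] at h
    exact ((Nat.Prime.coprime_iff_not_dvd Fact.out).2 h).symm
  set n := (⊥ : Subgroup (MulAut S)).relIndex (F.autGroup S)
  have hext : ∀ P f, Mor F P f → ∃ γ ∈ F.autGroup S, ∀ x ∈ P, autFun γ x = f x := fun P f hf => by
    obtain ⟨g, hg, hi, e⟩ := IsNormal.extend_aut hn hf.le hf
    obtain ⟨γ, hγ, e'⟩ := hg.exists_aut hi
    exact ⟨γ, hγ, fun x hx => by rw [e' x (hf.le hx), e x hx]⟩
  have hfoc := (stronglyClosed_focal F).1
  constructor
  · have h7 : F.focalSubgroup ≤ h1.toHom.ker.map S.subtype := by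
      refine (Subgroup.closure_le _).2 ?_
      rintro _ ⟨P, φ, x, hφ, rfl⟩
      have hf := mor_ext hφ
      obtain ⟨γ, hγ, e⟩ := hext P _ hf
      have hx := hf.le x.2
      refine ⟨⟨_, S.mul_mem (S.inv_mem hx) ((F.le_of_mem hφ).2 x)⟩, ?_, rfl⟩
      show t ((x : Ω)⁻¹ * φ x) = 1
      rw [← ext_coe φ x, ← e x x.2, h1.map_mul (S.inv_mem hx) (autFun_mem γ hx), h1.map_inv hx, h6 rfl γ hγ x hx,
        inv_mul_cancel]
    rw [eq_bot_iff]
    rintro x ⟨hx, hx'⟩
    obtain ⟨x, hx'', rfl⟩ := h7 hx'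
    refine mem_of_pow_mem_pGroup hS hc x.2 (?_ : (x : Ω) ^ n ∈ ⊥)
    rw [← h4 x x.2 fun γ hγ => IsCentral.fix (isCentral_center F) (mor_autFun le_rfl hγ) x.2 hx]
    exact hx''
  · refine le_antisymm (sup_le (center_le F) hfoc) fun x hx => mem_of_pow_mem_pGroup hS hc hx ?_
    have h7 : t x ∈ F.center := (mem_center_iff hS hF).2 ⟨h2 x hx, fun P f hf hP => by
      obtain ⟨γ, hγ, e⟩ := hext P f hf
      rw [← e _ hP, h3 x hx (fun α hα => by rw [Subgroup.mem_bot.1 hα, autFun_one hx]) γ hγ]⟩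
    have h8 := h5 F.focalSubgroup (fun γ hγ y hy =>
      Subgroup.subset_closure ⟨S, _, ⟨y, hy⟩, (mor_autFun le_rfl hγ).toHom_mem, rfl⟩) x hx
    rw [show x ^ n = t x * ((x ^ n)⁻¹ * t x)⁻¹ by
      rw [mul_inv_rev, inv_inv, mul_inv_cancel_left]]
    exact Subgroup.mul_mem_sup h7 (Subgroup.inv_mem _ h8)

end Cfsg.Agent.S5330
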