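import Cfsg.Statements.S5394
import Cfsg.Agent.Spor.M24Class

set_option autoImplicit false
open Cfsg

namespace Cfsg.Agent.S5394

open CL.Spor MulAction

/-- The automorphism group of the length-24 code built from the squares modulo 23 has exactly two conjugacy classes of involutions: an involution either fixes exactly the eight points of an octad or has no fixed points, both kinds occur, and any two involutions of the same kind are conjugate in the group. -/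
theorem result : (∀ g ∈ Cfsg.M24, orderOf g = 2 → (Finset.univ.filter fun p => g p = p) ∈ Cfsg.octads ∨ ∀ p, g p ≠ p) ∧ (∃ g ∈ Cfsg.M24, orderOf g = 2 ∧ (Finset.univ.filter fun p => g p = p) ∈ Cfsg.octads) ∧ (∃ g ∈ Cfsg.M24, orderOf g = 2 ∧ ∀ p, g p ≠ p) ∧ ∀ g ∈ Cfsg.M24, ∀ h ∈ Cfsg.M24, orderOf g = 2 → orderOf h = 2 → ((∀ p, g p ≠ p) ↔ (∀ p, h p ≠ p)) → ∃ k ∈ Cfsg.M24, k * g * k⁻¹ = h := by
  have e0 : ∀ g : M24, (∀ p, (g : Equiv.Perm GolayPt) p ≠ p) ↔ (fixSet g).card = 0 := fun g => by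
    rw [Finset.card_eq_zero, Finset.eq_empty_iff_forall_notMem]
    exact forall_congr' fun p => mem_fixSet.not.symm
  refine ⟨fun g hg ho => ?_, ⟨m24 r2A, Subtype.prop _, (Subgroup.orderOf_coe _).trans orderOf_r2A, ?_⟩,
    ⟨m24 r2B, Subtype.prop _, (Subgroup.orderOf_coe _).trans orderOf_r2B, (e0 _).2 card_fixSet_r2B⟩,
    fun g hg h hh og oh e => ?_⟩
  · exact (fixSet_two (x := ⟨g, hg⟩) ((Subgroup.orderOf_coe _).symm.trans ho)).imp id fun h =>
      (e0 ⟨g, hg⟩).2 (Finset.card_eq_zero.2 h)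
  · show fixSet _ ∈ _
    rw [fixSet_r2A]; exact oct0_mem
  · have og' : orderOf (⟨g, hg⟩ : M24) = 2 := (Subgroup.orderOf_coe _).symm.trans og
    have oh' : orderOf (⟨h, hh⟩ : M24) = 2 := (Subgroup.orderOf_coe _).symm.trans oh
    have e' := (e0 ⟨g, hg⟩).symm.trans (e.trans (e0 ⟨h, hh⟩))
    obtain ⟨c, d, e1⟩ : ∃ c d : M24, c * ⟨g, hg⟩ * c⁻¹ = d * ⟨h, hh⟩ * d⁻¹ := by
      by_cases h0 : (fixSet ⟨g, hg⟩).card = 0
      · obtain ⟨c, e1⟩ := class_2B og' (by omega)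
        obtain ⟨d, e2⟩ := class_2B oh' (by rw [e'.1 h0]; norm_num)
        exact ⟨c, d, e1.trans e2.symm⟩
      · obtain ⟨c, e1⟩ := class_2A og' h0
        obtain ⟨d, e2⟩ := class_2A oh' (e'.not.1 h0)
        exact ⟨c, d, e1.trans e2.symm⟩
    have : (d⁻¹ * c) * ⟨g, hg⟩ * (d⁻¹ * c)⁻¹ = ⟨h, hh⟩ := by
      calc _ = d⁻¹ * (c * ⟨g, hg⟩ * c⁻¹) * d := by group
        _ = _ := by rw [e1]; group
    exact ⟨(d⁻¹ * c : M24), Subtype.prop _, congrArg Subtype.val this⟩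

end Cfsg.Agent.S5394
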