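import Cfsg.Statements.S5466
import Cfsg.Agent.Spor.T24I
import Cfsg.Agent.S0815

set_option autoImplicit false
open Cfsg

namespace Cfsg.Agent.S5466

open CL.PG CL.MT CL.T24 in
/-- Let G be a finite group with trivial centre generated by a conjugation-invariant set D of 3-transpositions on which it acts primitively, such that for some d in D the subgroup generated by the members of D other than d commuting with d has central largest normal 2- and 3-subgroups, and suppose G with D is of type M(24), and let L be the commutator subgroup of G. Let d₁, d₂, d₃ be distinct pairwise commuting members of D, j their product, E the subgroup generated by d₁ d₂ and d₁ d₃ (a four-group lying in L), CL the centralizer of j in L and K its generalized Fitting subgroup. Then K is quasisimple with centre E, K is the centralizer of E in L, K modulo E is isomorphic to the projective special unitary group of dimension 6 over the field with four elements, CL/K is isomorphic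 to the symmetric group of degree 3, and CL modulo E is isomorphic to the full automorphism group of that unitary group. -/
theorem result {G : Type*} [Group G] [Finite G] {D : Set G} (hD : Cfsg.IsThreeTranspositionGroup D) (hprim : Cfsg.IsPrimitiveUnderConj D) (d₀ : G) (hd₀ : d₀ ∈ D) (h3 : Cfsg.pCore 3 ↥(Subgroup.closure {y : G | y ∈ D ∧ y ≠ d₀ ∧ Commute d₀ y}) ≤ Subgroup.center ↥(Subgroup.closure {y : G | y ∈ D ∧ y ≠ d₀ ∧ Commute d₀ y})) (h2 : Cfsg.pCore 2 ↥(Subgroup.closure {y : G | y ∈ D ∧ y ≠ d₀ ∧ Commute d₀ y}) ≤ Subgroup.center ↥(Subgroup.closure {y : G | y ∈ D ∧ y ≠ d₀ ∧ Commute d₀ y})) (h24 : Cfsg.IsOfTypeM24 G D) (L : Subgroup G) (hL : L = commutator G) (d₁ d₂ d₃ : G) (h₁ : d₁ ∈ D) (h₂ : d₂ ∈ D) (h₃ : d₃ ∈ D) (h12 : d₁ ≠ d₂) (h13 : d₁ ≠ d₃) (h23 : d₂ ≠ d₃) (c12 : Commute d₁ d₂) (c13 : Commute d₁ d₃) (c23 : Commute d₂ d₃) (E CL K : Subgroup G) (hE : E = Subgroup.closure ({d₁ * d₂, d₁ * d₃} : Set G)) (hCL : CL = L ⊓ Subgroup.centralizer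 ({d₁ * d₂ * d₃} : Set G)) (hK : K = (Cfsg.generalizedFittingSubgroup ↥CL).map CL.subtype) : Cfsg.IsQuasisimple ↥K ∧ (Subgroup.center ↥K).map K.subtype = E ∧ K = L ⊓ Subgroup.centralizer (E : Set G) ∧ (∃ (_ : (E.subgroupOf K).Normal) (F : Type) (_ : Field F) (_ : Fintype F), Fintype.card F = 4 ∧ Nonempty (↥K ⧸ E.subgroupOf K ≃* Cfsg.PSU 6 F 2)) ∧ ∃ _ : (K.subgroupOf CL).Normal, Nonempty (↥CL ⧸ K.subgroupOf CL ≃* Equiv.Perm (Fin 3)) ∧ E ≤ CL ∧ ∃ (_ : (E.subgroupOf CL).Normal) (F : Type) (_ : Field F) (_ : Fintype F), Fintype.card F = 4 ∧ Nonempty (↥CL ⧸ E.subgroupOf CL ≃* MulAut (Cfsg.PSU 6 F 2)) := by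
  have hc' := class_of_prim hD hprim
  obtain ⟨v, gs, h⟩ := exists_big hD hprim h24
  obtain ⟨s, hs, f⟩ := h.f23 hc'
  rw [hL, ← hs] at hCL ⊢
  obtain ⟨h3, h6⟩ := m24_local hc' h24
  obtain ⟨hp, hE', q3, F, _, _, hF, q⟩ := three f h3 h6 ⟨⟨h₁, h₂, h12, c12⟩, ⟨h₁, h₃, h13, c13⟩, h₂, h₃, h23, c23⟩ hE rfl hCL
  set K' := s.ker ⊓ Subgroup.centralizer ({d₁, d₂, d₃} : Set G)
  have hs := _root_.CL.Uni.isSimpleGroup_PSU (F := F) (q := 2) hF (n := 6) (by norm_num) (by norm_num)
  obtain ⟨ρ, P⟩ := exists_pq hF (MulEquiv.refl _)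
  have hEK : E ≤ Subgroup.centralizer (K' : Set G) := fun x hx y hy => ((hE'.le hy).2 x hx).symm
  have hZ := q.cent_eq hEK P.center_eq_bot
  obtain ⟨e⟩ := q.equiv_center hZ
  have hq : IsQuasisimple K' :=
    ⟨Subgroup.isPerfect_iff.2 (le_antisymm (Subgroup.commutator_le_self K') hp), e.isSimpleGroup⟩
  have hC : CL ⊓ Subgroup.centralizer (K' : Set G) ≤ K' := fun c hc =>
    hE'.ge ⟨(hCL.le hc.1).1, fun x hx => hc.2 x (q.le hx)⟩
  obtain rfl : K = K' := hK.trans (fstarOf_eq_of_quasisimple q3.le q3.le_normalizer hq rfl hC)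
  have qa := q.aut_of_perfect q3.le q3.le_normalizer hp hEK (fun c hc => hZ.le ⟨hC hc, hc.2⟩) (by
    have := Fact.mk Nat.prime_two
    rw [S0815.result 2 1 le_rfl (q := 2) rfl hF 6 (by norm_num) (by norm_num), q3.card, q.card, card_perm_fin 3 rfl]
    norm_num [Nat.factorial]
    ring)
  exact ⟨hq, (map_center_eq _).trans hZ, hE', ⟨q.normal, F, _, _, hF, q.equiv.2⟩, q3.normal, q3.equiv.2, qa.le,
    qa.normal, F, _, _, hF, qa.equiv.2⟩

end Cfsg.Agent.S5466
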