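import Cfsg.Statements.S5467
import Cfsg.Agent.Spor.Z24M

set_option autoImplicit false
open Cfsg

namespace Cfsg.Agent.S5467

open CL.PG

/-- Let G be a finite group with trivial centre generated by a conjugation-invariant set D of 3-transpositions on which it acts primitively, such that for some d in D the subgroup generated by the members of D other than d commuting with d has central largest normal 2- and 3-subgroups, and suppose G with D is of type M(24), and let L be the commutator subgroup of G. Let z be the product of four distinct pairwise commuting members of D (an involution of L) and C its centralizer in L. Then the generalized Fitting subgroup Q of C is extraspecial of order 2^13, and C has normal subgroups Q ≤ N ≤ M with N/Q of order 3, M/N isomorphic to the projective special unitary group of dimension 4 over the field with nine elements, and M of index 2 in C. -/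
theorem result {G : Type*} [Group G] [Finite G] {D : Set G} (hD : Cfsg.IsThreeTranspositionGroup D) (hprim : Cfsg.IsPrimitiveUnderConj D) (d₀ : G) (hd₀ : d₀ ∈ D) (h3 : Cfsg.pCore 3 ↥(Subgroup.closure {y : G | y ∈ D ∧ y ≠ d₀ ∧ Commute d₀ y}) ≤ Subgroup.center ↥(Subgroup.closure {y : G | y ∈ D ∧ y ≠ d₀ ∧ Commute d₀ y})) (h2 : Cfsg.pCore 2 ↥(Subgroup.closure {y : G | y ∈ D ∧ y ≠ d₀ ∧ Commute d₀ y}) ≤ Subgroup.center ↥(Subgroup.closure {y : G | y ∈ D ∧ y ≠ d₀ ∧ Commute d₀ y})) (h24 : Cfsg.IsOfTypeM24 G D) (L : Subgroup G) (hL : L = commutator G) (z : G) (l : List G) (hl : (l.Nodup ∧ l.length = 4 ∧ (∀ a ∈ l, a ∈ D) ∧ (∀ a ∈ l, ∀ b ∈ l, Commute a b) ∧ l.prod = z)) (C : Subgroup G) (hC : C = L ⊓ Subgroup.centralizer ({z} : Set G)) : ∃ (Q : Subgroup ↥C) (_ : Q.Normal), Cfsg.generalizedFittingSubgroup ↥C = Q ∧ Cfsg.IsExtraspecial 2 ↥Q ∧ Nat.card Q = 2 ^ 13 ∧ ∃ (N M : Subgroup ↥C) (_ : N.Normal) (_ : M.Normal), Q ≤ N ∧ N ≤ M ∧ Nat.card N = 3 * Nat.card Q ∧ (∃ (K : Type)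 (_ : Field K) (_ : Fintype K), Fintype.card K = 9 ∧ Nonempty (↥M ⧸ N.subgroupOf M ≃* Cfsg.PSU 4 K 3)) ∧ M.index = 2 := by
  obtain ⟨v, gs, h⟩ := CL.T24.exists_big hD hprim h24
  obtain ⟨n0, n1, n2, n3, rfl⟩ := hl
  obtain ⟨l, a, b, c, rfl⟩ := List.length_eq_four.1 n1
  simp only [List.nodup_cons, List.mem_cons, not_or, List.not_mem_nil, or_false] at n0
  have p : ∀ x ∈ [l, a, b, c], ∀ y ∈ [l, a, b, c], x ≠ y → CL.Fi.P2 D x y := fun x hx y hy e =>
    ⟨n2 x hx, n2 y hy, e, n3 x hx y hy⟩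
  have k := CL.Z24.loc_of h (CL.MT.class_of_prim hD hprim) h24 (a := a) (b := b) (c := c) (l := l)
    ⟨p _ (by simp) _ (by simp) n0.2.1.1, p _ (by simp) _ (by simp) n0.2.1.2, p _ (by simp) _ (by simp) n0.2.2.1⟩
    (p _ (by simp) _ (by simp) (Ne.symm n0.1.1)) (p _ (by simp) _ (by simp) (Ne.symm n0.1.2.1))
    (p _ (by simp) _ (by simp) (Ne.symm n0.1.2.2))
  rw [show l * (a * b * c) = [l, a, b, c].prod by simp [mul_assoc], ← hL, ← hC] at k
  obtain ⟨Z, Q, N, M, cZ, cQ, cN, core, cent, hZQ, com, hQN, hMC, nN, q, cC⟩ := k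
  have hNC := q.le.trans hMC
  have hQC := hQN.trans hNC
  have e := eq_subgroupOf_of_map (fstarOf_eq_of_pCoreOf (by norm_num) core cent hZQ)
  have x := fstar_extra (k := 13) (by norm_num) hQC (eq_subgroupOf_of_map core) cent hZQ cZ cQ (by norm_num) com
  have i2 : (M.subgroupOf C).index = 2 := by
    have := (M.subgroupOf C).card_mul_index
    rw [CL.Grp.card_subgroupOf_of_le hMC, cC, mul_comm] at this
    exact Nat.eq_of_mul_eq_mul_right Nat.card_pos this
  obtain ⟨K, _, _, hK⟩ := exists_field 3 2 (by norm_num)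
  refine ⟨_, inferInstance, rfl, x.1, x.2, N.subgroupOf C, M.subgroupOf C,
    (Subgroup.normal_subgroupOf_iff_le_normalizer hNC).2 nN, Subgroup.normal_of_index_eq_two i2,
    e ▸ Subgroup.comap_mono hQN, Subgroup.comap_mono q.le, by rw [x.2, CL.Grp.card_subgroupOf_of_le hNC, cN],
    ⟨K, _, _, hK, ((q.congr (CL.Std.U43.iso hK)).subgroupOf hMC).equiv.2⟩, i2⟩

end Cfsg.Agent.S5467
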