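import Cfsg.Statements.S5468
import Cfsg.Agent.Spor.MT23P

set_option autoImplicit false
open Cfsg

namespace Cfsg.Agent.S5468

open CL.MT


/-- Let G be a finite group with trivial centre generated by a conjugation-invariant set D of 3-transpositions on which it acts primitively, such that for some d in D the subgroup generated by the members of D other than d commuting with d has central largest normal 2- and 3-subgroups, and suppose G with D is of type M(23). Let d₁, d₂ be distinct commuting members of D, j = d₁ d₂, K the joint centralizer of d₁ and d₂ and C the centralizer of j. Then K has index 2 in C, the centre of K is the subgroup generated by d₁ and d₂, K is quasisimple with K modulo its centre isomorphic to the projective special unitary group of dimension 6 over the field with four elements, and C modulo the subgroup generated by d₁ and d₂ has trivial centre (so it is that unitary group extended by an outer involution). -/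
theorem result {G : Type*} [Group G] [Finite G] {D : Set G} (hD : Cfsg.IsThreeTranspositionGroup D) (hprim : Cfsg.IsPrimitiveUnderConj D) (d₀ : G) (hd₀ : d₀ ∈ D) (h3 : Cfsg.pCore 3 ↥(Subgroup.closure {y : G | y ∈ D ∧ y ≠ d₀ ∧ Commute d₀ y}) ≤ Subgroup.center ↥(Subgroup.closure {y : G | y ∈ D ∧ y ≠ d₀ ∧ Commute d₀ y})) (h2 : Cfsg.pCore 2 ↥(Subgroup.closure {y : G | y ∈ D ∧ y ≠ d₀ ∧ Commute d₀ y}) ≤ Subgroup.center ↥(Subgroup.closure {y : G | y ∈ D ∧ y ≠ d₀ ∧ Commute d₀ y})) (h23 : Cfsg.IsOfTypeM23 G D) (d₁ d₂ : G) (h₁ : d₁ ∈ D) (h₂ : d₂ ∈ D) (hne : d₁ ≠ d₂) (hc : Commute d₁ d₂) (K C V : Subgroup G) (hK : K = Subgroup.centralizer ({d₁, d₂} : Set G)) (hC : C = Subgroup.centralizer ({d₁ * d₂} : Set G)) (hV : V = Subgroup.closure ({d₁, d₂} : Set G)) [hn : (V.subgroupOf C).Normal] : K ≤ C ∧ (K.subgroupOf C).index = 2 ∧ (Subgroup.center ↥K).map K.subtype = V ∧ Cfsg.IsQuasisimple ↥K ∧ (∃ (F : Type) (_ : Field F) (_ : Fintype F), Fintype.card F = 4 ∧ Nonempty (↥K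 ⧸ Subgroup.center ↥K ≃* Cfsg.PSU 6 F 2)) ∧ Subgroup.center (↥C ⧸ V.subgroupOf C) = ⊥ := by
  have hc' := class_of_prim hD hprim
  have h := isMT23_of_type hD h23
  have p : CL.Fi.P2 D d₁ d₂ := ⟨h₁, h₂, hne, hc⟩
  obtain ⟨hp, F, _, _, hF, q⟩ := h.pair hc' p
  obtain ⟨g, g1, g2⟩ : ∃ g : G, g * d₁ * g⁻¹ = d₂ ∧ g * d₂ * g⁻¹ = d₁ := by
    obtain ⟨d, _, d', Δ, s, rfl, -, -, -, -, -, S⟩ := h.step hc'
    exact S.trans_P2 p p.symm
  have i2 := index_pair hc' (h.len3 hc').h3 p g1 g2
  rw [← hK] at hp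
  rw [← hK, ← hV] at q
  rw [← hK, ← hC] at i2
  have hs := CL.Uni.isSimpleGroup_PSU (F := F) (q := 2) hF (n := 6) (by norm_num) (by norm_num)
  obtain ⟨ρ, P⟩ := exists_pq hF (MulEquiv.refl _)
  have hVK : V ≤ Subgroup.centralizer (K : Set G) := by
    rw [hV, Subgroup.closure_le, hK]
    exact fun x hx y hy => (hy x hx).symm
  have hZ := q.cent_eq hVK P.center_eq_bot
  have hKK := le_antisymm (Subgroup.commutator_le_self K) hp
  have hKC : K ≤ C := fun k hk => by
    rw [hK, mem_cent2] at hk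
    exact hC ▸ Subgroup.mem_centralizer_singleton_iff.2 (hk.1.mul_right hk.2).eq
  obtain ⟨e⟩ := q.equiv_center hZ
  refine ⟨hKC, i2, (CL.PG.map_center_eq K).trans hZ, ⟨Subgroup.isPerfect_iff.2 hKK, e.isSimpleGroup⟩,
    ⟨F, _, _, hF, ⟨e⟩⟩, center_quot_eq_bot hKC hKK hVK fun c hc => hZ.le ⟨?_, hc.2⟩⟩
  have hv : ∀ x ∈ ({d₁, d₂} : Set G), x ∈ K := fun x hx => q.le (hV ▸ Subgroup.subset_closure hx)
  exact hK ▸ fun x hx => hc.2 x (hv x hx)

end Cfsg.Agent.S5468
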