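import Cfsg.Statements.S5518
import Cfsg.Agent.Spor.U24D

set_option autoImplicit false
open Cfsg

namespace Cfsg.Agent.S5518
open CL.T24 CL.U24 CL.PG CL.TT Subgroup

/-- Let G be a finite group with trivial centre generated by a conjugation-invariant set D of 3-transpositions on which it acts primitively, such that for some d in D the subgroup generated by the members of D other than d commuting with d has central largest normal 2- and 3-subgroups, and suppose G with D is of type M(24). Then any two subgroups of order 13 are conjugate; and there are members a, b, c, d of D generating the direct product T of two symmetric groups of degree 3 (a, d non-commuting; b, c non-commuting; b and c commuting with a and d) whose centralizer K is isomorphic to the Chevalley group G₂(3), such that for every subgroup B of K of order 13: the normalizer of B lies in the normalizer of K, the normalizer F of B in K is a Frobenius group of order 78 with kernel B (order 78, centralizer of B in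 it equal to B), and the subgroup generated by F and T has index 2 in the normalizer of B. -/
theorem result {G : Type*} [Group G] [Finite G] {D : Set G} (hD : Cfsg.IsThreeTranspositionGroup D) (hprim : Cfsg.IsPrimitiveUnderConj D) (d₀ : G) (hd₀ : d₀ ∈ D) (h3 : Cfsg.pCore 3 ↥(Subgroup.closure {y : G | y ∈ D ∧ y ≠ d₀ ∧ Commute d₀ y}) ≤ Subgroup.center ↥(Subgroup.closure {y : G | y ∈ D ∧ y ≠ d₀ ∧ Commute d₀ y})) (h2 : Cfsg.pCore 2 ↥(Subgroup.closure {y : G | y ∈ D ∧ y ≠ d₀ ∧ Commute d₀ y}) ≤ Subgroup.center ↥(Subgroup.closure {y : G | y ∈ D ∧ y ≠ d₀ ∧ Commute d₀ y})) (h24 : Cfsg.IsOfTypeM24 G D) : (∀ X Y : Subgroup G, Nat.card X = 13 → Nat.card Y = 13 → ∃ g : G, X.map (MulAut.conj g).toMonoidHom = Y) ∧ ∃ (a b c d : G) (T K : Subgroup G), (∀ x ∈ [a, b, c, d], x ∈ D) ∧ ¬ Commute a d ∧ ¬ Commute b c ∧ Commute a b ∧ Commute a c ∧ Commute d b ∧ Commute d c ∧ T = Subgroup.closure ({a, b, c, d} : Set G) ∧ K = Subgroup.centralizer (T : Set G) ∧ Nonempty (↥K ≃* ↥(Cfsg.Lie.chevG2.group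 (ZMod 3))) ∧ ∀ B : Subgroup G, B ≤ K → Nat.card B = 13 → Subgroup.normalizer ((B : Subgroup G) : Set G) ≤ Subgroup.normalizer ((K : Subgroup G) : Set G) ∧ Nat.card ↥(K ⊓ Subgroup.normalizer ((B : Subgroup G) : Set G)) = 78 ∧ K ⊓ Subgroup.centralizer ((B : Subgroup G) : Set G) = B ∧ (((K ⊓ Subgroup.normalizer ((B : Subgroup G) : Set G)) ⊔ T).subgroupOf (Subgroup.normalizer ((B : Subgroup G) : Set G))).index = 2 := by
  clear h2 h3 hd₀
  obtain ⟨v, gs, h⟩ := exists_big hD hprim h24
  have syl : ∀ X Y : Subgroup G, Nat.card X = 13 → Nat.card Y = 13 → ∃ g, X.map (cjH g) = Y := fun X Y =>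
    conj_of_sylow_card (p := 13) (k := 1) (by norm_num) h.card
      (fact_eq (m := 193108570644717187891200) (by norm_num) (by norm_num) (by norm_num))
  have cnt : ∀ B : Subgroup G, Nat.card B = 13 → (CD D B).ncard = 6 := fun B hB => by
    obtain ⟨g, rfl⟩ := syl (zpowers (wordG gs [6, 20, 10, 4, 12, 22, 14, 8])) B (card_zpowers_of_prime (by norm_num)
      ((wordG_powW _ _ _).symm.trans (h.eq_one (by decide +kernel))) (h.ne_one (p := 6) (by decide +kernel))) hB
    refine (fc_conj h.inv _ _).trans ?_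
    rw [fc, zpowers_eq_closure, centralizer_closure]
    exact h.count_eq (by decide +kernel)
  have ha : wordG gs [0] ∈ D := h.val_gp (c := 0) (by norm_num) ▸ h.val_mem (by decide)
  have hd : wordG gs [2] ∈ D := h.val_gp (c := 1) (by norm_num) ▸ h.val_mem (by decide)
  have hn := h.nc02
  generalize wordG gs [0] = a at ha hn
  generalize wordG gs [2] = d at hd hn
  obtain ⟨b, c₀, c, m⟩ := Big.lm h ha hd hn
  obtain ⟨hb, hb'⟩ := m.hb
  obtain ⟨⟨hc, hc'⟩, hn'⟩ := m.hu
  obtain ⟨ab, db⟩ := mem_cent2.1 hb'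
  obtain ⟨ac, dc⟩ := mem_cent2.1 hc'
  have eK : centralizer (closure {a, b, c, d} : Set G) = centralizer {a, d, b, c} := by
    rw [centralizer_closure]; congr 1; ext; simp only [Set.mem_insert_iff, Set.mem_singleton_iff]; tauto
  have eT : closure ({a, b, c, d} : Set G) = closure {b, c} ⊔ closure {a, d} := by
    rw [← Subgroup.closure_union]; congr 1; ext; simp only [Set.mem_insert_iff, Set.mem_singleton_iff, Set.mem_union]; tauto
  have eI : centralizer ({a, d, b, c} : Set G) = centralizer {a, d} ⊓ centralizer {b, c} := by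
    rw [cent4, inf_assoc, cent_pair b c]
  refine ⟨syl, a, b, c, d, _, _, by simp [*], hn, hn', ab, ac, db, dc, rfl, rfl,
    eK ▸ ⟨m.c2.some.trans CL.Std.G23.iso.some⟩, fun B hB cB => ?_⟩
  have hS : closure {b, c} ≤ centralizer {a, d} := (closure_le _).2 (Set.pair_subset hb' hc')
  have i1 := s3_inf hD.1 ha hd hn
  have i2 := s3_inf hD.1 hb hc hn'
  have s3 : ∀ {x y : G}, x ∈ D → y ∈ D → ∀ z ∈ ({x, y, x * y * x} : Set G), z ∈ D ∧ z ∈ closure {x, y} := by
    have k : ∀ {x y z : G}, z ∈ ({x, y} : Set G) → z ∈ closure {x, y} := fun h => subset_closure h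
    rintro x y hx hy _ (rfl | rfl | rfl)
    exacts [⟨hx, k (by simp)⟩, ⟨hy, k (by simp)⟩,
      ⟨IsGroup.closed hD _ hx _ hy, mul_mem (mul_mem (k (by simp)) (k (by simp))) (k (by simp))⟩]
  have hdis : ∀ z ∈ D, z ∈ closure {a, d} → z ∉ centralizer {a, d} := fun z hz h1 h2 =>
    ne_one hD.1 hz (mem_bot.1 (i1.le ⟨h1, h2⟩))
  have hT : closure {a, b, c, d} ≤ centralizer (B : Set G) := le_centralizer_iff.1 hB
  have eC : CD D B = {a, d, a * d * a} ∪ {b, c, b * c * b} := (Set.eq_of_subset_of_ncard_le (t := CD D B) (Set.union_subset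
    (fun z hz => ⟨(s3 ha hd z hz).1, hT (eT.ge (mem_sup_right (s3 ha hd z hz).2))⟩)
    fun z hz => ⟨(s3 hb hc z hz).1, hT (eT.ge (mem_sup_left (s3 hb hc z hz).2))⟩) (by
      rw [Set.ncard_union_eq (Set.disjoint_left.2 fun z h1 h2 => hdis z (s3 ha hd z h1).1 (s3 ha hd z h1).2
        (hS (s3 hb hc z h2).2)), ncard_s3 hD.1 ha hn, ncard_s3 hD.1 hb hn', cnt B cB])).symm
  have eT' : closure (CD D B) = closure {a, b, c, d} := le_antisymm ((closure_le _).2 (eC ▸ Set.union_subset
    (fun z hz => eT.ge (mem_sup_right (s3 ha hd z hz).2)) fun z hz => eT.ge (mem_sup_left (s3 hb hc z hz).2)))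
    (closure_mono (eC ▸ by simp [Set.insert_subset_iff]))
  refine ⟨(eT' ▸ norm_le_CD h.inv B).trans (norm_le_cent _), ?_⟩
  rw [eK] at hB ⊢
  obtain ⟨B₀, b1, b2, b3, b4⟩ := m.c13
  obtain ⟨k, hk, eB⟩ := conj_in (k := 1) (by norm_num : Nat.Prime 13)
    ((Nat.card_congr m.c2.some.toEquiv).trans CL.Std.G23.card)
    (fact_eq (m := 326592) (by norm_num) (by norm_num) (by norm_num)) b1 hB b2 cB
  have cF : Nat.card (centralizer {a, d, b, c} ⊓ normalizer (B : Set G) : Subgroup G) = 78 := by
    rw [← eB, normalizer_map_conj, ← map_conj_self hk, ← Subgroup.map_inf _ _ _ (cj_inj k), card_map_of_injective (cj_inj k), b4]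
  refine ⟨cF, by rw [← eB, cent_map_conj, ← map_conj_self hk, ← Subgroup.map_inf _ _ _ (cj_inj k), b3], ?_⟩
  generalize hF : centralizer {a, d, b, c} ⊓ normalizer (B : Set G) = F at cF
  have f1 : F ≤ centralizer {a, d} := hF ▸ eI ▸ inf_le_left.trans inf_le_left
  have f2 : F ≤ centralizer {b, c} := hF ▸ eI ▸ inf_le_left.trans inf_le_right
  have cm : ∀ {x y : G} {H : Subgroup G}, H ≤ centralizer {x, y} → ∀ u ∈ H, ∀ w ∈ closure {x, y}, u * w = w * u :=
    fun hH u hu w hw => ((centralizer_closure _).ge (hH hu) w hw).symm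
  have c1 : Nat.card (F ⊔ closure {a, b, c, d} : Subgroup G) = 2808 := by
    rw [eT, ← sup_assoc, card_sup_comm (cm (sup_le f1 hS)) (eq_bot_iff.2 fun z hz => i1.le ⟨hz.2, sup_le f1 hS hz.1⟩),
      card_sup_comm (cm f2) (eq_bot_iff.2 fun z hz => i2.le ⟨hz.2, f2 hz.1⟩), cF, card_s3 hD.1 ha hd hn,
      card_s3 hD.1 hb hc hn']
  have le1 : F ⊔ closure {a, b, c, d} ≤ normalizer (B : Set G) :=
    sup_le (hF ▸ inf_le_right) (hT.trans (centralizer_le_normalizer _))
  have cj : ∀ g ∈ normalizer (B : Set G), ∀ {x}, x ∈ ({a, d, a * d * a} ∪ {b, c, b * c * b} : Set G) →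
      g * x * g⁻¹ ∈ ({a, d, a * d * a} ∪ {b, c, b * c * b} : Set G) := fun g hg x hx =>
    eC ▸ conj_mem_CD h.inv hg (eC ▸ hx)
  have cc : ∀ {g x y : G}, g ∈ centralizer {x} → (Commute x (g * y * g⁻¹) ↔ Commute x y) := fun {g x y} hg => by
    rw [← commute_conj_iff g x y, mem_centralizer_singleton_iff.1 hg, mul_inv_cancel_right]
  have u1 := card_le_mul (normalizer (B : Set G)) (x := a) fun g hg => cj g hg (by simp)
  have u2 := card_le_mul (normalizer (B : Set G) ⊓ centralizer {a}) (x := d) (S := {d, a * d * a}) fun g hg => by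
    rcases cj g hg.1 (x := d) (by simp) with (e | e) | e
    · exact absurd ((cc hg.2).1 (e ▸ Commute.refl a)) hn
    · exact e
    · exact absurd ((cc hg.2).1 (mem_cent2.1 (hS (s3 hb hc _ e).2)).1) hn
  have u3 := card_le_mul (normalizer (B : Set G) ⊓ centralizer {a} ⊓ centralizer {d}) (x := b) (S := {b, c, b * c * b})
    fun g hg => (cj g hg.1.1 (x := b) (by simp)).resolve_left fun e => hdis _ (s3 ha hd _ e).1 (s3 ha hd _ e).2
      (mem_cent2.2 ⟨(cc hg.1.2).2 ab, (cc hg.2).2 db⟩)
  have u4 := card_le_mul (normalizer (B : Set G) ⊓ centralizer {a} ⊓ centralizer {d} ⊓ centralizer {b}) (x := c)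
    (S := {c, b * c * b}) fun g hg => by
    rcases cj g hg.1.1.1 (x := c) (by simp) with e | e | e
    · exact absurd (mem_cent2.2 ⟨(cc hg.1.1.2).2 ac, (cc hg.1.2).2 dc⟩) (hdis _ (s3 ha hd _ e).1 (s3 ha hd _ e).2)
    · exact absurd ((cc hg.2).1 (e ▸ Commute.refl b)) hn'
    · exact e
  rw [show normalizer (B : Set G) ⊓ centralizer {a} ⊓ centralizer {d} ⊓ centralizer {b} ⊓ centralizer {c} = F by
    rw [← hF, cent4, cent_pair]; ac_rfl, cF] at u4
  rw [← eC, cnt B cB] at u1
  rw [ncard_s3 hD.1 hb hn'] at u3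
  have p1 := (Set.ncard_insert_le d {a * d * a}).trans_eq (by rw [Set.ncard_singleton])
  have p2 := (Set.ncard_insert_le c {b * c * b}).trans_eq (by rw [Set.ncard_singleton])
  have u5 : Nat.card (normalizer (B : Set G)) ≤ 2808 * 2 := by
    have := u2.trans (Nat.mul_le_mul_right _ p1)
    have := u4.trans (Nat.mul_le_mul_right _ p2)
    omega
  have i3 := card_mul_index ((F ⊔ closure {a, b, c, d}).subgroupOf (normalizer (B : Set G)))
  rw [CL.Grp.card_subgroupOf_of_le le1, c1] at i3
  have i4 : ((F ⊔ closure {a, b, c, d}).subgroupOf (normalizer (B : Set G))).index ≠ 1 := fun e => by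
    obtain ⟨g, g1, g2⟩ := Big.conj_nc h hb hc hn' ha hd hn
    obtain ⟨k, hk, e1⟩ := conj_in (k := 1) (by norm_num : Nat.Prime 13) m.card
      (fact_eq (m := 2285621452800) (by norm_num) (by norm_num) (by norm_num)) (A := B.map (cjH g)) (B := B)
      (by rw [← g1, ← g2, ← map_cent2]; exact map_mono (hB.trans (eI.le.trans inf_le_right)))
      (hB.trans (eI.le.trans inf_le_left)) ((card_map_of_injective (cj_inj g)).trans cB) cB
    rw [map_conj_map_conj] at e1
    have h1 : F ⊔ closure {a, b, c, d} ≤ normalizer (centralizer {a, d} : Set G) :=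
      sup_le (f1.trans le_normalizer) (eT ▸ sup_le (hS.trans le_normalizer)
        (le_normalizer.trans (centralizer_closure {a, d} ▸ norm_le_cent (closure {a, d}))))
    have h2 := (mem_normalizer_iff.1 (h1 (subgroupOf_eq_top.1 (index_eq_one.1 e) (mem_normalizer_fintype fun x hx =>
      e1.le ⟨x, hx, rfl⟩))) b).1 hb'
    rw [show k * g * b * (k * g)⁻¹ = k * (g * b * g⁻¹) * k⁻¹ by group, g1, ← (mem_cent2.1 hk).1.eq,
      mul_inv_cancel_right] at h2
    exact hn (mem_cent2.1 h2).2.symm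
  have := index_ne_zero_of_finite (H := (F ⊔ closure {a, b, c, d}).subgroupOf (normalizer (B : Set G)))
  omega

end Cfsg.Agent.S5518
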