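import Cfsg.Statements.S5521
import Cfsg.Agent.Spor.M24More

set_option autoImplicit false
open Cfsg

namespace Cfsg.Agent.S5521

open CL.Spor MulAction

/-- The Mathieu group M₂₄ in its natural action on the 24 coordinate positions of the binary Golay code has minimal base size exactly 7: every set of at most 6 positions is fixed pointwise by some non-identity element of M₂₄, while some set of 7 positions is fixed pointwise only by the identity. -/
theorem result :
    (∀ B : Finset Cfsg.GolayPt, B.card ≤ 6 → ∃ g ∈ Cfsg.M24, g ≠ 1 ∧ ∀ b ∈ B, g b = b) ∧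
    (∃ B : Finset Cfsg.GolayPt, B.card = 7 ∧ ∀ g ∈ Cfsg.M24, (∀ b ∈ B, g b = b) → g = 1) := by
  refine ⟨fun B hB => ?_, ofMask 8388671, by decide +kernel, fun g hg h =>
    congrArg Subtype.val (M24_base7 (g := ⟨g, hg⟩) h)⟩
  obtain ⟨E, h1, -, h2⟩ := Finset.exists_subsuperset_card_eq (Finset.subset_univ B) hB
    (by rw [Finset.card_univ, card_golayPt]; norm_num)
  have h3 : 1 < Nat.card (fixS E : Subgroup M24) := by
    by_cases h : ∃ o ∈ octads, E ⊆ o
    · obtain ⟨o, ho, h⟩ := h
      rw [fixS_eq_of_six ho h h2.ge, card_fixS_octad ho]; norm_num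
    · rw [card_fixS_umbral h2 h]; norm_num
  obtain ⟨g, hg, hne⟩ := (Subgroup.bot_or_exists_ne_one _).resolve_left
    ((Subgroup.one_lt_card_iff_ne_bot _).1 h3)
  exact ⟨g, g.2, fun e => hne (Subtype.ext e), fun b hb => mem_fixS.1 hg b (h1 hb)⟩

end Cfsg.Agent.S5521
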