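import Cfsg.Statements.S5562
import Cfsg.Agent.Spor.TT2

set_option autoImplicit false
open Cfsg

namespace Cfsg.Agent.S5562

theorem eq_of_sq_eq {G : Type*} [Group G] {y z : G} (hy : Odd (orderOf y)) (hz : Odd (orderOf z)) (h : y ^ 2 = z ^ 2) :
    y = z := by
  obtain ⟨k, hk⟩ := hy.mul hz
  have h1 : y ^ (2 * k + 1) = 1 := orderOf_dvd_iff_pow_eq_one.1 (hk ▸ dvd_mul_right _ _)
  have h2 : z ^ (2 * k + 1) = 1 := orderOf_dvd_iff_pow_eq_one.1 (hk ▸ dvd_mul_left _ _)
  calc y = (y ^ 2) ^ (k + 1) := by rw [← pow_mul, show 2 * (k + 1) = 2 * k + 1 + 1 by ring, pow_succ, h1, one_mul]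
    _ = z := by rw [h, ← pow_mul, show 2 * (k + 1) = 2 * k + 1 + 1 by ring, pow_succ, h2, one_mul]

/-- Let G be a finite group, d an involution of G whose conjugates pairwise have products of odd order, and x any involution of G. Then the conjugacy class of d is the disjoint union, over the conjugates a of d commuting with x, of the sets of conjugates of d commuting with ax: every conjugate of d commutes with ax for exactly one conjugate a of d that commutes with x. -/
theorem result {G : Type*} [Group G] [Finite G] (d : G) (hd : orderOf d = 2)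
    (hodd : ∀ a ∈ conjugatesOf d, ∀ b ∈ conjugatesOf d, Odd (orderOf (a * b)))
    (x : G) (hx : orderOf x = 2) :
    ∀ e ∈ conjugatesOf d,
      ∃! a : G, a ∈ conjugatesOf d ∧ Commute a x ∧ Commute e (a * x) := by
  have hc : ∀ g, ∀ a ∈ conjugatesOf d, g * a * g⁻¹ ∈ conjugatesOf d := fun g a ha =>
    IsConj.trans ha (isConj_iff.2 ⟨g, rfl⟩)
  have h2 : ∀ a ∈ conjugatesOf d, a * a = 1 := fun a ha => by
    obtain ⟨g, rfl⟩ := isConj_iff.1 ha
    rw [conj_mul, ← pow_two, ← hd, pow_orderOf_eq_one, mul_one, mul_inv_cancel]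
  have hx2 : x * x = 1 := by rw [← pow_two, ← hx, pow_orderOf_eq_one]
  have hxi : x⁻¹ = x := inv_eq_of_mul_eq_one_right hx2
  intro e he
  have hei : e⁻¹ = e := inv_eq_of_mul_eq_one_right (h2 e he)
  have uniq : ∀ a ∈ conjugatesOf d, ∀ b ∈ conjugatesOf d, a * e * a = b * e * b → a = b := fun a ha b hb h =>
    mul_left_cancel (eq_of_sq_eq (hodd e he a ha) (hodd e he b hb) (by
      rw [pow_two, pow_two, mul_assoc, ← mul_assoc a, h]; group))
  have hf := hc x e he
  rw [hxi] at hf
  obtain ⟨k, hk⟩ := hodd e he _ hf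
  set y := e * (x * e * x) with hy
  have hy1 : y ^ (2 * k + 1) = 1 := by rw [← hk, pow_orderOf_eq_one]
  have hey : ∀ n : ℕ, (y ^ n)⁻¹ * e = e * y ^ n := fun n => by
    have : e * y * e⁻¹ = y⁻¹ := by
      rw [hy, hei, ← mul_assoc, h2 e he, one_mul, mul_inv_rev, hei, inv_eq_of_mul_eq_one_right (h2 _ hf)]
    rw [← inv_pow, ← this, conj_pow, inv_mul_cancel_right]
  have ha : e * y ^ (k + 1) ∈ conjugatesOf d := by
    have := hc (y ^ ((k + 1) * (k + 1)))⁻¹ e he
    rwa [inv_inv, hey, mul_assoc, ← pow_add, show (k + 1) * (k + 1) + (k + 1) * (k + 1) =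
      (2 * k + 1) * (k + 1) + (k + 1) by ring, pow_add, pow_mul, hy1, one_pow, one_mul] at this
  have h3 : e * y ^ (k + 1) * e * (e * y ^ (k + 1)) = x * e * x := by
    rw [mul_assoc, ← mul_assoc e e, h2 e he, one_mul, mul_assoc, ← pow_add, show k + 1 + (k + 1) = 2 * k + 1 + 1 by ring,
      pow_succ, hy1, one_mul, hy, ← mul_assoc, h2 e he, one_mul]
  have key : ∀ a ∈ conjugatesOf d, (Commute a x ∧ Commute e (a * x) ↔ a * e * a = x * e * x) := fun a ha => by
    have hai : a⁻¹ = a := inv_eq_of_mul_eq_one_right (h2 a ha)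
    constructor
    · rintro ⟨h4, h5⟩
      calc a * e * a = a * (e * (a * x)) * x⁻¹ := by group
        _ = a * a * (x * e * x⁻¹) := by rw [h5.eq]; group
        _ = _ := by rw [h2 a ha, one_mul, hxi]
    · intro h
      have h4 := uniq _ (hc x a ha) a ha (by
        calc x * a * x⁻¹ * e * (x * a * x⁻¹) = x * a * (x⁻¹ * e * x) * a * x⁻¹ := by group
          _ = x * (a * a) * e * (a * a) * x⁻¹ := by rw [hxi, ← h]; group
          _ = _ := by rw [h2 a ha, h, hxi]; group)
      refine ⟨(mul_inv_eq_iff_eq_mul.1 h4).symm, ?_⟩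
      calc e * (a * x) = a⁻¹ * (a * e * a) * x := by group
        _ = a * x * e * (x * x) := by rw [h, hai]; group
        _ = _ := by rw [hx2, mul_one]
  exact ⟨_, ⟨ha, (key _ ha).2 h3⟩, fun b hb => uniq _ hb.1 _ ha (((key b hb.1).1 hb.2).trans h3.symm)⟩

end Cfsg.Agent.S5562
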