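import Cfsg.Statements.S5596
import Cfsg.Agent.Even.XS3
import Cfsg.Agent.Loc.ElemAb

set_option autoImplicit false
open Cfsg

namespace Cfsg.Agent.S5596

open Subgroup CL.Grp CL.Even CL.Loc Matrix
open scoped commutatorElement

theorem exists_transv {G : Type*} [Group G] [Finite G] {u : G} {Q U K : Subgroup G} (h : XE u Q)
    (hU : U ≤ Q) (hK : K ≤ U) (hu : u ∈ K) (h2 : ∀ a ∈ U, ∀ b ∈ U, a ∉ K → b ∉ K → a * b ∈ K) :
    ∃ a ∈ Q, (∀ v ∈ K, a * v * a⁻¹ = v) ∧ ∀ v ∈ U, v ∉ K → a * v * a⁻¹ = u * v := by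
  by_cases hUK : U ≤ K
  · exact ⟨1, one_mem _, by simp, fun v hv hv' => absurd (hUK hv) hv'⟩
  obtain ⟨a, ha, ha'⟩ : ∃ a ∈ centralizer (K.subgroupOf Q : Set Q),
      a ∉ centralizer (U.subgroupOf Q : Set Q) := by
    by_contra! h1
    have h3 : centralizer (centralizer (U.subgroupOf Q : Set Q) : Set Q) ≤
      centralizer (centralizer (K.subgroupOf Q : Set Q) : Set Q) := cent_mono h1
    rw [extra_centralizer_centralizer h.extra, extra_centralizer_centralizer h.extra,
      (sup_eq_left (a := K.subgroupOf Q)).mpr fun x hx => zpowers_le.mpr hu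
        (h.center_map.le ⟨x, hx, rfl⟩)] at h3
    exact hUK fun x hx => h3 (mem_sup_left (x := ⟨x, hU hx⟩) hx)
  have h1 : ∀ v ∈ K, a * v = v * a := fun v hv =>
    (congrArg Subtype.val (ha ⟨v, hU (hK hv)⟩ hv)).symm
  refine ⟨a, a.2, fun v hv => by rw [h1 v hv, mul_inv_cancel_right], fun v hv hv' => ?_⟩
  rw [← (h.mem_Z.mp (h.comm_mem a.2 (hU hv))).resolve_left fun h3 => ha' fun w hw => ?_,
    commutatorElement_def, inv_mul_cancel_right]
  by_cases hw' : (w : G) ∈ K
  · exact ha w hw'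
  · have h4 := h1 _ (h2 v hv w hw hv' hw')
    rw [← mul_assoc, commutatorElement_eq_one_iff_mul_comm.mp h3, mul_assoc, mul_assoc,
      mul_right_inj] at h4
    exact Subtype.ext h4.symm


/-- Setting: `z` is an involution of the finite group `G`; for each element `x`, `Q x` is the largest normal 2-subgroup of the centralizer of `x`; `Q z` is extraspecial and contains its own centralizer in `G`. A subgroup `U` is singular when it is elementary abelian, every non-identity element of `U` is conjugate to `z`, and any two non-identity elements `u`, `v` of `U` are orthogonal (`v ∈ Q u`). Write `QU` for the intersection of the `Q u` and `LU` for the join of the `Q u` over the non-identity `u` in `U`. If `U` is singular of order `2 ^ n` with `n ≥ 2`, then `U ≤ QU ≤ LU`, `LU` normalizes `U`, and `LU` induces on `U` its full automorphism group (the general linear group of dimension `n` over the field with two elements): every automorphism of `U` is conjugation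 by some element of `LU`. -/
theorem result {G : Type*} [Group G] [Finite G]
    (Q : G → Subgroup G)
    (hQ : ∀ x : G, Q x = (Cfsg.pCore 2 ↥(Subgroup.centralizer ({x} : Set G))).map (Subgroup.centralizer ({x} : Set G)).subtype)
    (z : G) (hz : orderOf z = 2) (hE : Cfsg.IsExtraspecial 2 ↥(Q z))
    (hC : Subgroup.centralizer ((Q z : Subgroup G) : Set G) ≤ Q z)
    (U : Subgroup G) (hU2 : ∀ u ∈ U, u * u = 1)
    (hS : ∀ u ∈ U, u ≠ 1 → ∃ g : G, g * z * g⁻¹ = u)
    (hO : ∀ u ∈ U, ∀ v ∈ U, u ≠ 1 → v ≠ 1 → v ∈ Q u)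
    (QU LU : Subgroup G) (hQU : QU = ⨅ u ∈ ((U : Set G) \ {1}), Q u) (hLU : LU = ⨆ u ∈ ((U : Set G) \ {1}), Q u)
    (n : ℕ) (hn : 2 ≤ n) (hcard : Nat.card ↥U = 2 ^ n) :
    U ≤ QU ∧ QU ≤ LU ∧ LU ≤ Subgroup.normalizer (U : Set G) ∧
      ∀ φ : ↥U ≃* ↥U, ∃ g ∈ LU, ∀ u : ↥U, g * (u : G) * g⁻¹ = ((φ u : ↥U) : G) := by
  have hE' : ∀ u ∈ U, u ≠ 1 → XE u (Q u) := fun u hu hu1 => by
    obtain ⟨g, rfl⟩ := hS u hu hu1
    have := (xe_of_core hz (hQ z) hE hC).conj g
    rwa [hQ z, core_def, cj_core, cj_cent_singleton, ← core_def, ← hQ] at this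
  have hUQ : ∀ u ∈ U, u ≠ 1 → U ≤ Q u := fun u hu hu1 v hv => by
    by_cases hv1 : v = 1
    · exact hv1 ▸ one_mem _
    · exact hO u hu v hv hu1 hv1
  have hQL : ∀ u ∈ U, u ≠ 1 → Q u ≤ LU := fun u hu hu1 =>
    hLU ▸ le_iSup₂_of_le (f := fun u (_ : u ∈ (U : Set G) \ {1}) => Q u) u ⟨hu, hu1⟩ le_rfl
  obtain ⟨u, hu, hu1⟩ := U.bot_or_exists_ne_one.resolve_left fun h => by
    rw [h, card_bot] at hcard
    have := Nat.one_lt_two_pow (n := n) (by omega)
    omega
  refine ⟨hQU ▸ le_iInf₂ fun u hu => hUQ u hu.1 hu.2, (hQU ▸ iInf₂_le (f := fun u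
    (_ : u ∈ (U : Set G) \ {1}) => Q u) u ⟨hu, hu1⟩).trans (hQL u hu hu1),
    hLU ▸ iSup₂_le fun u hu => (hE' u hu.1 hu.2).le_norm_of_mem (hUQ u hu.1 hu.2) hu.1, fun φ => ?_⟩
  have hV : IsElementaryAbelian 2 U := ea_iff.mpr ⟨fun a ha b hb => by
    rw [← inv_eq_of_mul_eq_one_right (hU2 _ (mul_mem ha hb)), _root_.mul_inv_rev,
      inv_eq_of_mul_eq_one_right (hU2 a ha), inv_eq_of_mul_eq_one_right (hU2 b hb)],
    fun a ha => (pow_two a).trans (hU2 a ha)⟩
  let e := (Module.finBasis (ZMod 2) (EAMod hV)).equivFun.symm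
  let f : EAMod hV ≃+ EAMod hV := MulEquiv.toAdditive φ
  let F := LinearMap.toMatrix' (e.symm.toLinearMap ∘ₗ f.toAddMonoidHom.toZModLinearMap 2 ∘ₗ e.toLinearMap)
  have hF : ∀ v, F *ᵥ v = e.symm (f (e v)) := fun v => by
    rw [← Matrix.toLin'_apply, Matrix.toLin'_toMatrix']; rfl
  obtain ⟨g, hg, hg'⟩ := diagonal_transvection_induction_of_det_ne_zero
    (fun M => ∃ g ∈ LU, ∀ v, g * (e v).val * g⁻¹ = (e (M *ᵥ v)).val) F
    (fun h0 => by
      obtain ⟨v, hv, hv'⟩ := Matrix.exists_mulVec_eq_zero_iff.mpr h0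
      rw [hF] at hv'
      exact hv (by simpa using hv'))
    (fun D hD => ⟨1, one_mem _, fun v => by
      have : D = 1 := funext fun i => zmod2_eq_one_of_ne_zero fun h0 => hD (by
        rw [det_diagonal]; exact Finset.prod_eq_zero (Finset.mem_univ i) h0)
      simp [this]⟩)
    (fun t => by
      have h1 : (e (Pi.single t.i 1)).val ≠ 1 := by simp [EAMod.val_eq_one]
      let l : EAMod hV →ₗ[ZMod 2] ZMod 2 := t.c • LinearMap.proj t.j ∘ₗ e.symm.toLinearMap
      have hl : ∀ v, l (e v) = t.c * v t.j := fun v => by simp [l]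
      obtain ⟨a, ha, h2, h3⟩ := exists_transv (hE' _ (EAMod.val_mem hV _) h1)
        (hUQ _ (EAMod.val_mem hV _) h1) (EAMod.grp_le hV (LinearMap.ker l))
        ((EAMod.val_mem_grp hV).mpr (by simp [hl, t.hij.symm])) (fun a ha b hb ha' hb' => by
          obtain ⟨a, rfl⟩ := EAMod.exists_val_eq hV ha
          obtain ⟨b, rfl⟩ := EAMod.exists_val_eq hV hb
          rw [EAMod.val_mem_grp, LinearMap.mem_ker] at ha' hb'
          rw [← EAMod.val_add, EAMod.val_mem_grp, LinearMap.mem_ker, map_add,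
            zmod2_eq_one_of_ne_zero ha', zmod2_eq_one_of_ne_zero hb', zmod2_add_self])
      refine ⟨a, hQL _ (EAMod.val_mem hV _) h1 ha, fun v => ?_⟩
      have h4 : t.toMatrix *ᵥ v = (t.c * v t.j) • Pi.single t.i 1 + v := by
        rw [TransvectionStruct.toMatrix, transvection, add_mulVec, one_mulVec, single_mulVec, add_comm]
        congr 1; ext k; simp [Pi.single_apply, Function.update_apply]
      rw [h4, ← hl]
      rcases zmod2_cases (l (e v)) with h5 | h5
      · rw [h2 _ ((EAMod.val_mem_grp hV).mpr h5), h5, zero_smul, zero_add]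
      · rw [h3 _ (EAMod.val_mem hV _) (fun h6 => zero_ne_one (((EAMod.val_mem_grp hV).mp h6).symm.trans h5)),
          h5, one_smul, map_add, EAMod.val_add])
    (fun A B _ _ ⟨a, ha, ha'⟩ ⟨b, hb, hb'⟩ => ⟨a * b, mul_mem ha hb, fun v => by
      rw [← mulVec_mulVec, ← ha', ← hb']; group⟩)
  refine ⟨g, hg, fun u => ?_⟩
  have := hg' (e.symm (EAMod.mk hV u u.2))
  rw [hF, e.apply_symm_apply, e.apply_symm_apply] at this
  exact this

end Cfsg.Agent.S5596
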