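import Cfsg.Statements.S5597
import Cfsg.Agent.Even.XS3

set_option autoImplicit false
open Cfsg

namespace Cfsg.Agent.S5597

open Subgroup CL.Grp CL.Even
open scoped commutatorElement

/-- Setting: `z` is an involution of the finite group `G`; for each element `x`, `Q x` is the largest normal 2-subgroup of the centralizer of `x`; `Q z` is extraspecial and contains its own centralizer in `G`. A subgroup `U` is singular when it is elementary abelian, every non-identity element of `U` is conjugate to `z`, and any two non-identity elements `u`, `v` of `U` are orthogonal (`v ∈ Q u`). Write `QU` for the intersection of the `Q u` and `LU` for the join of the `Q u` over the non-identity `u` in `U`. If `U` is a non-trivial singular subgroup, then `LU` acts trivially on `QU / U` (every commutator of an element of `LU` with an element of `QU` lies in `U`), and for every `x` in `QU` outside `U` the centralizer of `U` in `LU` permutes the coset `x U` transitively: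 each `x u` with `u ∈ U` is a conjugate of `x` by an element of `LU` centralizing `U`. -/
theorem result {G : Type*} [Group G] [Finite G]
    (Q : G → Subgroup G)
    (hQ : ∀ x : G, Q x = (Cfsg.pCore 2 ↥(Subgroup.centralizer ({x} : Set G))).map (Subgroup.centralizer ({x} : Set G)).subtype)
    (z : G) (hz : orderOf z = 2) (hE : Cfsg.IsExtraspecial 2 ↥(Q z))
    (hC : Subgroup.centralizer ((Q z : Subgroup G) : Set G) ≤ Q z)
    (U : Subgroup G) (hU2 : ∀ u ∈ U, u * u = 1)
    (hS : ∀ u ∈ U, u ≠ 1 → ∃ g : G, g * z * g⁻¹ = u)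
    (hO : ∀ u ∈ U, ∀ v ∈ U, u ≠ 1 → v ≠ 1 → v ∈ Q u)
    (QU LU : Subgroup G) (hQU : QU = ⨅ u ∈ ((U : Set G) \ {1}), Q u) (hLU : LU = ⨆ u ∈ ((U : Set G) \ {1}), Q u)
    (hU : U ≠ ⊥) :
    (∀ g ∈ LU, ∀ x ∈ QU, g * x * g⁻¹ * x⁻¹ ∈ U) ∧
      ∀ x ∈ QU, x ∉ U → ∀ u ∈ U, ∃ g ∈ LU ⊓ Subgroup.centralizer (U : Set G), g * x * g⁻¹ = x * u := by
  have hE' : ∀ u ∈ U, u ≠ 1 → XE u (Q u) := fun u hu hu1 => by
    obtain ⟨g, rfl⟩ := hS u hu hu1
    have := (xe_of_core hz (hQ z) hE hC).conj g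
    rwa [hQ z, core_def, cj_core, cj_cent_singleton, ← core_def, ← hQ] at this
  have hUQ : ∀ u ∈ U, u ≠ 1 → U ≤ Q u := fun u hu hu1 v hv => by
    by_cases hv1 : v = 1
    · exact hv1 ▸ one_mem _
    · exact hO u hu v hv hu1 hv1
  have hQL : ∀ u ∈ U, u ≠ 1 → Q u ≤ LU := fun u hu hu1 =>
    hLU ▸ le_iSup₂_of_le (f := fun u (_ : u ∈ (U : Set G) \ {1}) => Q u) u ⟨hu, hu1⟩ le_rfl
  have hQU' : ∀ u ∈ U, u ≠ 1 → QU ≤ Q u := fun u hu hu1 =>
    hQU ▸ iInf₂_le (f := fun u (_ : u ∈ (U : Set G) \ {1}) => Q u) u ⟨hu, hu1⟩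
  refine ⟨fun g hg => ?_, fun x hx hxU u hu => ?_⟩
  · let K : Subgroup G :=
      { carrier := {g | g ∈ normalizer (U : Set G) ∧ ∀ x ∈ QU, g * x * g⁻¹ * x⁻¹ ∈ U}
        one_mem' := ⟨one_mem _, fun x _ => by simp⟩
        mul_mem' := fun {a b} ha hb => ⟨mul_mem ha.1 hb.1, fun x hx => by
          have := mul_mem ((mem_normalizer_iff.mp ha.1 _).mp (hb.2 x hx)) (ha.2 x hx)
          convert this using 1
          group⟩
        inv_mem' := fun {a} ha => ⟨inv_mem ha.1, fun x hx => by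
          have := (mem_normalizer_iff.mp (inv_mem ha.1) _).mp (inv_mem (ha.2 x hx))
          convert this using 1
          group⟩ }
    have : LU ≤ K := hLU ▸ iSup₂_le fun u hu y hy =>
      ⟨(hE' u hu.1 hu.2).le_norm_of_mem (hUQ u hu.1 hu.2) hu.1 hy, fun x hx =>
        zpowers_le.mpr hu.1 ((hE' u hu.1 hu.2).comm_mem hy (hQU' u hu.1 hu.2 hx))⟩
    exact (this hg).2
  · by_cases hu1 : u = 1
    · exact ⟨1, one_mem _, by simp [hu1]⟩
    have h := hE' u hu hu1
    have hx' := hQU' u hu hu1 hx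
    obtain ⟨a, ha, ha'⟩ : ∃ a ∈ centralizer (U.subgroupOf (Q u) : Set (Q u)),
        a * ⟨x, hx'⟩ ≠ ⟨x, hx'⟩ * a := by
      by_contra! h1
      have h3 : (⟨x, hx'⟩ : Q u) ∈ centralizer (centralizer (U.subgroupOf (Q u) : Set (Q u)) :
        Set (Q u)) := fun a ha => h1 a ha
      rw [extra_centralizer_centralizer h.extra, (sup_eq_left (a := U.subgroupOf (Q u))).mpr
        fun x hx => zpowers_le.mpr hu (h.center_map.le ⟨x, hx, rfl⟩)] at h3
      exact hxU h3
    refine ⟨a, ⟨hQL u hu hu1 a.2, fun v hv =>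
      congrArg Subtype.val (ha ⟨v, hUQ u hu hu1 hv⟩ hv)⟩, ?_⟩
    have h4 := (h.mem_Z.mp (h.comm_mem a.2 hx')).resolve_left fun h3 =>
      ha' (Subtype.ext (commutatorElement_eq_one_iff_mul_comm.mp h3))
    rw [commutatorElement_def] at h4
    rw [h.comm hx', ← mul_inv_eq_iff_eq_mul, h4]

end Cfsg.Agent.S5597
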