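import Cfsg.Statements.S5598
import Cfsg.Agent.Even.XS3

set_option autoImplicit false
open Cfsg

namespace Cfsg.Agent.S5598

open Subgroup CL.Grp CL.Even
open scoped commutatorElement

/-- Setting: `z` is an involution of the finite group `G`; for each element `x`, `Q x` is the largest normal 2-subgroup of the centralizer of `x`; `Q z` is extraspecial and contains its own centralizer in `G`. A subgroup `U` is singular when it is elementary abelian, every non-identity element of `U` is conjugate to `z`, and any two non-identity elements `u`, `v` of `U` are orthogonal (`v ∈ Q u`). Write `QU` for the intersection of the `Q u` and `LU` for the join of the `Q u` over the non-identity `u` in `U`. If the singular subgroup `U` is generated by a set `T` of non-identity elements, then `QU` is already the intersection of the `Q t` over `t ∈ T`. -/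
theorem result {G : Type*} [Group G] [Finite G]
    (Q : G → Subgroup G)
    (hQ : ∀ x : G, Q x = (Cfsg.pCore 2 ↥(Subgroup.centralizer ({x} : Set G))).map (Subgroup.centralizer ({x} : Set G)).subtype)
    (z : G) (hz : orderOf z = 2) (hE : Cfsg.IsExtraspecial 2 ↥(Q z))
    (hC : Subgroup.centralizer ((Q z : Subgroup G) : Set G) ≤ Q z)
    (U : Subgroup G) (hU2 : ∀ u ∈ U, u * u = 1)
    (hS : ∀ u ∈ U, u ≠ 1 → ∃ g : G, g * z * g⁻¹ = u)
    (hO : ∀ u ∈ U, ∀ v ∈ U, u ≠ 1 → v ≠ 1 → v ∈ Q u)
    (QU LU : Subgroup G) (hQU : QU = ⨅ u ∈ ((U : Set G) \ {1}), Q u) (hLU : LU = ⨆ u ∈ ((U : Set G) \ {1}), Q u)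
    (T : Set G) (hT : Subgroup.closure T = U) (hT1 : (1 : G) ∉ T) :
    QU = ⨅ t ∈ T, Q t := by
  have hE' : ∀ u ∈ U, u ≠ 1 → XE u (Q u) := fun u hu hu1 => by
    obtain ⟨g, rfl⟩ := hS u hu hu1
    have := (xe_of_core hz (hQ z) hE hC).conj g
    rwa [hQ z, core_def, cj_core, cj_cent_singleton, ← core_def, ← hQ] at this
  have hUQ : ∀ u ∈ U, u ≠ 1 → U ≤ Q u := fun u hu hu1 v hv => by
    by_cases hv1 : v = 1
    · exact hv1 ▸ one_mem _
    · exact hO u hu v hv hu1 hv1
  have key : ∀ u ∈ U, ∀ v ∈ U, u ≠ 1 → v ≠ 1 → u * v ≠ 1 → ∀ x ∈ Q u, x ∈ Q v → x ∈ Q (u * v) :=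
    fun u hu v hv hu1 hv1 huv x hxu hxv => by
      have h := hE' u hu hu1
      obtain ⟨a, ha, hav⟩ := h.exists_conj_eq_mul (hUQ u hu hu1 hv) (h.not_mem_cent (hUQ u hu hu1 hv)
        ((pow_two v).trans (hU2 v hv)) hv1 fun e => huv (e ▸ hU2 v hv))
      have h1 : Q (u * v) = cj a (Q v) := by
        rw [hQ v, core_def, cj_core, cj_cent_singleton, ← core_def, ← hQ, hav]
      have h2 : a * x * a⁻¹ ∈ Q (u * v) := h1 ▸ mem_cj.mpr (by simpa [mul_assoc] using hxv)
      have h3 : ⁅a, x⁆ ∈ Q (u * v) :=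
        hUQ _ (mul_mem hu hv) huv (zpowers_le.mpr hu (h.comm_mem ha hxu))
      have := mul_mem (inv_mem h3) h2
      rwa [show ⁅a, x⁆⁻¹ * (a * x * a⁻¹) = x by rw [commutatorElement_def]; group] at this
  have hTU : ∀ t ∈ T, t ∈ U := fun t ht => hT ▸ subset_closure ht
  refine le_antisymm (le_iInf₂ fun t ht => hQU ▸ iInf₂_le (f := fun u
    (_ : u ∈ (U : Set G) \ {1}) => Q u) t ⟨hTU t ht, fun e => hT1 (e ▸ ht)⟩) fun x hx => ?_
  rw [hQU, mem_iInf]
  intro u
  rw [mem_iInf]
  intro hu
  have : ∀ u ∈ closure T, u ≠ 1 → x ∈ Q u := fun u hu => by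
    induction hu using closure_induction with
    | mem t ht => exact fun _ => mem_iInf.mp (mem_iInf.mp hx t) ht
    | one => exact fun h => absurd rfl h
    | mul a b ha hb iha ihb =>
      intro hab
      by_cases ha1 : a = 1
      · subst ha1; rw [one_mul] at hab ⊢; exact ihb hab
      by_cases hb1 : b = 1
      · subst hb1; rw [mul_one] at hab ⊢; exact iha hab
      exact key a (hT ▸ ha) b (hT ▸ hb) ha1 hb1 hab x (iha ha1) (ihb hb1)
    | inv a ha iha =>
      rw [inv_eq_of_mul_eq_one_right (hU2 a (hT ▸ ha))]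
      exact iha
  exact this u (hT ▸ hu.1) hu.2

end Cfsg.Agent.S5598
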