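import Cfsg.Statements.S5607
import Cfsg.Agent.Spor.M24Class

set_option autoImplicit false
open scoped Pointwise
open Cfsg

namespace Cfsg.Agent.S5607

open CL.Spor MulAction

/-- For a fixed-point-free involution t of the group of the length-24 code: its centraliser in that group has order 7680, is transitive on the 24 points, and is contained, together with t, in the stabiliser of some sextet. -/
theorem result (t : Equiv.Perm Cfsg.GolayPt) (ht : t ∈ Cfsg.M24) (h₂ : orderOf t = 2) (h₀ : ∀ p, t p ≠ p) : Nat.card {c : Equiv.Perm Cfsg.GolayPt // c ∈ Cfsg.M24 ∧ c * t = t * c} = 7680 ∧ (∀ p q : Cfsg.GolayPt, ∃ c ∈ Cfsg.M24, c * t = t * c ∧ c p = q) ∧ ∃ S ∈ Cfsg.sextets, t • S = S ∧ ∀ c ∈ Cfsg.M24, c * t = t * c → c • S = S := by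
  obtain ⟨c, e⟩ := class_2B (x := ⟨t, ht⟩) ((Subgroup.orderOf_coe _).symm.trans h₂) (by
    rw [Finset.card_eq_zero.2 (Finset.eq_empty_iff_forall_notMem.2 fun p hp => h₀ p (mem_fixSet.1 hp))]; norm_num)
  have e' : (⟨t, ht⟩ : M24) = c⁻¹ * m24 r2B * c⁻¹⁻¹ := by rw [← e]; group
  have hC : ∀ k : M24, k ∈ Subgroup.centralizer {(⟨t, ht⟩ : M24)} ↔ c * k * c⁻¹ ∈ Subgroup.centralizer {m24 r2B} := by
    intro k; rw [e', centralizer_conj, Subgroup.mem_map_equiv]; simp
  have hC' : ∀ k : M24, k ∈ Subgroup.centralizer {(⟨t, ht⟩ : M24)} ↔ (k : Equiv.Perm GolayPt) * t = t * k := by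
    intro k; rw [Subgroup.mem_centralizer_singleton_iff, Subtype.ext_iff]; rfl
  have hS : Subgroup.centralizer {m24 r2B} ≤ stabilizer M24 (sext 2268) :=
    chainC2B.eq_gen ▸ gen_le (good_sext_all chainC2B.1 (by norm_num) (by decide +kernel))
  have hS' : ∀ k : M24, k ∈ Subgroup.centralizer {(⟨t, ht⟩ : M24)} → k • c⁻¹ • sext 2268 = c⁻¹ • sext 2268 := by
    intro k hk
    have := mem_stabilizer_iff.1 (hS ((hC k).1 hk))
    rw [mul_smul, mul_smul, smul_eq_iff_eq_inv_smul] at this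
    exact this
  refine ⟨?_, fun p q => ?_, c⁻¹ • sext 2268, (smul_mem_sextets_iff _).2 (sext_mem (by decide +kernel)),
    hS' ⟨t, ht⟩ ((hC' _).2 rfl), fun k hk h => hS' ⟨k, hk⟩ ((hC' _).2 h)⟩
  · rw [← card_C2B, ← e, card_centralizer_conj]
    exact Nat.card_congr
      { toFun := fun k => ⟨⟨k.1, k.2.1⟩, (hC' _).2 k.2.2⟩
        invFun := fun k => ⟨k.1.1, k.1.2, (hC' _).1 k.2⟩
        left_inv := fun _ => rfl
        right_inv := fun _ => rfl }
  · obtain ⟨k, hk, h⟩ := exists_fix_smul_of_orb chainC2B.1 (b := 23) (m := 16777215) (by norm_num) (by decide +kernel)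
      (p := c • p) (q := c • q) (by simp [ofMask_full]) (by simp [ofMask_full])
    exact ⟨(c⁻¹ * k * c : M24), Subtype.prop _, (hC' _).1 ((hC _).2 (by simpa [mul_assoc] using hk)), conj_back c k h⟩

end Cfsg.Agent.S5607
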