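import Cfsg.Statements.S5713
import Cfsg.Agent.Perm.Babai

set_option autoImplicit false
open Cfsg

namespace Cfsg.Agent.S5713

/-- A classification-free minimal-degree bound. Let G be a finite group acting faithfully and primitively on a finite set Ω with n elements, and suppose that the image of G in the symmetric group on Ω does not contain the alternating group on Ω. Then every non-identity element of G moves at least (√n − 1)/2 points of Ω, that is, it fixes at most n − (√n − 1)/2 points. -/
theorem result {G Ω : Type*} [Group G] [Finite G] [MulAction G Ω] [FaithfulSMul G Ω] [Fintype Ω] [DecidableEq Ω]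
    (hprim : MulAction.IsPreprimitive G Ω)
    (hA : ¬ alternatingGroup Ω ≤ (MulAction.toPermHom G Ω).range)
    (g : G) (hg : g ≠ 1) :
    (Real.sqrt (Fintype.card Ω) - 1) / 2 ≤ (Fintype.card Ω : ℝ) - Nat.card (MulAction.fixedBy Ω g) := by
  have h1 : MulAction.IsPreprimitive (MulAction.toPermHom G Ω).range Ω := by
    let f : Ω →ₑ[(MulAction.toPermHom G Ω).rangeRestrict] Ω :=
      { toFun := id
        map_smul' := fun _ _ => rfl }
    exact MulAction.IsPreprimitive.of_surjective (f := f) Function.surjective_id
  have h2 := CL.Perm.card_le_sq_support h1 hA (g := MulAction.toPermHom G Ω g) ⟨g, rfl⟩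
    fun e => hg (MulAction.toPerm_injective (e.trans (map_one (MulAction.toPermHom G Ω)).symm))
  have h3 : (MulAction.toPermHom G Ω g).support.card + Nat.card (MulAction.fixedBy Ω g) = Fintype.card Ω := by
    rw [Nat.card_eq_fintype_card, Fintype.card_subtype, add_comm, ← Finset.card_univ,
      ← Finset.card_filter_add_card_filter_not (s := Finset.univ) (fun x => x ∈ MulAction.fixedBy Ω g)]
    congr 2
  rw [← h3] at h2 ⊢
  generalize (MulAction.toPermHom G Ω g).support.card = m at h2 ⊢
  have h4 : Real.sqrt ((m + Nat.card (MulAction.fixedBy Ω g) : ℕ) : ℝ) ≤ 2 * m + 1 :=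
    Real.sqrt_le_iff.2 ⟨by positivity, by exact_mod_cast h2⟩
  push_cast at h4 ⊢
  linarith

end Cfsg.Agent.S5713
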