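import Cfsg.Statements.S5722
import Cfsg.Agent.Perm.Fisher

set_option autoImplicit false
open Cfsg

namespace Cfsg.Agent.S5722

/-- If a finite group G acts faithfully on a finite set with n points and r orbits, then the composition length of G is at most 4(n − r)/3. Here the composition length is expressed through chains: the conclusion bounds the length l of every chain of subgroups 1 = H₀ < H₁ < ⋯ < H_l = G in which each term is normal in the next (the longest such chains are exactly the composition series). -/
theorem result {G Ω : Type*} [Group G] [Finite G] [MulAction G Ω] [FaithfulSMul G Ω] [Fintype Ω]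
    (l : ℕ) (H : Fin (l + 1) → Subgroup G) (h0 : H 0 = ⊥) (hl : H (Fin.last l) = ⊤)
    (hchain : ∀ i : Fin l, H i.castSucc < H i.succ ∧ ((H i.castSucc).subgroupOf (H i.succ)).Normal) :
    3 * l ≤ 4 * (Fintype.card Ω - Nat.card (Quotient (MulAction.orbitRel G Ω))) := by
  classical
  have hch : ∀ k (hk : k < l + 1), CL.Perm.SubChain ⊥ (H ⟨k, hk⟩) k := by
    intro k
    induction k with
    | zero => intro hk; rw [show H ⟨0, hk⟩ = ⊥ from h0]; exact CL.Perm.SubChain.refl _
    | succ k ih =>
      intro hk
      obtain ⟨h1, h2⟩ := hchain ⟨k, by omega⟩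
      refine CL.Perm.SubChain.step (ih (by omega)) h1 fun b hb c hc => ?_
      exact h2.conj_mem ⟨b, h1.le hb⟩ hb ⟨c, hc⟩
  have h1 := hch l (by omega)
  rw [show H ⟨l, by omega⟩ = ⊤ from hl] at h1
  have h2 := h1.le_clen
  let e := Fintype.equivFin Ω
  let f : G →* Equiv.Perm (Fin (Fintype.card Ω)) := e.permCongrHom.toMonoidHom.comp (MulAction.toPermHom G Ω)
  have hf : Function.Injective f := e.permCongrHom.injective.comp MulAction.toPerm_injective
  have : Finite (Quotient (MulAction.orbitRel G Ω)) := Quotient.finite _
  let e' := Finite.equivFin (Quotient (MulAction.orbitRel G Ω))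
  have h3 := CL.Perm.fisher_bound _ f.range (Fin (Fintype.card Ω)) rfl _
    (fun x => e' (Quotient.mk _ (e.symm x)))
    (e'.surjective.comp (Quotient.mk_surjective.comp e.symm.surjective)) (by
      rintro ⟨_, g, rfl⟩ x
      refine congrArg e' (Quotient.sound ⟨g, ?_⟩)
      show g • e.symm x = e.symm (e (g • e.symm x))
      rw [Equiv.symm_apply_apply])
  rw [← CL.Perm.clen_congr (MonoidHom.ofInjective hf)] at h3
  simp only [Nat.card_eq_fintype_card (α := Fin _), Fintype.card_fin] at h3
  omega

end Cfsg.Agent.S5722
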