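import Cfsg.Statements.S5729
import Cfsg.Agent.Base

set_option autoImplicit false
open Cfsg

namespace Cfsg.Agent.S5729

open MulAction


/-- Let a finite group G act faithfully and transitively on a set with n ≥ 3 points. Then either G is a Frobenius permutation group (Frobenius as a permutation group: transitive, some non-identity element fixes a point, and no non-identity element fixes two points) of order n(n − 1) and exactly |G|/n of its elements are derangements (fix no point), or the number of derangements is greater than |G|/n. -/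
theorem result {G Ω : Type*} [Group G] [Finite G] [MulAction G Ω] [FaithfulSMul G Ω] [Fintype Ω] (htr : MulAction.IsPretransitive G Ω) (hn : 3 ≤ Fintype.card Ω) :
    ((MulAction.IsPretransitive G Ω ∧ (∃ g : G, g ≠ 1 ∧ ∃ ω : Ω, g • ω = ω) ∧ ∀ g : G, g ≠ 1 → Nat.card (MulAction.fixedBy Ω g) ≤ 1) ∧ Nat.card G = Fintype.card Ω * (Fintype.card Ω - 1) ∧ Fintype.card Ω * Nat.card {g : G // ∀ ω : Ω, g • ω ≠ ω} = Nat.card G) ∨
    Nat.card G < Fintype.card Ω * Nat.card {g : G // ∀ ω : Ω, g • ω ≠ ω} := by
  classical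
  let _ := Fintype.ofFinite G
  set n := Fintype.card Ω with hn'
  set π : G → ℕ := fun g => Fintype.card (fixedBy Ω g) with hπ
  have hne : Nonempty Ω := Fintype.card_pos_iff.1 (by omega)
  have hnt : Nontrivial Ω := Fintype.one_lt_card_iff_nontrivial.1 (by omega)
  have h1 : ∑ g, π g = Fintype.card G := by
    have := sum_card_fixedBy_eq_card_orbits_mul_card_group G Ω
    have hu : Fintype.card (orbitRel.Quotient G Ω) = 1 := by
      rw [Fintype.card_eq_one_iff]
      obtain ⟨a⟩ := hne
      refine ⟨Quotient.mk _ a, fun y => ?_⟩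
      induction y using Quotient.inductionOn with
      | _ y => exact Quotient.sound (by
          obtain ⟨g, hg⟩ := exists_smul_eq G a y
          exact ⟨g, hg⟩)
    convert this using 1
    rw [hu, one_mul]
  have h2 : 2 * Fintype.card G ≤ ∑ g, π g ^ 2 := by
    have := sum_card_fixedBy_eq_card_orbits_mul_card_group G (Ω × Ω)
    have hu : 2 ≤ Fintype.card (orbitRel.Quotient G (Ω × Ω)) := by
      obtain ⟨a, b, hab⟩ := exists_pair_ne Ω
      rw [show 2 = 1 + 1 from rfl, Nat.succ_le_iff, Fintype.one_lt_card_iff]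
      refine ⟨Quotient.mk _ (a, b), Quotient.mk _ (a, a), fun h => hab ?_⟩
      obtain ⟨g, hg⟩ := Quotient.exact h
      have h1 : g • a = a := congrArg Prod.fst hg
      have h2 : g • a = b := congrArg Prod.snd hg
      rw [← h1, h2]
    have h3 : ∀ g : G, Fintype.card (fixedBy (Ω × Ω) g) = π g ^ 2 := fun g => by
      rw [sq, hπ, ← Fintype.card_prod]
      exact Fintype.card_congr
        { toFun := fun x => (⟨x.1.1, congrArg Prod.fst x.2⟩, ⟨x.1.2, congrArg Prod.snd x.2⟩)
          invFun := fun x => ⟨(x.1.1, x.2.1), Prod.ext x.1.2 x.2.2⟩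
          left_inv := fun _ => rfl
          right_inv := fun _ => rfl }
    rw [← Finset.sum_congr rfl fun g _ => h3 g, this]
    exact Nat.mul_le_mul_right _ hu
  have hle : ∀ g, π g ≤ n := fun g => Fintype.card_subtype_le _
  have hone : π 1 = n := by simp [hπ, hn']
  have heq : ∀ g, π g = n → g = 1 := fun g hg => by
    have : (Finset.univ.filter fun x => x ∈ fixedBy Ω g) = Finset.univ := by
      apply Finset.eq_univ_of_card
      rw [← hn', ← hg, hπ]
      exact (Fintype.card_subtype _).symm
    apply FaithfulSMul.eq_of_smul_eq_smul (α := Ω)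
    intro x
    have hx : x ∈ Finset.univ.filter fun x => x ∈ fixedBy Ω g := by rw [this]; exact Finset.mem_univ x
    rw [one_smul]
    exact (Finset.mem_filter.1 hx).2
  have hder : ∀ g : G, (∀ ω : Ω, g • ω ≠ ω) ↔ π g = 0 := fun g => by
    rw [hπ, Fintype.card_eq_zero_iff]
    exact ⟨fun h => ⟨fun x => h x.1 x.2⟩, fun h ω hω => h.false ⟨ω, hω⟩⟩
  set d := Nat.card {g : G // ∀ ω : Ω, g • ω ≠ ω} with hd
  have hd' : (d : ℤ) = ∑ g, if π g = 0 then (1 : ℤ) else 0 := by
    rw [hd, Nat.card_eq_fintype_card, Fintype.card_subtype, Finset.sum_boole]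
    congr 2
    ext g
    simp [hder]
  -- the defect terms
  set t : G → ℤ := fun g => (if π g = 0 then (n : ℤ) else 0) - ((π g : ℤ) - 1) * ((π g : ℤ) - n) with ht
  have ht0 : ∀ g, 0 ≤ t g := fun g => by
    have := hle g
    by_cases h : π g = 0
    · simp [ht, h]
    · simp only [ht, if_neg h]
      have h1 : (0 : ℤ) ≤ (π g : ℤ) - 1 := by omega
      have h2 : (0 : ℤ) ≤ (n : ℤ) - π g := by omega
      nlinarith [mul_nonneg h1 h2]
  have h1' : ∑ g, (π g : ℤ) = Fintype.card G := by exact_mod_cast h1
  have h2' : 2 * (Fintype.card G : ℤ) ≤ ∑ g, (π g : ℤ) ^ 2 := by exact_mod_cast h2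
  have hsum : ∑ g, t g = n * d - (∑ g, (π g : ℤ) ^ 2 - Fintype.card G) := by
    have : ∀ g, t g = n * (if π g = 0 then (1 : ℤ) else 0) - ((π g : ℤ) ^ 2 - (n + 1) * π g + n) := fun g => by
      simp only [ht]; split_ifs <;> ring
    rw [Finset.sum_congr rfl fun g _ => this g, Finset.sum_sub_distrib, ← Finset.mul_sum, ← hd',
      Finset.sum_add_distrib, Finset.sum_sub_distrib, ← Finset.mul_sum, h1', Finset.sum_const, Finset.card_univ]
    simp only [nsmul_eq_mul]
    ring
  have hs0 : 0 ≤ ∑ g, t g := Finset.sum_nonneg fun g _ => ht0 g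
  rw [Nat.card_eq_fintype_card (α := G)]
  by_cases hlt : Fintype.card G < n * d
  · exact Or.inr hlt
  left
  have hge : (n : ℤ) * d ≤ Fintype.card G := by exact_mod_cast not_lt.1 hlt
  have hz : ∑ g, t g = 0 := by linarith
  have hnd : (n : ℤ) * d = Fintype.card G := by linarith
  have hall : ∀ g, g ≠ 1 → π g ≤ 1 := fun g hg => by
    have h0 := (Finset.sum_eq_zero_iff_of_nonneg fun g _ => ht0 g).1 hz g (Finset.mem_univ g)
    by_cases h : π g = 0
    · omega
    · simp only [ht, if_neg h, zero_sub, neg_eq_zero, mul_eq_zero] at h0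
      rcases h0 with h0 | h0
      · omega
      · exact absurd (heq g (by omega)) hg
  have hcount : (Fintype.card G : ℤ) = (n - 1) + Fintype.card G - d := by
    have : ∀ g, (π g : ℤ) = (if g = 1 then (n : ℤ) - 1 else 0) + 1 - (if π g = 0 then (1 : ℤ) else 0) := fun g => by
      by_cases hg : g = 1
      · subst hg
        rw [hone, if_pos rfl, if_neg (by omega)]; ring
      · have := hall g hg
        rw [if_neg hg]
        split_ifs <;> omega
    conv_lhs => rw [← h1', Finset.sum_congr rfl fun g _ => this g]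
    rw [Finset.sum_sub_distrib, Finset.sum_add_distrib, ← hd']
    simp
  have hdn : d = n - 1 := by omega
  have hG : Fintype.card G = n * (n - 1) := by rw [← hdn]; exact_mod_cast hnd.symm
  refine ⟨⟨htr, ?_, fun g hg => ?_⟩, hG, by rw [hG, hdn]⟩
  · by_contra hc
    push Not at hc
    have : ∑ g, π g = n := by
      rw [Finset.sum_eq_single 1 (fun g _ hg => (hder g).1 (hc g hg)) (by simp), hone]
    rw [h1, hG] at this
    have h3 : n * 2 ≤ n * (n - 1) := Nat.mul_le_mul_left _ (by omega)
    omega
  · rw [Nat.card_eq_fintype_card]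
    exact hall g hg

end Cfsg.Agent.S5729
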