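import Cfsg.Statements.S5730
import Cfsg.Agent.Perm.DerTwo
import Cfsg.Agent.S5729

set_option autoImplicit false
open Cfsg

namespace Cfsg.Agent.S5730

/-- Let a finite group G act faithfully and transitively on a set with n ≥ 7 points. Then either G is a Frobenius permutation group (Frobenius as a permutation group: transitive, some non-identity element fixes a point, and no non-identity element fixes two points) of order n(n − 1)/a with a ∈ {1, 2}, in which case exactly a|G|/n of its elements are derangements, or the number of derangements is at least 2|G|/n. (Equality does occur: PSL₃(2) acting on the 7 points of the Fano plane has exactly 2|G|/7 derangements.) -/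
theorem result {G Ω : Type*} [Group G] [Finite G] [MulAction G Ω] [FaithfulSMul G Ω] [Fintype Ω] (htr : MulAction.IsPretransitive G Ω) (hn : 7 ≤ Fintype.card Ω) :
    (∃ a : ℕ, (a = 1 ∨ a = 2) ∧ (MulAction.IsPretransitive G Ω ∧ (∃ g : G, g ≠ 1 ∧ ∃ ω : Ω, g • ω = ω) ∧ ∀ g : G, g ≠ 1 → Nat.card (MulAction.fixedBy Ω g) ≤ 1) ∧ a * Nat.card G = Fintype.card Ω * (Fintype.card Ω - 1) ∧ Fintype.card Ω * Nat.card {g : G // ∀ ω : Ω, g • ω ≠ ω} = a * Nat.card G) ∨
    2 * Nat.card G ≤ Fintype.card Ω * Nat.card {g : G // ∀ ω : Ω, g • ω ≠ ω} := by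
  classical
  let _ := Fintype.ofFinite G
  have hne : Nonempty Ω := Fintype.card_pos_iff.1 (by omega)
  have hnt : Nontrivial Ω := Fintype.one_lt_card_iff_nontrivial.1 (by omega)
  have hfx : ∀ g : G, Fintype.card (MulAction.fixedBy Ω g) = CL.DerTwo.fx Ω g := fun g => by
    rw [Fintype.card_subtype]; rfl
  have h1 : ∑ g : G, CL.DerTwo.fx Ω g = Fintype.card G := by
    have := MulAction.sum_card_fixedBy_eq_card_orbits_mul_card_group G Ω
    have hu : Fintype.card (MulAction.orbitRel.Quotient G Ω) = 1 := by
      rw [Fintype.card_eq_one_iff]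
      obtain ⟨a⟩ := hne
      refine ⟨Quotient.mk _ a, fun y => ?_⟩
      induction y using Quotient.inductionOn with
      | _ y => exact Quotient.sound (MulAction.exists_smul_eq G a y)
    simp only [hfx] at this
    rw [this]
    convert one_mul _
  have hd : Nat.card {g : G // ∀ ω : Ω, g • ω ≠ ω} =
      (Finset.univ.filter fun g : G => CL.DerTwo.fx Ω g = 0).card := by
    rw [Nat.card_eq_fintype_card, Fintype.card_subtype]
    congr 1
    ext g
    simp [CL.DerTwo.fx]
  obtain ⟨a, b, hab⟩ := exists_pair_ne Ω
  by_cases T : CL.DerTwo.Two G Ω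
  · have hG : Fintype.card G =
        Fintype.card Ω * (Fintype.card Ω - 1) * Nat.card (CL.DerTwo.S2 G a b) := by
      have e1 := Subgroup.index_mul_card (MulAction.stabilizer G (a, b))
      have e2 : MulAction.stabilizer G (a, b) = CL.DerTwo.S2 G a b := by
        ext g; simp [CL.DerTwo.mem_S2]
      have e3 : MulAction.orbit G (a, b) = ((Finset.univ : Finset Ω).offDiag : Set (Ω × Ω)) := by
        ext p
        simp only [Finset.coe_offDiag, Finset.coe_univ, Set.mem_offDiag, Set.mem_univ, true_and]
        constructor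
        · rintro ⟨g, rfl⟩ e
          exact hab (smul_left_cancel g e)
        · intro e
          obtain ⟨g, h1, h2⟩ := T a b p.1 p.2 hab e
          exact ⟨g, Prod.ext h1 h2⟩
      rw [MulAction.index_stabilizer, e2, e3, Set.ncard_coe_finset, Finset.offDiag_card,
        Finset.card_univ, Nat.card_eq_fintype_card (α := G)] at e1
      rw [← e1, Nat.mul_sub_one]
    by_cases hh : CL.DerTwo.S2 G a b = ⊥
    · rw [hh, Subgroup.card_bot, mul_one, ← Nat.card_eq_fintype_card] at hG
      rcases Cfsg.Agent.S5729.result htr (by omega) with h | h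
      · exact Or.inl ⟨1, Or.inl rfl, h.1, by rw [one_mul, h.2.1], by rw [one_mul, h.2.2]⟩
      · exfalso
        have hle : ∀ g : G, g ≠ 1 → CL.DerTwo.fx Ω g ≤ 1 := fun g hg => by
          rw [CL.DerTwo.fx, Finset.card_le_one]
          intro x hx y hy
          by_contra hxy
          have h2 := T.card_S2 hab hxy
          rw [hh, Subgroup.card_bot, Subgroup.card_eq_one] at h2
          exact hg (Subgroup.mem_bot.1 (h2 ▸ CL.DerTwo.mem_S2.2
            ⟨(Finset.mem_filter.1 hx).2, (Finset.mem_filter.1 hy).2⟩))
        have h3 : ∀ g : G, CL.DerTwo.fx Ω g + (if CL.DerTwo.fx Ω g = 0 then 1 else 0) =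
            1 + if g = 1 then Fintype.card Ω - 1 else 0 := fun g => by
          by_cases hg : g = 1
          · subst hg
            have : CL.DerTwo.fx Ω (1 : G) = Fintype.card Ω := by simp [CL.DerTwo.fx]
            rw [this, if_neg (by omega), if_pos rfl]; omega
          · have := hle g hg
            rw [if_neg hg]
            split_ifs <;> omega
        have h4 := Finset.sum_congr rfl fun g (_ : g ∈ Finset.univ) => h3 g
        rw [Finset.sum_add_distrib, Finset.sum_add_distrib, h1, ← Finset.card_filter, ← hd] at h4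
        simp only [Finset.sum_const, Finset.card_univ, smul_eq_mul, mul_one, Finset.sum_ite_eq',
          Finset.mem_univ, if_true, add_right_inj] at h4
        rw [h4, hG] at h
        exact lt_irrefl _ h
    · right
      rw [hd, Nat.card_eq_fintype_card]
      exact CL.DerTwo.two_bound T hn hab hh h1 hG
  · right
    simp only [CL.DerTwo.Two, not_forall] at T
    obtain ⟨x, y, z, w, hxy, hzw, hT⟩ := T
    have h2 : 3 * Fintype.card G ≤ ∑ g : G, CL.DerTwo.fx Ω g ^ 2 := by
      have := MulAction.sum_card_fixedBy_eq_card_orbits_mul_card_group G (Ω × Ω)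
      have hu : 2 < Fintype.card (MulAction.orbitRel.Quotient G (Ω × Ω)) := by
        rw [Fintype.two_lt_card_iff]
        refine ⟨Quotient.mk _ (z, w), Quotient.mk _ (x, y), Quotient.mk _ (x, x), fun h => ?_,
          fun h => ?_, fun h => ?_⟩
        · obtain ⟨g, hg⟩ := Quotient.exact h
          exact hT ⟨g, congrArg Prod.fst hg, congrArg Prod.snd hg⟩
        · obtain ⟨g, hg⟩ := Quotient.exact h
          exact hzw ((congrArg Prod.fst hg).symm.trans (congrArg Prod.snd hg))
        · obtain ⟨g, hg⟩ := Quotient.exact h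
          exact hxy ((congrArg Prod.fst hg).symm.trans (congrArg Prod.snd hg))
      have h3 : ∀ g : G, Fintype.card (MulAction.fixedBy (Ω × Ω) g) = CL.DerTwo.fx Ω g ^ 2 :=
        fun g => by
          rw [sq, ← hfx, ← Fintype.card_prod]
          exact Fintype.card_congr
            { toFun := fun x => (⟨x.1.1, congrArg Prod.fst x.2⟩, ⟨x.1.2, congrArg Prod.snd x.2⟩)
              invFun := fun x => ⟨(x.1.1, x.2.1), Prod.ext x.1.2 x.2.2⟩
              left_inv := fun _ => rfl
              right_inv := fun _ => rfl }
      rw [← Finset.sum_congr rfl fun g _ => h3 g, this]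
      exact Nat.mul_le_mul_right _ hu
    have h4 : ∀ g : G, CL.DerTwo.fx Ω g ^ 2 + Fintype.card Ω ≤
        (Fintype.card Ω + 1) * CL.DerTwo.fx Ω g +
          Fintype.card Ω * if CL.DerTwo.fx Ω g = 0 then 1 else 0 := fun g => by
      have hle : CL.DerTwo.fx Ω g ≤ Fintype.card Ω := Finset.card_le_univ _
      split_ifs with h
      · simp [h]
      · obtain ⟨i, hi⟩ := Nat.exists_eq_succ_of_ne_zero h
        obtain ⟨j, hj⟩ := Nat.exists_eq_add_of_le hle
        rw [hj, hi]
        simp only [Nat.succ_eq_add_one]
        nlinarith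
    have h5 := Finset.sum_le_sum fun g (_ : g ∈ Finset.univ) => h4 g
    rw [Finset.sum_add_distrib, Finset.sum_add_distrib, ← Finset.mul_sum, ← Finset.mul_sum, h1,
      ← Finset.card_filter, ← hd, Finset.sum_const, Finset.card_univ, smul_eq_mul] at h5
    rw [Nat.card_eq_fintype_card (α := G)]
    nlinarith

end Cfsg.Agent.S5730
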