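import Cfsg.Statements.S5946
import Cfsg.Agent.Base


set_option autoImplicit false
open Cfsg

namespace Cfsg.Agent.S5946

theorem mem_singer {F K : Type*} [Field F] [Field K] [Algebra F K] (g : (Module.End F K)ˣ) :
    g ∈ (Units.map ((Algebra.lmul F K : K →ₐ[F] Module.End F K) : K →* Module.End F K)).range ↔
      ∃ a : K, ∀ y, (g : Module.End F K) y = a * y := by
  constructor
  · rintro ⟨a, rfl⟩
    exact ⟨a, fun y => rfl⟩
  · rintro ⟨a, ha⟩
    have h0 : a ≠ 0 := by
      rintro rfl
      have h1 : ((g * g⁻¹ : (Module.End F K)ˣ) : Module.End F K) 1 = 1 := by simp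
      rw [Units.val_mul, Module.End.mul_apply, ha] at h1
      simp at h1
    exact ⟨Units.mk0 a h0, Units.ext (LinearMap.ext fun y => (ha y).symm)⟩

theorem apply_one_ne {F K : Type*} [Field F] [Field K] [Algebra F K] (g : (Module.End F K)ˣ) :
    (g : Module.End F K) 1 ≠ 0 := by
  intro h
  have h1 : ((g⁻¹ * g : (Module.End F K)ˣ) : Module.End F K) 1 = 1 := by simp
  rw [Units.val_mul, Module.End.mul_apply, h] at h1
  simp at h1


/-- Let F ⊆ K be finite fields with [K : F] = n ≥ 2 and regard K as an n-dimensional F-vector space. The Singer group M ≤ GL_F(K) of multiplications by the non-zero elements of K is self-centralizing: every F-linear automorphism of K commuting with all of M lies in M. -/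
theorem result {F K : Type*} [Field F] [Fintype F] [Field K] [Fintype K] [Algebra F K] (n : ℕ) (hn : 2 ≤ n) (hdim : Module.finrank F K = n) :
    Subgroup.centralizer (((Units.map ((Algebra.lmul F K : K →ₐ[F] Module.End F K) : K →* Module.End F K)).range : Subgroup (Module.End F K)ˣ) : Set (Module.End F K)ˣ) = (Units.map ((Algebra.lmul F K : K →ₐ[F] Module.End F K) : K →* Module.End F K)).range := by
  ext g
  rw [Subgroup.mem_centralizer_iff]
  constructor
  · intro h
    rw [mem_singer]
    refine ⟨(g : Module.End F K) 1, fun y => ?_⟩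
    by_cases hy : y = 0
    · simp [hy]
    · have := congrArg (fun u : (Module.End F K)ˣ => (u : Module.End F K) 1) (h _ ⟨Units.mk0 y hy, rfl⟩)
      simp at this
      rw [← this, mul_comm]
  · rintro ⟨a, rfl⟩ _ ⟨b, rfl⟩
    rw [← map_mul, ← map_mul, mul_comm]

end Cfsg.Agent.S5946
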