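import Cfsg.Statements.S5738
import Cfsg.Agent.S5946

set_option autoImplicit false
open Cfsg

namespace Cfsg.Agent.S5738

open Cfsg.Agent.S5946

/-- `y ↦ c * σ y` as a unit of the endomorphism ring. -/
noncomputable def semi {F K : Type*} [Field F] [Field K] [Algebra F K] (c : Kˣ) (σ : K ≃ₐ[F] K) :
    (Module.End F K)ˣ :=
  Units.map ((Algebra.lmul F K : K →ₐ[F] Module.End F K) : K →* Module.End F K) c *
    (LinearMap.GeneralLinearGroup.ofLinearEquiv σ.toLinearEquiv)

theorem semi_apply {F K : Type*} [Field F] [Field K] [Algebra F K] (c : Kˣ) (σ : K ≃ₐ[F] K) (y : K) :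
    (semi c σ : Module.End F K) y = c * σ y := rfl

theorem inv_apply {F K : Type*} [Field F] [Field K] [Algebra F K] (g : (Module.End F K)ˣ) (y : K) :
    (g : Module.End F K) (((g⁻¹ : (Module.End F K)ˣ) : Module.End F K) y) = y := by
  rw [← Module.End.mul_apply, ← Units.val_mul, mul_inv_cancel]; rfl

theorem apply_inv {F K : Type*} [Field F] [Field K] [Algebra F K] (g : (Module.End F K)ˣ) (y : K) :
    ((g⁻¹ : (Module.End F K)ˣ) : Module.End F K) ((g : Module.End F K) y) = y := by
  rw [← Module.End.mul_apply, ← Units.val_mul, inv_mul_cancel]; rfl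


/-- Let F ⊆ K be finite fields with |F| = q and [K : F] = n ≥ 2, so |K| = q^n. Regard K as an n-dimensional F-vector space; the multiplications by non-zero elements of K form a cyclic subgroup of GL_F(K) of order q^n − 1 acting regularly on the non-zero vectors (a Singer group). Its normaliser in GL_F(K) has order n·(q^n − 1). -/
theorem result {F K : Type*} [Field F] [Fintype F] [Field K] [Fintype K] [Algebra F K] (n : ℕ) (hn : 2 ≤ n) (hdim : Module.finrank F K = n) :
    Nat.card (Subgroup.normalizer (((Units.map ((Algebra.lmul F K : K →ₐ[F] Module.End F K) : K →* Module.End F K)).range : Subgroup (Module.End F K)ˣ) : Set (Module.End F K)ˣ)) = n * (Fintype.card K - 1) := by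
  classical
  set M := (Units.map ((Algebra.lmul F K : K →ₐ[F] Module.End F K) : K →* Module.End F K)).range with hM
  have hmem : ∀ (c : Kˣ) (σ : K ≃ₐ[F] K), semi c σ ∈ Subgroup.normalizer (M : Set (Module.End F K)ˣ) := by
    intro c σ
    rw [Subgroup.mem_normalizer_iff]
    intro h
    rw [mem_singer, mem_singer]
    constructor
    · rintro ⟨a, ha⟩
      refine ⟨σ a, fun y => ?_⟩
      obtain ⟨z, rfl⟩ : ∃ z, y = (semi c σ : Module.End F K) z := ⟨_, (inv_apply _ y).symm⟩
      rw [Units.val_mul, Units.val_mul, Module.End.mul_apply, Module.End.mul_apply, apply_inv, ha,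
        semi_apply, semi_apply, map_mul]
      ring
    · rintro ⟨a, ha⟩
      refine ⟨σ.symm a, fun y => ?_⟩
      have := ha ((semi c σ : Module.End F K) y)
      rw [Units.val_mul, Units.val_mul, Module.End.mul_apply, Module.End.mul_apply, apply_inv,
        semi_apply, semi_apply] at this
      apply σ.injective
      rw [map_mul, AlgEquiv.apply_symm_apply]
      apply mul_left_cancel₀ c.ne_zero
      rw [this]; ring
  have hbij : Function.Bijective (fun x : (K ≃ₐ[F] K) × Kˣ =>
      (⟨semi x.2 x.1, hmem _ _⟩ : Subgroup.normalizer (M : Set (Module.End F K)ˣ))) := by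
    constructor
    · rintro ⟨σ, c⟩ ⟨τ, d⟩ h
      have h' : ∀ y, (c : K) * σ y = d * τ y := fun y =>
        congrArg (fun u : Subgroup.normalizer (M : Set (Module.End F K)ˣ) => (u.1 : Module.End F K) y) h
      have hcd : c = d := Units.ext (by simpa using h' 1)
      subst hcd
      exact Prod.ext (AlgEquiv.ext fun y => mul_left_cancel₀ c.ne_zero (h' y)) rfl
    · rintro ⟨g, hg⟩
      have h0 := apply_one_ne g
      set c : K := (g : Module.End F K) 1 with hc
      have hmul : ∀ a y : K, (g : Module.End F K) (a * y) = c⁻¹ * (g : Module.End F K) a * (g : Module.End F K) y := by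
        intro a y
        by_cases ha : a = 0
        · simp [ha]
        obtain ⟨b, hb⟩ := (mem_singer _).1 (((Subgroup.mem_normalizer_iff.1 hg) _).1 ⟨Units.mk0 a ha, rfl⟩)
        have h1 : ∀ z, (g : Module.End F K) (a * z) = b * (g : Module.End F K) z := fun z => by
          have := hb ((g : Module.End F K) z)
          rw [Units.val_mul, Units.val_mul, Module.End.mul_apply, Module.End.mul_apply, apply_inv] at this
          exact this
        have h2 := h1 1
        rw [mul_one] at h2
        rw [h1, h2, ← hc]
        field_simp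
      let u : (Module.End F K)ˣ :=
        Units.map ((Algebra.lmul F K : K →ₐ[F] Module.End F K) : K →* Module.End F K) (Units.mk0 c h0)⁻¹ * g
      have hu : ∀ y, (LinearMap.GeneralLinearGroup.toLinearEquiv u) y = c⁻¹ * (g : Module.End F K) y := fun y => by
        simp [u]
      let σ : K ≃ₐ[F] K := AlgEquiv.ofLinearEquiv (LinearMap.GeneralLinearGroup.toLinearEquiv u)
        (by rw [hu, ← hc, inv_mul_cancel₀ h0]) (fun a y => by rw [hu, hu, hu, hmul]; ring)
      refine ⟨(σ, Units.mk0 c h0), Subtype.ext (Units.ext (LinearMap.ext fun y => ?_))⟩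
      show c * (LinearMap.GeneralLinearGroup.toLinearEquiv u) y = _
      rw [hu, ← mul_assoc, mul_inv_cancel₀ h0, one_mul]
  rw [← Nat.card_eq_of_bijective _ hbij, Nat.card_prod, IsGalois.card_aut_eq_finrank, hdim, Nat.card_units,
    Nat.card_eq_fintype_card]

end Cfsg.Agent.S5738
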