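import Cfsg.Statements.S5739
import Cfsg.Agent.S5738

set_option autoImplicit false
open Cfsg

namespace Cfsg.Agent.S5739

open Cfsg.Agent.S5946 Cfsg.Agent.S5738

/-- The field of all `a` whose multiplication is a `g`-conjugate of a multiplication. -/
def fld {F K : Type*} [Field F] [Field K] [Algebra F K] (g : (Module.End F K)ˣ) : IntermediateField F K where
  carrier := {a | ∃ b, ∀ y, a * (g : Module.End F K) y = (g : Module.End F K) (b * y)}
  mul_mem' := by
    rintro a a' ⟨b, hb⟩ ⟨b', hb'⟩
    exact ⟨b * b', fun y => by rw [mul_assoc, hb', hb, mul_assoc]⟩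
  add_mem' := by
    rintro a a' ⟨b, hb⟩ ⟨b', hb'⟩
    exact ⟨b + b', fun y => by rw [add_mul, hb', hb, add_mul, map_add]⟩
  algebraMap_mem' := fun r => ⟨algebraMap F K r, fun y => by
    rw [← Algebra.smul_def, ← Algebra.smul_def, map_smul]⟩
  inv_mem' := by
    rintro a ⟨b, hb⟩
    by_cases ha : a = 0
    · exact ⟨0, fun y => by simp [ha]⟩
    have hb0 : b ≠ 0 := by
      rintro rfl
      have := hb 1
      rw [zero_mul, map_zero] at this
      exact mul_ne_zero ha (apply_one_ne g) this
    refine ⟨b⁻¹, fun y => ?_⟩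
    have := hb (b⁻¹ * y)
    rw [mul_inv_cancel_left₀ hb0] at this
    rw [← this, inv_mul_cancel_left₀ ha]


/-- Let F ⊆ K be finite fields with |F| = q and [K : F] = n ≥ 2, and let M ≤ GL_F(K) be the Singer group of multiplications by non-zero elements of K. If g ∈ GL_F(K) does not normalise M, then the order of M ∩ gMg⁻¹ divides q^r − 1 for some proper divisor r of n. In particular, when n is prime, that order divides q − 1. -/
theorem result {F K : Type*} [Field F] [Fintype F] [Field K] [Fintype K] [Algebra F K] (n : ℕ) (hn : 2 ≤ n) (hdim : Module.finrank F K = n)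
    (g : (Module.End F K)ˣ) (hg : ((Units.map ((Algebra.lmul F K : K →ₐ[F] Module.End F K) : K →* Module.End F K)).range).map (MulAut.conj g).toMonoidHom ≠ (Units.map ((Algebra.lmul F K : K →ₐ[F] Module.End F K) : K →* Module.End F K)).range) :
    ∃ r : ℕ, 1 ≤ r ∧ r ∣ n ∧ r < n ∧ Nat.card ↥(((Units.map ((Algebra.lmul F K : K →ₐ[F] Module.End F K) : K →* Module.End F K)).range).map (MulAut.conj g).toMonoidHom ⊓ (Units.map ((Algebra.lmul F K : K →ₐ[F] Module.End F K) : K →* Module.End F K)).range) ∣ Fintype.card F ^ r - 1 := by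
  classical
  set M := (Units.map ((Algebra.lmul F K : K →ₐ[F] Module.End F K) : K →* Module.End F K)).range with hM
  have hfin : Finite (Module.End F K) := Finite.of_injective _ (DFunLike.coe_injective (F := Module.End F K))
  have hne : fld g ≠ ⊤ := by
    intro h
    apply hg
    symm
    apply Subgroup.eq_of_le_of_card_ge
    · rintro _ ⟨a, rfl⟩
      obtain ⟨b, hb⟩ : (a : K) ∈ fld g := h ▸ IntermediateField.mem_top
      refine ⟨g⁻¹ * Units.map ((Algebra.lmul F K : K →ₐ[F] Module.End F K) : K →* Module.End F K) a * g,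
        (mem_singer _).2 ⟨b, fun y => ?_⟩, by simp [mul_assoc]⟩
      rw [Units.val_mul, Units.val_mul, Module.End.mul_apply, Module.End.mul_apply, ← apply_inv g (b * y), ← hb]
      rfl
    · exact (Subgroup.card_map_of_injective (MulAut.conj g).injective).le
  have hmul : Module.finrank F (fld g) * Module.finrank (fld g) K = n := by
    rw [Module.finrank_mul_finrank, hdim]
  have h1 : Module.finrank (fld g) K ≠ 1 := fun h => hne (IntermediateField.finrank_eq_one_iff_eq_top.1 h)
  have hp1 : 0 < Module.finrank F (fld g) := Module.finrank_pos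
  have hp2 : 0 < Module.finrank (fld g) K := Module.finrank_pos
  refine ⟨Module.finrank F (fld g), hp1, ⟨_, hmul.symm⟩, ?_, ?_⟩
  · rw [← hmul]
    exact lt_mul_of_one_lt_right hp1 (by omega)
  · have hcM : IsCyclic M := isCyclic_of_surjective _ (MonoidHom.rangeRestrict_surjective _)
    have hc : IsCyclic ↥(M.map (MulAut.conj g).toMonoidHom ⊓ M) := Subgroup.isCyclic_of_le inf_le_right
    rw [← IsCyclic.exponent_eq_card, Monoid.exponent_dvd_iff_forall_pow_eq_one]
    rintro ⟨x, ⟨z, hz, hzx⟩, ⟨a, rfl⟩⟩
    obtain ⟨b, hb⟩ := (mem_singer _).1 hz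
    have ha : (a : K) ∈ fld g := ⟨b, fun y => by
      have := congrArg (fun u : (Module.End F K)ˣ => (u : Module.End F K) ((g : Module.End F K) y)) hzx
      simp only [MulEquiv.toMonoidHom_eq_coe, MonoidHom.coe_coe, MulAut.conj_apply] at this
      rw [Units.val_mul, Units.val_mul, Module.End.mul_apply, Module.End.mul_apply, apply_inv, hb] at this
      exact this.symm⟩
    let _ := Fintype.ofFinite (fld g)
    have hpow := FiniteField.pow_card_sub_one_eq_one (⟨a, ha⟩ : fld g)
      (fun h => a.ne_zero (congrArg Subtype.val h))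
    rw [Module.card_eq_pow_finrank (K := F)] at hpow
    have hpow' : a ^ (Fintype.card F ^ Module.finrank F (fld g) - 1) = 1 :=
      Units.ext (by simpa using congrArg Subtype.val hpow)
    apply Subtype.ext
    show (Units.map _ a) ^ _ = 1
    rw [← map_pow, hpow', map_one]

end Cfsg.Agent.S5739
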