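import Cfsg.Statements.S5746
import Cfsg.Agent.Comp.G24J2

set_option autoImplicit false
open Cfsg

namespace Cfsg.Agent.S5746

open CL.PG CL.Comp.G24J

/-- The Chevalley group G₂(4) (over the field with 4 elements) has a maximal subgroup H isomorphic to the Hall–Janko group J₂ such that for every x outside H the intersection H ∩ xHx⁻¹ is a maximal subgroup of H; that is, the action of G₂(4) on the cosets of H is extremely primitive. -/
theorem result {F : Type*} [Field F] [Fintype F] (hF : Fintype.card F = 4) :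
    ∃ H : Subgroup (Cfsg.Lie.chevG2.group F), IsCoatom H ∧ Cfsg.Spor.IsoJ2 H ∧
      ∀ x : Cfsg.Lie.chevG2.group F, x ∉ H → IsCoatom ((H ⊓ H.map (MulAut.conj x).toMonoidHom).subgroupOf H) := by
  have c := xctx CL.Std.G24c.c1 (faithful_eF _) fun _ _ => trivial
  have e0 : subW (ext CL.Std.G24c.gs1 xws) [[0], [2]] = subW CL.Std.G24c.gs1 [[0], [2]] :=
    subW_ext (xlen CL.Std.G24c.c1) _ (by decide +kernel)
  have hU : UB (subW (ext CL.Std.G24c.gs1 xws) [[0], [2]]) 251596800 := e0 ▸ CL.Std.G24c.ub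
  have hx := xG_ex c hU
  have hH : UB (subW (ext CL.Std.G24c.gs1 xws) [[4], [6]]) 604800 := hx.tail.ub (by decide +kernel) (by norm_num)
  obtain ⟨f⟩ := CL.Std.G24c.iso hF
  obtain ⟨H, h1, ⟨k⟩, h2⟩ := exists_extPrim (f.symm.trans (MulEquiv.subgroupCongr e0.symm)) hx.stab (xmax c hU) (by
    intro b hb hne
    rw [hx.orbit] at hb
    have h3 := mset_subM cov hb
    rw [mset_lor, mset_lor, mset_bit _ (by decide), ← (xH0_ex c hH).orbit, ← (xH1_ex c hH).orbit] at h3
    rcases h3 with h3 | h3 | h3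
    · exact absurd h3 hne
    · exact isCoatom_stabilizer_of_mem_orbit (xmax0 c hH) h3
    · exact isCoatom_stabilizer_of_mem_orbit (xmax1 c hH) h3)
  have e1 := hH.eq_of_lb (xY_lb c) (xYle c)
  obtain ⟨j⟩ := (xrel c CL.Std.J2.c1 ((faithful_eF _).mono le_top)).equiv_of_card (hH.mono (xYle c)) CL.Std.J2.G_lb'
  exact ⟨H, h1, ⟨k.trans ((MulEquiv.subgroupCongr e1.symm).trans (j.trans CL.Std.J2.iso.some))⟩, h2⟩

end Cfsg.Agent.S5746
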