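import Cfsg.Statements.S5747
import Cfsg.Agent.Base

set_option autoImplicit false
open Cfsg

namespace Cfsg.Agent.S5747

/-- Irredundant bases of a subgroup. -/
def Irr {G Ω : Type*} [Group G] [MulAction G Ω] (H : Subgroup G) {t : ℕ} (f : Fin t → Ω) : Prop :=
  (∀ g ∈ H, (∀ i, g • f i = f i) → g = 1) ∧ ∀ i, ∃ g ∈ H, (∀ j, j < i → g • f j = f j) ∧ g • f i ≠ f i

variable {G Ω : Type*} [Group G] [MulAction G Ω]

theorem irr_cons (H : Subgroup G) {t : ℕ} (a : Ω) (f : Fin t → Ω) :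
    Irr H (Fin.cons a f : Fin (t + 1) → Ω) ↔ (∃ g ∈ H, g • a ≠ a) ∧ Irr (H ⊓ MulAction.stabilizer G a) f := by
  constructor
  · rintro ⟨h1, h2⟩
    refine ⟨?_, fun g hg hf => h1 g hg.1 (Fin.cases hg.2 hf), fun i => ?_⟩
    · obtain ⟨g, hg, -, h⟩ := h2 0
      exact ⟨g, hg, h⟩
    · obtain ⟨g, hg, h, h'⟩ := h2 i.succ
      exact ⟨g, ⟨hg, h 0 (Fin.succ_pos i)⟩, fun j hj => h j.succ (Fin.succ_lt_succ_iff.2 hj), h'⟩
  · rintro ⟨⟨g, hg, ha⟩, h1, h2⟩
    refine ⟨fun x hx hf => h1 x ⟨hx, hf 0⟩ fun i => hf i.succ, Fin.cases ⟨g, hg, fun j hj => absurd hj (Fin.not_lt_zero j), ha⟩ fun i => ?_⟩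
    obtain ⟨x, hx, h, h'⟩ := h2 i
    exact ⟨x, hx.1, Fin.cases (fun _ => hx.2) fun j hj => h j (Fin.succ_lt_succ_iff.1 hj), h'⟩

theorem shorter (H : Subgroup G) : ∀ (t : ℕ) (f : Fin t → Ω), (∀ g ∈ H, (∀ i, g • f i = f i) → g = 1) →
    Irr H f ∨ ∃ t' < t, ∃ f' : Fin t' → Ω, Irr H f' := by
  intro t
  induction t with
  | zero => exact fun f hf => Or.inl ⟨hf, fun i => i.elim0⟩
  | succ t ih =>
    intro f hf
    by_cases h : Irr H f
    · exact Or.inl h
    right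
    obtain ⟨i, hi⟩ : ∃ i, ∀ g ∈ H, (∀ j, j < i → g • f j = f j) → g • f i = f i := by
      by_contra hc
      push Not at hc
      exact h ⟨hf, hc⟩
    rcases ih (f ∘ i.succAbove) (fun g hg hx => hf g hg fun k => by
      have hk : ∀ k, k ≠ i → g • f k = f k := fun k hk => by
        obtain ⟨l, rfl⟩ := Fin.exists_succAbove_eq hk
        exact hx l
      by_cases e : k = i
      · exact e ▸ hi g hg fun j hj => hk j hj.ne
      · exact hk k e) with h' | ⟨t', ht', h'⟩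
    · exact ⟨t, Nat.lt_succ_self t, _, h'⟩
    · exact ⟨t', ht'.trans (Nat.lt_succ_self t), h'⟩

/-- Reorderings of irredundant bases are irredundant bases. -/
def Reord (Ω : Type*) [MulAction G Ω] (H : Subgroup G) : Prop :=
  ∀ (t : ℕ) (f : Fin t → Ω) (σ : Equiv.Perm (Fin t)), Irr H f → Irr H (f ∘ σ)

theorem Reord.stab {H : Subgroup G} (h : Reord Ω H) {a : Ω} (ha : ∃ g ∈ H, g • a ≠ a) :
    Reord Ω (H ⊓ MulAction.stabilizer G a) := by
  intro t f σ hf
  have := h (t + 1) (Fin.cons a f) (Equiv.Perm.decomposeFin.symm (0, σ)) ((irr_cons H a f).2 ⟨ha, hf⟩)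
  have e : (Fin.cons a f : Fin (t + 1) → Ω) ∘ (Equiv.Perm.decomposeFin.symm (0, σ)) = Fin.cons a (f ∘ σ) := by
    ext i
    refine Fin.cases ?_ (fun j => ?_) i <;> simp
  rw [e] at this
  exact ((irr_cons H a _).1 this).2

theorem Reord.swap {H : Subgroup G} (h : Reord Ω H) {t : ℕ} {a b : Ω} {f : Fin t → Ω}
    (hf : Irr H (Fin.cons a (Fin.cons b f : Fin (t + 1) → Ω) : Fin (t + 1 + 1) → Ω)) :
    Irr H (Fin.cons b (Fin.cons a f : Fin (t + 1) → Ω) : Fin (t + 1 + 1) → Ω) := by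
  have := h _ _ (Equiv.swap 0 (Fin.succ 0)) hf
  convert this using 1
  ext i
  refine Fin.cases ?_ (fun j => Fin.cases ?_ (fun k => ?_) j) i
  · simp only [Function.comp_apply, Equiv.swap_apply_left, Fin.cons_zero, Fin.cons_succ]
  · simp only [Function.comp_apply, Equiv.swap_apply_right, Fin.cons_zero, Fin.cons_succ]
  · rw [Function.comp_apply, Equiv.swap_apply_of_ne_of_ne (Fin.succ_ne_zero _)
      (fun e => Fin.succ_ne_zero _ (Fin.succ_injective _ e))]
    simp only [Fin.cons_succ]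

theorem exists_irr {H K : Subgroup G} (hK : K ≤ H) {t : ℕ} {f : Fin t → Ω} (hf : Irr H f) :
    ∃ (t' : ℕ) (f' : Fin t' → Ω), Irr K f' := by
  rcases shorter K t f (fun g hg => hf.1 g (hK hg)) with h | ⟨t', -, h⟩
  · exact ⟨t, f, h⟩
  · exact ⟨t', h⟩

theorem same_length : ∀ (t : ℕ) (H : Subgroup G), Reord Ω H → ∀ (t' : ℕ) (f : Fin t → Ω) (f' : Fin t' → Ω),
    Irr H f → Irr H f' → t = t' := by
  intro t
  induction t with
  | zero =>
    intro H _ t' f f' hf hf'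
    rcases t' with _ | t'
    · rfl
    · obtain ⟨g, hg, -, h⟩ := hf'.2 0
      rw [hf.1 g hg fun i => i.elim0, one_smul] at h
      exact absurd rfl h
  | succ t ih =>
    intro H hH t' f f' hf hf'
    rcases t' with _ | t'
    · obtain ⟨g, hg, -, h⟩ := hf.2 0
      rw [hf'.1 g hg fun i => i.elim0, one_smul] at h
      exact absurd rfl h
    rw [← Fin.cons_self_tail f, irr_cons] at hf
    rw [← Fin.cons_self_tail f', irr_cons] at hf'
    set a := f 0
    set b := f' 0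
    congr 1
    by_cases hab : ∃ g ∈ H ⊓ MulAction.stabilizer G a, g • b ≠ b
    · obtain ⟨s, c, hc⟩ := exists_irr (K := H ⊓ MulAction.stabilizer G a ⊓ MulAction.stabilizer G b)
        inf_le_left hf.2
      have h1 := (irr_cons _ b c).2 ⟨hab, hc⟩
      have h2 := ((irr_cons _ b _).1 (hH.swap ((irr_cons _ a _).2 ⟨hf.1, h1⟩))).2
      have e := ih _ (hH.stab hf.1) _ _ _ hf.2 h1
      subst e
      exact ih _ (hH.stab hf'.1) _ _ _ h2 hf'.2
    · have hba : ¬ ∃ g ∈ H ⊓ MulAction.stabilizer G b, g • a ≠ a := by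
        intro hba
        obtain ⟨s, c, hc⟩ := exists_irr (K := H ⊓ MulAction.stabilizer G b ⊓ MulAction.stabilizer G a)
          inf_le_left hf'.2
        have h1 := (irr_cons _ a c).2 ⟨hba, hc⟩
        have h2 := ((irr_cons _ a _).1 (hH.swap ((irr_cons _ b _).2 ⟨hf'.1, h1⟩))).2
        exact hab ((irr_cons _ b c).1 h2).1
      push Not at hab hba
      have e : H ⊓ MulAction.stabilizer G a = H ⊓ MulAction.stabilizer G b :=
        le_antisymm (fun g hg => ⟨hg.1, hab g hg⟩) fun g hg => ⟨hg.1, hba g hg⟩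
      exact ih _ (hH.stab hf.1) _ _ _ hf.2 (e ▸ hf'.2)

theorem irr_top {t : ℕ} (f : Fin t → Ω) : Irr (⊤ : Subgroup G) f ↔
    ((∀ g : G, (∀ i : Fin t, g • f i = f i) → g = 1) ∧
      ∀ i : Fin t, ∃ g : G, (∀ j : Fin t, j < i → g • f j = f j) ∧ g • f i ≠ f i) := by
  simp [Irr]


/-- Let a finite group G act on a finite set Ω. An irredundant base is a sequence of points ω₁, …, ω_t whose pointwise stabiliser is trivial and in which each ω_i is moved by some element fixing ω₁, …, ω_{i−1}. Then all irredundant bases have the same length if and only if every reordering of an irredundant base is again an irredundant base. -/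
theorem result {G Ω : Type*} [Group G] [Finite G] [MulAction G Ω] [Fintype Ω] :
    (∀ (t t' : ℕ) (f : Fin t → Ω) (f' : Fin t' → Ω), ((∀ g : G, (∀ i : Fin t, g • f i = f i) → g = 1) ∧ ∀ i : Fin t, ∃ g : G, (∀ j : Fin t, j < i → g • f j = f j) ∧ g • f i ≠ f i) → ((∀ g : G, (∀ i : Fin t', g • f' i = f' i) → g = 1) ∧ ∀ i : Fin t', ∃ g : G, (∀ j : Fin t', j < i → g • f' j = f' j) ∧ g • f' i ≠ f' i) → t = t') ↔
    (∀ (t : ℕ) (f : Fin t → Ω) (σ : Equiv.Perm (Fin t)), ((∀ g : G, (∀ i : Fin t, g • f i = f i) → g = 1) ∧ ∀ i : Fin t, ∃ g : G, (∀ j : Fin t, j < i → g • f j = f j) ∧ g • f i ≠ f i) → ((∀ g : G, (∀ i : Fin t, g • (f ∘ σ) i = (f ∘ σ) i) → g = 1) ∧ ∀ i : Fin t, ∃ g : G, (∀ j : Fin t, j < i → g • (f ∘ σ) j = (f ∘ σ) j) ∧ g • (f ∘ σ) i ≠ (f ∘ σ) i)) := by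
  simp only [← irr_top]
  constructor
  · intro h t f σ hf
    rcases shorter (⊤ : Subgroup G) t (f ∘ σ) (fun g hg hx => hf.1 g hg fun i => by
      simpa using hx (σ.symm i)) with h' | ⟨t', ht', f', h'⟩
    · exact h'
    · exact absurd (h _ _ _ _ hf h') ht'.ne'
  · intro h t t' f f'
    exact same_length t ⊤ h t' f f'

end Cfsg.Agent.S5747
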