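import Cfsg.Statements.S5754
import Cfsg.Agent.Known.InvTwo

set_option autoImplicit false
open Cfsg

namespace Cfsg.Agent.S5754

/-- Let V be a finite-dimensional vector space over a finite field F carrying an anisotropic quadratic form Q (Q(v) = 0 only for v = 0). Then the group of all maps v ↦ φ(v) + c, with φ an isometry of Q and c ∈ V, acts on V as a binary permutation group: given n ≥ 2 and two n-tuples u, u' of vectors such that every pair of corresponding entries of u is carried to that of u' by such a map, one such map carries u to u'. -/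
theorem result {F V : Type*} [Field F] [Finite F] [AddCommGroup V] [Module F V] [Module.Finite F V]
    (Q : QuadraticForm F V) (hQ : Q.Anisotropic) (n : ℕ) (hn : 2 ≤ n) (u u' : Fin n → V)
    (h2 : ∀ i j : Fin n, i ≠ j → ∃ (φ : Q.IsometryEquiv Q) (c : V), φ (u i) + c = u' i ∧ φ (u j) + c = u' j) :
    ∃ (φ : Q.IsometryEquiv Q) (c : V), ∀ i, φ (u i) + c = u' i := by
  classical
  have i0 : Fin n := ⟨0, by omega⟩
  set x : Fin n → V := fun i => u i - u i0 with hx
  set y : Fin n → V := fun i => u' i - u' i0 with hy
  have hd : ∀ i j, Q (u i - u j) = Q (u' i - u' j) := by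
    intro i j
    by_cases h : i = j
    · subst h; simp
    · obtain ⟨φ, c, h1, h3⟩ := h2 i j h
      rw [← h1, ← h3, add_sub_add_right_eq_sub, ← map_sub, φ.map_app]
  have hQxy : ∀ i, Q (x i) = Q (y i) := fun i => hd i i0
  have hpol : ∀ i j, QuadraticMap.polar Q (x i) (x j) = QuadraticMap.polar Q (y i) (y j) := by
    intro i j
    have e1 : Q (x i - x j) = Q (y i - y j) := by
      simp only [hx, hy, sub_sub_sub_cancel_right]; exact hd i j
    have e2 : ∀ a b : V, QuadraticMap.polar Q a b = Q a + Q b - Q (a - b) := by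
      intro a b
      have h1 : QuadraticMap.polar Q a (-b) = - QuadraticMap.polar Q a b := QuadraticMap.polar_neg_right Q a b
      have h3 : QuadraticMap.polar Q a (-b) = Q (a - b) - Q a - Q b := by
        rw [QuadraticMap.polar, QuadraticMap.map_neg, sub_eq_add_neg a b]
      rw [h3] at h1
      linear_combination h1
    rw [e2, e2, e1, hQxy, hQxy]
  suffices h : ∃ φ : Q.IsometryEquiv Q, ∀ i, φ (x i) = y i by
    obtain ⟨φ, hφ⟩ := h
    refine ⟨φ, u' i0 - φ (u i0), fun i => ?_⟩
    have := hφ i
    simp only [hx, hy, map_sub] at this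
    rw [← sub_eq_zero] at this ⊢
    rw [← this]; abel
  by_cases hnd : ∀ v, (∀ w, QuadraticMap.polar Q v w = 0) → v = 0
  · let a : (Fin n → F) →ₗ[F] V := Fintype.linearCombination F x
    let b : (Fin n → F) →ₗ[F] V := Fintype.linearCombination F y
    have ha : ∀ i, a (Pi.single i 1) = x i := fun i => by simp [a, Fintype.linearCombination_apply_single]
    have hb : ∀ i, b (Pi.single i 1) = y i := fun i => by simp [b, Fintype.linearCombination_apply_single]
    have hab : Q.comp a = Q.comp b := by
      refine CL.Known.quad_ext_basis (Pi.basisFun F (Fin n)) (fun i => ?_) (fun i j => ?_)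
      · simp only [Pi.basisFun_apply, QuadraticMap.comp_apply, ha, hb, hQxy]
      · have := hpol i j
        simp only [QuadraticMap.polar, Pi.basisFun_apply, QuadraticMap.comp_apply, map_add, ha, hb] at this ⊢
        exact this
    have hab' : ∀ c, Q (a c) = Q (b c) := fun c => DFunLike.congr_fun hab c
    obtain ⟨s, hs⟩ := a.rangeRestrict.exists_rightInverse_of_surjective (LinearMap.range_rangeRestrict a)
    have hs' : ∀ w : LinearMap.range a, a (s w) = w := fun w =>
      congrArg Subtype.val (LinearMap.congr_fun hs w)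
    have hφQ : ∀ w : LinearMap.range a, Q ((b ∘ₗ s) w) = Q w := fun w => by
      rw [LinearMap.comp_apply, ← hab', hs']
    obtain ⟨g, -, hg, hg'⟩ := (CL.Cls.isWittForm_quad Q hnd).exists_isometry_extend (LinearMap.range a) (b ∘ₗ s)
      (by
        rw [← LinearMap.ker_eq_bot, LinearMap.ker_eq_bot']
        intro w hw
        have := hφQ w
        rw [hw, map_zero] at this
        exact Subtype.ext (hQ _ this.symm))
      (fun w w' => by
        simp only [QuadraticMap.polarBilin_apply_apply, QuadraticMap.polar]
        rw [← map_add, hφQ, hφQ, hφQ]; rfl) hφQ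
    refine ⟨⟨g, hg⟩, fun i => ?_⟩
    have h1 := hg' ⟨x i, Pi.single i 1, ha i⟩
    change g (x i) = _
    rw [h1, LinearMap.comp_apply, ← hb, ← sub_eq_zero, ← map_sub]
    apply hQ
    rw [← hab', map_sub, hs', ha, sub_self, map_zero]
  · push Not at hnd
    obtain ⟨r, hr, hr0⟩ := hnd
    have hQr : Q r ≠ 0 := fun h => hr0 (hQ r h)
    have h2F : (2 : F) = 0 := by
      have := hr r
      rw [QuadraticMap.polar_self, nsmul_eq_mul] at this
      exact (mul_eq_zero.1 this).resolve_right hQr
    haveI : CharP F 2 := (CharP.charP_iff_prime_eq_zero Nat.prime_two).2 (by exact_mod_cast h2F)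
    have hsp : ∀ v, ∃ c : F, v = c • r := by
      intro v
      obtain ⟨c, hc⟩ := (isSquare_of_charTwo' (Q v / Q r))
      refine ⟨c, sub_eq_zero.1 (hQ _ ?_)⟩
      have h1 : QuadraticMap.polar Q (-(c • r)) v = 0 := by
        rw [QuadraticMap.polar_neg_left, QuadraticMap.polar_smul_left, hr, smul_zero, neg_zero]
      rw [QuadraticMap.polar, QuadraticMap.map_neg, QuadraticMap.map_smul, smul_eq_mul, ← hc,
        div_mul_cancel₀ _ hQr, neg_add_eq_sub] at h1
      linear_combination h1 + Q v * h2F
    refine ⟨QuadraticMap.IsometryEquiv.refl Q, fun i => ?_⟩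
    change x i = y i
    obtain ⟨c, hc⟩ := hsp (x i)
    obtain ⟨d, hd'⟩ := hsp (y i)
    have h1 := hQxy i
    rw [hc, hd', QuadraticMap.map_smul, QuadraticMap.map_smul, smul_eq_mul, smul_eq_mul] at h1
    have h3 : (c - d) ^ 2 = 0 := by
      have := mul_right_cancel₀ hQr h1
      linear_combination this + (d * d - c * d) * h2F
    rw [hc, hd', sub_eq_zero.1 (pow_eq_zero_iff two_ne_zero |>.1 h3)]

end Cfsg.Agent.S5754
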