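import Cfsg.Statements.S5763
import Cfsg.Agent.Base

set_option autoImplicit false
open Cfsg

namespace Cfsg.Agent.S5763

open Equiv Equiv.Perm

/-- The standard pairing. -/
def z : Fin 8 → Fin 8 := ![1, 0, 3, 2, 5, 4, 7, 6]

/-- `g` commutes with the pairing `w` and induces an element of the four-group on the pairs. -/
def Q (w g : Fin 8 → Fin 8) : Prop :=
  (∀ i, g (w i) = w (g i)) ∧ ((∀ i, g i = i ∨ g i = w i) ∨ ∀ i, g i ≠ i ∧ g i ≠ w i ∧ (g (g i) = i ∨ g (g i) = w i))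

instance decQ (w g : Fin 8 → Fin 8) : Decidable (Q w g) := by unfold Q; infer_instance

/-- `g` preserves the binary tree. -/
def T (g : Fin 8 → Fin 8) : Prop :=
  (∀ i j : Fin 8, i.1 / 2 = j.1 / 2 ↔ (g i).1 / 2 = (g j).1 / 2) ∧ ∀ i j : Fin 8, i.1 / 4 = j.1 / 4 ↔ (g i).1 / 4 = (g j).1 / 4

instance decT (g : Fin 8 → Fin 8) : Decidable (T g) := by unfold T; infer_instance

/-- The stabiliser of the binary tree. -/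
def P : Subgroup (Perm (Fin 8)) where
  carrier := {g | T g}
  one_mem' := ⟨fun _ _ => Iff.rfl, fun _ _ => Iff.rfl⟩
  mul_mem' := fun ha hb => ⟨fun x y => (hb.1 x y).trans (ha.1 _ _), fun x y => (hb.2 x y).trans (ha.2 _ _)⟩
  inv_mem' := fun {a} ha => ⟨fun x y => by simpa using (ha.1 (a⁻¹ x) (a⁻¹ y)).symm,
    fun x y => by simpa using (ha.2 (a⁻¹ x) (a⁻¹ y)).symm⟩

theorem eq_vec {g : Fin 8 → Fin 8} (h : ∀ i, g (z i) = z (g i)) :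
    g = ![g 0, z (g 0), g 2, z (g 2), g 4, z (g 4), g 6, z (g 6)] := by
  funext i
  fin_cases i
  exacts [rfl, h 0, rfl, h 2, rfl, h 4, rfl, h 6]

theorem T_of_Q {g : Fin 8 → Fin 8} (h : Q z g) : T g := by
  have : ∀ a b c d : Fin 8, Q z ![a, z a, b, z b, c, z c, d, z d] → T ![a, z a, b, z b, c, z c, d, z d] := by
    decide +kernel
  have h2 := this (g 0) (g 2) (g 4) (g 6)
  rw [← eq_vec h.1] at h2
  exact h2 h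

theorem isPGroup : IsPGroup 2 P := by
  have key : ∀ a b c d : Fin 8, T ![a, z a, b, z b, c, z c, d, z d] →
      ∀ i, (![a, z a, b, z b, c, z c, d, z d] : Fin 8 → Fin 8)^[8] i = i := by decide +kernel
  rintro ⟨g, hg⟩
  have h1 : ∀ a b : Fin 8, a.1 / 2 = b.1 / 2 → a ≠ b → a = z b := by decide
  have h2 : ∀ i : Fin 8, (z i).1 / 2 = i.1 / 2 ∧ z i ≠ i := by decide
  have h3 : ∀ i, g (z i) = z (g i) := fun i => h1 _ _ ((hg.1 _ _).1 (h2 i).1) fun e => (h2 i).2 (g.injective e)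
  have hg' : T g := hg
  refine ⟨3, Subtype.ext (Equiv.ext fun i => ?_)⟩
  change (g ^ 8) i = i
  have h4 := key (g 0) (g 2) (g 4) (g 6)
  rw [← eq_vec h3] at h4
  rw [Perm.coe_pow]
  exact h4 hg' i

/-- The three cases for a second pairing `w`. -/
def R (w : Fin 8 → Fin 8) : Prop :=
  (∃ i, Q w (swap i (z i))) ∨ Q w z ∨ (Q z (z ∘ w ∘ z ∘ w) ∧ Q w (z ∘ w ∘ z ∘ w) ∧ z (w (z (w 0))) ≠ 0)

instance decR (w : Fin 8 → Fin 8) : Decidable (R w) := by unfold R; infer_instance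

set_option synthInstance.maxSize 100000 in
set_option synthInstance.maxHeartbeats 400000 in
theorem all_R : ∀ b0 : Fin 8, b0 ≠ 0 →
      ∀ b1 : Fin 8, b1 ≠ 1 ∧ (b0 = 1 ↔ b1 = 0) ∧ b0 ≠ b1 →
      ∀ b2 : Fin 8, b2 ≠ 2 ∧ (b0 = 2 ↔ b2 = 0) ∧ (b1 = 2 ↔ b2 = 1) ∧ b0 ≠ b2 ∧ b1 ≠ b2 →
      ∀ b3 : Fin 8, b3 ≠ 3 ∧ (b0 = 3 ↔ b3 = 0) ∧ (b1 = 3 ↔ b3 = 1) ∧ (b2 = 3 ↔ b3 = 2) ∧ b0 ≠ b3 ∧ b1 ≠ b3 ∧ b2 ≠ b3 →
      ∀ b4 : Fin 8, b4 ≠ 4 ∧ (b0 = 4 ↔ b4 = 0) ∧ (b1 = 4 ↔ b4 = 1) ∧ (b2 = 4 ↔ b4 = 2) ∧ (b3 = 4 ↔ b4 = 3) ∧ b0 ≠ b4 ∧ b1 ≠ b4 ∧ b2 ≠ b4 ∧ b3 ≠ b4 →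
      ∀ b5 : Fin 8, b5 ≠ 5 ∧ (b0 = 5 ↔ b5 = 0) ∧ (b1 = 5 ↔ b5 = 1) ∧ (b2 = 5 ↔ b5 = 2) ∧ (b3 = 5 ↔ b5 = 3) ∧ (b4 = 5 ↔ b5 = 4) ∧ b0 ≠ b5 ∧ b1 ≠ b5 ∧ b2 ≠ b5 ∧ b3 ≠ b5 ∧ b4 ≠ b5 →
      ∀ b6 : Fin 8, b6 ≠ 6 ∧ (b0 = 6 ↔ b6 = 0) ∧ (b1 = 6 ↔ b6 = 1) ∧ (b2 = 6 ↔ b6 = 2) ∧ (b3 = 6 ↔ b6 = 3) ∧ (b4 = 6 ↔ b6 = 4) ∧ (b5 = 6 ↔ b6 = 5) ∧ b0 ≠ b6 ∧ b1 ≠ b6 ∧ b2 ≠ b6 ∧ b3 ≠ b6 ∧ b4 ≠ b6 ∧ b5 ≠ b6 →
      ∀ b7 : Fin 8, b7 ≠ 7 ∧ (b0 = 7 ↔ b7 = 0) ∧ (b1 = 7 ↔ b7 = 1) ∧ (b2 = 7 ↔ b7 = 2) ∧ (b3 = 7 ↔ b7 = 3) ∧ (b4 = 7 ↔ b7 = 4) ∧ (b5 = 7 ↔ b7 = 5) ∧ (b6 = 7 ↔ b7 = 6) ∧ b0 ≠ b7 ∧ b1 ≠ b7 ∧ b2 ≠ b7 ∧ b3 ≠ b7 ∧ b4 ≠ b7 ∧ b5 ≠ b7 ∧ b6 ≠ b7 →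
      R ![b0, b1, b2, b3, b4, b5, b6, b7] := by
  decide +kernel

theorem R_of {w : Fin 8 → Fin 8} (h1 : ∀ i, w (w i) = i) (h2 : ∀ i, w i ≠ i) : R w := by
  have h3 : ∀ i j, w i = j ↔ w j = i := fun i j => ⟨fun e => e ▸ h1 i, fun e => e ▸ h1 j⟩
  have h4 : ∀ i j, i ≠ j → w i ≠ w j := fun i j h e => h (by rw [← h1 i, e, h1])
  have e : w = ![w 0, w 1, w 2, w 3, w 4, w 5, w 6, w 7] := by
    funext i
    fin_cases i <;> rfl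
  rw [e]
  exact all_R _ (h2 0)
    _ ⟨h2 1, h3 0 1, h4 0 1 (by decide)⟩
    _ ⟨h2 2, h3 0 2, h3 1 2, h4 0 2 (by decide), h4 1 2 (by decide)⟩
    _ ⟨h2 3, h3 0 3, h3 1 3, h3 2 3, h4 0 3 (by decide), h4 1 3 (by decide), h4 2 3 (by decide)⟩
    _ ⟨h2 4, h3 0 4, h3 1 4, h3 2 4, h3 3 4, h4 0 4 (by decide), h4 1 4 (by decide), h4 2 4 (by decide), h4 3 4 (by decide)⟩
    _ ⟨h2 5, h3 0 5, h3 1 5, h3 2 5, h3 3 5, h3 4 5, h4 0 5 (by decide), h4 1 5 (by decide), h4 2 5 (by decide), h4 3 5 (by decide), h4 4 5 (by decide)⟩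
    _ ⟨h2 6, h3 0 6, h3 1 6, h3 2 6, h3 3 6, h3 4 6, h3 5 6, h4 0 6 (by decide), h4 1 6 (by decide), h4 2 6 (by decide), h4 3 6 (by decide), h4 4 6 (by decide), h4 5 6 (by decide)⟩
    _ ⟨h2 7, h3 0 7, h3 1 7, h3 2 7, h3 3 7, h3 4 7, h3 5 7, h3 6 7, h4 0 7 (by decide), h4 1 7 (by decide), h4 2 7 (by decide), h4 3 7 (by decide), h4 4 7 (by decide), h4 5 7 (by decide), h4 6 7 (by decide)⟩

/-- The standard pairing as a permutation. -/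
def zp : Perm (Fin 8) := ⟨z, z, by decide, by decide⟩

theorem exists_mem (x : Perm (Fin 8)) : ∃ g ∈ P, g ≠ 1 ∧ x⁻¹ * g * x ∈ P := by
  have hz : ∀ i, z (z i) = i ∧ z i ≠ i := by decide
  have key : ∀ g : Perm (Fin 8), Q (x * zp * x⁻¹ : Perm (Fin 8)) g → x⁻¹ * g * x ∈ P := by
    rintro g ⟨h1, h2⟩
    have hw : ∀ i, (x * zp * x⁻¹ : Perm (Fin 8)) (x i) = x (z i) := fun i => by simp [zp]
    refine T_of_Q ⟨fun i => x.injective ?_, ?_⟩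
    · rw [← hw]
      simp only [Perm.mul_apply, Perm.inv_def, apply_symm_apply]
      rw [← hw, h1]
      rfl
    · simp only [Perm.mul_apply, Perm.inv_def, apply_symm_apply, symm_apply_eq, ne_eq, ← hw]
      exact h2.imp (fun h i => h (x i)) fun h i => h (x i)
  rcases R_of (w := (x * zp * x⁻¹ : Perm (Fin 8))) (fun i => by simp [zp, hz]) (fun i e => by
    have : z (x⁻¹ i) = x⁻¹ i := by rw [Perm.eq_inv_iff_eq]; exact e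
    exact (hz _).2 this) with ⟨i, h⟩ | h | ⟨h1, h2, h3⟩
  · have : ∀ i, Q z (swap i (z i)) := by decide +kernel
    exact ⟨_, T_of_Q (this i), fun e => (hz i).2 (swap_eq_one_iff.1 e).symm, key _ h⟩
  · exact ⟨zp, T_of_Q (g := z) (by decide +kernel), by decide, key _ h⟩
  · exact ⟨zp * (x * zp * x⁻¹) * zp * (x * zp * x⁻¹), T_of_Q h1, fun e => h3 (congrArg (fun g : Perm (Fin 8) => g 0) e),
      key _ h2⟩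


/-- In the symmetric group on 8 letters any two Sylow 2-subgroups have non-trivial intersection: for a Sylow 2-subgroup H and every element x, H ∩ xHx⁻¹ ≠ 1. -/
theorem result (H : Sylow 2 (Equiv.Perm (Fin 8))) (x : Equiv.Perm (Fin 8)) :
    (H : Subgroup (Equiv.Perm (Fin 8))) ⊓ (H : Subgroup (Equiv.Perm (Fin 8))).map (MulAut.conj x).toMonoidHom ≠ ⊥ := by
  obtain ⟨S, hS⟩ := isPGroup.exists_le_sylow
  obtain ⟨y, rfl⟩ := MulAction.exists_smul_eq (Perm (Fin 8)) S H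
  obtain ⟨g, h1, h2, h3⟩ := exists_mem (y⁻¹ * x * y)
  intro h
  have h4 : y * g * y⁻¹ ∈ ((y • S : Sylow 2 _) : Subgroup (Perm (Fin 8))) ⊓
      ((y • S : Sylow 2 _) : Subgroup (Perm (Fin 8))).map (MulAut.conj x).toMonoidHom :=
    ⟨⟨g, hS h1, rfl⟩, x⁻¹ * (y * g * y⁻¹) * x, ⟨_, hS h3, by simp [mul_assoc]⟩, by simp [mul_assoc]⟩
  rw [h, Subgroup.mem_bot] at h4
  exact h2 (by simpa [mul_inv_eq_one] using h4)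

end Cfsg.Agent.S5763
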