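import Cfsg.Statements.S5883
import Cfsg.Agent.Comp.Fi23Max

set_option autoImplicit false
open Cfsg

namespace Cfsg.Agent.S5883

/-- The constant 10 in the statement that H⁽¹⁰⁾ is perfect for every maximal subgroup H of a finite almost simple group cannot be lowered to 9: there exist a finite almost simple group G (with a non-abelian simple normal subgroup of trivial centralizer) and a maximal subgroup H of G whose ninth derived subgroup H⁽⁹⁾ is not perfect, i.e. H⁽¹⁰⁾ ≠ H⁽⁹⁾. (A solvable maximal subgroup of derived length 10 in the Fischer group Fi₂₃ is such an example.) -/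
theorem result :
    ∃ (G : Type) (_ : Group G) (_ : Finite G) (S H : Subgroup G), S.Normal ∧ IsSimpleGroup S ∧ ¬ IsMulCommutative S ∧
      Subgroup.centralizer (S : Set G) = ⊥ ∧ IsCoatom H ∧ derivedSeries H 10 ≠ derivedSeries H 9 := by
  obtain ⟨H, h1, h2⟩ := CL.T23.exists_coatom
  have := CL.Fi23P.simple
  have hn : ¬ IsMulCommutative Cfsg.Spor.Fi23 := fun h => h2 (by
    have e : ∀ n, derivedSeries H (n + 1) = ⊥ := fun n => by
      rw [derivedSeries_succ, eq_bot_iff, Subgroup.commutator_le]
      intro a _ b _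
      exact Subgroup.mem_bot.2 (commutatorElement_eq_one_iff_mul_comm.2 (Subtype.ext (h.1.1 _ _)))
    rw [e 9, e 8])
  refine ⟨Cfsg.Spor.Fi23, inferInstance, inferInstance, ⊤, H, inferInstance, Subgroup.topEquiv.isSimpleGroup,
    fun h => hn ⟨⟨fun a b => congrArg Subtype.val (h.1.1 ⟨a, trivial⟩ ⟨b, trivial⟩)⟩⟩, ?_, h1, h2⟩
  rw [Subgroup.coe_top, Subgroup.centralizer_univ]
  refine (Subgroup.Normal.eq_bot_or_eq_top inferInstance).resolve_right fun e => hn ⟨⟨fun a b => ?_⟩⟩
  exact Subgroup.mem_center_iff.1 (e ▸ Subgroup.mem_top b) a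

end Cfsg.Agent.S5883
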