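import Cfsg.Statements.S5885
import Cfsg.Agent.Cls.SecondMax

set_option autoImplicit false
open Cfsg

namespace Cfsg.Agent.S5885

/-- Let n be an odd positive integer such that every primitive permutation group of degree n contains the alternating group (so the symmetric and alternating groups are the only primitive groups of degree n). Let G be a finite group, M a maximal subgroup of G of index n, and H a maximal subgroup of M. Then H is a second maximal subgroup of G: H is maximal in every maximal subgroup K of G containing H. -/
theorem result {G : Type*} [Group G]
    [Finite G] (n : ℕ) (hodd : Odd n)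
    (hA : ∀ P : Subgroup (Equiv.Perm (Fin n)), MulAction.IsPreprimitive P (Fin n) → alternatingGroup (Fin n) ≤ P)
    (M : Subgroup G) (hM : IsCoatom M) (hn : M.index = n) (H : Subgroup G) (hHM : H ≤ M)
    (hmax : IsCoatom (H.subgroupOf M)) (K : Subgroup G) (hK : IsCoatom K) (hHK : H ≤ K) :
    IsCoatom (H.subgroupOf K) := by
  exact CL.SecMax.second_maximal n hodd hA M hM hn H hHM hmax K hK hHK

end Cfsg.Agent.S5885
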