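import Cfsg.Statements.S5890
import Cfsg.Agent.Cls.SL2Class2


set_option autoImplicit false
open Cfsg

namespace Cfsg.Agent.S5890

/-- Let F be a finite field with q ≥ 4 elements, let L ≤ PGL₂(F) be the image of SL₂(F) (a copy of PSL₂(F), of index gcd(2, q − 1)), and let M be a maximal subgroup of PGL₂(F) that does not contain L. Suppose q ∉ {7, 9, 11} and that q is not a prime congruent to ±11 or ±19 modulo 40. Then M ∩ L is a maximal subgroup of L. (For the excluded q there are maximal subgroups of PGL₂(q) — dihedral groups of order 12 and 16 at q = 7, of order 20 and 16 at q = 9, of order 20 at q = 11, and S₄ at the excluded primes — whose intersection with L is not maximal in L.) -/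
theorem result {F : Type*} [Field F]
    [Fintype F] (h4 : 4 ≤ Fintype.card F) (h7 : Fintype.card F ≠ 7) (h9 : Fintype.card F ≠ 9) (h11 : Fintype.card F ≠ 11)
    (h40 : (Fintype.card F).Prime → Fintype.card F % 40 ∉ ({11, 19, 21, 29} : Finset ℕ))
    (M : Subgroup (Matrix.ProjGenLinGroup (Fin 2) F)) (hM : IsCoatom M)
    (hML : ¬ (Matrix.ProjGenLinGroup.mk.comp Matrix.SpecialLinearGroup.toGL).range ≤ M) :
    IsCoatom ((M ⊓ (Matrix.ProjGenLinGroup.mk.comp Matrix.SpecialLinearGroup.toGL).range).subgroupOf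
      (Matrix.ProjGenLinGroup.mk.comp Matrix.SpecialLinearGroup.toGL).range) := by
  rw [CL.SL2.range_toPGL_eq] at hML ⊢
  have hi := Matrix.ProjectiveSpecialLinearGroup.toPGL_injective (n := Fin 2) (R := F)
  suffices h : IsCoatom (M.comap Matrix.ProjectiveSpecialLinearGroup.toPGL) by
    rw [Subgroup.inf_subgroupOf_right]
    exact (Subgroup.isCoatom_comap (MonoidHom.ofInjective hi)).1 h
  by_cases h2 : (2 : F) = 0
  · exact Subgroup.isCoatom_comap_of_surjective (MonoidHom.range_eq_top.1 (CL.SL2.pslR_eq_top h2)) hM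
  have hodd := CL.GL2.odd_of_two_ne_zero h2
  have key : ∀ H : Subgroup (Matrix.ProjectiveSpecialLinearGroup (Fin 2) F), IsCoatom H →
      H ≤ M.comap Matrix.ProjectiveSpecialLinearGroup.toPGL →
      IsCoatom (M.comap Matrix.ProjectiveSpecialLinearGroup.toPGL) := fun H hH h =>
    (hH.le_iff.1 h).elim (fun h => (hML (by rintro _ ⟨x, rfl⟩; exact h.ge (Subgroup.mem_top x))).elim)
      fun h => h ▸ hH
  have key' : ∀ {H : Type} [Group H] (φ : H →* M), Function.Injective φ →
      (M.subtype.comp φ).range ≤ CL.SL2.pslR F →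
      (∀ ψ : H →* Matrix.ProjectiveSpecialLinearGroup (Fin 2) F, Function.Injective ψ →
        IsCoatom ψ.range) → IsCoatom (M.comap Matrix.ProjectiveSpecialLinearGroup.toPGL) := by
    intro H _ φ hφ h1 h3
    obtain ⟨χ, hχ⟩ := CL.SL2.exists_psl_of_range_le _ h1
    refine key _ (h3 χ fun a b h => hφ (Subtype.ext ((hχ a).symm.trans (h ▸ hχ b)))) ?_
    rintro _ ⟨x, rfl⟩
    exact Subgroup.mem_comap.2 (hχ x ▸ (φ x).2)
  obtain ⟨p, _, -, hp, -⟩ := FiniteField.card' F
  have := Fact.mk hp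
  have hp2 : p ≠ 2 := by rintro rfl; exact h2 (CharP.cast_eq_zero F 2)
  have hd := CL.SL2.gcd_two_of_ne h2
  have hq : Fintype.card F = 5 ∨ 13 ≤ Fintype.card F := by obtain ⟨k, hk⟩ := hodd; omega
  have dih : ∀ k, 3 ≤ k → ¬ p ∣ 2 * k → (2 * k = Fintype.card F + 1 ∨ 2 * k = Fintype.card F - 1) →
      (M ≃* DihedralGroup (2 * k)) →
      IsCoatom (M.comap Matrix.ProjectiveSpecialLinearGroup.toPGL) := fun k hk hpk hkq e => by
    have ho : orderOf (e.symm (.r 1) ^ 2 : Matrix.ProjGenLinGroup (Fin 2) F) = k := by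
      rw [orderOf_pow' _ two_ne_zero, Subgroup.orderOf_coe, e.symm.orderOf_eq,
        DihedralGroup.orderOf_r_one, Nat.gcd_eq_right (Dvd.intro _ rfl),
        Nat.mul_div_cancel_left _ two_pos]
    obtain ⟨y, hy⟩ := CL.SL2.pgl_sq_mem_range (e.symm (.r 1) : Matrix.ProjGenLinGroup (Fin 2) F)
    rw [← sq] at hy
    have ho' : orderOf y = k := by rw [← ho, ← hy, orderOf_injective _ hi]
    have hyp : y ^ p ≠ 1 := fun h => by
      rcases (Nat.dvd_prime hp).1 (ho' ▸ orderOf_dvd_of_pow_eq_one h) with h | h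
      · omega
      · exact hpk (h ▸ Dvd.intro_left _ rfl)
    obtain ⟨n, h1, h3, ⟨e'⟩⟩ := CL.SL2.normalizer_psl p hyp
    rw [hd] at h3
    have h4 := Nat.le_of_dvd (by omega) (ho' ▸ h1)
    have h5 := CL.SL2.isCoatom_dihedral p (n := n) (fun h => by
        rcases h3 with h3 | h3
        · exact CL.SL2.not_dvd_card_add_one (F := F) p (h3 ▸ h.mul_right 2)
        · exact CL.SL2.not_dvd_card_sub_one (F := F) p (h3 ▸ h.mul_right 2)) (by omega)
      ((Subgroup.subtype _).comp e'.symm.toMonoidHom)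
      ((Subgroup.subtype_injective _).comp e'.symm.injective) (by rw [hd]; omega) (by rw [hd]; omega)
      (by rw [hd]
          have : 5 * Fintype.card F ≤ Fintype.card F ^ 2 := by
            rw [sq]; exact Nat.mul_le_mul_right _ (by omega)
          have : 5 * (5 * Fintype.card F - 1) ≤ Fintype.card F * (Fintype.card F ^ 2 - 1) :=
            Nat.mul_le_mul (by omega) (by omega)
          omega) h9 (fun _ => by omega)
    rw [CL.SL2.range_subtype_comp] at h5
    refine key _ h5 ?_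
    have h6 : M ≤ Subgroup.normalizer (Subgroup.zpowers
        (e.symm (.r 1) ^ 2 : Matrix.ProjGenLinGroup (Fin 2) F) : Set _) := fun g hg => by
      obtain ⟨u, hu⟩ := e.symm.surjective ⟨g, hg⟩
      obtain rfl : (e.symm u : Matrix.ProjGenLinGroup (Fin 2) F) = g := congrArg Subtype.val hu
      rw [Subgroup.mem_normalizer_iff_map_conj_eq, MonoidHom.map_zpowers]
      have h1 : u * .r 1 ^ 2 * u⁻¹ = .r 1 ^ 2 ∨ u * .r 1 ^ 2 * u⁻¹ = (.r 1 ^ 2)⁻¹ := by
        rcases u with u | u <;> simp [sq]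
      have h2 := congrArg Subtype.val (map_mul e.symm (u * .r 1 ^ 2) u⁻¹)
      rw [map_mul e.symm u, map_inv, map_pow] at h2
      refine (congrArg Subgroup.zpowers h2.symm).trans ?_
      rcases h1 with h1 | h1 <;> rw [h1]
      · rw [map_pow]; rfl
      · rw [map_inv, Subgroup.coe_inv, Subgroup.zpowers_inv, map_pow]; rfl
    rcases hM.le_iff.1 h6 with h7 | h7
    · refine (h5.1 (Subgroup.normalizer_eq_top_iff.2 ?_)).elim
      have := (Subgroup.normalizer_eq_top_iff.1 h7).comap Matrix.ProjectiveSpecialLinearGroup.toPGL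
      rwa [← hy, ← MonoidHom.map_zpowers, Subgroup.comap_map_eq_self_of_injective hi] at this
    · rw [← h7, ← hy, ← MonoidHom.map_zpowers]
      exact Subgroup.map_le_iff_le_comap.1 (Subgroup.le_normalizer_map _)
  obtain ⟨k, hk⟩ := id hodd
  rcases CL.SL2.isCoatom_pgl_cases hodd (by omega) hM hML with ⟨x, rfl⟩ | ⟨h5, ⟨e⟩⟩ | ⟨⟨e⟩⟩ |
    ⟨h5, h6, ⟨e⟩⟩ | ⟨K, _, _, r, hr, h5, h6, ⟨e⟩⟩
  · have : Nontrivial (CL.SL2.P1 F) := ⟨_, _, CL.SL2.pt_ne_pinf 0⟩
    exact key _ (MulAction.IsPreprimitive.isCoatom_stabilizer_of_isPreprimitive _ x)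
      fun g hg => (CL.SL2.psl_smul g x).symm.trans hg
  · have h6 : 2 * k = Fintype.card F - 1 := by omega
    exact dih k (by omega) (h6 ▸ CL.SL2.not_dvd_card_sub_one p) (Or.inr h6) (h6 ▸ e)
  · have h6 : 2 * (k + 1) = Fintype.card F + 1 := by omega
    exact dih (k + 1) (by omega) (h6 ▸ CL.SL2.not_dvd_card_add_one p) (Or.inl h6) (h6 ▸ e)
  · have h8 := h40 h5
    simp only [Finset.mem_insert, Finset.mem_singleton, not_or] at h8
    exact key' (e.symm.toMonoidHom.comp (Subgroup.subtype _))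
      (e.symm.injective.comp (Subgroup.subtype_injective _)) (CL.SL2.range_le_pslR_alt_four _)
      (CL.SL2.isCoatom_alt_four h5 (by omega) h6 (by omega))
  · obtain ⟨f⟩ := CL.SL2.nonempty_ringHom_of_card_pow h6.symm
    have : CharP K p := f.charP f.injective p
    exact key' (e.symm.toMonoidHom.comp Matrix.ProjectiveSpecialLinearGroup.toPGL)
      (e.symm.injective.comp Matrix.ProjectiveSpecialLinearGroup.toPGL_injective)
      (CL.SL2.range_le_pslR_psl p hp2 _) (CL.SL2.isCoatom_psl hr h6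
        (fun h => absurd (h ▸ CL.GL2.odd_of_charP (F := K) hp2) (by decide))
        fun _ h => absurd (h ▸ h5) (by decide))

end Cfsg.Agent.S5890
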