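import Cfsg.Statements.S5895
import Cfsg.Agent.Base

set_option autoImplicit false
open Cfsg

namespace Cfsg.Agent.S5895

/-- The abstract construction: `L` acts irreducibly on `N`, a maximal subgroup `H₀` of `L` acts reducibly. -/
theorem aux {N L : Type} [CommGroup N] [Group L] [Finite N] [Finite L] [Nontrivial N] (φ : L →* MulAut N)
    (hirr : ∀ W : Subgroup N, (∀ a : L, ∀ w ∈ W, φ a w ∈ W) → W = ⊥ ∨ W = ⊤)
    (H₀ : Subgroup L) (hH₀ : IsCoatom H₀) (W : Subgroup N) (hW : ∀ a ∈ H₀, ∀ w ∈ W, φ a w ∈ W)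
    (hW1 : W ≠ ⊥) (hW2 : W ≠ ⊤) :
    ∃ (G : Type) (_ : Group G) (_ : Finite G) (M H K : Subgroup G), IsCoatom M ∧ M.index = Nat.card N ∧ H ≤ M ∧
      IsCoatom (H.subgroupOf M) ∧ IsCoatom K ∧ H ≤ K ∧ ¬ IsCoatom (H.subgroupOf K) := by
  have hfin : Finite (N ⋊[φ] L) := Finite.of_equiv _ SemidirectProduct.equivProd.symm
  have hmemM : ∀ g : N ⋊[φ] L, g ∈ (SemidirectProduct.inr : L →* N ⋊[φ] L).range ↔ g.left = 1 := fun g =>
    ⟨by rintro ⟨a, rfl⟩; rfl, fun h => ⟨g.right, by ext <;> simp [h]⟩⟩
  have hmemH : ∀ g : N ⋊[φ] L, g ∈ H₀.map (SemidirectProduct.inr : L →* N ⋊[φ] L) ↔ g.left = 1 ∧ g.right ∈ H₀ :=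
    fun g => ⟨by rintro ⟨a, ha, rfl⟩; exact ⟨rfl, ha⟩, fun h => ⟨g.right, h.2, by ext <;> simp [h.1]⟩⟩
  refine ⟨N ⋊[φ] L, inferInstance, hfin, (SemidirectProduct.inr : L →* N ⋊[φ] L).range,
    H₀.map SemidirectProduct.inr, H₀.comap SemidirectProduct.rightHom, ?_, ?_, Subgroup.map_le_range _ _, ?_,
    Subgroup.isCoatom_comap_of_surjective SemidirectProduct.rightHom_surjective hH₀, ?_, ?_⟩
  · constructor
    · intro h
      obtain ⟨x, hx⟩ := exists_ne (1 : N)
      have : (SemidirectProduct.inl x : N ⋊[φ] L) ∈ (SemidirectProduct.inr : L →* N ⋊[φ] L).range := by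
        rw [h]; trivial
      exact hx ((hmemM _).1 this)
    · intro X hX
      have hl : ∀ g ∈ X, (SemidirectProduct.inl g.left : N ⋊[φ] L) ∈ X := fun g hg => by
        have h1 : (SemidirectProduct.inr g.right : N ⋊[φ] L) ∈ X := hX.le ⟨_, rfl⟩
        have h2 := X.mul_mem hg (X.inv_mem h1)
        rwa [mul_inv_eq_of_eq_mul (SemidirectProduct.inl_left_mul_inr_right g).symm] at h2
      rcases hirr (X.comap SemidirectProduct.inl) (fun a w hw => by
        have h1 : (SemidirectProduct.inr a : N ⋊[φ] L) ∈ X := hX.le ⟨_, rfl⟩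
        have h2 := X.mul_mem (X.mul_mem h1 hw) (X.inv_mem h1)
        rw [Subgroup.mem_comap, SemidirectProduct.inl_aut, map_inv]
        exact h2) with h | h
      · exfalso
        obtain ⟨g, hg, hg'⟩ := SetLike.exists_of_lt hX
        refine hg' ((hmemM g).2 ?_)
        have : g.left ∈ X.comap SemidirectProduct.inl := hl g hg
        rwa [h, Subgroup.mem_bot] at this
      · rw [eq_top_iff]
        intro g _
        rw [← SemidirectProduct.inl_left_mul_inr_right g]
        have : g.left ∈ X.comap SemidirectProduct.inl := by rw [h]; trivial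
        exact X.mul_mem this (hX.le ⟨_, rfl⟩)
  · have h1 := (SemidirectProduct.inr : L →* N ⋊[φ] L).range.index_mul_card
    rw [SemidirectProduct.card, ← Nat.card_congr (MonoidHom.ofInjective
      (SemidirectProduct.inr_injective (φ := φ))).toEquiv] at h1
    exact Nat.eq_of_mul_eq_mul_right Nat.card_pos h1
  · have := Subgroup.isCoatom_comap_of_surjective
      (φ := (SemidirectProduct.rightHom : N ⋊[φ] L →* L).comp (SemidirectProduct.inr : L →* N ⋊[φ] L).range.subtype)
      (fun a => ⟨⟨SemidirectProduct.inr a, a, rfl⟩, rfl⟩) hH₀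
    convert this using 1
    ext g
    rw [Subgroup.mem_subgroupOf, hmemH, Subgroup.mem_comap]
    exact ⟨fun h => h.2, fun h => ⟨(hmemM _).1 g.2, h⟩⟩
  · intro g hg
    exact ((hmemH g).1 hg).2
  · intro h
    let X : Subgroup (H₀.comap (SemidirectProduct.rightHom : N ⋊[φ] L →* L)) :=
      { carrier := {g | g.1.left ∈ W}
        one_mem' := W.one_mem
        mul_mem' := fun {a b} ha hb => W.mul_mem ha (hW _ a.2 _ hb)
        inv_mem' := fun {a} ha => hW _ (H₀.inv_mem a.2) _ (W.inv_mem ha) }
    obtain ⟨w, hw, hw1⟩ := (Subgroup.bot_or_exists_ne_one W).resolve_left hW1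
    have h1 : X = ⊤ := by
      refine h.2 X (lt_of_le_of_ne (fun g hg => ?_) fun e => hw1 ?_)
      · have := ((hmemH _).1 (Subgroup.mem_subgroupOf.1 hg)).1
        change g.1.left ∈ W
        rw [this]; exact W.one_mem
      · have h2 : (⟨SemidirectProduct.inl w, H₀.one_mem⟩ :
            H₀.comap (SemidirectProduct.rightHom : N ⋊[φ] L →* L)) ∈ X := hw
        rw [← e] at h2
        exact ((hmemH _).1 (Subgroup.mem_subgroupOf.1 h2)).1
    refine hW2 (eq_top_iff.2 fun v _ => ?_)
    have h2 : (⟨SemidirectProduct.inl v, H₀.one_mem⟩ :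
      H₀.comap (SemidirectProduct.rightHom : N ⋊[φ] L →* L)) ∈ X := by rw [h1]; trivial
    exact h2

/-- Multiplication by units on the additive group of a field. -/
def mulAct (K : Type) [Field K] : Kˣ →* MulAut (Multiplicative K) where
  toFun a :=
    { toFun := fun x => Multiplicative.ofAdd ((a : K) * x.toAdd)
      invFun := fun x => Multiplicative.ofAdd (((a⁻¹ : Kˣ) : K) * x.toAdd)
      left_inv := fun x => by simp
      right_inv := fun x => by simp
      map_mul' := fun x y => by simp [mul_add, ofAdd_add] }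
  map_one' := by ext x; simp
  map_mul' a b := by ext x; simp [mul_assoc]


/-- For every prime p and every d ≥ 2 there is a finite group G with a maximal subgroup M of index p^d and a maximal subgroup H of M that is not second maximal in G: some maximal subgroup K of G contains H without H being maximal in K. (One may take G the affine group V ⋊ GL(V) of V = 𝔽_p^d, M = GL(V), H the stabiliser in M of a line W of V, and K = V ⋊ H, with H < W ⋊ H < K.) So the prime-index hypothesis in the second-maximality criterion cannot be relaxed to prime-power index. -/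
theorem result (p d : ℕ) (hp : p.Prime)
    (hd : 2 ≤ d) :
    ∃ (G : Type) (_ : Group G) (_ : Finite G) (M H K : Subgroup G), IsCoatom M ∧ M.index = p ^ d ∧ H ≤ M ∧
      IsCoatom (H.subgroupOf M) ∧ IsCoatom K ∧ H ≤ K ∧ ¬ IsCoatom (H.subgroupOf K) := by
  haveI := Fact.mk hp
  let K := GaloisField p d
  have hK : Nat.card K = p ^ d := GaloisField.card p d (by omega)
  let Irr : Subgroup Kˣ → Prop := fun L =>
    ∀ W : Subgroup (Multiplicative K), (∀ a ∈ L, ∀ w ∈ W, mulAct K a w ∈ W) → W = ⊥ ∨ W = ⊤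
  have htop : Irr ⊤ := by
    intro W hW
    rcases Subgroup.bot_or_exists_ne_one W with h | ⟨w, hw, hw1⟩
    · exact Or.inl h
    · refine Or.inr (eq_top_iff.2 fun v _ => ?_)
      by_cases hv : v = 1
      · rw [hv]; exact W.one_mem
      · have hw0 : w.toAdd ≠ 0 := hw1
        have hv0 : v.toAdd ≠ 0 := hv
        have := hW (Units.mk0 (v.toAdd / w.toAdd) (div_ne_zero hv0 hw0)) trivial w hw
        change Multiplicative.ofAdd (v.toAdd / w.toAdd * w.toAdd) ∈ W at this
        rwa [div_mul_cancel₀ _ hw0] at this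
  have hbot : ¬ Irr ⊥ := by
    intro h
    have hc : Nat.card (Subgroup.zpowers (Multiplicative.ofAdd (1 : K))) = p := by
      rw [Nat.card_zpowers, orderOf_ofAdd_eq_addOrderOf]
      exact CharP.eq K (CharP.addOrderOf_one K) inferInstance
    rcases h (Subgroup.zpowers (Multiplicative.ofAdd (1 : K))) (fun a ha w hw => by
      rw [Subgroup.mem_bot.1 ha, (mulAct K).map_one]; exact hw) with h1 | h1
    · rw [h1, Subgroup.card_bot] at hc
      exact hp.one_lt.ne hc
    · rw [h1, Subgroup.card_top] at hc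
      have h2 : p ^ d = p ^ 1 := by rw [← hK, pow_one]; exact hc
      have := Nat.pow_right_injective hp.two_le h2
      omega
  obtain ⟨L, hL, hmin⟩ := (wellFounded_lt (α := Subgroup Kˣ)).has_min {L | Irr L} ⟨⊤, htop⟩
  have hL1 : L ≠ ⊥ := fun h => hbot (h ▸ hL)
  haveI : Nontrivial L := (Subgroup.nontrivial_iff_ne_bot L).2 hL1
  obtain ⟨H₀, hH₀, -⟩ := (eq_top_or_exists_le_coatom (⊥ : Subgroup L)).resolve_left bot_ne_top
  have hred : ¬ Irr (H₀.map L.subtype) := fun h => hmin _ h (lt_of_le_of_ne (Subgroup.map_subtype_le H₀) fun e =>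
    hH₀.1 (Subgroup.map_injective L.subtype_injective (by rw [e, ← MonoidHom.range_eq_map, Subgroup.range_subtype])))
  simp only [Irr, not_forall, not_or] at hred
  obtain ⟨W, hW, hW1, hW2⟩ := hred
  have := aux ((mulAct K).comp L.subtype) (fun W hW => hL W fun a ha => hW ⟨a, ha⟩) H₀ hH₀ W
    (fun a ha => hW a ⟨a, ha, rfl⟩) hW1 hW2
  rwa [show Nat.card (Multiplicative K) = p ^ d from hK] at this

end Cfsg.Agent.S5895
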