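import Cfsg.Statements.S5896
import Cfsg.Agent.Base

set_option autoImplicit false
open Cfsg

namespace Cfsg.Agent.S5896

open scoped commutatorElement

theorem solv_pi (Q S : Type) [Group S] [h : Group.IsSolvable S] : Group.IsSolvable (Q → S) := by
  obtain ⟨n, hn⟩ := h
  refine ⟨⟨n, eq_bot_iff.2 fun x hx => Subgroup.mem_bot.2 (funext fun q => ?_)⟩⟩
  have := map_derivedSeries_le_derivedSeries (Pi.evalMonoidHom (fun _ : Q => S) q) n ⟨x, hx, rfl⟩
  rwa [hn, Subgroup.mem_bot] at this

/-- The base group of the regular wreath product. -/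
def base (S Q : Type) [Group S] [Group Q] : (Q → S) →* RegularWreathProduct S Q where
  toFun f := ⟨f, 1⟩
  map_one' := rfl
  map_mul' f g := by ext <;> simp

theorem solv_ker (S Q : Type) [Group S] [Group Q] [Group.IsSolvable S] :
    Group.IsSolvable (RegularWreathProduct.rightHom : RegularWreathProduct S Q →* Q).ker := by
  haveI := solv_pi Q S
  refine Group.isSolvable_of_surjective (f := (base S Q).codRestrict _ fun f => rfl) fun g => ⟨g.1.left, ?_⟩
  ext
  · rfl
  · exact g.2.symm

theorem ds_ne_bot {S Q Z : Type} [Group S] [Group Q] [Group Z] (ι : Z →* RegularWreathProduct S Q)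
    (h : ∀ s, ∃ z, (ι z).right = 1 ∧ (ι z).left 1 = s) {d : ℕ} (hd : derivedSeries S d ≠ ⊥) :
    derivedSeries Z d ≠ ⊥ := by
  intro hZ
  let Y : Subgroup Z := (RegularWreathProduct.rightHom.comp ι).ker
  let ev : Y →* S :=
    { toFun := fun y => (ι y).left 1
      map_one' := by simp
      map_mul' := fun a b => by
        have ha : (ι a).right = 1 := a.2
        simp [ha] }
  have hev : Function.Surjective ev := fun s => by
    obtain ⟨z, hz, hs⟩ := h s
    exact ⟨⟨z, hz⟩, hs⟩
  have h1 : derivedSeries Y d = ⊥ := by
    have := map_derivedSeries_le_derivedSeries Y.subtype d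
    rw [hZ, le_bot_iff] at this
    exact (Subgroup.map_eq_bot_iff_of_injective _ Y.subtype_injective).1 this
  apply hd
  rw [← map_derivedSeries_eq hev d, h1, Subgroup.map_bot]

theorem exists_comm {S Q : Type} [Group S] [Group Q] {σ : Q} (hσ : σ ≠ 1) (s : S) :
    ∃ f : Q → S, (⁅base S Q f, RegularWreathProduct.inl σ⁆ : RegularWreathProduct S Q).right = 1 ∧
      (⁅base S Q f, RegularWreathProduct.inl σ⁆ : RegularWreathProduct S Q).left 1 = s := by
  classical
  refine ⟨Pi.mulSingle 1 s, ?_, ?_⟩
  · simp [commutatorElement_def, base]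
  · simp [commutatorElement_def, base, hσ]

theorem map_ds_commutator (G : Type) [Group G] (d : ℕ) :
    (derivedSeries (commutator G) d).map (commutator G).subtype = derivedSeries G (d + 1) := by
  induction d with
  | zero => rw [derivedSeries_zero, ← MonoidHom.range_eq_map, Subgroup.range_subtype, derivedSeries_one]
  | succ d ih => rw [derivedSeries_succ, Subgroup.map_commutator, ih, derivedSeries_succ G (d + 1)]

theorem exists_solv (d : ℕ) :
    ∃ (S : Type) (_ : Group S) (_ : Finite S), Group.IsSolvable S ∧ derivedSeries S d ≠ ⊥ := by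
  induction d with
  | zero => exact ⟨Multiplicative (ZMod 2), inferInstance, inferInstance, inferInstance, top_ne_bot⟩
  | succ d ih =>
    obtain ⟨S, _, _, _, hS⟩ := ih
    obtain ⟨σ, hσ⟩ := exists_ne (1 : Multiplicative (ZMod 2))
    haveI := solv_ker S (Multiplicative (ZMod 2))
    refine ⟨RegularWreathProduct S (Multiplicative (ZMod 2)), inferInstance, inferInstance,
      Group.isSolvable_of_ker_le_range (RegularWreathProduct.rightHom.ker.subtype) RegularWreathProduct.rightHom
        (by simp), fun h => ?_⟩
    rw [← map_ds_commutator, Subgroup.map_eq_bot_iff_of_injective _ (Subgroup.subtype_injective _)] at h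
    refine ds_ne_bot (commutator _).subtype (fun s => ?_) hS h
    obtain ⟨f, hf⟩ := exists_comm hσ s
    exact ⟨⟨_, Subgroup.commutator_mem_commutator (Subgroup.mem_top _) (Subgroup.mem_top _)⟩, hf⟩

theorem exists_perfect : ∃ (T : Type) (_ : Group T) (_ : Finite T) (H : Subgroup T), Nontrivial T ∧
    commutator T = ⊤ ∧ IsCoatom H ∧ Group.IsSolvable H := by
  obtain ⟨T, hT, hmin⟩ := (wellFounded_lt (α := Subgroup (Equiv.Perm (Fin 5)))).has_min
    {T | ¬ Group.IsSolvable T} ⟨⊤, fun h => Equiv.Perm.not_isSolvable_fin_5
      (Group.isSolvable_of_surjective (f := (⊤ : Subgroup (Equiv.Perm (Fin 5))).subtype)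
        fun x => ⟨⟨x, trivial⟩, rfl⟩)⟩
  have hsub : ∀ H : Subgroup T, H ≠ ⊤ → Group.IsSolvable H := by
    intro H hH
    have h1 : Group.IsSolvable (H.map T.subtype) := by
      by_contra h
      exact hmin _ h (lt_of_le_of_ne (Subgroup.map_subtype_le H) fun e =>
        hH (Subgroup.map_injective T.subtype_injective
          (by rw [e, ← MonoidHom.range_eq_map, Subgroup.range_subtype])))
    exact Group.isSolvable_of_isSolvable_injective
      (f := (H.equivMapOfInjective T.subtype T.subtype_injective).toMonoidHom)
      (H.equivMapOfInjective T.subtype T.subtype_injective).injective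
  have hnt : Nontrivial T := by
    by_contra h
    rw [not_nontrivial_iff_subsingleton] at h
    exact hT inferInstance
  obtain ⟨H, hH, -⟩ := (eq_top_or_exists_le_coatom (⊥ : Subgroup T)).resolve_left bot_ne_top
  refine ⟨T, inferInstance, inferInstance, H, hnt, ?_, hH, hsub H hH.1⟩
  by_contra h
  haveI := hsub _ h
  exact hT (Group.isSolvable_of_ker_le_range (commutator T).subtype (Abelianization.of (G := T)) (by simp))


/-- Finite perfect groups have solvable maximal subgroups of unbounded derived length: for every d there is a finite perfect group G (equal to its commutator subgroup) with a solvable maximal subgroup H whose derived length exceeds d, i.e. the d-th term of the derived series of H is non-trivial. (Take the derived subgroup of a wreath product S ≀ A₅ with S solvable of large derived length, and H the preimage of a maximal subgroup of A₅.) -/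
theorem result (d : ℕ) :
    ∃ (G : Type) (_ : Group G) (_ : Finite G) (H : Subgroup G), commutator G = ⊤ ∧ IsCoatom H ∧ Group.IsSolvable H ∧
      derivedSeries H d ≠ ⊥ := by
  obtain ⟨S, _, _, _, hS⟩ := exists_solv d
  obtain ⟨T, _, _, H₀, _, hT, hH₀, _⟩ := exists_perfect
  let W := RegularWreathProduct S T
  let G : Subgroup W := Subgroup.normalClosure (Set.range (RegularWreathProduct.inl : T →* W))
  have hin : ∀ t, (RegularWreathProduct.inl t : W) ∈ G := fun t => Subgroup.subset_normalClosure ⟨t, rfl⟩
  let π : G →* T := RegularWreathProduct.rightHom.comp G.subtype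
  have hπ : Function.Surjective π := fun t => ⟨⟨_, hin t⟩, rfl⟩
  refine ⟨G, inferInstance, inferInstance, H₀.comap π, ?_, Subgroup.isCoatom_comap_of_surjective hπ hH₀, ?_, ?_⟩
  · apply Subgroup.map_injective G.subtype_injective
    rw [commutator_def, Subgroup.map_commutator, ← MonoidHom.range_eq_map, Subgroup.range_subtype]
    refine le_antisymm (Subgroup.commutator_le_left _ _) (Subgroup.normalClosure_le_normal ?_)
    rintro _ ⟨t, rfl⟩
    have h1 : (RegularWreathProduct.inl : T →* W).range ≤ G := by rintro _ ⟨t, rfl⟩; exact hin t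
    refine Subgroup.commutator_mono h1 h1 ?_
    rw [MonoidHom.range_eq_map, ← Subgroup.map_commutator, ← commutator_def, hT]
    exact ⟨t, trivial, rfl⟩
  · haveI := solv_ker S T
    let ψ : H₀.comap π →* H₀ := (π.comp (H₀.comap π).subtype).codRestrict _ fun x => x.2
    haveI : Group.IsSolvable ψ.ker := Group.isSolvable_of_isSolvable_injective
      (f := ((G.subtype.comp (H₀.comap π).subtype).comp ψ.ker.subtype).codRestrict
        (RegularWreathProduct.rightHom : W →* T).ker fun x => congrArg Subtype.val x.2)
      (fun a b h => Subtype.ext (Subtype.ext (Subtype.ext (congrArg Subtype.val h :))))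
    exact Group.isSolvable_of_ker_le_range ψ.ker.subtype ψ (by simp)
  · obtain ⟨σ, hσ⟩ := exists_ne (1 : T)
    refine ds_ne_bot (G.subtype.comp (H₀.comap π).subtype) (fun s => ?_) hS
    obtain ⟨f, hf⟩ := exists_comm hσ s
    have h1 : (⁅base S T f, RegularWreathProduct.inl σ⁆ : W) ∈ G :=
      Subgroup.commutator_le_right ⊤ G (Subgroup.commutator_mem_commutator (Subgroup.mem_top _) (hin σ))
    have h2 : (⟨_, h1⟩ : G) ∈ H₀.comap π := by
      rw [Subgroup.mem_comap, show π ⟨_, h1⟩ = 1 from hf.1]
      exact H₀.one_mem
    exact ⟨⟨_, h2⟩, hf⟩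

end Cfsg.Agent.S5896
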