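import Cfsg.Statements.S5902
import Cfsg.Agent.S5901

set_option autoImplicit false
open Cfsg

namespace Cfsg.Agent.S5902

theorem conj_back {G : Type*} [Group G] (H C : Subgroup G) (e : G ≃* G)
    (h1 : H.map e.toMonoidHom ⊔ C = ⊤) (h2 : H.map e.toMonoidHom ⊓ C = ⊥) :
    ∃ C : Subgroup G, H ⊔ C = ⊤ ∧ H ⊓ C = ⊥ := by
  refine ⟨C.comap e.toMonoidHom, ?_, ?_⟩
  · apply Subgroup.map_injective (f := e.toMonoidHom) e.injective
    rw [Subgroup.map_sup, Subgroup.map_comap_eq_self_of_surjective e.surjective, h1,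
      Subgroup.map_top_of_surjective _ e.surjective]
  · rw [eq_bot_iff]
    rintro x ⟨hx, hx'⟩
    have : e x ∈ H.map e.toMonoidHom ⊓ C := ⟨⟨x, hx, rfl⟩, hx'⟩
    rw [h2, Subgroup.mem_bot] at this
    simpa using this


/-- Let G be a finite group, X a subgroup whose own subgroup lattice is complemented, and suppose X lies in exactly one maximal subgroup M of G. Then every subgroup H of G not contained in the normal core of M has a complement in the subgroup lattice of G (some C with H ⊔ C = G and H ⊓ C = 1); in particular the subgroup lattice of G modulo the normal core of M is complemented. -/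
theorem result {G : Type*} [Group G] [Finite G] (X M : Subgroup G)
    (hK : ComplementedLattice (Subgroup X))
    (hM : IsCoatom M) (hXM : X ≤ M) (huniq : ∀ M' : Subgroup G, IsCoatom M' → X ≤ M' → M' = M) :
    (∀ H : Subgroup G, ¬ H ≤ M.normalCore → ∃ C : Subgroup G, H ⊔ C = ⊤ ∧ H ⊓ C = ⊥) ∧
    ComplementedLattice (Subgroup (G ⧸ M.normalCore)) := by
  have key : ∀ H : Subgroup G, ¬ H ≤ M.normalCore → ∃ C : Subgroup G, H ⊔ C = ⊤ ∧ H ⊓ C = ⊥ := by
    intro H hH
    have hXt : X ≠ ⊤ := fun h => hM.1 (top_le_iff.1 (h ▸ hXM))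
    obtain ⟨g, hg⟩ : ∃ g : G, ¬ H.map (MulAut.conj g).toMonoidHom ≤ M := by
      by_contra hc
      push Not at hc
      exact hH fun x hx g => hc g ⟨x, hx, rfl⟩
    obtain ⟨C, h1, h2⟩ := Cfsg.Agent.S5901.result ⊥ X M bot_le hXt (by
      intro Y _ hY
      obtain ⟨D, hD⟩ := exists_isCompl (Y.subgroupOf X)
      refine ⟨D.map X.subtype, bot_le, Subgroup.map_subtype_le _, ?_, ?_⟩
      · have := congrArg (Subgroup.map X.subtype) (codisjoint_iff.1 hD.codisjoint)
        rw [Subgroup.map_sup, Subgroup.subgroupOf_map_subtype, inf_eq_left.2 hY] at this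
        rw [this, ← MonoidHom.range_eq_map, Subgroup.range_subtype]
      · rw [eq_bot_iff]
        rintro y ⟨hy, d, hd, rfl⟩
        have : d ∈ Y.subgroupOf X ⊓ D := ⟨hy, hd⟩
        rw [disjoint_iff.1 hD.disjoint, Subgroup.mem_bot] at this
        simp [this]) hM hXM huniq _ hg (inf_bot_eq _)
    exact conj_back H C (MulAut.conj g) h1 h2
  refine ⟨key, ⟨fun K => ?_⟩⟩
  by_cases hK0 : K = ⊥
  · exact ⟨⊤, hK0 ▸ isCompl_bot_top⟩
  obtain ⟨C, h1, h2⟩ := key (K.comap (QuotientGroup.mk' M.normalCore)) (by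
    intro hle
    apply hK0
    rw [eq_bot_iff]
    intro x hx
    obtain ⟨y, rfl⟩ := QuotientGroup.mk'_surjective _ x
    exact (QuotientGroup.eq_one_iff y).2 (hle hx))
  refine ⟨C.map (QuotientGroup.mk' M.normalCore), disjoint_iff.2 ?_, codisjoint_iff.2 ?_⟩
  · rw [eq_bot_iff]
    rintro x ⟨hx, c, hc, rfl⟩
    have : c ∈ K.comap (QuotientGroup.mk' M.normalCore) ⊓ C := ⟨hx, hc⟩
    rw [h2, Subgroup.mem_bot] at this
    simp [this]
  · have := congrArg (Subgroup.map (QuotientGroup.mk' M.normalCore)) h1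
    rwa [Subgroup.map_sup, Subgroup.map_comap_eq_self_of_surjective (QuotientGroup.mk'_surjective _),
      Subgroup.map_top_of_surjective _ (QuotientGroup.mk'_surjective _)] at this

end Cfsg.Agent.S5902
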