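import Cfsg.Statements.S5903
import Cfsg.Agent.S5902

set_option autoImplicit false
open Cfsg

namespace Cfsg.Agent.S5903

/-- Let G be a finite simple group, X a subgroup lying in exactly one maximal subgroup M of G, and N a subgroup of prime order with N ≤ X that is central in M. If the subgroup lattice of X/N is complemented, then the subgroup lattice of G is complemented. -/
theorem result {G : Type*} [Group G] [Finite G] [IsSimpleGroup G] (X M N : Subgroup G)
    (hM : IsCoatom M) (hXM : X ≤ M) (huniq : ∀ M' : Subgroup G, IsCoatom M' → X ≤ M' → M' = M)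
    (hNX : N ≤ X) (hN : (Nat.card N).Prime) (hcen : ∀ n ∈ N, ∀ m ∈ M, m * n = n * m)
    [(N.subgroupOf X).Normal] (hK : ComplementedLattice (Subgroup (X ⧸ N.subgroupOf X))) :
    ComplementedLattice (Subgroup G) := by
  have hXt : X ≠ ⊤ := fun h => hM.1 (top_le_iff.1 (h ▸ hXM))
  have hint : ∀ Y : Subgroup G, N ≤ Y → Y ≤ X →
      ∃ C : Subgroup G, N ≤ C ∧ C ≤ X ∧ Y ⊔ C = X ∧ Y ⊓ C = N := by
    intro Y hNY hYX
    set π := QuotientGroup.mk' (N.subgroupOf X) with hπ
    obtain ⟨D, hD⟩ := exists_isCompl ((Y.subgroupOf X).map π)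
    have hN' : ∀ n ∈ N, n ∈ (D.comap π).map X.subtype := fun n hn =>
      ⟨⟨n, hNX hn⟩, by
        have : π ⟨n, hNX hn⟩ = 1 := (QuotientGroup.eq_one_iff _).2 hn
        simp [this], rfl⟩
    refine ⟨(D.comap π).map X.subtype, hN', Subgroup.map_subtype_le _, ?_, ?_⟩
    · have h1 := congrArg (Subgroup.comap π) (codisjoint_iff.1 hD.codisjoint)
      rw [← Subgroup.comap_sup_eq π _ _ (QuotientGroup.mk'_surjective _), Subgroup.comap_map_eq,
        QuotientGroup.ker_mk', Subgroup.comap_top] at h1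
      have h2 := congrArg (Subgroup.map X.subtype) h1
      rw [Subgroup.map_sup, Subgroup.map_sup, Subgroup.subgroupOf_map_subtype, Subgroup.subgroupOf_map_subtype,
        inf_eq_left.2 hYX, inf_eq_left.2 hNX, sup_eq_left.2 hNY, ← MonoidHom.range_eq_map,
        Subgroup.range_subtype] at h2
      exact h2
    · refine le_antisymm ?_ (le_inf hNY hN')
      rintro y ⟨hy, d, hd, rfl⟩
      have : π d ∈ (Y.subgroupOf X).map π ⊓ D := ⟨⟨d, hy, rfl⟩, hd⟩
      rw [disjoint_iff.1 hD.disjoint, Subgroup.mem_bot] at this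
      exact (QuotientGroup.eq_one_iff d).1 this
  refine ⟨fun H => ?_⟩
  by_cases hex : ∃ g : G, ¬ H.map (MulAut.conj g).toMonoidHom ≤ M ∧ ¬ N ≤ H.map (MulAut.conj g).toMonoidHom
  · obtain ⟨g, hg1, hg2⟩ := hex
    have hbot : H.map (MulAut.conj g).toMonoidHom ⊓ N = ⊥ := by
      have hle : H.map (MulAut.conj g).toMonoidHom ⊓ N ≤ N := inf_le_right
      rcases (Nat.dvd_prime hN).1 (Subgroup.card_dvd_of_le hle) with h | h
      · exact Subgroup.card_eq_one.1 h
      · exact absurd ((Subgroup.eq_of_le_of_card_ge hle h.ge).symm.le.trans inf_le_left) hg2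
    obtain ⟨C, h1, h2⟩ := Cfsg.Agent.S5901.result N X M hNX hXt hint hM hXM huniq _ hg1 hbot
    obtain ⟨C', h1', h2'⟩ := Cfsg.Agent.S5902.conj_back H C (MulAut.conj g) h1 h2
    exact ⟨C', disjoint_iff.2 h2', codisjoint_iff.2 h1'⟩
  · push Not at hex
    have hN0 : N ≠ ⊥ := fun h => by
      rw [h, Subgroup.card_bot] at hN; exact Nat.not_prime_one hN
    have hcl : Subgroup.normalClosure (N : Set G) = ⊤ :=
      (IsSimpleGroup.eq_bot_or_eq_top_of_normal _ inferInstance).resolve_left fun h =>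
        hN0 (eq_bot_iff.2 (h ▸ Subgroup.le_normalClosure))
    have hnorm : Subgroup.normalizer (H : Set G) = ⊤ := by
      rw [eq_top_iff, ← hcl, Subgroup.normalClosure, Subgroup.closure_le]
      intro y hy
      obtain ⟨n, hn, hc⟩ := Group.mem_conjugatesOfSet_iff.1 hy
      obtain ⟨g, rfl⟩ := isConj_iff.1 hc
      by_cases hle : H.map (MulAut.conj g⁻¹).toMonoidHom ≤ M
      · apply Subgroup.centralizer_le_normalizer
        intro h hh
        have := hcen n hn _ (hle ⟨h, hh, rfl⟩)
        simp only [MulEquiv.toMonoidHom_eq_coe, MonoidHom.coe_coe, MulAut.conj_apply, inv_inv] at this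
        calc h * (g * n * g⁻¹) = g * (g⁻¹ * h * g * n) * g⁻¹ := by group
          _ = g * (n * (g⁻¹ * h * g)) * g⁻¹ := by rw [this]
          _ = g * n * g⁻¹ * h := by group
      · obtain ⟨h, hh, e⟩ := hex _ hle hn
        apply Subgroup.le_normalizer
        simp only [MulEquiv.toMonoidHom_eq_coe, MonoidHom.coe_coe, MulAut.conj_apply, inv_inv] at e
        have : g * n * g⁻¹ = h := by rw [← e]; group
        rw [this]; exact hh
    rcases IsSimpleGroup.eq_bot_or_eq_top_of_normal H (Subgroup.normalizer_eq_top_iff.1 hnorm) with h | h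
    · exact ⟨⊤, h ▸ isCompl_bot_top⟩
    · exact ⟨⊥, h ▸ isCompl_top_bot⟩

end Cfsg.Agent.S5903
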