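import Cfsg.Statements.S5904
import Cfsg.Agent.Known.AltRestrict

set_option autoImplicit false
open scoped Pointwise
open Cfsg

namespace Cfsg.Agent.S5904

/-- Let Ω be a finite set with more than two elements and O ⊆ Ω a subset with exactly as many elements as its complement. Then the setwise stabilizer of O in the symmetric group on Ω is not a maximal subgroup (it is properly contained in the stabilizer of the partition {O, Ω ∖ O}, which is proper). -/
theorem result {Ω : Type*} [Fintype Ω] [DecidableEq Ω] (hΩ : 2 < Fintype.card Ω)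
    (O : Set Ω) (hO : Nat.card O = Nat.card ↥Oᶜ) :
    ¬ IsCoatom (MulAction.stabilizer (Equiv.Perm Ω) O) := by
  classical
  rintro ⟨-, hmax⟩
  let K : Subgroup (Equiv.Perm Ω) :=
    { carrier := {g | (∀ x, g x ∈ O ↔ x ∈ O) ∨ ∀ x, g x ∈ O ↔ x ∉ O}
      one_mem' := Or.inl fun _ => Iff.rfl
      mul_mem' := by
        rintro a b (ha | ha) (hb | hb)
        · exact Or.inl fun x => (ha _).trans (hb _)
        · exact Or.inr fun x => (ha _).trans (hb _)
        · exact Or.inr fun x => (ha _).trans (not_congr (hb _))
        · exact Or.inl fun x => (ha _).trans ((not_congr (hb _)).trans not_not)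
      inv_mem' := by
        rintro a (ha | ha)
        · exact Or.inl fun x => by rw [← ha]; simp
        · refine Or.inr fun x => ?_
          have := ha (a⁻¹ x)
          rw [show a (a⁻¹ x) = x by simp] at this
          rw [this, not_not] }
  have hcard : Nat.card O + Nat.card ↥Oᶜ = Fintype.card Ω := by
    rw [← Nat.card_eq_fintype_card]
    exact CL.Known.card_add_card_not (· ∈ O)
  haveI : Nontrivial O := Finite.one_lt_card_iff_nontrivial.1 (by omega)
  obtain ⟨a, b, hab⟩ := exists_pair_ne O
  obtain ⟨e⟩ : Nonempty (O ≃ ↥Oᶜ) := Finite.card_eq.1 hO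
  have hlt : MulAction.stabilizer (Equiv.Perm Ω) O < K := by
    refine lt_of_le_of_ne (fun g hg => Or.inl fun x => ?_) fun h => ?_
    · rw [MulAction.mem_stabilizer_iff] at hg
      conv_lhs => rw [← hg]
      exact Set.smul_mem_smul_set_iff
    · let f : Ω → Ω := fun x => if hx : x ∈ O then e ⟨x, hx⟩ else e.symm ⟨x, hx⟩
      have hf : ∀ x, f x ∈ O ↔ x ∉ O := by
        intro x
        by_cases hx : x ∈ O
        · simp only [f, dif_pos hx]
          exact iff_of_false (e ⟨x, hx⟩).2 (not_not.2 hx)
        · simp only [f, dif_neg hx]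
          exact iff_of_true (e.symm ⟨x, hx⟩).2 hx
      have hff : Function.Involutive f := by
        intro x
        by_cases hx : x ∈ O
        · have h1 : f x = e ⟨x, hx⟩ := dif_pos hx
          rw [h1]
          simp only [f, dif_neg (e ⟨x, hx⟩).2]
          simp
        · have h1 : f x = e.symm ⟨x, hx⟩ := dif_neg hx
          rw [h1]
          simp only [f, dif_pos (e.symm ⟨x, hx⟩).2]
          simp
      have h1 : hff.toPerm f ∈ MulAction.stabilizer (Equiv.Perm Ω) O := h ▸ (Or.inr hf : hff.toPerm f ∈ K)
      rw [MulAction.mem_stabilizer_iff] at h1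
      have h2 : hff.toPerm f • a.1 ∈ hff.toPerm f • O := Set.smul_mem_smul_set a.2
      rw [h1] at h2
      exact (hf a).1 h2 a.2
  have h3 : Equiv.swap a.1 (e a).1 ∈ K := hmax K hlt ▸ Subgroup.mem_top _
  rcases h3 with h3 | h3
  · have := h3 a
    rw [Equiv.swap_apply_left] at this
    exact (e a).2 (this.2 a.2)
  · have := h3 b
    rw [Equiv.swap_apply_of_ne_of_ne (fun h => hab (Subtype.ext h).symm) (fun h => (e a).2 (by rw [← h]; exact b.2))] at this
    exact this.1 b.2 b.2

end Cfsg.Agent.S5904
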