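import Cfsg.Statements.S5908
import Cfsg.Agent.Chev.U3Even
import Cfsg.Agent.S0144

set_option autoImplicit false
open Cfsg

namespace Cfsg.Agent.S5908

open CL.Chev.U3 in
theorem key {G : Type*} [Group G] {F : Type*} [Field F] [CharP F 2] (M : Model G F)
    (hs : Group.IsSolvable G) : ¬ ComplementedLattice (Subgroup G) := by
  haveI := M.finite
  haveI : Finite F := M.toUF.finite
  intro h
  obtain ⟨X, hX⟩ := h.exists_isCompl (commutator G)
  -- fourth powers lie in the commutator subgroup
  have h4 : ∀ g : G, g ^ 4 ∈ commutator G := by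
    let L : Subgroup G := (powMonoidHom 4 : Abelianization G →* Abelianization G).ker.comap
      Abelianization.of
    have hL : L = ⊤ := M.eq_top_of (fun u => by
      change (Abelianization.of (M.T u)) ^ 4 = 1
      rw [← map_pow, ← map_pow, UF.Q.pow_four, map_one, map_one]) (by
      change (Abelianization.of M.w) ^ 4 = 1
      rw [← map_pow, show M.w ^ 4 = (M.w * M.w) * (M.w * M.w) by simp only [pow_succ, pow_zero, one_mul, mul_assoc],
        M.w_mul_w, mul_one, map_one])
    intro g
    have : g ∈ L := hL ▸ Subgroup.mem_top g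
    change (Abelianization.of g) ^ 4 = 1 at this
    rw [← map_pow] at this
    rw [← Abelianization.ker_of]
    exact this
  -- involutions lie in the commutator subgroup
  have h2 : ∀ g : G, g ^ 2 = 1 → g ∈ commutator G := by
    intro g hg
    have hP : IsPGroup 2 (Subgroup.zpowers g) := by
      rintro ⟨x, k, rfl⟩
      refine ⟨1, Subtype.ext ?_⟩
      simp only [pow_one, Subgroup.coe_pow, Subgroup.coe_one]
      rw [← zpow_natCast, ← zpow_mul, mul_comm, zpow_mul, zpow_natCast, hg, one_zpow]
    obtain ⟨k, hk⟩ := M.exists_le_conj_U hP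
    obtain ⟨u, hu⟩ := (M.conj k).mem_U.1 (hk (Subgroup.mem_zpowers g))
    have hu2 : u * u = 1 := by
      apply (M.conj k).T_inj
      rw [map_mul, ← hu, map_one, ← pow_two, hg]
    obtain ⟨v, v', hv⟩ := (M.conj k).toUF.exists_commutator_eq (UF.Q.mul_self_eq_one.1 hu2)
    rw [hu, ← hv, map_commutatorElement]
    exact Subgroup.commutator_mem_commutator (Subgroup.mem_top _) (Subgroup.mem_top _)
  have hle : X ≤ commutator G := by
    intro x hx
    have hd := hX.disjoint
    rw [Subgroup.disjoint_def] at hd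
    have e4 : x ^ 4 = 1 := hd (h4 x) (X.pow_mem hx 4)
    have e2 : x ^ 2 = 1 := hd (h2 _ (by rw [← pow_mul]; exact e4)) (X.pow_mem hx 2)
    exact h2 x e2
  have ht : commutator G = ⊤ := by
    have := hX.sup_eq_top
    rwa [sup_eq_left.2 hle] at this
  haveI : Nontrivial G := ⟨⟨M.w, 1, M.w_ne_one⟩⟩
  exact (Group.IsSolvable.commutator_lt_top_of_nontrivial G).ne ht

/-- The subgroup lattice of PSU₃(2) (the solvable group of order 72, realised over the field with 4 elements) is not complemented: some subgroup H has no subgroup X with H ⊔ X = ⊤ and H ⊓ X = ⊥. -/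
theorem result {F : Type*} [Field F] [Fintype F] (hF : Fintype.card F = 4) :
    ¬ ComplementedLattice (Subgroup (Cfsg.PSU 3 F 2)) := by
  have hF' : Fintype.card F = 2 ^ 2 := hF
  haveI : CharP F 2 := CL.Chev.U3.charP_two_of_card hF'
  let M := CL.Chev.U3.modelPSU hF'
  haveI := M.finite
  refine key M (Cfsg.Agent.S0144.result 2 3 3 2 Nat.prime_two Nat.prime_three ?_)
  have h1 := M.card_G_mul
  have h2 : M.K0 = (CL.Chev.U3.ufOf hF').Z0 := CL.Chev.U3.modelPSU_K0 hF'
  have h3 : M.q = 2 := CL.Chev.U3.modelPSU_q hF'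
  have h4 : (CL.Chev.U3.ufOf hF').q = 2 := h3
  rw [h2, (CL.Chev.U3.ufOf hF').card_Z0, h3, h4] at h1
  norm_num at h1 ⊢
  omega

end Cfsg.Agent.S5908
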