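import Cfsg.Statements.S5911
import Cfsg.Agent.Known.AltAut

set_option autoImplicit false
open Cfsg

namespace Cfsg.Agent.S5911

/-- Let Ω be a finite set whose size n is not 6. Then every subgroup of the symmetric group on Ω of index n is the stabilizer of a point. -/
theorem result {Ω : Type*} [Fintype Ω] [DecidableEq Ω] (h6 : Fintype.card Ω ≠ 6)
    (H : Subgroup (Equiv.Perm Ω)) (hH : H.index = Fintype.card Ω) :
    ∃ x : Ω, H = MulAction.stabilizer (Equiv.Perm Ω) x := by
  have h0 : H.index ≠ 0 := Subgroup.FiniteIndex.index_ne_zero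
  have hcard := H.card_mul_index
  rw [Nat.card_perm, hH, Nat.card_eq_fintype_card (α := Ω)] at hcard
  by_cases h4 : 4 ≤ Fintype.card Ω
  · have hcore : H.normalCore = ⊥ := by
      by_contra hne
      by_cases h5 : 5 ≤ Fintype.card Ω
      · have h3 := (Equiv.Perm.alternatingGroup_le_of_normal (α := Ω) (by simpa using h5)
          ((Subgroup.nontrivial_iff_ne_bot _).2 hne)).trans H.normalCore_le
        haveI : Nontrivial Ω := Fintype.one_lt_card_iff_nontrivial.1 (by omega)
        have h4 := Subgroup.index_dvd_of_le h3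
        rw [alternatingGroup.index_eq_two] at h4
        have := Nat.le_of_dvd (by norm_num) h4
        omega
      · have e4 : Fintype.card Ω = 4 := by omega
        rw [e4] at hcard
        have hH6 : Nat.card H = 6 := by
          have : Nat.factorial 4 = 24 := by decide
          omega
        have ht : MulAction.IsPretransitive H.normalCore Ω := by
          apply MulAction.IsQuasiPreprimitive.isPretransitive_of_normal
          intro hfix
          apply hne
          rw [eq_bot_iff]
          intro g hg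
          rw [Subgroup.mem_bot]
          ext x
          have : x ∈ MulAction.fixedPoints H.normalCore Ω := hfix ▸ Set.mem_univ x
          exact this ⟨g, hg⟩
        obtain ⟨x⟩ : Nonempty Ω := Fintype.card_pos_iff.1 (by omega)
        have h7 := (MulAction.stabilizer H.normalCore x).index_dvd_card.trans (Subgroup.card_dvd_of_le H.normalCore_le)
        rw [MulAction.index_stabilizer_of_transitive, Nat.card_eq_fintype_card, e4, hH6] at h7
        omega
    rw [Subgroup.normalCore_eq_ker, MonoidHom.ker_eq_bot_iff] at hcore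
    have hq : Nat.card (Equiv.Perm Ω ⧸ H) = Nat.card Ω := by
      rw [← Subgroup.index_eq_card, hH, Nat.card_eq_fintype_card]
    obtain ⟨ε⟩ : Nonempty ((Equiv.Perm Ω ⧸ H) ≃ Ω) := Finite.card_eq.1 hq
    have hbij : Function.Bijective (MulAction.toPermHom (Equiv.Perm Ω) (Equiv.Perm Ω ⧸ H)) :=
      hcore.bijective_of_nat_card_le (by rw [Nat.card_perm, Nat.card_perm, hq])
    obtain ⟨g, hg⟩ := CL.Known.exists_conj_of_mulEquiv_perm (Ω := Ω) (by simpa using h4) (by simpa using h6)
      ((MulEquiv.ofBijective _ hbij).trans ε.permCongrHom)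
    refine ⟨g⁻¹ (ε ((1 : Equiv.Perm Ω) : Equiv.Perm Ω ⧸ H)), ?_⟩
    ext h
    have e1 := congrArg (fun k : Equiv.Perm Ω => k (ε ((1 : Equiv.Perm Ω) : Equiv.Perm Ω ⧸ H))) (hg h)
    change ε (h • ε.symm (ε _)) = g (h (g⁻¹ _)) at e1
    rw [ε.symm_apply_apply] at e1
    rw [MulAction.mem_stabilizer_iff, Equiv.Perm.smul_def, Equiv.Perm.eq_inv_iff_eq, ← e1, ε.apply_eq_iff_eq,
      ← MulAction.mem_stabilizer_iff, MulAction.stabilizer_quotient]
  · obtain ⟨p, hp, hP, hd⟩ : ∃ p : ℕ, p.Prime ∧ IsPGroup p H ∧ ¬ p ∣ Nat.card Ω := by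
      rw [Nat.card_eq_fintype_card]
      have : Fintype.card Ω = 1 ∨ Fintype.card Ω = 2 ∨ Fintype.card Ω = 3 := by omega
      rcases this with e | e | e <;> rw [e] at hcard ⊢
      · exact ⟨2, Nat.prime_two, IsPGroup.of_card (n := 0) (by simpa using hcard), by norm_num⟩
      · exact ⟨3, Nat.prime_three, IsPGroup.of_card (n := 0) (by simp [Nat.factorial] at hcard ⊢; omega), by norm_num⟩
      · exact ⟨2, Nat.prime_two, IsPGroup.of_card (n := 1) (by simp [Nat.factorial] at hcard ⊢; omega), by norm_num⟩
    haveI := Fact.mk hp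
    obtain ⟨x, hx⟩ := hP.nonempty_fixed_point_of_prime_not_dvd_card Ω hd
    refine ⟨x, ?_⟩
    have hle : H ≤ MulAction.stabilizer (Equiv.Perm Ω) x := fun g hg => hx ⟨g, hg⟩
    have h1 := Subgroup.relIndex_mul_index hle
    rw [MulAction.index_stabilizer_of_transitive, Nat.card_eq_fintype_card, ← hH] at h1
    refine le_antisymm hle (Subgroup.relIndex_eq_one.1 ?_)
    exact (Nat.mul_eq_right h0).1 h1

end Cfsg.Agent.S5911
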