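import Cfsg.Statements.S5912
import Cfsg.Agent.Known.S6Aut

set_option autoImplicit false
open Cfsg

namespace Cfsg.Agent.S5912

open Equiv MulAction CL.Known.S6

theorem map_conj_stab {Ω : Type*} (g : Perm Ω) (a : Ω) :
    (stabilizer (Perm Ω) a).map (MulAut.conj g).toMonoidHom = stabilizer (Perm Ω) (g a) :=
  (stabilizer_smul_eq_stabilizer_map_conj g a).symm

theorem map_conj_comap {Ω : Type*} (ψ : Perm Ω ≃* Perm Ω) (g : Perm Ω) (a : Ω) :
    ((stabilizer (Perm Ω) a).comap ψ.toMonoidHom).map (MulAut.conj g).toMonoidHom =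
      (stabilizer (Perm Ω) (ψ g a)).comap ψ.toMonoidHom := by
  ext x
  constructor
  · rintro ⟨y, hy, rfl⟩
    have hy' : ψ y a = a := hy
    change ψ (g * y * g⁻¹) (ψ g a) = ψ g a
    simp [hy']
  · intro hx
    have hx' : ψ x (ψ g a) = ψ g a := hx
    refine ⟨g⁻¹ * x * g, ?_, by simp [mul_assoc]⟩
    change ψ (g⁻¹ * x * g) a = a
    simp [hx']


/-- The symmetric group on a 6-element set Ω has exactly two conjugacy classes of subgroups of index 6: there are two non-conjugate subgroups of index 6 (a point stabilizer and a transitive subgroup isomorphic to S₅), and every subgroup of index 6 is conjugate to one of them. -/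
theorem result {Ω : Type*} [Fintype Ω] [DecidableEq Ω] (h6 : Fintype.card Ω = 6) :
    ∃ H₁ H₂ : Subgroup (Equiv.Perm Ω), H₁.index = 6 ∧ H₂.index = 6 ∧
      (¬ ∃ g : Equiv.Perm Ω, Subgroup.map (MulAut.conj g).toMonoidHom H₁ = H₂) ∧
      ∀ H : Subgroup (Equiv.Perm Ω), H.index = 6 →
        ∃ g : Equiv.Perm Ω, Subgroup.map (MulAut.conj g).toMonoidHom H₁ = H ∨ Subgroup.map (MulAut.conj g).toMonoidHom H₂ = H := by
  obtain ⟨ψ, h1, h2⟩ := exists_outer h6
  obtain ⟨a⟩ : Nonempty Ω := Fintype.card_pos_iff.1 (by omega)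
  refine ⟨stabilizer (Perm Ω) a, (stabilizer (Perm Ω) a).comap ψ.toMonoidHom, (index_stab a).trans h6, ?_, ?_, ?_⟩
  · rw [Subgroup.index_comap_of_surjective _ ψ.surjective, index_stab, h6]
  · rintro ⟨g, hg⟩
    rw [map_conj_stab] at hg
    exact h1 _ _ hg.symm
  · intro H hH
    obtain ⟨b, h | h⟩ := h2 H hH
    · exact ⟨swap a b, Or.inl (by rw [map_conj_stab, swap_apply_left, h])⟩
    · exact ⟨ψ.symm (swap a b), Or.inr (by rw [map_conj_comap, ψ.apply_symm_apply, swap_apply_left, h])⟩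

end Cfsg.Agent.S5912
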