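import Cfsg.Statements.S5913
import Cfsg.Agent.Base


set_option autoImplicit false
open Cfsg

namespace Cfsg.Agent.S5913

theorem single_mem {S ι : Type*} [Group S] [IsSimpleGroup S] [DecidableEq ι] (hS : ¬ IsMulCommutative S)
    (N : Subgroup (ι → S)) [hN : N.Normal] {x : ι → S} (hx : x ∈ N) {i : ι} (hi : x i ≠ 1) (s : S) :
    Pi.mulSingle i s ∈ N := by
  have hZ : Subgroup.center S = ⊥ :=
    (IsSimpleGroup.eq_bot_or_eq_top_of_normal _ inferInstance).resolve_right fun h =>
      hS ⟨⟨fun a b => (Subgroup.mem_center_iff.1 (h ▸ Subgroup.mem_top b : b ∈ Subgroup.center S) a)⟩⟩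
  obtain ⟨y, hy⟩ : ∃ y : S, y * x i ≠ x i * y := by
    by_contra hc
    push Not at hc
    exact hi (Subgroup.mem_bot.1 (hZ ▸ Subgroup.mem_center_iff.2 hc))
  have hA : N.comap (MonoidHom.mulSingle (fun _ : ι => S) i) = ⊤ := by
    refine (IsSimpleGroup.eq_bot_or_eq_top_of_normal _ (hN.comap _)).resolve_left fun h => hy ?_
    have h1 : y * x i * y⁻¹ * (x i)⁻¹ ∈ N.comap (MonoidHom.mulSingle (fun _ : ι => S) i) := by
      have h2 := N.mul_mem (hN.conj_mem x hx (Pi.mulSingle i y)) (N.inv_mem hx)
      rw [Subgroup.mem_comap]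
      convert h2 using 1
      ext j
      by_cases hj : j = i
      · subst hj; simp
      · simp [hj]
    rw [h, Subgroup.mem_bot] at h1
    calc y * x i = y * x i * y⁻¹ * (x i)⁻¹ * (x i * y) := by group
      _ = x i * y := by rw [h1, one_mul]
  have : s ∈ N.comap (MonoidHom.mulSingle (fun _ : ι => S) i) := hA ▸ Subgroup.mem_top s
  exact this


/-- Let S be a non-abelian simple group and n a natural number. Every normal subgroup N of the direct power S^n (functions Fin n → S) is a subproduct: there is a set T of coordinates such that N consists exactly of the elements whose coordinates outside T are trivial. In particular the minimal normal subgroups of S^n are its n factors. -/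
theorem result {S : Type*} [Group S] [IsSimpleGroup S] (hS : ¬ IsMulCommutative S) (n : ℕ)
    (N : Subgroup (Fin n → S)) [N.Normal] :
    ∃ T : Finset (Fin n), ∀ x : Fin n → S, x ∈ N ↔ ∀ i, i ∉ T → x i = 1 := by
  classical
  refine ⟨Finset.univ.filter fun i => ∃ x ∈ N, x i ≠ 1, fun x => ⟨fun hx i hi => ?_, fun h => ?_⟩⟩
  · by_contra hne
    exact hi (Finset.mem_filter.2 ⟨Finset.mem_univ _, x, hx, hne⟩)
  · apply Subgroup.pi_mem_of_mulSingle_mem
    intro i
    by_cases hi : ∃ y ∈ N, y i ≠ 1
    · obtain ⟨y, hy, hyi⟩ := hi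
      exact single_mem hS N hy hyi _
    · rw [h i (by simpa using hi), Pi.mulSingle_one]
      exact N.one_mem

end Cfsg.Agent.S5913
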