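import Cfsg.Statements.S5914
import Cfsg.Agent.S5913
import Cfsg.Agent.Perm.PrimCharSimple

set_option autoImplicit false
open Cfsg

namespace Cfsg.Agent.S5914

theorem pi_charSimple {S : Type*} [Group S] [IsSimpleGroup S] (n : ℕ) (H : Subgroup (Fin n → S))
    (hH : H.Characteristic) : H = ⊥ ∨ H = ⊤ := by
  classical
  have hn : H.Normal := inferInstance
  have haut : ∀ (e : (Fin n → S) ≃* (Fin n → S)) x, x ∈ H → e x ∈ H := fun e x hx =>
    (Subgroup.characteristic_iff_le_comap.1 hH e) hx
  rw [or_iff_not_imp_left]
  intro h0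
  obtain ⟨⟨x, hx⟩, hx1⟩ := Subgroup.ne_bot_iff_exists_ne_one.1 h0
  obtain ⟨i, hi⟩ : ∃ i, x i ≠ 1 := by
    by_contra hc
    push Not at hc
    exact hx1 (Subtype.ext (funext hc))
  have hA : ∀ j (t : S), t ≠ 1 → Pi.mulSingle j t ∈ H → ∀ s : S, Pi.mulSingle j s ∈ H := by
    intro j t ht hj s
    have : H.comap (MonoidHom.mulSingle (fun _ : Fin n => S) j) = ⊤ :=
      (IsSimpleGroup.eq_bot_or_eq_top_of_normal _ (hn.comap _)).resolve_left fun h => ht (by
        have h1 : t ∈ H.comap (MonoidHom.mulSingle (fun _ : Fin n => S) j) := hj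
        rwa [h, Subgroup.mem_bot] at h1)
    have h2 : s ∈ H.comap (MonoidHom.mulSingle (fun _ : Fin n => S) j) := this ▸ Subgroup.mem_top s
    exact h2
  obtain ⟨j, hj⟩ : ∃ j, ∀ s : S, Pi.mulSingle j s ∈ H := by
    by_cases hS : IsMulCommutative S
    · by_cases hj : ∃ j, j ≠ i
      · obtain ⟨j, hj⟩ := hj
        have hc : ∀ a b : S, a * b = b * a := fun a b => hS.is_comm.comm a b
        let e : (Fin n → S) ≃* (Fin n → S) :=
          { toFun := fun y => Pi.mulSingle j (y i) * y
            invFun := fun y => (Pi.mulSingle j (y i))⁻¹ * y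
            left_inv := fun y => by simp [hj.symm]
            right_inv := fun y => by simp [hj.symm]
            map_mul' := fun a b => by
              ext k
              by_cases hk : k = j
              · subst hk
                simp only [Pi.mul_apply, Pi.mulSingle_eq_same]
                rw [mul_assoc, mul_assoc, ← mul_assoc (b i), hc (b i), mul_assoc]
              · simp [hk] }
        refine ⟨j, hA j (x i) hi ?_⟩
        have := H.mul_mem (haut e x hx) (H.inv_mem hx)
        simpa [e] using this
      · push Not at hj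
        refine ⟨i, hA i (x i) hi ?_⟩
        convert hx using 1
        ext k
        rw [hj k]; simp
    · exact ⟨i, Cfsg.Agent.S5913.single_mem hS H hx hi⟩
  rw [eq_top_iff]
  intro y _
  apply Subgroup.pi_mem_of_mulSingle_mem
  intro k
  have := haut (MulEquiv.arrowCongr (Equiv.swap j k) (MulEquiv.refl S)) _ (hj (y k))
  convert this using 1
  ext l
  by_cases hl : l = k
  · subst hl; simp
  · have : Equiv.swap j k l ≠ j := fun h => hl (by
      have := congrArg (Equiv.swap j k) h
      simpa using this)
    simp [hl, this]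


/-- A non-trivial finite group G is characteristically simple (its only characteristic subgroups are 1 and G) if and only if G is isomorphic to a direct power S^n (n ≥ 1) of some simple group S (possibly cyclic of prime order). -/
theorem result {G : Type*} [Group G] [Finite G] [Nontrivial G] :
    (∀ H : Subgroup G, H.Characteristic → H = ⊥ ∨ H = ⊤) ↔
    ∃ (S : Type) (_ : Group S) (_ : IsSimpleGroup S) (n : ℕ), 1 ≤ n ∧ Nonempty (G ≃* (Fin n → S)) := by
  constructor
  · intro h
    obtain ⟨T, _, m, h1, h2, h3⟩ := CL.Perm.exists_simple_pi_of_charSimple h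
    exact ⟨T, inferInstance, h1, m, h2, h3⟩
  · rintro ⟨S, _, _, n, _, ⟨e⟩⟩ H hH
    have : (H.map e.toMonoidHom).Characteristic := by
      rw [Subgroup.characteristic_iff_le_comap] at hH ⊢
      rintro φ _ ⟨x, hx, rfl⟩
      exact ⟨_, hH ((e.trans φ).trans e.symm) hx, by simp⟩
    rcases pi_charSimple n _ this with h | h
    · exact Or.inl ((Subgroup.map_eq_bot_iff_of_injective _ e.injective).1 h)
    · right
      apply Subgroup.map_injective (f := e.toMonoidHom) e.injective
      rw [h, Subgroup.map_top_of_surjective _ e.surjective]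

end Cfsg.Agent.S5914
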