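import Cfsg.Statements.S5918
import Cfsg.Agent.Inv.E8sD1
import Cfsg.Agent.Inv.E8sG2
import Cfsg.Agent.Inv.E8sL
import Cfsg.Agent.Inv.E8sS
import Cfsg.Agent.Inv.E8sU2
import Cfsg.Agent.Cls.OrthIso6Minus
import Cfsg.Agent.Blk.DefectNum

set_option autoImplicit false
open Cfsg
open CL.E8s CL.Blk

namespace Cfsg.Agent.S5918

/-- Let G be the Chevalley group of type E₈ over the field with three elements (generated by its root elements in the 248-dimensional adjoint representation; it is the simple group E₈(3)). Then G has no subgroup isomorphic to any of PSL₂(41), PSL₂(32), PSU₄(3) or PSp₆(3). Here F₄₁, F₃₂, F₉ denote fields with 41, 32 and 9 elements (PSU₄(3) is realised over F₉), and PSp₆(3) is the quotient of the symplectic group of 6 × 6 matrices over the field with three elements by its centre. -/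
theorem result
    {F₄₁ F₃₂ F₉ : Type*} [Field F₄₁] [Fintype F₄₁] (h41 : Fintype.card F₄₁ = 41) [Field F₃₂] [Fintype F₃₂] (h32 : Fintype.card F₃₂ = 32)
    [Field F₉] [Fintype F₉] (h9 : Fintype.card F₉ = 9) (H : Subgroup ↥(Cfsg.Lie.chevE8.group (ZMod 3))) :
    IsEmpty (↥H ≃* Matrix.ProjectiveSpecialLinearGroup (Fin 2) F₄₁) ∧ IsEmpty (↥H ≃* Matrix.ProjectiveSpecialLinearGroup (Fin 2) F₃₂) ∧
    IsEmpty (↥H ≃* Cfsg.PSU 4 F₉ 3) ∧ IsEmpty (↥H ≃* Cfsg.PSp 3 (ZMod 3)) := by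
  obtain ⟨M, hM⟩ := exists_isPModular' Nat.prime_three
  have := charP_resField hM
  have hg := good_rep hM (ZMod.castHom (dvd_refl 3) (resField M))
  have hi := rep_inj (ZMod.castHom (dvd_refl 3) (resField M))
  refine ⟨noL41 h41 H, ⟨fun e => ?_⟩, ⟨fun e => ?_⟩, ⟨fun e => ?_⟩⟩
  · obtain ⟨φ, hφ⟩ := exists_hom_center e
    exact noL32 hM h32 _ _ (hg.comp φ) fun g => (map_eq_one_iff _ hi).trans (hφ g)
  · obtain ⟨e'⟩ := CL.Cls.nonempty_psu_equiv_of_card_eq (h9.trans CL.U43.card_F9.symm) 4 3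
    obtain ⟨φ, hφ⟩ := exists_hom_center (e.trans e')
    exact noSU4 _ _ (hg.comp φ) fun g => (map_eq_one_iff _ hi).trans (hφ g)
  · obtain ⟨φ, hφ⟩ := exists_hom_center e
    exact noSp6 _ _ (hg.comp φ) fun g => (map_eq_one_iff _ hi).trans (hφ g)

end Cfsg.Agent.S5918
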